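import Mathlib
import Cfsg.Agent.FGS.TwoSizes
import Cfsg.Agent.FGS.FrobCS
import Cfsg.Agent.SOLV.OddOrderCor

/-!
# Groups with abelian Sylow 2-subgroups and a 2-complement are solvable
-/

set_option linter.style.haveILetI false
set_option autoImplicit false

namespace CL.CS

open Subgroup Cfsg
open scoped commutatorElement Pointwise

universe u

section

variable {G : Type*} [Group G] [Finite G]

omit [Finite G] in
/-- Two involutions with product of odd order are conjugate by an element of square one. -/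
theorem exists_sq_eq_one_conj {s u : G} (hs : s * s = 1) (hu : u * u = 1)
    (h : Odd (orderOf (s * u))) : ∃ a : G, a * a = 1 ∧ a * s * a⁻¹ = u := by
  obtain ⟨k, hk⟩ := h
  have hs' : s⁻¹ = s := inv_eq_of_mul_eq_one_right hs
  have hu' : u⁻¹ = u := inv_eq_of_mul_eq_one_right hu
  have h1 : s * (s * u) * s⁻¹ = (s * u)⁻¹ := by
    rw [← mul_assoc, hs, one_mul, mul_inv_rev, hu']
  have h2 : s * (s * u) ^ k * s⁻¹ = ((s * u) ^ k)⁻¹ := by rw [← conj_pow, h1, inv_pow]
  have h3 : (s * u) ^ k * (s * u) ^ k = (s * u)⁻¹ := by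
    rw [eq_inv_iff_mul_eq_one, ← pow_add, ← pow_succ, ← two_mul, ← hk, pow_orderOf_eq_one]
  refine ⟨(s * u) ^ k * s, ?_, ?_⟩
  · calc (s * u) ^ k * s * ((s * u) ^ k * s) = (s * u) ^ k * (s * (s * u) ^ k * s⁻¹) := by
          rw [hs']; group
      _ = 1 := by rw [h2]; group
  · calc (s * u) ^ k * s * s * ((s * u) ^ k * s)⁻¹
          = (s * u) ^ k * (s * (s * u) ^ k * s⁻¹)⁻¹ * (s * s) * s⁻¹ * s⁻¹ * s := by group
      _ = (s * u) ^ k * (s * u) ^ k * s⁻¹ * s⁻¹ * s := by rw [h2, hs]; group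
      _ = u := by rw [h3, mul_inv_rev, hu', hs', mul_assoc u, mul_assoc u, mul_assoc u, hs]; 
                  rw [one_mul, hs, mul_one]

/-- In a solvable group with abelian Sylow `p`-subgroup `P` and `O_{p'} = 1`, `P` is normal. -/
theorem sylow_normal_of_comm_of_pPrimeCore_eq_bot [Group.IsSolvable G] {p : ℕ} [Fact p.Prime]
    (P : Sylow p G) [IsMulCommutative (P : Subgroup G)] (h : pPrimeCore p G = ⊥) :
    (P : Subgroup G).Normal := by
  have h1 : fittingSubgroup G ≤ P := by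
    rw [CL.fittingSubgroup_eq_pCore h, ← CL.normalCore_sylow_eq_pCore P]
    exact normalCore_le _
  have h2 : (P : Subgroup G) ≤ fittingSubgroup G :=
    (CL.le_centralizer_of_le_of_isMulCommutative h1).trans (CL.centralizer_fittingSubgroup_le G)
  rw [← le_antisymm h1 h2]
  infer_instance

theorem isMulCommutative_sylow_of_surjective {G' : Type*} [Group G'] {p : ℕ} [Fact p.Prime]
    (P : Sylow p G) [IsMulCommutative (P : Subgroup G)] {f : G →* G'} (hf : Function.Surjective f)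
    (Q : Sylow p G') : IsMulCommutative (Q : Subgroup G') := by
  haveI : Finite G' := Finite.of_surjective f hf
  refine FGS.isMulCommutative_of_isPGroup_of_sylow (P.mapSurjective hf) ?_ Q.isPGroup'
  rw [Sylow.coe_mapSurjective]
  infer_instance

theorem isMulCommutative_sylow_subgroup {p : ℕ} [Fact p.Prime]
    (P : Sylow p G) [hP : IsMulCommutative (P : Subgroup G)] (H : Subgroup G)
    (Q : Sylow p H) : IsMulCommutative (Q : Subgroup H) := by
  haveI := FGS.isMulCommutative_of_isPGroup_of_sylow P hP (Q.isPGroup'.map H.subtype)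
  exact ⟨⟨fun a b => Subtype.ext (Subtype.ext
    (setLike_mul_comm (s := (Q : Subgroup H).map H.subtype) ⟨a, a.2, rfl⟩ ⟨b, b.2, rfl⟩))⟩⟩

end

theorem isSolvable_of_abelian_two_complement (G : Type u) [Group G] [Finite G]
    (hP : ∀ P : Sylow 2 G, IsMulCommutative (P : Subgroup G))
    (hY : ∃ (Y : Subgroup G) (k : ℕ), ¬ 2 ∣ Nat.card Y ∧ Y.index ∣ 2 ^ k) : Group.IsSolvable G := by
  revert hP hY
  refine CL.card_induction (P := fun G _ _ =>
    (∀ P : Sylow 2 G, IsMulCommutative (P : Subgroup G)) →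
    (∃ (Y : Subgroup G) (k : ℕ), ¬ 2 ∣ Nat.card Y ∧ Y.index ∣ 2 ^ k) → Group.IsSolvable G) ?_ G
  intro G _ _ ih hP ⟨Y, k, hYo, hYi⟩
  obtain ⟨P⟩ : Nonempty (Sylow 2 G) := inferInstance
  haveI := hP P
  by_contra hns
  haveI : Nontrivial G := by
    by_contra h
    haveI := not_nontrivial_iff_subsingleton.1 h
    exact hns inferInstance
  have hsub : ∀ W : Subgroup G, W ≠ ⊤ → Y.relIndex W ∣ 2 ^ k → Group.IsSolvable W := by
    intro W hW hd
    refine ih W (CL.card_lt_of_ne_top hW) (isMulCommutative_sylow_subgroup P W)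
      ⟨Y.subgroupOf W, k, fun h => hYo (h.trans ?_), hd⟩
    rw [card_subgroupOf_eq]
    exact card_dvd_of_le inf_le_left
  haveI hsimple : IsSimpleGroup G := ⟨fun N hN => by
    by_contra hne
    push Not at hne
    have h1 := hsub N hne.2 ((relIndex_dvd_index_of_normal_right Y N).trans hYi)
    have h2 := ih (G ⧸ N) (CL.card_quotient_lt hne.1)
      (isMulCommutative_sylow_of_surjective P (QuotientGroup.mk'_surjective N))
      ⟨Y.map (QuotientGroup.mk' N), k, fun h => hYo (h.trans (card_map_dvd _ _)),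
        (index_map_dvd _ (QuotientGroup.mk'_surjective N)).trans hYi⟩
    exact hns (Group.isSolvable_of_ker_le_range N.subtype (QuotientGroup.mk' N) (by simp))⟩
  obtain ⟨l, -, hYl⟩ := (Nat.dvd_prime_pow Nat.prime_two).1 hYi
  have hPY := exists_mul_sylow_of_index_eq_pow hYl P
  have hYP : ∀ g ∈ Y, g ∈ (P : Subgroup G) → g = 1 := by
    intro g h1 h2
    obtain ⟨j, hj⟩ := pow_eq_one_of_mem_isPGroup P.isPGroup' h2
    exact mem_bot.1 (mem_of_pow_mem_of_coprime
      ((Nat.prime_two.coprime_iff_not_dvd.2 hYo).pow_left j) (mem_bot.2 hj)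
      (mem_bot.2 (orderOf_dvd_iff_pow_eq_one.1 (Y.orderOf_dvd_natCard h1))))
  have hPn : ∀ N : Subgroup G, N.Normal → N ≤ P → N = ⊥ := by
    intro N hN hle
    refine (hN.eq_bot_or_eq_top).resolve_right fun e => hns ?_
    exact CL.isSolvable_of_isPGroup (p := 2)
      ((P.isPGroup'.to_le (e ▸ hle : ⊤ ≤ (P : Subgroup G))).of_equiv topEquiv)
  have hYn : ∀ N : Subgroup G, N.Normal → N ≤ Y → N = ⊥ := by
    intro N hN hle
    refine (hN.eq_bot_or_eq_top).resolve_right fun e => hns ?_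
    refine CL.isSolvable_of_not_two_dvd G fun h => hYo ?_
    rwa [show Y = ⊤ from top_le_iff.1 (e ▸ hle), card_top]
  have hW : ∀ W : Subgroup G, W ≠ ⊤ → (P : Subgroup G) ≤ W →
      W ≤ normalizer ((P : Subgroup G) : Set G) := by
    intro W hW hPW
    have h1 : Y.relIndex W = Y.index := CL.relIndex_eq_index_of_forall_exists_mul W Y fun g => by
      obtain ⟨a, ha, b, hb, e⟩ := hPY g
      exact ⟨a, hPW ha, b, hb, e⟩
    haveI := hsub W hW (h1 ▸ hYi)
    haveI := isMulCommutative_sylow_subgroup P W (P.subtype hPW)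
    have h2 : pPrimeCore 2 W = ⊥ := by
      have h3 : pPrimeCore 2 W ≤ Y.subgroupOf W := by
        rw [← relIndex_eq_one]
        refine Nat.eq_one_of_dvd_coprimes (a := 2 ^ k) (b := Nat.card (pPrimeCore 2 W))
          ((CL.coprime_card_pPrimeCore 2 W).symm.pow_left k) ?_ (relIndex_dvd_card _ _)
        exact (relIndex_dvd_index_of_normal_right _ _).trans (h1.dvd.trans hYi)
      rw [eq_bot_iff]
      intro x hx
      have h4 : (x : G) ∈ Y.normalCore := by
        intro g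
        obtain ⟨a, ha, b, hb, e⟩ := hPY g⁻¹
        have h5 := h3 ((inferInstance : (pPrimeCore 2 W).Normal).conj_mem x hx ⟨a, hPW ha⟩⁻¹)
        have h6 : a⁻¹ * x * a ∈ Y := by simpa [mem_subgroupOf] using h5
        have e' : g * x * g⁻¹ = b⁻¹ * (a⁻¹ * x * a) * b := by
          rw [← inv_inv g, e]; group
        rw [e']
        exact mul_mem (mul_mem (inv_mem hb) h6) hb
      rw [hYn _ inferInstance (normalCore_le Y)] at h4
      exact mem_bot.2 (Subtype.ext (mem_bot.1 h4))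
    have h3 := sylow_normal_of_comm_of_pPrimeCore_eq_bot (P.subtype hPW) h2
    rw [Sylow.coe_subtype] at h3
    exact (normal_subgroupOf_iff_le_normalizer hPW).1 h3
  set M := normalizer ((P : Subgroup G) : Set G) with hM
  have hZ : center G = ⊥ := by
    refine ((inferInstance : (center G).Normal).eq_bot_or_eq_top).resolve_right fun e => hns ?_
    exact Group.isSolvable_of_comm fun a b => (mem_center_iff.1 (e ▸ mem_top b) a)
  have hC : ∀ t ∈ (P : Subgroup G), t ≠ 1 → centralizer {t} ≤ M := by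
    intro t ht ht1
    refine hW _ (fun e => ht1 ?_) fun g hg => mem_cen.2 (setLike_mul_comm hg ht)
    exact mem_bot.1 (hZ ▸ cen_eq_top_iff.1 e)
  have hMP : ∀ g ∈ M, ∀ j : ℕ, g ^ 2 ^ j = 1 → g ∈ (P : Subgroup G) := fun g hg j hj =>
    FGS.mem_sylow_of_mem_normalizer_of_pow_eq_one P hg hj
  have hcomm : _root_.commutator G = ⊤ := by
    refine ((inferInstance : (_root_.commutator G).Normal).eq_bot_or_eq_top).resolve_left
      fun e => hns ?_
    exact ⟨⟨1, by rw [derivedSeries_one, e]⟩⟩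
  have h2P : 2 ∣ Nat.card (P : Subgroup G) := by
    refine P.dvd_card_of_dvd_card ?_
    by_contra h
    exact hns (CL.isSolvable_of_not_two_dvd G h)
  obtain ⟨⟨s, hsP⟩, hso⟩ := exists_prime_orderOf_dvd_card' 2 h2P
  rw [Subgroup.orderOf_mk] at hso
  have hs1 : s ≠ 1 := by rintro rfl; simp at hso
  have hss : s * s = 1 := by rw [← pow_two, ← hso, pow_orderOf_eq_one]
  obtain ⟨n, hnM, hns'⟩ : ∃ n ∈ M, n ∉ centralizer ({s} : Set G) := by
    by_contra hcon
    push Not at hcon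
    exact hs1 (eq_one_of_abelian_sylow P inferInstance hsP (hcomm ▸ mem_top s) hcon)
  set t := n * s * n⁻¹ with ht
  have htP : t ∈ (P : Subgroup G) := (mem_normalizer_iff.1 hnM s).1 hsP
  have hts : t ≠ s := fun e => hns' (mem_cen.2 (mul_inv_eq_iff_eq_mul.1 e))
  have ht1 : t ≠ 1 := fun e => hs1 (conj_eq_one_iff.1 e)
  have htt : t * t = 1 := by rw [ht, conj_mul, hss]; group
  obtain ⟨g, hg⟩ : ∃ g : G, g * s * g⁻¹ ∉ M := by
    by_contra hcon
    push Not at hcon
    have h1 : normalClosure ({s} : Set G) ≤ P := by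
      refine (closure_le _).2 fun x hx => ?_
      obtain ⟨y, hy, hc⟩ := Group.mem_conjugatesOfSet_iff.1 hx
      obtain ⟨g, rfl⟩ := isConj_iff.1 hc
      rw [Set.mem_singleton_iff.1 hy]
      exact hMP _ (hcon g) 1 (by rw [pow_one, pow_two, conj_mul, hss]; group)
    have h2 := hPn _ inferInstance h1
    exact hs1 (mem_bot.1 (h2 ▸ subset_normalClosure (Set.mem_singleton s)))
  set v := g * s * g⁻¹ with hv
  have hvv : v * v = 1 := by rw [hv, conj_mul, hss]; group
  have hodd : ∀ r ∈ (P : Subgroup G), r ≠ 1 → r * r = 1 → Odd (orderOf (r * v)) := by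
    intro r hr hr1 hrr
    by_contra hev
    obtain ⟨m, hm⟩ := Nat.not_odd_iff_even.1 hev
    have hr' : r⁻¹ = r := inv_eq_of_mul_eq_one_right hrr
    have hv' : v⁻¹ = v := inv_eq_of_mul_eq_one_right hvv
    have hpos := orderOf_pos (r * v)
    have hz1 : (r * v) ^ m ≠ 1 := pow_ne_one_of_lt_orderOf (by omega) (by omega)
    have hzz : (r * v) ^ m * (r * v) ^ m = 1 := by rw [← pow_add, ← hm, pow_orderOf_eq_one]
    have h1 : r * (r * v) * r⁻¹ = (r * v)⁻¹ := by
      rw [← mul_assoc, hrr, one_mul, mul_inv_rev, hv']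
    have h2 : r * (r * v) ^ m * r⁻¹ = (r * v) ^ m := by
      rw [← conj_pow, h1, inv_pow, inv_eq_of_mul_eq_one_right hzz]
    have h3 : Commute ((r * v) ^ m) r := (mul_inv_eq_iff_eq_mul.1 h2).symm
    have h4 : Commute ((r * v) ^ m) v := by
      have := h3.inv_right.mul_right ((Commute.refl (r * v)).pow_left m)
      rwa [inv_mul_cancel_left] at this
    have h5 := hMP _ (hC r hr hr1 (mem_cen.2 h3)) 1 (by rw [pow_one, pow_two, hzz])
    exact hg (hC _ h5 hz1 (mem_cen.2 h4.symm))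
  obtain ⟨a, haa, has⟩ := exists_sq_eq_one_conj hss hvv (hodd s hsP hs1 hss)
  obtain ⟨b, hbb, hbt⟩ := exists_sq_eq_one_conj htt hvv (hodd t htP ht1 htt)
  have ha' : a⁻¹ = a := inv_eq_of_mul_eq_one_right haa
  have hb' : b⁻¹ = b := inv_eq_of_mul_eq_one_right hbb
  have hms : b⁻¹ * a * s * (b⁻¹ * a)⁻¹ = t := by
    calc b⁻¹ * a * s * (b⁻¹ * a)⁻¹ = b⁻¹ * (a * s * a⁻¹) * b := by group
      _ = t := by rw [has, ← hbt]; group
  set m := b⁻¹ * a with hm
  have hinv : a * m * a⁻¹ = m⁻¹ := by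
    rw [hm, mul_inv_rev, inv_inv, hb', mul_assoc, mul_assoc, mul_inv_cancel, mul_one, ha']
  have hmM : m ∈ M := by
    have h1 : ∀ x ∈ (P : Subgroup G), m * x * m⁻¹ ∈ (P : Subgroup G) := by
      intro x hx
      obtain ⟨j, hj⟩ := pow_eq_one_of_mem_isPGroup P.isPGroup' hx
      refine hMP _ (hC t htP ht1 (mem_cen.2 ?_)) j (by rw [conj_pow, hj]; group)
      rw [← hms]
      exact (show Commute x s from setLike_mul_comm hx hsP).conj m
    exact mem_normalizer_fintype h1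
  obtain ⟨m₁, m₂, hm₁, hm₂, ⟨j, hj⟩, hm₂o, e⟩ := CL.exists_p_part_mul_p'_part (p := 2) m
  have hm₂1 : m₂ ≠ 1 := by
    rintro rfl
    have h1 : m ∈ (P : Subgroup G) := by
      rw [e, mul_one]; exact hMP _ (zpowers_le.2 hmM hm₁) j hj
    exact hts (by rw [← hms, setLike_mul_comm h1 hsP]; group)
  obtain ⟨r, hr, hrd⟩ := Nat.exists_prime_and_dvd (fun h => hm₂1 (orderOf_eq_one_iff.1 h))
  haveI := Fact.mk hr
  have hr2 : r.Coprime 2 := hm₂o.coprime_dvd_left hrd
  obtain ⟨⟨w, hw⟩, hwo⟩ := exists_prime_orderOf_dvd_card' (G := zpowers m₂) r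
    (by rwa [Nat.card_zpowers])
  rw [Subgroup.orderOf_mk] at hwo
  have hwm : w ∈ zpowers m := zpowers_le.2 hm₂ hw
  have hwM : w ∈ M := zpowers_le.2 hmM hwm
  have hwinv : a * w * a⁻¹ = w⁻¹ := by
    obtain ⟨i, rfl⟩ := hwm
    simp only
    rw [← conj_zpow, hinv, inv_zpow]
  obtain ⟨c, hc⟩ : ∃ c : G, c⁻¹ * w * c ∈ Y := by
    obtain ⟨R, hR⟩ := exists_sylow_le_of_not_dvd_index (p := r) (H := Y) (by
      rw [hYl]; exact hr.coprime_iff_not_dvd.1 (hr2.pow_right l))
    obtain ⟨R', hR'⟩ := FGS.exists_sylow_mem_of_pow_eq_one (p := r) (k := 1) (x := w)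
      (by rw [pow_one, ← hwo, pow_orderOf_eq_one])
    obtain ⟨c, rfl⟩ := MulAction.exists_smul_eq G R R'
    rw [Sylow.coe_subgroup_smul, mem_conj_smul_iff'] at hR'
    exact ⟨c, hR hR'⟩
  have key : ∀ c : G, c⁻¹ * w * c ∈ Y → ∃ p ∈ (P : Subgroup G), ∃ y ∈ Y, c = p * y ∧
      p⁻¹ * w * p ∈ Y := by
    intro c hc
    obtain ⟨p, hp, y, hy, rfl⟩ := hPY c
    refine ⟨p, hp, y, hy, rfl, ?_⟩
    have := mul_mem (mul_mem hy hc) (inv_mem hy)
    simpa [mul_assoc] using this
  obtain ⟨p, hp, -, -, -, hpw⟩ := key c hc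
  obtain ⟨p', hp', y, hy, e', hp'w⟩ := key (a⁻¹ * p) (by
    have : (a⁻¹ * p)⁻¹ * w * (a⁻¹ * p) = (p⁻¹ * w * p)⁻¹ := by
      calc (a⁻¹ * p)⁻¹ * w * (a⁻¹ * p) = p⁻¹ * (a * w * a⁻¹) * p := by group
        _ = _ := by rw [hwinv]; group
    rw [this]; exact inv_mem hpw)
  have h1 : p'⁻¹ * w * p' = p⁻¹ * w * p := by
    rw [← mul_inv_eq_one]
    refine hYP _ (mul_mem hp'w (inv_mem hpw)) ?_
    have e1 : p'⁻¹ * w * p' * (p⁻¹ * w * p)⁻¹ = p'⁻¹ * (w * (p' * p⁻¹) * w⁻¹) * p := by group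
    rw [e1]
    exact mul_mem (mul_mem (inv_mem hp') ((mem_normalizer_iff.1 hwM _).1
      (mul_mem hp' (inv_mem hp)))) hp
  have h2 : y * (p⁻¹ * w * p)⁻¹ * y⁻¹ = p⁻¹ * w * p := by
    have e1 : y = p'⁻¹ * (a⁻¹ * p) := by rw [e']; group
    calc y * (p⁻¹ * w * p)⁻¹ * y⁻¹ = p'⁻¹ * (a⁻¹ * w⁻¹ * a) * p' := by rw [e1]; group
      _ = p'⁻¹ * w * p' := by rw [← hwinv]; group
      _ = _ := h1
  set w' := p⁻¹ * w * p with hw'
  have h3 : Commute (y ^ 2) w' := by
    have h4 : y * w' * y⁻¹ = w'⁻¹ := by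
      calc y * w' * y⁻¹ = (y * w'⁻¹ * y⁻¹)⁻¹ := by group
        _ = w'⁻¹ := by rw [h2]
    show y ^ 2 * w' = w' * y ^ 2
    calc y ^ 2 * w' = y * (y * w' * y⁻¹) * y := by simp only [pow_two, mul_assoc, inv_mul_cancel, mul_one]
      _ = (y * w'⁻¹ * y⁻¹) * y ^ 2 := by rw [h4, pow_two]; group
      _ = _ := by rw [h2]
  have h5 : y ∈ centralizer ({w'} : Set G) :=
    mem_of_pow_mem_of_coprime (Nat.prime_two.coprime_iff_not_dvd.2 hYo) (mem_cen.2 h3)
      (by rw [orderOf_dvd_iff_pow_eq_one.1 (Y.orderOf_dvd_natCard hy)]; exact one_mem _)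
  rw [(mem_cen.1 h5).inv_right.eq, mul_inv_cancel_right, inv_eq_iff_mul_eq_one, hw'] at h2
  have h6 : w ^ 2 = 1 := by
    calc w ^ 2 = p * (p⁻¹ * w * p * (p⁻¹ * w * p)) * p⁻¹ := by rw [pow_two]; group
      _ = 1 := by rw [h2]; group
  have h7 := orderOf_dvd_of_pow_eq_one h6
  rw [hwo] at h7
  exact hr.one_lt.ne' (Nat.eq_one_of_dvd_coprimes hr2 dvd_rfl h7)

/-- With abelian Sylow 2-subgroups, the quotient by the core of a subgroup of 2-power index is
solvable. -/
theorem isSolvable_quotient_normalCore_of_index_two_pow {G : Type*} [Group G] [Finite G]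
    (P : Sylow 2 G) [IsMulCommutative (P : Subgroup G)] {H : Subgroup G} {k : ℕ}
    (hH : H.index = 2 ^ k) : Group.IsSolvable (G ⧸ H.normalCore) := by
  set f := QuotientGroup.mk' H.normalCore with hf
  refine isSolvable_of_abelian_two_complement _
    (isMulCommutative_sylow_of_surjective P (QuotientGroup.mk'_surjective _))
    ⟨H.map f, k, fun hd => ?_, hH ▸ index_map_dvd _ (QuotientGroup.mk'_surjective _)⟩
  rw [← relIndex_ker, hf, QuotientGroup.ker_mk'] at hd
  obtain ⟨g, hg, hgc, j, hj⟩ := exists_pElement_not_mem_of_dvd_relIndex hd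
  obtain ⟨Q, hQ⟩ := FGS.exists_sylow_mem_of_pow_eq_one hj
  haveI := FGS.isMulCommutative_of_isPGroup_of_sylow P inferInstance Q.isPGroup'
  refine hgc fun c => ?_
  obtain ⟨a, ha, b, hb, e⟩ := exists_mul_sylow_of_index_eq_pow hH Q c⁻¹
  have e' : c * g * c⁻¹ = b⁻¹ * (a⁻¹ * g * a) * b := by
    rw [← inv_inv c, e]; group
  rw [e', mul_assoc a⁻¹, setLike_mul_comm hQ ha, inv_mul_cancel_left]
  exact mul_mem (mul_mem (inv_mem hb) hg) hb

/-- In a group with abelian Sylow subgroups, `G' ∩ Z(G) = 1`. -/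
theorem eq_one_of_mem_commutator_center {G : Type*} [Group G] [Finite G]
    (hA : ∀ (p : ℕ) [Fact p.Prime] (P : Sylow p G), IsMulCommutative (P : Subgroup G)) {z : G}
    (h1 : z ∈ _root_.commutator G) (h2 : z ∈ center G) : z = 1 := by
  refine mem_bot.1 (mem_of_forall_primePow_mem fun w hw q j hq hj => mem_bot.2 ?_)
  haveI := Fact.mk hq
  obtain ⟨Q, hQ⟩ := FGS.exists_sylow_mem_of_pow_eq_one hj
  exact eq_one_of_abelian_sylow Q (hA q Q) hQ (zpowers_le.2 h1 hw)
    (by rw [cen_eq_top_iff.2 (zpowers_le.2 h2 hw)]; exact le_top)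

end CL.CS
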