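import Mathlib
import Cfsg.Agent.PERM.CG

/-!
Kernel-checked identities between formal sums of group elements acting on a vector,
and enumeration of small coded groups.
-/

set_option autoImplicit false

namespace CL.AS

open CL.K CL.CG
open scoped commutatorElement

/-- formal sums: coefficient, code -/
abbrev FS := List (ℕ × ℕ)

section ev
variable {W : Type*} [AddCommMonoid W]

/-- value of a formal sum -/
def ev (F : ℕ → W) (L : FS) : W := (L.map fun t => t.1 • F t.2).sum

@[simp] theorem ev_nil (F : ℕ → W) : ev F [] = 0 := rfl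
theorem ev_cons (F : ℕ → W) (t : ℕ × ℕ) (L : FS) : ev F (t :: L) = t.1 • F t.2 + ev F L := by
  simp [ev]
theorem ev_append (F : ℕ → W) (A B : FS) : ev F (A ++ B) = ev F A + ev F B := by simp [ev]

theorem map_ev {W' M : Type*} [AddCommMonoid W'] [FunLike M W W'] [AddMonoidHomClass M W W']
    (f : M) (F : ℕ → W) (L : FS) : f (ev F L) = ev (fun c => f (F c)) L := by
  induction L with
  | nil => simp
  | cons t L ih => rw [ev_cons, ev_cons, map_add, map_nsmul, ih]

/-- evaluate a formal sum before passing it on -/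
noncomputable def forceF {β : Type} (L : FS) : (FS → β) → β :=
  List.rec (motive := fun _ => (FS → β) → β) (fun k => k [])
    (fun t _ ih k => Prod.rec (motive := fun _ => β)
      (fun a b => force a fun a => force b fun b => ih fun l => k ((a, b) :: l)) t) L

theorem forceF_eq {β : Type} (L : FS) (k : FS → β) : forceF L k = k L := by
  induction L generalizing k with
  | nil => rfl
  | cons t L ih =>
    obtain ⟨a, b⟩ := t
    show (force a fun a => force b fun b => forceF L fun l => k ((a, b) :: l)) = _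
    rw [force_eq, force_eq, ih]

/-- evaluate a list of formal sums -/
noncomputable def forceFF {β : Type} (L : List FS) : (List FS → β) → β :=
  List.rec (motive := fun _ => (List FS → β) → β) (fun k => k [])
    (fun t _ ih k => forceF t fun t => ih fun l => k (t :: l)) L

theorem forceFF_eq {β : Type} (L : List FS) (k : List FS → β) : forceFF L k = k L := by
  induction L generalizing k with
  | nil => rfl
  | cons t L ih =>
    show (forceF t fun t => forceFF L fun l => k (t :: l)) = _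
    rw [forceF_eq, ih]

/-- add a term -/
noncomputable def ins (k c : ℕ) (L : FS) : FS :=
  List.rec (motive := fun _ => FS) [(k, c)]
    (fun t L' ih => Bool.rec (motive := fun _ => FS) (t :: ih) ((Nat.add t.1 k, c) :: L')
      (Nat.beq t.2 c)) L

theorem ev_ins (F : ℕ → W) (k c : ℕ) (L : FS) : ev F (ins k c L) = k • F c + ev F L := by
  induction L with
  | nil => exact ev_cons _ _ _
  | cons t L ih =>
    show ev F (Bool.rec (motive := fun _ => FS) (t :: ins k c L) ((Nat.add t.1 k, c) :: L)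
      (Nat.beq t.2 c)) = _
    cases h : Nat.beq t.2 c
    · show ev F (t :: ins k c L) = _
      rw [ev_cons, ih, ev_cons]; abel
    · show ev F ((t.1 + k, c) :: L) = _
      rw [ev_cons, ev_cons, eq_of_beq h, add_nsmul]; abel

/-- collect equal terms -/
noncomputable def collect (L : FS) : FS → FS :=
  List.rec (motive := fun _ => FS → FS) (fun acc => acc)
    (fun t _ ih acc => Prod.rec (motive := fun _ => FS)
      (fun k c => force k fun k => force c fun c => forceF (ins k c acc) ih) t) L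

theorem ev_collect (F : ℕ → W) (L acc : FS) : ev F (collect L acc) = ev F L + ev F acc := by
  induction L generalizing acc with
  | nil => simp [collect]
  | cons t L ih =>
    obtain ⟨k, c⟩ := t
    show ev F (force k fun k => force c fun c => forceF (ins k c acc) (collect L)) = _
    rw [force_eq, force_eq, forceF_eq, ih, ev_ins, ev_cons]; abel

/-- all coefficients are divisible by `p` -/
noncomputable def zeroB (p : ℕ) (L : FS) : Bool := lall (fun t => Nat.beq (Nat.mod t.1 p) 0) L

theorem ev_of_zeroB {p : ℕ} (hp : ∀ w : W, p • w = 0) (F : ℕ → W) {L : FS}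
    (h : zeroB p L = true) : ev F L = 0 := by
  refine List.sum_eq_zero fun x hx => ?_
  obtain ⟨t, ht, rfl⟩ := List.mem_map.1 hx
  obtain ⟨m, hm⟩ := Nat.dvd_of_mod_eq_zero (eq_of_beq (lall_iff.1 h t ht))
  rw [hm, mul_nsmul', hp]

end ev

/-- `(k, g) * B ++ T` -/
noncomputable def lmF (mul : ℕ → ℕ → ℕ) (k g : ℕ) (B T : FS) : FS :=
  List.rec (motive := fun _ => FS) T (fun t _ ih => (Nat.mul k t.1, mul g t.2) :: ih) B

/-- `A * B ++ T` -/
noncomputable def mulA (mul : ℕ → ℕ → ℕ) (A B T : FS) : FS :=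
  List.rec (motive := fun _ => FS) T (fun s _ ih => lmF mul s.1 s.2 B ih) A

/-- sum of products -/
noncomputable def expand (mul : ℕ → ℕ → ℕ) (Q : List (FS × FS)) : FS :=
  List.rec (motive := fun _ => FS) [] (fun q _ ih => mulA mul q.1 q.2 ih) Q

/-- the smallest of the `c * h` -/
noncomputable def stage (mul : ℕ → ℕ → ℕ) (H : FS) (k c : ℕ) : ℕ → ℕ → ℕ × ℕ :=
  List.rec (motive := fun _ => ℕ → ℕ → ℕ × ℕ) (fun a b => (a, b))
    (fun h _ ih a b => force (mul c h.2) fun d => Bool.rec (motive := fun _ => ℕ × ℕ)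
      (ih a b) (ih (Nat.mul k h.1) d) (blt d b)) H

theorem stage_cons (mul : ℕ → ℕ → ℕ) (h : ℕ × ℕ) (H : FS) (k c a b : ℕ) :
    stage mul (h :: H) k c a b = Bool.rec (motive := fun _ => ℕ × ℕ) (stage mul H k c a b)
      (stage mul H k c (k * h.1) (mul c h.2)) (blt (mul c h.2) b) :=
  force_eq (mul c h.2) fun d => Bool.rec (motive := fun _ => ℕ × ℕ)
    (stage mul H k c a b) (stage mul H k c (Nat.mul k h.1) d) (blt d b)

/-- normal form of a term -/
noncomputable def nf (mul : ℕ → ℕ → ℕ) (Hs : List FS) : ℕ → ℕ → ℕ × ℕ :=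
  List.rec (motive := fun _ => ℕ → ℕ → ℕ × ℕ) (fun a b => (a, b))
    (fun H _ ih k c => Prod.rec (motive := fun _ => ℕ × ℕ)
      (fun a b => force a fun a => ih a b) (stage mul H k c k c)) Hs

/-- normal form of a sum -/
noncomputable def nfL (mul : ℕ → ℕ → ℕ) (Hs : List FS) (L : FS) : FS :=
  List.rec (motive := fun _ => FS) []
    (fun t _ ih => Prod.rec (motive := fun _ => ℕ × ℕ)
      (fun k c => force c fun c => nf mul Hs k c) t :: ih) L

/-- all codes are valid -/
noncomputable def okL (ok : ℕ → Bool) (L : FS) : Bool := lall (fun t => ok t.2) L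

/-- the sum of products vanishes modulo `p` after normalisation -/
noncomputable def chk (ok : ℕ → Bool) (mul : ℕ → ℕ → ℕ) (p : ℕ) (Hs : List FS)
    (Q : List (FS × FS)) : Bool :=
  lall (fun q => okL ok q.1 && okL ok q.2) Q &&
    forceFF Hs fun Hs => zeroB p (collect (nfL mul Hs (expand mul Q)) [])

variable {G : Type*} [Group G] {φ : G → ℕ} {mul : ℕ → ℕ → ℕ} {one : ℕ}

/-- all codes lie in `H` -/
def In (φ : G → ℕ) (H : Subgroup G) (L : FS) : Prop := ∀ t ∈ L, Mem φ H t.2

theorem In.nil (H : Subgroup G) : In φ H [] := fun _ h => absurd h List.not_mem_nil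
theorem in_cons {H : Subgroup G} {t : ℕ × ℕ} {L : FS} :
    In φ H (t :: L) ↔ Mem φ H t.2 ∧ In φ H L := List.forall_mem_cons

theorem in_of_okL {ok : ℕ → Bool} (hok : ∀ c, ok c = true → Mem φ ⊤ c) {L : FS}
    (h : okL ok L = true) : In φ ⊤ L := fun t ht => hok _ (lall_iff.1 h t ht)

/-- the normal form of a term is a right multiple by an element of `S` -/
theorem nf_mem (C : IsCode φ mul one) {S : Subgroup G} {Hs : List FS} (hH : ∀ H ∈ Hs, In φ S H)
    (k : ℕ) {c : ℕ} (hc : Mem φ ⊤ c) :
    Mem φ ⊤ (nf mul Hs k c).2 ∧ ∃ s ∈ S, elt φ (nf mul Hs k c).2 = elt φ c * s := by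
  induction Hs generalizing k c with
  | nil => exact ⟨hc, 1, S.one_mem, (mul_one _).symm⟩
  | cons H Hs ih =>
    have h1 : ∀ (H : FS), In φ S H → ∀ a b, (Mem φ ⊤ b ∧ ∃ s ∈ S, elt φ b = elt φ c * s) →
        Mem φ ⊤ (stage mul H k c a b).2 ∧
          ∃ s ∈ S, elt φ (stage mul H k c a b).2 = elt φ c * s := by
      intro H hH
      induction H with
      | nil => exact fun a b h => h
      | cons h H ih' =>
        intro a b hb
        rw [in_cons] at hH
        rw [stage_cons]
        cases blt (mul c h.2) b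
        · exact ih' hH.2 _ _ hb
        · exact ih' hH.2 _ _ ⟨C.mem_mul hc hH.1.top, _, C.elt_mem hH.1, C.elt_mul hc hH.1⟩
    have h2 := h1 H (hH H List.mem_cons_self) k c ⟨hc, 1, S.one_mem, (mul_one _).symm⟩
    have e : nf mul (H :: Hs) k c = nf mul Hs (stage mul H k c k c).1 (stage mul H k c k c).2 := by
      show Prod.rec (motive := fun _ => ℕ × ℕ)
        (fun a b => force a fun a => nf mul Hs a b) (stage mul H k c k c) = _
      generalize stage mul H k c k c = t
      exact force_eq _ _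
    rw [e]
    obtain ⟨h3, s, hs, h4⟩ := h2
    obtain ⟨h5, s', hs', h6⟩ := ih (fun H h => hH H (List.mem_cons_of_mem _ h)) _ h3
    exact ⟨h5, s * s', S.mul_mem hs hs', by rw [h6, h4, mul_assoc]⟩

section rep
variable {k V : Type*} [CommRing k] [AddCommGroup V] [Module k V] (ρ : Representation k G V)

variable (φ) in
/-- the operator of a formal sum -/
noncomputable def op (L : FS) : Module.End k V := ev (fun c => ρ (elt φ c)) L

theorem op_apply (L : FS) (v : V) : op φ ρ L v = ev (fun c => ρ (elt φ c) v) L :=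
  map_ev (LinearMap.applyₗ (R := k) v) _ L

@[simp] theorem op_nil : op φ ρ [] = 0 := rfl
theorem op_cons (a c : ℕ) (L : FS) (v : V) :
    op φ ρ ((a, c) :: L) v = a • ρ (elt φ c) v + op φ ρ L v := by
  rw [op_apply, op_apply, ev_cons]
theorem op_append (A B : FS) (v : V) : op φ ρ (A ++ B) v = op φ ρ A v + op φ ρ B v := by
  rw [op_apply, op_apply, op_apply, ev_append]

variable {ρ}

theorem lmF_spec (C : IsCode φ mul one) (a : ℕ) {g : ℕ} (hg : Mem φ ⊤ g) {B T : FS}
    (hB : In φ ⊤ B) (hT : In φ ⊤ T) (v : V) : In φ ⊤ (lmF mul a g B T) ∧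
      op φ ρ (lmF mul a g B T) v = a • ρ (elt φ g) (op φ ρ B v) + op φ ρ T v := by
  induction B with
  | nil => exact ⟨hT, by simp [lmF]⟩
  | cons t B ih =>
    rw [in_cons] at hB
    obtain ⟨h1, h2⟩ := ih hB.2
    refine ⟨in_cons.2 ⟨C.mem_mul hg hB.1, h1⟩, ?_⟩
    show op φ ρ ((a * t.1, mul g t.2) :: lmF mul a g B T) v = _
    rw [op_cons, h2, op_cons, C.elt_mul hg hB.1, map_mul, Module.End.mul_apply, map_add, map_nsmul,
      nsmul_add, mul_nsmul', add_assoc, smul_comm a t.1]

theorem mulA_spec (C : IsCode φ mul one) {A B T : FS} (hA : In φ ⊤ A)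
    (hB : In φ ⊤ B) (hT : In φ ⊤ T) (v : V) : In φ ⊤ (mulA mul A B T) ∧
      op φ ρ (mulA mul A B T) v = op φ ρ A (op φ ρ B v) + op φ ρ T v := by
  induction A with
  | nil => exact ⟨hT, by simp [mulA]⟩
  | cons s A ih =>
    rw [in_cons] at hA
    obtain ⟨h1, h2⟩ := ih hA.2
    obtain ⟨h3, h4⟩ := lmF_spec (ρ := ρ) C s.1 hA.1 hB h1 v
    refine ⟨h3, h4.trans ?_⟩
    rw [h2, op_cons, add_assoc]

theorem expand_spec (C : IsCode φ mul one) {Q : List (FS × FS)}
    (hQ : ∀ q ∈ Q, In φ ⊤ q.1 ∧ In φ ⊤ q.2) (v : V) : In φ ⊤ (expand mul Q) ∧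
      op φ ρ (expand mul Q) v = (Q.map fun q => op φ ρ q.1 (op φ ρ q.2 v)).sum := by
  induction Q with
  | nil => exact ⟨In.nil _, rfl⟩
  | cons q Q ih =>
    rw [List.forall_mem_cons] at hQ
    obtain ⟨h1, h2⟩ := ih hQ.2
    obtain ⟨h3, h4⟩ := mulA_spec (ρ := ρ) C hQ.1.1 hQ.1.2 h1 v
    exact ⟨h3, h4.trans (by rw [h2, List.map_cons, List.sum_cons])⟩

variable (φ ρ) in
/-- `v` is an eigenvector of the members of `H` -/
def Eig (v : V) (H : FS) : Prop := ∀ t ∈ H, Mem φ ⊤ t.2 ∧ t.1 • ρ (elt φ t.2) v = v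

theorem Eig.nil (v : V) : Eig φ ρ v [] := fun _ h => absurd h List.not_mem_nil
theorem eig_cons {v : V} {a c : ℕ} {H : FS} : Eig φ ρ v ((a, c) :: H) ↔
    (Mem φ ⊤ c ∧ a • ρ (elt φ c) v = v) ∧ Eig φ ρ v H := List.forall_mem_cons

theorem Eig.mulA (C : IsCode φ mul one) {v : V} {A B T : FS} (hA : Eig φ ρ v A)
    (hB : Eig φ ρ v B) (hT : Eig φ ρ v T) : Eig φ ρ v (mulA mul A B T) := by
  induction A with
  | nil => exact hT
  | cons s A ih =>
    obtain ⟨a, g⟩ := s
    rw [eig_cons] at hA
    have h1 := ih hA.2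
    show Eig φ ρ v (lmF mul a g B (AS.mulA mul A B T))
    generalize AS.mulA mul A B T = T' at h1
    clear ih
    induction B with
    | nil => exact h1
    | cons t B ih =>
      obtain ⟨b, h⟩ := t
      rw [eig_cons] at hB
      refine eig_cons.2 ⟨⟨C.mem_mul hA.1.1 hB.1.1, ?_⟩, ih hB.2⟩
      rw [C.elt_mul hA.1.1 hB.1.1, map_mul, Module.End.mul_apply]
      show (a * b) • _ = _
      rw [mul_nsmul', ← map_nsmul _ b, hB.1.2, hA.1.2]

theorem nf_spec (C : IsCode φ mul one) {v : V} {Hs : List FS} (hH : ∀ H ∈ Hs, Eig φ ρ v H)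
    (a : ℕ) {c : ℕ} (hc : Mem φ ⊤ c) :
    (nf mul Hs a c).1 • ρ (elt φ (nf mul Hs a c).2) v = a • ρ (elt φ c) v := by
  induction Hs generalizing a c with
  | nil => rfl
  | cons H Hs ih =>
    have h1 : ∀ (H : FS), Eig φ ρ v H → ∀ a' b, (Mem φ ⊤ b ∧
        a' • ρ (elt φ b) v = a • ρ (elt φ c) v) → Mem φ ⊤ (stage mul H a c a' b).2 ∧
          (stage mul H a c a' b).1 • ρ (elt φ (stage mul H a c a' b).2) v = a • ρ (elt φ c) v := by
      intro H hH
      induction H with
      | nil => exact fun a b h => h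
      | cons h H ih' =>
        intro a' b hb
        obtain ⟨e, h⟩ := h
        rw [eig_cons] at hH
        rw [stage_cons]
        cases blt (mul c (e, h).2) b
        · exact ih' hH.2 _ _ hb
        · refine ih' hH.2 _ _ ⟨C.mem_mul hc hH.1.1, ?_⟩
          rw [C.elt_mul hc hH.1.1, map_mul, Module.End.mul_apply, mul_nsmul',
            ← map_nsmul _ e, hH.1.2]
    have h2 := h1 H (hH H List.mem_cons_self) a c ⟨hc, rfl⟩
    have e : nf mul (H :: Hs) a c = nf mul Hs (stage mul H a c a c).1 (stage mul H a c a c).2 := by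
      show Prod.rec (motive := fun _ => ℕ × ℕ)
        (fun a b => force a fun a => nf mul Hs a b) (stage mul H a c a c) = _
      generalize stage mul H a c a c = t
      exact force_eq _ _
    rw [e, ih (fun H h => hH H (List.mem_cons_of_mem _ h)) _ h2.1, h2.2]

theorem nfL_spec (C : IsCode φ mul one) {v : V} {Hs : List FS} (hH : ∀ H ∈ Hs, Eig φ ρ v H)
    {L : FS} (hL : In φ ⊤ L) : op φ ρ (nfL mul Hs L) v = op φ ρ L v := by
  induction L with
  | nil => rfl
  | cons t L ih =>
    obtain ⟨a, c⟩ := t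
    rw [in_cons] at hL
    show op φ ρ ((force c fun c => nf mul Hs a c) :: nfL mul Hs L) v = _
    rw [force_eq, op_cons, op_cons, ih hL.2, nf_spec C hH a hL.1]

theorem chk_spec (C : IsCode φ mul one) {ok : ℕ → Bool} (hok : ∀ c, ok c = true → Mem φ ⊤ c)
    {p : ℕ} (hp : ∀ w : V, p • w = 0) {v : V} {Hs : List FS} (hH : ∀ H ∈ Hs, Eig φ ρ v H)
    {Q : List (FS × FS)} (h : chk ok mul p Hs Q = true) :
    (Q.map fun q => op φ ρ q.1 (op φ ρ q.2 v)).sum = 0 := by
  rw [chk, Bool.and_eq_true, forceFF_eq, lall_iff] at h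
  obtain ⟨h1, h2⟩ := expand_spec (ρ := ρ) C (Q := Q) (fun q hq => by
    have := h.1 q hq
    rw [Bool.and_eq_true] at this
    exact ⟨in_of_okL hok this.1, in_of_okL hok this.2⟩) v
  have h3 := ev_of_zeroB hp (fun c => ρ (elt φ c) v) h.2
  rwa [ev_collect, ev_nil, add_zero, ← op_apply, nfL_spec C hH h1, h2] at h3

end rep

/-! ### Enumeration -/

/-- membership -/
noncomputable def memB (c : ℕ) (L : List ℕ) : Bool := lany (Nat.beq c) L

theorem mem_of_memB {c : ℕ} {L : List ℕ} (h : memB c L = true) : c ∈ L := by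
  obtain ⟨a, ha, e⟩ := lany_iff.1 h
  exact eq_of_beq e ▸ ha

/-- one step of the search -/
noncomputable def bstep (mul : ℕ → ℕ → ℕ) (L : List ℕ) (x : ℕ) (K : List ℕ → List ℕ → List ℕ) :
    List ℕ → List ℕ → List ℕ :=
  List.rec (motive := fun _ => List ℕ → List ℕ → List ℕ) K
    (fun a _ ih q E => force (mul a x) fun y => Bool.rec (motive := fun _ => List ℕ)
      (ih (y :: q) (y :: E)) (ih q E) (memB y E)) L

/-- search for the elements of the group generated by `L` -/
noncomputable def bfs (mul : ℕ → ℕ → ℕ) (L : List ℕ) (n : ℕ) : List ℕ → List ℕ → List ℕ :=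
  Nat.rec (motive := fun _ => List ℕ → List ℕ → List ℕ) (fun _ E => E)
    (fun _ ih q E => List.casesOn (motive := fun _ => List ℕ) q E
      (fun x q' => bstep mul L x ih q' E)) n

theorem bfs_mem {Q : ℕ → Prop} {L : List ℕ} (hL : ∀ a ∈ L, ∀ x, Q x → Q (mul a x)) (n : ℕ)
    {q E : List ℕ} (hq : ∀ c ∈ q, Q c) (hE : ∀ c ∈ E, Q c) : ∀ c ∈ bfs mul L n q E, Q c := by
  induction n generalizing q E with
  | zero => exact hE
  | succ n ih =>
    cases q with
    | nil => exact hE
    | cons x q =>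
      rw [List.forall_mem_cons] at hq
      show ∀ c ∈ bstep mul L x (bfs mul L n) q E, Q c
      have : ∀ L' : List ℕ, (∀ a ∈ L', Q (mul a x)) → ∀ q E : List ℕ, (∀ c ∈ q, Q c) →
          (∀ c ∈ E, Q c) → ∀ c ∈ bstep mul L' x (bfs mul L n) q E, Q c := by
        intro L' hL'
        induction L' with
        | nil => exact fun q E hq hE => ih hq hE
        | cons a L' ih' =>
          intro q E hq hE
          rw [List.forall_mem_cons] at hL'
          have e : bstep mul (a :: L') x (bfs mul L n) q E = Bool.rec (motive := fun _ => List ℕ)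
            (bstep mul L' x (bfs mul L n) (mul a x :: q) (mul a x :: E))
            (bstep mul L' x (bfs mul L n) q E) (memB (mul a x) E) :=
              force_eq (mul a x) fun y => Bool.rec (motive := fun _ => List ℕ)
                (bstep mul L' x (bfs mul L n) (y :: q) (y :: E))
                (bstep mul L' x (bfs mul L n) q E) (memB y E)
          rw [e]
          cases memB (mul a x) E
          · exact ih' hL'.2 _ _ (List.forall_mem_cons.2 ⟨hL'.1, hq⟩)
              (List.forall_mem_cons.2 ⟨hL'.1, hE⟩)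
          · exact ih' hL'.2 _ _ hq hE
      exact this L (fun a ha => hL a ha x hq.1) q E hq.2 hE

/-- no repetitions -/
noncomputable def nodupB (L : List ℕ) : Bool :=
  List.rec (motive := fun _ => Bool) true
    (fun a L' ih => Bool.rec (motive := fun _ => Bool) ih false (memB a L')) L

theorem nodup_of_nodupB {L : List ℕ} (h : nodupB L = true) : L.Nodup := by
  induction L with
  | nil => exact List.nodup_nil
  | cons a L ih =>
    have h' : Bool.rec (motive := fun _ => Bool) (nodupB L) false (memB a L) = true := h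
    cases e : memB a L
    · rw [e] at h'
      refine List.nodup_cons.2 ⟨fun ha => ?_, ih h'⟩
      have : memB a L = true := lany_iff.2 ⟨a, ha, Nat.beq_refl a⟩
      rw [e] at this
      exact Bool.false_ne_true this
    · rw [e] at h'
      exact absurd h' Bool.false_ne_true

/-- pass the elements of the group generated by `L` (of order at most `n`) to the test `K` -/
noncomputable def enumK (ok : ℕ → Bool) (mul : ℕ → ℕ → ℕ) (one : ℕ) (L : List ℕ) (n : ℕ)
    (K : List ℕ → Bool) : Bool :=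
  force one fun one => forceL (bfs mul L n [one] [one]) fun E => lall ok L && memB one E &&
    nodupB E && lall (fun e => lall (fun a => force (mul a e) fun y => memB y E) L) E && K E

theorem enumK_spec [Finite G] (C : IsCode φ mul one) {ok : ℕ → Bool}
    (hok : ∀ c, ok c = true → Mem φ ⊤ c) {L : List ℕ} {n : ℕ} {K : List ℕ → Bool}
    (h : enumK ok mul one L n K = true) : (∀ c ∈ L, Mem φ ⊤ c) ∧ ∃ E : List ℕ, E.Nodup ∧
      (∀ c ∈ E, Mem φ (gen φ L) c) ∧ (∀ g ∈ gen φ L, φ g ∈ E) ∧ K E = true := by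
  simp only [enumK, force_eq, forceL_eq, Bool.and_eq_true, lall_iff] at h
  obtain ⟨⟨⟨⟨h1, h2⟩, h3⟩, h4⟩, h5⟩ := h
  have h0 : ∀ c ∈ L, Mem φ ⊤ c := fun c hc => hok c (h1 c hc)
  refine ⟨h0, _, nodup_of_nodupB h3, bfs_mem (fun a ha x hx => C.mem_mul (mem_gen h0 a ha) hx) n
    (by simpa using C.mem_one _) (by simpa using C.mem_one _), ?_, h5⟩
  refine gen_induction (by rw [C.map_one]; exact mem_of_memB h2) fun j hj s hs g hg => ?_
  rw [← C.map_mul, hs]
  exact mem_of_memB (h4 _ hg _ (lget_mem hj))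

theorem sum_enum [Finite G] (C : IsCode φ mul one) {H : Subgroup G} [Fintype H] {E : List ℕ}
    (h1 : E.Nodup) (h2 : ∀ c ∈ E, Mem φ H c) (h3 : ∀ g ∈ H, φ g ∈ E) {W : Type*}
    [AddCommMonoid W] (F : G → W) : ∑ a : H, F a = (E.map fun c => F (elt φ c)).sum := by
  classical
  rw [← List.sum_toFinset _ h1]
  refine Finset.sum_bij (fun a _ => φ a) (fun a _ => List.mem_toFinset.2 (h3 _ a.2))
    (fun a _ b _ e => Subtype.ext (C.inj e)) (fun c hc => ?_) fun a _ => by rw [C.elt_code]
  obtain ⟨g, hg, e⟩ := h2 c (List.mem_toFinset.1 hc)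
  exact ⟨⟨g, hg⟩, Finset.mem_univ _, e⟩

theorem card_enum [Finite G] (C : IsCode φ mul one) {H : Subgroup G} {E : List ℕ}
    (h1 : E.Nodup) (h2 : ∀ c ∈ E, Mem φ H c) (h3 : ∀ g ∈ H, φ g ∈ E) : Nat.card H = E.length := by
  have := Fintype.ofFinite H
  have h := sum_enum C h1 h2 h3 (fun _ => (1 : ℕ))
  simpa [Nat.card_eq_fintype_card] using h

/-! ### Perfect pairs -/

/-- `a` and `b` are commutators of words in `a`, `b` -/
noncomputable def nsB (ok : ℕ → Bool) (mul : ℕ → ℕ → ℕ) (one a b : ℕ) (u v u' v' : List ℕ) : Bool :=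
  ok a && ok b && !Nat.beq a one && lall (fun i => blt i 2) (u ++ v ++ u' ++ v') &&
    Nat.beq (mul a (mul (word mul [a, b] v one) (word mul [a, b] u one)))
      (mul (word mul [a, b] u one) (word mul [a, b] v one)) &&
    Nat.beq (mul b (mul (word mul [a, b] v' one) (word mul [a, b] u' one)))
      (mul (word mul [a, b] u' one) (word mul [a, b] v' one))

theorem nsB_spec (C : IsCode φ mul one) {ok : ℕ → Bool} (hok : ∀ c, ok c = true → Mem φ ⊤ c)
    {a b : ℕ} {u v u' v' : List ℕ} (h : nsB ok mul one a b u v u' v' = true) :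
    Mem φ ⊤ a ∧ Mem φ ⊤ b ∧ ¬ Group.IsSolvable (gen φ [a, b]) := by
  simp only [nsB, Bool.and_eq_true, lall_iff, List.mem_append, Bool.not_eq_true'] at h
  obtain ⟨⟨⟨⟨⟨ha, hb⟩, h1⟩, h2⟩, h3⟩, h4⟩ := h
  replace ha := hok a ha
  replace hb := hok b hb
  have h0 : ∀ c ∈ [a, b], Mem φ ⊤ c := by simp [ha, hb]
  have hw : ∀ w : List ℕ, (∀ i ∈ w, blt i 2 = true) → Mem φ (gen φ [a, b]) (word mul [a, b] w one) :=
    fun w hw => C.mem_word (mem_gen h0) (fun i hi => lt_of_blt (hw i hi)) (C.mem_one _)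
  have key : ∀ {c x y : ℕ}, Mem φ ⊤ c → Mem φ (gen φ [a, b]) x → Mem φ (gen φ [a, b]) y →
      mul c (mul y x) = mul x y → elt φ c ∈ ⁅gen φ [a, b], gen φ [a, b]⁆ := by
    intro c x y hc hx hy e
    have e' := C.elt_mul_eq hc (C.mem_mul hy hx).top hx.top hy.top e
    rw [C.elt_mul hy hx] at e'
    have : elt φ c = ⁅elt φ x, elt φ y⁆ := by
      rw [commutatorElement_def, ← e']; group
    rw [this]
    exact Subgroup.commutator_mem_commutator (C.elt_mem hx) (C.elt_mem hy)
  have h5 : gen φ [a, b] ≤ ⁅gen φ [a, b], gen φ [a, b]⁆ := (C.gen_le_iff h0).2 (by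
    simp only [List.forall_mem_cons]
    exact ⟨key ha (hw u fun i hi => h2 i (by simp [hi])) (hw v fun i hi => h2 i (by simp [hi]))
      (eq_of_beq h3), key hb (hw u' fun i hi => h2 i (by simp [hi]))
      (hw v' fun i hi => h2 i (by simp [hi])) (eq_of_beq h4), by simp⟩)
  refine ⟨ha, hb, fun hs => ?_⟩
  have h6 : gen φ [a, b] ≠ ⊥ := fun e => ne_of_beq h1 (by
    have := C.elt_mem (mem_gen h0 a (by simp))
    rw [e, Subgroup.mem_bot] at this
    rw [← ha.code_elt, this, C.map_one])
  have := (Subgroup.nontrivial_iff_ne_bot _).2 h6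
  have h7 := Group.IsSolvable.commutator_lt_top_of_nontrivial (G := gen φ [a, b])
  refine h7.ne (Subgroup.map_injective (gen φ [a, b]).subtype_injective ?_)
  rw [commutator_def, Subgroup.map_commutator, ← MonoidHom.range_eq_map, Subgroup.range_subtype]
  refine le_antisymm (Subgroup.commutator_le.2 fun x hx y hy => ?_) h5
  exact mul_mem (mul_mem (mul_mem hx hy) (inv_mem hx)) (inv_mem hy)

/-! ### Permutations -/

/-- code of a permutation -/
noncomputable abbrev pc (n : ℕ) : Equiv.Perm (Fin (n + 1)) → ℕ := (Enc.fin n).code 4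

/-- product of codes -/
noncomputable def ml (N a b : ℕ) : ℕ := force a fun a => force b fun b => PC.comp 4 15 N a b

/-- valid code -/
noncomputable def okP (N c : ℕ) : Bool :=
  force c fun c => PC.isPerm 4 15 N c && Nat.beq (PC.comp 4 15 N c (PC.one 4 N)) c

theorem isCode_pc {n : ℕ} (hn : n < 16) {o : ℕ} (ho : PC.one 4 (n + 1) = o) :
    IsCode (pc n) (ml (n + 1)) o := by
  have C := isCode_perm (Enc.fin n) (w := 4) (M := 15) ⟨rfl, hn⟩
  exact ⟨C.inj, fun g h => by rw [ml, force_eq, force_eq, C.map_mul], C.map_one.trans ho⟩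

theorem mem_of_okP {n : ℕ} (hn : n < 16) (c : ℕ) (h : okP (n + 1) c = true) :
    Mem (pc n) ⊤ c := by
  rw [okP, force_eq, Bool.and_eq_true] at h
  refine ⟨_, Subgroup.mem_top ((Enc.fin n).permOf 4 15 c), ?_⟩
  have := (Enc.rep_permOf (E := Enc.fin n) h.1).comp_eq_code (Enc.rep_one ⟨rfl, hn⟩)
  rw [mul_one, eq_of_beq h.2] at this
  exact this.symm

end CL.AS
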