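import Mathlib
import Cfsg.Agent.FGS.AltSec2
import Cfsg.Agent.ODD.BG3.Lift

/-!
The rational Brauer character of a module over the prime field: a class function which computes
the dimensions of the fixed spaces of all `p'`-subgroups. Class distributions of small
permutation groups.
-/

set_option autoImplicit false

namespace CL.AS

open CL.K CL.CG Finset Subgroup Module

section psi
variable {G : Type*} [Group G] [Fintype G]

open Classical in
theorem exists_psi_aux (f : Subgroup G → ℂ) (P : Subgroup G → Prop)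
    (hP : ∀ A C, P A → C ≤ A → P C)
    (hc : ∀ (A : Subgroup G) g, P A → P (A.map (MulAut.conj g).toMonoidHom))
    (hf : ∀ (A : Subgroup G) g, f (A.map (MulAut.conj g).toMonoidHom) = f A)
    (h : ∀ A, P A → ∃ θ : G → ℂ, ∀ C ≤ A, ∑ c with c ∈ C, θ c = f C) :
    ∃ ψ : G → ℂ, (∀ a g, ψ (g * a * g⁻¹) = ψ a) ∧ ∀ A, P A → ∑ c with c ∈ A, ψ c = f A := by
  have h1 : ∀ A, P A → ∃ θ : G → ℂ, (∀ a b, zpowers a = zpowers b → θ a = θ b) ∧
      ∀ C ≤ A, ∑ c with c ∈ C, θ c = f C := fun A hA => by
    obtain ⟨θ, hθ⟩ := h A hA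
    refine ⟨fun a => ∑ b with zpowers b = zpowers a, θ b / #{b | zpowers b = zpowers a},
      fun a b e => by simp only [e], fun C hC => ?_⟩
    rw [← hθ C hC, sum_comm' (t' := {c | c ∈ C}) (s' := fun b => {c | zpowers c = zpowers b})]
    · refine sum_congr rfl fun b _ => ?_
      rw [sum_congr rfl (g := fun _ => θ b / #{c | zpowers c = zpowers b})
        (fun c hc => by rw [(mem_filter.1 hc).2]), sum_const, nsmul_eq_mul, mul_div_cancel₀]
      exact Nat.cast_ne_zero.2 (card_ne_zero.2 ⟨b, by simp⟩)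
    · intro c b
      simp only [mem_filter, mem_univ, true_and, ← zpowers_le]
      exact ⟨fun ⟨h1, h2⟩ => ⟨h2.symm, h2 ▸ h1⟩, fun ⟨h1, h2⟩ => ⟨h1 ▸ h2, h1.symm⟩⟩
  have h2 : ∀ (θ θ' : G → ℂ), (∀ a b, zpowers a = zpowers b → θ a = θ b) →
      (∀ a b, zpowers a = zpowers b → θ' a = θ' b) → ∀ n a, Nat.card (zpowers a) = n →
      (∀ C ≤ zpowers a, ∑ c with c ∈ C, θ c = ∑ c with c ∈ C, θ' c) → θ a = θ' a := by
    intro θ θ' e e' n
    induction n using Nat.strong_induction_on with
    | _ n ih =>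
      intro a ha hs
      have h3 := hs _ le_rfl
      rw [← sub_eq_zero, ← sum_sub_distrib,
        ← sum_filter_add_sum_filter_not _ (fun c => zpowers c = zpowers a),
        sum_congr rfl (g := fun _ => θ a - θ' a) (fun c hc => by
          rw [e _ _ (mem_filter.1 hc).2, e' _ _ (mem_filter.1 hc).2]),
        sum_eq_zero (s := filter (fun c => ¬ zpowers c = zpowers a) _) (fun c hc => ?_), add_zero, sum_const, nsmul_eq_mul, mul_eq_zero] at h3
      · exact sub_eq_zero.1 (h3.resolve_left
          (Nat.cast_ne_zero.2 (card_ne_zero.2 ⟨a, by simp⟩)))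
      · simp only [mem_filter, mem_univ, true_and, ← zpowers_le] at hc
        refine sub_eq_zero.2 (ih _ ?_ c rfl fun C hC => hs C (hC.trans hc.1))
        exact ha ▸ lt_of_le_of_ne (card_le_of_le hc.1)
          fun e => hc.2 (eq_of_le_of_card_ge hc.1 e.ge)
  choose! θ h3 h4 using h1
  have h5 : ∀ a g, P (zpowers a) → P (zpowers (g * a * g⁻¹)) := fun a g h => by
    simpa using hc _ g h
  refine ⟨fun a => if P (zpowers a) then θ (zpowers a) a else 0, fun a g => ?_, fun A hA => ?_⟩
  · by_cases ha : P (zpowers a)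
    · have hb := h5 a g ha
      simp only [if_pos ha, if_pos hb]
      refine h2 (fun c => θ (zpowers (g * a * g⁻¹)) (g * c * g⁻¹)) _ (fun b c e => h3 _ hb _ _ ?_)
        (h3 _ ha) _ a rfl fun C hC => ?_
      · simpa using congrArg (Subgroup.map (MulAut.conj g).toMonoidHom) e
      · rw [h4 _ ha C hC, ← hf C g, ← h4 _ hb _ ((map_mono hC).trans (by simp))]
        exact sum_equiv (MulAut.conj g).toEquiv (fun c => by
          simp only [mem_filter, mem_univ, true_and]
          exact (mem_map_iff_mem (f := (MulAut.conj g).toMonoidHom)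
            (MulAut.conj g).injective).symm) fun c _ => rfl
    · have hb : ¬ P (zpowers (g * a * g⁻¹)) := fun h => ha (by simpa [mul_assoc] using h5 _ g⁻¹ h)
      simp only [if_neg ha, if_neg hb]
  · rw [← h4 A hA A le_rfl]
    refine sum_congr rfl fun a ha => ?_
    have h6 : zpowers a ≤ A := zpowers_le.2 (mem_filter.1 ha).2
    have h7 := hP _ _ hA h6
    simp only [if_pos h7]
    exact h2 _ _ (h3 _ h7) (h3 _ hA) _ a rfl fun C hC => by
      rw [h4 _ h7 C hC, h4 _ hA C (hC.trans h6)]

end psi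

section fx
variable {G k V : Type*} [Group G] [Field k] [AddCommGroup V] [Module k V]

/-- fixed vectors of a subgroup -/
noncomputable def fx (ρ : Representation k G V) (A : Subgroup G) : Submodule k V :=
  Representation.invariants (ρ.comp A.subtype)

theorem mem_fx {ρ : Representation k G V} {A : Subgroup G} {v : V} :
    v ∈ fx ρ A ↔ ∀ g ∈ A, ρ g v = v := ⟨fun h g hg => h ⟨g, hg⟩, fun h g => h g g.2⟩

theorem exists_psi {p : ℕ} [Fact p.Prime] [Finite G] [Module (ZMod p) V]
    [Module.Finite (ZMod p) V] (ρ : Representation (ZMod p) G V) :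
    ∃ ψ : G → ℂ, (∀ a g, ψ (g * a * g⁻¹) = ψ a) ∧ ∀ (A : Subgroup G) [Fintype A],
      ¬ p ∣ Nat.card A → ∑ a : A, ψ a = Nat.card A * finrank (ZMod p) (fx ρ A) := by
  classical
  have := Fintype.ofFinite G
  obtain ⟨ψ, h1, h2⟩ := exists_psi_aux (G := G) (fun A => Nat.card A * finrank (ZMod p) (fx ρ A))
    (fun A => ¬ p ∣ Nat.card A) (fun A C hA hC h => hA (h.trans (card_dvd_of_le hC)))
    (fun A g h => by rwa [card_map_of_injective (MulAut.conj g).injective])
    (fun A g => by
      rw [card_map_of_injective (MulAut.conj g).injective]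
      have : fx ρ (A.map (MulAut.conj g).toMonoidHom) =
          (fx ρ A).map (LinearMap.GeneralLinearGroup.toLinearEquiv (ρ.asGroupHom g) :
            V →ₗ[ZMod p] V) := by
        ext v
        rw [Submodule.mem_map_equiv, mem_fx, mem_fx]
        have e : (LinearMap.GeneralLinearGroup.toLinearEquiv (ρ.asGroupHom g)).symm v =
          ρ g⁻¹ v := rfl
        rw [e]
        constructor
        · intro h a ha
          conv_rhs => rw [← h _ (mem_map_of_mem _ ha)]
          simp [← Module.End.mul_apply, ← map_mul, mul_assoc]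
        · rintro h _ ⟨a, ha, rfl⟩
          simp [h a ha]
      rw [this, LinearEquiv.finrank_map_eq])
    (fun A hA => by
      obtain ⟨χ, -, hχ⟩ := BG3.exists_character_lift (ρ.comp A.subtype) hA
      refine ⟨fun g => if h : g ∈ A then χ ⟨g, h⟩ else 0, fun C hC => ?_⟩
      have h3 := hχ (C.subgroupOf A)
      rw [Nat.card_congr (subgroupOfEquivOfLe hC).toEquiv] at h3
      have h4 : Representation.invariants ((ρ.comp A.subtype).comp (C.subgroupOf A).subtype) =
          fx ρ C := Submodule.ext fun v =>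
        ⟨fun h g => h ⟨⟨g, hC g.2⟩, g.2⟩, fun h g => h ⟨g.1.1, g.2⟩⟩
      rw [← h4, ← h3, sum_subtype (p := (· ∈ C)) _ (by simp)]
      exact (Fintype.sum_equiv (subgroupOfEquivOfLe hC).toEquiv _ _
        fun c => (dif_pos (t := fun h => χ ⟨c.1.1, h⟩) c.1.2).symm).symm)
  exact ⟨ψ, h1, fun A _ hA => by rw [← h2 A hA, sum_subtype (p := (· ∈ A)) _ (by simp)]⟩

end fx

/-- length of the cycle through `j` -/
noncomputable def cyl (N c j : ℕ) : ℕ :=
  Nat.rec (motive := fun _ => ℕ → ℕ → ℕ) (fun _ l => l)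
    (fun _ ih x l => Bool.rec (motive := fun _ => ℕ)
      (force (fld 4 15 c x) fun y => force (Nat.succ l) (ih y)) l (Nat.beq x j)) N (fld 4 15 c j) 1

/-- the points listed cycle by cycle, long cycles first; the state holds the points seen,
their number and the list -/
noncomputable def cyu (N c : ℕ) : ℕ :=
  force (mkTab 4 (cyl N c) N) fun T => Nat.shiftRight (iterLt (fun i s => force (Nat.sub N i) fun l =>
    iterLt (fun j s => Bool.rec (motive := fun _ => ℕ) s
      (Nat.shiftRight (iterLt (fun _ s => force (Nat.land s 15) fun x =>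
        force (Nat.land (Nat.shiftRight s 20) 15) fun n =>
          Nat.add (Nat.add (Nat.add (Nat.add (Nat.sub s x) (fld 4 15 c x))
            (Nat.shiftLeft 1 (Nat.add 4 x))) 0x100000) (Nat.shiftLeft x (Nat.add 28 (Nat.mul 4 n))))
        l (Nat.add j (Nat.shiftLeft s 4))) 4)
      (Nat.beq (fld 4 15 T j) l && Nat.beq (bit s j) 0)) N s) N 0) 24

/-- a canonical conjugate -/
noncomputable def cls (N c : ℕ) : ℕ :=
  force (cyu N c) fun u => Bool.rec (motive := fun _ => ℕ) c
    (ml N (PC.inv 4 15 N u) (ml N c u)) (okP N u)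

theorem cls_spec {n : ℕ} (hn : n < 16) {c : ℕ} (hc : Mem (pc n) ⊤ c) :
    ∃ g, elt (pc n) (cls (n + 1) c) = g * elt (pc n) c * g⁻¹ := by
  have C := isCode_pc hn rfl
  rw [cls, force_eq]
  cases h : okP (n + 1) (cyu (n + 1) c)
  · exact ⟨1, by simp⟩
  · obtain ⟨g, -, e⟩ := mem_of_okP hn _ h
    refine ⟨g⁻¹, ?_⟩
    show elt (pc n) (ml (n + 1) (PC.inv 4 15 (n + 1) (cyu (n + 1) c)) (ml (n + 1) c _)) = _
    rw [← e, (Enc.rep_code (E := Enc.fin n) (w := 4) (M := 15) ⟨rfl, hn⟩ g).inv_eq_code, ← hc.code_elt, C.map_mul,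
      C.map_mul, C.elt_code, C.elt_code, inv_inv, mul_assoc]

/-- the class distribution of the group generated by `L` is `D` -/
noncomputable def prof (N o : ℕ) (L : List ℕ) (n : ℕ) (D : FS) : Bool :=
  enumK (okP N) (ml N) o L n fun E => Nat.beq (llen E) n &&
    decide (collect (E.map fun c => (1, cls N c)) (D.map fun t => (0, t.2)) = D)

theorem prof_spec {n : ℕ} (hn : n < 16) {o : ℕ} (ho : PC.one 4 (n + 1) = o) {L : List ℕ} {m : ℕ}
    {D : FS} (h : prof (n + 1) o L m D = true) : Nat.card (gen (pc n) L) = m ∧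
      ∀ ψ : Equiv.Perm (Fin (n + 1)) → ℂ, (∀ a g, ψ (g * a * g⁻¹) = ψ a) →
        ∀ [Fintype (gen (pc n) L)], ∑ a : gen (pc n) L, ψ a = ev (fun c => ψ (elt (pc n) c)) D := by
  have C := isCode_pc hn ho
  obtain ⟨-, E, h1, h2, h3, h4⟩ := enumK_spec C (mem_of_okP hn) h
  rw [Bool.and_eq_true, decide_eq_true_iff] at h4
  refine ⟨by rw [card_enum C h1 h2 h3, ← llen_eq, eq_of_beq h4.1], fun ψ hψ _ => ?_⟩
  rw [sum_enum C h1 h2 h3 ψ, ← h4.2, ev_collect]
  have : ev (fun c => ψ (elt (pc n) c)) (D.map fun t => (0, t.2)) = 0 := by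
    simp [ev, Function.comp_def]
  rw [this, add_zero, ev, List.map_map]
  refine congrArg List.sum (List.map_congr_left fun c hc => ?_)
  obtain ⟨g, e⟩ := cls_spec hn (h2 c hc).top
  simp [e, hψ]

end CL.AS
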