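import Mathlib
import Cfsg.Agent.FGS.AltSec3

/-!
Modules in characteristic 5 for the symmetric group of degree 10 in which nonsolvable subgroups
fix no nonzero vector: the structure under two commuting alternating groups of degree 5.
-/

set_option autoImplicit false

namespace CL.AS.M5

open CL.K CL.CG Module

def o : ℕ := 0x9876543210
def x1 : ℕ := 0x9876504321
def t1 : ℕ := 0x9876512340
def w1 : ℕ := 0x9876534120
def c1 : ℕ := 0x9876543021
def a1 : ℕ := 0x9876542301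
def b1 : ℕ := 0x9876541032
def s1 : ℕ := 0x9876534201
def Z1 : FS := [(1, 0x9876501234), (1, 0x9876502314), (1, 0x9876503124), (4, 0x9876503241), (4, 0x9876503412), (4, 0x9876504213), (1, 0x9876510243), (1, 0x9876512340), (1, 0x9876513042), (4, 0x9876513204), (4, 0x9876513420), (4, 0x9876514230), (1, 0x9876520413), (1, 0x9876521430), (4, 0x9876523014), (4, 0x9876523140), (1, 0x9876523401), (4, 0x9876524310), (4, 0x9876530214), (4, 0x9876531240), (4, 0x9876532410), (1, 0x9876534012), (1, 0x9876534120), (1, 0x9876534201), (1, 0x9876540123), (4, 0x9876540231), (4, 0x9876540312), (1, 0x9876541032), (4, 0x9876541203), (4, 0x9876541320), (4, 0x9876542013), (4, 0x9876542130), (1, 0x9876542301), (4, 0x9876543021), (4, 0x9876543102)]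
def Y1 : FS := [(4, 0x9876543210), (3, 0x9876501234), (3, 0x9876502314), (3, 0x9876503124), (2, 0x9876503241), (2, 0x9876503412), (2, 0x9876504213), (3, 0x9876510243), (3, 0x9876512340), (3, 0x9876513042), (2, 0x9876513204), (2, 0x9876513420), (2, 0x9876514230), (3, 0x9876520413), (3, 0x9876521430), (2, 0x9876523014), (2, 0x9876523140), (3, 0x9876523401), (2, 0x9876524310), (2, 0x9876530214), (2, 0x9876531240), (2, 0x9876532410), (3, 0x9876534012), (3, 0x9876534120), (3, 0x9876534201), (3, 0x9876540123), (2, 0x9876540231), (2, 0x9876540312), (3, 0x9876541032), (2, 0x9876541203), (2, 0x9876541320), (2, 0x9876542013), (2, 0x9876542130), (3, 0x9876542301), (2, 0x9876543021), (2, 0x9876543102)]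
def T1 : FS := [(1, 0x9876534120), (1, 0x9876540231), (1, 0x9876501342), (1, 0x9876512403), (1, 0x9876523014)]
def O1 : FS := [(1, 0x9876543210), (1, 0x9876534120), (1, 0x9876540231), (1, 0x9876501342), (1, 0x9876512403), (1, 0x9876523014)]
def x2 : ℕ := 0x5987643210
def t2 : ℕ := 0x6789543210
def w2 : ℕ := 0x8967543210
def c2 : ℕ := 0x9857643210
def a2 : ℕ := 0x9785643210
def b2 : ℕ := 0x9658743210
def s2 : ℕ := 0x8975643210
def Z2 : FS := [(1, 0x5678943210), (1, 0x5786943210), (1, 0x5867943210), (4, 0x5879643210), (4, 0x5896743210), (4, 0x5976843210), (1, 0x6579843210), (1, 0x6789543210), (1, 0x6859743210), (4, 0x6875943210), (4, 0x6897543210), (4, 0x6978543210), (1, 0x7596843210), (1, 0x7698543210), (4, 0x7856943210), (4, 0x7869543210), (1, 0x7895643210), (4, 0x7986543210), (4, 0x8576943210), (4, 0x8679543210), (4, 0x8796543210), (1, 0x8956743210), (1, 0x8967543210), (1, 0x8975643210), (1, 0x9567843210),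 (4, 0x9578643210), (4, 0x9586743210), (1, 0x9658743210), (4, 0x9675843210), (4, 0x9687543210), (4, 0x9756843210), (4, 0x9768543210), (1, 0x9785643210), (4, 0x9857643210), (4, 0x9865743210)]
def Y2 : FS := [(4, 0x9876543210), (3, 0x5678943210), (3, 0x5786943210), (3, 0x5867943210), (2, 0x5879643210), (2, 0x5896743210), (2, 0x5976843210), (3, 0x6579843210), (3, 0x6789543210), (3, 0x6859743210), (2, 0x6875943210), (2, 0x6897543210), (2, 0x6978543210), (3, 0x7596843210), (3, 0x7698543210), (2, 0x7856943210), (2, 0x7869543210), (3, 0x7895643210), (2, 0x7986543210), (2, 0x8576943210), (2, 0x8679543210), (2, 0x8796543210), (3, 0x8956743210), (3, 0x8967543210), (3, 0x8975643210), (3, 0x9567843210), (2, 0x9578643210), (2, 0x9586743210), (3, 0x9658743210), (2, 0x9675843210), (2, 0x9687543210), (2, 0x9756843210), (2, 0x9768543210), (3, 0x9785643210), (2, 0x9857643210), (2, 0x9865743210)]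
def T2 : FS := [(1, 0x8967543210), (1, 0x9578643210), (1, 0x5689743210), (1, 0x6795843210), (1, 0x7856943210)]
def O2 : FS := [(1, 0x9876543210), (1, 0x8967543210), (1, 0x9578643210), (1, 0x5689743210), (1, 0x6795843210), (1, 0x7856943210)]
def xx : ℕ := 0x5987604321
def ww : ℕ := 0x8967534120
def T4 : FS := [(4, 0x8967543210), (4, 0x9578643210), (4, 0x5689743210), (4, 0x6795843210), (4, 0x7856943210)]
def I : FS := [(1, 0x9876543210), (3, 0x8967543210), (4, 0x8967534120), (3, 0x6795840231), (3, 0x5689723014)]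
def J : FS := [(1, 0x9876543210), (1, 0x8967534120), (1, 0x9578640231), (1, 0x5689701342), (1, 0x6795812403), (1, 0x7856923014)]
def Ia0 : FS := [(1, 0x7856943210), (4, 0x5689743210), (4, 0x5689734120), (1, 0x7856940231)]
def Ia1 : FS := [(3, 0x9578643210), (2, 0x8967543210), (2, 0x9876534120), (3, 0x9876540231), (2, 0x9578640231), (3, 0x8967534120), (2, 0x9578634120), (3, 0x8967540231)]
def Ib0 : FS := [(4, 0x5689743210), (4, 0x5689734120), (4, 0x6795843210), (4, 0x6795834120)]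
def Ib1 : FS := [(3, 0x9876543210), (2, 0x8967543210), (3, 0x9876534120), (2, 0x8967534120)]
def Iu0 : FS := [(4, 0x9876501234), (3, 0x9876502431), (1, 0x9876501342), (1, 0x9876502143), (1, 0x9876510243), (1, 0x9876512340), (3, 0x9876510324), (2, 0x9876501423), (3, 0x9876503241), (2, 0x9876520134), (3, 0x9876523014), (1, 0x9876513042), (4, 0x9876502314)]
def Iu1 : FS := [(1, 0x9876543210)]
def Iu2 : FS := [(4, 0x8967543210), (1, 0x9876543210)]
def Ju0 : FS := [(1, 0x9876501234), (2, 0x9876503412), (4, 0x9876502143), (2, 0x9876504321), (4, 0x9876512340), (2, 0x9876503124), (3, 0x9876502431), (2, 0x9876501342), (3, 0x9876504213), (2, 0x9876501423), (3, 0x9876503241), (2, 0x9876510243), (3, 0x9876504132), (2, 0x9876502314), (1, 0x9876512403), (1, 0x9876513204), (4, 0x9876512034), (1, 0x9876530142), (4, 0x9876520134), (1, 0x9876530214), (4, 0x9876540123)]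
def Ju1 : FS := [(4, 0x9876543210)]
def Ju2 : FS := [(4, 0x9876543210)]
def P55 : FS := [(4, 0x9876543210), (3, 0x9857643210), (3, 0x9865743210), (3, 0x9876543021), (1, 0x9857643021), (1, 0x9865743021), (3, 0x9876543102), (1, 0x9857643102), (1, 0x9865743102)]
def A55 : FS := [(2, 0x9876543210), (2, 0x9876543021), (2, 0x9876543102)]
def B55 : FS := [(4, 0x9876543210), (3, 0x9876543021), (3, 0x9876543102)]
def Q55 : FS := [(4, 0x9876543210), (1, 0x9857643210)]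
def P33 : FS := [(1, 0x9876543210), (4, 0x8975643210), (4, 0x9876534201), (1, 0x8975634201)]
def A33 : FS := [(3, 0x9876543210), (3, 0x9876534201)]
def B33 : FS := [(3, 0x9876543210), (2, 0x9876534201)]

theorem C : IsCode (pc 9) (ml 10) o := isCode_pc (by norm_num) (by decide +kernel)
theorem hok : ∀ c, okP 10 c = true → Mem (pc 9) ⊤ c := mem_of_okP (by norm_num)

noncomputable def ck (Hs : List FS) (Qs : List (List (FS × FS))) : Bool :=
  forceFF Hs fun Hs => lall (chk (okP 10) (ml 10) 5 Hs) Qs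
def e : FS := [(1, o)]
def fxd (k c : ℕ) : FS := [(4, o), (k, c)]
noncomputable def pr (A B : FS) : FS := mulA (ml 10) A B []
def P2 (k c : ℕ) : FS := [(1, o), (k, c)]
noncomputable def P3 (c : ℕ) : FS := pr (P2 1 c) (P2 1 c)
noncomputable def P5 (c : ℕ) : FS := pr (P3 c) (P3 c)
noncomputable def D1 (k : ℕ) : FS := pr (P5 x1) (P2 k t1)
noncomputable def D2 (k : ℕ) : FS := pr (P5 x2) (P2 k t2)
noncomputable def Y4 (k l : ℕ) : FS := [(1, o), (k, t1), (l, t2), (k * l, ml 10 t1 t2)]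

variable {V : Type*} [AddCommGroup V] [Module (ZMod 5) V]
  {ρ : Representation (ZMod 5) (Equiv.Perm (Fin 10)) V}

local notation "R" c => ρ (elt (pc 9) c)
local notation "ω" => op (pc 9) ρ

theorem hp (w : V) : 5 • w = 0 := by
  rw [← Nat.cast_smul_eq_nsmul (ZMod 5), ZMod.natCast_self, zero_smul]

theorem ck_spec {v : V} {Hs : List FS} {Qs : List (List (FS × FS))} (h : ck Hs Qs = true)
    (hH : ∀ H ∈ Hs, Eig (pc 9) ρ v H) :
    ∀ Q ∈ Qs, (Q.map fun q => ω q.1 (ω q.2 v)).sum = 0 := fun Q hQ => by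
  rw [ck, forceFF_eq, lall_iff] at h
  exact chk_spec C hok hp hH (h Q hQ)

theorem op_one (k : ℕ) (v : V) : ω [(k, o)] v = k • v := by simp [op_cons, C.elt_one]
theorem op_e (v : V) : ω e v = v := (op_one 1 v).trans (one_nsmul v)
theorem op_g (c : ℕ) (v : V) : ω [(1, c)] v = (R c) v := by simp [op_cons]
theorem op_g4 (c : ℕ) (v : V) : ω [(4, c)] v = 4 • (R c) v := by simp [op_cons]
theorem eq4 {a b : V} : 4 • a + b = 0 ↔ b = a := by
  rw [add_eq_zero_iff_neg_eq, eq_comm, show -(4 • a) = a - 5 • a by abel, hp, sub_zero]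
theorem op_fxd (k c : ℕ) (v : V) : ω (fxd k c) v = 0 ↔ k • (R c) v = v := by
  simp [fxd, op_cons, C.elt_one, eq4]

theorem mem_all : ∀ c ∈ [x1, t1, w1, c1, a1, b1, s1, x2, t2, w2, c2, a2, b2, s2], Mem (pc 9) ⊤ c :=
  fun c hc => hok c (lall_iff.1 (by decide +kernel) c hc)

theorem eigP {v : V} {k c : ℕ} (h : k • (R c) v = v)
    (hc : c ∈ [x1, t1, w1, c1, a1, b1, s1, x2, t2, w2, c2, a2, b2, s2] := by simp) :
    Eig (pc 9) ρ v (P2 k c) :=
  eig_cons.2 ⟨⟨C.mem_one _, by simp [C.elt_one]⟩, eig_cons.2 ⟨⟨mem_all c hc, h⟩, Eig.nil _⟩⟩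
theorem eigpr {v : V} {A B : FS} (hA : Eig (pc 9) ρ v A) (hB : Eig (pc 9) ρ v B) :
    Eig (pc 9) ρ v (pr A B) := hA.mulA C hB (Eig.nil _)
theorem eig3 {v : V} {c : ℕ} (h : Eig (pc 9) ρ v (P2 1 c)) : Eig (pc 9) ρ v (P3 c) := eigpr h h
theorem eig5 {v : V} {c : ℕ} (h : Eig (pc 9) ρ v (P2 1 c)) : Eig (pc 9) ρ v (P5 c) :=
  eigpr (eig3 h) (eig3 h)

variable (ρ) in
/-- weight vector -/
structure Ty (u : V) (k l : ℕ) : Prop where
  x1 : 1 • (R x1) u = u
  x2 : 1 • (R x2) u = u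
  t1 : k • (R t1) u = u
  t2 : l • (R t2) u = u

theorem Ty.e1 {u : V} {k l : ℕ} (h : Ty ρ u k l) : Eig (pc 9) ρ u (D1 k) :=
  eigpr (eig5 (eigP h.x1)) (eigP h.t1)
theorem Ty.e2 {u : V} {k l : ℕ} (h : Ty ρ u k l) : Eig (pc 9) ρ u (D2 l) :=
  eigpr (eig5 (eigP h.x2)) (eigP h.t2)

theorem ck_ty : ck [P5 x1, P5 x2] ([(e, e), (e, Y4 1 1), (e, Y4 1 4), (e, Y4 4 1), (e, Y4 4 4)] ::
    [(1, 1), (1, 4), (4, 1), (4, 4)].flatMap fun t => [[(fxd 1 x1, Y4 t.1 t.2)],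
      [(fxd 1 x2, Y4 t.1 t.2)], [(fxd t.1 t1, Y4 t.1 t.2)], [(fxd t.2 t2, Y4 t.1 t.2)]]) = true := by
  decide +kernel

theorem exists_ty {U : Submodule (ZMod 5) V} (hU : U ≠ ⊥)
    (h : ∀ c ∈ [x1, x2, t1, t2], ∀ u ∈ U, (R c) u ∈ U) :
    ∃ u ∈ U, u ≠ 0 ∧ (Ty ρ u 1 1 ∨ Ty ρ u 1 4 ∨ Ty ρ u 4 1 ∨ Ty ρ u 4 4) := by
  have : Fact (Nat.Prime 5) := ⟨by norm_num⟩
  obtain ⟨h0, E, h1, h2, h3, h4⟩ := enumK_spec C hok (L := [x1, x2]) (n := 25)
    (K := fun E => Nat.beq (llen E) 25) (by decide +kernel)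
  obtain ⟨u, hu, hu0, h5⟩ := exists_fix (ρ := ρ) (p := 5) (S := gen (pc 9) [x1, x2])
    (IsPGroup.of_card (n := 2) (by rw [card_enum C h1 h2 h3, ← llen_eq, eq_of_beq h4]; rfl)) hU
    (gen_induction (by simp) fun j hj s hs g hg u hu => by
      rw [map_mul, Module.End.mul_apply, ← C.elt_code s, hs]
      exact h _ (List.mem_of_mem_take (i := 2) (lget_mem hj)) _ (hg u hu))
  simp only [List.forall_mem_cons] at h
  have h6 := ck_spec (ρ := ρ) (v := u) ck_ty (by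
    simp only [List.forall_mem_cons]
    exact ⟨eig5 (eigP (by rw [one_nsmul, h5 _ (C.elt_mem (mem_gen h0 _ (by simp)))])),
      eig5 (eigP (by rw [one_nsmul, h5 _ (C.elt_mem (mem_gen h0 _ (by simp)))])), by simp⟩)
  have h7 : ∀ k l, ω (Y4 k l) u ∈ U := fun k l => by
    simp only [Y4, op_cons, C.elt_one, map_one, Module.End.one_apply, op_nil, LinearMap.zero_apply,
      C.elt_mul (mem_all t1 (by simp)) (mem_all t2 (by simp)), map_mul, Module.End.mul_apply]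
    exact add_mem (nsmul_mem hu _) (add_mem (nsmul_mem (h.2.2.1 _ hu) _) (add_mem (nsmul_mem
      (h.2.2.2.1 _ hu) _) (add_mem (nsmul_mem (h.2.2.1 _ (h.2.2.2.1 _ hu)) _) (zero_mem _))))
  simp only [List.flatMap_cons, List.flatMap_nil, List.cons_append, List.nil_append,
    List.forall_mem_cons, List.map_cons, List.map_nil, List.sum_cons, List.sum_nil, add_zero,
    op_fxd, op_e] at h6
  obtain ⟨h6, a1, a2, a3, a4, b1, b2, b3, b4, c1, c2, c3, c4, d1, d2, d3, d4, -⟩ := h6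
  by_contra hn
  push Not at hn
  have k1 : ω (Y4 1 1) u = 0 := by_contra fun e => (hn _ (h7 _ _) e).1 ⟨a1, a2, a3, a4⟩
  have k2 : ω (Y4 1 4) u = 0 := by_contra fun e => (hn _ (h7 _ _) e).2.1 ⟨b1, b2, b3, b4⟩
  have k3 : ω (Y4 4 1) u = 0 := by_contra fun e => (hn _ (h7 _ _) e).2.2.1 ⟨c1, c2, c3, c4⟩
  have k4 : ω (Y4 4 4) u = 0 := by_contra fun e => (hn _ (h7 _ _) e).2.2.2 ⟨d1, d2, d3, d4⟩
  exact hu0 (by simpa [k1, k2, k3, k4] using h6)

theorem ck_comm : ck [] ([Z1, Z2, Y1, Y2].flatMap fun Z => [x1, x2, t1, t2].map fun c =>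
    [([(4, c)], Z), (Z, [(1, c)])]) = true := by
  decide +kernel

theorem core {A B : FS} (hA : A ∈ [Z1, Z2, Y1, Y2]) (hB : B ∈ [Z1, Z2, Y1, Y2])
    (h : ∀ u, ω A u = 0 → ω B u = 0 → Ty ρ u 1 1 ∨ Ty ρ u 1 4 ∨ Ty ρ u 4 1 ∨ Ty ρ u 4 4 → u = 0)
    {v : V} (h1 : ω A v = 0) (h2 : ω B v = 0) : v = 0 := by
  have h3 : ∀ Z ∈ [Z1, Z2, Y1, Y2], ∀ c ∈ [x1, x2, t1, t2], ∀ u, ω Z u = 0 → ω Z ((R c) u) = 0 :=
    fun Z hZ c hc u hu => by
      have := ck_spec (ρ := ρ) (v := u) ck_comm (by simp) _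
        (List.mem_flatMap.2 ⟨Z, hZ, List.mem_map_of_mem hc⟩)
      simpa [hu, op_g] using this
  by_contra hv
  obtain ⟨u, hu, h4, h5⟩ := exists_ty (ρ := ρ) (U := LinearMap.ker (ω A) ⊓ LinearMap.ker (ω B))
    (fun e => hv (by rw [← Submodule.mem_bot (ZMod 5), ← e]; exact ⟨h1, h2⟩))
    fun c hc u hu => ⟨h3 A hA c hc u hu.1, h3 B hB c hc u hu.2⟩
  exact h4 (h u hu.1 hu.2 h5)

theorem ns_chk : (nsB (okP 10) (ml 10) o x1 w1 [1, 0, 1] [1, 0, 0] [0, 1, 0, 0, 0]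
      [1, 0, 0, 0, 1, 0] &&
    nsB (okP 10) (ml 10) o x2 w2 [1, 0, 1] [1, 0, 0] [0, 1, 0, 0, 0] [1, 0, 0, 0, 1, 0] &&
    nsB (okP 10) (ml 10) o xx ww [1, 0, 1] [1, 0, 0] [0, 1, 0, 0, 0] [1, 0, 0, 0, 1, 0]) = true := by
  decide +kernel

theorem ns : ¬ Group.IsSolvable (gen (pc 9) [x1, w1]) ∧ ¬ Group.IsSolvable (gen (pc 9) [x2, w2]) ∧
    ¬ Group.IsSolvable (gen (pc 9) [xx, ww]) := by
  have h := ns_chk
  simp only [Bool.and_eq_true] at h
  exact ⟨(nsB_spec C hok h.1.1).2.2, (nsB_spec C hok h.1.2).2.2, (nsB_spec C hok h.2).2.2⟩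

theorem ck_p1 : ck [D1 1] [[(fxd 1 x1, O1)], [(fxd 1 w1, O1)],
    [(e, e), ([(2, o)], Z1), ([(4, o)], O1)]] = true := by decide +kernel
theorem ck_p2 : ck [D2 1] [[(fxd 1 x2, O2)], [(fxd 1 w2, O2)],
    [(e, e), ([(2, o)], Z2), ([(4, o)], O2)]] = true := by decide +kernel
theorem ck_m1 : ck [D1 4] [[(e, e), (e, Y1)]] = true := by decide +kernel
theorem ck_m2 : ck [D2 4] [[(e, e), (e, Y2)]] = true := by decide +kernel
theorem ck_mm : ck [D1 4, D2 4] [[(fxd 1 x1, T1)], [(fxd 1 x2, T1)], [(fxd 4 t1, T1)],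
    [(fxd 4 t2, T1)], [(fxd 1 x1, T2)], [(fxd 1 x2, T2)], [(fxd 4 t1, T2)], [(fxd 4 t2, T2)],
    [(T1, T1)], [(T2, T2)], [(T1, T2), (T4, T1)], [(fxd 1 xx, I), (Ia0, T1), (Ia1, T2)],
    [(fxd 1 ww, I), (Ib0, T1), (Ib1, T2)], [(e, e), (Iu0, I), (Iu1, T1), (Iu2, T2)]] = true := by
  decide +kernel
theorem ck_pp : ck [D1 1, D2 1] [[(fxd 1 xx, J)], [(fxd 1 ww, J)],
    [(e, e), (Ju0, J), (Ju1, O1), (Ju2, O2)]] = true := by decide +kernel

/-- unfold the conclusion of a check -/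
local macro "unf" " at " h:ident : tactic => `(tactic| simp only [List.forall_mem_cons,
  List.map_cons, List.map_nil, List.sum_cons, List.sum_nil, add_zero, op_fxd, op_e, op_one,
  one_nsmul] at $h:ident)

variable [Fact (Nat.Prime 5)]

theorem plus1 (hs : NoFix ρ) {u : V} {l : ℕ} (h : Ty ρ u 1 l) :
    ω O1 u = 0 ∧ (ω Z1 u = 0 → u = 0) := by
  have k := ck_spec ck_p1 (by simpa using h.e1)
  unf at k
  have := hs.pair C ns.1 k.1 k.2.1
  exact ⟨this, fun h => by simpa [h, this] using k.2.2.1⟩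

theorem plus2 (hs : NoFix ρ) {u : V} {l : ℕ} (h : Ty ρ u l 1) :
    ω O2 u = 0 ∧ (ω Z2 u = 0 → u = 0) := by
  have k := ck_spec ck_p2 (by simpa using h.e2)
  unf at k
  have := hs.pair C ns.2.1 k.1 k.2.1
  exact ⟨this, fun h => by simpa [h, this] using k.2.2.1⟩

theorem minus (hs : NoFix ρ) {u : V} (h : Ty ρ u 4 4) : u = 0 := by
  have key : ∀ {u : V}, Ty ρ u 4 4 → Ty ρ (ω T1 u) 4 4 ∧ Ty ρ (ω T2 u) 4 4 ∧ ω T1 (ω T1 u) = 0 ∧
      ω T2 (ω T2 u) = 0 ∧ (ω T1 u = 0 → ω T1 (ω T2 u) = 0 ∧ (ω T2 u = 0 → u = 0)) := by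
    intro u h
    have k := ck_spec ck_mm (by simpa using ⟨h.e1, h.e2⟩)
    unf at k
    obtain ⟨a1, a2, a3, a4, b1, b2, b3, b4, c1, c2, c3, d1, d2, d3, -⟩ := k
    refine ⟨⟨by simpa, by simpa, a3, a4⟩, ⟨by simpa, by simpa, b3, b4⟩, c1, c2,
      fun h1 => ⟨by simpa [h1] using c3, fun h2 => ?_⟩⟩
    simp only [h1, h2, map_zero, add_zero, op_fxd, one_nsmul] at d1 d2 d3
    simpa [hs.pair C ns.2.2 d1 d2] using d3
  have k2 : ∀ {u : V}, Ty ρ u 4 4 → ω T1 u = 0 → u = 0 := fun h h1 => by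
    obtain ⟨-, a2, -, a4, a5⟩ := key h
    exact (a5 h1).2 (((key a2).2.2.2.2 (a5 h1).1).2 a4)
  exact k2 h (k2 (key h).1 (key h).2.2.1)

theorem factA (hs : NoFix ρ) {v : V} (h1 : ω Z1 v = 0) (h2 : ω Z2 v = 0) : v = 0 :=
  core (by simp) (by simp) (fun u h1 h2 h => by
    rcases h with h | h | h | h
    exacts [(plus1 hs h).2 h1, (plus1 hs h).2 h1, (plus2 hs h).2 h2, minus hs h]) h1 h2

theorem factB (hs : NoFix ρ) {v : V} (h1 : ω Y1 v = 0) (h2 : ω Y2 v = 0) : v = 0 :=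
  core (by simp) (by simp) (fun u h1 h2 h => by
    rcases h with h | h | h | h
    · have k := ck_spec ck_pp (by simpa using ⟨h.e1, h.e2⟩)
      unf at k
      simpa [hs.pair C ns.2.2 k.1 k.2.1, (plus1 hs h).1, (plus2 hs h).1] using k.2.2.1
    · have k := ck_spec ck_m2 (by simpa using h.e2)
      unf at k
      simpa [h2] using k.1
    · have k := ck_spec ck_m1 (by simpa using h.e1)
      unf at k
      simpa [h1] using k.1
    · exact minus hs h) h1 h2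

variable (ρ) in
/-- fixed vectors -/
noncomputable def F (L : List ℕ) : Submodule (ZMod 5) V := fx ρ (gen (pc 9) L)

theorem F_of {L : List ℕ} {v : V} (h : ∀ c ∈ L, (R c) v = v) : v ∈ F ρ L := mem_fx.2 (fix_gen C h)

theorem of_F {L : List ℕ} {v : V} (h : v ∈ F ρ L) {c : ℕ} (hc : c ∈ L := by simp)
    (hc' : c ∈ [x1, t1, w1, c1, a1, b1, s1, x2, t2, w2, c2, a2, b2, s2] := by simp) :
    Eig (pc 9) ρ v (P2 1 c) :=
  eigP (by rw [one_nsmul]; exact mem_fx.1 h _ (C.elt_mem ((mem_all c hc').gen hc))) hc'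

theorem F_mono {L L' : List ℕ} (h : L ⊆ L') : F ρ L' ≤ F ρ L := fun _ hv =>
  mem_fx.2 fun g hg => mem_fx.1 hv g (Subgroup.closure_mono (fun _ hx => h hx) hg)

theorem ck_11 : ck [pr (P3 c1) (pr (P2 1 a1) (P2 1 b1)), pr (P3 c2) (pr (P2 1 a2) (P2 1 b2))]
    [[(Z1, e)], [(Z2, e)]] = true := by decide +kernel
theorem ck_13 : ck [pr (P3 c1) (pr (P2 1 a1) (P2 1 b1)), P3 c2]
    [[(Z1, fxd 1 s2)], [(Z2, fxd 1 s2)]] = true := by decide +kernel
theorem ck_33 : ck [P3 c1, P3 c2] [[(Z1, P33)], [(Z2, P33)], [([(4, o)], e), (e, A33), (e, B33)],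
    [(fxd 1 s1, A33)], [(fxd 1 c1, A33)], [(fxd 1 c2, A33)], [(fxd 1 s2, B33), ([(3, o)], P33)],
    [(fxd 1 c1, B33)], [(fxd 1 c2, B33)]] = true := by decide +kernel
theorem ck_55 : ck [pr (P2 1 a1) (P2 1 b1), pr (P2 1 a2) (P2 1 b2)] [[(Y1, P55)], [(Y2, P55)],
    [([(4, o)], e), (e, A55), (e, B55)], [(fxd 1 c1, A55)], [(fxd 1 a1, A55)], [(fxd 1 b1, A55)],
    [(fxd 1 a2, A55)], [(fxd 1 b2, A55)], [(fxd 1 c2, B55), (Q55, P55)], [(fxd 1 a1, B55)],
    [(fxd 1 b1, B55)], [(fxd 1 a2, B55)], [(fxd 1 b2, B55)]] = true := by decide +kernel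

theorem e11 (hs : NoFix ρ) : F ρ [c1, c2, a1, b1, a2, b2] = ⊥ := eq_bot_iff.2 fun u h => by
  have k := ck_spec ck_11 (by
    simpa using ⟨eigpr (eig3 (of_F h)) (eigpr (of_F h) (of_F h)),
      eigpr (eig3 (of_F h)) (eigpr (of_F h) (of_F h))⟩)
  unf at k
  exact factA hs k.1 k.2.1

theorem e13 (hs : NoFix ρ) : F ρ [a1, b1, c1, c2] ≤ F ρ [s2, a1, b1, c1, c2] := fun u h => by
  have k := ck_spec ck_13 (by
    simpa using ⟨eigpr (eig3 (of_F h)) (eigpr (of_F h) (of_F h)), eig3 (of_F h)⟩)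
  unf at k
  have := (op_fxd _ _ _).1 (factA hs k.1 k.2.1)
  refine F_of (List.forall_mem_cons.2 ⟨by simpa using this, fun c hc => mem_fx.1 h _
    (C.elt_mem ((mem_all c ?_).gen hc))⟩)
  revert c
  simp

theorem e33 (hs : NoFix ρ) : F ρ [c1, c2] ≤ F ρ [s1, c1, c2] ⊔ F ρ [s2, c1, c2] := fun u h => by
  have k := ck_spec ck_33 (by simpa using ⟨eig3 (of_F h), eig3 (of_F h)⟩)
  unf at k
  obtain ⟨a1, a2, a3, a4, a5, a6, a7, a8, a9, -⟩ := k
  simp only [factA hs a1 a2, smul_zero, add_zero, op_fxd, one_nsmul] at a7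
  rw [← eq4.1 a3]
  exact Submodule.add_mem_sup (F_of (by simp [*])) (F_of (by simp [*]))

theorem e55 (hs : NoFix ρ) : F ρ [a1, b1, a2, b2] ≤
    F ρ [c1, a1, b1, a2, b2] ⊔ F ρ [c2, a1, b1, a2, b2] := fun u h => by
  have k := ck_spec ck_55 (by simpa using ⟨eigpr (of_F h) (of_F h), eigpr (of_F h) (of_F h)⟩)
  unf at k
  obtain ⟨a1, a2, a3, a4, a5, a6, a7, a8, a9, b1, b2, b3, b4, -⟩ := k
  simp only [factB hs a1 a2, map_zero, add_zero, op_fxd, one_nsmul] at a9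
  rw [← eq4.1 a3]
  exact Submodule.add_mem_sup (F_of (by simp [*])) (F_of (by simp [*]))

end CL.AS.M5
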