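import Mathlib
import Cfsg.Agent.FGS.AltSec4

/-!
A nonzero finite module for the symmetric group of degree 10 over the field with five elements
has a nonzero vector with nonsolvable stabiliser.
-/

set_option autoImplicit false

namespace CL.AS.M5

open CL.K CL.CG Module

def gP0 : List ℕ := [0x2184650973, 0x3567819240, 0x9714650382]
def gA1 : List ℕ := [0x7984653210, 0x8975461023, 0x9785643210]
def gA2 : List ℕ := [0x8967543210, 0x8967102345, 0x6789104523]
def gA3 : List ℕ := [0x9875023146, 0x9832761054, 0x9870526143]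
def gA4 : List ℕ := [0x7985461032, 0x7985460231, 0x7984653210]
def gA5 : List ℕ := [0x9854013267, 0x9876453201, 0x9832541076]
def gA6 : List ℕ := [0x9864570312, 0x9865742301]
def gA8 : List ℕ := [0x8945672103, 0x9874562310]
def r0 : ℕ := 0x9876543210
def r1 : ℕ := 0x9876542301
def r2 : ℕ := 0x9867452301
def r3 : ℕ := 0x9876543021
def r4 : ℕ := 0x9875634021
def r5 : ℕ := 0x9876354021
def r6 : ℕ := 0x8967354021
def r7 : ℕ := 0x9687354021
def r8 : ℕ := 0x9876450321
def r9 : ℕ := 0x8967450321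
def r10 : ℕ := 0x9784650321
def r11 : ℕ := 0x9847650321
def r12 : ℕ := 0x9867054321
def r13 : ℕ := 0x6987054321
def Gs : List (List ℕ × ℕ × FS) := [
  (gP0, 216, [(1, r0), (3, r1), (18, r2), (12, r3), (12, r4), (36, r5), (12, r6), (32, r7), (18, r9), (36, r12), (36, r13)]),
  (gA1, 72, [(1, r0), (10, r1), (9, r2), (4, r3), (4, r4), (4, r5), (4, r6), (12, r8), (24, r10)]),
  (0x8796541032 :: gA1, 144, [(1, r0), (24, r1), (27, r2), (4, r3), (36, r4), (4, r5), (12, r6), (12, r8), (24, r10)]),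
  (gA2, 96, [(1, r0), (12, r1), (27, r2), (8, r5), (24, r6), (6, r8), (18, r9)]),
  (0x8679453201 :: gA2, 288, [(1, r0), (12, r1), (27, r2), (8, r3), (72, r4), (8, r5), (24, r6), (64, r7), (6, r8), (18, r9), (48, r10)]),
  (gA3, 96, [(1, r0), (6, r1), (21, r2), (32, r5), (36, r11)]),
  (0x9816375420 :: gA3, 192, [(1, r0), (18, r1), (25, r2), (32, r5), (24, r8), (60, r11), (32, r12)]),
  (gA4, 108, [(1, r0), (3, r1), (12, r3), (12, r4), (36, r5), (12, r6), (32, r7)]),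
  (0x9874563012 :: gA4, 216, [(1, r0), (21, r1), (12, r3), (48, r4), (36, r5), (12, r6), (32, r7), (18, r8), (36, r10)]),
  (gA5, 96, [(1, r0), (6, r1), (13, r2), (32, r5), (12, r11), (32, r12)]),
  (0x9867541023 :: gA5, 192, [(1, r0), (18, r1), (25, r2), (32, r5), (24, r8), (60, r11), (32, r12)]),
  (gA6, 144, [(1, r0), (6, r1), (9, r2), (16, r3), (48, r4), (64, r5)]),
  (0x9801237546 :: gA6, 288, [(1, r0), (6, r1), (21, r2), (16, r3), (48, r4), (64, r5), (36, r11), (96, r12)]),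
  (0x8967104523 :: gA5, 192, [(1, r0), (10, r1), (17, r2), (32, r5), (32, r6), (24, r9), (12, r11), (64, r12)]),
  (gA8, 96, [(1, r0), (16, r1), (15, r2), (8, r3), (8, r4), (14, r8), (18, r9), (16, r10)]),
  (0x9845671032 :: gA8, 192, [(1, r0), (26, r1), (33, r2), (8, r3), (40, r4), (32, r8), (24, r9), (16, r10), (12, r11)]),
  (0x4657981023 :: gA1, 144, [(1, r0), (10, r1), (9, r2), (4, r3), (4, r4), (4, r5), (4, r6), (30, r8), (30, r9), (24, r10), (24, r13)]),
  ([c1, c2, a1, b1, a2, b2], 144, [(1, r0), (6, r1), (9, r2), (16, r3), (48, r4), (64, r5)]),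
  ([c1, a1, b1, a2, b2], 48, [(1, r0), (6, r1), (9, r2), (8, r3), (24, r4)]),
  ([c2, a1, b1, a2, b2], 48, [(1, r0), (6, r1), (9, r2), (8, r3), (24, r4)]),
  ([a1, b1, a2, b2], 16, [(1, r0), (6, r1), (9, r2)]),
  ([a1, b1, c1, c2], 36, [(1, r0), (3, r1), (10, r3), (6, r4), (16, r5)]),
  ([s2, a1, b1, c1, c2], 72, [(1, r0), (6, r1), (9, r2), (10, r3), (30, r4), (16, r5)]),
  ([c1, c2], 9, [(1, r0), (4, r3), (4, r5)]),
  ([s1, c1, c2], 18, [(1, r0), (3, r1), (4, r3), (6, r4), (4, r5)]),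
  ([s2, c1, c2], 18, [(1, r0), (3, r1), (4, r3), (6, r4), (4, r5)]),
  ([s1, s2, c1, c2], 36, [(1, r0), (6, r1), (9, r2), (4, r3), (12, r4), (4, r5)]),
  ([], 1, [(1, r0)])]

theorem Gs_chk : lall (fun t => prof 10 o t.1 t.2.1 t.2.2 && !Nat.beq (Nat.mod t.2.1 5) 0) Gs =
    true := by
  decide +kernel

variable {V : Type*} [AddCommGroup V] [Module (ZMod 5) V] [Fact (Nat.Prime 5)]

theorem main [Module.Finite (ZMod 5) V] (ρ : Representation (ZMod 5) (Equiv.Perm (Fin 10)) V)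
    (hs : NoFix ρ) (v : V) : v = 0 := by
  classical
  obtain ⟨ψ, h1, h2⟩ := exists_psi ρ
  have h3 : ∀ t ∈ Gs, ev (fun c => ψ (elt (pc 9) c)) t.2.2 =
      (t.2.1 : ℂ) * finrank (ZMod 5) (F ρ t.1) := fun t ht => by
    have := lall_iff.1 Gs_chk t ht
    rw [Bool.and_eq_true, Bool.not_eq_true'] at this
    obtain ⟨h4, h5⟩ := prof_spec (n := 9) (by norm_num) (by decide +kernel) this.1
    rw [← h5 ψ h1, h2 _ fun h => ne_of_beq this.2 (Nat.mod_eq_zero_of_dvd (h4 ▸ h)), h4]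
    rfl
  simp only [Gs, List.forall_mem_cons, ev_cons, ev_nil, nsmul_eq_mul, add_zero] at h3
  obtain ⟨hP0, hA1, hB1, hA2, hB2, hA3, hB3, hA4, hB4, hA5, hB5, hA6, hB6, hB7, hA8, hB8, hB9,
    hAA, hAV, hVA, hVV, hAC, hAS, hCC, hSC, hCS, hSS, hT, -⟩ := h3
  have key :
      2760 * finrank (ZMod 5) (F ρ (gP0)) + 33360 * finrank (ZMod 5) (F ρ (gA1)) + 17120 *
        finrank (ZMod 5) (F ρ (gA2)) + 4300 * finrank (ZMod 5) (F ρ (gA3)) + 22920 * finrank
        (ZMod 5) (F ρ (gA4)) + 24420 * finrank (ZMod 5) (F ρ (gA5)) + 920 * finrank (ZMod 5) (F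
        ρ (gA6)) + 13360 * finrank (ZMod 5) (F ρ (gA8)) + 8975 * finrank (ZMod 5) (F ρ ([c1, a1,
        b1, a2, b2])) + 8975 * finrank (ZMod 5) (F ρ ([c2, a1, b1, a2, b2])) + 20352 * finrank
        (ZMod 5) (F ρ ([s2, a1, b1, c1, c2])) + 11928 * finrank (ZMod 5) (F ρ ([s1, c1, c2])) +
        11928 * finrank (ZMod 5) (F ρ ([s2, c1, c2])) + 192 * finrank (ZMod 5) (F ρ ([])) =
      30600 * finrank (ZMod 5) (F ρ (0x8796541032 :: gA1)) + 17120 * finrank (ZMod 5) (F ρ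
        (0x8679453201 :: gA2)) + 4300 * finrank (ZMod 5) (F ρ (0x9816375420 :: gA3)) + 22920 *
        finrank (ZMod 5) (F ρ (0x9874563012 :: gA4)) + 3380 * finrank (ZMod 5) (F ρ
        (0x9867541023 :: gA5)) + 920 * finrank (ZMod 5) (F ρ (0x9801237546 :: gA6)) + 21040 *
        finrank (ZMod 5) (F ρ (0x8967104523 :: gA5)) + 13360 * finrank (ZMod 5) (F ρ
        (0x9845671032 :: gA8)) + 2760 * finrank (ZMod 5) (F ρ (0x4657981023 :: gA1)) + 11927 *
        finrank (ZMod 5) (F ρ ([c1, c2, a1, b1, a2, b2])) + 8975 * finrank (ZMod 5) (F ρ ([a1,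
        b1, a2, b2])) + 20352 * finrank (ZMod 5) (F ρ ([a1, b1, c1, c2])) + 11928 * finrank
        (ZMod 5) (F ρ ([c1, c2])) + 11928 * finrank (ZMod 5) (F ρ ([s1, s2, c1, c2])) := by
    refine Nat.cast_injective (R := ℂ) ?_
    push_cast at *
    linear_combination -((2760 / 216) * hP0 + (33360 / 72) * hA1 + (-30600 / 144) * hB1 + (17120
      / 96) * hA2 + (-17120 / 288) * hB2 + (4300 / 96) * hA3 + (-4300 / 192) * hB3 + (22920 /
      108) * hA4 + (-22920 / 216) * hB4 + (24420 / 96) * hA5 + (-3380 / 192) * hB5 + (920 / 144)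
      * hA6 + (-920 / 288) * hB6 + (-21040 / 192) * hB7 + (13360 / 96) * hA8 + (-13360 / 192) *
      hB8 + (-2760 / 144) * hB9 + (-11927 / 144) * hAA + (8975 / 48) * hAV + (8975 / 48) * hVA +
      (-8975 / 16) * hVV + (-20352 / 36) * hAC + (20352 / 72) * hAS + (-11928 / 9) * hCC +
      (11928 / 18) * hSC + (11928 / 18) * hCS + (-11928 / 36) * hSS + (192 / 1) * hT)
  have m : ∀ c L, finrank (ZMod 5) (F ρ (c :: L)) ≤ finrank (ZMod 5) (F ρ L) := fun c L =>
    Submodule.finrank_mono (F_mono (List.subset_cons_self _ _))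
  have s : ∀ {A B U D}, F ρ U ≤ F ρ A ⊔ F ρ B → A ⊆ D → B ⊆ D → finrank (ZMod 5) (F ρ U) +
      finrank (ZMod 5) (F ρ D) ≤ finrank (ZMod 5) (F ρ A) + finrank (ZMod 5) (F ρ B) :=
    fun {A B _ _} h hA hB => by
      rw [← Submodule.finrank_sup_add_finrank_inf_eq (F ρ A)]
      exact add_le_add (Submodule.finrank_mono h)
        (Submodule.finrank_mono (le_inf (F_mono hA) (F_mono hB)))
  have k1 : finrank (ZMod 5) (F ρ [c1, c2, a1, b1, a2, b2]) = 0 := by rw [e11 hs, finrank_bot]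
  have k2 := Submodule.finrank_mono (e13 hs)
  have k3 := s (D := [s1, s2, c1, c2]) (e33 hs) (by simp) (by simp)
  have k4 := s (D := [c1, c2, a1, b1, a2, b2]) (e55 hs) (by simp) (by simp)
  have m0 := m 0x8796541032 gA1
  have m1 := m 0x8679453201 gA2
  have m2 := m 0x9816375420 gA3
  have m3 := m 0x9874563012 gA4
  have m4 := m 0x9867541023 gA5
  have m5 := m 0x9801237546 gA6
  have m6 := m 0x8967104523 gA5
  have m7 := m 0x9845671032 gA8
  have m8 := m 0x4657981023 gA1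
  have : finrank (ZMod 5) (F ρ []) = 0 := by omega
  rw [Submodule.finrank_eq_zero] at this
  rw [← Submodule.mem_bot (ZMod 5), ← this]
  exact F_of (by simp)

end CL.AS.M5
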