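import Mathlib
import Cfsg.Agent.FGS.AltSec5
import Cfsg.Agent.SOLV.Coprime
import Cfsg.Agent.ODD.AbelemRep
import Cfsg.Agent.KSG.AltBasic

/-!
Groups in which noncentral `p`-elements have solvable centralisers: excluded simple quotients.
-/

set_option autoImplicit false

namespace CL.AS

open Subgroup

universe u

/-- every nonzero finite module has a nonzero vector with nonsolvable stabiliser -/
def ML (p : ℕ) [Fact p.Prime] (A : Type*) [Group A] : Prop :=
  ∀ (V : Type u) [AddCommGroup V] [Module (ZMod p) V] [Finite V]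
    (ρ : Representation (ZMod p) A V), NoFix ρ → ∀ v : V, v = 0

/-- noncentral `p`-elements have solvable centralisers -/
def Hyp (p : ℕ) (H : Type*) [Group H] : Prop :=
  ∀ x : H, x ∉ center H → (∃ k, x ^ p ^ k = 1) → Group.IsSolvable (centralizer ({x} : Set H))

variable {p : ℕ} [hp : Fact p.Prime]

theorem solv_of_le {H : Type*} [Group H] {S T : Subgroup H} (h : S ≤ T) [Group.IsSolvable T] :
    Group.IsSolvable S :=
  Group.isSolvable_of_isSolvable_injective (inclusion_injective h)

theorem solv_map {H K : Type*} [Group H] [Group K] (f : H →* K) (S : Subgroup H)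
    [Group.IsSolvable S] : Group.IsSolvable (S.map f) :=
  Group.isSolvable_of_surjective (f.subgroupMap_surjective S)

theorem solv_of_map {H K : Type*} [Group H] [Group K] (f : H →* K) (hf : Function.Injective f)
    (S : Subgroup H) [Group.IsSolvable (S.map f)] : Group.IsSolvable S :=
  Group.isSolvable_of_isSolvable_injective (f := (equivMapOfInjective S f hf).toMonoidHom)
    (equivMapOfInjective S f hf).injective

theorem ML.of_injective {A B : Type*} [Group A] [Group B] (h : ML.{u} p B) (f : B →* A)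
    (hf : Function.Injective f) : ML.{u} p A := fun V _ _ _ ρ hs =>
  h V (ρ.comp f) fun T hT v hv => hs (T.map f)
    (fun _ => hT (solv_of_map f hf T))
    v (by rintro _ ⟨t, ht, rfl⟩; exact hv t ht)

theorem ML.of_normal {G : Type} [Group G] [Finite G] (h : ML.{u} p G) (A : Subgroup G) [A.Normal]
    [Group.IsSolvable (G ⧸ A)] : ML.{u} p A := fun V _ _ _ ρ hs v => by
  classical
  have h1 := h _ (Representation.coind A.subtype ρ) (fun T hT F hF => Subtype.ext (funext fun x => by
    let c : A →* G := (MulAut.conj x⁻¹).toMonoidHom.comp A.subtype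
    refine hs (T.comap c) (fun _ => hT ?_) _ fun a ha => ?_
    · refine Group.isSolvable_of_ker_le_range (c.subgroupComap T)
        ((QuotientGroup.mk' A).comp T.subtype) fun t ht => ?_
      have ht' : (t : G) ∈ A := (QuotientGroup.eq_one_iff _).1 ht
      exact ⟨⟨⟨x * t * x⁻¹, Normal.conj_mem ‹_› _ ht' x⟩, by simp [c, mul_assoc]⟩,
        Subtype.ext (by
          show x⁻¹ * (x * t * x⁻¹) * x⁻¹⁻¹ = t
          group)⟩
    · have := congrFun (congrArg Subtype.val (hF _ ha)) x
      rw [← F.2 a x, ← this]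
      exact congrArg F.1 (by simp [c, mul_assoc])))
    ⟨fun g => if h : g ∈ A then ρ ⟨g, h⟩ v else 0, fun a g => by
      beta_reduce
      by_cases hg : g ∈ A
      · have : A.subtype a * g ∈ A := A.mul_mem a.2 hg
        rw [dif_pos hg, dif_pos this, ← Module.End.mul_apply, ← map_mul]
        rfl
      · have : A.subtype a * g ∉ A := fun h => hg ((A.mul_mem_cancel_left a.2).1 h)
        rw [dif_neg hg, dif_neg this, map_zero]⟩
  have h2 := congrFun (congrArg Subtype.val h1) 1
  simp only [dif_pos A.one_mem] at h2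
  rwa [show (⟨1, A.one_mem⟩ : A) = 1 from rfl, map_one] at h2

omit hp in
theorem Hyp.subgroup {H : Type*} [Group H] (h : Hyp p H) (K : Subgroup H) : Hyp p K := by
  rintro x hx ⟨k, hk⟩
  have := h x (fun e => hx (mem_center_iff.2 fun g => Subtype.ext (mem_center_iff.1 e g)))
    ⟨k, congrArg Subtype.val hk⟩
  have := solv_of_le (S := (centralizer {x}).map K.subtype) (T := centralizer {(x : H)}) (by
    rintro _ ⟨g, hg, rfl⟩
    exact mem_centralizer_singleton_iff.2 (congrArg Subtype.val (mem_centralizer_singleton_iff.1 hg)))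
  exact solv_of_map _ K.subtype_injective _

omit hp in
theorem Hyp.quotient {H : Type*} [Group H] [Finite H] (h : Hyp p H) (Q : Subgroup H) [Q.Normal]
    (hQ : (Nat.card Q).Coprime p) : Hyp p (H ⧸ Q) := by
  rintro y hy ⟨k, hk⟩
  have h1 : ∀ {G : Type _} [Group G] (x : G), centralizer {x} = centralizer (zpowers x : Set G) :=
    fun x => by rw [zpowers_eq_closure, centralizer_closure]
  obtain ⟨f, hf⟩ := BG3.exists_lift_hom (QuotientGroup.mk' Q) (QuotientGroup.mk'_surjective Q)
    (ρ := (zpowers y).subtype) (by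
      rw [QuotientGroup.ker_mk', Nat.card_zpowers]
      exact (hQ.pow_right k).coprime_dvd_right (orderOf_dvd_of_pow_eq_one hk))
  let x := f ⟨y, mem_zpowers y⟩
  have hx : QuotientGroup.mk' Q x = y := hf _
  have hk' : x ^ p ^ k = 1 := by
    rw [← map_pow, show (⟨y, mem_zpowers y⟩ : zpowers y) ^ p ^ k = 1 from Subtype.ext hk, map_one]
  have := h x (fun e => hy (mem_center_iff.2 fun g => by
    obtain ⟨g, rfl⟩ := QuotientGroup.mk'_surjective Q g
    rw [← hx, ← map_mul, ← map_mul, mem_center_iff.1 e g])) ⟨k, hk'⟩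
  rw [h1] at this ⊢
  rw [← hx, ← MonoidHom.map_zpowers, centralizer_map_mk'_of_coprime Q _ (by
    rw [Nat.card_zpowers]
    exact ((hQ.pow_right k).coprime_dvd_right (orderOf_dvd_of_pow_eq_one hk')).symm)
    (Or.inl inferInstance)]
  exact solv_map _ _

theorem solv_of_central {H : Type*} [Group H] {x : H} (T : Subgroup H)
    [Group.IsSolvable (centralizer ({x} : Set H))]
    (h : ∀ t ∈ T, t * x * t⁻¹ * x⁻¹ ∈ center H) : Group.IsSolvable T := by
  let f : T →* center H :=
    { toFun t := ⟨_, h t t.2⟩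
      map_one' := by simp
      map_mul' s t := Subtype.ext (by
        have := mem_center_iff.1 (h t t.2)
        simp only [coe_mul, mul_inv_rev]
        calc _ = s * (t * x * (t : H)⁻¹ * x⁻¹) * (x * (s : H)⁻¹ * x⁻¹) := by group
          _ = s * (x * (s : H)⁻¹ * x⁻¹) * (t * x * (t : H)⁻¹ * x⁻¹) := by
            rw [mul_assoc, ← this, ← mul_assoc]
          _ = _ := by group) }
  have := solv_of_le (inf_le_right : T ⊓ centralizer {x} ≤ _)
  have := Group.isSolvable_of_comm fun a b : center H =>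
    Subtype.ext (mem_center_iff.1 b.2 a)
  refine Group.isSolvable_of_ker_le_range (inclusion (inf_le_left : T ⊓ centralizer {x} ≤ T)) f
    fun t ht => ⟨⟨t, t.2, mem_centralizer_singleton_iff.2 ?_⟩, rfl⟩
  have : (t : H) * x * (t : H)⁻¹ * x⁻¹ = 1 := congrArg Subtype.val ht
  rwa [mul_inv_eq_one, mul_inv_eq_iff_eq_mul] at this

theorem red {A B : Type*} [Group A] [IsSimpleGroup A] [Group B] [Finite B]
    (hB : ¬ Group.IsSolvable B) (ι : B →* A) (hι : Function.Injective ι) {y : A} (hy : y ≠ 1)
    (hyp : y ^ p = 1) (hc : ∀ b, ι b * y = y * ι b) (h : ¬ p ∣ Nat.card B ∨ ML.{u} p A) (n : ℕ) :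
    ∀ (H : Type u) [Group H] [Finite H], Nat.card H = n → Hyp p H →
      ∀ π : H →* A, ¬ Function.Surjective π := by
  induction n using Nat.strong_induction_on with
  | _ n ih =>
  intro H _ _ hn hH π hπ
  have h1 : ∀ K : Subgroup H, K ⊔ π.ker = ⊤ → K = ⊤ := fun K hK => by
    by_contra e
    refine ih _ (hn ▸ lt_of_le_of_ne K.card_le_card_group fun e' => e (eq_top_of_card_eq _ e'))
      K rfl (hH.subgroup K) (π.comp K.subtype) ?_
    rw [← MonoidHom.range_eq_top, ← MonoidHom.map_range, range_subtype, eq_top_iff,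
      ← map_top_of_surjective π hπ, ← hK, Subgroup.map_sup, (Subgroup.map_eq_bot_iff _).2 le_rfl, sup_bot_eq]
  have hN : IsPGroup p π.ker := by
    refine (isPGroup_iff_primeFactors_card_subset hp.out.ne_zero).2 fun q hq => ?_
    have hq' := Fact.mk (Nat.prime_of_mem_primeFactors hq)
    rw [hp.out.primeFactors, Finset.mem_singleton]
    by_contra e
    obtain ⟨P⟩ : Nonempty (Sylow q π.ker) := inferInstance
    have : ((P : Subgroup π.ker).map π.ker.subtype).Normal :=
      normalizer_eq_top_iff.1 (h1 _ P.normalizer_sup_eq_top)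
    have hP := P.isPGroup'.map π.ker.subtype
    refine ih _ ?_ _ rfl (hH.quotient ((P : Subgroup π.ker).map π.ker.subtype) ?_)
      (QuotientGroup.lift _ π (map_subtype_le _)) fun a => ?_
    · rw [← hn, card_eq_card_quotient_mul_card_subgroup ((P : Subgroup π.ker).map π.ker.subtype)]
      refine lt_mul_of_one_lt_right Nat.card_pos (one_lt_card_iff_ne_bot _ |>.2 fun e => ?_)
      exact P.ne_bot_of_dvd_card (Nat.dvd_of_mem_primeFactors hq)
        ((map_eq_bot_iff_of_injective _ π.ker.subtype_injective).1 e)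
    · obtain ⟨k, hk⟩ := IsPGroup.iff_card.1 hP
      rw [hk]
      exact ((Nat.coprime_primes hq'.out hp.out).2 e).pow_left k
    · obtain ⟨g, rfl⟩ := hπ a
      exact ⟨g, rfl⟩
  have h2 : ∀ x, π x = y → x ∉ center H ∧ ∃ k, x ^ p ^ k = 1 := fun x hx => by
    refine ⟨fun e => ?_, ?_⟩
    · have : y ∈ center A := mem_center_iff.2 fun g => by
        obtain ⟨g, rfl⟩ := hπ g
        rw [← hx, ← map_mul, ← map_mul, mem_center_iff.1 e g]
      rcases (inferInstance : (center A).Normal).eq_bot_or_eq_top with e | e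
      · exact hy (by rwa [e] at this)
      · have := Group.isSolvable_of_comm fun a b : A => mem_center_iff.1 (e ▸ mem_top b) a
        exact hB (Group.isSolvable_of_isSolvable_injective hι)
    · obtain ⟨k, hk⟩ := hN ⟨x ^ p, by rw [MonoidHom.mem_ker, map_pow, hx, hyp]⟩
      exact ⟨k + 1, by rw [pow_succ', pow_mul]; exact congrArg Subtype.val hk⟩
  have h3 : ∀ T : Subgroup A, Group.IsSolvable (T.comap π) → Group.IsSolvable T := fun T _ =>
    Group.isSolvable_of_surjective (π.subgroupComap_surjective_of_surjective T hπ)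
  obtain ⟨x, hx⟩ := hπ y
  rcases h with h | h
  · obtain ⟨k, hk⟩ := IsPGroup.iff_card.1 hN
    have h4 : (Nat.card π.ker).Coprime (Nat.card B) :=
      hk ▸ ((Nat.Prime.coprime_iff_not_dvd hp.out).2 h).pow_left k
    obtain ⟨f, hf⟩ := BG3.exists_lift_hom π hπ h4 ι
    have := hN.isNilpotent
    obtain ⟨s, hs, h5⟩ := coprime_fixed_point_quotient f.range π.ker le_normalizer_of_normal
      (h4.symm.coprime_dvd_left (card_range_dvd f)) (Or.inr inferInstance) x
      (le_normalizer_of_normal (mem_top x)) (by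
        rintro _ ⟨b, rfl⟩
        simp [MonoidHom.mem_ker, hf, hx, hc])
    obtain ⟨h6, h7⟩ := h2 (x * s) (by rw [map_mul, hx, hs, mul_one])
    have := hH _ h6 h7
    have := solv_of_le (S := f.range) (T := centralizer {x * s})
      fun g hg => mem_centralizer_singleton_iff.2 (h5 g hg)
    exact hB (Group.isSolvable_of_isSolvable_injective (f := f.rangeRestrict) fun a b e =>
      hι (by rw [← hf, ← hf]; exact congrArg π (congrArg Subtype.val e)))
  by_cases hZ : π.ker ≤ center H
  · have := hH x (h2 x hx).1 (h2 x hx).2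
    have := h3 ι.range (solv_of_central (x := x) _ fun t ⟨b, hb⟩ => hZ (by
      simp [MonoidHom.mem_ker, ← hb, hx, hc]))
    exact hB (Group.isSolvable_of_isSolvable_injective (f := ι.rangeRestrict) fun a b e =>
      hι (congrArg Subtype.val e))
  let m := QuotientGroup.mk' (center H)
  let M := π.ker.map m
  have : M.Normal := Normal.map inferInstance _ (QuotientGroup.mk'_surjective _)
  have hM : IsPGroup p M := hN.map m
  have : Nontrivial M := (nontrivial_iff_ne_bot _).2 fun e => hZ (by
    rwa [Subgroup.map_eq_bot_iff, QuotientGroup.ker_mk'] at e)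
  let E : Subgroup (H ⧸ center H) :=
    { carrier := {v | v ∈ M ⊓ centralizer M ∧ v ^ p = 1}
      mul_mem' := fun {a b} ha hb => ⟨mul_mem ha.1 hb.1, by
        rw [Commute.mul_pow (hb.1.2 a ha.1.1), ha.2, hb.2, mul_one]⟩
      one_mem' := ⟨one_mem _, one_pow _⟩
      inv_mem' := fun ha => ⟨inv_mem ha.1, by rw [inv_pow, ha.2, inv_one]⟩ }
  have : E.Normal := ⟨fun a ha g => ⟨Normal.conj_mem inferInstance _ ha.1 g, by
    rw [conj_pow, ha.2, mul_one, mul_inv_cancel]⟩⟩
  have hE : Cfsg.IsElementaryAbelian p E :=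
    ⟨⟨⟨fun a b => Subtype.ext (b.2.1.2 a a.2.1.1)⟩⟩, fun a ha => ha.2⟩
  let σ : H →* Module.End (ZMod p) (Abelem.V hE) := (Abelem.rep hE
    (le_normalizer_of_normal : (⊤ : Subgroup _) ≤ _)).comp (topEquiv.symm.toMonoidHom.comp m)
  have hσ : ∀ g v, (σ g v).val = m g * v.val * (m g)⁻¹ := fun g v => rfl
  have hk : π.ker ≤ MonoidHom.ker σ := fun g hg => by
    refine LinearMap.ext fun v => Abelem.V.ext ?_
    rw [hσ, v.mem.1.2 _ (mem_map_of_mem m hg), mul_inv_cancel_right]
    rfl
  let ρ : Representation (ZMod p) A (Abelem.V hE) := (QuotientGroup.lift π.ker σ hk).comp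
    (QuotientGroup.quotientKerEquivOfSurjective π hπ).symm.toMonoidHom
  have hρ : ∀ g, ρ (π g) = σ g := fun g => by
    have : (QuotientGroup.quotientKerEquivOfSurjective π hπ).symm (π g) = g :=
      (MulEquiv.symm_apply_eq _).2 rfl
    exact congrArg (QuotientGroup.lift π.ker σ hk) this
  have h4 := h _ ρ fun T hT v hv => by
    by_contra e
    obtain ⟨z, hz, e'⟩ := v.mem.1.1
    obtain ⟨k, hk⟩ := hN ⟨z, hz⟩
    have := hH z (fun h => e (Abelem.V.ext (e' ▸ (QuotientGroup.eq_one_iff _).2 h)))
      ⟨k, congrArg Subtype.val hk⟩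
    refine hT (h3 T (solv_of_central (x := z) _ fun t ht => (QuotientGroup.eq_one_iff _).1 ?_))
    have := congrArg Abelem.V.val (hv _ ht)
    rw [hρ, hσ, ← e'] at this
    show m _ = 1
    rw [map_mul, map_mul, map_mul, map_inv, map_inv, this, mul_inv_cancel]
  have := hM.center_nontrivial
  obtain ⟨z, hz⟩ := exists_prime_orderOf_dvd_card' (G := center M) p
    ((hM.to_subgroup _).card_eq_or_dvd.resolve_left Finite.one_lt_card.ne')
  have h5 := h4 ⟨z.1.1, ⟨z.1.2, fun g hg => congrArg Subtype.val (mem_center_iff.1 z.2 ⟨g, hg⟩)⟩,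
    congrArg (fun t : center M => t.1.1) (hz ▸ pow_orderOf_eq_one z)⟩
  have h6 : z = 1 := Subtype.ext (Subtype.ext (congrArg Abelem.V.val h5))
  rw [h6, orderOf_one] at hz
  exact hp.out.one_lt.ne hz

open Equiv Equiv.Perm in
theorem red_alt {m d : ℕ} (hd : m + 5 ≤ d) {y : Perm (Fin m)} (hs : sign y = 1) (hy : y ≠ 1)
    (hyp : y ^ p = 1) (h : ¬ p ∣ 60 ∨ ML.{u} p (Perm (Fin (m + 5)))) (H : Type u) [Group H]
    [Finite H] (hH : Hyp p H) (π : H →* alternatingGroup (Fin d)) : ¬ Function.Surjective π := by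
  obtain ⟨e⟩ : Nonempty (Fin m ⊕ Fin 5 ↪ Fin d) :=
    Function.Embedding.nonempty_of_card_le (by simpa using hd)
  obtain ⟨φ, hφ, -⟩ := KSG.exists_alt_embedding e
  obtain ⟨φ', hφ', -⟩ := KSG.exists_alt_embedding (Fin.castLEEmb hd)
  have := alternatingGroup.isSimpleGroup (α := Fin d) (by simp; omega)
  let ι : alternatingGroup (Fin 5) →* alternatingGroup (Fin m ⊕ Fin 5) :=
    ((sumCongrHom _ _).comp ((MonoidHom.inr _ _).comp (alternatingGroup _).subtype)).codRestrict _
      fun g => by simpa using mem_alternatingGroup.1 g.2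
  let z : alternatingGroup (Fin m ⊕ Fin 5) := ⟨sumCongrHom _ _ (y, 1), by simpa using hs⟩
  refine red (B := alternatingGroup (Fin 5)) (fun h => ?_) (φ.comp ι) (hφ.comp fun a b e => ?_)
    (y := φ z) (fun e => hy ?_) ?_ (fun b => ?_) (h.imp (fun h => ?_) fun h => ?_) _ H rfl hH π
  · have := IsSimpleGroup.comm_iff_isSolvable.2 h ⟨swap 0 1 * swap 0 2, by simp⟩
      ⟨swap 0 1 * swap 0 3, by simp⟩
    revert this
    decide
  · exact Subtype.ext (congrArg Prod.snd (sumCongrHom_injective (congrArg Subtype.val e)))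
  · exact congrArg Prod.fst (sumCongrHom_injective ((congrArg Subtype.val
      ((injective_iff_map_eq_one φ).1 hφ z e)).trans (map_one _).symm))
  · rw [← map_pow, show z ^ p = 1 from Subtype.ext (by
      show sumCongrHom _ _ (y, 1) ^ p = 1
      rw [← map_pow, Prod.pow_mk, hyp, one_pow]; exact map_one _), map_one]
  · rw [MonoidHom.comp_apply, ← map_mul, ← map_mul]
    refine congrArg φ (Subtype.ext ?_)
    show sumCongrHom _ _ (1, b.1) * sumCongrHom _ _ (y, 1) =
      sumCongrHom _ _ (y, 1) * sumCongrHom _ _ (1, b.1)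
    rw [← map_mul, ← map_mul]
    simp
  · rwa [nat_card_alternatingGroup, Nat.card_fin]
  · have : Group.IsSolvable (Perm (Fin (m + 5)) ⧸ alternatingGroup (Fin (m + 5))) :=
      Group.isSolvable_of_isSolvable_injective (QuotientGroup.kerLift_injective sign)
    exact (h.of_normal _).of_injective φ' hφ'

end CL.AS
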