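import Mathlib

/-! Extending a compatible pair of automorphisms of a normal subgroup and a complement. -/

set_option autoImplicit false

namespace CL.FGS

theorem exists_mulAut_extend {G : Type*} [Group G] (N K : Subgroup G) [N.Normal]
    (h : N.IsComplement' K) (ψ : MulAut N) (τ : MulAut K)
    (hc : ∀ k : K, ψ * MulAut.conjNormal (k : G) = MulAut.conjNormal (τ k : G) * ψ) :
    ∃ φ : MulAut G, (∀ n : N, φ n = ψ n) ∧ ∀ k : K, φ k = τ k := by
  let e := SemidirectProduct.mulEquivSubgroup h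
  have he : ∀ (n : N) (k : K), e ⟨n, k⟩ = n * k := fun n k => rfl
  let c := SemidirectProduct.congr
    (φ₁ := (N.normalizerMonoidHom).comp (Subgroup.inclusion (N.normalizer_eq_top ▸ le_top)))
    (φ₂ := (N.normalizerMonoidHom).comp (Subgroup.inclusion (N.normalizer_eq_top ▸ le_top)))
    ψ τ (by
      intro k
      ext n
      exact congrArg (fun f : MulAut N => (f n : G)) (hc k))
  refine ⟨(e.symm.trans c).trans e, fun n => ?_, fun k => ?_⟩
  · have : e.symm n = ⟨n, 1⟩ := by rw [MulEquiv.symm_apply_eq, he]; simp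
    simp only [MulEquiv.trans_apply, this]
    change e ⟨ψ n, τ 1⟩ = _
    rw [he]; simp
  · have : e.symm k = ⟨1, k⟩ := by rw [MulEquiv.symm_apply_eq, he]; simp
    simp only [MulEquiv.trans_apply, this]
    change e ⟨ψ 1, τ k⟩ = _
    rw [he]; simp

/-- Extension for a cyclic complement `⟨x⟩` and the power map `x ↦ x ^ i`. -/
theorem exists_mulAut_extend_zpowers {G : Type*} [Group G] [Finite G] (N : Subgroup G) [N.Normal]
    {x : G} (h : N.IsComplement' (Subgroup.zpowers x)) (ψ : MulAut N) {i : ℕ}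
    (hi : (orderOf x).Coprime i)
    (hc : ψ * MulAut.conjNormal x = MulAut.conjNormal x ^ i * ψ) :
    ∃ φ : MulAut G, (∀ n : N, φ n = ψ n) ∧ φ x = x ^ i := by
  let _ : CommGroup (Subgroup.zpowers x) :=
    { (inferInstance : Group (Subgroup.zpowers x)) with mul_comm := mul_comm' }
  let τ : MulAut (Subgroup.zpowers x) := MulEquiv.ofBijective (powMonoidHom i)
    (powCoprime (G := Subgroup.zpowers x) (n := i) (by rwa [Nat.card_zpowers])).bijective
  obtain ⟨φ, h1, h2⟩ := exists_mulAut_extend N _ h ψ τ (by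
    rintro ⟨k, hk⟩
    obtain ⟨m, rfl⟩ := (mem_powers_iff_mem_zpowers.2 hk : k ∈ Submonoid.powers x)
    have := SemiconjBy.pow_right hc m
    change ψ * MulAut.conjNormal (x ^ m) = MulAut.conjNormal ((x ^ m) ^ i) * ψ
    rw [← pow_mul, mul_comm m i, map_pow, map_pow, pow_mul]
    exact this)
  exact ⟨φ, h1, h2 ⟨x, Subgroup.mem_zpowers x⟩⟩

end CL.FGS
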