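import Mathlib
import Cfsg.Agent.CHEV.SzTor

/-!
# The Bray-Wilson-Wilson sequence in the minimal simple groups
-/

set_option autoImplicit false
set_option linter.unusedSectionVars false

namespace CL.BWW

open Matrix

/-- one step of the sequence. -/
def step {G : Type*} [Group G] (y s : G) : G := (y⁻¹ * s * y) * (s⁻¹) * (y⁻¹ * s * y)⁻¹ * (s⁻¹)⁻¹

/-- the sequence. -/
def sq {G : Type*} [Group G] (x y : G) (n : ℕ) : G := @Nat.rec (fun _ => G) x (fun _ s => step y s) n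

theorem sq_succ {G : Type*} [Group G] (x y : G) (n : ℕ) : sq x y (n + 1) = step y (sq x y n) := rfl

theorem map_step {G H : Type*} [Group G] [Group H] (f : G →* H) (y s : G) :
    f (step y s) = step (f y) (f s) := by simp [step]

theorem map_sq {G H : Type*} [Group G] [Group H] (f : G →* H) (x y : G) (n : ℕ) :
    f (sq x y n) = sq (f x) (f y) n := by
  induction n with
  | zero => rfl
  | succ n ih => rw [sq_succ, sq_succ, map_step, ih]

/-- the law. -/
def Law (n : ℕ) (G : Type*) [Group G] : Prop := ∀ x y : G, sq x y n = 1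

theorem Law.of_surj {G H : Type*} [Group G] [Group H] {n : ℕ} (h : Law n G) (f : G →* H)
    (hf : Function.Surjective f) : Law n H := fun x y => by
  obtain ⟨a, rfl⟩ := hf x
  obtain ⟨b, rfl⟩ := hf y
  rw [← map_sq, h, map_one]

theorem Law.of_inj {G H : Type*} [Group G] [Group H] {n : ℕ} (h : Law n H) (f : G →* H)
    (hf : Function.Injective f) : Law n G := fun x y => hf (by rw [map_sq, h, map_one])

theorem sq_mem {G : Type*} [Group G] (x y : G) (n : ℕ) : sq x y n ∈ derivedSeries G n := by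
  induction n with
  | zero => exact Subgroup.mem_top _
  | succ n ih =>
    rw [sq_succ, derivedSeries_succ]
    have h1 : y⁻¹ * sq x y n * y ∈ derivedSeries G n := by
      simpa using (derivedSeries_normal G n).conj_mem _ ih y⁻¹
    exact Subgroup.commutator_mem_commutator h1 (inv_mem ih)

theorem inv_sq {G : Type*} [Group G] {y : G} (P : G → Prop) (hP : ∀ s, P s → P (step y s)) {x : G}
    (hx : P x) (n : ℕ) : P (sq x y n) := by
  induction n with
  | zero => exact hx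
  | succ n ih => exact hP _ ih

theorem not_law_of_inv {G H : Type*} [Group G] [Group H] (f : G →* H) {y : G} (P : G → Prop)
    (hP : ∀ s, P s → P (step y s)) {x : G} (hx : P x) (h1 : ∀ s, P s → f s ≠ 1) (n : ℕ) :
    ¬ Law n H := fun h => h1 _ (inv_sq P hP hx n) (by rw [map_sq]; exact h _ _)

section SL2

variable {F : Type*} [Field F]

theorem sl2_inv_val (s : SpecialLinearGroup (Fin 2) F) :
    (s⁻¹).1 = !![s.1 1 1, -s.1 0 1; -s.1 1 0, s.1 0 0] := by
  rw [SpecialLinearGroup.SL2_inv_expl]; rfl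

theorem sl2_det (s : SpecialLinearGroup (Fin 2) F) : s.1 0 0 * s.1 1 1 - s.1 0 1 * s.1 1 0 = 1 := by
  have := s.2
  rwa [det_fin_two] at this

theorem mk_ne_one {n : ℕ} {s : SpecialLinearGroup (Fin n) F}
    (h : ∀ r : F, s.1 ≠ scalar (Fin n) r) :
    (QuotientGroup.mk' (Subgroup.center (SpecialLinearGroup (Fin n) F))) s ≠ 1 := by
  intro e
  rw [QuotientGroup.mk'_apply, QuotientGroup.eq_one_iff,
    Matrix.SpecialLinearGroup.mem_center_iff] at e
  obtain ⟨r, -, hr⟩ := e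
  exact h r hr.symm

/-- the unipotent element. -/
def yU (F : Type*) [Field F] : SpecialLinearGroup (Fin 2) F := ⟨!![1, 1; 0, 1], by simp [det_fin_two]⟩

/-- the element of order four. -/
def yW (F : Type*) [Field F] : SpecialLinearGroup (Fin 2) F := ⟨!![0, 1; -1, 0], by simp [det_fin_two]⟩

theorem step_val (y s : SpecialLinearGroup (Fin 2) F) :
    (step y s).1 = (y⁻¹).1 * !![s.1 0 0, s.1 0 1; s.1 1 0, s.1 1 1] * y.1 * (s⁻¹).1 * (y⁻¹).1 *
      (s⁻¹).1 * y.1 * !![s.1 0 0, s.1 0 1; s.1 1 0, s.1 1 1] := by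
  have e : step y s = y⁻¹ * s * y * s⁻¹ * y⁻¹ * s⁻¹ * y * s := by
    simp [step, mul_assoc]
  rw [e, ← Matrix.eta_fin_two s.1]
  rfl

theorem step_U (s : SpecialLinearGroup (Fin 2) F) :
    (step (yU F) s).1 1 0 = -(s.1 1 0) ^ 2 * (2 + s.1 1 0 * (s.1 0 0 + s.1 1 1) + s.1 1 0 ^ 2) ∧
    (step (yU F) s).1 0 0 + (step (yU F) s).1 1 1 =
      2 + 4 * s.1 1 0 ^ 2 + s.1 1 0 ^ 4 - (s.1 0 0 + s.1 1 1) ^ 2 * s.1 1 0 ^ 2 := by
  have hd := sl2_det s
  rw [step_val, sl2_inv_val, sl2_inv_val]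
  simp only [yU, Matrix.mul_fin_two, of_apply, cons_val', cons_val_zero, cons_val_one,
    cons_val_fin_one]
  constructor
  · linear_combination (-2 * s.1 1 0 ^ 2) * hd
  · linear_combination (2 * (s.1 0 0 * s.1 1 1 - s.1 0 1 * s.1 1 0) + 2 + 4 * s.1 1 0 ^ 2) * hd

theorem step_W (s : SpecialLinearGroup (Fin 2) F) :
    (step (yW F) s).1 1 0 - (step (yW F) s).1 0 1 =
      -((s.1 0 0 - s.1 1 1) ^ 2 + (s.1 0 1 + s.1 1 0) ^ 2) * (s.1 0 0 + s.1 1 1) * (s.1 1 0 - s.1 0 1) ∧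
    (step (yW F) s).1 0 0 + (step (yW F) s).1 1 1 =
      ((s.1 0 0 - s.1 1 1) ^ 2 + (s.1 0 1 + s.1 1 0) ^ 2) * (s.1 1 0 - s.1 0 1) ^ 2 + 2 := by
  have hd := sl2_det s
  rw [step_val, sl2_inv_val, sl2_inv_val]
  simp only [yW, Matrix.mul_fin_two, of_apply, cons_val', cons_val_zero, cons_val_one,
    cons_val_fin_one]
  constructor
  · ring
  · linear_combination (2 * (s.1 0 0 * s.1 1 1 - s.1 0 1 * s.1 1 0) + 2) * hd

theorem not_law_even [CharP F 2] {t : F} (h0 : t ≠ 0) (h1 : t ≠ 1) (n : ℕ) :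
    ¬ Law n (ProjectiveSpecialLinearGroup (Fin 2) F) := by
  have h2 : (2 : F) = 0 := CharTwo.two_eq_zero
  refine not_law_of_inv (QuotientGroup.mk' _) (y := yU F)
    (fun s => s.1 1 0 ≠ 0 ∧ s.1 0 0 + s.1 1 1 ≠ 0 ∧ s.1 0 0 + s.1 1 1 + s.1 1 0 ≠ 0) ?_
    (x := ⟨!![t, -1; 1, 0], by simp [det_fin_two]⟩) ?_ ?_ n
  · rintro s ⟨hc, ht, hs⟩
    obtain ⟨e1, e2⟩ := step_U s
    set c := s.1 1 0
    set τ := s.1 0 0 + s.1 1 1
    have f1 : (step (yU F) s).1 1 0 = c ^ 3 * (τ + c) := by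
      rw [e1]; linear_combination (-c ^ 2 - c ^ 3 * τ - c ^ 4) * h2
    have f2 : (step (yU F) s).1 0 0 + (step (yU F) s).1 1 1 = c ^ 2 * (τ + c) ^ 2 := by
      rw [e2]; linear_combination (1 + 2 * c ^ 2 - τ ^ 2 * c ^ 2 - τ * c ^ 3) * h2
    refine ⟨?_, ?_, ?_⟩
    · rw [f1]; exact mul_ne_zero (pow_ne_zero _ hc) hs
    · rw [f2]; exact mul_ne_zero (pow_ne_zero _ hc) (pow_ne_zero _ hs)
    · rw [f1, f2]
      have : c ^ 2 * (τ + c) ^ 2 + c ^ 3 * (τ + c) = c ^ 2 * τ * (τ + c) := by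
        linear_combination (c ^ 3 * (τ + c)) * h2
      rw [this]
      exact mul_ne_zero (mul_ne_zero (pow_ne_zero _ hc) ht) hs
  · refine ⟨by simp, by simpa using h0, ?_⟩
    simp only [of_apply, cons_val', cons_val_zero, cons_val_one, cons_val_fin_one, add_zero]
    intro e
    exact h1 (by linear_combination e - h2)
  · rintro s ⟨hc, -, -⟩
    refine mk_ne_one fun r e => hc ?_
    rw [e]; simp

theorem not_law_odd_aux (h2 : (2 : F) ≠ 0) {t v A B : F} (ht : t ≠ 0) (hv : v ≠ 0)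
    (hm : t ^ 2 + v ^ 2 - 4 = A ^ 2 + B ^ 2) (hn : ¬ IsSquare (-2 * (A ^ 2 + B ^ 2))) (n : ℕ) :
    ¬ Law n (ProjectiveSpecialLinearGroup (Fin 2) F) := by
  refine not_law_of_inv (QuotientGroup.mk' _) (y := yW F)
    (fun s => s.1 0 0 + s.1 1 1 ≠ 0 ∧ s.1 1 0 - s.1 0 1 ≠ 0 ∧
      ¬ IsSquare (-2 * ((s.1 0 0 - s.1 1 1) ^ 2 + (s.1 0 1 + s.1 1 0) ^ 2))) ?_
    (x := ⟨!![(t + A) / 2, (B - v) / 2; (v + B) / 2, (t - A) / 2], by
      simp only [det_fin_two, of_apply, cons_val', cons_val_zero, cons_val_one, cons_val_fin_one]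
      field_simp
      linear_combination hm⟩) ?_ ?_ n
  · rintro s ⟨hτ, hw, hs⟩
    obtain ⟨e1, e2⟩ := step_W s
    have hd := sl2_det s
    have hd' := sl2_det (step (yW F) s)
    set s' := step (yW F) s
    set m := (s.1 0 0 - s.1 1 1) ^ 2 + (s.1 0 1 + s.1 1 0) ^ 2 with hm'
    set τ := s.1 0 0 + s.1 1 1 with hτ'
    set w := s.1 1 0 - s.1 0 1 with hw'
    have hm0 : m ≠ 0 := fun e => hs (by rw [e]; simp)
    have hm2 : m + 2 ≠ 0 := fun e => hs ⟨2, by linear_combination (-2) * e⟩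
    have hr : τ ^ 2 + w ^ 2 = m + 4 := by rw [hm', hτ', hw']; linear_combination 4 * hd
    refine ⟨?_, ?_, ?_⟩
    · rw [e2]
      intro e
      refine hs ⟨2 / w, ?_⟩
      field_simp
      linear_combination (-1) * e
    · rw [e1]
      exact mul_ne_zero (mul_ne_zero (neg_ne_zero.2 hm0) hτ) hw
    · have : (s'.1 0 0 - s'.1 1 1) ^ 2 + (s'.1 0 1 + s'.1 1 0) ^ 2 = m * (w * (m + 2)) ^ 2 := by
        have a1 : (s'.1 0 0 - s'.1 1 1) ^ 2 + (s'.1 0 1 + s'.1 1 0) ^ 2 =
            (s'.1 0 0 + s'.1 1 1) ^ 2 + (s'.1 1 0 - s'.1 0 1) ^ 2 - 4 := by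
          linear_combination (-4) * hd'
        rw [a1, e1, e2]
        linear_combination (m ^ 2 * w ^ 2) * hr
      rw [this]
      rintro ⟨z, hz⟩
      refine hs ⟨z / (w * (m + 2)), ?_⟩
      field_simp
      linear_combination hz
  · simp only [of_apply, cons_val', cons_val_zero, cons_val_one, cons_val_fin_one]
    refine ⟨?_, ?_, ?_⟩
    · have : (t + A) / 2 + (t - A) / 2 = t := by field_simp; ring
      rwa [this]
    · have : (v + B) / 2 - (B - v) / 2 = v := by field_simp; ring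
      rwa [this]
    · have a1 : (t + A) / 2 - (t - A) / 2 = A := by field_simp; ring
      have a2 : (B - v) / 2 + (v + B) / 2 = B := by field_simp; ring
      rwa [a1, a2]
  · rintro s ⟨-, hw, -⟩
    refine mk_ne_one fun r e => hw ?_
    rw [e]; simp

theorem exists_sq_add_sq [Fintype F] (hF : Fintype.card F % 2 = 1) (r : F) :
    ∃ a b : F, a ^ 2 + b ^ 2 = r := by
  obtain ⟨a, b, h⟩ := FiniteField.exists_root_sum_quadratic (R := F) (f := Polynomial.X ^ 2)
    (g := Polynomial.X ^ 2 - Polynomial.C r) (Polynomial.degree_X_pow 2)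
    (Polynomial.degree_X_pow_sub_C (by decide) r) hF
  exact ⟨a, b, by simp at h; linear_combination h⟩

theorem not_law_odd [Fintype F] (hF : Fintype.card F % 2 = 1) (h5 : 5 ≤ Fintype.card F) (n : ℕ) :
    ¬ Law n (ProjectiveSpecialLinearGroup (Fin 2) F) := by
  classical
  have hc : ringChar F ≠ 2 := fun e => by
    have := (FiniteField.even_card_iff_char_two (F := F)).1 e
    omega
  have h2 : (2 : F) ≠ 0 := Ring.two_ne_zero hc
  rcases h5.eq_or_lt with e5 | h5
  · have z5 : (5 : F) = 0 := by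
      have := FiniteField.cast_card_eq_zero F
      rw [← e5] at this
      exact_mod_cast this
    refine not_law_odd_aux h2 (t := 2) (v := 2) (A := 2) (B := 0) h2 h2 (by norm_num) ?_ n
    rintro ⟨z, hz⟩
    have hz0 : z ≠ 0 := by
      rintro rfl
      apply h2
      linear_combination hz + 2 * z5
    have h4 := FiniteField.pow_card_sub_one_eq_one z hz0
    rw [← e5] at h4
    apply h2
    have : z * z = 2 := by linear_combination -hz - 2 * z5
    have h4' : (z * z) ^ 2 = 1 := by rw [← h4]; ring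
    rw [this] at h4'
    linear_combination z5 - h4'
  · obtain ⟨k, hk⟩ := exists_pow_ne_one_of_isCyclic (G := Fˣ) (k := 4) (by norm_num)
      (by rw [Nat.card_eq_fintype_card, Fintype.card_units]; omega)
    have hk0 : (k : F) ≠ 0 := k.ne_zero
    have hk4 : (k : F) ^ 4 ≠ 1 := fun e => hk (Units.ext (by simpa using e))
    have hk1 : 1 - (k : F) ^ 2 ≠ 0 := fun e => hk4 (by linear_combination (-(1 + (k : F) ^ 2)) * e)
    have hk2 : 1 + (k : F) ^ 2 ≠ 0 := fun e => hk4 (by linear_combination ((k : F) ^ 2 - 1) * e)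
    obtain ⟨ν, hν, h8⟩ : ∃ ν : F, ¬ IsSquare ν ∧ ν ≠ 8 := by
      obtain ⟨ν, hν⟩ := FiniteField.exists_nonsquare hc
      by_cases e : ν = 8
      · refine ⟨k ^ 2 * ν, ?_, fun e' => ?_⟩
        · rintro ⟨z, hz⟩
          exact hν ⟨z / k, by field_simp; linear_combination hz⟩
        · have : ν * (1 - (k : F) ^ 2) = 0 := by linear_combination e - e'
          rcases mul_eq_zero.1 this with a | a
          · exact hν (by rw [a]; simp)
          · exact hk1 a
      · exact ⟨ν, hν, e⟩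
    obtain ⟨A, B, hAB⟩ := exists_sq_add_sq hF (-ν / 2)
    have hn : ¬ IsSquare (-2 * (A ^ 2 + B ^ 2)) := by
      rw [hAB]
      have : -2 * (-ν / 2) = ν := by field_simp
      rwa [this]
    have hr : -ν / 2 + 4 ≠ 0 := fun e => h8 (by field_simp at e; linear_combination -e)
    obtain ⟨t, v, ht, hv, e⟩ : ∃ t v : F, t ≠ 0 ∧ v ≠ 0 ∧ t ^ 2 + v ^ 2 = -ν / 2 + 4 := by
      have key : ∀ x : F, x ^ 2 = -ν / 2 + 4 →
          ∃ t v : F, t ≠ 0 ∧ v ≠ 0 ∧ t ^ 2 + v ^ 2 = -ν / 2 + 4 := fun x hx => by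
        have hx0 : x ≠ 0 := by
          rintro rfl
          exact hr (by rw [← hx]; simp)
        refine ⟨x * (1 - k ^ 2) / (1 + k ^ 2), 2 * k * x / (1 + k ^ 2),
          div_ne_zero (mul_ne_zero hx0 hk1) hk2,
          div_ne_zero (mul_ne_zero (mul_ne_zero h2 hk0) hx0) hk2, ?_⟩
        rw [← hx]; field_simp; ring
      obtain ⟨a, b, hab⟩ := exists_sq_add_sq hF (-ν / 2 + 4)
      by_cases ha : a = 0
      · exact key b (by rw [← hab, ha]; simp)
      by_cases hb : b = 0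
      · exact key a (by rw [← hab, hb]; simp)
      exact ⟨a, b, ha, hb, hab⟩
    exact not_law_odd_aux h2 ht hv (by rw [e, hAB]; ring) hn n

end SL2

section SL3

abbrev S3 := SpecialLinearGroup (Fin 3) (ZMod 3)

def y3 : S3 := ⟨!![1, 0, 0; 2, 0, 1; 2, 2, 2], by rw [det_fin_three]; decide⟩
def y3' : S3 := ⟨!![1, 0, 0; 1, 2, 2; 1, 1, 0], by rw [det_fin_three]; decide⟩
def a0 : S3 := ⟨!![0, 0, 1; 2, 0, 1; 1, 2, 2], by rw [det_fin_three]; decide⟩
def b0 : S3 := ⟨!![1, 2, 0; 0, 2, 2; 1, 0, 0], by rw [det_fin_three]; decide⟩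
def a1 : S3 := ⟨!![0, 1, 1; 0, 2, 0; 1, 2, 1], by rw [det_fin_three]; decide⟩
def b1 : S3 := ⟨!![2, 1, 1; 0, 2, 0; 1, 1, 0], by rw [det_fin_three]; decide⟩
def a2 : S3 := ⟨!![2, 2, 1; 1, 1, 1; 1, 0, 1], by rw [det_fin_three]; decide⟩
def b2 : S3 := ⟨!![1, 1, 1; 0, 1, 2; 2, 2, 0], by rw [det_fin_three]; decide⟩

theorem step_eq {G : Type*} [Group G] {y y' a b c : G} (h1 : y * y' = 1) (h2 : a * b = 1)
    (h3 : y' * a * y * b * y' * b * y * a = c) : step y a = c := by
  rw [← h3, ← inv_eq_of_mul_eq_one_right h1, ← inv_eq_of_mul_eq_one_right h2]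
  simp [step, mul_assoc]

theorem y3_mul : y3 * y3' = 1 := Subtype.ext (by decide +kernel)

theorem step0 : step y3 a0 = a1 :=
  step_eq y3_mul (b := b0) (Subtype.ext (by decide +kernel)) (Subtype.ext (by decide +kernel))
theorem step1 : step y3 a1 = a2 :=
  step_eq y3_mul (b := b1) (Subtype.ext (by decide +kernel)) (Subtype.ext (by decide +kernel))
theorem step2 : step y3 a2 = a0 :=
  step_eq y3_mul (b := b2) (Subtype.ext (by decide +kernel)) (Subtype.ext (by decide +kernel))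

theorem not_law_three {F : Type*} [Field F] [Fintype F] (hF : Fintype.card F = 3) (n : ℕ) :
    ¬ Law n (ProjectiveSpecialLinearGroup (Fin 3) F) := by
  haveI : Fact (Nat.Prime 3) := ⟨Nat.prime_three⟩
  haveI : CharP F 3 := charP_of_card_eq_prime hF
  refine not_law_of_inv ((QuotientGroup.mk' _).comp (SpecialLinearGroup.map (ZMod.castHom (dvd_refl 3) F)))
    (y := y3) (fun s => s = a0 ∨ s = a1 ∨ s = a2) ?_ (Or.inl rfl) ?_ n
  · rintro s (rfl | rfl | rfl)
    · exact Or.inr (Or.inl step0)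
    · exact Or.inr (Or.inr step1)
    · exact Or.inl step2
  · intro s hs
    have h02 : s.1 0 2 = 1 := by rcases hs with rfl | rfl | rfl <;> rfl
    refine mk_ne_one fun r e => ?_
    have := congrFun (congrFun e 0) 2
    simp [h02] at this

end SL3

section Sz

open CL.Sz

variable {F : Type*} [Field F] [CharP F 2] [Fintype F] {m : ℕ} {G : Type*} [Group G]
  (M : Model (theta F m) G)

theorem fix_unique {g : G} (hg : g ∈ conjSet M.U) {a b : M.Ω} (ha : g • a = a) (hb : g • b = b) :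
    a = b := by
  obtain ⟨h1, k, hk⟩ := hg
  have f : ∀ c : M.Ω, g • c = c → k⁻¹ • c = M.inf := fun c hc =>
    M.eq_inf_of_mem_U hk (inv_conj_ne_one k h1) (by rw [mul_smul, mul_smul, smul_inv_smul, hc])
  exact smul_left_cancel k⁻¹ ((f a ha).trans (f b hb).symm)

theorem fix_exists {g : G} (hg : g ∈ conjSet M.U) : ∃ a : M.Ω, g • a = a := by
  obtain ⟨-, k, hk⟩ := hg
  refine ⟨k • M.inf, ?_⟩
  have := M.smul_inf_eq_inf.2 (M.U_le_B hk)
  rw [mul_smul, mul_smul, inv_smul_eq_iff] at this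
  exact this

theorem inv_mem_conjSet {a : G} (ha : a * a = 1) (h1 : a ≠ 1) : a ∈ conjSet M.U :=
  M.mem_conjSet_U_iff.2 ⟨h1, by rw [show a ^ 4 = (a * a) * (a * a) by simp only [pow_succ, pow_zero, one_mul, mul_assoc], ha,
    one_mul]⟩

/-- two involutions whose product is a nontrivial `2`-element fix the same point. -/
theorem same_point {a b : G} (ha : a * a = 1) (a1 : a ≠ 1) (hb : b * b = 1) (b1 : b ≠ 1)
    (hab : a * b ∈ conjSet M.U) {p q : M.Ω} (hp : a • p = p) (hq : b • q = q) : p = q := by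
  obtain ⟨z, hz⟩ := fix_exists M hab
  have e1 : a • z = b • z := by
    conv_lhs => rw [← hz, ← mul_smul, ← mul_assoc, ha, one_mul]
  have e2 : (a * b) • (a • z) = a • z := by
    conv_lhs => rw [e1, ← mul_smul, mul_assoc, hb, mul_one]
  have e3 : a • z = z := fix_unique M hab e2 hz
  rw [fix_unique M (inv_mem_conjSet M ha a1) hp e3,
    fix_unique M (inv_mem_conjSet M hb b1) hq (e1 ▸ e3)]

theorem odd_of_not_mem {g : G} (h1 : g ≠ 1) (hg : g ∉ conjSet M.U) : Odd (orderOf g) := by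
  have h4 : ∀ n, Nat.Coprime 4 n → g ^ n = 1 → Odd (orderOf g) := fun n hn e => by
    have : Odd n := by
      rw [← Nat.coprime_two_left]
      exact Nat.Coprime.coprime_dvd_left (by norm_num) hn
    exact this.of_dvd_nat (orderOf_dvd_of_pow_eq_one e)
  rcases M.trichotomy h1 with h | h | h
  · exact absurd h hg
  · exact h4 _ (Model.coprime_four_sub_one (F := F)) (M.pow_of_mem_conjSet_H h)
  · exact h4 _ (Model.coprime_four_sq_add_one (F := F)) h.pow_eq_one

theorem exists_tor (hm : 1 ≤ m) (hF : Fintype.card F = 2 ^ (2 * m + 1)) {g : G} (h1 : g ≠ 1)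
    (hg : g ∉ conjSet M.U) :
    ∃ (k : G) (P N : Subgroup G) (s : ℕ), Tor P N s ∧ k⁻¹ * g * k ∈ P := by
  rcases M.trichotomy h1 with h | ⟨-, k, hk⟩ | h
  · exact absurd h hg
  · obtain ⟨t, h0, h1⟩ := exists_ne_zero_one hm hF
    exact ⟨k, _, _, _, M.tor_H h0 h1, hk⟩
  · exact ⟨1, _, _, _, h.tor hm hF, by simp [Subgroup.mem_centralizer_singleton_iff]⟩

theorem exists_factor {s : G} (hs : s • M.inf ≠ M.inf) :
    ∃ n u : G, n * n = 1 ∧ u ∈ M.U ∧ s = n * u := by
  rcases M.bruhat s with h | ⟨x, y, b, hb, rfl⟩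
  · exact absurd (M.smul_inf_eq_inf.2 h) hs
  obtain ⟨x', y', l, rfl⟩ := M.mem_B.1 hb
  refine ⟨M.u x y * (M.w * M.h l) * (M.u x y)⁻¹, M.u x y * ((M.h l)⁻¹ * M.u x' y' * (M.h l)⁻¹⁻¹),
    ?_, mul_mem (M.u_mem_U _ _) (M.conj_mem_U (inv_mem (M.h_mem_B l)) (M.u_mem_U _ _)), by group⟩
  have : M.w * M.h l * (M.w * M.h l) = 1 := by
    rw [← mul_assoc, M.w_h_w, ← map_mul, inv_mul_cancel, map_one]
  calc _ = M.u x y * (M.w * M.h l * (M.w * M.h l)) * (M.u x y)⁻¹ := by group
    _ = 1 := by rw [this]; group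

theorem eq_of_odd_sq_smul {X : Type*} [MulAction G X] {s : G} (hs : Odd (orderOf s)) {a : X}
    (h : (s * s) • a = a) : s • a = a := by
  obtain ⟨k, hk⟩ := hs
  have e : s = (s * s) ^ (k + 1) := by
    have := pow_orderOf_eq_one s
    rw [hk] at this
    calc s = s ^ (2 * k + 1) * s := by rw [this, one_mul]
      _ = _ := by rw [← pow_two, ← pow_mul]; group
  have : s * s ∈ MulAction.stabilizer G a := h
  rw [e]
  exact pow_mem this _

theorem tor_end [Finite G] {P N : Subgroup G} {n : ℕ} (T : Tor P N n) {y s : G} (hy : y * y = 1)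
    (y1 : y ≠ 1) (ho : Odd (orderOf s)) (hc : s * y ≠ y * s)
    (hr : s⁻¹ * y * s * (s * y * s⁻¹) ∈ P) (r1 : s⁻¹ * y * s * (s * y * s⁻¹) ≠ 1)
    (hi : y * (s⁻¹ * y * s * (s * y * s⁻¹)) * y = s * y * s⁻¹ * (s⁻¹ * y * s)) :
    y * s * y = s⁻¹ := by
  have yi : y⁻¹ = y := inv_eq_of_mul_eq_one_right hy
  set a := s * y * s⁻¹ with ha
  set b := s⁻¹ * y * s with hb
  have aa : a * a = 1 := by rw [ha]; calc _ = s * (y * y) * s⁻¹ := by group
    _ = 1 := by rw [hy]; group
  have bb : b * b = 1 := by rw [hb]; calc _ = s⁻¹ * (y * y) * s := by group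
    _ = 1 := by rw [hy]; group
  have e1 : y * (a * b) = b * a * y := by rw [← hi]; simp only [← mul_assoc, hy, one_mul]
  have e1' : y * (b * a) = a * b * y := by
    rw [← hi]; simp only [mul_assoc, hy, mul_one]
  have m1 : y * a ∈ P := T.mem_of_comm hr r1 (by
    calc y * a * (b * a) = y * (a * b) * a := by group
      _ = b * a * (y * a) := by rw [e1]; group)
  have m2 : b * y ∈ P := T.mem_of_comm hr r1 (by
    calc b * y * (b * a) = b * (y * (b * a)) := by group
      _ = b * a * (b * y) := by rw [e1']; group)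
  have n1 : y * a ≠ 1 := fun e => hc (by
    have : a = y := by rw [← yi]; exact (eq_inv_of_mul_eq_one_right e)
    calc s * y = a * s := by rw [ha]; group
      _ = y * s := by rw [this])
  have sN : s ∈ N := (T.ti _ m1 n1 s).1 (by
    have : s⁻¹ * (y * a) * s = b * y := by rw [ha, hb]; group
    rwa [this])
  have yN : y ∈ N := (T.ti _ hr r1 y).1 (by
    rw [yi, hi]
    have : a * b = (b * a)⁻¹ := by
      rw [_root_.mul_inv_rev, inv_eq_of_mul_eq_one_right aa, inv_eq_of_mul_eq_one_right bb]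
    rw [this]; exact inv_mem hr)
  haveI : Fact (Nat.Prime 2) := ⟨Nat.prime_two⟩
  exact T.conj_eq_inv yN (orderOf_eq_prime (by rw [pow_two, hy]) y1) (T.mem_of_odd sN ho)

theorem sz_step (hm : 1 ≤ m) (hF : Fintype.card F = 2 ^ (2 * m + 1)) {c : F} (hc : c ≠ 0) {s : G}
    (h : Odd (orderOf s) ∧ s • M.inf ≠ M.inf ∧ M.u 0 c * s * M.u 0 c ≠ s⁻¹) :
    Odd (orderOf (step (M.u 0 c) s)) ∧ step (M.u 0 c) s • M.inf ≠ M.inf ∧
      M.u 0 c * step (M.u 0 c) s * M.u 0 c ≠ (step (M.u 0 c) s)⁻¹ := by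
  haveI : Finite G := Finite.of_injective _ M.inj
  obtain ⟨ho, hs, hi⟩ := h
  set y := M.u 0 c with hydef
  have hy : y * y = 1 := M.u_zero_sq c
  have yi : y⁻¹ = y := inv_eq_of_mul_eq_one_right hy
  have y1 : y ≠ 1 := fun e => hc (M.u_eq_one_iff.1 e).2
  have yU : y ∈ M.U := M.u_mem_U _ _
  have yinf : y • M.inf = M.inf := M.u_smul_inf _ _
  obtain ⟨n, u, nn, uU, hnu⟩ := exists_factor M hs
  have ni : n⁻¹ = n := inv_eq_of_mul_eq_one_right nn
  have uinf : u • M.inf = M.inf := M.smul_inf_eq_inf.2 (M.U_le_B uU)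
  have uy : y * u = u * y := by
    obtain ⟨x', y', rfl⟩ := M.mem_U.1 uU
    exact M.u_zero_comm _ _ _
  have ninf : n • M.inf ≠ M.inf := fun e => hs (by rw [hnu, mul_smul, uinf, e])
  have huy : u * y ≠ 1 := fun e => hi (by
    have : u = y := by rw [← yi]; exact eq_inv_of_mul_eq_one_left e
    rw [hnu, this, _root_.mul_inv_rev, yi, ni]
    simp only [mul_assoc, hy, mul_one])
  have conj_sq : ∀ g : G, g * y * g⁻¹ * (g * y * g⁻¹) = 1 := fun g => by
    calc _ = g * (y * y) * g⁻¹ := by group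
      _ = 1 := by rw [hy]; group
  have conj_ne : ∀ g : G, g * y * g⁻¹ ≠ 1 := fun g e => y1 (by
    calc y = g⁻¹ * (g * y * g⁻¹) * g := by group
      _ = 1 := by rw [e]; group)
  have conj_fix : ∀ g : G, (g * y * g⁻¹) • g • M.inf = g • M.inf := fun g => by
    rw [mul_smul, mul_smul, inv_smul_smul, yinf]
  have es : step y s = (y * s) * y * (y * s)⁻¹ * (s⁻¹ * y * s⁻¹⁻¹) := by
    simp only [step, _root_.mul_inv_rev, inv_inv, yi, mul_assoc]
  have h1 : step y s • M.inf ≠ M.inf := fun e => by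
    have e1 : step y s = y * (n * y * n⁻¹) * (u * y)⁻¹ * (n * y * n⁻¹) * u := by
      rw [es, hnu]
      simp only [_root_.mul_inv_rev, inv_inv, yi, ni]
      calc y * (n * u) * y * (u⁻¹ * n * y) * (u⁻¹ * n * y * (n * u))
          = y * n * (u * y) * u⁻¹ * n * y * u⁻¹ * (n * y * n) * u := by group
        _ = _ := by rw [← uy]; group
    rw [e1, mul_smul, uinf, mul_smul, mul_smul, mul_smul, ← eq_inv_smul_iff, yi, yinf,
      ← eq_inv_smul_iff, inv_eq_of_mul_eq_one_right (conj_sq n), inv_smul_eq_iff] at e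
    have e2 := M.eq_inf_of_mem_U (mul_mem uU yU) huy e.symm
    rw [mul_smul, mul_smul, ← eq_inv_smul_iff, ni] at e2
    exact ninf (M.eq_inf_of_mem_U yU y1 e2)
  have s1 : step y s ≠ 1 := fun e => h1 (by rw [e, one_smul])
  refine ⟨odd_of_not_mem M s1 fun hU => ?_, h1, fun e => ?_⟩
  · rw [es] at hU
    have e := same_point M (conj_sq _) (conj_ne _) (conj_sq _) (conj_ne _) hU (conj_fix _) (conj_fix _)
    rw [eq_inv_smul_iff, hnu, mul_smul, mul_smul, mul_smul, uinf, ← eq_inv_smul_iff, ni,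
      ← mul_smul] at e
    exact ninf (M.eq_inf_of_mem_U (mul_mem uU yU) huy e)
  · have hc : s * y ≠ y * s := fun e => hs (M.eq_inf_of_mem_U yU y1 (by
      rw [← mul_smul, ← e, mul_smul, yinf]))
    have e' : y * (s⁻¹ * y * s * (s * y * s⁻¹)) * y = s * y * s⁻¹ * (s⁻¹ * y * s) := by
      have aa := conj_sq s
      have bb := conj_sq s⁻¹
      rw [inv_inv] at bb
      have e1 : step y s = y * (s * y * s⁻¹) * y * (s⁻¹ * y * s) := by
        rw [es]; simp only [_root_.mul_inv_rev, inv_inv, yi, mul_assoc]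
      rw [e1] at e
      generalize s * y * s⁻¹ = a at *
      generalize s⁻¹ * y * s = b at *
      have ai := inv_eq_of_mul_eq_one_right aa
      have bi := inv_eq_of_mul_eq_one_right bb
      simp only [_root_.mul_inv_rev, yi, ai, bi] at e
      have e2 : a * y * b = b * y * a := by
        have : y * (y * a * y * b) * y = a * y * b * y := by
          simp only [← mul_assoc, hy, one_mul]
        rw [this] at e
        exact mul_right_cancel (b := y) (by rw [e]; group)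
      calc y * (b * a) * y = (a * a) * y * b * a * y := by rw [aa]; group
        _ = a * (a * y * b) * a * y := by group
        _ = a * b * (y * (a * a) * y) := by rw [e2]; group
        _ = a * b := by rw [aa, mul_one, hy, mul_one]
    have r1 : s⁻¹ * y * s * (s * y * s⁻¹) ≠ 1 := fun e1 => by
      have e2 : y * (s * s) = s * s * y := by
        calc y * (s * s) = s * (s⁻¹ * y * s * (s * y * s⁻¹)) * s * y⁻¹ := by group
          _ = s * s * y := by rw [e1, yi, mul_one]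
      refine hs (eq_of_odd_sq_smul ho (M.eq_inf_of_mem_U yU y1 ?_))
      rw [← mul_smul, e2, mul_smul, yinf]
    have rU : s⁻¹ * y * s⁻¹⁻¹ * (s * y * s⁻¹) ∉ conjSet M.U := fun hU => by
      have e := same_point M (conj_sq _) (conj_ne _) (conj_sq _) (conj_ne _) hU (conj_fix _)
        (conj_fix _)
      rw [inv_smul_eq_iff, ← mul_smul] at e
      exact hs (eq_of_odd_sq_smul ho e.symm)
    rw [inv_inv] at rU
    obtain ⟨k, P, N, j, T, hk⟩ := exists_tor M hm hF r1 rU
    have c1 : (k⁻¹ * s * k)⁻¹ * (k⁻¹ * y * k) * (k⁻¹ * s * k) *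
        (k⁻¹ * s * k * (k⁻¹ * y * k) * (k⁻¹ * s * k)⁻¹) =
        k⁻¹ * (s⁻¹ * y * s * (s * y * s⁻¹)) * k := by group
    have := tor_end T (y := k⁻¹ * y * k) (s := k⁻¹ * s * k)
      (by calc _ = k⁻¹ * (y * y) * k := by group
        _ = 1 := by rw [hy]; group) (inv_conj_ne_one k y1)
      (by rwa [show k⁻¹ * s * k = MulAut.conj k⁻¹ s by simp, MulEquiv.orderOf_eq])
      (fun e => hc (by
        calc s * y = k * (k⁻¹ * s * k * (k⁻¹ * y * k)) * k⁻¹ := by group
          _ = y * s := by rw [e]; group))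
      (by rwa [c1]) (by rw [c1]; exact inv_conj_ne_one k r1)
      (by
        rw [c1]
        calc _ = k⁻¹ * (y * (s⁻¹ * y * s * (s * y * s⁻¹)) * y) * k := by group
          _ = _ := by rw [e']; group)
    apply hi
    calc y * s * y = k * (k⁻¹ * y * k * (k⁻¹ * s * k) * (k⁻¹ * y * k)) * k⁻¹ := by group
      _ = s⁻¹ := by rw [this]; group

include M in
theorem not_law_sz (hm : 1 ≤ m) (hF : Fintype.card F = 2 ^ (2 * m + 1)) (n : ℕ) : ¬ Law n G := by
  have hq : 1 < Nat.card F ^ 2 + 1 := by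
    have : 0 < Nat.card F := Nat.card_pos
    nlinarith
  obtain ⟨g, g1, hg⟩ := M.exists_pow_eq_one (dvd_refl _) hq
  have hf : M.FPF g := M.FPF_iff.2 ⟨g1, hg⟩
  obtain ⟨c, hc, hi⟩ : ∃ c : F, c ≠ 0 ∧ M.u 0 c * g * M.u 0 c ≠ g⁻¹ := by
    by_contra! hh
    obtain ⟨t, h0, h1⟩ := exists_ne_zero_one hm hF
    have e1 := hh 1 one_ne_zero
    have e2 := hh t h0
    have ne : M.u 0 1 * M.u 0 t ≠ 1 := by
      rw [M.u_zero_mul_u_zero]
      intro e
      exact h1 (by have := (M.u_eq_one_iff.1 e).2; rw [CharTwo.add_eq_zero] at this; exact this.symm)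
    have cm : g * (M.u 0 1 * M.u 0 t) = M.u 0 1 * M.u 0 t * g := by
      have a1 := M.u_zero_sq 1
      have a2 := M.u_zero_sq t
      calc g * (M.u 0 1 * M.u 0 t) = (M.u 0 1 * M.u 0 1) * g * M.u 0 1 * M.u 0 t := by
            rw [a1]; group
        _ = M.u 0 1 * (M.u 0 1 * g * M.u 0 1) * M.u 0 t := by group
        _ = M.u 0 1 * (M.u 0 t * g * M.u 0 t) * M.u 0 t := by rw [e1, e2]
        _ = M.u 0 1 * M.u 0 t * g * (M.u 0 t * M.u 0 t) := by group
        _ = _ := by rw [a2, mul_one]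
    exact (hf.of_commute cm ne).not_mem_B (mul_mem (M.u_mem_B _ _) (M.u_mem_B _ _))
  exact not_law_of_inv (MonoidHom.id G) (y := M.u 0 c)
    (fun s => Odd (orderOf s) ∧ s • M.inf ≠ M.inf ∧ M.u 0 c * s * M.u 0 c ≠ s⁻¹)
    (fun s hs => sz_step M hm hF hc hs) ⟨odd_of_not_mem M g1 hf.not_mem_conjSet_U, hf _, hi⟩
    (fun s hs e => hs.2.1 (by rw [MonoidHom.id_apply] at e; rw [e, one_smul])) n

end Sz

end CL.BWW
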