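import Mathlib
import Cfsg.Agent.FGS.ClassSizeCount
import Cfsg.Agent.FGS.ClassSizeReg
import Cfsg.Agent.CHAR.BSChar
import Cfsg.Agent.CHAR.Galois

/-! Two irreducible characters of consecutive degrees prime to `r`, attached to an abelian Sylow
`r`-subgroup inverted by its normalizer. -/

set_option autoImplicit false

namespace CL.CS2

open Subgroup Cfsg CL.Char CL.CS
open scoped ComplexConjugate

variable {G : Type*} [Group G]

theorem sq_mul_card_le [Finite G] {χ : G → ℂ} (h : IsGeneralizedCharacter G χ) {r : ℕ}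
    (hr : 0 < r) (S : Finset G) (hS : ∀ g ∈ S, ∀ k : ℕ, k.Coprime (Nat.card G) → g ^ k ∈ S)
    (h0 : ∀ g ∈ S, χ g ≠ 0) (hi : ∀ g ∈ S, IsIntegral ℤ (χ g / r)) :
    (r : ℝ) ^ 2 * S.card ≤ ∑ g ∈ S, ‖χ g‖ ^ 2 := by
  have hr' : (r : ℂ) ≠ 0 := by exact_mod_cast hr.ne'
  have hr2 : (0 : ℝ) < r := by exact_mod_cast hr
  have hne : ∀ g ∈ S, χ g / r ≠ 0 := fun g hg => div_ne_zero (h0 g hg) hr'
  obtain ⟨m, hm⟩ : ∃ m : ℤ, ∏ g ∈ S, χ g / r = m := by
    refine exists_int_of_fixed (IsIntegral.prod _ hi) fun σ => ?_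
    obtain ⟨k, hk, hσ⟩ := exists_coprime_gal_eq_pow G σ.toRingHom
    rw [map_prod]
    refine Finset.prod_nbij (fun g => g ^ k) (fun g hg => hS g hg _ hk)
      (pow_bijective_of_coprime hk).1.injOn
      (Finset.surjOn_of_injOn_of_card_le _ (fun g hg => hS g hg _ hk)
        (pow_bijective_of_coprime hk).1.injOn le_rfl) fun g _ => ?_
    rw [map_div₀, map_natCast]
    exact congrArg (· / (r : ℂ)) (hσ χ h g)
  have hm0 : m ≠ 0 := by
    rintro rfl
    exact Finset.prod_ne_zero_iff.mpr hne (by simpa using hm)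
  have hprod : 1 ≤ ∏ g ∈ S, ‖χ g / r‖ ^ 2 := by
    rw [Finset.prod_pow, ← norm_prod, hm, Complex.norm_intCast]
    have : (1 : ℝ) ≤ |(m : ℝ)| := by exact_mod_cast Int.one_le_abs hm0
    nlinarith
  have hlog : 0 ≤ ∑ g ∈ S, Real.log (‖χ g / r‖ ^ 2) := by
    rw [← Real.log_prod fun g hg => pow_ne_zero 2 (norm_ne_zero_iff.mpr (hne g hg))]
    exact Real.log_nonneg hprod
  have hle : ∑ g ∈ S, Real.log (‖χ g / r‖ ^ 2) ≤ ∑ g ∈ S, (‖χ g / r‖ ^ 2 - 1) :=
    Finset.sum_le_sum fun g hg =>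
      Real.log_le_sub_one_of_pos (pow_pos (norm_pos_iff.mpr (hne g hg)) 2)
  rw [Finset.sum_sub_distrib] at hle
  simp only [Finset.sum_const, nsmul_eq_mul, mul_one, norm_div, Complex.norm_natCast,
    div_pow, ← Finset.sum_div] at hle hlog
  have : (S.card : ℝ) ≤ (∑ g ∈ S, ‖χ g‖ ^ 2) / (r : ℝ) ^ 2 := by linarith
  rwa [le_div_iff₀ (by positivity), mul_comm] at this

theorem sum_norm_sq_eq [Fintype G] {χ : G → ℂ} (h : IsIrrCharacter G χ) :
    ∑ g, ‖χ g‖ ^ 2 = (Nat.card G : ℝ) := by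
  have h4 := card_mul_classInner χ χ
  rw [h.inner_self, mul_one] at h4
  have h5 : ((∑ g, ‖χ g‖ ^ 2 : ℝ) : ℂ) = (Nat.card G : ℂ) := by
    rw [h4]; push_cast
    exact Finset.sum_congr rfl fun g _ => by rw [Complex.mul_conj']
  exact_mod_cast h5

/-- The norm of an irreducible character on a trivial intersection set. -/
theorem sum_ti_lt [Fintype G] {χ : G → ℂ} (h : IsIrrCharacter G χ) (N : Subgroup G)
    (A : Finset G) (h1 : (1 : G) ∉ A) (hA : ∀ g, ∀ x ∈ A, g⁻¹ * x * g ∈ A → g ∈ N) :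
    ∑ x ∈ A, ‖χ x‖ ^ 2 < (Nat.card N : ℝ) := by
  classical
  have hG : (0 : ℝ) < Nat.card G := by exact_mod_cast Nat.card_pos
  have e1 : (Nat.card G : ℝ) * ∑ x ∈ A, ‖χ x‖ ^ 2 =
      ∑ y, ‖χ y‖ ^ 2 * ((Finset.univ.filter fun g : G => g⁻¹ * y * g ∈ A).card : ℝ) := by
    have : ∀ g : G, ∑ x ∈ A, ‖χ x‖ ^ 2 = ∑ y, if g⁻¹ * y * g ∈ A then ‖χ y‖ ^ 2 else 0 := by
      intro g
      rw [← Finset.sum_filter]
      refine (Finset.sum_nbij' (fun y => g⁻¹ * y * g) (fun x => g * x * g⁻¹) (by simp)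
        (by simp [mul_assoc]) (by simp [mul_assoc]) (by simp [mul_assoc]) fun y _ => ?_).symm
      rw [h.isClassFunction.conj_inv]
    rw [Nat.card_eq_fintype_card, ← nsmul_eq_mul, ← Finset.card_univ, ← Finset.sum_const,
      Finset.sum_congr rfl fun g _ => this g, Finset.sum_comm]
    refine Finset.sum_congr rfl fun y _ => ?_
    rw [← Finset.sum_filter, Finset.sum_const, nsmul_eq_mul, mul_comm]
  have e2 : ∀ y : G, ((Finset.univ.filter fun g : G => g⁻¹ * y * g ∈ A).card : ℝ) ≤ Nat.card N := by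
    intro y
    rcases (Finset.univ.filter fun g : G => g⁻¹ * y * g ∈ A).eq_empty_or_nonempty with e | ⟨g, hg⟩
    · rw [e]; simp
    · rw [Nat.cast_le, Nat.card_eq_fintype_card, Fintype.card_subtype]
      refine Finset.card_le_card_of_injOn (fun k => g⁻¹ * k) (fun k hk => ?_)
        (fun a _ b _ e => by simpa using e)
      simp only [Finset.coe_filter, Finset.mem_univ, true_and, Set.mem_ofPred_eq,
        Finset.mem_filter] at hk hg ⊢
      exact hA _ _ hg (by simpa [mul_assoc] using hk)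
  have hN : (0 : ℝ) < Nat.card N := by exact_mod_cast Nat.card_pos
  refine lt_of_mul_lt_mul_left ?_ hG.le
  rw [e1, ← sum_norm_sq_eq h, Finset.sum_mul]
  refine Finset.sum_lt_sum (fun y _ => mul_le_mul_of_nonneg_left (e2 y) (by positivity))
    ⟨1, Finset.mem_univ _, ?_⟩
  have : (Finset.univ.filter fun g : G => g⁻¹ * 1 * g ∈ A) = ∅ := by simp [h1]
  rw [this, h.isCharacter.norm_one]
  have : (0 : ℝ) < charDegree χ := by exact_mod_cast h.charDegree_pos
  simp only [Finset.card_empty, Nat.cast_zero, mul_zero]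
  positivity

theorem isIntegral_div [Finite G] {χ : G → ℂ} (h : IsIrrCharacter G χ) {r : ℕ} (hr : r.Prime)
    (hd : r ∣ charDegree χ) {x : G} (hx : ¬ r ∣ (𝐂[x]).index) : IsIntegral ℤ (χ x / r) := by
  obtain ⟨d, hd⟩ := hd
  obtain ⟨a, b, e⟩ := Nat.Coprime.isCoprime ((Nat.Prime.coprime_iff_not_dvd hr).2 hx)
  have hr' : (r : ℂ) ≠ 0 := by exact_mod_cast hr.ne_zero
  have h1 : χ 1 = r * d := by rw [h.apply_one_eq_charDegree, hd]; push_cast; rfl
  have hd0 : (d : ℂ) ≠ 0 := by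
    have := h.charDegree_pos
    rw [hd] at this
    exact_mod_cast (Nat.pos_of_mul_pos_left this).ne'
  have e' : (a : ℂ) * r + b * ((𝐂[x]).index : ℂ) = 1 := by exact_mod_cast e
  have : χ x / r = (a : ℂ) * χ x + (b : ℂ) * d * centralChar χ x := by
    rw [centralChar, h1]
    field_simp
    linear_combination (-χ x) * e'
  rw [this]
  exact (isIntegral_algebraMap (x := a)).mul (h.isIntegral x) |>.add
    (((isIntegral_algebraMap (x := b)).mul (isIntegral_algebraMap (x := (d : ℤ)))).mul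
      (h.isIntegral_centralChar x))

theorem norm_le_of_pow {r : ℕ} (hr : r.Prime) (hr2 : r ≠ 2) {u : ℂˣ} (hu : u ^ r = 1) :
    ‖((u : ℂ) - 1) + (((u⁻¹ : ℂˣ) : ℂ) - 1)‖ ≤ r := by
  have hn : ‖(u : ℂ)‖ = 1 := Complex.norm_eq_one_of_pow_eq_one
    (by rw [← Units.val_pow_eq_pow_val, hu, Units.val_one]) hr.ne_zero
  have hn' : ‖((u⁻¹ : ℂˣ) : ℂ)‖ = 1 := by rw [Units.val_inv_eq_inv_val, norm_inv, hn, inv_one]
  by_cases h3 : r = 3
  · subst h3
    by_cases h1 : (u : ℂ) = 1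
    · simp [Units.val_inv_eq_inv_val, h1]
    have h2 : (u : ℂ) ^ 3 = 1 := by rw [← Units.val_pow_eq_pow_val, hu, Units.val_one]
    have h4 : (u : ℂ) ^ 2 + u + 1 = 0 := by
      have : ((u : ℂ) - 1) * ((u : ℂ) ^ 2 + u + 1) = 0 := by linear_combination h2
      exact (mul_eq_zero.1 this).resolve_left (sub_ne_zero.2 h1)
    have h5 : ((u⁻¹ : ℂˣ) : ℂ) = (u : ℂ) ^ 2 := by
      rw [Units.val_inv_eq_inv_val]
      exact inv_eq_of_mul_eq_one_right (by linear_combination h2)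
    rw [h5, show (u : ℂ) - 1 + ((u : ℂ) ^ 2 - 1) = -3 by linear_combination h4]
    simp
  · have h5 : 4 ≤ r := by have := hr.two_le; omega
    have h6 : (4 : ℝ) ≤ r := by exact_mod_cast h5
    have a := norm_sub_le (u : ℂ) 1
    have b := norm_sub_le ((u⁻¹ : ℂˣ) : ℂ) 1
    have c := norm_add_le ((u : ℂ) - 1) (((u⁻¹ : ℂˣ) : ℂ) - 1)
    rw [norm_one] at a b
    linarith

theorem not_dvd_degree [Fintype G] (C N : Subgroup G) (hCN : C ≤ N) (hidx : C.relIndex N = 2)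
    (lam : C →* ℂˣ) (hout : ∀ g, g ∉ N → ∀ k : C, lam k ≠ 1 → g⁻¹ * k * g ∉ C)
    (hinv : ∀ g ∈ N, g ∉ C → ∀ k : C, ∃ h : g⁻¹ * k * g ∈ C, lam ⟨_, h⟩ = (lam k)⁻¹)
    {r : ℕ} (hr : r.Prime) (hr2 : r ≠ 2) (hlam : ∀ k, lam k ^ r = 1) (hrG : r ∣ Nat.card G)
    (hcl : ∀ k ∈ C, ¬ r ∣ (𝐂[k]).index) {θ : G → ℂ} (hθ : IsIrrCharacter G θ)
    (hin : ‖classInner (indFun C (fun k => (lam k : ℂ) - 1)) θ‖ = 1) : ¬ r ∣ charDegree θ := by
  classical
  intro hd
  obtain ⟨s, hsN, hsC⟩ : ∃ s ∈ N, s ∉ C := by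
    by_contra! hh
    rw [relIndex_eq_one.2 hh] at hidx
    omega
  have hC : (0 : ℝ) < Nat.card C := by exact_mod_cast Nat.card_pos
  have hN : (Nat.card N : ℝ) = 2 * Nat.card C := by
    have h1 := card_mul_index (C.subgroupOf N)
    rw [Nat.card_congr (subgroupOfEquivOfLe hCN).toEquiv] at h1
    rw [relIndex] at hidx
    rw [← h1, hidx]; push_cast; ring
  rw [classInner_indFun_left C _ hθ.isClassFunction] at hin
  have e1 := card_mul_classInner (fun k : C => (lam k : ℂ) - 1) (fun k : C => θ k)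
  have e2 : ∑ k : C, ((lam k : ℂ) - 1) * conj (θ k) =
      ∑ k : C, ((((lam k)⁻¹ : ℂˣ) : ℂ) - 1) * conj (θ k) := by
    let f : C → C := fun k => ⟨s⁻¹ * k * s, (hinv s hsN hsC k).1⟩
    have hf : Function.Bijective f := Finite.injective_iff_bijective.1 fun a b e =>
      Subtype.ext (by simpa [f] using congrArg Subtype.val e)
    refine (Function.Bijective.sum_comp hf _).symm.trans (Finset.sum_congr rfl fun k _ => ?_)
    rw [show lam (f k) = (lam k)⁻¹ from (hinv s hsN hsC k).2]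
    exact congrArg (fun z => _ * conj z) (hθ.isClassFunction.conj_inv _ _)
  let S : Finset C := Finset.univ.filter fun k => lam k ≠ 1 ∧ θ k ≠ 0
  have e3 : 2 * (Nat.card C : ℝ) ≤ ∑ k ∈ S, r * ‖θ k‖ := by
    have a : 2 * (Nat.card C : ℝ) =
        ‖∑ k : C, (((lam k : ℂ) - 1) + ((((lam k)⁻¹ : ℂˣ) : ℂ) - 1)) * conj (θ k)‖ := by
      simp only [add_mul, Finset.sum_add_distrib]
      rw [← e2, ← e1, ← two_mul, norm_mul, norm_mul, hin]
      simp
    rw [a, ← Finset.sum_filter_of_ne (p := fun k => lam k ≠ 1 ∧ θ k ≠ 0)]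
    · refine (norm_sum_le _ _).trans (Finset.sum_le_sum fun k _ => ?_)
      rw [norm_mul, Complex.norm_conj]
      exact mul_le_mul_of_nonneg_right (norm_le_of_pow hr hr2 (hlam k)) (norm_nonneg _)
    · intro k _ hk
      refine ⟨fun e => hk (by simp [e]), fun e => hk (by simp [e])⟩
  let A : Finset G := S.map (Function.Embedding.subtype _)
  have hA : ∀ x, x ∈ A ↔ ∃ h : x ∈ C, lam ⟨x, h⟩ ≠ 1 ∧ θ x ≠ 0 := by
    intro x; simp [A, S]
  have e4 := sum_ti_lt hθ N A (fun h => by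
    obtain ⟨h1, h2, -⟩ := (hA _).1 h
    exact h2 (map_one lam)) (fun g x hx hg => by
      by_contra hgN
      obtain ⟨h1, h2, -⟩ := (hA _).1 hx
      exact hout g hgN ⟨x, h1⟩ h2 ((hA _).1 hg).1)
  have e5 := sq_mul_card_le hθ.isGen hr.pos A (fun g hg k hk => by
    obtain ⟨h1, h2, h3⟩ := (hA _).1 hg
    refine (hA _).2 ⟨pow_mem h1 k, fun e => h2 ?_, fun e => h3 ?_⟩
    · have e' : lam ⟨g, h1⟩ ^ k = 1 := by rw [← map_pow]; exact e
      have := pow_gcd_eq_one.2 ⟨e', hlam ⟨g, h1⟩⟩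
      rwa [(hk.coprime_dvd_right hrG).gcd_eq_one, pow_one] at this
    · exact (hθ.isGen.apply_pow_eq_zero_iff (hk.coprime_dvd_right (orderOf_dvd_natCard g))).1 e)
    (fun g hg => ((hA _).1 hg).2.2) (fun g hg => isIntegral_div hθ hr hd (hcl g ((hA _).1 hg).1))
  rw [Finset.card_map] at e5
  rw [Finset.sum_map] at e4 e5
  simp only [Function.Embedding.coe_subtype] at e4 e5
  have e6 : ∑ k ∈ S, 2 * (r * ‖θ k‖) ≤ ∑ k ∈ S, (‖θ k‖ ^ 2 + (r : ℝ) ^ 2) :=
    Finset.sum_le_sum fun k _ => by nlinarith [sq_nonneg (‖θ k‖ - r)]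
  rw [← Finset.mul_sum, Finset.sum_add_distrib, Finset.sum_const, nsmul_eq_mul] at e6
  linarith

theorem exists_hom_prime {R : Type*} [Group R] [Finite R] [IsMulCommutative R] {r : ℕ}
    (hr : r.Prime) (h : r ∣ Nat.card R) : ∃ μ : R →* ℂˣ, μ ≠ 1 ∧ ∀ y, μ y ^ r = 1 := by
  let _ : CommGroup R := { (inferInstance : Group R) with mul_comm := mul_comm' }
  have := Fact.mk hr
  have hc := CommGroup.card_monoidHom_of_hasEnoughRootsOfUnity R ℂ
  have : Finite (R →* ℂˣ) := Nat.finite_of_card_ne_zero (hc ▸ Nat.card_pos.ne')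
  obtain ⟨μ, hμ⟩ := exists_prime_orderOf_dvd_card' (G := R →* ℂˣ) r (hc ▸ h)
  refine ⟨μ, fun e => hr.one_lt.ne' (by rw [← hμ, e, orderOf_one]), fun y => ?_⟩
  rw [← MonoidHom.pow_apply, ← hμ, pow_orderOf_eq_one, MonoidHom.one_apply]

theorem exists_consec [Finite G] {r : ℕ} [hr : Fact r.Prime] (hr2 : r ≠ 2) (R : Sylow r G)
    (hrG : r ∣ Nat.card G)
    (hC : ∀ y ∈ (R : Subgroup G), y ≠ 1 → 𝐂[y] = centralizer ((R : Subgroup G) : Set G))
    (he : (centralizer ((R : Subgroup G) : Set G)).relIndex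
      (normalizer ((R : Subgroup G) : Set G)) = 2) :
    ∃ χ ψ : G → ℂ, IsIrrCharacter G χ ∧ IsIrrCharacter G ψ ∧ χ ≠ (fun _ => 1) ∧
      ψ ≠ (fun _ => 1) ∧ charDegree χ = charDegree ψ + 1 ∧ ¬ r ∣ charDegree χ ∧
      ¬ r ∣ charDegree ψ := by
  classical
  have := Fintype.ofFinite G
  set C := centralizer ((R : Subgroup G) : Set G) with hCd
  set N := normalizer ((R : Subgroup G) : Set G) with hNd
  have hRC : (R : Subgroup G) ≤ C := fun y hy => by
    by_cases h1 : y = 1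
    · exact h1 ▸ one_mem _
    · exact hC y hy h1 ▸ self_mem_cen y
  have hcomm : ∀ c ∈ C, ∀ y ∈ (R : Subgroup G), y * c = c * y := fun c hc y hy =>
    mem_centralizer_iff.1 hc y hy
  have : IsMulCommutative (R : Subgroup G) :=
    ⟨⟨fun a b => Subtype.ext (hcomm _ (hRC b.2) _ a.2)⟩⟩
  obtain ⟨μ, hμ1, hμ⟩ := exists_hom_prime (R := (R : Subgroup G)) hr.out
    (R.dvd_card_of_dvd_card hrG)
  set H := (R : Subgroup G).subgroupOf C with hH
  set m := H.index with hm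
  have hmr : m.Coprime r := ((Nat.Prime.coprime_iff_not_dvd hr.out).2 fun h =>
    R.not_dvd_index (h.trans (relIndex_dvd_index_of_le hRC))).symm
  let lam : C →* ℂˣ := MonoidHom.transfer (μ.comp (subgroupOfEquivOfLe hRC).toMonoidHom)
  have key : ∀ k : C, ∀ (j : ℕ) (g₀ : C), g₀⁻¹ * k ^ j * g₀ ∈ H → g₀⁻¹ * k ^ j * g₀ = k ^ j := by
    intro k j g₀ hh
    have := hcomm _ g₀.2 _ (mem_subgroupOf.1 hh)
    have e : (g₀⁻¹ * k ^ j * g₀) * g₀ = g₀ * (g₀⁻¹ * k ^ j * g₀) := Subtype.ext this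
    exact mul_right_cancel (b := g₀) (by rw [e]; group)
  have hpow : ∀ k : C, (k : G) ^ m ∈ (R : Subgroup G) := fun k =>
    mem_subgroupOf.1 (MonoidHom.transfer_eq_pow_aux k (key k))
  have hlam : ∀ k : C, lam k = μ ⟨(k : G) ^ m, hpow k⟩ := fun k =>
    MonoidHom.transfer_eq_pow _ k (key k)
  have hne : ∀ k : C, lam k ≠ 1 → (k : G) ^ m ≠ 1 := fun k hk e =>
    hk (by rw [hlam, show (⟨_, hpow k⟩ : (R : Subgroup G)) = 1 from Subtype.ext e, map_one])
  have hmem : ∀ c ∈ C, (∃ j, c ^ r ^ j = 1) → c ∈ (R : Subgroup G) := by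
    rintro c hc ⟨j, hj⟩
    obtain ⟨b, hb⟩ := exists_pow_eq_self_of_coprime (x := c) (n := m)
      ((hmr.pow_right j).coprime_dvd_right (orderOf_dvd_of_pow_eq_one hj))
    exact hb ▸ pow_mem (hpow ⟨c, hc⟩) b
  have hout : ∀ g, g ∉ N → ∀ k : C, lam k ≠ 1 → g⁻¹ * k * g ∉ C := by
    intro g hg k hk hc
    have h1 := hpow ⟨_, hc⟩
    have e : (g⁻¹ * k * g) ^ m = g⁻¹ * (k : G) ^ m * g⁻¹⁻¹ := by rw [← conj_pow, inv_inv]
    simp only [e] at h1
    have h2 := hC _ h1 (fun e' => hne k hk (conj_eq_one_iff.1 e'))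
    rw [cen_conj, hC _ (hpow k) (hne k hk)] at h2
    refine hg (inv_mem_iff.1 (mem_normalizer_fintype fun y hy => hmem _ ?_ ?_))
    · rw [← h2]; exact smul_mem_pointwise_smul _ _ _ (hRC hy)
    · obtain ⟨j, hj⟩ := R.isPGroup' ⟨y, hy⟩
      exact ⟨j, by rw [conj_pow, show y ^ r ^ j = 1 from congrArg Subtype.val hj]; simp⟩
  have hinvR : ∀ g ∈ N, g ∉ C → ∀ y ∈ (R : Subgroup G), g⁻¹ * y * g = y⁻¹ := by
    intro g hg hgC y hy
    have h1 : g⁻¹ * y * g ∈ (R : Subgroup G) := by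
      simpa using (mem_normalizer_iff.1 (inv_mem hg) y).1 hy
    have h2 : g * g ∈ C := mem_subgroupOf.1
      (mul_self_mem_of_index_two (H := C.subgroupOf N) he ⟨g, hg⟩)
    by_contra h3
    refine hgC (hC _ (mul_mem h1 hy) (fun e => h3 (eq_inv_of_mul_eq_one_left e)) ▸ mem_cen.2 ?_)
    have a := hcomm _ h2 _ hy
    have b := hcomm _ (hRC hy) _ h1
    change g * (g⁻¹ * y * g * y) = g⁻¹ * y * g * y * g
    calc g * (g⁻¹ * y * g * y) = y * g * y := by group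
      _ = g⁻¹ * g⁻¹ * (g * g * y) * g * y := by group
      _ = g⁻¹ * (g⁻¹ * y * g) * g * g * y := by rw [← a]; group
      _ = g⁻¹ * (g⁻¹ * y * g) * (y * (g * g)) := by rw [a]; group
      _ = g⁻¹ * (g⁻¹ * y * g * y) * (g * g) := by group
      _ = g⁻¹ * y * g⁻¹ * (y * (g * g)) * g := by rw [b]; group
      _ = g⁻¹ * y * g * y * g := by rw [a]; group
  have hinv : ∀ g ∈ N, g ∉ C → ∀ k : C, ∃ h : g⁻¹ * k * g ∈ C, lam ⟨_, h⟩ = (lam k)⁻¹ := by
    intro g hg hgC k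
    have hh : g⁻¹ * k * g ∈ C := mem_centralizer_iff.2 fun y hy => by
      have := hcomm _ k.2 _ ((mem_normalizer_iff.1 hg y).1 hy)
      calc y * (g⁻¹ * k * g) = g⁻¹ * (g * y * g⁻¹ * k) * g := by group
        _ = _ := by rw [this]; group
    refine ⟨hh, ?_⟩
    rw [hlam, hlam, ← map_inv]
    refine congrArg μ (Subtype.ext ?_)
    have e : (g⁻¹ * k * g) ^ m = g⁻¹ * (k : G) ^ m * g⁻¹⁻¹ := by rw [← conj_pow, inv_inv]
    simp only [e, inv_inv, hinvR g hg hgC _ (hpow k), InvMemClass.coe_inv]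
  have hlr : ∀ k, lam k ^ r = 1 := fun k => by rw [hlam, hμ]
  obtain ⟨k₀, hk₀⟩ : ∃ k, lam k ≠ 1 := by
    by_contra! hh
    refine hμ1 (MonoidHom.ext fun y => ?_)
    have h1 := hh ⟨y, hRC y.2⟩
    rw [hlam, show (⟨_, hpow ⟨y, hRC y.2⟩⟩ : (R : Subgroup G)) = y ^ m from rfl, map_pow] at h1
    have := pow_gcd_eq_one.2 ⟨h1, hμ y⟩
    rwa [hmr.gcd_eq_one, pow_one] at this
  have h2 : lam k₀ ^ 2 ≠ 1 := fun e => by
    have := pow_gcd_eq_one.2 ⟨e, hlr k₀⟩
    rw [((Nat.coprime_primes Nat.prime_two hr.out).2 hr2.symm).gcd_eq_one, pow_one] at this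
    exact hk₀ this
  have h3 := CL.BSQ.norm_ind_eq_three C N (centralizer_le_normalizer _) he lam hout hinv ⟨_, h2⟩
  have hl := isIrrCharacter_hom lam
  have hone : IsIrrCharacter C (fun _ => 1) := isIrrCharacter_one
  have hgen : IsGeneralizedCharacter G (indFun C (fun k => (lam k : ℂ) - 1)) :=
    (hl.isGen.sub hone.isGen).ind
  have h0 : indFun C (fun k => (lam k : ℂ) - 1) 1 = 0 := by rw [indFun_one]; simp
  obtain ⟨χ, ψ, a1, a2, a3, a4, a5⟩ := CL.BSQ.exists_of_norm_three hgen h3 (by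
    rw [classInner_indFun_left C _ (isClassFunction_const 1)]
    change classInner ((fun k : C => (lam k : ℂ)) - fun _ : C => (1 : ℂ)) (fun _ => 1) = -1
    rw [classInner_sub_left, hone.inner_self, hl.inner_of_ne hone
      (fun e => hk₀ (Units.val_eq_one.1 (congrFun e k₀)))]
    simp) h0
  have hd : charDegree χ = charDegree ψ + 1 := by
    have := a5 1
    rw [h0, a1.apply_one_eq_charDegree, a2.apply_one_eq_charDegree] at this
    exact_mod_cast (by linear_combination -this : (charDegree χ : ℂ) = charDegree ψ + 1)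
  have hne' : χ ≠ ψ := fun e => by rw [e] at hd; omega
  have e : indFun C (fun k => (lam k : ℂ) - 1) = χ - ψ - fun _ => 1 := funext a5
  have hcl : ∀ k ∈ C, ¬ r ∣ (𝐂[k]).index := fun k hk =>
    not_dvd_index_of_sylow_le (P := R) (le_cen_iff.2 hk)
  have hG1 : IsIrrCharacter G (fun _ => 1) := isIrrCharacter_one
  refine ⟨χ, ψ, a1, a2, a3, a4, hd,
    not_dvd_degree C N (centralizer_le_normalizer _) he lam hout hinv hr.out hr2 hlr hrG hcl a1 ?_,
    not_dvd_degree C N (centralizer_le_normalizer _) he lam hout hinv hr.out hr2 hlr hrG hcl a2 ?_⟩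
  · rw [e, classInner_sub_left, classInner_sub_left, a1.inner_self, a2.inner_of_ne a1 hne'.symm,
      hG1.inner_of_ne a1 a3.symm]
    simp
  · rw [e, classInner_sub_left, classInner_sub_left, a2.inner_self, a1.inner_of_ne a2 hne',
      hG1.inner_of_ne a2 a4.symm]
    simp

end CL.CS2
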