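import Mathlib
import Cfsg.Agent.FGS.CS2a
import Cfsg.Agent.S0205

/-! Simple groups whose class sizes have at most two prime divisors: local analysis. -/

set_option autoImplicit false

namespace CL.CS2

open Subgroup Cfsg CL.Char CL.CS
open scoped Pointwise

variable {G : Type*} [Group G]

/-- Every class size has at most two prime divisors. -/
def H2 (G : Type*) [Group G] : Prop := ∀ x : G, ((𝐂[x]).index).primeFactors.card ≤ 2

/-- The order of the automizer of `P`. -/
noncomputable abbrev aut (P : Subgroup G) : ℕ :=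
  (centralizer (P : Set G)).relIndex (normalizer (P : Set G))

variable [Finite G]

theorem card_pf_le {a b : ℕ} (h : a ∣ b) (hb : b ≠ 0) : a.primeFactors.card ≤ b.primeFactors.card :=
  Finset.card_le_card (Nat.primeFactors_mono h hb)

theorem H2.normal (h : H2 G) (N : Subgroup G) [N.Normal] : H2 N := fun x =>
  (card_pf_le (index_cen_normal_dvd x) (index_cen_pos _).ne').trans (h x)

theorem H2.map (h : H2 G) {G' : Type*} [Group G'] {f : G →* G'} (hf : Function.Surjective f) :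
    H2 G' := fun y => by
  obtain ⟨x, rfl⟩ := hf y
  exact (card_pf_le (index_cen_map_dvd hf x) (index_cen_pos _).ne').trans (h x)

theorem H2.not_dvd (h : H2 G) {x : G} {n : ℕ} (hn : n ∣ (𝐂[x]).index)
    (h2 : 2 ≤ n.primeFactors.card) {s : ℕ} (hs : s.Prime) (hsn : ¬ s ∣ n) :
    ¬ s ∣ (𝐂[x]).index := fun hd => by
  have := Finset.eq_of_subset_of_card_le (Nat.primeFactors_mono hn (index_cen_pos x).ne')
    ((h x).trans h2)
  exact hsn (Nat.dvd_of_mem_primeFactors
    (this ▸ Nat.mem_primeFactors.2 ⟨hs, hd, (index_cen_pos x).ne'⟩))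

theorem sq_dvd_relIndex {p : ℕ} [hp : Fact p.Prime] {P : Subgroup G} (hP : IsPGroup p P)
    (h : ¬ IsMulCommutative P) : p ^ 2 ∣ (centralizer (P : Set G)).relIndex P := by
  have e : (centralizer (P : Set G)).subgroupOf P = center P := by
    ext x
    rw [mem_subgroupOf, mem_centralizer_iff, mem_center_iff]
    exact ⟨fun a y => Subtype.ext (a y y.2), fun a y hy => congrArg Subtype.val (a ⟨y, hy⟩)⟩
  rw [relIndex, e]
  obtain ⟨k, hk⟩ := hP.index (center P)
  rw [hk]
  refine pow_dvd_pow p ?_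
  by_contra! hlt
  have : IsCyclic (P ⧸ center P) := isCyclic_of_card_dvd_prime (p := p)
    (by rw [← index_eq_card, hk]; exact (pow_dvd_pow p (by omega : k ≤ 1)).trans (by simp))
  exact h (MonoidHom.isMulCommutative_of_isCyclic_of_ker_le_center (QuotientGroup.mk' (center P))
    (by simp))

omit [Finite G] in
theorem relIndex_dvd_aut (P : Subgroup G) : (centralizer (P : Set G)).relIndex P ∣ aut P :=
  relIndex_dvd_relIndex_of_le_normalizer _ le_normalizer le_rfl

theorem aut_pos (P : Subgroup G) : 0 < aut P := Nat.pos_of_ne_zero index_ne_zero_of_finite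

omit [Finite G] in
theorem le_cent_of_comm {P : Subgroup G} (h : IsMulCommutative P) :
    P ≤ centralizer (P : Set G) := le_centralizer P

theorem not_dvd_aut {p : ℕ} [Fact p.Prime] (P : Sylow p G) (h : IsMulCommutative P) :
    ¬ p ∣ aut (P : Subgroup G) := fun hd =>
  P.not_dvd_index ((hd.trans (relIndex_dvd_of_le_left _ (le_cent_of_comm h))).trans
    (relIndex_dvd_index_of_le le_normalizer))

theorem not_dvd_of_comm {p : ℕ} [Fact p.Prime] (P : Sylow p G) (h : IsMulCommutative P) {x : G}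
    (hx : ∃ k, x ^ p ^ k = 1) : ¬ p ∣ (𝐂[x]).index := by
  obtain ⟨Q, hQ⟩ := (CL.FGS.isPGroup_zpowers_of_pow_eq_one hx.choose_spec).exists_le_sylow
  have : IsMulCommutative (Q : Subgroup G) := ⟨⟨fun a b => (P.equiv Q).symm.injective
    (by rw [map_mul, map_mul, mul_comm'])⟩⟩
  exact not_dvd_index_of_sylow_le (P := Q) (le_cen_iff.2 (le_centralizer _ (hQ (mem_zpowers x))))

variable [IsSimpleGroup G]

theorem two_le_pf (hG : ¬ IsMulCommutative G) {x : G} (hx : x ≠ 1) :
    2 ≤ ((𝐂[x]).index).primeFactors.card := by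
  by_contra! h
  have h1 : ((𝐂[x]).index).primeFactors.card ≤ 1 := by omega
  obtain ⟨p, hp, k, hk⟩ : ∃ p : ℕ, p.Prime ∧ ∃ k, (𝐂[x]).index = p ^ k := by
    rcases Nat.eq_zero_or_pos ((𝐂[x]).index).primeFactors.card with h0 | h0
    · rw [Finset.card_eq_zero, Nat.primeFactors_eq_empty] at h0
      exact ⟨2, Nat.prime_two, 0, h0.resolve_left (index_cen_pos x).ne'⟩
    · obtain ⟨p, k, hp, -, e⟩ := (isPrimePow_nat_iff _).1
        (isPrimePow_iff_card_primeFactors_eq_one.2 (le_antisymm h1 h0))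
      exact ⟨p, hp, k, e.symm⟩
  exact hG ⟨⟨mul_comm_of_simple_of_prime_pow_class hp hx hk⟩⟩

theorem not_npc (hG : ¬ IsMulCommutative G) {p : ℕ} [hp : Fact p.Prime] (hd : p ∣ Nat.card G) :
    ¬ HasNormalPComplement p G := by
  intro h
  rcases (pResidual_normal p G).eq_bot_or_eq_top with e | e
  · have := (isPGroup_iff_pResidual_eq_bot.2 e).isNilpotent
    exact hG ⟨⟨IsSimpleGroup.comm_iff_isSolvable.2 inferInstance⟩⟩
  · exact hasNPC_iff_not_dvd_card_pResidual.1 h (by rwa [e, card_top])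

theorem two_le_aut (hG : ¬ IsMulCommutative G) {p : ℕ} [hp : Fact p.Prime] (hd : p ∣ Nat.card G)
    (P : Sylow p G) : 2 ≤ aut (P : Subgroup G) := by
  have h0 := aut_pos (P : Subgroup G)
  have h1 : aut (P : Subgroup G) ≠ 1 := fun h1 =>
    not_npc hG hd (hasNPC_of_normalizer_le_centralizer P (relIndex_eq_one.mp h1))
  omega

theorem two_dvd (hG : ¬ IsMulCommutative G) : 2 ∣ Nat.card G := by
  by_contra h
  exact hG ⟨⟨IsSimpleGroup.comm_iff_isSolvable.2 (Cfsg.Agent.S0205.result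
    (Nat.odd_iff.2 (Nat.two_dvd_ne_zero.1 h)))⟩⟩

theorem three_le_aut (hG : ¬ IsMulCommutative G) (T : Sylow 2 G) : 3 ≤ aut (T : Subgroup G) := by
  have h1 := two_le_aut hG (two_dvd hG) T
  by_cases h : IsMulCommutative (T : Subgroup G)
  · have := not_dvd_aut T h
    omega
  · have := Nat.le_of_dvd (aut_pos _) ((sq_dvd_relIndex T.isPGroup' h).trans (relIndex_dvd_aut _))
    omega

theorem H2.card_pf (hG : ¬ IsMulCommutative G) (h : H2 G) : (Nat.card G).primeFactors.card = 3 := by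
  classical
  have := Fintype.ofFinite G
  set T := (Nat.card G).primeFactors with hT
  refine le_antisymm ?_ ?_
  · have h2 : T.card * Nat.card G ≤
        2 * ∑ p ∈ T, (Finset.univ.filter (fun x : G => p ∣ (𝐂[x]).index)).card := by
      rw [Finset.mul_sum, ← smul_eq_mul, ← Finset.sum_const]
      refine Finset.sum_le_sum fun p hp => ?_
      have := Fact.mk (Nat.prime_of_mem_primeFactors hp)
      have := card_le_two_mul_ncard_dvd (not_npc hG (Nat.dvd_of_mem_primeFactors hp))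
      rwa [Set.ncard_eq_toFinset_card', Set.toFinset_ofPred] at this
    have h3 : ∑ p ∈ T, (Finset.univ.filter (fun x : G => p ∣ (𝐂[x]).index)).card
        = ∑ x : G, (T.filter (fun p => p ∣ (𝐂[x]).index)).card := by
      simp only [Finset.card_filter]
      exact Finset.sum_comm
    have h4 : ∑ x : G, (T.filter (fun p => p ∣ (𝐂[x]).index)).card < ∑ _x : G, 2 := by
      refine Finset.sum_lt_sum (fun x _ => le_trans (Finset.card_le_card fun p hp => ?_) (h x))
        ⟨1, Finset.mem_univ _, ?_⟩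
      · rw [Finset.mem_filter] at hp
        exact Nat.mem_primeFactors.mpr ⟨Nat.prime_of_mem_primeFactors hp.1, hp.2,
          (index_cen_pos x).ne'⟩
      · rw [Finset.filter_eq_empty_iff.2 fun p hp => by
          rw [index_cen_one, Nat.dvd_one]; exact (Nat.prime_of_mem_primeFactors hp).one_lt.ne']
        simp
    rw [Finset.sum_const, Finset.card_univ, smul_eq_mul, ← Nat.card_eq_fintype_card] at h4
    have := Nat.lt_of_mul_lt_mul_right (by omega : T.card * Nat.card G < 4 * Nat.card G)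
    omega
  · by_contra! hlt
    have h2 : 2 ∈ T := Nat.mem_primeFactors.2 ⟨Nat.prime_two, two_dvd hG, Nat.card_pos.ne'⟩
    obtain ⟨q, hq, hq'⟩ : ∃ q : ℕ, q.Prime ∧ ∀ r ∈ T.erase 2, r = q := by
      have : (T.erase 2).card ≤ 1 := by rw [Finset.card_erase_of_mem h2]; omega
      rcases (T.erase 2).eq_empty_or_nonempty with e | ⟨q, hq⟩
      · exact ⟨2, Nat.prime_two, by simp [e]⟩
      · exact ⟨q, Nat.prime_of_mem_primeFactors (Finset.mem_of_mem_erase hq),
          fun r hr => Finset.card_le_one.1 this r hr q hq⟩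
    refine hG ⟨⟨IsSimpleGroup.comm_iff_isSolvable.2
      (isSolvable_of_primes_subset_pair Nat.prime_two hq fun r hr hd => ?_)⟩⟩
    by_cases e : r = 2
    · exact Or.inl e
    · exact Or.inr (hq' r (Finset.mem_erase.2 ⟨e, Nat.mem_primeFactors.2 ⟨hr, hd, Nat.card_pos.ne'⟩⟩))

theorem H2.uniq (hG : ¬ IsMulCommutative G) (h : H2 G) {x : G} (hx : x ≠ 1) {s s' : ℕ}
    (hs : s.Prime) (hs' : s'.Prime) (d : s ∣ Nat.card G) (d' : s' ∣ Nat.card G)
    (a : ¬ s ∣ (𝐂[x]).index) (a' : ¬ s' ∣ (𝐂[x]).index) : s = s' := by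
  by_contra hne
  have h1 : ({s, s'} : Finset ℕ) ∪ ((𝐂[x]).index).primeFactors ⊆ (Nat.card G).primeFactors := by
    refine Finset.union_subset ?_ (Nat.primeFactors_mono (index_dvd_card _) Nat.card_pos.ne')
    intro p hp
    simp only [Finset.mem_insert, Finset.mem_singleton] at hp
    rcases hp with rfl | rfl <;> simp [*, Nat.card_pos.ne']
  have h2 := Finset.card_le_card h1
  rw [Finset.card_union_of_disjoint (by simp [a, a']), Finset.card_pair hne, h.card_pf hG] at h2
  have := two_le_pf hG hx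
  omega

/-- Commuting elements of coprime orders miss the same prime. -/
theorem H2.same (hG : ¬ IsMulCommutative G) (h : H2 G) {x y : G} (hx : x ≠ 1) (hc : Commute x y)
    (ho : (orderOf x).Coprime (orderOf y)) {s : ℕ} (hs : s.Prime) (a : ¬ s ∣ (𝐂[x]).index) :
    ¬ s ∣ (𝐂[x * y]).index :=
  h.not_dvd (index_cen_dvd_mul_left hc ho) (two_le_pf hG hx) hs a

theorem H2.regular (hG : ¬ IsMulCommutative G) (h : H2 G) {p : ℕ} [hp : Fact p.Prime] {x : G}
    (hx : x ≠ 1) (hk : ∃ k, x ^ p ^ k = 1) (a : ¬ p ∣ (𝐂[x]).index) (y : 𝐂[x])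
    (hy : (orderOf y).Coprime p) : ¬ p ∣ (𝐂[y]).index := by
  obtain ⟨k, hk⟩ := hk
  have ho : (orderOf x).Coprime (orderOf (y : G)) := by
    rw [orderOf_coe]
    exact (hy.symm.pow_left k).coprime_dvd_left (orderOf_dvd_of_pow_eq_one hk)
  have := h.same hG hx (mem_cen'.1 y.2) ho hp.out a
  rw [index_cen_mul_of_coprime (mem_cen'.1 y.2) ho] at this
  rw [index_cen_subgroup]
  exact fun hd => this (hd.mul_right _)

/-- If the Sylow subgroups for the other primes are abelian, an element missing its own prime has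
a `p`-group as centralizer. -/
theorem H2.isPGroup (hG : ¬ IsMulCommutative G) (h : H2 G) {p : ℕ} [hp : Fact p.Prime]
    (hab : ∀ s, s ≠ p → ∀ [Fact s.Prime], ∀ S : Sylow s G, IsMulCommutative S) {x : G}
    (hx : x ≠ 1) (hk : ∃ k, x ^ p ^ k = 1) (a : ¬ p ∣ (𝐂[x]).index) : IsPGroup p 𝐂[x] := by
  refine (isPGroup_iff_primeFactors_card_subset hp.out.ne_zero).2 fun s hs => ?_
  rw [hp.out.primeFactors, Finset.mem_singleton]
  have hd := Nat.dvd_of_mem_primeFactors hs
  replace hs := Nat.prime_of_mem_primeFactors hs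
  by_contra hne
  have := Fact.mk hs
  obtain ⟨k, hk⟩ := hk
  obtain ⟨y, hy⟩ := exists_prime_orderOf_dvd_card' s hd
  have hy' : orderOf (y : G) = s := by rw [orderOf_coe, hy]
  have hpx : p ∣ orderOf x := by
    obtain ⟨j, -, e⟩ := (Nat.dvd_prime_pow hp.out).1 (orderOf_dvd_of_pow_eq_one hk)
    exact e ▸ dvd_pow_self p fun e0 => hx (orderOf_eq_one_iff.1 (by rw [e, e0, pow_zero]))
  have ho : (orderOf x).Coprime (orderOf (y : G)) := by
    rw [hy']
    exact (((Nat.coprime_primes hp.out hs).2 (Ne.symm hne)).pow_left k).coprime_dvd_left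
      (orderOf_dvd_of_pow_eq_one hk)
  have b := h.same hG hx (mem_cen'.1 y.2) ho hp.out a
  obtain ⟨S⟩ : Nonempty (Sylow s G) := inferInstance
  exact hne (h.uniq hG (x := y) (fun e => hs.one_lt.ne' (by rw [← hy', e, orderOf_one])) hs hp.out
    (hd.trans (card_subgroup_dvd_card _)) (hpx.trans (orderOf_dvd_natCard x))
    (not_dvd_of_comm S (hab s hne S) ⟨1, by rw [pow_one, ← hy', pow_orderOf_eq_one]⟩)
    fun hd => b (hd.trans (index_cen_dvd_mul_right (mem_cen'.1 y.2) ho)))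

/-- The three primes. -/
structure Tri (G : Type*) [Group G] (q r : ℕ) : Prop where
  hq : q.Prime
  hr : r.Prime
  q2 : q ≠ 2
  r2 : r ≠ 2
  qr : q ≠ r
  dq : q ∣ Nat.card G
  dr : r ∣ Nat.card G
  mem : ∀ p : ℕ, p.Prime → p ∣ Nat.card G → p = 2 ∨ p = q ∨ p = r

theorem H2.exists_tri (hG : ¬ IsMulCommutative G) (h : H2 G) {q : ℕ} (hq : q.Prime) (q2 : q ≠ 2)
    (dq : q ∣ Nat.card G) : ∃ r, Tri G q r := by
  have h2 : ({2, q} : Finset ℕ) ⊆ (Nat.card G).primeFactors := by
    intro p hp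
    simp only [Finset.mem_insert, Finset.mem_singleton] at hp
    rcases hp with rfl | rfl <;> simp [*, Nat.card_pos.ne', two_dvd hG, Nat.prime_two]
  obtain ⟨r, hr⟩ := Finset.card_eq_one.1 (show ((Nat.card G).primeFactors \ {2, q}).card = 1 by
    rw [Finset.card_sdiff_of_subset h2, h.card_pf hG, Finset.card_pair q2.symm])
  have h3 : ∀ p, p ∈ (Nat.card G).primeFactors \ {2, q} ↔ p = r := by simp [hr]
  have h4 := (h3 r).2 rfl
  simp only [Finset.mem_sdiff, Finset.mem_insert, Finset.mem_singleton, not_or,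
    Nat.mem_primeFactors] at h3 h4
  refine ⟨r, hq, h4.1.1, q2, h4.2.1, Ne.symm h4.2.2, dq, h4.1.2.1, fun p hp hd => ?_⟩
  by_contra! hh
  exact hh.2.2 ((h3 p).1 ⟨⟨hp, hd, Nat.card_pos.ne'⟩, hh.1, hh.2.1⟩)

omit [IsSimpleGroup G] in
theorem H2.exists_not_dvd (h : H2 G) {q r : ℕ} (t : Tri G q r) (x : G) :
    ¬ 2 ∣ (𝐂[x]).index ∨ ¬ q ∣ (𝐂[x]).index ∨ ¬ r ∣ (𝐂[x]).index := by
  by_contra! hh
  have h1 : ({2, q, r} : Finset ℕ) ⊆ ((𝐂[x]).index).primeFactors := by
    intro p hp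
    simp only [Finset.mem_insert, Finset.mem_singleton] at hp
    rcases hp with rfl | rfl | rfl <;>
      simp [hh, (index_cen_pos x).ne', t.hq, t.hr, Nat.prime_two]
  have := (Finset.card_le_card h1).trans (h x)
  rw [Finset.card_eq_three.2 ⟨2, q, r, t.q2.symm, t.r2.symm, t.qr, rfl⟩] at this
  omega

omit [IsSimpleGroup G] in
/-- The automizer orders form a spherical triple. -/
theorem H2.sph (h : H2 G) {q r : ℕ} (t : Tri G q r) [Fact q.Prime] [Fact r.Prime] (T : Sylow 2 G)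
    (Q : Sylow q G) (R : Sylow r G) :
    aut (T : Subgroup G) * aut (Q : Subgroup G) * aut (R : Subgroup G) <
      aut (Q : Subgroup G) * aut (R : Subgroup G) + aut (T : Subgroup G) * aut (R : Subgroup G) +
        aut (T : Subgroup G) * aut (Q : Subgroup G) := by
  have a := ncard_not_dvd_mul_relIndex_le T
  have b := ncard_not_dvd_mul_relIndex_le Q
  have c := ncard_not_dvd_mul_relIndex_le R
  set A := {x : G | ¬ 2 ∣ (𝐂[x]).index}
  set B := {x : G | ¬ q ∣ (𝐂[x]).index}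
  set C := {x : G | ¬ r ∣ (𝐂[x]).index}
  have e1 : Nat.card G ≤ (A ∪ B).ncard + C.ncard := by
    rw [← Set.ncard_univ]
    refine (Set.ncard_le_ncard (fun x _ => ?_)).trans (Set.ncard_union_le _ _)
    exact or_assoc.2 (h.exists_not_dvd t x)
  have e2 := Set.ncard_union_add_ncard_inter A B
  have e3 : 0 < (A ∩ B).ncard := (Set.ncard_pos).2 ⟨1, by
    simp only [A, B, Set.mem_inter_iff, Set.mem_ofPred_eq, index_cen_one, Nat.dvd_one]
    exact ⟨by norm_num, t.hq.one_lt.ne'⟩⟩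
  have e4 : Nat.card G < A.ncard + B.ncard + C.ncard := by omega
  have p1 := aut_pos (T : Subgroup G)
  have p2 := aut_pos (Q : Subgroup G)
  have p3 := aut_pos (R : Subgroup G)
  change _ * aut _ ≤ _ at a b c
  generalize aut (T : Subgroup G) = x at *
  generalize aut (Q : Subgroup G) = y at *
  generalize aut (R : Subgroup G) = z at *
  refine lt_of_mul_lt_mul_right (a := Nat.card G) ?_ (Nat.zero_le _)
  calc x * y * z * Nat.card G < x * y * z * (A.ncard + B.ncard + C.ncard) := by gcongr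
    _ = y * z * (A.ncard * x) + x * z * (B.ncard * y) + x * y * (C.ncard * z) := by ring
    _ ≤ y * z * Nat.card G + x * z * Nat.card G + x * y * Nat.card G := by gcongr
    _ = _ := by ring

theorem H2.comm_odd (hG : ¬ IsMulCommutative G) (h : H2 G) (s : ℕ) (hs : s ≠ 2) [hp : Fact s.Prime]
    (S : Sylow s G) : IsMulCommutative S := by
  by_contra hS
  have h1 := (sq_dvd_relIndex S.isPGroup' hS).trans (relIndex_dvd_aut _)
  obtain ⟨r, t⟩ := h.exists_tri hG hp.out hs ((dvd_pow_self s two_ne_zero).trans (h1.trans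
    ((index_dvd_card _).trans (card_subgroup_dvd_card _))))
  have := Fact.mk t.hr
  obtain ⟨T⟩ : Nonempty (Sylow 2 G) := inferInstance
  obtain ⟨R⟩ : Nonempty (Sylow r G) := inferInstance
  have a := h.sph t T S R
  have b := three_le_aut hG T
  have c := two_le_aut hG t.dr R
  have d : 3 ^ 2 ≤ aut (S : Subgroup G) := (Nat.pow_le_pow_left
    (by have := hp.out.two_le; omega) 2).trans (Nat.le_of_dvd (aut_pos _) h1)
  generalize aut (T : Subgroup G) = x at *
  generalize aut (S : Subgroup G) = y at *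
  generalize aut (R : Subgroup G) = z at *
  have : 3 * (y * z) ≤ x * (y * z) := by gcongr
  have : 9 * (x * z) ≤ y * (x * z) := Nat.mul_le_mul_right _ d
  have : 2 * (x * y) ≤ z * (x * y) := by gcongr
  nlinarith

theorem H2.cen_eq (hG : ¬ IsMulCommutative G) (h : H2 G) {r : ℕ} [hr : Fact r.Prime]
    (R : Sylow r G) (hR : IsMulCommutative R) {y : G} (hy : y ∈ (R : Subgroup G)) (h1 : y ≠ 1) :
    𝐂[y] = centralizer ((R : Subgroup G) : Set G) := by
  refine le_antisymm ?_ (centralizer_le (Set.singleton_subset_iff.2 hy))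
  have hk : ∃ k, y ^ r ^ k = 1 := (R.isPGroup' ⟨y, hy⟩).imp fun k e => congrArg Subtype.val e
  have hle : (R : Subgroup G) ≤ 𝐂[y] := le_cen_iff.2 (le_centralizer _ hy)
  have h2 := centralizer_sup_sylow_eq_top_of_regular
    (h.regular hG h1 hk (not_dvd_of_comm R hR hk)) (R.subtype hle)
  have : IsMulCommutative ((R.subtype hle : Sylow r 𝐂[y]) : Subgroup 𝐂[y]) :=
    subgroupOf_isMulCommutative _ _
  rw [sup_eq_left.2 (le_centralizer _)] at h2
  intro c hc
  refine mem_centralizer_iff.2 fun z hz => congrArg Subtype.val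
    (mem_centralizer_iff.1 (h2 ▸ mem_top (⟨c, hc⟩ : 𝐂[y])) ⟨z, hle hz⟩ hz)

theorem H2.aut_ne_two (hG : ¬ IsMulCommutative G) (h : H2 G) {q r : ℕ} (t : Tri G q r)
    [Fact r.Prime] (R : Sylow r G) {i : G} (hi : orderOf i = 2) (hq : ¬ q ∣ (𝐂[i]).index) :
    aut (R : Subgroup G) ≠ 2 := by
  intro he
  obtain ⟨χ, ψ, a1, a2, a3, a4, hd, b1, b2⟩ := exists_consec t.r2 R t.dr
    (fun y hy h1 => h.cen_eq hG R (h.comm_odd hG r t.r2 R) hy h1) he
  have key : ∀ θ : G → ℂ, IsIrrCharacter G θ → θ ≠ (fun _ => 1) → ¬ r ∣ charDegree θ →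
      2 ∣ charDegree θ := by
    intro θ c1 c2 c3
    by_contra c4
    have hc : (charDegree θ).Coprime (𝐂[i]).index := Nat.coprime_of_dvd fun p hp d1 d2 => by
      rcases t.mem p hp (d1.trans c1.charDegree_dvd_card) with rfl | rfl | rfl
      exacts [c4 d1, hq d2, c3 d1]
    rcases c1.eq_zero_or_norm_eq i hc with e | e
    · exact c4 (c1.isCharacter.dvd_degree_of_eq_zero Nat.prime_two (k := 1)
        (by rw [pow_one, ← hi, pow_orderOf_eq_one]) e)
    · have := c1.mem_charCenter.2 e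
      rw [c1.charCenter_eq_center (c1.charKer_eq_bot_of_simple c2)] at this
      exact hG ⟨⟨mul_comm_of_simple_of_mem_center (g := i)
        (fun e => by simp [e] at hi) this⟩⟩
  have := key χ a1 a3 b1
  have := key ψ a2 a4 b2
  omega

theorem H2.npc_of_aut (hG : ¬ IsMulCommutative G) (h : H2 G)
    (h4 : ∀ T : Sylow 2 G, aut (T : Subgroup G) ≤ 5) {i : G} (hi : orderOf i = 2)
    (hev : 2 ∣ (𝐂[i]).index) : HasNormalPComplement 2 𝐂[i] := by
  obtain ⟨A⟩ : Nonempty (Sylow 2 𝐂[i]) := inferInstance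
  obtain ⟨T, hT⟩ := (A.isPGroup'.map (𝐂[i]).subtype).exists_le_sylow
  have hA : (T : Subgroup G).subgroupOf 𝐂[i] = A :=
    A.is_maximal' (T.isPGroup'.comap_subtype) (map_le_iff_le_comap.1 hT)
  have hA' : ∀ y : 𝐂[i], y ∈ (A : Subgroup 𝐂[i]) ↔ (y : G) ∈ (T : Subgroup G) := fun y => by
    rw [← hA, mem_subgroupOf]
  have hi2 : i ^ 2 ^ 1 = 1 := by rw [pow_one, ← hi, pow_orderOf_eq_one]
  have hii : i * i = 1 := by rw [← sq]; simpa using hi2
  set Z := centralizer ((T : Subgroup G) : Set G) with hZ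
  have hcen : ∀ z ∈ Z, z ∈ (T : Subgroup G) → z ≠ 1 → 𝐂[z] = T := fun z hz hzT h1 =>
    T.is_maximal' (h.isPGroup hG (fun s hs _ S => h.comm_odd hG s hs S) h1
      ((T.isPGroup' ⟨z, hzT⟩).imp fun k e => congrArg Subtype.val e)
      (not_dvd_index_of_sylow_le (P := T) (le_cen_iff.2 hz))) (le_cen_iff.2 hz)
  have hiA : (⟨i, self_mem_cen i⟩ : 𝐂[i]) ∈ (A : Subgroup 𝐂[i]) := by
    have : (zpowers (⟨i, self_mem_cen i⟩ : 𝐂[i])).Normal :=
      normal_of_le_center (zpowers_le.2 (mem_center_iff.2 fun g => Subtype.ext (mem_cen.1 g.2)))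
    exact (CL.FGS.isPGroup_zpowers_of_pow_eq_one (k := 1) (Subtype.ext hi2)).le_sylow_of_normal A
      (mem_zpowers _)
  have hiT : i ∈ (T : Subgroup G) := by rw [← hA] at hiA; exact hiA
  have hiZ : i ∉ Z := fun e => not_dvd_index_of_sylow_le (P := T) (le_cen_iff.2 e) hev
  have hi1 : i ≠ 1 := fun e => hiZ (e ▸ one_mem _)
  have hnc : ¬ IsMulCommutative (T : Subgroup G) := fun e => hiZ (le_centralizer _ hiT)
  have : Nontrivial (T : Subgroup G) := ⟨⟨⟨i, hiT⟩, 1, fun e => hi1 (congrArg Subtype.val e)⟩⟩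
  have := T.isPGroup'.center_nontrivial
  obtain ⟨⟨⟨z₀, hz₀T⟩, hz₀⟩, hz₁⟩ := exists_ne (1 : center (T : Subgroup G))
  replace hz₀ : z₀ ∈ Z := mem_centralizer_iff.2 fun y hy =>
    congrArg Subtype.val (mem_center_iff.1 hz₀ ⟨y, hy⟩)
  replace hz₁ : z₀ ≠ 1 := fun e => hz₁ (Subtype.ext (Subtype.ext e))
  have hZT : Z ≤ T := hcen z₀ hz₀ hz₀T hz₁ ▸ centralizer_le (Set.singleton_subset_iff.2 hz₀T)
  have e4 : Z.relIndex T = 4 ∧ aut (T : Subgroup G) = 4 := by
    obtain ⟨a, ha⟩ := sq_dvd_relIndex T.isPGroup' hnc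
    obtain ⟨b, hb⟩ := relIndex_dvd_aut (T : Subgroup G)
    have := h4 T
    have := aut_pos (T : Subgroup G)
    rw [ha] at hb ⊢
    rw [hb] at *
    have : a * b = 1 := by nlinarith
    rw [Nat.eq_one_of_mul_eq_one_right this, Nat.eq_one_of_mul_eq_one_left this]
    simp
  have hN : normalizer ((T : Subgroup G) : Set G) ≤ T := by
    have := relIndex_mul_relIndex Z T _ hZT (le_normalizer (H := (T : Subgroup G)))
    rw [e4.1, show Z.relIndex _ = 4 from e4.2] at this
    exact relIndex_eq_one.1 (by omega)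
  set B := (T : Subgroup G) ⊓ 𝐂[i] with hB
  have hZB : Z ≤ B := le_inf hZT fun z hz => mem_cen'.2 (mem_centralizer_iff.1 hz i hiT)
  have hiB : i ∈ B := ⟨hiT, self_mem_cen i⟩
  have e2 : Z.relIndex B = 2 := by
    have a := relIndex_mul_relIndex Z B _ hZB inf_le_left
    rw [e4.1] at a
    have b : Z.relIndex B ≠ 1 := fun e => hiZ (relIndex_eq_one.1 e hiB)
    have c : B.relIndex T ≠ 1 := fun e =>
      hiZ (le_cen_iff.1 ((relIndex_eq_one.1 e).trans inf_le_right))
    have := Nat.le_of_dvd (by norm_num) (Dvd.intro _ a)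
    interval_cases Z.relIndex B <;> omega
  have hmul : ∀ a ∈ B, ∀ b ∈ B, a ∉ Z → b ∉ Z → a * b ∈ Z := fun a ha b hb a1 b1 =>
    (mul_mem_iff_of_index_two (H := Z.subgroupOf B) e2 (a := ⟨a, ha⟩) (b := ⟨b, hb⟩)).2
      (iff_of_false a1 b1)
  have hcomm : ∀ a ∈ B, ∀ b ∈ B, a * b = b * a := by
    intro a ha b hb
    by_cases a1 : a ∈ Z
    · exact (mem_centralizer_iff.1 a1 b hb.1).symm
    have a2 := mem_centralizer_iff.1 (hmul a ha i hiB a1 hiZ) b hb.1
    have b2 : b * i = i * b := mem_cen.1 hb.2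
    refine mul_right_cancel (b := i) ?_
    rw [mul_assoc b, a2, mul_assoc, mul_assoc, b2]
  refine hasNPC_of_normalizer_le_centralizer A fun x hx => ?_
  have hxB : ∀ b ∈ B, (x : G) * b * (x : G)⁻¹ ∈ B := fun b hb => by
    have := (mem_normalizer_iff.1 hx ⟨b, hb.2⟩).1 ((hA' _).2 hb.1)
    exact ⟨(hA' _).1 this, (𝐂[i]).mul_mem ((𝐂[i]).mul_mem x.2 hb.2) ((𝐂[i]).inv_mem x.2)⟩
  have hx2 : (x : G) * x ∈ (T : Subgroup G) := by
    by_cases hz : ∃ z ∈ Z, z ≠ 1 ∧ (x : G) * z * (x : G)⁻¹ ∈ Z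
    · obtain ⟨z, a, b, c⟩ := hz
      have e := hcen _ c (hZT c) (fun e => b (conj_eq_one_iff.1 e))
      rw [cen_conj, hcen z a (hZT a) b] at e
      have : (x : G) ∈ (T : Subgroup G) := hN (mem_normalizer_fintype fun y hy =>
        e ▸ smul_mem_pointwise_smul y (MulAut.conj (x : G)) _ hy)
      exact mul_mem this this
    push Not at hz
    have hxi : (x : G) * i * (x : G)⁻¹ = i := mul_inv_eq_of_eq_mul (mem_cen.1 x.2)
    have a := hmul _ (hxB _ (hZB hz₀)) i hiB (hz z₀ hz₀ hz₁) hiZ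
    have a1 : (x : G) * z₀ * (x : G)⁻¹ * i ≠ 1 := fun e => hiZ (by
      have : (x : G) * (z₀ * i) * (x : G)⁻¹ = 1 := by rw [← e, ← conj_mul, hxi]
      exact (Subgroup.mul_mem_cancel_left _ hz₀).1 (conj_eq_one_iff.1 this ▸ one_mem _))
    have b := hmul _ (hxB _ (hZB a)) _ (hxB _ (hZB (inv_mem hz₀))) (hz _ a a1)
      (hz _ (inv_mem hz₀) (inv_ne_one.2 hz₁))
    have c : (x : G) * z₀ * (x : G)⁻¹ * i * z₀⁻¹ = 1 := by
      by_contra c
      refine hz _ (mul_mem a (inv_mem hz₀)) c ?_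
      convert b using 1
      group
    have d : (x : G) * z₀ * (x : G)⁻¹ = z₀ * i := by
      rw [mul_inv_eq_one] at c
      rw [eq_mul_inv_of_mul_eq c, inv_eq_of_mul_eq_one_right hii]
    rw [← hcen z₀ hz₀ hz₀T hz₁, mem_cen]
    refine mul_inv_eq_iff_eq_mul.1 ?_
    calc (x : G) * x * z₀ * ((x : G) * x)⁻¹ = x * (x * z₀ * (x : G)⁻¹) * (x : G)⁻¹ := by group
      _ = (x * z₀ * (x : G)⁻¹) * (x * i * (x : G)⁻¹) := by rw [conj_mul, d]
      _ = z₀ := by rw [d, hxi, mul_assoc, hii, mul_one]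
  obtain ⟨k, hk⟩ := T.isPGroup' ⟨_, hx2⟩
  have hxA : x ∈ (A : Subgroup 𝐂[i]) := by
    have hp : IsPGroup 2 (zpowers x) := CL.FGS.isPGroup_zpowers_of_pow_eq_one (k := k + 1)
      (Subtype.ext (by
        rw [pow_succ', pow_mul, sq]; simpa using congrArg Subtype.val hk))
    exact ((hp.inf_normalizer_sylow A).le ⟨mem_zpowers x, hx⟩).2
  exact mem_centralizer_iff.2 fun y hy =>
    Subtype.ext (hcomm _ ⟨(hA' _).1 hy, y.2⟩ _ ⟨(hA' _).1 hxA, x.2⟩)

theorem H2.two_nil (hG : ¬ IsMulCommutative G) (h : H2 G) {i : G} (hi : orderOf i = 2) :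
    HasNormalPComplement 2 𝐂[i] := by
  have hi1 : i ≠ 1 := fun e => by simp [e] at hi
  have hk : ∃ k, i ^ 2 ^ k = 1 := ⟨1, by rw [pow_one, ← hi, pow_orderOf_eq_one]⟩
  by_cases hev : 2 ∣ (𝐂[i]).index
  swap
  · exact hasNPC_of_regular (h.regular hG hi1 hk hev)
  obtain ⟨q, r, t, hq⟩ : ∃ q r, Tri G q r ∧ ¬ q ∣ (𝐂[i]).index := by
    obtain ⟨s, hs, s2⟩ : ∃ s ∈ (Nat.card G).primeFactors, s ≠ 2 :=
      Finset.exists_mem_ne (by rw [h.card_pf hG]; norm_num) 2
    obtain ⟨r, t⟩ := h.exists_tri hG (Nat.prime_of_mem_primeFactors hs) s2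
      (Nat.dvd_of_mem_primeFactors hs)
    rcases h.exists_not_dvd t i with e | e | e
    · exact absurd hev e
    · exact ⟨s, r, t, e⟩
    · exact (h.exists_tri hG t.hr t.r2 t.dr).elim fun r' t' => ⟨r, r', t', e⟩
  have := Fact.mk t.hq
  have := Fact.mk t.hr
  refine h.npc_of_aut hG (fun T => ?_) hi hev
  obtain ⟨Q⟩ : Nonempty (Sylow q G) := inferInstance
  obtain ⟨R⟩ : Nonempty (Sylow r G) := inferInstance
  have a := h.sph t T Q R
  have b := two_le_aut hG t.dq Q
  have c := two_le_aut hG t.dr R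
  have d := h.aut_ne_two hG t R hi hq
  generalize aut (T : Subgroup G) = x at *
  generalize aut (Q : Subgroup G) = y at *
  generalize aut (R : Subgroup G) = z at *
  by_contra! e
  have : 6 * (y * z) ≤ x * (y * z) := Nat.mul_le_mul_right _ e
  have : 2 * (x * z) ≤ y * (x * z) := Nat.mul_le_mul_right _ b
  have : 3 * (x * y) ≤ z * (x * y) := Nat.mul_le_mul_right _ (by omega)
  nlinarith

end CL.CS2
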