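import Mathlib
import Cfsg.Agent.FGS.RegTwo
import Cfsg.Agent.FGS.ClassSizeReg
import Cfsg.Agent.FGS.Kazarin
import Cfsg.Agent.TECH.SubnP

/-!
Groups with class sizes `1, m, n, mn` (`m, n` coprime): general lemmas and the easy case.
-/

set_option autoImplicit false
set_option linter.style.haveILetI false
set_option linter.unusedSectionVars false
set_option linter.unusedVariables false

namespace CL.CS4

open Subgroup Cfsg CL.CS
open scoped Pointwise

variable {G : Type*} [Group G] [Finite G]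

/-- all class sizes are among `1, m, n, mn`. -/
structure H (G : Type*) [Group G] (m n : ℕ) : Prop where
  hm : 1 < m
  hn : 1 < n
  cop : m.Coprime n
  idx : ∀ x : G, 𝐂[x].index = 1 ∨ 𝐂[x].index = m ∨ 𝐂[x].index = n ∨ 𝐂[x].index = m * n

theorem comm_all {x y : G} (hco : 𝐂[x].index.Coprime 𝐂[y].index) (h : Commute x y) (g : G) :
    Commute x (g * y * g⁻¹) := by
  obtain ⟨c, hc, d, hd, rfl⟩ := exists_mul_eq_of_coprime_index _ _ hco g
  have h1 : d * y * d⁻¹ = y := by rw [(mem_cen.1 hd).eq]; group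
  have h2 : c * d * y * (c * d)⁻¹ = c * y * c⁻¹ := by
    rw [show c * d * y * (c * d)⁻¹ = c * (d * y * d⁻¹) * c⁻¹ by group, h1]
  rw [h2]
  have h3 := (mem_cen.1 hc).symm
  exact (h3.mul_right h).mul_right h3.inv_right

theorem comm_conj {s k : ℕ} (hs : s.Prime) {x y : G} (hx : ¬ s ∣ 𝐂[x].index) (hy : y ^ s ^ k = 1) :
    ∃ g : G, Commute (g * x * g⁻¹) y := by
  haveI := Fact.mk hs
  obtain ⟨P, hP⟩ := CL.FGS.exists_sylow_mem_of_pow_eq_one hy
  obtain ⟨g, hg⟩ := exists_conj_mem_centralizer_sylow hx P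
  exact ⟨g, (mem_centralizer_iff.1 hg y hP).symm⟩

omit [Finite G] in
theorem conj_pow_one {x : G} {k : ℕ} (hx : x ^ k = 1) (g : G) : (g * x * g⁻¹) ^ k = 1 := by
  rw [conj_pow, hx]; group

theorem rel_cop {A B K : Subgroup G} (hA : A ≤ K) (h : (A.relIndex K).Coprime (B.relIndex K)) :
    B.relIndex A = B.relIndex K := by
  have := relIndex_eq_index_of_coprime_index (A.subgroupOf K) (B.subgroupOf K) h
  rwa [relIndex_subgroupOf hA] at this

theorem fix0 {x v : G} (hc : Commute (v⁻¹ * (x * v * x⁻¹)) x)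
    (hco : (orderOf (v⁻¹ * (x * v * x⁻¹))).Coprime (orderOf x)) : v⁻¹ * (x * v * x⁻¹) = 1 := by
  set c := v⁻¹ * (x * v * x⁻¹) with hcd
  have h1 : c * x = v⁻¹ * x * v⁻¹⁻¹ := by rw [hcd]; group
  have h2 : (c * x) ^ orderOf x = 1 := by rw [h1]; exact conj_pow_one (pow_orderOf_eq_one x) _
  rw [hc.mul_pow, pow_orderOf_eq_one, mul_one] at h2
  exact orderOf_eq_one_iff.1 (hco.eq_one_of_dvd (orderOf_dvd_of_pow_eq_one h2))

/-- half-transitive action on an abelian normal subgroup. -/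
theorem dec {U P : Subgroup G} [hU : U.Normal] (hab : ∀ u ∈ U, ∀ v ∈ U, Commute u v) {x : G}
    (hxP : x ∈ P) (hPx : P ≤ 𝐂[x]) (hco : (Nat.card U).Coprime (orderOf x)) {m : ℕ}
    (hE : ∀ u ∈ U, u ∉ center G → 𝐂[u].relIndex P = m) {u₁ : G} (h1 : u₁ ∈ U)
    (h1Z : u₁ ∉ center G) (h1x : Commute u₁ x) : U ≤ 𝐂[x] := by
  intro u hu
  by_contra hux
  have hφ : ∀ v ∈ U, v⁻¹ * (x * v * x⁻¹) ∈ U := fun v hv => mul_mem (inv_mem hv) (hU.conj_mem v hv x)
  have h0 : ∀ v ∈ U, Commute (v⁻¹ * (x * v * x⁻¹)) x → v⁻¹ * (x * v * x⁻¹) = 1 := fun v hv hc =>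
    fix0 hc (hco.coprime_dvd_left (U.orderOf_dvd_natCard (hφ v hv)))
  set w := u⁻¹ * (x * u * x⁻¹) with hw
  have hwU : w ∈ U := hφ u hu
  have hwx : ¬ Commute w x := by
    intro hc
    apply hux
    have := h0 u hu hc
    rw [mem_cen]
    have h2 : x * u * x⁻¹ = u := by
      have := congrArg (u * ·) this
      simpa [← mul_assoc] using this
    calc u * x = x * u * x⁻¹ * x := by rw [h2]
      _ = x * u := by group
  have h2x : ¬ Commute (u₁ * w) x := fun hc => hwx (by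
    have := h1x.inv_left.mul_left hc
    rwa [inv_mul_cancel_left] at this)
  have h2Z : u₁ * w ∉ center G := fun hz => h2x (mem_center_iff.1 hz x).symm
  have hle : 𝐂[u₁ * w] ⊓ P ≤ 𝐂[u₁] ⊓ P := by
    rintro g ⟨hg, hgP⟩
    refine ⟨?_, hgP⟩
    have hgx : Commute g x := mem_cen.1 (hPx hgP)
    have hg' : g * (u₁ * w) * g⁻¹ = u₁ * w := by rw [(mem_cen.1 hg).eq]; group
    set v := u * (g * u * g⁻¹)⁻¹ with hv
    have hgu : g * u * g⁻¹ ∈ U := hU.conj_mem u hu g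
    have hvU : v ∈ U := mul_mem hu (inv_mem hgu)
    have hgw : g * w * g⁻¹ = (g * u * g⁻¹)⁻¹ * (x * (g * u * g⁻¹) * x⁻¹) := by
      rw [hw]
      have e1 : x * (g * u * g⁻¹) * x⁻¹ = (x * g) * u * (x * g)⁻¹ := by group
      rw [e1, ← hgx.eq]; group
    have hxu : x * u * x⁻¹ ∈ U := hU.conj_mem u hu x
    have hxgu : x * (g * u * g⁻¹) * x⁻¹ ∈ U := hU.conj_mem _ hgu x
    have hc1 : u₁⁻¹ * (g * u₁ * g⁻¹) = w * (g * w * g⁻¹)⁻¹ := by
      have e1 : g * u₁ * g⁻¹ * (g * w * g⁻¹) = u₁ * w := by rw [← hg']; group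
      calc u₁⁻¹ * (g * u₁ * g⁻¹) = u₁⁻¹ * (g * u₁ * g⁻¹ * (g * w * g⁻¹)) * (g * w * g⁻¹)⁻¹ := by group
        _ = _ := by rw [e1]; group
    have hc2 : w * (g * w * g⁻¹)⁻¹ = v⁻¹ * (x * v * x⁻¹) := by
      rw [hgw, hw, hv]
      set a := g * u * g⁻¹
      have e1 : x * (u * a⁻¹) * x⁻¹ = (x * u * x⁻¹) * (x * a * x⁻¹)⁻¹ := by group
      rw [e1]
      set b := x * u * x⁻¹
      set c := x * a * x⁻¹
      have c1 : Commute a u⁻¹ := hab _ hgu _ (inv_mem hu)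
      have c2 : Commute a b := hab _ hgu _ hxu
      have c3 : Commute a c⁻¹ := hab _ hgu _ (inv_mem hxgu)
      calc u⁻¹ * b * (a⁻¹ * c)⁻¹ = u⁻¹ * b * c⁻¹ * a := by group
        _ = a * (u⁻¹ * b * c⁻¹) := ((c1.mul_right c2).mul_right c3).eq.symm
        _ = _ := by group
    have hc3 : Commute (u₁⁻¹ * (g * u₁ * g⁻¹)) x :=
      h1x.inv_left.mul_left ((hgx.mul_left h1x).mul_left hgx.inv_left)
    have hc4 : u₁⁻¹ * (g * u₁ * g⁻¹) = 1 := by
      rw [hc1, hc2] at hc3 ⊢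
      exact h0 v hvU hc3
    show g ∈ 𝐂[u₁]
    rw [mem_cen]
    have : g * u₁ * g⁻¹ = u₁ := by
      have := congrArg (u₁ * ·) hc4
      simpa [← mul_assoc] using this
    calc g * u₁ = g * u₁ * g⁻¹ * g := by group
      _ = u₁ * g := by rw [this]
  have he : (𝐂[u₁ * w] ⊓ P).subgroupOf P = (𝐂[u₁] ⊓ P).subgroupOf P := by
    refine eq_of_le_of_index_eq (comap_mono hle) ?_
    have a1 := hE _ (mul_mem h1 hwU) h2Z
    have a2 := hE _ h1 h1Z
    rw [← inf_relIndex_right] at a1 a2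
    exact a1.trans a2.symm
  have : (⟨x, hxP⟩ : P) ∈ (𝐂[u₁] ⊓ P).subgroupOf P := ⟨mem_cen.2 h1x.symm, hxP⟩
  rw [← he] at this
  exact h2x (mem_cen.1 this.1).symm

theorem dvd_ncard {m : ℕ} (S : Set G) (hS : ∀ x ∈ S, ∀ g : G, g * x * g⁻¹ ∈ S)
    (hm : ∀ x ∈ S, m ∣ 𝐂[x].index) : m ∣ S.ncard := by
  classical
  induction' hk : S.ncard using Nat.strong_induction_on with k ih generalizing S
  rcases S.eq_empty_or_nonempty with rfl | ⟨x, hx⟩
  · simp at hk; simp [← hk]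
  set T : Set G := {y | IsConj x y} with hT
  have hTS : T ⊆ S := by
    intro y hy
    obtain ⟨g, rfl⟩ := isConj_iff.1 hy
    exact hS x hx g
  have hTc : T.ncard = 𝐂[x].index := ncard_isConj_eq_index x
  have h1 := Set.ncard_sdiff_add_ncard_of_subset hTS
  have hpos : 0 < T.ncard := hTc ▸ index_cen_pos x
  have h2 := ih (S \ T).ncard (by omega) (S \ T) (by
    rintro y ⟨hy, hyT⟩ g
    refine ⟨hS y hy g, fun hc => hyT ?_⟩
    exact IsConj.trans hc (isConj_iff.2 ⟨g⁻¹, by group⟩)) (fun y hy => hm y hy.1) rfl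
  rw [← hk, ← h1]
  exact dvd_add h2 (hTc ▸ hm x hx)

namespace H

variable {m n : ℕ} (h : H G m n)
include h

omit [Finite G] in
theorem symm : H G n m :=
  ⟨h.hn, h.hm, h.cop.symm, fun x => by rw [mul_comm n m]; have := h.idx x; tauto⟩

omit [Finite G] in
theorem dvd (x : G) : 𝐂[x].index ∣ m * n := by
  rcases h.idx x with e | e | e | e <;> rw [e]
  · exact one_dvd _
  · exact dvd_mul_right _ _
  · exact dvd_mul_left _ _

omit [Finite G] in
theorem not_dvd : ¬ m ∣ n := fun e => h.hm.ne' (h.cop.eq_one_of_dvd e)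

omit [Finite G] in
theorem rel_m {x w : G} (hx : 𝐂[x].index = m) (hc : Commute x w)
    (hco : (orderOf x).Coprime (orderOf w)) : 𝐂[w].relIndex 𝐂[x] = 1 ∨ 𝐂[w].relIndex 𝐂[x] = n := by
  have e := index_cen_mul_of_coprime hc hco
  rw [hx] at e
  have hm := h.hm
  rcases h.idx (x * w) with f | f | f | f <;> rw [f] at e
  · exact absurd (Nat.dvd_one.1 (e ▸ dvd_mul_left m _)) hm.ne'
  · left
    exact Nat.eq_of_mul_eq_mul_right (by omega : 0 < m) (by rw [← e, one_mul])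
  · exact absurd (e ▸ dvd_mul_left m _) h.not_dvd
  · right
    exact Nat.eq_of_mul_eq_mul_right (by omega : 0 < m) (by rw [← e, mul_comm])

theorem le_max {x w : G} (hx : 𝐂[x].index = m * n) (hc : Commute x w)
    (hco : (orderOf x).Coprime (orderOf w)) : 𝐂[x] ≤ 𝐂[w] :=
  cen_le_cen_of_index_mul_le hc hco (by
    rw [hx]; exact Nat.le_of_dvd (Nat.mul_pos (by have := h.hm; omega) (by have := h.hn; omega)) (h.dvd _))

theorem exists_prim {x : G} (hx : 𝐂[x].index = m) :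
    ∃ s k : ℕ, s.Prime ∧ ∃ a : G, a ^ s ^ k = 1 ∧ 𝐂[a].index = m := by
  have hxZ : x ∉ center G := fun e => h.hm.ne' (hx ▸ index_cen_eq_one_iff.2 e)
  obtain ⟨w, hw, s, k, hs, hk, hwZ⟩ :
      ∃ w ∈ zpowers x, ∃ s k : ℕ, s.Prime ∧ w ^ s ^ k = 1 ∧ w ∉ center G := by
    by_contra hcon
    push Not at hcon
    exact hxZ (mem_of_forall_primePow_mem fun z hz q j hq hz' => hcon z hz q j hq hz')
  refine ⟨s, k, hs, w, hk, ?_⟩
  have hd := index_cen_dvd_of_mem_zpowers hw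
  rw [hx] at hd
  rcases h.idx w with f | f | f | f
  · exact absurd (index_cen_eq_one_iff.1 f) hwZ
  · exact f
  · exact absurd (f ▸ hd) h.symm.not_dvd
  · exact absurd (dvd_of_mul_left_dvd (f ▸ hd)) h.symm.not_dvd

/-- the regular elements of `C(a)`. -/
theorem reg {s i : ℕ} (hs : s.Prime) {a : G} (ha : a ^ s ^ i = 1) (hi : 𝐂[a].index = m)
    (x : 𝐂[a]) (hx : (orderOf x).Coprime s) : 𝐂[x].index = 1 ∨ 𝐂[x].index = n := by
  rw [index_cen_subgroup]
  refine h.rel_m hi (mem_cen'.1 x.2) ?_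
  rw [← Subgroup.orderOf_coe] at hx
  exact ((hx.pow_right i).coprime_dvd_right (orderOf_dvd_of_pow_eq_one ha)).symm

theorem two {s t i j : ℕ} (hs : s.Prime) (ht : t.Prime) (hst : s ≠ t) {a b : G}
    (ha : a ^ s ^ i = 1) (hb : b ^ t ^ j = 1) (hia : 𝐂[a].index = m) (hib : 𝐂[b].index = n)
    (hc : Commute a b) {r : ℕ} (hr : r.Prime) (hrn : r ∣ n) : r = s ∨ r = t := by
  haveI := Fact.mk hs
  haveI := Fact.mk ht
  have hbC : b ∈ 𝐂[a] := mem_cen'.2 hc
  have hb1 : 𝐂[(⟨b, hbC⟩ : 𝐂[a])].index = n := by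
    rw [index_cen_mk, relIndex_eq_index_of_coprime_index _ _ (by rw [hia, hib]; exact h.cop), hib]
  have hb2 : (⟨b, hbC⟩ : 𝐂[a]) ^ t ^ j = 1 := Subtype.ext hb
  have hbZ : (⟨b, hbC⟩ : 𝐂[a]) ∉ center 𝐂[a] := fun e =>
    h.hn.ne' (hb1 ▸ index_cen_eq_one_iff.2 e)
  rcases reg_two (G := 𝐂[a]) (p := s) (m := n) (fun x hx hxZ =>
    (h.reg hs ha hia x hx).resolve_left fun e => hxZ (index_cen_eq_one_iff.1 e)) with h1 | h1
  · obtain ⟨k, hk⟩ := h1 _ (cop_of_pow ht hs hst.symm hb2)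
    rw [hb1] at hk
    left
    exact (Nat.prime_dvd_prime_iff_eq hr hs).1 (hr.dvd_of_dvd_pow (hk ▸ hrn))
  · obtain ⟨q, -, -, hq⟩ := h1
    have h2 := dvd_relIndex_of_pElement (mem_top _) hbZ hb2
    rw [relIndex_top_right] at h2
    have h3 := hq t ht h2
    have h4 := hq r hr (hrn.trans (hb1 ▸ index_cen_dvd_index_center _))
    rcases h3 with e | e
    · exact absurd e.symm hst
    · rw [e]; exact h4

/-- In `C(a)`, `s`-elements commute with `s'`-elements. -/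
theorem X {s i : ℕ} (hs : s.Prime) {a : G} (ha : a ^ s ^ i = 1) (hi : 𝐂[a].index = m)
    (hsn : ¬ s ∣ n) {u v : G} (hu : u ∈ 𝐂[a]) (hv : v ∈ 𝐂[a]) {k : ℕ} (huk : u ^ s ^ k = 1)
    (hvo : (orderOf v).Coprime s) : Commute u v := by
  haveI := Fact.mk hs
  have hreg : ∀ x : 𝐂[a], (orderOf x).Coprime s → ¬ s ∣ 𝐂[x].index := by
    intro x hx
    rcases h.reg hs ha hi x hx with e | e <;> rw [e]
    · exact hs.not_dvd_one
    · exact hsn
  have hu' : (⟨u, hu⟩ : 𝐂[a]) ^ s ^ k = 1 := Subtype.ext huk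
  obtain ⟨P, hP⟩ := CL.FGS.exists_sylow_mem_of_pow_eq_one hu'
  haveI := sylow_normal_of_regular hreg P
  have := le_cen_of_normal_isPGroup (hreg ⟨v, hv⟩ (by rwa [← Subgroup.orderOf_coe])) P.isPGroup' hP
  exact congrArg Subtype.val (mem_cen.1 this).eq

theorem case1 {p t i j : ℕ} (hp : p.Prime) (ht : t.Prime) {a b : G}
    (ha : a ^ p ^ i = 1) (hb : b ^ t ^ j = 1) (hia : 𝐂[a].index = m) (hib : 𝐂[b].index = n)
    (hpn : ¬ p ∣ n) : ∃ β, n = t ^ β := by
  have hcop : 𝐂[a].index.Coprime 𝐂[b].index := by rw [hia, hib]; exact h.cop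
  have hc : Commute a b := by
    obtain ⟨g, hg⟩ := comm_conj hp (hib ▸ hpn) ha
    have := comm_all (y := g * b * g⁻¹) (by rwa [index_cen_conj]) hg.symm g⁻¹
    simpa [mul_assoc] using this
  have hrel : 𝐂[b].relIndex 𝐂[a] = n := by rw [relIndex_eq_index_of_coprime_index _ _ hcop, hib]
  have hpt : p ≠ t := by
    rintro rfl
    obtain ⟨r, hr, hrn⟩ := Nat.exists_prime_and_dvd h.hn.ne'
    haveI := Fact.mk hr
    obtain ⟨g, hg, hg', k, hk⟩ := exists_pElement_not_mem_of_dvd_relIndex (hrel ▸ hrn)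
    exact hg' (mem_cen'.2 (h.X hp ha hia hpn (mem_cen'.2 hc) hg hb
      (cop_of_pow hr hp (fun e => hpn (e ▸ hrn)) hk)))
  exact ⟨_, Nat.eq_prime_pow_of_unique_prime_dvd (by have := h.hn; omega) fun hr hrn =>
    (h.two hp ht hpt ha hb hia hib hc hr hrn).resolve_left fun e => hpn (e ▸ hrn)⟩

theorem central {r : ℕ} (hr : r.Prime) (hm : ¬ r ∣ m) (hn : ¬ r ∣ n) {x : G} {k : ℕ}
    (hx : x ^ r ^ k = 1) : x ∈ center G := by
  haveI := Fact.mk hr
  obtain ⟨P, hP⟩ := CL.FGS.exists_sylow_mem_of_pow_eq_one hx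
  refine sylow_le_center_of_forall_not_dvd (fun y hy => ?_) P hP
  rcases (Nat.Prime.dvd_mul hr).1 (hy.trans (h.dvd y)) with e | e
  · exact hm e
  · exact hn e

theorem N1 {p q α β j : ℕ} [hp : Fact p.Prime] [hq : Fact q.Prime] (hm : m = p ^ α) (hn : n = q ^ β)
    {b : G} (hb : b ^ q ^ j = 1) (hib : 𝐂[b].index = n) (P : Sylow p G) :
    (P : Subgroup G).Normal := by
  have hpm : p ∣ m := by
    rw [hm]; refine dvd_pow_self p ?_
    rintro rfl
    exact h.hm.ne' (by simpa using hm)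
  have hqn : q ∣ n := by
    rw [hn]; refine dvd_pow_self q ?_
    rintro rfl
    exact h.hn.ne' (by simpa using hn)
  have hpn : ¬ p ∣ n := fun e => hp.out.ne_one (Nat.eq_one_of_dvd_coprimes h.cop hpm e)
  have hqm : ¬ q ∣ m := fun e => hq.out.ne_one (Nat.eq_one_of_dvd_coprimes h.cop e hqn)
  have hpq : p ≠ q := fun e => hpn (e ▸ hqn)
  set U := pCore q G
  have hbU : b ∈ U := mem_pCore_of_index_eq_pow hb (hib.trans hn)
  set D := centralizer (U : Set G)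
  have hDb : D ≤ 𝐂[b] := fun g hg => mem_cen'.2 (mem_centralizer_iff.1 hg b hbU)
  obtain ⟨P₀, hP₀⟩ := exists_sylow_le_of_not_dvd_index (p := p) (H := 𝐂[b]) (hib ▸ hpn)
  have hpo : ∀ (R : Sylow p G), ∀ x ∈ (R : Subgroup G), (orderOf x).Coprime q := by
    intro R x hx
    obtain ⟨k, hk⟩ := R.isPGroup' ⟨x, hx⟩
    exact cop_of_pow hp.out hq.out hpq (congrArg Subtype.val hk)
  have hP₀D : (P₀ : Subgroup G) ≤ D := by
    intro x hx
    refine CL.MSS.pxq_lemma (isPGroup_pCore q G) (CL.FGS.isPGroup_zpowers_of_pow_eq_one hb)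
      (le_normalizer_of_normal) (hpo P₀ x hx) (le_normalizer_of_normal (mem_top x)) ?_ ?_
    · intro y hy
      have : Commute y x := by
        obtain ⟨k, rfl⟩ := mem_zpowers_iff.1 hy
        exact (mem_cen.1 (hP₀ hx)).symm.zpow_left k
      rw [commutatorElement_eq_one_iff_commute.2 this]
      exact one_mem _
    · refine mem_centralizer_iff.2 ?_
      rintro u ⟨hu, hu'⟩
      obtain ⟨k, hk⟩ := isPGroup_pCore q G ⟨u, hu⟩
      rw [cen_zpowers] at hu'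
      exact h.symm.X hq.out hb hib hqm hu' (hP₀ hx) (congrArg Subtype.val hk) (hpo P₀ x hx)
  have hPD : (P : Subgroup G) ≤ D := by
    obtain ⟨g, rfl⟩ := MulAction.exists_smul_eq G P₀ P
    intro x hx
    rw [Sylow.coe_subgroup_smul, mem_pointwise_smul_iff_inv_smul_mem] at hx
    have := Normal.conj_mem inferInstance _ (hP₀D hx) g
    simpa [mul_assoc] using this
  have hDN : D ≤ normalizer ((P : Subgroup G) : Set G) := by
    rw [← relIndex_eq_one]
    by_contra hne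
    obtain ⟨s, hs, hsd⟩ := Nat.exists_prime_and_dvd hne
    haveI := Fact.mk hs
    by_cases hsp : s = p
    · subst hsp
      exact not_dvd_index_of_sylow_le (P := P) le_normalizer
        (hsd.trans (CL.CS.relIndex_dvd_index_of_normal_right _ D))
    obtain ⟨g, hg, hg', k, hk⟩ := exists_pElement_not_mem_of_dvd_relIndex hsd
    apply hg'
    refine centralizer_le_normalizer _ (mem_centralizer_iff.2 fun x hx => ?_)
    by_cases hsq : s = q
    · subst hsq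
      exact (h.symm.X hs hb hib hqm (hDb hg) (hDb (hPD hx)) hk (hpo P x hx)).symm
    · refine (mem_center_iff.1 (h.central hs ?_ ?_ hk) x)
      · rw [hm]; exact fun e => hsp ((Nat.prime_dvd_prime_iff_eq hs hp.out).1 (hs.dvd_of_dvd_pow e))
      · rw [hn]; exact fun e => hsq ((Nat.prime_dvd_prime_iff_eq hs hq.out).1 (hs.dvd_of_dvd_pow e))
  rw [← normalizer_eq_top_iff, eq_top_iff, ← P.normalizer_sup_eq_top' hPD]
  exact sup_le le_rfl hDN

theorem rel_dvd {x g : G} (hg : 𝐂[g].index = m * n) (hx : 𝐂[x].index = n) :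
    (center G).relIndex 𝐂[x] = (center G).relIndex 𝐂[g] * m := by
  have e1 := relIndex_center_mul_index x
  have e2 := relIndex_center_mul_index g
  rw [hx] at e1
  rw [hg, ← e1, ← mul_assoc] at e2
  exact (Nat.eq_of_mul_eq_mul_right (by have := h.hn; omega) e2).symm

theorem pair_aux (h2 : ∀ t j : ℕ, t.Prime → ∀ y : G, y ^ t ^ j = 1 → 𝐂[y].index = n → t ∣ m)
    {s : ℕ} (hs : s.Prime) (hsm : ¬ s ∣ m) {r i t j : ℕ} (hr : r.Prime) (ht : t.Prime) {a b : G}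
    (ha : a ^ r ^ i = 1) (hb : b ^ t ^ j = 1) (hia : 𝐂[a].index = m) (hib : 𝐂[b].index = n)
    (hsb : s ∣ (center G).relIndex 𝐂[b]) :
    ∃ r i : ℕ, r.Prime ∧ ∃ a : G, a ^ r ^ i = 1 ∧ 𝐂[a].index = m ∧ Commute a b := by
  haveI := Fact.mk hs
  obtain ⟨y, hy, hyZ, k, hk⟩ := exists_pElement_not_mem_of_dvd_relIndex hsb
  rcases h.idx y with f | f | f | f
  · exact absurd (index_cen_eq_one_iff.1 f) hyZ
  · exact ⟨s, k, hs, y, hk, f, mem_cen.1 hy⟩
  · exact absurd (h2 s k hs y hk f) hsm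
  · have hst : s ≠ t := fun e => hsm (e ▸ h2 t j ht b hb hib)
    have h1 := h.le_max f (mem_cen.1 hy) (cop_of_pow_pow hs ht hst hk hb)
    obtain ⟨g, hg⟩ := comm_conj hs (hia ▸ hsm) hk
    exact ⟨r, i, hr, _, conj_pow_one ha g, by rw [index_cen_conj, hia], mem_cen.1 (h1 (mem_cen.2 hg))⟩

theorem pair (h1 : ∀ t j : ℕ, t.Prime → ∀ y : G, y ^ t ^ j = 1 → 𝐂[y].index = m → t ∣ n)
    (h2 : ∀ t j : ℕ, t.Prime → ∀ y : G, y ^ t ^ j = 1 → 𝐂[y].index = n → t ∣ m)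
    {g : G} (hg : 𝐂[g].index = m * n) {r i t j : ℕ} (hr : r.Prime) (ht : t.Prime) {a b : G}
    (ha : a ^ r ^ i = 1) (hb : b ^ t ^ j = 1) (hia : 𝐂[a].index = m) (hib : 𝐂[b].index = n) :
    ∃ r i t j : ℕ, r.Prime ∧ t.Prime ∧ ∃ a b : G, a ^ r ^ i = 1 ∧ b ^ t ^ j = 1 ∧
      𝐂[a].index = m ∧ 𝐂[b].index = n ∧ Commute a b := by
  have hgZ : g ∉ center G := fun e => by
    have := index_cen_eq_one_iff.2 e
    rw [hg] at this
    exact h.hm.ne' (Nat.eq_one_of_mul_eq_one_right this)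
  have hne : (center G).relIndex 𝐂[g] ≠ 1 := fun e => hgZ (relIndex_eq_one.1 e (self_mem_cen g))
  obtain ⟨s, hs, hsd⟩ := Nat.exists_prime_and_dvd hne
  by_cases hsm : s ∣ m
  · have hsn : ¬ s ∣ n := fun e => hs.ne_one (Nat.eq_one_of_dvd_coprimes h.cop hsm e)
    obtain ⟨t', j', ht', b', h3, h4, h5⟩ := h.symm.pair_aux h1 hs hsn ht hr hb ha hib hia
      (by rw [h.symm.rel_dvd (by rw [hg, mul_comm]) hia]; exact hsd.mul_right _)
    exact ⟨r, i, t', j', hr, ht', a, b', ha, h3, hia, h4, h5.symm⟩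
  · obtain ⟨r', i', hr', a', h3, h4, h5⟩ := h.pair_aux h2 hs hsm hr ht ha hb hia hib
      (by rw [h.rel_dvd hg hib]; exact hsd.mul_right _)
    exact ⟨r', i', t, j, hr', ht, a', b, h3, hb, h4, hib, h5⟩

end H

end CL.CS4
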