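import Cfsg.Agent.FGS.CS4A

/-!
Groups with class sizes `1, m, n, mn`: the "crossed" case is impossible.
-/

set_option autoImplicit false
set_option linter.style.haveILetI false
set_option linter.unusedSectionVars false
set_option linter.unusedVariables false

namespace CL.CS4

open Subgroup Cfsg CL.CS
open scoped Pointwise

variable {G : Type*} [Group G] [Finite G]

/-- the crossed case: `m = p^α`, `n = q^β`, no `p`-element has class size `m`, no `q`-element has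
class size `n`, and a `q`-element of class size `m` commutes with a `p`-element of size `n`. -/
structure K (G : Type*) [Group G] (p q m n : ℕ) : Prop where
  h : H G m n
  hp : p.Prime
  hq : q.Prime
  hm : ∃ α, m = p ^ α
  hn : ∃ β, n = q ^ β
  hA : ∀ (x : G) (k : ℕ), x ^ p ^ k = 1 → 𝐂[x].index ≠ m
  hB : ∀ (x : G) (k : ℕ), x ^ q ^ k = 1 → 𝐂[x].index ≠ n
  ex : ∃ (a b : G) (i j : ℕ), a ^ q ^ i = 1 ∧ b ^ p ^ j = 1 ∧ 𝐂[a].index = m ∧ 𝐂[b].index = n ∧
    Commute a b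

theorem pow_of_mem {p : ℕ} {R : Subgroup G} (hR : IsPGroup p R) {x : G} (hx : x ∈ R) :
    ∃ k, x ^ p ^ k = 1 := by
  obtain ⟨k, hk⟩ := hR ⟨x, hx⟩
  exact ⟨k, congrArg Subtype.val hk⟩

theorem mem_pCore_of_center {p k : ℕ} {x : G} (hx : x ^ p ^ k = 1) (hZ : x ∈ center G) :
    x ∈ pCore p G := by
  haveI : (zpowers x).Normal := normal_of_le_center' (zpowers_le.2 hZ)
  exact le_pCore (CL.FGS.isPGroup_zpowers_of_pow_eq_one hx) (mem_zpowers x)

namespace K

variable {p q m n : ℕ} (k : K G p q m n)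
include k

theorem symm : K G q p n m :=
  ⟨k.h.symm, k.hq, k.hp, k.hn, k.hm, k.hB, k.hA, by
    obtain ⟨a, b, i, j, h1, h2, h3, h4, h5⟩ := k.ex
    exact ⟨b, a, j, i, h2, h1, h4, h3, h5.symm⟩⟩

theorem pm : p ∣ m := by
  obtain ⟨α, hm⟩ := k.hm
  rw [hm]; refine dvd_pow_self p ?_
  rintro rfl
  exact k.h.hm.ne' (by simpa using hm)

theorem pn : ¬ p ∣ n := fun e => k.hp.ne_one (Nat.eq_one_of_dvd_coprimes k.h.cop k.pm e)

theorem pq : p ≠ q := fun e => k.pn (e ▸ k.symm.pm)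

theorem eq_p {r : ℕ} (hr : r.Prime) (h : r ∣ m) : r = p := by
  obtain ⟨α, hm⟩ := k.hm
  exact (Nat.prime_dvd_prime_iff_eq hr k.hp).1 (hr.dvd_of_dvd_pow (hm ▸ h))

theorem idxp {x : G} {i : ℕ} (hx : x ^ p ^ i = 1) (hZ : x ∉ center G) :
    𝐂[x].index = n ∨ 𝐂[x].index = m * n := by
  rcases k.h.idx x with e | e | e | e
  · exact absurd (index_cen_eq_one_iff.1 e) hZ
  · exact absurd e (k.hA x i hx)
  · exact Or.inl e
  · exact Or.inr e

theorem idxq {x : G} {i : ℕ} (hx : x ^ q ^ i = 1) (hZ : x ∉ center G) :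
    𝐂[x].index = m ∨ 𝐂[x].index = m * n := by
  rw [mul_comm]; exact k.symm.idxp hx hZ

theorem solv : Group.IsSolvable G := by
  haveI : Group.IsSolvable (G ⧸ center G) := by
    refine CL.Char.isSolvable_of_primes_subset_pair k.hp k.hq fun r hr hd => ?_
    haveI := Fact.mk hr
    obtain ⟨x, hx⟩ := exists_dvd_index_cen_of_dvd_index_center (G := G) (p := r) hd
    exact ((Nat.Prime.dvd_mul hr).1 (hx.trans (k.h.dvd x))).imp (k.eq_p hr) (k.symm.eq_p hr)
  haveI : Group.IsSolvable (center G) :=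
    Group.isSolvable_of_comm fun a b => Subtype.ext (mem_center_iff.1 b.2 a)
  exact Group.isSolvable_of_ker_le_range (center G).subtype (QuotientGroup.mk' (center G)) (by simp)

theorem S {x : G} {i : ℕ} (hx : x ^ p ^ i = 1) (hV : pCore p G ≤ 𝐂[x]) (hU : pCore q G ≤ 𝐂[x]) :
    x ∈ pCore p G := by
  haveI := k.solv
  haveI := Fact.mk k.hp
  have hF : fittingSubgroup G ≤ 𝐂[x] := by
    rw [fittingSubgroup_eq_iSup_pCore]
    refine iSup_le fun r => ?_
    by_cases h1 : (r : ℕ) = p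
    · rw [h1]; exact hV
    by_cases h2 : (r : ℕ) = q
    · rw [h2]; exact hU
    intro y hy
    obtain ⟨j, hj⟩ := pow_of_mem (isPGroup_pCore r G) hy
    exact center_le_cen x (k.h.central r.2 (fun e => h1 (k.eq_p r.2 e))
      (fun e => h2 (k.symm.eq_p r.2 e)) hj)
  have hxF := centralizer_fittingSubgroup_le G (le_cen_iff.1 hF)
  exact le_pCore_of_le_fittingSubgroup (zpowers_le.2 hxF)
    (CL.FGS.isPGroup_zpowers_of_pow_eq_one hx) (mem_zpowers x)

theorem UV {v : G} (hv : v ∈ pCore p G) : pCore q G ≤ 𝐂[v] := by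
  haveI := Fact.mk k.hp
  haveI := Fact.mk k.hq
  intro u hu
  have := pPrimeCore_le_centralizer_pCore (p := p) (pCore_le_pPrimeCore_of_ne k.pq.symm hu)
  exact mem_cen'.2 (mem_centralizer_iff.1 this v hv)

theorem Ab {a : G} {i : ℕ} (ha : a ^ q ^ i = 1) (hi : 𝐂[a].index = m) {R : Subgroup G}
    (hR : IsPGroup p R) (hRa : R ≤ 𝐂[a]) {u v : G} (hu : u ∈ R) (hv : v ∈ R) : Commute u v := by
  haveI := Fact.mk k.hp
  obtain ⟨A, hA, -, j, hj⟩ := (regular_pow_iff_abelian_complement (G := 𝐂[a]) k.hq).1 (by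
    intro x hx
    obtain ⟨β, hβ⟩ := k.hn
    rcases k.h.reg k.hq ha hi x hx with e | e
    · exact ⟨0, by simpa using e⟩
    · exact ⟨β, e.trans hβ⟩)
  obtain ⟨T, hT⟩ := exists_sylow_le_of_not_dvd_index (p := p) (H := A) (by
    rw [hj]; exact fun e => k.pq ((Nat.prime_dvd_prime_iff_eq k.hp k.hq).1 (k.hp.dvd_of_dvd_pow e)))
  have hTc : IsMulCommutative (T : Subgroup 𝐂[a]) := ⟨⟨fun x y => Subtype.ext (by
    have := hA.is_comm.comm (⟨x, hT x.2⟩ : A) ⟨y, hT y.2⟩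
    exact congrArg (fun z : A => (z : 𝐂[a])) this)⟩⟩
  have hc := CL.FGS.isMulCommutative_of_isPGroup_of_sylow T hTc (Q := R.subgroupOf 𝐂[a])
    (hR.comap_subtype)
  have := hc.is_comm.comm ⟨⟨u, hRa hu⟩, hu⟩ ⟨⟨v, hRa hv⟩, hv⟩
  exact congrArg (fun z => ((z : R.subgroupOf 𝐂[a]) : 𝐂[a]).val) this

theorem cenV {b : G} (hb : 𝐂[b].index = n) : pCore p G ≤ 𝐂[b] := by
  haveI := Fact.mk k.hp
  exact le_cen_of_normal_isPGroup (hb ▸ k.pn) (isPGroup_pCore p G)

theorem exq {x : G} {i : ℕ} (hx : x ^ p ^ i = 1) (hZ : x ∉ center G) :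
    ∃ y ∈ 𝐂[x], y ∉ center G ∧ ∃ j, y ^ q ^ j = 1 := by
  haveI := Fact.mk k.hq
  obtain ⟨a, b, i', j, h1, h2, h3, h4, h5⟩ := k.ex
  have haZ : a ∉ center G := fun e => k.h.hm.ne' (h3 ▸ index_cen_eq_one_iff.2 e)
  have h6 := dvd_relIndex_of_pElement (mem_cen.2 h5) haZ h1
  refine exists_pElement_not_mem_of_dvd_relIndex ?_
  rcases k.idxp hx hZ with e | e
  · have e1 := relIndex_center_mul_index x
    have e2 := relIndex_center_mul_index b
    rw [e] at e1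
    rw [h4, ← e1] at e2
    rwa [Nat.eq_of_mul_eq_mul_right (by have := k.h.hn; omega) e2] at h6
  · rw [k.h.rel_dvd e h4] at h6
    exact ((Nat.Prime.dvd_mul k.hq).1 h6).resolve_right k.symm.pn

theorem copV {x : G} {i : ℕ} (hx : x ^ q ^ i = 1) : (Nat.card (pCore p G)).Coprime (orderOf x) := by
  haveI := Fact.mk k.hp
  obtain ⟨j, hj⟩ := (isPGroup_pCore p G).exists_card_eq
  rw [hj]
  exact ((cop_of_pow k.hq k.hp k.pq.symm hx).symm).pow_left _

theorem relQ {B L : Subgroup G} (Q : Sylow q G) (hQ : (Q : Subgroup G) ≤ L)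
    (hB : B.relIndex L = n) : B.relIndex Q = n := by
  haveI := Fact.mk k.hq
  rw [rel_cop hQ, hB]
  obtain ⟨β, hβ⟩ := k.hn
  rw [hB, hβ]
  refine Nat.Coprime.pow_right _ ((Nat.Prime.coprime_iff_not_dvd k.hq).2 fun e => ?_).symm
  exact Q.not_dvd_index (e.trans (relIndex_dvd_index_of_le hQ))

theorem T1 : ¬ pCore q G ≤ center G := by
  intro hUZ
  haveI := Fact.mk k.hp
  haveI := Fact.mk k.hq
  set V := pCore p G
  have hS : ∀ {y : G} {j : ℕ}, y ^ q ^ j = 1 → V ≤ 𝐂[y] → y ∈ center G := fun hy hV =>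
    hUZ (k.symm.S hy (hUZ.trans (center_le_cen _)) hV)
  have h1 : ∀ v ∈ V, v ∉ center G → 𝐂[v].index = n := by
    intro v hv hvZ
    obtain ⟨i, hi⟩ := pow_of_mem (isPGroup_pCore p G) hv
    refine (k.idxp hi hvZ).resolve_right fun e => ?_
    obtain ⟨y, hy, hyZ, j, hj⟩ := k.exq hi hvZ
    have hle := k.h.le_max e (mem_cen'.1 hy) (cop_of_pow_pow k.hp k.hq k.pq hi hj)
    refine hyZ (hS hj (le_cen_iff.2 ?_))
    refine CL.MSS.pxq_lemma (isPGroup_pCore p G) (CL.FGS.isPGroup_zpowers_of_pow_eq_one hi)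
      (le_normalizer_of_normal) (cop_of_pow k.hq k.hp k.pq.symm hj)
      (le_normalizer_of_normal (mem_top y)) ?_ ?_
    · intro z hz
      have : Commute z y := by
        obtain ⟨l, rfl⟩ := mem_zpowers_iff.1 hz
        exact (mem_cen'.1 hy).zpow_left l
      rw [commutatorElement_eq_one_iff_commute.2 this]
      exact one_mem _
    · refine mem_centralizer_iff.2 ?_
      rintro u ⟨hu, hu'⟩
      rw [cen_zpowers] at hu'
      exact mem_cen.1 (hle hu')
  have h2 : ∀ u ∈ V, ∀ v ∈ V, Commute u v := by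
    intro u hu v hv
    by_cases hvZ : v ∈ center G
    · exact mem_center_iff.1 hvZ u
    · exact mem_cen.1 (k.cenV (h1 v hv hvZ) hu)
  obtain ⟨a, b, i', j', a1, -, a3, -, -⟩ := k.ex
  have hZm : ∀ {a : G}, 𝐂[a].index = m → a ∉ center G := fun h3 e =>
    k.h.hm.ne' (h3 ▸ index_cen_eq_one_iff.2 e)
  obtain ⟨v, hv, hvZ⟩ : ∃ v ∈ V, v ∉ center G := by
    by_contra hc
    push Not at hc
    exact hZm a3 (hS a1 fun v hv => center_le_cen _ (hc v hv))
  obtain ⟨i, hi⟩ := pow_of_mem (isPGroup_pCore p G) hv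
  obtain ⟨c, l, c1, c2, c3⟩ : ∃ (c : G) (l : ℕ), c ^ q ^ l = 1 ∧ 𝐂[c].index = m ∧ Commute v c := by
    obtain ⟨y, hy, hyZ, j, hj⟩ := k.exq hi hvZ
    rcases k.idxq hj hyZ with e | e
    · exact ⟨y, j, hj, e, mem_cen'.1 hy⟩
    · have hle := k.h.le_max e (mem_cen.1 hy) (cop_of_pow_pow k.hq k.hp k.pq.symm hj hi)
      obtain ⟨g, hg⟩ := comm_conj k.hq (a3 ▸ k.symm.pn) hj
      exact ⟨_, i', conj_pow_one a1 g, by rw [index_cen_conj, a3], mem_cen'.1 (hle (mem_cen.2 hg))⟩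
  obtain ⟨Q, hQ1, hQ2⟩ := exists_sylow_le_of_not_dvd_index' (p := q) (H := 𝐂[c]) (c2 ▸ k.symm.pn)
    (CL.FGS.isPGroup_zpowers_of_pow_eq_one c1) (zpowers_le_cen c)
  exact hZm c2 (hS c1 (dec h2 (hQ1 (mem_zpowers c)) hQ2 (k.copV c1) (m := n)
    (fun u hu huZ => k.relQ Q le_top (by rw [relIndex_top_right]; exact h1 u hu huZ)) hv hvZ c3))

theorem T2 : ∃ a ∈ pCore q G, 𝐂[a].index = m := by
  haveI := Fact.mk k.hq
  obtain ⟨u, hu, huZ⟩ : ∃ u ∈ pCore q G, u ∉ center G := by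
    by_contra hc
    push Not at hc
    exact k.T1 hc
  obtain ⟨i, hi⟩ := pow_of_mem (isPGroup_pCore q G) hu
  rcases k.idxq hi huZ with e | e
  · exact ⟨u, hu, e⟩
  obtain ⟨a, b, i', j', a1, -, a3, -, -⟩ := k.ex
  refine ⟨a, ?_, a3⟩
  obtain ⟨R⟩ : Nonempty (Sylow q 𝐂[u]) := inferInstance
  have hR : (R : Subgroup 𝐂[u]).Normal := sylow_normal_of_regular (fun x hx => by
    rw [index_cen_subgroup, relIndex_eq_one.2 (k.h.le_max e (mem_cen'.1 x.2) (by
      rw [← Subgroup.orderOf_coe] at hx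
      exact ((hx.pow_right i).coprime_dvd_right (orderOf_dvd_of_pow_eq_one hi)).symm))]
    exact k.hq.not_dvd_one) R
  have hle : normalClosure ({a} : Set G) ≤ (R : Subgroup 𝐂[u]).map (𝐂[u]).subtype := by
    refine (closure_le _).2 fun y hy => ?_
    obtain ⟨x, hx, hy⟩ := Group.mem_conjugatesOfSet_iff.1 hy
    rw [Set.mem_singleton_iff.1 hx] at hy
    obtain ⟨g, rfl⟩ := isConj_iff.1 hy
    have h1 : g * a * g⁻¹ ∈ 𝐂[u] :=
      mem_cen_comm.1 (k.symm.cenV (by rw [index_cen_conj, a3]) hu)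
    exact ⟨⟨_, h1⟩, CL.FGS.mem_sylow_of_normal_of_pow_eq_one R hR (k := i')
      (Subtype.ext (conj_pow_one a1 g)), rfl⟩
  exact le_pCore ((R.isPGroup'.map _).to_le hle) (subset_normalClosure rfl)

theorem abU {u v : G} (hu : u ∈ pCore q G) (hv : v ∈ pCore q G) : Commute u v := by
  obtain ⟨b, hb, hi⟩ := k.symm.T2
  obtain ⟨i, hi'⟩ := pow_of_mem (isPGroup_pCore p G) hb
  exact k.symm.Ab hi' hi (isPGroup_pCore q G) (k.UV hb) hu hv

theorem E (P : Sylow p G) {u : G} (hu : u ∈ pCore q G) (huZ : u ∉ center G) :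
    𝐂[u].relIndex P = m := by
  haveI := Fact.mk k.hp
  obtain ⟨b, hb, hi⟩ := k.symm.T2
  obtain ⟨g, hg⟩ := exists_conj_mem_centralizer_sylow (hi ▸ k.pn) P
  have hb' : g * b * g⁻¹ ∈ pCore p G := Normal.conj_mem inferInstance b hb g
  have hi' : 𝐂[g * b * g⁻¹].index = n := by rw [index_cen_conj, hi]
  obtain ⟨i, h1⟩ := pow_of_mem (isPGroup_pCore p G) hb'
  obtain ⟨j, h2⟩ := pow_of_mem (isPGroup_pCore q G) hu
  refine k.symm.relQ P (le_cen_iff.2 hg) ?_
  refine (k.h.symm.rel_m hi' (mem_cen'.1 (k.UV hb' hu))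
    (cop_of_pow_pow k.hp k.hq k.pq h1 h2)).resolve_left fun e => ?_
  have h3 := index_dvd_of_le (relIndex_eq_one.1 e)
  rw [hi'] at h3
  rcases k.idxq h2 huZ with f | f <;> rw [f] at h3
  · exact k.h.not_dvd h3
  · exact k.h.not_dvd (dvd_of_mul_right_dvd h3)

theorem claim {x u : G} {i : ℕ} (hx : x ^ p ^ i = 1) (hu : u ∈ pCore q G) (huZ : u ∉ center G)
    (hc : Commute u x) : x ∈ pCore p G := by
  haveI := Fact.mk k.hp
  haveI := Fact.mk k.hq
  by_cases hxZ : x ∈ center G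
  · exact mem_pCore_of_center hx hxZ
  obtain ⟨j, h2⟩ := pow_of_mem (isPGroup_pCore q G) hu
  have hVu : pCore p G ≤ 𝐂[u] := k.symm.UV hu
  have hV : pCore p G ≤ 𝐂[x] := by
    rcases k.idxq h2 huZ with f | f
    · intro v hv
      exact mem_cen.2 (k.Ab h2 f (R := pCore p G ⊔ zpowers x)
        ((isPGroup_pCore p G).to_sup_of_normal_left (CL.FGS.isPGroup_zpowers_of_pow_eq_one hx))
        (sup_le hVu (zpowers_le.2 (mem_cen'.2 hc))) (mem_sup_left hv)
        (mem_sup_right (mem_zpowers x)))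
    · exact hVu.trans (k.h.le_max f hc (cop_of_pow_pow k.hq k.hp k.pq.symm h2 hx))
  refine k.S hx hV ?_
  rcases k.idxp hx hxZ with f | f
  · obtain ⟨P, hP1, hP2⟩ := exists_sylow_le_of_not_dvd_index' (p := p) (H := 𝐂[x]) (f ▸ k.pn)
      (CL.FGS.isPGroup_zpowers_of_pow_eq_one hx) (zpowers_le_cen x)
    exact dec (fun u hu v hv => k.abU hu hv) (hP1 (mem_zpowers x)) hP2 (k.symm.copV hx) (m := m)
      (fun u hu huZ => k.E P hu huZ) hu huZ hc
  · obtain ⟨b, hb, hi⟩ := k.symm.T2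
    have h3 : ¬ q ∣ 𝐂[b].relIndex 𝐂[x] := by
      intro e
      obtain ⟨y, hy, hy', l, hl⟩ := exists_pElement_not_mem_of_dvd_relIndex e
      exact hy' (mem_cen_comm.1 (k.h.le_max f (mem_cen'.1 hy)
        (cop_of_pow_pow k.hp k.hq k.pq hx hl) (hV hb)))
    have h4 : 𝐂[x].relIndex 𝐂[b] = 𝐂[b].relIndex 𝐂[x] * m := by
      have e1 := relIndex_mul_index (inf_le_right : 𝐂[x] ⊓ 𝐂[b] ≤ 𝐂[b])
      have e2 := relIndex_mul_index (inf_le_left : 𝐂[x] ⊓ 𝐂[b] ≤ 𝐂[x])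
      rw [inf_relIndex_right, hi] at e1
      rw [inf_relIndex_left, f, ← e1, ← mul_assoc] at e2
      exact (Nat.eq_of_mul_eq_mul_right (by have := k.h.hn; omega) e2).symm
    have h5 := relIndex_dvd_relIndex_of_le_normalizer 𝐂[x] (k.UV hb) le_normalizer_of_normal
    rw [← relIndex_eq_one]
    obtain ⟨l, hl⟩ := (isPGroup_pCore q G).exists_card_eq
    have h6 : 𝐂[x].relIndex (pCore q G) ∣ q ^ l := hl ▸ relIndex_dvd_card _ _
    refine Nat.eq_one_of_dvd_coprimes (Nat.Coprime.pow_left l ?_) h6 h5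
    rw [Nat.Prime.coprime_iff_not_dvd k.hq, h4, Nat.Prime.dvd_mul k.hq]
    exact fun e => e.elim h3 k.symm.pn

theorem lt : m < n := by
  haveI := Fact.mk k.hp
  haveI := Fact.mk k.hq
  set U := pCore q G
  obtain ⟨a, ha, hi⟩ := k.T2
  have haZ : a ∉ center G := fun e => k.h.hm.ne' (hi ▸ index_cen_eq_one_iff.2 e)
  obtain ⟨P⟩ : Nonempty (Sylow p G) := inferInstance
  obtain ⟨x, hxP, hxV⟩ : ∃ x ∈ (P : Subgroup G), x ∉ pCore p G := by
    by_contra hc
    push Not at hc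
    exact not_dvd_index_of_sylow_le (P := P) (H := 𝐂[a]) (fun y hy => k.symm.UV ha (hc y hy))
      (hi ▸ k.pm)
  obtain ⟨i, hx⟩ := pow_of_mem P.isPGroup' hxP
  have h1 : 𝐂[x].relIndex U = (center G).relIndex U := by
    rw [← inf_relIndex_right 𝐂[x], ← inf_relIndex_right (center G)]
    congr 1
    refine le_antisymm ?_ (inf_le_inf_right _ (center_le_cen x))
    rintro u ⟨h1, h2⟩
    refine ⟨?_, h2⟩
    by_contra hZ
    exact hxV (k.claim hx h2 hZ (mem_cen.1 h1))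
  set r := (center G).relIndex U with hr
  obtain ⟨l, hl⟩ := (isPGroup_pCore q G).exists_card_eq
  have hcop : m.Coprime (Nat.card U) := by
    rw [hl]
    exact Nat.Coprime.pow_right _ ((Nat.Prime.coprime_iff_not_dvd k.hq).2 k.symm.pn).symm
  have h2 : r ∣ n := by
    have e1 : r ∣ m * n := h1 ▸ (CL.CS.relIndex_dvd_index_of_normal_right _ U).trans (k.h.dvd x)
    exact (hcop.symm.coprime_dvd_left (relIndex_dvd_card _ _)).dvd_of_dvd_mul_left e1
  have h3 : r ≠ 1 := fun e => haZ (relIndex_eq_one.1 e ha)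
  have h4 : m ∣ ((U : Set G) \ ((center G ⊓ U : Subgroup G) : Set G)).ncard := by
    refine dvd_ncard _ ?_ ?_
    · rintro y ⟨hy, hy'⟩ g
      refine ⟨Normal.conj_mem inferInstance y hy g, fun e => hy' ?_⟩
      have := Normal.conj_mem inferInstance _ e g⁻¹
      simpa [mul_assoc] using this
    · rintro y ⟨hy, hy'⟩
      obtain ⟨j, hj⟩ := pow_of_mem (isPGroup_pCore q G) hy
      rcases k.idxq hj (fun e => hy' ⟨e, hy⟩) with f | f <;> rw [f]
      exact dvd_mul_right _ _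
  have h5 := Set.ncard_sdiff_add_ncard_of_subset
    (show ((center G ⊓ U : Subgroup G) : Set G) ⊆ U from (inf_le_right : center G ⊓ U ≤ U))
  have h6 : Nat.card (center G ⊓ U : Subgroup G) * r = Nat.card U := by
    rw [hr, ← inf_relIndex_right, relIndex, ← card_mul_index ((center G ⊓ U).subgroupOf U),
      Nat.card_congr (subgroupOfEquivOfLe inf_le_right).toEquiv]
  have h7 : (U : Set G).ncard = Nat.card U := (Nat.card_coe_set_eq _).symm
  have h8 : ((center G ⊓ U : Subgroup G) : Set G).ncard = Nat.card (center G ⊓ U : Subgroup G) :=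
    (Nat.card_coe_set_eq _).symm
  set c := Nat.card (center G ⊓ U : Subgroup G)
  have hr0 : r ≠ 0 := by
    rintro e
    rw [e, zero_dvd_iff] at h2
    have := k.h.hn
    omega
  obtain ⟨r', hr'⟩ : ∃ r', r = r' + 1 := ⟨r - 1, by omega⟩
  have h9 : ((U : Set G) \ ((center G ⊓ U : Subgroup G) : Set G)).ncard = c * r' := by
    rw [h7, h8, ← h6, hr', mul_add, mul_one] at h5
    omega
  rw [h9] at h4
  have h10 : m ∣ r' := (hcop.coprime_dvd_right (h6 ▸ dvd_mul_right c r)).dvd_of_dvd_mul_left h4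
  have h11 := Nat.le_of_dvd (by omega) h10
  have h12 := Nat.le_of_dvd (by have := k.h.hn; omega) h2
  omega

theorem false : False := by
  have := k.lt
  have := k.symm.lt
  omega

end K

theorem H.one {m n : ℕ} (h : H G m n) {p i : ℕ} (hp : p.Prime) {a : G} (ha : a ^ p ^ i = 1)
    (hia : 𝐂[a].index = m) (hpn : ¬ p ∣ n) {b₀ : G} (hb₀ : 𝐂[b₀].index = n) :
    Group.IsNilpotent G ∧ IsPrimePow m ∧ IsPrimePow n := by
  obtain ⟨q, j, hq, b, hb, hib⟩ := h.symm.exists_prim hb₀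
  obtain ⟨β, hβ⟩ := h.case1 hp hq ha hb hia hib hpn
  have hβ0 : β ≠ 0 := by
    rintro rfl
    exact h.hn.ne' (by simpa using hβ)
  have hqm : ¬ q ∣ m := fun e =>
    hq.ne_one (Nat.eq_one_of_dvd_coprimes h.cop e (hβ ▸ dvd_pow_self q hβ0))
  obtain ⟨α, hα⟩ := h.symm.case1 hq hp hb ha hib hia hqm
  have hα0 : α ≠ 0 := by
    rintro rfl
    exact h.hm.ne' (by simpa using hα)
  refine ⟨?_, hα ▸ (hp.isPrimePow.pow hα0), hβ ▸ (hq.isPrimePow.pow hβ0)⟩
  refine ((Group.isNilpotent_of_finite_tfae (G := G)).out 0 3).2 ?_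
  intro r hr R
  by_cases h1 : r = p
  · subst h1
    haveI := Fact.mk hq
    exact h.N1 hα hβ hb hib R
  by_cases h2 : r = q
  · subst h2
    haveI := Fact.mk hp
    exact h.symm.N1 hβ hα ha hia R
  refine normal_of_le_center' fun x hx => ?_
  obtain ⟨l, hl⟩ := pow_of_mem R.isPGroup' hx
  refine h.central hr.out ?_ ?_ hl
  · rw [hα]; exact fun e => h1 ((Nat.prime_dvd_prime_iff_eq hr.out hp).1 (hr.out.dvd_of_dvd_pow e))
  · rw [hβ]; exact fun e => h2 ((Nat.prime_dvd_prime_iff_eq hr.out hq).1 (hr.out.dvd_of_dvd_pow e))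

theorem H.main {m n : ℕ} (h : H G m n) {a₀ b₀ g : G} (ha₀ : 𝐂[a₀].index = m)
    (hb₀ : 𝐂[b₀].index = n) (hg : 𝐂[g].index = m * n) :
    Group.IsNilpotent G ∧ IsPrimePow m ∧ IsPrimePow n := by
  by_cases h1 : ∀ t j : ℕ, t.Prime → ∀ y : G, y ^ t ^ j = 1 → 𝐂[y].index = m → t ∣ n
  swap
  · push Not at h1
    obtain ⟨t, j, ht, y, hy, hi, htn⟩ := h1
    exact h.one ht hy hi htn hb₀
  by_cases h2 : ∀ t j : ℕ, t.Prime → ∀ y : G, y ^ t ^ j = 1 → 𝐂[y].index = n → t ∣ m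
  swap
  · push Not at h2
    obtain ⟨t, j, ht, y, hy, hi, htn⟩ := h2
    obtain ⟨c1, c2, c3⟩ := h.symm.one ht hy hi htn ha₀
    exact ⟨c1, c3, c2⟩
  exfalso
  obtain ⟨r, i, hr, a, ha, hia⟩ := h.exists_prim ha₀
  obtain ⟨t, j, ht, b, hb, hib⟩ := h.symm.exists_prim hb₀
  obtain ⟨q, i, p, j, hq, hp, a, b, ha, hb, hia, hib, hc⟩ := h.pair h1 h2 hg hr ht ha hb hia hib
  have hqn := h1 q i hq a ha hia
  have hpm := h2 p j hp b hb hib
  have hpn : ¬ p ∣ n := fun e => hp.ne_one (Nat.eq_one_of_dvd_coprimes h.cop hpm e)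
  have hqm : ¬ q ∣ m := fun e => hq.ne_one (Nat.eq_one_of_dvd_coprimes h.cop e hqn)
  have hpq : p ≠ q := fun e => hpn (e ▸ hqn)
  refine K.false (G := G) (p := p) (q := q) ⟨h, hp, hq, ?_, ?_, ?_, ?_, a, b, i, j, ha, hb, hia, hib, hc⟩
  · exact ⟨_, Nat.eq_prime_pow_of_unique_prime_dvd (by have := h.hm; omega) fun hs hsm =>
      (h.symm.two hp hq hpq hb ha hib hia hc.symm hs hsm).resolve_right fun e => hqm (e ▸ hsm)⟩
  · exact ⟨_, Nat.eq_prime_pow_of_unique_prime_dvd (by have := h.hn; omega) fun hs hsn =>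
      (h.two hq hp hpq.symm ha hb hia hib hc hs hsn).resolve_right fun e => hpn (e ▸ hsn)⟩
  · exact fun x l hx e => hpn (h1 p l hp x hx e)
  · exact fun x l hx e => hqm (h2 q l hq x hx e)

end CL.CS4
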