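import Mathlib
import Cfsg.Agent.TECH.SylIn
import Cfsg.Agent.SOLV.Subnormal
import Cfsg.Agent.SOLV.Core

/-! Casolo's count of the subnormalizer of a `p`-subgroup. -/

set_option autoImplicit false

namespace CL.Casolo

open Subgroup CL CL.MSS Cfsg Finset
open scoped Classical

section Mu
variable {α : Type*} [PartialOrder α]

/-- `m` sums to one over every upper interval of `S`. -/
def IsMu (S : Finset α) (m : α → ℤ) : Prop := ∀ R ∈ S, ∑ Q ∈ S with R ≤ Q, m Q = 1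

theorem sum_le_eq (S : Finset α) (m : α → ℤ) {R : α} (hR : R ∈ S) :
    ∑ Q ∈ S with R ≤ Q, m Q = m R + ∑ Q ∈ S with R < Q, m Q := by
  rw [← Finset.sum_insert (by simp)]
  refine Finset.sum_congr ?_ fun _ _ => rfl
  ext Q
  simp only [mem_filter, mem_insert]
  constructor
  · rintro ⟨h1, h2⟩
    rcases h2.eq_or_lt with h | h
    exacts [Or.inl h.symm, Or.inr ⟨h1, h⟩]
  · rintro (rfl | ⟨h1, h2⟩)
    exacts [⟨hR, le_rfl⟩, ⟨h1, h2.le⟩]

theorem exists_isMu (S : Finset α) : ∃ m, IsMu S m := by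
  induction S using Finset.strongInduction with
  | H S ih =>
    rcases S.eq_empty_or_nonempty with rfl | hS
    · exact ⟨0, fun _ h => by simp at h⟩
    obtain ⟨a, ha, hmin⟩ := S.exists_minimal hS
    obtain ⟨m, hm⟩ := ih (S.erase a) (Finset.erase_ssubset ha)
    refine ⟨Function.update m a (1 - ∑ Q ∈ S with a < Q, m Q), fun R hR => ?_⟩
    by_cases hRa : R = a
    · subst hRa
      rw [sum_le_eq S _ hR, Function.update_self, Finset.sum_congr (s₁ := S.filter (R < ·)) rfl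
        (fun Q hQ => Function.update_of_ne (mem_filter.1 hQ).2.ne' _ m)]
      ring
    · rw [← hm R (mem_erase.2 ⟨hRa, hR⟩)]
      have : ∀ Q ∈ S, R ≤ Q → Q ≠ a := fun Q _ h1 h2 => hRa (le_antisymm (h2 ▸ h1) (hmin hR (h2 ▸ h1)))
      refine Finset.sum_congr ?_ fun Q hQ => Function.update_of_ne (mem_erase.1 (mem_filter.1 hQ).1).1 _ _
      ext Q
      simp only [mem_filter, mem_erase]
      exact ⟨fun h => ⟨⟨this Q h.1 h.2, h.1⟩, h.2⟩, fun h => ⟨h.1.2, h.2⟩⟩

theorem IsMu.unique [Finite α] {S : Finset α} {m m' : α → ℤ} (h : IsMu S m) (h' : IsMu S m') (R : α)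
    (hR : R ∈ S) : m R = m' R := by
  induction R using WellFoundedGT.induction with
  | ind R ih =>
    have h1 := h R hR
    rw [← h' R hR, sum_le_eq S _ hR, sum_le_eq S _ hR, Finset.sum_congr rfl
      (fun Q hQ => ih Q (mem_filter.1 hQ).2 (mem_filter.1 hQ).1)] at h1
    exact add_right_cancel h1

theorem IsMu.filter_lt {S : Finset α} {m : α → ℤ} (h : IsMu S m) (R : α) :
    IsMu (S.filter (R < ·)) m := fun T hT => by
  rw [← h T (mem_filter.1 hT).1, filter_filter]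
  refine Finset.sum_congr (filter_congr fun Q _ => ?_) fun _ _ => rfl
  exact ⟨fun h => h.2, fun h => ⟨(mem_filter.1 hT).2.trans_le h, h⟩⟩

/-- Quillen's fibre lemma for a right adjoint, numerically. -/
theorem IsMu.eq_of_retract [Finite α] {S S' : Finset α} {m m' : α → ℤ} (h : IsMu S m) (h' : IsMu S' m')
    {R : α} (hR : R ∈ S) (hR' : R ∈ S') (φ : α → α) (hS : S' ⊆ S)
    (h1 : ∀ Q ∈ S, R < Q → φ Q ∈ S' ∧ R < φ Q) (h2 : ∀ T ∈ S', ∀ Q, T ≤ φ Q ↔ T ≤ Q) : m R = m' R := by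
  have h3 : IsMu (S'.filter (R < ·)) (fun T => ∑ Q ∈ S.filter (R < ·) with φ Q = T, m Q) := by
    intro T hT
    rw [mem_filter] at hT
    rw [← h T (hS hT.1), Finset.sum_fiberwise_eq_sum_filter _ _ φ, filter_filter]
    refine Finset.sum_congr (filter_congr fun Q hQ => ?_) fun _ _ => rfl
    simp only [mem_filter]
    exact ⟨fun h => (h2 T hT.1 Q).1 h.2.2, fun h => ⟨hT.2.trans_le h, h1 Q hQ (hT.2.trans_le h),
      (h2 T hT.1 Q).2 h⟩⟩
  have h4 := h R hR
  rw [← h' R hR', sum_le_eq S _ hR, sum_le_eq S' _ hR',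
    ← Finset.sum_congr rfl (h3.unique (h'.filter_lt R)), Finset.sum_fiberwise_of_maps_to (g := φ)] at h4
  · exact add_right_cancel h4
  · intro Q hQ
    rw [mem_filter] at hQ ⊢
    exact h1 Q hQ.1 hQ.2

end Mu

variable {G : Type*} [Group G] [Finite G]

theorem card_eq_image_mul {β : Type*} (T : Set G) (φ : G → β) (C : Subgroup G)
    (h : ∀ b ∈ φ '' T, ∃ t : G, (∀ y, (y ∈ T ∧ φ y = b) ↔ t⁻¹ * y ∈ C) ∨
      (∀ y, (y ∈ T ∧ φ y = b) ↔ y * t⁻¹ ∈ C)) :
    Nat.card T = Nat.card (φ '' T) * Nat.card C := by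
  have := Fintype.ofFinite G
  rw [Nat.card_coe_set_eq, Nat.card_coe_set_eq, Set.ncard_eq_toFinset_card',
    Finset.card_eq_sum_card_image φ, Set.ncard_eq_toFinset_card', Set.toFinset_image,
    Finset.sum_const_nat]
  intro b hb
  rw [← Set.toFinset_image, Set.mem_toFinset] at hb
  obtain ⟨t, ht | ht⟩ := h b hb
  · rw [← Nat.card_eq_finsetCard]
    exact Nat.card_congr ((Equiv.mulLeft t⁻¹).subtypeEquiv fun y => by simpa using ht y)
  · rw [← Nat.card_eq_finsetCard]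
    exact Nat.card_congr ((Equiv.mulRight t⁻¹).subtypeEquiv fun y => by simpa using ht y)

theorem card_conj_prop (X A : Subgroup G) (Φ : Subgroup G → Prop) :
    Nat.card {g : G // g ∈ X ∧ Φ (g •ᶜ A)} =
      Nat.card {K : Subgroup G // Φ K ∧ ∃ g ∈ X, g •ᶜ A = K} * Nat.card ↥(X ⊓ normalizer (A : Set G)) := by
  refine (card_eq_image_mul {g : G | g ∈ X ∧ Φ (g •ᶜ A)} (· •ᶜ A) (X ⊓ normalizer (A : Set G)) ?_).trans ?_
  · rintro _ ⟨t, ⟨h1, h2⟩, rfl⟩
    refine ⟨t, Or.inl fun y => ?_⟩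
    rw [Subgroup.mem_inf, mem_normalizer_iff_cj, cj_mul, cj_eq_iff (g := t⁻¹), inv_inv, mul_mem_cancel_left (inv_mem h1)]
    exact ⟨fun h => ⟨h.1.1, h.2⟩, fun h => ⟨⟨h.1, h.2 ▸ h2⟩, h.2⟩⟩
  · congr 1
    refine Nat.card_congr (Equiv.subtypeEquivRight fun K => ⟨?_, ?_⟩)
    · rintro ⟨g, ⟨h1, h2⟩, rfl⟩
      exact ⟨h2, g, h1, rfl⟩
    · rintro ⟨h2, g, h1, rfl⟩
      exact ⟨g, ⟨h1, h2⟩, rfl⟩

variable (p : ℕ)

/-- The `p`-subgroups of `X`. -/
noncomputable def PS (X : Subgroup G) : Finset (Subgroup G) :=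
  (Set.toFinite {R : Subgroup G | IsPGroup p R ∧ R ≤ X}).toFinset

/-- The `g`-invariant `p`-subgroups of `X`. -/
noncomputable def PSg (X : Subgroup G) (g : G) : Finset (Subgroup G) :=
  (PS p X).filter fun R => g ∈ normalizer (R : Set G)

noncomputable def mu (X : Subgroup G) (g : G) : Subgroup G → ℤ := (exists_isMu (PSg p X g)).choose

noncomputable def els (X : Subgroup G) : Finset G := (Set.toFinite (X : Set G)).toFinset

noncomputable def ff (X Q : Subgroup G) : ℤ := ∑ g ∈ els X with g ∈ normalizer (Q : Set G), mu p X g Q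

variable {p}

theorem mem_PS {X R : Subgroup G} : R ∈ PS p X ↔ IsPGroup p R ∧ R ≤ X := by simp [PS]

theorem mem_PSg {X R : Subgroup G} {g : G} :
    R ∈ PSg p X g ↔ (IsPGroup p R ∧ R ≤ X) ∧ g ∈ normalizer (R : Set G) := by simp [PSg, mem_PS]

theorem mem_els {X : Subgroup G} {g : G} : g ∈ els X ↔ g ∈ X := by simp [els]

theorem isMu_mu (X : Subgroup G) (g : G) : IsMu (PSg p X g) (mu p X g) := (exists_isMu _).choose_spec

theorem sum_ff (X H : Subgroup G) : ∑ Q ∈ PS p X with H ≤ Q, ff p X Q =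
    Nat.card {g : G // g ∈ X ∧ ∃ R ∈ PSg p X g, H ≤ R} := by
  have h1 : ∀ g, ∑ Q ∈ PSg p X g with H ≤ Q, mu p X g Q = if ∃ R ∈ PSg p X g, H ≤ R then 1 else 0 := by
    intro g
    split_ifs with h
    · obtain ⟨R, hR, hmin⟩ := ((PSg p X g).filter (H ≤ ·)).exists_minimal
        (h.imp fun R hR => mem_filter.2 hR)
      rw [mem_filter] at hR
      rw [← isMu_mu X g R hR.1]
      refine Finset.sum_congr (filter_congr fun Q hQ => ⟨fun h => ?_, fun h => hR.2.trans h⟩) fun _ _ => rfl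
      have h2 := mem_PSg.1 hR.1
      refine le_trans (hmin (y := R ⊓ Q) (mem_filter.2 ⟨mem_PSg.2 ⟨⟨h2.1.1.to_inf_left,
        inf_le_left.trans h2.1.2⟩, ?_⟩, le_inf hR.2 h⟩) inf_le_left) inf_le_right
      rw [mem_normalizer_iff_cj, cj_inf, cj_eq_of_mem_normalizer h2.2,
        cj_eq_of_mem_normalizer (mem_PSg.1 hQ).2]
    · exact Finset.sum_eq_zero fun Q hQ => (h ⟨Q, mem_filter.1 hQ⟩).elim
  calc _ = ∑ g ∈ els X, ∑ Q ∈ PSg p X g with H ≤ Q, mu p X g Q := by
        unfold ff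
        refine Finset.sum_comm' fun Q g => ?_
        simp only [mem_filter, PSg]
        tauto
    _ = _ := by
        rw [Finset.sum_congr rfl fun g _ => h1 g, Finset.sum_boole, ← Nat.card_eq_finsetCard]
        congr 1
        exact Nat.card_congr (Equiv.subtypeEquivRight fun g => by simp [mem_els])

variable [Fact p.Prime]

theorem ff_normalizer {X Q : Subgroup G} (hQ : Q ∈ PS p X) :
    ff p X Q = ff p (X ⊓ normalizer (Q : Set G)) Q := by
  rw [mem_PS] at hQ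
  refine Finset.sum_congr (by ext g; simp [mem_els]) fun g hg => ?_
  rw [mem_filter, mem_els] at hg
  refine (isMu_mu X g).eq_of_retract (isMu_mu _ g) (mem_PSg.2 ⟨hQ, hg.2⟩)
    (mem_PSg.2 ⟨⟨hQ.1, le_inf hQ.2 le_normalizer⟩, hg.2⟩) (· ⊓ normalizer (Q : Set G))
    (fun R hR => ?_) (fun R hR h => ?_) fun T hT R => ?_
  · rw [mem_PSg] at hR ⊢
    exact ⟨⟨hR.1.1, hR.1.2.trans inf_le_left⟩, hR.2⟩
  · rw [mem_PSg] at hR ⊢
    refine ⟨⟨⟨hR.1.1.to_inf_left, inf_le_inf_right _ hR.1.2⟩, ?_⟩, lt_inf_normalizer_of_lt hR.1.1 h⟩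
    rw [mem_normalizer_iff_cj, cj_inf, cj_eq_of_mem_normalizer hR.2, cj_eq_of_mem hg.2]
  · exact ⟨fun h => h.trans inf_le_left, fun h => le_inf h ((mem_PSg.1 hT).1.2.trans inf_le_right)⟩

theorem sum_sylIn (X H : Subgroup G) {P : Subgroup G} (hP : SylIn p P X) :
    ∑ Q ∈ PS p X with H ≤ Q, (if SylIn p Q X then (Nat.card ↥(X ⊓ normalizer (Q : Set G)) : ℤ) else 0) =
      Nat.card {g : G // g ∈ X ∧ H ≤ g •ᶜ P} := by
  rw [card_conj_prop X P (H ≤ ·), ← Finset.sum_filter, Finset.sum_congr rfl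
    (g := fun _ => (Nat.card ↥(X ⊓ normalizer (P : Set G)) : ℤ)), Finset.sum_const, nsmul_eq_mul,
    Nat.cast_mul, ← Nat.card_eq_finsetCard]
  · congr 2
    refine Nat.card_congr (Equiv.subtypeEquivRight fun K => ?_)
    simp only [mem_filter, mem_PS]
    refine ⟨fun h => ⟨h.1.2, hP.exists_conj h.2⟩, ?_⟩
    rintro ⟨h1, g, hg, rfl⟩
    have := hP.cj_of_mem hg
    exact ⟨⟨⟨this.2, this.1⟩, h1⟩, this⟩
  · intro Q hQ
    obtain ⟨g, hg, rfl⟩ := hP.exists_conj (mem_filter.1 hQ).2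
    rw [← cj_normalizer, ← card_cj g (X ⊓ normalizer (P : Set G)), cj_inf, cj_eq_of_mem hg]

theorem ff_eq (Q X : Subgroup G) (hQ : Q ∈ PS p X) :
    ff p X Q = if SylIn p Q X then (Nat.card ↥(X ⊓ normalizer (Q : Set G)) : ℤ) else 0 := by
  induction Q using subgroup_induction_top generalizing X with
  | h Q ih =>
    have hQ' := mem_PS.1 hQ
    have h1 : Q ∈ PS p (X ⊓ normalizer (Q : Set G)) := mem_PS.2 ⟨hQ'.1, le_inf hQ'.2 le_normalizer⟩
    have h2 : SylIn p Q X ↔ SylIn p Q (X ⊓ normalizer (Q : Set G)) :=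
      ⟨fun h => h.inf_of_le le_normalizer, fun h => h.of_normalizer⟩
    rw [ff_normalizer hQ, h2]
    have h3 : X ⊓ normalizer (Q : Set G) ≤ normalizer (Q : Set G) := inf_le_right
    generalize X ⊓ normalizer (Q : Set G) = N at h1 h3
    obtain ⟨P, hP, hQP⟩ := exists_sylIn_ge hQ'.1 (mem_PS.1 h1).2
    have h4 := sum_ff (p := p) N Q
    have h5 : Nat.card {g : G // g ∈ N ∧ ∃ R ∈ PSg p N g, Q ≤ R} =
        Nat.card {g : G // g ∈ N ∧ Q ≤ g •ᶜ P} :=
      Nat.card_congr (Equiv.subtypeEquivRight fun g => and_congr_right fun hg =>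
        ⟨fun _ => (cj_eq_of_mem_normalizer (h3 hg)).symm.le.trans (cj_mono g hQP),
          fun _ => ⟨Q, mem_PSg.2 ⟨mem_PS.1 h1, h3 hg⟩, le_rfl⟩⟩)
    rw [h5, ← sum_sylIn N Q hP, sum_le_eq _ _ h1, sum_le_eq _ _ h1, Finset.sum_congr rfl
      fun R hR => ih R (mem_filter.1 hR).2 N (mem_filter.1 hR).1] at h4
    rw [add_right_cancel h4, inf_of_le_left h3]

theorem isSubnormal_iff {H : Subgroup G} (hH : IsPGroup p H) (g : G) :
    (H.subgroupOf (H ⊔ zpowers g)).IsSubnormal ↔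
      ∃ R : Subgroup G, IsPGroup p R ∧ H ≤ R ∧ g ∈ normalizer (R : Set G) := by
  constructor
  · intro h
    refine ⟨(pCore p ↥(H ⊔ zpowers g)).map (Subgroup.subtype _), isPGroup_map_pCore _, ?_,
      le_normalizer_map_subtype _ _ (mem_sup_right (mem_zpowers g))⟩
    exact (map_subgroupOf_eq_of_le (le_sup_left : H ≤ H ⊔ zpowers g)).ge.trans
      (Subgroup.map_mono (le_pCore_of_isSubnormal h (isPGroup_subgroupOf hH _)))
  · rintro ⟨R, h1, h2, h3⟩
    refine SnIn.isSubnormal_subgroupOf (SnIn.mono (V := normalizer (R : Set G)) ?_ le_sup_left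
      (sup_le (h2.trans le_normalizer) (zpowers_le.2 h3)))
    exact (SnIn.of_le_normalizer le_normalizer le_rfl).trans (SnIn.of_isPGroup h1 h2)

/-- Casolo's theorem. -/
theorem card_subnormalizer {H : Subgroup G} (hH : IsPGroup p H) (P : Sylow p G) :
    Nat.card {g : G // (H.subgroupOf (H ⊔ zpowers g)).IsSubnormal} =
      Nat.card {g : G // H ≤ g •ᶜ (P : Subgroup G)} := by
  have h := sum_ff (p := p) ⊤ H
  rw [Finset.sum_congr rfl fun R hR => ff_eq R ⊤ (mem_filter.1 hR).1, sum_sylIn ⊤ H (sylIn_top P),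
    Nat.cast_inj] at h
  refine Eq.trans (Nat.card_congr (Equiv.subtypeEquivRight fun g => ?_))
    (h.symm.trans (Nat.card_congr (Equiv.subtypeEquivRight fun g => by simp)))
  rw [isSubnormal_iff hH]
  simp only [mem_PSg, Subgroup.mem_top, le_top, true_and, and_true]
  exact exists_congr fun R => by tauto

end CL.Casolo
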