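import Mathlib
import Cfsg.Agent.PLOC.FrobeniusNPC
import Cfsg.Agent.FGS.CycSylow

/-! Products of conjugacy classes which are single classes. -/

set_option autoImplicit false
open Cfsg

namespace CL.FGS.ClP

variable {G : Type*} [Group G]

/-- elements of prime power order lift to elements of prime power order. -/
theorem exists_lift [Finite G] {H : Type*} [Group H] {f : G →* H} (hf : Function.Surjective f)
    {p : ℕ} (hp : p.Prime) {x : H} {a : ℕ} (hx : orderOf x = p ^ a) :
    ∃ g : G, f g = x ∧ ∃ b : ℕ, orderOf g = p ^ b := by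
  obtain ⟨g, rfl⟩ := hf x
  obtain ⟨k, m, hm, e⟩ := Nat.exists_eq_pow_mul_and_not_dvd (orderOf_pos g).ne' p hp.ne_one
  have hc : m.Coprime (orderOf (f g)) := by
    rw [hx]; exact (Nat.Coprime.pow_left a ((Nat.Prime.coprime_iff_not_dvd hp).2 hm)).symm
  obtain ⟨t, ht⟩ := exists_pow_eq_self_of_coprime hc
  refine ⟨(g ^ m) ^ t, by rw [map_pow, map_pow, ht], ?_⟩
  have : orderOf ((g ^ m) ^ t) ∣ p ^ k := by
    refine orderOf_dvd_of_pow_eq_one ?_
    rw [← pow_mul, mul_comm t, pow_mul, ← pow_mul g, mul_comm m, ← e, pow_orderOf_eq_one, one_pow]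
  obtain ⟨b, -, hb⟩ := (Nat.dvd_prime_pow hp).1 this
  exact ⟨b, hb⟩

/-- the left stabilizer of a conjugacy class. -/
def stab [Finite G] (y : G) : Subgroup G where
  carrier := {g | ∀ z, IsConj y z → IsConj y (g * z)}
  one_mem' := fun z hz => by rwa [one_mul]
  mul_mem' := fun {a b} ha hb z hz => by rw [mul_assoc]; exact ha _ (hb _ hz)
  inv_mem' := fun {a} ha => by
    have h : ∀ n : ℕ, ∀ z, IsConj y z → IsConj y (a ^ n * z) := by
      intro n
      induction n with
      | zero => intro z hz; rwa [pow_zero, one_mul]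
      | succ n ih => intro z hz; rw [pow_succ', mul_assoc]; exact ha _ (ih z hz)
    have e : a⁻¹ = a ^ (orderOf a - 1) := by
      rw [inv_eq_iff_mul_eq_one, ← pow_succ', Nat.sub_add_cancel (orderOf_pos a),
        pow_orderOf_eq_one]
    rw [Set.mem_setOf_eq, e]
    exact h _

/-- if `x^G y^G = y^G` and `y` lies in the normal closure of `x` then `y = 1`. -/
theorem eq_one [Finite G] {x y : G} (hy : y ∈ Subgroup.normalClosure ({x} : Set G))
    (h : ∀ a b : G, IsConj y (a * x * a⁻¹ * (b * y * b⁻¹))) : y = 1 := by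
  have hle : Subgroup.normalClosure ({x} : Set G) ≤ stab y := by
    refine (Subgroup.closure_le _).2 fun g hg => ?_
    obtain ⟨x', hx', hc⟩ := Group.mem_conjugatesOfSet_iff.1 hg
    obtain rfl : x' = x := hx'
    obtain ⟨a, rfl⟩ := isConj_iff.1 hc
    intro z hz
    obtain ⟨b, rfl⟩ := isConj_iff.1 hz
    exact h a b
  have := hle (inv_mem hy) y (IsConj.refl y)
  rw [inv_mul_cancel] at this
  exact isConj_one_left.1 this

/-- Frobenius: a group without normal `p`-complement has a `p`-element `x ≠ 1` and a `q`-element `y ≠ 1`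
with `x y` conjugate to `y`. -/
theorem exists_pair [Finite G] {p : ℕ} [Fact p.Prime] (h : ¬ HasNormalPComplement p G) :
    ∃ (x y : G) (a q b : ℕ), x ≠ 1 ∧ y ≠ 1 ∧ orderOf x = p ^ a ∧ q.Prime ∧ q ≠ p ∧ orderOf y = q ^ b ∧
      IsConj y (x * y) := by
  obtain ⟨Q, q, k, g, hQ, hq, hqp, ho, hg, hn, -⟩ :=
    CL.Tr.exists_prime_acting_of_not_hasNPC (default : Sylow p G) h
  have hQp : IsPGroup p Q := (default : Sylow p G).isPGroup'.to_le hQ
  rw [Subgroup.mem_centralizer_iff] at hn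
  push Not at hn
  obtain ⟨u, hu, hne⟩ := hn
  have hm : u * (g * u⁻¹ * g⁻¹) ∈ Q :=
    mul_mem hu ((Subgroup.mem_normalizer_iff.1 hg _).1 (inv_mem hu))
  obtain ⟨a, ha⟩ := IsPGroup.iff_orderOf.1 hQp ⟨_, hm⟩
  refine ⟨u * (g * u⁻¹ * g⁻¹), g, a, q, k + 1, fun e => hne ?_, fun e => hne ?_,
    by rw [← ha, Subgroup.orderOf_mk], hq, hqp, ho, isConj_iff.2 ⟨u, by group⟩⟩
  · calc u * g = u * (g * u⁻¹ * g⁻¹) * (g * u) := by group
      _ = g * u := by rw [e, one_mul]
  · rw [e, mul_one, one_mul]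

end CL.FGS.ClP
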