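import Mathlib
import Cfsg.Agent.BLK.Princ2
import Cfsg.Agent.BLK.BlockOrth
import Cfsg.Agent.BLK.Osima
import Cfsg.Agent.BLK.Contrib
import Cfsg.Agent.CHAR.BrauerPerm
import Cfsg.Agent.CHAR.InvolFormula
import Cfsg.Agent.CHAR.FTLinear
import Cfsg.Agent.CHAR.Quot
import Cfsg.Agent.ODD.BG3.FixDim
import Cfsg.Agent.SOLV.Core

/-!
# Principal 2-blocks on which degree minus value at a fixed element is constant
-/

set_option autoImplicit false
open Cfsg CL.Char CL.Blk Subgroup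
open scoped ComplexConjugate

namespace CL.FGS.CD

variable {G : Type*} [Group G] [Finite G] {M : Ideal AlgInt}

/-- degree minus value at `u` is the nonzero constant `k` on the nonprincipal characters of the
principal block, and the order of the group is even. -/
structure Hyp (M : Ideal AlgInt) (u : G) (k : ℂ) : Prop where
  hM : IsPModular 2 M
  diff : ∀ χ : IrrCharacter G, χ ∈ principalBlock M G → (χ : G → ℂ) ≠ (fun _ => 1) →
    (χ : G → ℂ) 1 - (χ : G → ℂ) u = k
  ne : k ≠ 0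
  even : 2 ∣ Nat.card G

open Classical in
/-- the principal block as a finite set -/
noncomputable def BF (M : Ideal AlgInt) (G : Type*) [Group G] [Finite G] :
    Finset (IrrCharacter G) := Finset.univ.filter (· ∈ principalBlock M G)

theorem mem_BF {χ : IrrCharacter G} : χ ∈ BF M G ↔ χ ∈ principalBlock M G := by
  simp [BF]

theorem one_mem_BF (hM : IsPModular 2 M) : Blk.irrOne G ∈ BF M G :=
  mem_BF.2 (irrOne_mem_principalBlock hM)

omit [Finite G] in
theorem ne_one_iff {χ : IrrCharacter G} : χ ≠ Blk.irrOne G ↔ (χ : G → ℂ) ≠ fun _ => 1 :=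
  not_congr ⟨fun h => by rw [h]; rfl, fun h => Subtype.ext h⟩

theorem weak (hM : IsPModular 2 M) {x y : G} (hx : ¬ 2 ∣ orderOf x) (hy : 2 ∣ orderOf y) :
    ∑ χ ∈ BF M G, (χ : G → ℂ) x * conj ((χ : G → ℂ) y) = 0 :=
  weak_orth_of_int hM (blockCoeff_mem_V hM isPBlock_principalBlock) hx hy

theorem strong (hM : IsPModular 2 M) {g h x y : G} (hx : IsPPart 2 g x) (hy : IsPPart 2 h y)
    (hc : ¬ IsConj x y) : ∑ χ ∈ BF M G, (χ : G → ℂ) g * conj ((χ : G → ℂ) h) = 0 :=
  block_orth_conj_of_int hM (blockCoeff_mem_V hM isPBlock_principalBlock) hx hy hc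

theorem not_two_dvd_one : ¬ 2 ∣ orderOf (1 : G) := by simp

theorem sum_degree_mem (hM : IsPModular 2 M) {y : G} (hy : ∃ n, orderOf y = 2 ^ n) (h1 : y ≠ 1) :
    ∑ χ ∈ BF M G, (χ : G → ℂ) 1 ∈ (V M).nonunits := by
  have h2 : 2 ∣ orderOf y := by
    obtain ⟨n, hn⟩ := hy
    rcases n with _ | n
    · exact absurd (orderOf_eq_one_iff.1 (by simpa using hn)) h1
    · rw [hn]; exact dvd_pow_self 2 n.succ_ne_zero
  have h3 := weak hM not_two_dvd_one h2
  have h4 : ∑ χ ∈ BF M G, ((χ : G → ℂ) 1 * conj ((χ : G → ℂ) y) - (χ : G → ℂ) 1) ∈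
      (V M).nonunits := by
    refine sum_mem fun χ _ => ?_
    have e : (χ : G → ℂ) 1 * conj ((χ : G → ℂ) y) - (χ : G → ℂ) 1 =
        (χ : G → ℂ) 1 * (conj ((χ : G → ℂ) y) - (χ : G → ℂ) 1) +
          (((charDegree (χ : G → ℂ) : ℤ) * ((charDegree (χ : G → ℂ) : ℤ) - 1) : ℤ) : ℂ) := by
      rw [irr_one_eq]; push_cast; ring
    rw [e]
    refine add_mem (mul_mem_nonunits_left (irr_mem_V χ 1)
      (conj_char_sub_one_mem hM χ.2.isCharacter hy)) ?_
    rw [intCast_mem_nonunits_iff hM]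
    exact_mod_cast (Int.even_mul_pred_self _).two_dvd
  rw [Finset.sum_sub_distrib, h3, zero_sub] at h4
  simpa using neg_mem h4

namespace Hyp

variable {u : G} {k : ℂ}

theorem sum_diff (h : Hyp M u k) (f : IrrCharacter G → ℂ) :
    ∑ χ ∈ BF M G, ((χ : G → ℂ) 1 - (χ : G → ℂ) u) * f χ =
      k * (∑ χ ∈ BF M G, f χ - f (Blk.irrOne G)) := by
  classical
  rw [← Finset.add_sum_erase _ _ (one_mem_BF h.hM), ← Finset.add_sum_erase _ f (one_mem_BF h.hM),
    add_sub_cancel_left, Finset.mul_sum, Blk.irrOne_apply, Blk.irrOne_apply, sub_self, zero_mul, zero_add]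
  refine Finset.sum_congr rfl fun χ hχ => ?_
  rw [Finset.mem_erase] at hχ
  rw [h.diff χ (mem_BF.1 hχ.2) (ne_one_iff.1 hχ.1)]

theorem isConj (h : Hyp M u k) {t : G} (ht : IsPPart 2 u t) {x : G} (hx : ∃ n, orderOf x = 2 ^ n)
    (h1 : x ≠ 1) : IsConj t x := by
  by_contra hc
  have hxx := isPPart_self Nat.prime_two hx
  have h2 := strong h.hM ht hxx hc
  have h3 := strong h.hM (isPPart_one_iff.2 not_two_dvd_one) hxx
    (fun e => h1 (isConj_one_right.1 e))
  have h4 := h.sum_diff fun χ => conj ((χ : G → ℂ) x)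
  simp only [sub_mul, Finset.sum_sub_distrib, h2, h3, sub_self, Blk.irrOne_apply, map_one] at h4
  have h5 : ∑ χ ∈ BF M G, conj ((χ : G → ℂ) x) = 1 := by
    rcases mul_eq_zero.1 h4.symm with h5 | h5
    · exact absurd h5 h.ne
    · exact sub_eq_zero.1 h5
  have h6 : ∑ χ ∈ BF M G, (conj ((χ : G → ℂ) x) - (χ : G → ℂ) 1) ∈ (V M).nonunits :=
    sum_mem fun χ _ => conj_char_sub_one_mem h.hM χ.2.isCharacter hx
  rw [Finset.sum_sub_distrib, h5] at h6
  have h7 := add_mem h6 (sum_degree_mem h.hM hx h1)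
  rw [sub_add_cancel] at h7
  exact one_notMem_nonunits h7

theorem orderOf_eq (h : Hyp M u k) {t : G} (ht : IsPPart 2 u t) : orderOf t = 2 := by
  have : Fact (Nat.Prime 2) := ⟨Nat.prime_two⟩
  obtain ⟨x, hx⟩ := exists_prime_orderOf_dvd_card' 2 h.even
  rw [(h.isConj ht ⟨1, by simpa using hx⟩ (by rintro rfl; simp at hx)).orderOf_eq', hx]

theorem two_dvd (h : Hyp M u k) {t : G} (ht : IsPPart 2 u t) : 2 ∣ orderOf u := by
  by_contra h1
  have := (ht.eq_one_iff Nat.prime_two).2 h1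
  have h2 := h.orderOf_eq ht
  rw [this] at h2
  simp at h2

/-- `k` divides the order of a Sylow 2-subgroup. -/
theorem exists_mul_eq (h : Hyp M u k) :
    ∃ m : ℤ, k * m = (2 : ℂ) ^ (Nat.card G).factorization 2 := by
  classical
  have := Fintype.ofFinite G
  obtain ⟨t, ht⟩ := exists_isPPart Nat.prime_two u
  have h1 : pRegularPart 2 (fun _ : G => (1 : ℂ)) =
      ∑ ψ ∈ BF M G, contr 2 (fun _ : G => (1 : ℂ)) ψ • (ψ : G → ℂ) := by
    rw [reg_eq_sum_univ (isClassFunction_const 1)]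
    refine (Finset.sum_subset (Finset.subset_univ _) fun ψ _ hψ => ?_).symm
    have := contr_eq_zero_of_notMem h.hM isPBlock_principalBlock (irrOne_mem_principalBlock h.hM)
      (mt mem_BF.2 hψ)
    rw [show contr 2 (fun _ : G => (1 : ℂ)) ψ = 0 from this, zero_smul]
  have h2 := congrFun h1 1
  have h3 := congrFun h1 u
  rw [pRegularPart_apply, if_neg not_two_dvd_one, Finset.sum_apply] at h2
  rw [pRegularPart_apply, if_pos (h.two_dvd ht), Finset.sum_apply] at h3
  have h4 := h.sum_diff fun ψ => contr 2 (fun _ : G => (1 : ℂ)) ψ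
  simp only [Pi.smul_apply, smul_eq_mul] at h2 h3
  simp only [mul_comm _ (contr 2 _ _), mul_sub (contr 2 _ _), Finset.sum_sub_distrib] at h4
  rw [← h2, ← h3, sub_zero] at h4
  choose n hn using fun ψ : IrrCharacter G =>
    exists_int_tilde (p := 2) Nat.prime_two (isGen_one (G := G)) ψ.2.isGen
  refine ⟨∑ ψ ∈ BF M G, n ψ - n (Blk.irrOne G), ?_⟩
  push_cast
  simp only [← hn]
  rw [← Finset.mul_sum, ← mul_sub, mul_left_comm]
  erw [← h4]
  simp

theorem mul_sum_eq (h : Hyp M u k) :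
    k * (∑ χ ∈ BF M G, (χ : G → ℂ) 1 - 1) = ∑ χ ∈ BF M G, (χ : G → ℂ) 1 * (χ : G → ℂ) 1 := by
  obtain ⟨t, ht⟩ := exists_isPPart Nat.prime_two u
  have h1 := congrArg conj (weak h.hM not_two_dvd_one (h.two_dvd ht))
  have h2 := h.sum_diff fun χ => (χ : G → ℂ) 1
  rw [Blk.irrOne_apply] at h2
  simp only [map_sum, map_mul, Complex.conj_conj, map_zero, irr_one_eq, map_natCast] at h1
  simp only [sub_mul, Finset.sum_sub_distrib] at h2
  rw [← h2]
  simp only [irr_one_eq, mul_comm ((_ : G → ℂ) u), h1, sub_zero]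

/-- every element of a Sylow 2-subgroup other than the identity is conjugate to `t`. -/
theorem isConj_of_mem (h : Hyp M u k) {t : G} (ht : IsPPart 2 u t) {S : Subgroup G}
    (hS : IsPGroup 2 S) {s : G} (hs : s ∈ S) (h1 : s ≠ 1) : IsConj t s :=
  h.isConj ht (pElt_of_mem_isPGroup Nat.prime_two hS hs) h1

theorem mul_self (h : Hyp M u k) {S : Subgroup G} (hS : IsPGroup 2 S) {s : G} (hs : s ∈ S) :
    s * s = 1 := by
  obtain ⟨t, ht⟩ := exists_isPPart Nat.prime_two u
  by_cases h1 : s = 1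
  · rw [h1, one_mul]
  · rw [← sq, ← h.orderOf_eq ht, (h.isConj_of_mem ht hS hs h1).orderOf_eq', pow_orderOf_eq_one]

theorem comm (h : Hyp M u k) {S : Subgroup G} (hS : IsPGroup 2 S) {a b : G} (ha : a ∈ S)
    (hb : b ∈ S) : a * b = b * a := by
  have h1 := h.mul_self hS (mul_mem ha hb)
  have h2 := h.mul_self hS ha
  have h3 := h.mul_self hS hb
  calc a * b = a * (a * b * (a * b)) * b := by rw [h1, mul_one]
    _ = (a * a) * (b * a) * (b * b) := by simp only [mul_assoc]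
    _ = b * a := by rw [h2, h3, one_mul, mul_one]

/-- a normal subgroup containing `t` contains every 2-subgroup -/
theorem le_of_mem (h : Hyp M u k) {t : G} (ht : IsPPart 2 u t) {S : Subgroup G}
    (hS : IsPGroup 2 S) {N : Subgroup G} [hN : N.Normal] (htN : t ∈ N) : S ≤ N := fun s hs => by
  by_cases h1 : s = 1
  · rw [h1]; exact one_mem _
  · obtain ⟨c, hc⟩ := isConj_iff.1 (h.isConj_of_mem ht hS hs h1)
    exact hc ▸ hN.conj_mem t htN c

end Hyp

omit [Finite G] in
theorem sum_of_const {S : Subgroup G} [Fintype S] {f : G → ℂ} {c : ℂ}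
    (hf : ∀ s ∈ S, s ≠ 1 → f s = c) : ∑ s : S, f s = f 1 + (Nat.card S - 1) * c := by
  classical
  rw [← Finset.add_sum_erase _ _ (Finset.mem_univ (1 : S)), Finset.sum_congr rfl (g := fun _ => c)
    fun (s : S) hs => hf s s.2 fun e => (Finset.mem_erase.1 hs).1 (Subtype.ext e)]
  rw [Finset.sum_const, Finset.card_erase_of_mem (Finset.mem_univ _), Finset.card_univ,
    nsmul_eq_mul, Nat.card_eq_fintype_card, Nat.cast_sub Fintype.card_pos]
  simp

theorem not_two_dvd_degree [Fact (Nat.Prime 2)] (S : Sylow 2 G) {χ : G → ℂ}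
    (hχ : IsIrrCharacter G χ) (h : (S : Subgroup G) ≤ charKer χ) : ¬ 2 ∣ charDegree χ :=
  fun h2 => S.not_dvd_index ((h2.trans hχ.charDegree_dvd_index_charKer).trans (index_dvd_of_le h))

theorem mem_of_ker [Fact (Nat.Prime 2)] (hM : IsPModular 2 M) (S : Sylow 2 G)
    {χ : IrrCharacter G} (h : (S : Subgroup G) ≤ charKer χ.1) (h' : regCent S ≤ charKer χ.1) :
    χ ∈ principalBlock M G := by
  have := Fintype.ofFinite G
  have := Fintype.ofFinite (regCent S)
  have h1 := not_two_dvd_degree S χ.2 h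
  rw [mem_principal_iff_regCent hM S χ h1, Finset.sum_congr rfl (g := fun _ => χ.1 1)
    fun d _ => χ.2.isCharacter.mem_charKer.1 (h' d.2), Finset.sum_const, Finset.card_univ,
    nsmul_eq_mul, irr_one_eq, ← Nat.cast_mul, natCast_mem_nonunits_iff hM,
    ← Nat.card_eq_fintype_card]
  exact fun h2 => (Nat.prime_two.dvd_mul.1 h2).elim (not_dvd_card_regCent S) h1

theorem normal_sup_regCent [Fact (Nat.Prime 2)] (S : Sylow 2 G) {N : Subgroup G} [hN : N.Normal]
    (h : (S : Subgroup G) ≤ N) : (N ⊔ regCent S).Normal := by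
  rw [← normalizer_eq_top_iff, eq_top_iff, ← S.normalizer_sup_eq_top' h]
  refine sup_le ?_ (le_sup_left.trans le_normalizer)
  refine le_trans ?_ (normalizer_inf_normalizer_le_normalizer_sup _ _)
  exact le_inf (by rw [normalizer_eq_top_iff.2 hN]; exact le_top)
    (normalizer_le_normalizer_regCent S)

namespace Hyp

variable {u : G} {k : ℂ}

theorem conj_eq (h : Hyp M u k) : conj k = k := by
  have h1 := h.mul_sum_eq
  have h2 := congrArg conj h1
  simp only [irr_one_eq, map_mul, map_sub, map_sum, map_natCast, map_one] at h1 h2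
  refine mul_right_cancel₀ (fun h0 => ?_) (h2.trans h1.symm)
  rw [h0, mul_zero] at h1
  have h3 : ∑ χ ∈ BF M G, charDegree (χ : G → ℂ) * charDegree (χ : G → ℂ) = 0 := by
    exact_mod_cast h1.symm
  have := Finset.sum_eq_zero_iff.1 h3 _ (one_mem_BF h.hM)
  exact charDegree_ne_zero _ (mul_self_eq_zero.1 this)

theorem sup_eq_top [Fact (Nat.Prime 2)] (h : Hyp M u k) (S : Sylow 2 G) {N : Subgroup G}
    [hN : N.Normal] (hS : (S : Subgroup G) ≤ N) : N ⊔ regCent S = ⊤ := by
  have := normal_sup_regCent S hS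
  set K := N ⊔ regCent S with hK
  have h1 : ∀ χ : IrrCharacter G, (∀ n ∈ K, χ.1 n = χ.1 1) → χ ∈ principalBlock M G :=
    fun χ hχ => mem_of_ker h.hM S
      (fun s hs => χ.2.isCharacter.mem_charKer.2 (hχ s (mem_sup_left (hS hs))))
      (fun s hs => χ.2.isCharacter.mem_charKer.2 (hχ s (mem_sup_right hs)))
  have h2 : u ∈ K := by
    rw [← QuotientGroup.eq_one_iff]
    refine eq_one_of_isConj_inv_of_odd ?_ (isConj_of_irr_eq fun ψ hψ => ?_)
    · rw [← Nat.not_even_iff_odd, even_iff_two_dvd, ← index_eq_card]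
      exact fun h2 => S.not_dvd_index (h2.trans (index_dvd_of_le (hS.trans le_sup_left)))
    · rw [hψ.apply_inv]
      let χ := irrInfl (QuotientGroup.mk' K) (QuotientGroup.mk'_surjective K) ⟨ψ, hψ⟩
      have e : ψ (u : G ⧸ K) = χ.1 u := rfl
      rw [e]
      by_cases h3 : (χ : G → ℂ) = fun _ => 1
      · rw [h3, map_one]
      · have h4 := h.diff χ (h1 χ fun n hn => by
          show ψ (n : G ⧸ K) = ψ ((1 : G) : G ⧸ K)
          rw [(QuotientGroup.eq_one_iff n).2 hn]; rfl) h3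
        rw [show χ.1 u = χ.1 1 - k by rw [← h4]; ring, map_sub, h.conj_eq, irr_one_eq, map_natCast]
  by_contra h3
  obtain ⟨x, hx⟩ : ∃ x, x ∉ K := by
    by_contra h4
    push Not at h4
    exact h3 (eq_top_iff.2 fun x _ => h4 x)
  obtain ⟨χ, hχ, h4, h5⟩ := exists_irr_ker_of_not_mem K hx
  have h6 := h.diff ⟨χ, hχ⟩ (h1 _ h4) (fun e => h5 (by rw [show χ = fun _ => 1 from e]))
  exact h.ne (by rw [← h6]; exact sub_eq_zero.2 (h4 u h2).symm)

theorem notMem_ker [Fact (Nat.Prime 2)] (h : Hyp M u k) {t : G} (ht : IsPPart 2 u t)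
    {χ : IrrCharacter G} (hχ : χ ∈ principalBlock M G) (h1 : (χ : G → ℂ) ≠ fun _ => 1) :
    t ∉ charKer χ.1 := fun h2 => by
  have := Fintype.ofFinite G
  obtain ⟨S⟩ : Nonempty (Sylow 2 G) := inferInstance
  have := Fintype.ofFinite (regCent S)
  have := χ.2.charKer_normal
  have h3 := h.le_of_mem ht S.isPGroup' h2
  have h4 := h.sup_eq_top S h3
  set K := charKer χ.1 with hK
  obtain ⟨ψ, hψ⟩ := (irrInflEquiv (QuotientGroup.mk' K) (QuotientGroup.mk'_surjective K)).surjective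
    ⟨χ, fun n hn => χ.2.isCharacter.mem_charKer.1 ((QuotientGroup.eq_one_iff n).1 hn)⟩
  have h5 : ∀ g, χ.1 g = ψ.1 (g : G ⧸ K) := fun g => by
    have := congrArg (fun x => x.1.1 g) hψ
    exact this.symm
  have h6 : Function.Surjective ((QuotientGroup.mk' K).comp (regCent S).subtype) := fun y => by
    obtain ⟨g, rfl⟩ := QuotientGroup.mk_surjective y
    have : g ∈ ((K ⊔ regCent S : Subgroup G) : Set G) := by rw [h4]; trivial
    rw [normal_mul] at this
    obtain ⟨a, ha, b, hb, rfl⟩ := this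
    refine ⟨⟨b, hb⟩, ?_⟩
    show (b : G ⧸ K) = ((a * b : G) : G ⧸ K)
    rw [QuotientGroup.mk_mul, (QuotientGroup.eq_one_iff a).2 ha, one_mul]
  have h7 := (ψ.2.comp_surjective _ h6).sum_eq_zero fun e => h1 (funext fun g => by
    obtain ⟨d, hd⟩ := h6 (g : G ⧸ K)
    rw [h5, ← hd]
    exact congrFun e d)
  refine (mem_principal_iff_regCent h.hM S χ (not_two_dvd_degree S χ.2 h3)).1 hχ ?_
  have h8 : ∑ d : regCent S, χ.1 d = 0 :=
    (Finset.sum_congr rfl fun (d : regCent S) _ => h5 d).trans h7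
  exact h8 ▸ zero_mem _

theorem sum_eq (h : Hyp M u k) {t : G} (ht : IsPPart 2 u t) {S : Subgroup G} (hS : IsPGroup 2 S)
    {χ : G → ℂ} (hχ : IsCharacter G χ) :
    (Nat.card S : ℂ) * BG3.fixDim χ S = χ 1 + (Nat.card S - 1) * χ t := by
  have := Fintype.ofFinite S
  rw [← BG3.sum_eq_fixDim hχ, sum_of_const fun s hs h1 =>
    (hχ.isClassFunction.eq_of_isConj (h.isConj_of_mem ht hS hs h1)).symm]

/-- a member of the principal block of degree one less than the order of a Sylow 2-subgroup. -/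
theorem exists_special [Fact (Nat.Prime 2)] (h : Hyp M u k) {t : G} (ht : IsPPart 2 u t)
    (S : Sylow 2 G) : ∃ χ ∈ principalBlock M G, χ.1 t = -1 ∧
      charDegree χ.1 + 1 = Nat.card (S : Subgroup G) ∧ BG3.fixDim χ.1 S = 0 := by
  classical
  have htt : t * t = 1 := by rw [← sq, ← h.orderOf_eq ht, pow_orderOf_eq_one]
  have hx : ∀ χ : IrrCharacter G, ∃ x : ℤ, χ.1 t = x ∧ x ≤ charDegree χ.1 := fun χ => by
    obtain ⟨a, b, h1, h2⟩ := χ.2.isCharacter.exists_int_of_mul_self htt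
    rw [irr_one_eq] at h1
    have h3 : charDegree χ.1 = a + b := by exact_mod_cast h1
    exact ⟨_, h2, by rw [h3]; push_cast; omega⟩
  choose x hx hxd using hx
  obtain ⟨q, hq⟩ : ∃ q : ℤ, q = Nat.card (S : Subgroup G) := ⟨_, rfl⟩
  have hq0 : 0 < q := by rw [hq]; exact_mod_cast Nat.card_pos
  obtain ⟨d, hd⟩ : ∃ d : IrrCharacter G → ℤ, ∀ χ, d χ = charDegree χ.1 := ⟨_, fun _ => rfl⟩
  have hd0 : ∀ χ, 0 < d χ := fun χ => by rw [hd]; exact_mod_cast charDegree_pos χ
  have hd1 : ∀ χ : IrrCharacter G, χ.1 1 = d χ := fun χ => by rw [hd, irr_one_eq]; simp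
  have hf : ∀ χ : IrrCharacter G, q * BG3.fixDim χ.1 S = d χ + (q - 1) * x χ := fun χ => by
    have := h.sum_eq ht S.isPGroup' χ.2.isCharacter
    rw [hx, hd1] at this
    rw [hq]
    exact_mod_cast this
  have h1 : ∀ χ ∈ (BF M G).erase (Blk.irrOne G), q ≤ d χ - x χ := fun χ hχ => by
    rw [Finset.mem_erase] at hχ
    have h2 := h.notMem_ker ht (mem_BF.1 hχ.2) (ne_one_iff.1 hχ.1)
    rw [χ.2.isCharacter.mem_charKer, hx, hd1] at h2
    have h3 : x χ ≠ d χ := fun e => h2 (by rw [e])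
    have h4 := hxd χ
    rw [← hd] at h4
    refine Int.le_of_dvd (by omega) ⟨BG3.fixDim χ.1 S - x χ, ?_⟩
    linear_combination -hf χ
  have hd2 : d (Blk.irrOne G) = 1 := by
    have := hd1 (Blk.irrOne G)
    rw [Blk.irrOne_apply] at this
    exact_mod_cast this.symm
  have hx2 : x (Blk.irrOne G) = 1 := by
    have := hx (Blk.irrOne G)
    rw [Blk.irrOne_apply] at this
    exact_mod_cast this.symm
  have h2 : ∑ χ ∈ BF M G, d χ * x χ = 0 := by
    have := weak h.hM not_two_dvd_one (y := t) (by rw [h.orderOf_eq ht])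
    simp only [hx, hd1, map_intCast] at this
    exact_mod_cast this
  obtain ⟨m, hm⟩ := h.exists_mul_eq
  have h3 := h.mul_sum_eq
  simp only [hd1] at h3
  have h4 : m * ∑ χ ∈ BF M G, d χ * d χ = q * (∑ χ ∈ BF M G, d χ - 1) := by
    have e : (q : ℂ) = k * m := by rw [hm, hq, S.card_eq_multiplicity]; simp
    have : (m : ℂ) * ∑ χ ∈ BF M G, (d χ : ℂ) * d χ = q * (∑ χ ∈ BF M G, (d χ : ℂ) - 1) := by
      rw [← h3, e]; ring
    exact_mod_cast this
  have h5 : ∑ χ ∈ BF M G, d χ - 1 ≠ 0 := fun e => by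
    have : (∑ χ ∈ BF M G, (d χ : ℂ) - 1) = 0 := by exact_mod_cast e
    rw [this, mul_zero] at h3
    have h6 : ∑ χ ∈ BF M G, d χ * d χ = 0 := by exact_mod_cast h3.symm
    have := (Finset.sum_eq_zero_iff_of_nonneg fun χ _ => mul_self_nonneg (d χ)).1 h6 _
      (one_mem_BF h.hM)
    simp [hd2] at this
  rw [← Finset.add_sum_erase _ _ (one_mem_BF h.hM), hd2, hx2] at h2
  rw [← Finset.add_sum_erase _ _ (one_mem_BF h.hM), ← Finset.add_sum_erase _ d (one_mem_BF h.hM),
    hd2, add_sub_cancel_left] at h4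
  rw [← Finset.add_sum_erase _ d (one_mem_BF h.hM), hd2, add_sub_cancel_left] at h5
  set B' := (BF M G).erase (Blk.irrOne G) with hB'
  have h6 : 0 ≤ ∑ χ ∈ B', d χ := Finset.sum_nonneg fun χ _ => (hd0 χ).le
  have h7 : 0 ≤ ∑ χ ∈ B', d χ * d χ := Finset.sum_nonneg fun χ _ => mul_self_nonneg _
  have h8 : 0 < m := by
    by_contra h9
    have : 0 < q * ∑ χ ∈ B', d χ := mul_pos hq0 (lt_of_le_of_ne h6 (Ne.symm h5))
    nlinarith
  have h9 : ∑ χ ∈ B', d χ * (d χ - x χ - q) = 0 := by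
    refine le_antisymm ?_ (Finset.sum_nonneg fun χ hχ => mul_nonneg (hd0 χ).le (by
      have := h1 χ hχ; omega))
    simp only [mul_sub, Finset.sum_sub_distrib, ← Finset.sum_mul]
    nlinarith
  have h10 := (Finset.sum_eq_zero_iff_of_nonneg fun χ hχ => mul_nonneg (hd0 χ).le (by
      have := h1 χ hχ; omega)).1 h9
  obtain ⟨χ, hχ, h11⟩ : ∃ χ ∈ B', x χ < 0 := by
    by_contra h11
    push Not at h11
    have : 0 ≤ ∑ χ ∈ B', d χ * x χ :=
      Finset.sum_nonneg fun χ hχ => mul_nonneg (hd0 χ).le (h11 χ hχ)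
    omega
  have h12 : d χ - x χ = q := by
    have := (mul_eq_zero.1 (h10 χ hχ)).resolve_left (hd0 χ).ne'
    omega
  have h13 : (BG3.fixDim χ.1 S : ℤ) = 1 + x χ :=
    mul_left_cancel₀ hq0.ne' (by rw [hf]; linear_combination h12)
  refine ⟨χ, mem_BF.1 (Finset.mem_erase.1 hχ).2, ?_, ?_, by omega⟩
  · rw [hx, show x χ = -1 by omega]; simp
  · have := hd χ
    omega

theorem regCent_le_ker [Fact (Nat.Prime 2)] (h : Hyp M u k) {t : G} (ht : IsPPart 2 u t)
    (S : Sylow 2 G) (htS : t ∈ (S : Subgroup G)) {χ : IrrCharacter G}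
    (hχ : χ ∈ principalBlock M G) (h1 : charDegree χ.1 + 1 = Nat.card (S : Subgroup G))
    (h2 : BG3.fixDim χ.1 S = 0) : regCent S ≤ charKer χ.1 := by
  have := Fintype.ofFinite G
  have := Fintype.ofFinite (regCent S)
  set N := normalizer ((S : Subgroup G) : Set G) with hN
  have hDN : regCent S ≤ N := (regCent_le_centralizer S).trans (centralizer_le_normalizer _)
  have hSN : (S : Subgroup G) ≤ N := le_normalizer
  have : ((regCent S).subgroupOf N).Normal :=
    (normal_subgroupOf_iff_le_normalizer hDN).2 (normalizer_le_normalizer_regCent S)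
  have := Fintype.ofFinite ((regCent S).subgroupOf N)
  obtain ⟨α, β, hα, hβ, h3, h4, h5, -⟩ :=
    exists_split_normal ((regCent S).subgroupOf N) (χ.2.isCharacter.res N)
  have h6 : ∀ g : N, χ.1 g = α g + β g := fun g => congrFun h3 g
  have hq : 2 ∣ Nat.card (S : Subgroup G) := by
    have := orderOf_dvd_natCard _ htS
    rwa [h.orderOf_eq ht] at this
  have h7 : α 1 ≠ 0 := fun e => by
    refine (mem_principal_iff_regCent h.hM S χ (by omega)).1 hχ ?_
    rw [← Equiv.sum_comp (subgroupOfEquivOfLe hDN).toEquiv]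
    have h8 : ∑ d : (regCent S).subgroupOf N, χ.1 (d : N) = 0 := by
      have h9 := h5 1
      simp only [mul_one] at h9
      simp only [h6, Finset.sum_add_distrib, h9, add_zero]
      refine Finset.sum_eq_zero fun d _ => ?_
      rw [← e, ← h4 d d.2 1, mul_one]
    exact h8 ▸ zero_mem _
  have h8 : BG3.fixDim α ((S : Subgroup G).subgroupOf N) = 0 := by
    have := BG3.fixDim_res χ.2.isCharacter hSN
    rw [h3, BG3.fixDim_add hα hβ, h2] at this
    omega
  have hc : IsMulCommutative (S : Subgroup G) :=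
    ⟨⟨fun a b => Subtype.ext (h.comm S.isPGroup' a.2 b.2)⟩⟩
  have := Fintype.ofFinite ((S : Subgroup G).subgroupOf N)
  have h9 := BG3.sum_eq_fixDim hα ((S : Subgroup G).subgroupOf N)
  rw [h8, sum_of_const (c := α ⟨t, hSN htS⟩), Nat.card_congr (subgroupOfEquivOfLe hSN).toEquiv,
    ← h1] at h9
  · have htt : (⟨t, hSN htS⟩ : N) * ⟨t, hSN htS⟩ = 1 := Subtype.ext (h.mul_self S.isPGroup' htS)
    obtain ⟨a, b, h10, h11⟩ := hα.exists_int_of_mul_self htt
    obtain ⟨c, h12⟩ := hβ.exists_nat_degree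
    have h13 := h6 1
    rw [OneMemClass.coe_one, irr_one_eq, h10, h12] at h13
    rw [h10, h11] at h9
    rw [h10] at h7
    have h14 : charDegree χ.1 = a + b + c := by exact_mod_cast h13
    have h15 : ((a + b : ℕ) : ℤ) + charDegree χ.1 * ((a : ℤ) - b) = 0 := by
      have : ((((a + b : ℕ) : ℤ) + charDegree χ.1 * ((a : ℤ) - b) : ℤ) : ℂ) = 0 := by
        push_cast at h9 ⊢
        linear_combination h9
      exact_mod_cast this
    have h16 : a + b ≠ 0 := by exact_mod_cast h7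
    have h17 : (charDegree χ.1 : ℤ) ≤ (a + b : ℕ) :=
      Int.le_of_dvd (by omega) ⟨-((a : ℤ) - b), by linear_combination h15⟩
    have h18 : β = 0 := hβ.eq_zero_of_one (by rw [h12, show c = 0 by omega]; simp)
    intro d hd
    rw [χ.2.isCharacter.mem_charKer, h6 ⟨d, hDN hd⟩, show χ.1 1 = _ from h6 1, h18,
      ← h4 ⟨d, hDN hd⟩ hd 1, mul_one]
    rfl
  · intro s hs hs1
    obtain ⟨c, hc⟩ := isConj_iff.1 (h.isConj_of_mem ht S.isPGroup' hs
      fun e => hs1 (Subtype.ext e))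
    obtain ⟨n, hn, h10⟩ := S.conj_eq_normalizer_conj_of_mem t c⁻¹ htS
      (by rw [inv_inv, hc]; exact hs)
    rw [inv_inv, hc] at h10
    rw [← hα.isClassFunction ⟨t, hSN htS⟩ ⟨n, hn⟩⁻¹]
    congr 1
    exact Subtype.ext (by simpa using h10)

theorem exists_faithful (h : Hyp M u k) (hO : pPrimeCore 2 G = ⊥) {t : G} (ht : IsPPart 2 u t)
    (S : Sylow 2 G) : IsSimpleGroup G ∧ ∃ χ : IrrCharacter G, charKer χ.1 = ⊥ ∧ χ.1 t = -1 ∧
      charDegree χ.1 + 1 = Nat.card (S : Subgroup G) := by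
  have : Fact (Nat.Prime 2) := ⟨Nat.prime_two⟩
  obtain ⟨T, hT⟩ := (isPGroup_zpowers_of_pElt ht.pElt).exists_le_sylow
  have htT : t ∈ (T : Subgroup G) := hT (mem_zpowers t)
  obtain ⟨χ, hχ, h1, h2, h3⟩ := h.exists_special ht T
  have h4 : ∀ N : Subgroup G, N.Normal → t ∉ N → N = ⊥ := fun N hN htN => by
    refine pPrimeCore_eq_bot_iff.1 hO N hN ((Nat.coprime_two_right).2 ?_)
    rw [← Nat.not_even_iff_odd, even_iff_two_dvd]
    intro h5
    obtain ⟨x, hx⟩ := exists_prime_orderOf_dvd_card' 2 h5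
    rw [← orderOf_coe] at hx
    obtain ⟨c, hc⟩ := isConj_iff.1 (h.isConj ht (x := x) ⟨1, by simpa using hx⟩
      (fun e => by simp [e] at hx)).symm
    exact htN (hc ▸ hN.conj_mem _ x.2 c)
  have h5 : charKer χ.1 = ⊥ := h4 _ χ.2.charKer_normal fun e => by
    rw [χ.2.isCharacter.mem_charKer, h1, irr_one_eq] at e
    have : (-1 : ℤ) = charDegree χ.1 := by exact_mod_cast e
    omega
  have h6 : regCent T = ⊥ := eq_bot_iff.2 (h5 ▸ h.regCent_le_ker ht T htT hχ h2 h3)
  have : Nontrivial G := ⟨t, 1, fun e => by simpa [e] using h.orderOf_eq ht⟩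
  refine ⟨⟨fun N hN => ?_⟩, χ, h5, h1, by rw [h2, T.card_eq_multiplicity, S.card_eq_multiplicity]⟩
  by_cases h7 : t ∈ N
  · right
    have := h.sup_eq_top T (h.le_of_mem ht T.isPGroup' h7)
    rwa [h6, sup_bot_eq] at this
  · exact Or.inl (h4 N hN h7)

end Hyp

end CL.FGS.CD
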