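import Mathlib
import Cfsg.Agent.FGS.HKK
import Cfsg.Agent.SOLV.CoprimeAut

/-! A `2`-group with a Frobenius group of automorphisms of order `39`. -/

set_option autoImplicit false

open scoped TensorProduct

namespace CL.CritL

open CL.GrLie CL.Krek

section alg

variable {A L : Type*} [CommRing A] [AddCommGroup L] [Module A L] {p : ℕ} [hp : Fact p.Prime] {w : A}
  (hw : ∑ i ∈ Finset.range p, w ^ i = 0) (F : Module.End A L)

/-- `p` times the projection to an eigenspace. -/
noncomputable def prj (w : A) (i : ZMod p) : Module.End A L := ∑ j : ZMod p, w ^ (-(i * j)).val • F ^ j.val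

include hw

theorem pow_eq_one_of_sum {B : Type*} [Ring B] {w : B} (hw : ∑ i ∈ Finset.range p, w ^ i = 0) :
    w ^ p = 1 := by
  have := mul_geom_sum w p
  rw [hw, mul_zero] at this
  exact sub_eq_zero.1 this.symm

theorem sum_mul_val {j : ZMod p} (hj : j ≠ 0) : ∑ i : ZMod p, w ^ (i * j).val = 0 := by
  rw [← hw, ← sum_zmod (fun i => w ^ i), ← Equiv.sum_comp (Equiv.mulRight₀ j hj) (fun i : ZMod p => w ^ i.val)]
  simp

theorem prj_eig (hF : F ^ p = 1) (i : ZMod p) (x : L) : F (prj F w i x) = w ^ i.val • prj F w i x := by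
  simp only [prj, LinearMap.sum_apply, LinearMap.smul_apply]
  rw [map_sum, Finset.smul_sum, ← Equiv.sum_comp (Equiv.addRight (1 : ZMod p))
    (fun j : ZMod p => w ^ i.val • w ^ (-(i * j)).val • (F ^ j.val) x)]
  refine Finset.sum_congr rfl fun j _ => ?_
  simp only [Equiv.coe_addRight]
  rw [smul_smul, ← pow_val_add (pow_eq_one_of_sum hw hw), map_smul, add_comm j 1,
    pow_val_add hF, ZMod.val_one, pow_one, Module.End.mul_apply]
  congr 3
  ring

theorem sum_prj (x : L) : ∑ i : ZMod p, prj F w i x = p • x := by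
  simp only [prj, LinearMap.sum_apply, LinearMap.smul_apply]
  rw [Finset.sum_comm, Finset.sum_eq_single (0 : ZMod p)]
  · simp
  · intro j _ hj
    rw [← Finset.sum_smul]
    simp only [← mul_neg]
    rw [sum_mul_val hw (neg_ne_zero.2 hj), zero_smul]
  · simp

theorem prj_of_eig {a : ZMod p} {u : L} (hu : F u = w ^ a.val • u) (i : ZMod p) :
    prj F w i u = if a = i then p • u else 0 := by
  have hwp := pow_eq_one_of_sum hw hw
  have h1 : ∀ k : ℕ, (F ^ k) u = w ^ (a * k).val • u := fun k => by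
    induction k with
    | zero => simp
    | succ k ih =>
      rw [pow_succ', Module.End.mul_apply, ih, map_smul, hu, smul_smul, ← pow_val_add hwp]
      congr 3
      push_cast
      ring
  simp only [prj, LinearMap.sum_apply, LinearMap.smul_apply, h1, smul_smul, ← pow_val_add hwp,
    ZMod.natCast_val, ZMod.cast_id', id_eq]
  rw [← Finset.sum_smul]
  split_ifs with h
  · simp [h, Nat.cast_smul_eq_nsmul]
  · rw [← zero_smul A u, ← sum_mul_val hw (sub_ne_zero.2 h)]
    congr 2
    ext j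
    congr 2
    ring

end alg

/-- The pairs of weights that may have a non-zero bracket. -/
def Rel (a b : ZMod 13) : Prop := a ≠ 0 ∧ (b = a + a + a ∨ b = -(a + a + a + a))

instance : DecidableRel Rel := fun a b => by unfold Rel; infer_instance

theorem rel_one : ∀ a b : ZMod 13, ¬ Rel a b → a ≠ 0 → b ≠ 0 → a + b ≠ 0 →
    let t := fun c : ZMod 13 => c + c + c
    a + t b ≠ a + b ∧ a + t (t b) ≠ a + b ∧ t a + b ≠ a + b ∧ t a + t b ≠ a + b ∧
      t a + t (t b) ≠ a + b ∧ t (t a) + b ≠ a + b ∧ t (t a) + t b ≠ a + b ∧ t (t a) + t (t b) ≠ a + b := by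
  decide +kernel

theorem rel_two : ∀ a b c : ZMod 13, Rel a b → Rel (a + b) c → ¬ Rel a c ∧ ¬ Rel b c := by decide +kernel

theorem rel_three : ∀ a : ZMod 13, a ≠ 0 → a + a + a ≠ a ∧ a + a + a + (a + a + a) + (a + a + a) ≠ a := by
  decide +kernel

theorem lie13_alg {A L : Type*} [CommRing A] [LieRing L] [LieAlgebra A L] {w : A}
    (hw : ∑ i ∈ Finset.range 13, w ^ i = 0) (F Y : Module.End A L) (hF : ∀ x y, F ⁅x, y⁆ = ⁅F x, F y⁆)
    (hsum : ∀ x, ∑ k ∈ Finset.range 13, (F ^ k) x = 0) (hFY : ∀ x, F (Y x) = Y (F (F (F x))))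
    {N : ℕ} (hN : N.Coprime 13) (hNx : ∀ x : L, N • x = 0) (T : Module.End A L)
    (hT : ∀ a, T a = a + Y a + Y (Y a)) (htr : ∀ a b, ⁅T a, T b⁆ = 0) (h2 : ∀ a, 2 • T a = 0) :
    (∀ a b c : L, ⁅⁅a, b⁆, c⁆ = 0) ∧ ∀ a : L, 2 • a = 0 := by
  simp only [hT] at htr h2
  have : Fact (Nat.Prime 13) := ⟨by norm_num⟩
  obtain ⟨v, hv⟩ := eq_zsmul_of_coprime hN hNx
  have hwp := pow_eq_one_of_sum hw hw
  have hFp : F ^ 13 = 1 := pow_eq_one_of_sum hw (LinearMap.ext fun x => by
    rw [LinearMap.sum_apply, hsum, LinearMap.zero_apply])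
  let M : ZMod 13 → L → Prop := fun a u => F u = w ^ a.val • u
  have h0 : ∀ u, M 0 u → u = 0 := fun u hu => by
    have h1 : F u = u := by simpa [M] using hu
    have h3 := hsum u
    simp only [Module.End.pow_apply, Function.iterate_fixed h1, Finset.sum_const, Finset.card_range] at h3
    rw [hv u, h3, smul_zero]
  have hY : ∀ {a u}, M a u → M (a + a + a) (Y u) := fun {a u} hu => by
    simp only [M] at hu ⊢
    simp only [hFY, hu, map_smul, smul_smul, pow_val_add hwp, mul_assoc]
  have hbr : ∀ {a b u z}, M a u → M b z → M (a + b) ⁅u, z⁆ := fun {a b u z} hu hz => by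
    simp only [M] at hu hz ⊢
    rw [hF, hu, hz, smul_lie, lie_smul, smul_smul, pow_val_add hwp]
  have ind : ∀ {B : Type _} [AddCommGroup B] (f : L →+ B), (∀ a u, M a u → f u = 0) → ∀ x, f x = 0 :=
    fun f h x => by
      rw [hv x, ← sum_prj hw F x, map_zsmul, map_sum,
        Finset.sum_eq_zero fun i _ => h i _ (prj_eig hw F hFp i x), smul_zero]
  have key : ∀ {a b u z}, M a u → M b z → ¬ Rel a b → ⁅u, z⁆ = 0 := fun {a b u z} hu hz hab => by
    by_cases ha : a = 0
    · rw [h0 u (ha ▸ hu), zero_lie]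
    by_cases hb : b = 0
    · rw [h0 z (hb ▸ hz), lie_zero]
    by_cases hc : a + b = 0
    · exact h0 _ (hc ▸ hbr hu hz)
    have h3 := congrArg (prj F w (a + b)) (htr u z)
    obtain ⟨e1, e2, e3, e4, e5, e6, e7, e8⟩ := rel_one a b hab ha hb hc
    simp only [add_lie, lie_add, map_add, map_zero, prj_of_eig hw F (hbr hu hz),
      prj_of_eig hw F (hbr hu (hY hz)), prj_of_eig hw F (hbr hu (hY (hY hz))),
      prj_of_eig hw F (hbr (hY hu) hz), prj_of_eig hw F (hbr (hY hu) (hY hz)),
      prj_of_eig hw F (hbr (hY hu) (hY (hY hz))), prj_of_eig hw F (hbr (hY (hY hu)) hz),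
      prj_of_eig hw F (hbr (hY (hY hu)) (hY hz)), prj_of_eig hw F (hbr (hY (hY hu)) (hY (hY hz))),
      if_neg e1, if_neg e2, if_neg e3, if_neg e4, if_neg e5, if_neg e6, if_neg e7, if_neg e8, if_true,
      add_zero] at h3
    rw [hv ⁅u, z⁆, h3, smul_zero]
  refine ⟨fun a b c => ?_, ind (nsmulAddMonoidHom 2) fun a u hu => ?_⟩
  · refine ind ((rad c).comp (rad b)) (fun i u hu => ?_) a
    refine ind ((rad c).comp (lad u)) (fun j z hz => ?_) b
    refine ind (lad ⁅u, z⁆) (fun k y hy => ?_) c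
    change ⁅⁅u, z⁆, y⁆ = 0
    by_cases h3 : Rel i j
    swap
    · rw [key hu hz h3, zero_lie]
    by_cases h4 : Rel (i + j) k
    swap
    · exact key (hbr hu hz) hy h4
    obtain ⟨h5, h6⟩ := rel_two i j k h3 h4
    rw [lie_lie, key hu hy h5, key hz hy h6, lie_zero, lie_zero, sub_zero]
  · by_cases ha : a = 0
    · rw [h0 u (ha ▸ hu), map_zero]
    have h3 := congrArg (prj F w a) (h2 u)
    obtain ⟨e1, e2⟩ := rel_three a ha
    simp only [map_nsmul, map_add, map_zero, prj_of_eig hw F hu, prj_of_eig hw F (hY hu),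
      prj_of_eig hw F (hY (hY hu)), if_neg e1, if_neg e2, if_true, add_zero] at h3
    change 2 • u = 0
    rw [hv (2 • u), smul_comm 13, h3, smul_zero]

theorem lie13 {L : Type*} [LieRing L] (F Y : L →+ L) (hF : ∀ x y, F ⁅x, y⁆ = ⁅F x, F y⁆)
    (hsum : ∀ x, ∑ k ∈ Finset.range 13, F^[k] x = 0) (hFY : ∀ x, F (Y x) = Y (F (F (F x))))
    {N : ℕ} (hN : N.Coprime 13) (hNx : ∀ x : L, N • x = 0)
    (htr : ∀ a b, ⁅a + Y a + Y (Y a), b + Y b + Y (Y b)⁆ = 0) (h2 : ∀ a, 2 • (a + Y a + Y (Y a)) = 0) :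
    (∀ a b c : L, ⁅⁅a, b⁆, c⁆ = 0) ∧ ∀ a : L, 2 • a = 0 := by
  have hp : Nat.Prime 13 := by norm_num
  have := Fact.mk hp
  let f : Polynomial ℤ := Polynomial.cyclotomic 13 ℤ
  let A := AdjoinRoot f
  have : Module.Free ℤ A := (Polynomial.cyclotomic.monic 13 ℤ).free_adjoinRoot
  have : Nontrivial A := AdjoinRoot.nontrivial f (Polynomial.degree_cyclotomic_pos 13 ℤ hp.pos).ne'
  have hw : ∑ i ∈ Finset.range 13, (AdjoinRoot.root f : A) ^ i = 0 := by
    have := AdjoinRoot.eval₂_root f
    simpa [f, Polynomial.cyclotomic_prime, Polynomial.eval₂_finsetSum] using this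
  let F' : Module.End A (A ⊗[ℤ] L) := LinearMap.baseChange A F.toIntLinearMap
  let Y' : Module.End A (A ⊗[ℤ] L) := LinearMap.baseChange A Y.toIntLinearMap
  have hF' : ∀ (a : A) (x : L), F' (a ⊗ₜ x) = a ⊗ₜ F x := fun a x => rfl
  have hY' : ∀ (a : A) (x : L), Y' (a ⊗ₜ x) = a ⊗ₜ Y x := fun a x => rfl
  have hpow : ∀ (k : ℕ) (a : A) (x : L), (F' ^ k) (a ⊗ₜ x) = a ⊗ₜ F^[k] x := by
    intro k
    induction k with
    | zero => intro a x; rfl
    | succ k ih => intro a x; rw [pow_succ, Module.End.mul_apply, hF', ih]; rfl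
  have hns : ∀ (n : ℕ) (a : A) (x : L), n • (a ⊗ₜ[ℤ] x) = a ⊗ₜ (n • x) := fun n a x => by
    rw [← natCast_zsmul, ← TensorProduct.tmul_smul, natCast_zsmul]
  let T : Module.End A (A ⊗[ℤ] L) := 1 + Y' + Y' * Y'
  have hT : ∀ (a : A) (x : L), T (a ⊗ₜ x) = a ⊗ₜ (x + Y x + Y (Y x)) := fun a x => by
    simp [T, hY', TensorProduct.tmul_add]
  obtain ⟨h3, h4⟩ := lie13_alg hw F' Y' (by
      intro x y
      induction x with
      | zero => simp
      | add x x' hx hx' => simp [hx, hx']
      | tmul a x =>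
        induction y with
        | zero => simp
        | add y y' hy hy' => simp [hy, hy']
        | tmul b y => simp [hF', hF]) (by
      intro x
      induction x with
      | zero => simp
      | add x x' hx hx' => simp [Finset.sum_add_distrib, hx, hx']
      | tmul a x => simp only [hpow]; rw [← TensorProduct.tmul_sum, hsum, TensorProduct.tmul_zero]) (by
      intro x
      induction x with
      | zero => simp
      | add x x' hx hx' => simp [hx, hx']
      | tmul a x => simp only [hF', hY', hFY])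
    hN (by
      intro x
      induction x with
      | zero => simp
      | add x x' hx hx' => rw [nsmul_add, hx, hx', add_zero]
      | tmul a x => rw [hns, hNx, TensorProduct.tmul_zero]) T (fun _ => rfl) (by
      intro x y
      induction x with
      | zero => simp
      | add x x' hx hx' => rw [map_add, add_lie, hx, hx', add_zero]
      | tmul a x =>
        induction y with
        | zero => simp
        | add y y' hy hy' => rw [map_add, lie_add, hy, hy', add_zero]
        | tmul b y => rw [hT, hT, LieAlgebra.ExtendScalars.bracket_tmul, htr, TensorProduct.tmul_zero]) (by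
      intro x
      induction x with
      | zero => simp
      | add x x' hx hx' => rw [map_add, nsmul_add, hx, hx', add_zero]
      | tmul a x => rw [hT, hns, h2, TensorProduct.tmul_zero])
  refine ⟨fun a b c => ?_, fun a => ?_⟩
  · simpa using h3 (1 ⊗ₜ a) (1 ⊗ₜ b) (1 ⊗ₜ c)
  · have := h4 (1 ⊗ₜ a)
    rw [hns] at this
    generalize 2 • a = b at this
    simpa using this

theorem pow_four_eq_one {N : Type*} [Group N] [Finite N] (hN : IsPGroup 2 N) (φ ψ : MulAut N)
    (hφ : φ ^ 13 = 1) (hψ : ψ ^ 3 = 1) (h : φ * ψ = ψ * φ ^ 3) (h1 : ∀ g, φ g = g → g = 1)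
    (h2 : ∀ g, ψ g = g → g ^ 2 = 1) (g : N) : g ^ 4 = 1 := by
  obtain ⟨F, hF1, hF2⟩ := exists_map φ.toMonoidHom
  obtain ⟨Y, hY1, -⟩ := exists_map ψ.toMonoidHom
  simp only [MulEquiv.coe_toMonoidHom] at hF1 hY1
  have mφ : ∀ {n g}, g ∈ gam N n → φ g ∈ gam N n := map_mem_gam φ.toMonoidHom
  have mψ : ∀ {n g}, g ∈ gam N n → ψ g ∈ gam N n := map_mem_gam ψ.toMonoidHom
  obtain ⟨k, hk⟩ := hN.exists_card_eq
  have hit : ∀ k n g, g ∈ gam N n → φ^[k] g ∈ gam N n ∧ F^[k] (io n g) = io n (φ^[k] g) := by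
    intro k
    induction k with
    | zero => exact fun n g hg => ⟨hg, rfl⟩
    | succ k ih =>
      intro n g hg
      rw [Function.iterate_succ_apply, Function.iterate_succ_apply, hF1 n g hg]
      exact ih n _ (mφ hg)
  let T : GrL N →+ GrL N := AddMonoidHom.id _ + Y + Y.comp Y
  have hT : ∀ n g, g ∈ gam N n → ∃ c ∈ gam N n, ψ c = c ∧ T (io n g) = io n c := fun n g hg => by
    have h3 : g * ψ g * ψ (ψ g) ∈ gam N n := mul_mem (mul_mem hg (mψ hg)) (mψ (mψ hg))
    have h4 : T (io n g) = io n (g * ψ g * ψ (ψ g)) := by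
      rw [io_mul (mul_mem hg (mψ hg)) (mψ (mψ hg)), io_mul hg (mψ hg), ← hY1 _ _ (mψ hg), ← hY1 _ _ hg]
      rfl
    have h5 : ψ (ψ (ψ g)) = g := DFunLike.congr_fun hψ g
    have h6 : ∀ (i : ℕ) {z : N}, z ∈ gam N n → io n (ψ z) = io n z → io n ((ψ ^ i) z) = io n z ∧
        (ψ ^ i) z ∈ gam N n := fun i z hz h6 => by
      induction i with
      | zero => exact ⟨rfl, hz⟩
      | succ i ih =>
        rw [pow_succ', MulAut.mul_apply]
        exact ⟨by rw [← hY1 _ _ ih.2, ih.1, hY1 _ _ hz, h6], mψ ih.2⟩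
    obtain ⟨s, hs, h7⟩ := act_coset_fixed (Subgroup.zpowers ψ) (gam N (n + 1))
      (fun b _ k hk => map_mem_gam b.toMonoidHom hk) (by
        rw [Nat.card_zpowers]
        exact Nat.Coprime.coprime_dvd_left (orderOf_dvd_of_pow_eq_one hψ) (Nat.Coprime.coprime_dvd_right
          (Subgroup.card_subgroup_dvd_card _) (hk ▸ Nat.Coprime.pow_right _ (by norm_num))))
      (.inl inferInstance) (g * ψ g * ψ (ψ g)) fun b hb => by
        obtain ⟨i, rfl⟩ := (mem_powers_iff_mem_zpowers.2 hb :)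
        obtain ⟨h7, h8⟩ := h6 i h3 (by
          rw [map_mul, map_mul, h5, io_mul (mul_mem (mψ hg) (mψ (mψ hg))) hg, mul_assoc,
            io_mul hg (mul_mem (mψ hg) (mψ (mψ hg))), add_comm])
        refine (io_eq_zero_iff (mul_mem (inv_mem h3) h8)).1 ?_
        rw [io_mul (inv_mem h3) h8, io_inv h3, h7, neg_add_cancel]
    refine ⟨_, mul_mem h3 (gam_succ_le n hs), h7 ψ (Subgroup.mem_zpowers ψ), ?_⟩
    rw [io_mul h3 (gam_succ_le n hs), io_eq_zero hs, add_zero, h4]
  obtain ⟨h3, h4⟩ := lie13 F Y hF2 (by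
    intro x
    induction x using induction_on with
    | h0 => simp
    | hadd x y hx hy => simp [iterate_map_add, Finset.sum_add_distrib, hx, hy]
    | hio n g hg =>
      have h1 := MonoidHom.FixedPointFree.prod_pow_eq_one (φ := φ) (n := 13) h1
        (funext fun a => DFunLike.congr_fun hφ a) g
      have h2 := io_list_prod ((List.range 13).map fun k => φ^[k] g) (n := n) (by
        intro x hx
        obtain ⟨k, -, rfl⟩ := List.mem_map.1 hx
        exact (hit k n g hg).1)
      rw [h1, io_one, List.map_map] at h2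
      rw [h2, Finset.sum_congr rfl fun k _ => (hit k n g hg).2]
      rfl) (by
    intro x
    induction x using induction_on with
    | h0 => simp
    | hadd x y hx hy => simp [hx, hy]
    | hio n g hg =>
      rw [hY1 _ _ hg, hF1 _ _ (mψ hg), hF1 _ _ hg, hF1 _ _ (mφ hg), hF1 _ _ (mφ (mφ hg)),
        hY1 _ _ (mφ (mφ (mφ hg)))]
      exact congrArg _ (DFunLike.congr_fun h g))
    (hk ▸ Nat.Coprime.pow_left _ (by norm_num)) card_nsmul (by
    intro a b
    change ⁅T a, T b⁆ = 0
    induction a using induction_on with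
    | h0 => simp
    | hadd x y hx hy => rw [map_add, add_lie, hx, hy, add_zero]
    | hio n g hg =>
      induction b using induction_on with
      | h0 => simp
      | hadd x y hx hy => rw [map_add, lie_add, hx, hy, add_zero]
      | hio n' g' hg' =>
        obtain ⟨c, hc, e1, e2⟩ := hT n g hg
        obtain ⟨d, hd, e3, e4⟩ := hT n' g' hg'
        have h3 := h2 (c * d) (by rw [map_mul, e1, e3])
        rw [e2, e4, lie_io hc hd, commutatorElement_def, inv_eq_of_mul_eq_one_right (sq c ▸ h2 c e1),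
          inv_eq_of_mul_eq_one_right (sq d ▸ h2 d e3), mul_assoc, ← sq, h3, io_one]) (by
    intro a
    change 2 • T a = 0
    induction a using induction_on with
    | h0 => simp
    | hadd x y hx hy => rw [map_add, nsmul_add, hx, hy, add_zero]
    | hio n g hg =>
      obtain ⟨c, hc, e1, e2⟩ := hT n g hg
      rw [e2, ← io_pow hc, h2 c e1, io_one])
  have := hN.isNilpotent
  have h5 : gam N 2 = ⊥ := gam_eq_bot_of_lcs (eq_bot_iff.2 ((AddSubgroup.closure_le _).2 (by
    rintro _ ⟨x, hx, y, rfl⟩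
    refine AddSubgroup.closure_induction (p := fun x _ => ⁅x, y⁆ = 0) ?_ (zero_lie y) ?_ ?_ hx
    · rintro _ ⟨a, -, b, rfl⟩
      exact h3 a b y
    · intro a b _ _ ha hb
      rw [add_lie, ha, hb, add_zero]
    · intro a _ ha
      rw [neg_lie, ha, neg_zero])))
  have h6 : ∀ n g, g ∈ gam N n → g ^ 2 ∈ gam N (n + 1) := fun n g hg =>
    (io_eq_zero_iff (pow_mem hg 2)).1 (by rw [io_pow hg, h4])
  have h7 := h6 1 _ (h6 0 g (Subgroup.mem_top g))
  rwa [h5, Subgroup.mem_bot, ← pow_mul] at h7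

end CL.CritL
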