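import Cfsg.Agent.FGS.CritL1
import Cfsg.Agent.FGS.NSol1
import Cfsg.Agent.ODD.AbelemRep
import Cfsg.Agent.ODD.BG39
import Cfsg.Agent.TECH.Amb

/-! Solvable groups with element orders dividing `6`, `8` or `13`: the `2`-Frobenius case. -/

set_option autoImplicit false
set_option linter.unusedSectionVars false

namespace CL.CritL

open Cfsg CL.BG CL.NSol CL.Abelem Subgroup Finset

/-- All element orders divide `6`, `8` or `13`. -/
def Om (G : Type*) [Group G] : Prop := ∀ g : G, orderOf g ∣ 6 ∨ orderOf g ∣ 8 ∨ orderOf g ∣ 13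

variable {G : Type*} [Group G] [Finite G]

theorem Om.comm (h : Om G) {x y : G} (hc : Commute x y) {m n : ℕ} (hm : m ∣ orderOf x) (hn : n ∣ orderOf y)
    (hmn : m.Coprime n) : m * n ∣ 6 ∨ m * n ∣ 8 ∨ m * n ∣ 13 := by
  obtain ⟨k, rfl⟩ := exists_pow_orderOf hm
  obtain ⟨l, rfl⟩ := exists_pow_orderOf hn
  exact (hc.pow_pow k l).orderOf_mul_eq_mul_orderOf_of_coprime hmn ▸ h _

theorem Om.dvd_of_comm (h : Om G) {x y : G} (hx : 13 ∣ orderOf x) (hc : Commute x y) : orderOf y ∣ 13 := by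
  by_cases h1 : 13 ∣ orderOf y
  · rcases h y with h2 | h2 | h2
    exacts [absurd (h1.trans h2) (by norm_num), absurd (h1.trans h2) (by norm_num), h2]
  rcases h.comm hc hx dvd_rfl ((Nat.Prime.coprime_iff_not_dvd (by norm_num)).2 h1) with h2 | h2 | h2
  exacts [absurd (Dvd.dvd.trans (dvd_mul_right _ _) h2) (by norm_num),
    absurd (Dvd.dvd.trans (dvd_mul_right _ _) h2) (by norm_num), (dvd_mul_left _ _).trans h2]

theorem Om.inf_cent (h : Om G) {x : G} (hx : 13 ∣ orderOf x) {N : Subgroup G} (hN : (#|N|).Coprime 13) :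
    N ⊓ 𝐂₁(x) = ⊥ := eq_bot_iff.2 fun y hy => orderOf_eq_one_iff.1 (Nat.eq_one_of_dvd_coprimes hN
      (Subgroup.orderOf_dvd_natCard _ hy.1) (h.dvd_of_comm hx (commute_of_mem_cent1 hy.2).symm))

theorem Om.pow_six (h : Om G) {x : G} (hx : 3 ∣ orderOf x) : x ^ 6 = 1 := by
  rcases h x with h2 | h2 | h2
  exacts [orderOf_dvd_iff_pow_eq_one.1 h2, absurd (hx.trans h2) (by norm_num),
    absurd (hx.trans h2) (by norm_num)]

theorem dvd_card_of_ne_bot {p : ℕ} [Fact p.Prime] {N : Subgroup G} (h : IsPGroup p N) (h1 : N ≠ ⊥) :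
    p ∣ #|N| :=
  let ⟨_, ha, h2⟩ := exists_mem_ne_one h1
  (Spec.dvd_orderOf h ha h2).trans (Subgroup.orderOf_dvd_natCard _ ha)

theorem pow_mem_of_mul {N : Subgroup G} [N.Normal] {a x : G} {n : ℕ} (ha : a ∈ N) (hx : x ^ n = 1) :
    (a * x) ^ n ∈ N := by
  rw [← QuotientGroup.eq_one_iff, QuotientGroup.mk_pow, QuotientGroup.mk_mul,
    (QuotientGroup.eq_one_iff a).2 ha, one_mul, ← QuotientGroup.mk_pow, hx, QuotientGroup.mk_one]

theorem cube_eq_one : ∀ r < 13, r * (r * r) ≡ 1 [MOD 13] → r = 1 ∨ r = 3 ∨ r = 9 := by decide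

section rep

variable {p : ℕ} {V : Subgroup G} [V.Normal] (hV : IsElementaryAbelian p V)

/-- The conjugation action on a normal elementary abelian subgroup. -/
def act : G →* Module.End (ZMod p) (Abelem.V hV) :=
  (rep hV (normalizer_eq_top V).ge).comp topEquiv.symm.toMonoidHom

theorem val_act (g : G) (v : Abelem.V hV) : (act hV g v).val = g * v.val * g⁻¹ := rfl

theorem sum_act_eq_zero {u : G} {n : ℕ} (hu : u ^ n = 1) (h : V ⊓ 𝐂₁(u) = ⊥) :
    ∑ k ∈ range n, act hV u ^ k = 0 := LinearMap.ext fun v => by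
  have h1 := mul_geom_sum (act hV u) n
  rw [← map_pow, hu, map_one, sub_self] at h1
  have h2 := congrArg Abelem.V.val (sub_eq_zero.1 (LinearMap.congr_fun h1 v))
  refine Abelem.V.val_eq_one_iff.1 (mem_bot.1 (h ▸ ⟨Abelem.V.mem _, mem_cent1_of_commute ?_⟩))
  exact (mul_inv_eq_iff_eq_mul.1 h2).symm

theorem val_sum_act (l : G) (v : Abelem.V hV) (m : ℕ) :
    ((∑ i ∈ range m, act hV l ^ i) v).val * l ^ m = (v.val * l) ^ m := by
  induction m with
  | zero => simp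
  | succ m ih =>
    rw [sum_range_succ, pow_succ (v.val * l), ← ih, ← map_pow]
    change _ * (l ^ m * v.val * (l ^ m)⁻¹) * _ = _
    group

include hV in
theorem exists_pow_ne [Fact p.Prime] (h : Om G) (hp : p ≠ 13) (hV0 : V ≠ ⊥) {x l : G} (hx : orderOf x = 13)
    (hl : l ∈ 𝐍(zpowers x)) {m : ℕ} (hm0 : 0 < m) (hm : ∀ i, 0 < i → i < m → ¬ Commute (l ^ i) x) :
    ∃ v ∈ V, (v * l) ^ m ≠ l ^ m := by
  by_contra! h1
  have h2 : ∑ i ∈ range m, act hV l ^ i = 0 := LinearMap.ext fun v =>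
    Abelem.V.val_eq_one_iff.1 (mul_right_cancel (b := l ^ m) (by rw [val_sum_act, h1 _ v.mem, one_mul]))
  have h13 : Fact (Nat.Prime 13) := ⟨by norm_num⟩
  have hc : (#|V|).Coprime 13 := by
    rw [card_eq_pow_finrank (hE := hV)]
    exact ((Nat.coprime_primes Fact.out h13.out).2 hp).pow_left _
  have h3 : ∑ k ∈ range 13, act hV (x ^ k) * (∑ i ∈ range m, act hV l ^ i) * act hV (x⁻¹ ^ k) = 13 := by
    simp only [mul_sum, sum_mul]
    rw [sum_comm, sum_eq_single_of_mem 0 (mem_range.2 hm0)]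
    · simp only [pow_zero, mul_one, ← map_mul, inv_pow, mul_inv_cancel]
      simp
    intro i hi hi0
    let u := l ^ i * x⁻¹ * (l ^ i)⁻¹
    have hu : u ∈ zpowers x := (mem_normalizer_iff.1 (pow_mem hl i) _).1 (inv_mem (mem_zpowers x))
    have hxu : Commute x u := by obtain ⟨k, hk⟩ := hu; exact hk ▸ Commute.self_zpow x k
    have h3 : orderOf (x * u) = 13 := orderOf_eq_prime
      (by rw [← hx, ← Nat.card_zpowers]; exact congrArg Subtype.val (pow_card_eq_one' (x := ⟨x * u, mul_mem (mem_zpowers x) hu⟩)))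
      fun h3 => hm i (Nat.pos_of_ne_zero hi0) (mem_range.1 hi) (by
        rw [← commutatorElement_eq_one_iff_commute, ← inv_eq_one, commutatorElement_inv,
          commutatorElement_def, ← h3]
        simp only [u, mul_assoc])
    have h4 := sum_act_eq_zero hV (h3 ▸ pow_orderOf_eq_one (x * u)) (h.inf_cent h3.symm.dvd hc)
    rw [← zero_mul (act hV l ^ i), ← h4, sum_mul]
    refine sum_congr rfl fun k _ => ?_
    rw [← map_pow, ← map_pow, ← map_mul, ← map_mul, ← map_mul, hxu.mul_pow, conj_pow]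
    simp only [mul_assoc, inv_mul_cancel, mul_one]
  simp only [h2, mul_zero, zero_mul, sum_const_zero] at h3
  obtain ⟨v, hv, hv1⟩ := exists_mem_ne_one hV0
  have h4 : v ^ 13 = 1 := by
    have := congrArg Abelem.V.val (LinearMap.congr_fun h3 ⟨v, hv⟩)
    rw [Module.End.ofNat_apply] at this
    exact this.symm
  exact hv1 (orderOf_eq_one_iff.1 (Nat.eq_one_of_dvd_coprimes hc (Subgroup.orderOf_dvd_natCard _ hv)
    (orderOf_dvd_of_pow_eq_one h4)))

end rep

theorem exists_frattini [hG : Group.IsSolvable G] (h : Om G) (h13 : ∃ x : G, orderOf x = 13)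
    (h0 : pCore 13 G = ⊥) : pPrimeCore 13 G ≠ ⊥ ∧ ∃ x : G, orderOf x = 13 ∧
      ∀ g, ∃ n ∈ pPrimeCore 13 G, ∃ l ∈ 𝐍(zpowers x), n * l = g := by
  have hp : Fact (Nat.Prime 13) := ⟨by norm_num⟩
  have key : ∀ (X : Type _) [Group X] [Finite X] [Group.IsSolvable X], 13 ∣ Nat.card X →
      pCore 13 X = ⊥ → pPrimeCore 13 X ≠ ⊥ := fun X _ _ _ h1 h2 h3 => by
    have : Nontrivial X := Finite.one_lt_card_iff_nontrivial.1
      (lt_of_lt_of_le (by norm_num) (Nat.le_of_dvd Nat.card_pos h1))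
    obtain ⟨V, hV⟩ := exists_isMinNormal X
    have := hV.normal
    obtain ⟨p, hp, h4⟩ := hV.exists_isPGroup_of_isSolvable inferInstance
    have := Fact.mk hp
    by_cases h5 : p = 13
    · exact hV.ne_bot (le_bot_iff.1 (h2 ▸ le_pCore (h5 ▸ h4)))
    · exact hV.ne_bot (le_bot_iff.1 (h3 ▸ (le_pCore h4).trans (pCore_le_pPrimeCore_of_ne h5)))
  obtain ⟨x₀, hx₀⟩ := h13
  have h1 : 13 ∣ Nat.card G := hx₀ ▸ orderOf_dvd_natCard x₀
  have hN := key G h1 h0
  refine ⟨hN, ?_⟩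
  set N := pPrimeCore 13 G
  have hNc : (#|N|).Coprime 13 := coprime_card_pPrimeCore 13 G
  obtain ⟨P⟩ : Nonempty (Sylow 13 G) := inferInstance
  have hPc : IsCyclic P := odd_regular_pgroup_cyclic P.isPGroup' (by
      obtain ⟨k, hk⟩ := P.isPGroup'.exists_card_eq
      exact hk ▸ Odd.pow (by decide)) hN (normalizer_eq_top N ▸ le_top)
    fun y hy hy1 => h.inf_cent (Spec.dvd_orderOf P.isPGroup' hy hy1) hNc
  obtain ⟨x, hx⟩ := (Subgroup.isCyclic_iff_exists_zpowers_eq_top _).1 hPc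
  have hP1 : (P : Subgroup G) ≠ ⊥ := P.ne_bot_of_dvd_card h1
  have h2 : 13 ∣ orderOf x := Spec.dvd_orderOf P.isPGroup' (hx ▸ mem_zpowers x)
    (by rintro rfl; exact hP1 (hx ▸ zpowers_one_eq_bot))
  have h3 : orderOf x = 13 := Nat.dvd_antisymm (h.dvd_of_comm h2 rfl) h2
  have h4 : pCore 13 (G ⧸ N) ≠ ⊥ := fun h4 => key (G ⧸ N)
    (hNc.symm.dvd_of_dvd_mul_right (card_eq_card_quotient_mul_card_subgroup N ▸ h1)) h4
    (pPrimeCore_quotient_pPrimeCore 13 G)
  have h5 : pCore 13 (G ⧸ N) = (P : Subgroup G).map (QuotientGroup.mk' N) := by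
    have h5 := pCore_le_sylow (P.mapSurjective (QuotientGroup.mk'_surjective N))
    refine eq_of_le_of_card_ge h5 (Nat.le_of_dvd Nat.card_pos ((card_map_dvd _ _).trans ?_))
    rw [← hx, Nat.card_zpowers, h3]
    exact dvd_card_of_ne_bot (isPGroup_pCore 13 _) h4
  have h6 := P.normalizer_sup_eq_top' (N := (pCore 13 (G ⧸ N)).comap (QuotientGroup.mk' N))
    (h5 ▸ le_comap_map _ _)
  rw [h5, comap_map_eq, QuotientGroup.ker_mk', ← sup_assoc, ← P.coe_coe, sup_eq_left.2 le_normalizer,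
    sup_comm] at h6
  exact ⟨x, h3, fun g => hx ▸ mem_sup_of_normal_left.1 (h6.ge (mem_top g))⟩

theorem pCore_ne_bot [hG : Group.IsSolvable G] (h : Om G) (h13 : ∃ x : G, orderOf x = 13)
    (h8 : ∃ g : G, orderOf g = 8) (h3 : ∃ g : G, orderOf g = 3) : pCore 13 G ≠ ⊥ := fun h0 => by
  have hp : Fact (Nat.Prime 13) := ⟨by norm_num⟩
  obtain ⟨hN, x, hx, hG⟩ := exists_frattini h h13 h0
  set N := pPrimeCore 13 G
  have hNc : (#|N|).Coprime 13 := coprime_card_pPrimeCore 13 G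
  have hNx := h.inf_cent hx.symm.dvd hNc
  have hNn : Group.IsNilpotent N := prime_Frobenius_sol_kernel_nil (R := zpowers x)
    (normalizer_eq_top N ▸ le_top) inferInstance (by rw [Nat.card_zpowers, hx]; exact hp.out)
    (cent_zpowers x ▸ hNx)
  let e := (zpowers x).normalizerMonoidHom
  have he : ∀ l, e l = 1 ↔ Commute (l : G) x := fun l => by
    rw [← MonoidHom.mem_ker, normalizerMonoidHom_ker, mem_subgroupOf, cent_zpowers]
    exact ⟨commute_of_mem_cent1, mem_cent1_of_commute⟩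
  have he1 : ∀ n ∈ N, ∀ l : 𝐍(zpowers x), orderOf (e l) ∣ orderOf (n * l : G) := fun n hn l => by
    have h1 : (l : G) ^ orderOf (n * l : G) ∈ N := by
      have := congrArg (QuotientGroup.mk' N) (pow_orderOf_eq_one (n * l : G))
      rwa [map_pow, map_mul, (QuotientGroup.eq_one_iff n).2 hn |> (show QuotientGroup.mk' N n = 1 from ·),
        one_mul, ← map_pow, map_one, QuotientGroup.mk'_apply, QuotientGroup.eq_one_iff] at this
    rw [orderOf_dvd_iff_pow_eq_one, ← map_pow, he, ← commutatorElement_eq_one_iff_commute, ← mem_bot,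
      ← BG.inf_eq_bot_of_coprime (Nat.card_zpowers x ▸ hx ▸ hNc)]
    refine mem_inf.2 ⟨?_, mul_mem ((mem_normalizer_iff.1 (l ^ _).2 _).1 (mem_zpowers x))
      (inv_mem (mem_zpowers x))⟩
    rw [commutatorElement_def, mul_assoc, mul_assoc, ← mul_assoc x]
    exact N.mul_mem h1 ((inferInstance : N.Normal).conj_mem _ (N.inv_mem h1) x)
  have he2 : ∀ n ∈ N, ∀ l : G, 13 ∣ orderOf l ∨ Commute l x → (orderOf (n * l)).Coprime 13 → n * l ∈ N :=
    fun n hn l hl hc => by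
      have h1 : l ^ 13 = 1 := orderOf_dvd_iff_pow_eq_one.1 (hl.elim (h.dvd_of_comm · rfl)
        fun hl => h.dvd_of_comm hx.symm.dvd hl.symm)
      exact MSS.oU_mem_of_pow_mem hc (pow_mem_of_mul hn h1)
  have hV : ∀ p : ℕ, p.Prime → p ∣ #|N| → ∀ l : 𝐍(zpowers x), ∃ V ≤ N, V.Normal ∧ IsElementaryAbelian p V ∧ V ≠ ⊥ ∧
      N ≤ 𝐂(V) ∧ ∃ v ∈ V, (v * l) ^ orderOf (e l) ≠ l ^ orderOf (e l) := fun p hp hpN l => by
    have := Fact.mk hp
    obtain ⟨V, hV, h1⟩ := exists_isMinNormal_le ((pCore p N).map N.subtype) (by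
      obtain ⟨Q⟩ : Nonempty (Sylow p N) := inferInstance
      rw [← sylow_eq_pCore_of_isNilpotent Q, Ne, map_eq_bot_iff_of_injective _ (subtype_injective _)]
      exact Q.ne_bot_of_dvd_card hpN)
    have := hV.normal
    have h2 := hV.isElementaryAbelian_of_isPGroup (((isPGroup_pCore p N).map _).to_le h1)
    exact ⟨V, h1.trans (map_subtype_le _), this, h2, hV.ne_bot, hV.le_centralizer_of_isNilpotent hNn,
      exists_pow_ne h2 h (by rintro rfl; exact hp.one_lt.ne' (Nat.eq_one_of_dvd_coprimes hNc hpN dvd_rfl))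
        hV.ne_bot hx l.2 (orderOf_pos _) fun i hi0 hi h3 => pow_ne_one_of_lt_orderOf hi0.ne' hi
          (by rw [← map_pow, he]; exact h3)⟩
  obtain ⟨g, hg⟩ := h8
  obtain ⟨n, hn, l, hl, rfl⟩ := hG g
  have hN3 : ¬ 3 ∣ #|N| := fun h1 => by
    obtain ⟨V, h2, _, h4, h5, h6, v, hv, h7⟩ := hV 3 Nat.prime_three h1 ⟨l, hl⟩
    suffices ∃ w ∈ V, w ≠ 1 ∧ Commute (n * l) w by
      obtain ⟨w, hw, hw1, h8⟩ := this
      have := Fact.mk Nat.prime_three
      exact absurd (h.comm h8 hg.symm.dvd (orderOf_eq_prime (h4.2 w hw) hw1).symm.dvd (by norm_num))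
        (by norm_num)
    by_cases h8 : 13 ∣ orderOf l
    · obtain ⟨w, hw, hw1⟩ := exists_mem_ne_one h5
      exact ⟨w, hw, hw1, commute_of_mem_cent (h6 (he2 n hn l (.inl h8) (by rw [hg]; norm_num))) hw⟩
    have h9 : l ^ orderOf (e ⟨l, hl⟩) = 1 := orderOf_eq_one_iff.1 (Nat.eq_one_of_dvd_coprimes
      ((Nat.Prime.coprime_iff_not_dvd hp.out).2 h8) (h.dvd_of_comm hx.symm.dvd
        ((he (⟨l, hl⟩ ^ _)).1 (by rw [map_pow, pow_orderOf_eq_one])).symm) (orderOf_pow_dvd _))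
    have h10 : (v * l) ^ orderOf (e ⟨l, hl⟩) ∈ V := pow_mem_of_mul hv h9
    refine ⟨_, h10, by rwa [← h9], (commute_of_mem_cent (h6 hn) h10).mul_left ?_⟩
    simpa using (commute_of_mem_cent (h6 (h2 (inv_mem hv))) h10).mul_left (Commute.self_pow _ _)
  obtain ⟨y₀, hy₀⟩ := h3
  obtain ⟨n', hn', y, hy, rfl⟩ := hG y₀
  have := Fact.mk Nat.prime_three
  have hy1 : ¬ Commute y x := fun h1 => hN3 (hy₀ ▸ Subgroup.orderOf_dvd_natCard _
    (he2 n' hn' y (.inr h1) (by rw [hy₀]; norm_num)))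
  have hy2 : orderOf (e ⟨y, hy⟩) = 3 := orderOf_eq_prime
    (orderOf_dvd_iff_pow_eq_one.1 (hy₀ ▸ he1 n' hn' ⟨y, hy⟩)) (mt (he _).1 hy1)
  have hN2 : IsPGroup 2 N := fun a => by
    rcases h a with h1 | h1 | h1
    · refine ⟨1, orderOf_dvd_iff_pow_eq_one.1 (Nat.Coprime.dvd_of_dvd_mul_right (m := 2) (n := 3) ?_
        (orderOf_coe a ▸ h1))⟩
      exact ((Nat.Prime.coprime_iff_not_dvd Nat.prime_three).2 fun h2 =>
        hN3 (h2.trans (orderOf_dvd_natCard a))).symm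
    · exact ⟨3, orderOf_dvd_iff_pow_eq_one.1 (orderOf_coe a ▸ h1)⟩
    · exact ⟨0, by rw [orderOf_eq_one_iff.1 (Nat.eq_one_of_dvd_coprimes hNc (orderOf_dvd_natCard a)
        (orderOf_coe a ▸ h1)), one_pow]⟩
  have hg1 : n * l ∈ N := by
    refine he2 n hn l (.inr ((he ⟨l, hl⟩).1 ?_)) (by rw [hg]; norm_num)
    by_contra h1
    have h2 : 2 ∣ orderOf (e ⟨l, hl⟩) := by
      obtain ⟨k, -, hk⟩ := (Nat.dvd_prime_pow Nat.prime_two).1
        (show _ ∣ 2 ^ 3 from hg ▸ he1 n hn ⟨l, hl⟩)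
      exact hk ▸ dvd_pow_self 2 (by rintro rfl; exact h1 (orderOf_eq_one_iff.1 hk))
    obtain ⟨k, hk⟩ := exists_pow_orderOf h2
    have h4 : orderOf (e (⟨l, hl⟩ ^ k * ⟨y, hy⟩)) = 6 := by
      rw [map_mul, map_pow, Commute.orderOf_mul_eq_mul_orderOf_of_coprime
        ((IsCyclic.mulAutMulEquiv _).injective (by rw [map_mul, map_mul, mul_comm]))
        (by rw [hk, hy2]; norm_num), hk, hy2]
    obtain ⟨V, h5, -, -, -, -, v, hv, h6⟩ := hV 2 Nat.prime_two (dvd_card_of_ne_bot hN2 hN)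
      (⟨l, hl⟩ ^ k * ⟨y, hy⟩)
    have h7 : ∀ v ∈ N, (v * (⟨l, hl⟩ ^ k * ⟨y, hy⟩ : 𝐍(zpowers x)) : G) ^ 6 = 1 := fun v hv =>
      h.pow_six ((by rw [h4]; norm_num : 3 ∣ _).trans (he1 v hv _))
    exact h6 (by rw [h4, h7 v (h5 hv), ← h7 1 (one_mem _), one_mul])
  have hy3 : y ^ 3 = 1 := orderOf_eq_one_iff.1 (Nat.eq_one_of_dvd_coprimes (by norm_num : Nat.Coprime 2 13)
    (orderOf_dvd_of_pow_eq_one (by
      rw [← pow_mul]; exact h.pow_six (one_mul y ▸ hy2 ▸ he1 1 (one_mem _) ⟨y, hy⟩)))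
    (h.dvd_of_comm hx.symm.dvd ((he (⟨y, hy⟩ ^ 3)).1 (by rw [map_pow, ← hy2, pow_orderOf_eq_one])).symm))
  have hx13 : x ^ 13 = 1 := orderOf_dvd_iff_pow_eq_one.1 hx.dvd
  have key : ∀ y : G, y ^ 3 = 1 → x * y = y * x ^ 3 → False := fun y hy3 hxy => by
    have hy1 : y ≠ 1 := by
      rintro rfl
      have : x ^ 2 = 1 := by simpa [pow_succ] using hxy
      exact absurd (hx ▸ orderOf_dvd_of_pow_eq_one this) (by norm_num)
    have h1 := pow_four_eq_one hN2 (MulAut.conjNormal x) (MulAut.conjNormal y)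
      (by rw [← map_pow, hx13, map_one]) (by rw [← map_pow, hy3, map_one])
      (by rw [← map_pow, ← map_mul, ← map_mul, hxy])
      (fun a ha => Subtype.ext (mem_bot.1 (hNx ▸ ⟨a.2, mem_cent1_of_commute
        (mul_inv_eq_iff_eq_mul.1 (congrArg Subtype.val ha)).symm⟩)))
      (fun a ha => by
        have h1 := h.comm (mul_inv_eq_iff_eq_mul.1 (congrArg Subtype.val ha))
          (orderOf_eq_prime hy3 hy1).symm.dvd dvd_rfl ((Nat.Prime.coprime_iff_not_dvd Nat.prime_three).2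
            fun h2 => hN3 (h2.trans (Subgroup.orderOf_dvd_natCard _ a.2)))
        rw [← orderOf_dvd_iff_pow_eq_one, ← orderOf_coe]
        rcases h1 with h1 | h1 | h1
        exacts [Nat.dvd_of_mul_dvd_mul_left three_pos h1,
          absurd ((dvd_mul_right _ _).trans h1) (by norm_num),
          absurd ((dvd_mul_right _ _).trans h1) (by norm_num)]) ⟨_, hg1⟩
    exact absurd (hg ▸ orderOf_dvd_of_pow_eq_one (congrArg Subtype.val h1)) (by norm_num)
  classical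
  obtain ⟨r, hr, h1⟩ := mem_image.1
    (mem_zpowers_iff_mem_range_orderOf.1 ((mem_normalizer_iff.1 hy x).1 (mem_zpowers x)))
  have h2 : ∀ k, x ^ (r * k) = y * x ^ k * y⁻¹ := fun k => by rw [pow_mul, h1, conj_pow]
  have h4 : r * (r * r) ≡ 1 [MOD 13] := by
    rw [← hx, ← pow_eq_pow_iff_modEq, h2, h2, h1, pow_one,
      show y * (y * (y * x * y⁻¹) * y⁻¹) * y⁻¹ = y ^ 3 * x * (y ^ 3)⁻¹ by
        simp only [pow_succ, pow_zero, one_mul, mul_inv_rev, mul_assoc], hy3]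
    simp
  rcases cube_eq_one r (by rwa [hx, mem_range] at hr) h4 with rfl | rfl | rfl
  · exact hy1 (mul_inv_eq_iff_eq_mul.1 (h1.symm.trans (pow_one x)))
  · exact key y⁻¹ (by rw [inv_pow, hy3, inv_one]) (by rw [h1]; group)
  · refine key y hy3 (eq_mul_inv_iff_mul_eq.1 ?_)
    rw [← h2, pow_eq_pow_mod _ hx13, pow_one]

end CL.CritL
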