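import Cfsg.Agent.FGS.CritL2
import Cfsg.Agent.SOLV.PGroupCyclicSCN

/-! Solvable groups with element orders dividing `6`, `8` or `13`: the Frobenius case. -/

set_option autoImplicit false
set_option linter.unusedSectionVars false

namespace CL.CritL

open Cfsg CL.BG CL.NSol CL.Abelem Subgroup Finset Equiv

variable {G : Type*} [Group G] [Finite G]

theorem Om.of_injective {X : Type*} [Group X] (h : Om G) (f : X →* G) (hf : Function.Injective f) :
    Om X := fun g => orderOf_injective f hf g ▸ h (f g)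

theorem Om.of_surjective {X : Type*} [Group X] (h : Om G) (f : G →* X) (hf : Function.Surjective f) :
    Om X := fun g => by
  obtain ⟨x, rfl⟩ := hf g
  exact (h x).imp (orderOf_map_dvd f x).trans (Or.imp (orderOf_map_dvd f x).trans (orderOf_map_dvd f x).trans)

theorem Om.dvd_eight (h : Om G) {x : G} {k : ℕ} (hx : x ^ 2 ^ k = 1) : orderOf x ∣ 8 := by
  have h1 := orderOf_dvd_of_pow_eq_one hx
  rcases h x with h2 | h2 | h2
  · exact (Nat.Coprime.dvd_of_dvd_mul_right (m := 2) (n := 3)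
      (Nat.Coprime.coprime_dvd_left h1 (Nat.Coprime.pow_left _ (by norm_num))) h2).trans (by norm_num)
  · exact h2
  · rw [Nat.eq_one_of_dvd_coprimes (Nat.Coprime.pow_left k (by norm_num : Nat.Coprime 2 13)) h1 h2]
    exact one_dvd _

theorem even_perm_four : ∀ a : Perm (Fin 4), Perm.sign a = 1 → a ^ 2 = 1 ∨ a ^ 3 = 1 := by decide

theorem exists_S4 (h : Om G) (h13 : ¬ 13 ∣ Nat.card G) {z : G} (hz : orderOf z = 2)
    (hu : ∀ a : G, orderOf a = 2 → a = z) (h3 : ∀ P : Sylow 3 G, IsCyclic P) {g y : G} (hg : orderOf g = 8)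
    (hy : orderOf y = 3) : ∃ φ : G →* Perm (Fin 4), Function.Surjective φ ∧ φ.ker = zpowers z := by
  classical
  have := Fact.mk Nat.prime_three
  have hc : ∀ a, Commute a z := fun a => mul_inv_eq_iff_eq_mul.1 (hu _ (by rw [orderOf_conj', hz]))
  have hZ : ∀ a : G, a ^ 2 = 1 → a ∈ zpowers z := fun a ha => by
    by_cases h1 : a = 1
    exacts [h1 ▸ one_mem _, hu a (orderOf_eq_prime ha h1) ▸ mem_zpowers _]
  have hP : ∀ (P : Sylow 3 G), ∀ a ∈ (P : Subgroup G), orderOf a = 3 → zpowers a = P := fun P a ha h1 => by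
    obtain ⟨b, hb⟩ := (Subgroup.isCyclic_iff_exists_zpowers_eq_top _).1 (h3 P)
    refine eq_of_le_of_card_ge (zpowers_le.2 ha) (Nat.le_of_dvd Nat.card_pos ?_)
    obtain ⟨k, hk⟩ := P.isPGroup'.exists_card_eq
    rw [Nat.card_zpowers, h1]
    refine Nat.Coprime.dvd_of_dvd_mul_left (m := 2) (hk ▸ Nat.Coprime.pow_left _ (by norm_num)) ?_
    rw [← hb, Nat.card_zpowers]
    exact orderOf_dvd_of_pow_eq_one (h.pow_six (h1 ▸ (Subgroup.orderOf_dvd_natCard _ ha).trans
      (by rw [← hb, Nat.card_zpowers])))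
  obtain ⟨P, hyP⟩ := (isPGroup_zpowers hy).exists_le_sylow
  have hP3 : #|(P : Subgroup G)| = 3 := by rw [← hP P y (hyP (mem_zpowers y)) hy, Nat.card_zpowers, hy]
  have h48 : Nat.card G ∣ 48 := (Nat.dvd_iff_prime_pow_dvd_dvd _ _).2 fun p k hp hk => by
    have := Fact.mk hp
    obtain ⟨Q⟩ : Nonempty (Sylow p G) := inferInstance
    have h1 := Q.pow_dvd_card_of_pow_dvd_card hk
    by_cases h2 : p = 2
    · subst h2
      refine h1.trans (Dvd.dvd.trans ?_ (by norm_num : 16 ∣ 48))
      rcases PCyc.isCyclic_or_quaternion Q.isPGroup' (fun a b ha hb _ => by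
        rw [Subtype.ext ((hu b ((orderOf_coe b).trans hb)).trans (hu a ((orderOf_coe a).trans ha)).symm)]
        exact mem_zpowers _) with h2 | ⟨-, n, ⟨e⟩⟩
      · obtain ⟨b, hb⟩ := isCyclic_iff_exists_orderOf_eq_natCard.1 h2
        obtain ⟨k, hk⟩ := Q.isPGroup' b
        exact hb ▸ ((h.of_injective _ (subtype_injective _)).dvd_eight hk).trans (by norm_num)
      · obtain ⟨k, hk⟩ := Q.isPGroup' (e.symm (.a 1))
        have h2 := (h.of_injective _ (subtype_injective _)).dvd_eight hk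
        rw [MulEquiv.orderOf_eq, QuaternionGroup.orderOf_a_one] at h2
        rw [Nat.card_congr e.toEquiv, Nat.card_eq_fintype_card, QuaternionGroup.card]
        exact (show 4 * 2 ^ (n + 1) = 2 * (2 * 2 ^ (n + 1)) by ring) ▸ mul_dvd_mul_left 2 h2
    by_cases h4 : p = 3
    · subst h4
      exact h1.trans (((Nat.card_congr (Q.equiv P).toEquiv).trans hP3).dvd.trans (by norm_num))
    rcases k with _ | k
    · simp
    obtain ⟨a, rfl⟩ := exists_prime_orderOf_dvd_card' p ((dvd_pow_self p k.succ_ne_zero).trans hk)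
    rcases h a with h5 | h5 | h5
    · exact absurd ((Nat.Prime.dvd_mul hp).1 (show _ ∣ 2 * 3 from h5)) (by
        rw [Nat.prime_dvd_prime_iff_eq hp Nat.prime_two, Nat.prime_dvd_prime_iff_eq hp Nat.prime_three]
        tauto)
    · exact absurd ((Nat.prime_dvd_prime_iff_eq hp Nat.prime_two).1
        (hp.dvd_of_dvd_pow (show _ ∣ 2 ^ 3 from h5))) h2
    · exact absurd ((Nat.prime_dvd_prime_iff_eq hp (by norm_num)).1 h5 ▸ orderOf_dvd_natCard a) h13
  have hn1 : ¬ (P : Subgroup G).Normal := fun hn => by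
    have := h3 P
    have h1 : (MulAut.conjNormal g : MulAut P) ^ 2 = 1 := by
      rw [← pow_card_eq_one' (x := (MulAut.conjNormal g : MulAut P)), IsCyclic.card_mulAut, hP3]
      rfl
    rw [← map_pow] at h1
    exact absurd (h.comm (x := g ^ 2) (m := 4) (n := 3) (mul_inv_eq_iff_eq_mul.1 (congrArg Subtype.val
      (DFunLike.congr_fun h1 ⟨y, hyP (mem_zpowers y)⟩))) (by rw [orderOf_pow' _ two_ne_zero, hg]; norm_num)
      hy.symm.dvd (by norm_num)) (by norm_num)
  have hzs : ∀ Q : Sylow 3 G, z • Q = Q := fun Q => Sylow.smul_eq_iff_mem_normalizer.2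
    (centralizer_le_normalizer _ (mem_cent_iff.2 fun a _ => (hc a).eq))
  have h4 : Nat.card (Sylow 3 G) = 4 := by
    have h1 := card_sylow_modEq_one 3 G
    have h2 : 6 ∣ #|𝐍((P : Subgroup G))| := by
      rw [show 6 = orderOf (y * z) by
        rw [(hc y).orderOf_mul_eq_mul_orderOf_of_coprime (by rw [hy, hz]; norm_num), hy, hz]]
      exact Subgroup.orderOf_dvd_natCard _ (mul_mem (le_normalizer (hyP (mem_zpowers y)))
        (Sylow.smul_eq_iff_mem_normalizer.1 (hzs P)))
    have h5 : Nat.card (Sylow 3 G) ∣ 8 := by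
      rw [P.card_eq_index_normalizer]
      exact Nat.dvd_of_mul_dvd_mul_left (by norm_num : 0 < 6)
        ((mul_dvd_mul_right h2 _).trans ((card_mul_index _).dvd.trans h48))
    have h6 : Nat.card (Sylow 3 G) ≠ 1 := fun h6 => hn1 (normalizer_eq_top_iff.1
      (index_eq_one.1 (P.card_eq_index_normalizer.symm.trans h6)))
    have := Nat.le_of_dvd (by norm_num) h5
    generalize Nat.card (Sylow 3 G) = n at *
    interval_cases n <;> simp_all [Nat.ModEq]
  let φ := (Finite.equivFinOfCardEq h4).permCongrHom.toMonoidHom.comp (MulAction.toPermHom G (Sylow 3 G))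
  have hφ : ∀ a, a ∈ φ.ker ↔ ∀ Q : Sylow 3 G, a • Q = Q := fun a => by
    simp [φ, MonoidHom.mem_ker, Equiv.ext_iff]
  have h5 : ∀ a ∈ φ.ker, ¬ 3 ∣ orderOf a := fun a ha h5 => by
    obtain ⟨k, hk⟩ := exists_pow_orderOf h5
    have h6 : ∀ Q : Sylow 3 G, zpowers (a ^ k) = Q := fun Q => hP Q _ (by
      have := (isPGroup_zpowers hk).inf_normalizer_sylow Q
      exact (this.le ⟨mem_zpowers _,
        Sylow.smul_eq_iff_mem_normalizer.1 ((hφ _).1 (pow_mem ha k) Q)⟩).2) hk
    have : Subsingleton (Sylow 3 G) := ⟨fun Q R => Sylow.ext ((h6 Q).symm.trans (h6 R))⟩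
    exact hn1 (Sylow.normal_of_subsingleton P)
  have hker : φ.ker = zpowers z := le_antisymm (fun a ha => by
    have h6 : a * y * a⁻¹ * y⁻¹ = 1 := by
      by_contra h6
      refine h5 _ ?_ (Spec.dvd_orderOf P.isPGroup' (mul_mem ((mem_normalizer_iff.1
        (Sylow.smul_eq_iff_mem_normalizer.1 ((hφ a).1 ha P)) y).1 (hyP (mem_zpowers y)))
        (inv_mem (hyP (mem_zpowers y)))) h6)
      rw [mul_assoc, mul_assoc, ← mul_assoc y]
      exact mul_mem ha ((inferInstance : φ.ker.Normal).conj_mem _ (inv_mem ha) y)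
    rcases h.comm (commutatorElement_eq_one_iff_commute.1 h6).symm hy.symm.dvd dvd_rfl
      ((Nat.Prime.coprime_iff_not_dvd Nat.prime_three).2 (h5 a ha)) with h7 | h7 | h7
    exacts [hZ a (orderOf_dvd_iff_pow_eq_one.1 (Nat.dvd_of_mul_dvd_mul_left three_pos h7)),
      absurd ((dvd_mul_right _ _).trans h7) (by norm_num),
      absurd ((dvd_mul_right _ _).trans h7) (by norm_num)]) (zpowers_le.2 ((hφ z).2 hzs))
  refine ⟨φ, MonoidHom.range_eq_top.1 (index_eq_one.1 ?_), hker⟩
  have h6 : 24 ∣ Nat.card G := Nat.Coprime.mul_dvd_of_dvd_of_dvd (by norm_num : Nat.Coprime 8 3)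
    (hg ▸ orderOf_dvd_natCard g) (hy ▸ orderOf_dvd_natCard y)
  rw [← φ.ker.card_mul_index, index_ker, hker, Nat.card_zpowers, hz] at h6
  have h7 : 12 * φ.range.index ∣ 12 * 2 :=
    (mul_dvd_mul_right (Nat.dvd_of_mul_dvd_mul_left two_pos h6) _).trans
      (by rw [card_mul_index, Nat.card_perm, Nat.card_fin]; rfl)
  refine ((Nat.dvd_prime Nat.prime_two).1 (Nat.dvd_of_mul_dvd_mul_left (by norm_num) h7)).resolve_right
    fun h8 => ?_
  have h9 : ∀ k, φ g ^ k = 1 → 8 ∣ k * 2 := fun k hk => by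
    rw [← map_pow, ← MonoidHom.mem_ker, hker] at hk
    rw [← hg, orderOf_dvd_iff_pow_eq_one, pow_mul, ← orderOf_dvd_iff_pow_eq_one, ← hz]
    exact orderOf_dvd_of_mem_zpowers hk
  rcases even_perm_four (φ g) (Perm.mem_alternatingGroup.1
    (Perm.eq_alternatingGroup_of_index_eq_two h8 ▸ ⟨g, rfl⟩)) with h10 | h10 <;>
    exact absurd (h9 _ h10) (by norm_num)

theorem ring_one {R : Type*} [Ring R] {y q e : R} (hy : y * y + y + 1 = 0) (hq : q * q = -1)
    (he : e = 1 ∨ e = -1) (h : y * q * (y * q) + e * (y * q) + 1 = 0) : y - q * y * q = e * q - 1 := by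
  have h3 : y * y * y = 1 := by linear_combination (norm := noncomm_ring) (y - 1) * hy
  have h1 : y * y * (y * q * (y * q) + e * (y * q) + 1) = 0 := by rw [h, mul_zero]
  rcases he with rfl | rfl
  · linear_combination (norm := noncomm_ring) -h1 + h3 * (q * y * q) + h3 * q + hy
  · linear_combination (norm := noncomm_ring) -h1 + h3 * (q * y * q) - h3 * q + hy

theorem ring_two {R : Type*} [Ring R] {y i j a b c : R} (hi : i * i = -1) (hj : j * j = -1)
    (hij : j * i = -(i * j)) (ha : a = 1 ∨ a = -1) (h1 : y - i * y * i = a * i - 1)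
    (h2 : y - j * y * j = b * j - 1) (h3 : y - i * j * y * (i * j) = c * (i * j) - 1) :
    y + y = a * i + b * j + c * (i * j) - 1 := by
  have h4 : j * (a * i) * j = a * i := by
    rcases ha with rfl | rfl
    · linear_combination (norm := noncomm_ring) hij * j - i * hj
    · linear_combination (norm := noncomm_ring) -hij * j + i * hj
  linear_combination (norm := noncomm_ring) h2 + h3 + j * h1 * j + h4 - hj + hij * (y * i * j)

theorem five_sq : (5 : ZMod 13) * 5 = -1 := by decide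

theorem finrank_le_four {V : Type*} [AddCommGroup V] [Module (ZMod 13) V] [Nontrivial V]
    {t j y a b c : Module.End (ZMod 13) V} (hi : t * t * (t * t) = -1) (hj : j * j = -1)
    (htj : t * j * (t * j) = -1) (hy : y * y + y + 1 = 0) (ha : a = 1 ∨ a = -1) (hb : b = 1 ∨ b = -1)
    (hc : c = 1 ∨ c = -1) (h1 : y * (t * t) * (y * (t * t)) + a * (y * (t * t)) + 1 = 0)
    (h2 : y * j * (y * j) + b * (y * j) + 1 = 0)
    (h3 : y * (t * t * j) * (y * (t * t * j)) + c * (y * (t * t * j)) + 1 = 0)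
    (hW : ∀ W : Submodule (ZMod 13) V, (∀ v ∈ W, t v ∈ W ∧ y v ∈ W) → W = ⊥ ∨ W = ⊤) :
    Module.finrank (ZMod 13) V ≤ 4 := by
  have : Fact (Nat.Prime 13) := ⟨by norm_num⟩
  have h4 : t * j * t = j := by
    linear_combination (norm := noncomm_ring) -htj * j + t * j * t * hj
  have h5' : t * t * j * (t * t) = j := by linear_combination (norm := noncomm_ring) t * h4 * t + h4
  have h5 : j * (t * t) = -(t * t * j) := by
    linear_combination (norm := noncomm_ring) hi * (j * (t * t)) - t * t * h5'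
  have h8 : t * j = t * t * j * t := by
    linear_combination (norm := noncomm_ring) t * j * hi - h4 * (t * t * t) - h5 * t
  have hD1 : t * t * (t * (1 - t * t)) = t * (1 - t * t) * (t * t) := by noncomm_ring
  have hD2 : j * (t * (1 - t * t)) = t * (1 - t * t) * j := by
    linear_combination (norm := noncomm_ring) -h5 * t - h8 + t * t * h8 + hi * (j * t)
  have hD3 : t * (1 - t * t) * (t * (1 - t * t)) = 1 + 1 := by
    linear_combination (norm := noncomm_ring) hi * (t * t - 1 - 1)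
  have hD4 : t * (1 - t * t) * (1 + t * t) = t + t := by linear_combination (norm := noncomm_ring) -t * hi
  generalize t * (1 - t * t) = D at hD1 hD2 hD3 hD4
  generalize t * t = i at *
  have h6 := ring_two hi hj h5 ha (ring_one hy hi ha h1) (ring_one hy hj hb h2) (ring_one hy
    (by linear_combination (norm := noncomm_ring) i * h5 * j - hi * (j * j) + hj) hc h3)
  obtain ⟨v, hv, h7⟩ : ∃ v, v ≠ 0 ∧ i v = (5 : ZMod 13) • v := by
    obtain ⟨u, hu⟩ := exists_ne (0 : V)
    by_cases h7 : i u + (5 : ZMod 13) • u = 0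
    · refine ⟨j u, fun h8 => hu ?_, ?_⟩
      · simpa [h8] using (LinearMap.congr_fun hj u).symm
      · have := LinearMap.congr_fun h5 u
        simp only [Module.End.mul_apply, LinearMap.neg_apply, eq_neg_of_add_eq_zero_left h7, map_neg,
          map_smul, neg_inj] at this
        exact this.symm
    · refine ⟨_, h7, ?_⟩
      have := LinearMap.congr_fun hi u
      simp only [Module.End.mul_apply, LinearMap.neg_apply, Module.End.one_apply] at this
      rw [map_add, this, map_smul, smul_add, smul_smul, show (5 : ZMod 13) * 5 = -1 from five_sq, neg_one_smul,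
        add_comm]
  let W := Submodule.span (ZMod 13) (Set.range ![v, D v, j v, D (j v)])
  have m0 : v ∈ W := Submodule.subset_span ⟨0, rfl⟩
  have m1 : D v ∈ W := Submodule.subset_span ⟨1, rfl⟩
  have m2 : j v ∈ W := Submodule.subset_span ⟨2, rfl⟩
  have m3 : D (j v) ∈ W := Submodule.subset_span ⟨3, rfl⟩
  have key : ∀ f : Module.End (ZMod 13) V, f v ∈ W → f (D v) ∈ W → f (j v) ∈ W → f (D (j v)) ∈ W →
      ∀ w ∈ W, f w ∈ W := fun f e0 e1 e2 e3 => (Submodule.span_le (p := W.comap f)).2 (by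
    rintro _ ⟨k, rfl⟩
    fin_cases k
    exacts [e0, e1, e2, e3])
  have e1 : ∀ w, i (D w) = D (i w) := LinearMap.congr_fun hD1
  have e2 : ∀ w, j (D w) = D (j w) := LinearMap.congr_fun hD2
  have e3 : ∀ w, D (D w) = w + w := LinearMap.congr_fun hD3
  have e4 : ∀ w, j (j w) = -w := LinearMap.congr_fun hj
  have e5 : i (j v) = -(5 : ZMod 13) • j v := by
    rw [neg_smul, ← map_smul, ← h7, eq_neg_iff_add_eq_zero, add_comm, ← eq_neg_iff_add_eq_zero]
    exact LinearMap.congr_fun h5 v
  have wi := key i (h7 ▸ W.smul_mem _ m0) (by rw [e1, h7, map_smul]; exact W.smul_mem _ m1)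
    (e5 ▸ W.smul_mem _ m2) (by rw [e1, e5, map_smul]; exact W.smul_mem _ m3)
  have wj := key j m2 (e2 v ▸ m3) (e4 v ▸ W.neg_mem m0) (by rw [e2, e4, map_neg]; exact W.neg_mem m1)
  have wD := key D m1 (e3 v ▸ W.add_mem m0 m0) m3 (e3 _ ▸ W.add_mem m2 m2)
  have half : ∀ w, w + w ∈ W → w ∈ W := fun w hw => by
    have := W.smul_mem (7 : ZMod 13) hw
    rwa [smul_add, ← add_smul, show (7 : ZMod 13) + 7 = 1 from rfl, one_smul] at this
  have sgn : ∀ {e : Module.End (ZMod 13) V}, e = 1 ∨ e = -1 → ∀ w ∈ W, e w ∈ W := by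
    rintro _ (rfl | rfl) w hw
    exacts [hw, W.neg_mem hw]
  refine (finrank_le_of_span_eq_top ((hW W fun w hw => ⟨half _ ?_, half _ ?_⟩).resolve_left
    fun h8 => hv ((Submodule.mem_bot _).1 (h8 ▸ m0)))).trans (by simp)
  · rw [← LinearMap.add_apply, ← hD4]
    exact wD _ (W.add_mem hw (wi w hw))
  · rw [← LinearMap.add_apply, h6]
    exact W.sub_mem (W.add_mem (W.add_mem (sgn ha _ (wi w hw))
      (sgn hb _ (wj w hw))) (sgn hc _ (wi _ (wj w hw)))) hw

end CL.CritL
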