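import Cfsg.Agent.ODD.BG4.Aut
import Cfsg.Agent.SOLV.Hol
import Cfsg.Agent.TECH.Crit4

/-! Coprime operator groups on abelian `p`-groups: Maschke's theorem for sections, indecomposable
abelian `p`-groups are uniserial (and homocyclic). -/

set_option autoImplicit false

namespace CL.Hcy

open Subgroup CL.PG
open scoped commutatorElement

/-- Maschke's theorem for an elementary abelian section and a group of automorphisms. -/
theorem maschke {G : Type*} [Group G] [Finite G] {p : ℕ} [Fact p.Prime] {X : Subgroup (MulAut G)}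
    (hX : ¬ p ∣ Nat.card X) {C U V : Subgroup G} (hCU : C ≤ U) (hUV : U ≤ V) (hVV : ⁅V, V⁆ ≤ C)
    (hVp : ∀ v ∈ V, v ^ p ∈ C) (hC : AutInv X C) (hU : AutInv X U) (hV : AutInv X V) :
    ∃ W : Subgroup G, AutInv X W ∧ C ≤ W ∧ W ≤ V ∧ U ⊓ W = C ∧ U ⊔ W = V := by
  have hn : ∀ H : Subgroup G, AutInv X H →
      (⊤ : Subgroup X).map (CL.Hol.inr : X →* CL.Hol X G) ≤
        normalizer ((H.map (CL.Hol.inl : G →* CL.Hol X G) : Subgroup (CL.Hol X G)) :
          Set (CL.Hol X G)) := fun H hH =>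
    CL.Hol.map_inr_le_normalizer_iff.2 fun b _ => hH b b.2
  obtain ⟨W, hCW, hWV, hAW, h1, h2⟩ := CL.BG.Maschke_abelem_section (G := CL.Hol X G) (p := p)
    (A := (⊤ : Subgroup X).map CL.Hol.inr) (C := C.map CL.Hol.inl)
    (U := U.map CL.Hol.inl) (V := V.map CL.Hol.inl)
    ((CL.BG.piGrp_compl_singleton_iff Fact.out).2 (by
      rw [CL.Hol.card_map_inr, card_top]; exact hX))
    (map_mono hCU) (map_mono hUV)
    (by rw [← map_commutator]; exact map_mono hVV)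
    (by
      rintro _ ⟨g, hg, rfl⟩
      rw [← map_pow]
      exact ⟨_, hVp g hg, rfl⟩)
    (hn _ hC) (hn _ hU) (hn _ hV)
  obtain ⟨Y, hY, rfl⟩ := CL.Hol.exists_eq_map_inl hWV
  rw [← CL.Hol.map_inl_inf] at h1
  rw [← Subgroup.map_sup] at h2
  have h3 := CL.Hol.map_inl_inj.1 h1
  exact ⟨Y, fun a ha => CL.Hol.map_inr_le_normalizer_iff.1 hAW ⟨a, ha⟩ (mem_top _),
    h3 ▸ inf_le_right, hY, h3, CL.Hol.map_inl_inj.1 h2⟩

theorem autInv_iff {G : Type*} [Group G] {X : Subgroup (MulAut G)} {B : Subgroup G} :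
    AutInv X B ↔ ∀ x ∈ X, B.map x.toMonoidHom = B :=
  ⟨fun h _ hx => h.map_eq hx, fun h x hx b hb => h x hx ▸ mem_map_of_mem _ hb⟩

theorem autInv_bot {G : Type*} [Group G] (X : Subgroup (MulAut G)) : AutInv X ⊥ :=
  fun x _ b hb => by rw [mem_bot.mp hb, map_one]; exact one_mem _

theorem autInv_top {G : Type*} [Group G] (X : Subgroup (MulAut G)) : AutInv X ⊤ :=
  fun _ _ _ _ => mem_top _

variable {A : Type*} [CommGroup A] {X : Subgroup (MulAut A)}

/-- The elements whose `n`-th power lies in `C`. -/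
def Om (n : ℕ) (C : Subgroup A) : Subgroup A := C.comap (powMonoidHom n)

/-- The `n`-th powers of the elements of `B`. -/
def Pw (n : ℕ) (B : Subgroup A) : Subgroup A := B.map (powMonoidHom n)

theorem mem_Om {n : ℕ} {C : Subgroup A} {a : A} : a ∈ Om n C ↔ a ^ n ∈ C := Iff.rfl

theorem mem_Om_bot {n : ℕ} {a : A} : a ∈ Om n (⊥ : Subgroup A) ↔ a ^ n = 1 := by
  rw [mem_Om, mem_bot]

theorem mem_Pw {n : ℕ} {B : Subgroup A} {a : A} : a ∈ Pw n B ↔ ∃ b ∈ B, b ^ n = a := Iff.rfl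

theorem pow_mem_Pw (n : ℕ) {B : Subgroup A} {b : A} (hb : b ∈ B) : b ^ n ∈ Pw n B := ⟨b, hb, rfl⟩

theorem Pw_le (n : ℕ) (B : Subgroup A) : Pw n B ≤ B := by
  rintro _ ⟨b, hb, rfl⟩; exact B.pow_mem hb n

theorem le_Om (n : ℕ) (C : Subgroup A) : C ≤ Om n C := fun _ h => C.pow_mem h n

theorem autInv_Om (n : ℕ) {C : Subgroup A} (h : AutInv X C) : AutInv X (Om n C) :=
  fun x hx a ha => by rw [mem_Om, ← map_pow]; exact h x hx _ ha

theorem autInv_Pw (n : ℕ) {B : Subgroup A} (h : AutInv X B) : AutInv X (Pw n B) := by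
  rintro x hx _ ⟨b, hb, rfl⟩
  exact ⟨x b, h x hx b hb, (map_pow x b n).symm⟩

theorem commutator_le' (V C : Subgroup A) : ⁅V, V⁆ ≤ C := by
  rw [commutator_le]
  intro a _ b _
  rw [commutatorElement_eq_one_iff_mul_comm.mpr (mul_comm a b)]
  exact one_mem _

variable {p : ℕ}

/-- If `Ω₁(A/C)` is irreducible, an invariant subgroup `B ≥ C` with `B/C` of exponent exactly
`p ^ (i+1)` contains `Ω_{i+1}(A/C)`. -/
theorem Om_le {C : Subgroup A} (hC : AutInv X C)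
    (h : ∀ D : Subgroup A, AutInv X D → C ≤ D → D ≤ Om p C → D = C ∨ Om p C ≤ D) (i : ℕ) :
    ∀ B : Subgroup A, AutInv X B → C ≤ B → B ≤ Om (p ^ (i + 1)) C → ¬ B ≤ Om (p ^ i) C →
      Om (p ^ (i + 1)) C ≤ B := by
  have key : ∀ (i : ℕ) (B : Subgroup A), AutInv X B → B ≤ Om (p ^ (i + 1)) C →
      ¬ B ≤ Om (p ^ i) C → Om (p ^ i) C ≤ B → Om (p ^ (i + 1)) C ≤ B := by
    intro i B hB h1 h2 h3 a ha
    rcases h (C ⊔ Pw (p ^ i) B) (hC.sup (autInv_Pw _ hB)) le_sup_left (sup_le (le_Om _ _) (by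
      rintro _ ⟨b, hb, rfl⟩
      rw [mem_Om, powMonoidHom_apply, ← pow_mul, ← pow_succ]
      exact h1 hb)) with e | e
    · exact (h2 fun b hb => e.le (mem_sup_right (pow_mem_Pw _ hb))).elim
    · obtain ⟨c, hc, _, ⟨b, hb, rfl⟩, e2⟩ := mem_sup.mp (e (x := a ^ p ^ i) (by
        rw [mem_Om, ← pow_mul, ← pow_succ]; exact ha))
      have : a * b⁻¹ ∈ Om (p ^ i) C := by
        rw [mem_Om, mul_pow, ← e2, inv_pow, powMonoidHom_apply, mul_inv_cancel_right]
        exact hc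
      simpa using B.mul_mem (h3 this) hb
  induction i with
  | zero =>
    intro B hB h0 h1 h2
    exact key 0 B hB h1 h2 fun a ha => h0 (by simpa [mem_Om] using ha)
  | succ i ih =>
    intro B hB h0 h1 h2
    refine key _ B hB h1 h2 ((ih (C ⊔ Pw p B) (hC.sup (autInv_Pw _ hB)) le_sup_left
      (sup_le (le_Om _ _) ?_) fun e => h2 fun b hb => ?_).trans (sup_le h0 (Pw_le _ _)))
    · rintro _ ⟨b, hb, rfl⟩
      rw [mem_Om, powMonoidHom_apply, ← pow_mul, ← pow_succ']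
      exact h1 hb
    · have := e (mem_sup_right (pow_mem_Pw p hb))
      rwa [mem_Om, ← pow_mul, ← pow_succ'] at this

/-- Every subgroup `B ≥ C` lies in `C`, or `B/C` has a precise exponent. -/
theorem exists_exponent [Finite A] (hA : IsPGroup p A) (C B : Subgroup A) :
    B ≤ C ∨ ∃ i, B ≤ Om (p ^ (i + 1)) C ∧ ¬ B ≤ Om (p ^ i) C := by
  classical
  have h : ∃ i, B ≤ Om (p ^ i) C := by
    choose k hk using hA
    obtain ⟨n, hn⟩ := (Set.finite_range k).bddAbove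
    refine ⟨n, fun a _ => ?_⟩
    obtain ⟨m, hm⟩ := Nat.exists_eq_add_of_le (hn ⟨a, rfl⟩)
    rw [mem_Om, hm, pow_add, pow_mul, hk, one_pow]
    exact one_mem _
  have h1 := Nat.find_spec h
  rcases hi : Nat.find h with _ | i
  · left
    rw [hi] at h1
    exact fun a ha => by simpa [mem_Om] using h1 ha
  · exact Or.inr ⟨i, hi ▸ h1, Nat.find_min h (by omega)⟩

/-- If `Ω₁(A/C)` is irreducible then the invariant subgroups over `C` are the `Ω_i(A/C)`. -/
theorem exists_eq_Om [Finite A] (hA : IsPGroup p A) {C : Subgroup A} (hC : AutInv X C)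
    (h : ∀ D : Subgroup A, AutInv X D → C ≤ D → D ≤ Om p C → D = C ∨ Om p C ≤ D)
    {B : Subgroup A} (hB : AutInv X B) (hCB : C ≤ B) : ∃ i, B = Om (p ^ i) C := by
  rcases exists_exponent hA C B with h1 | ⟨i, h1, h2⟩
  · exact ⟨0, le_antisymm (h1.trans (le_Om _ _)) fun a ha => hCB (by simpa [mem_Om] using ha)⟩
  · exact ⟨i + 1, le_antisymm h1 (Om_le hC h i B hB hCB h1 h2)⟩

/-- A nontrivial abelian `p`-group with coprime operators has a homocyclic invariant direct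
factor `B` of maximal exponent with irreducible `Ω₁(B)`. -/
theorem exists_factor [Finite A] [hp : Fact p.Prime] (hA : IsPGroup p A) (hX : ¬ p ∣ Nat.card X)
    [Nontrivial A] : ∃ (e : ℕ) (B C : Subgroup A), AutInv X B ∧ AutInv X C ∧ B ⊓ C = ⊥ ∧
      B ⊔ C = ⊤ ∧ (∀ a : A, a ^ p ^ (e + 1) = 1) ∧ Pw (p ^ e) B ≠ ⊥ ∧
      B ⊓ Om p ⊥ = Pw (p ^ e) B ∧
      ∀ D : Subgroup A, AutInv X D → D ≤ Pw (p ^ e) B → D = ⊥ ∨ D = Pw (p ^ e) B := by
  obtain ⟨e, he1, he2⟩ := (exists_exponent hA ⊥ ⊤).resolve_left (by simp)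
  have he : ∀ a : A, a ^ p ^ (e + 1) = 1 := fun a => mem_Om_bot.mp (he1 (mem_top a))
  have hM : Pw (p ^ e) (⊤ : Subgroup A) ≠ ⊥ := fun h =>
    he2 fun a ha => by rw [mem_Om, ← h]; exact pow_mem_Pw _ ha
  have hPw : ∀ B : Subgroup A, Pw (p ^ e) B ≤ Om p ⊥ := by
    rintro B _ ⟨b, -, rfl⟩
    rw [mem_Om_bot, powMonoidHom_apply, ← pow_mul, ← pow_succ, he]
  obtain ⟨S, hSM, hS⟩ := exists_minimal_le_of_wellFoundedLT
    (fun S : Subgroup A => AutInv X S ∧ S ≠ ⊥) _ ⟨autInv_Pw _ (autInv_top X), hM⟩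
  obtain ⟨B, -, hB⟩ := exists_minimal_le_of_wellFoundedLT
    (fun B : Subgroup A => AutInv X B ∧ S ≤ Pw (p ^ e) B) _ ⟨autInv_top X, hSM⟩
  have hBS : Pw (p ^ e) B = S := by
    refine le_antisymm ?_ hB.prop.2
    have h1 := hB.le_of_le (y := B ⊓ Om (p ^ e) S) ⟨hB.prop.1.inf (autInv_Om _ hS.prop.1), by
      intro s hs
      obtain ⟨b, hb, rfl⟩ := hB.prop.2 hs
      exact ⟨b, ⟨hb, hs⟩, rfl⟩⟩ inf_le_left
    rintro _ ⟨b, hb, rfl⟩
    exact (h1 hb).2
  have hK : ∀ b ∈ B, b ^ p ^ e = 1 → b ∈ Pw p B := by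
    obtain ⟨W, hW, h1, h2, h3, h4⟩ := maschke hX (C := Pw p B) (U := B ⊓ Om (p ^ e) ⊥) (V := B)
      (le_inf (Pw_le _ _) (by
        rintro _ ⟨b, -, rfl⟩
        rw [mem_Om_bot, powMonoidHom_apply, ← pow_mul, ← pow_succ', he]))
      inf_le_left (commutator_le' _ _) (fun v hv => pow_mem_Pw _ hv) (autInv_Pw _ hB.prop.1)
      (hB.prop.1.inf (autInv_Om _ (autInv_bot X))) hB.prop.1
    have h5 := hB.le_of_le (y := W) ⟨hW, by
      intro s hs
      obtain ⟨b, hb, rfl⟩ := hB.prop.2 hs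
      rw [← h4] at hb
      obtain ⟨u, hu, w, hw, rfl⟩ := mem_sup.mp hb
      refine ⟨w, hw, ?_⟩
      rw [map_mul, powMonoidHom_apply _ u, mem_Om_bot.mp hu.2, one_mul]⟩ h2
    intro b hb h
    rw [← h3]
    exact ⟨⟨hb, mem_Om_bot.mpr h⟩, h5 hb⟩
  have hO : B ⊓ Om p ⊥ = S := by
    refine le_antisymm (fun b hb => ?_) (hBS ▸ le_inf (Pw_le _ _) (hPw B))
    have : ∀ k ≤ e, b ∈ Pw (p ^ k) B := by
      intro k
      induction k with
      | zero => intro _; exact ⟨b, hb.1, by simp⟩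
      | succ k ih =>
        intro hk
        obtain ⟨c, hc, rfl⟩ := ih (by omega)
        obtain ⟨m, rfl⟩ := Nat.exists_eq_add_of_le hk
        obtain ⟨d, hd, rfl⟩ := hK c hc (by
          have := mem_Om_bot.mp hb.2
          rw [powMonoidHom_apply, ← pow_mul, ← pow_succ] at this
          rw [pow_add, pow_mul, this, one_pow])
        exact ⟨d, hd, by simp only [powMonoidHom_apply]; rw [← pow_mul, ← pow_succ']⟩
    rw [← hBS]
    exact this e le_rfl
  obtain ⟨C, -, hC⟩ := exists_maximal_ge_of_wellFoundedGT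
    (fun C : Subgroup A => AutInv X C ∧ C ⊓ S = ⊥) ⊥ ⟨autInv_bot X, bot_inf_eq _⟩
  have hirr : ∀ D : Subgroup A, AutInv X D → D ≤ S → D = ⊥ ∨ D = S := fun D hD hDS => by
    by_cases h : D = ⊥
    · exact Or.inl h
    · exact Or.inr (le_antisymm hDS (hS.le_of_le ⟨hD, h⟩ hDS))
  have hSC : ¬ S ≤ C := fun h => hS.prop.2 (by rw [← hC.prop.2, inf_eq_right.mpr h])
  have hOC : Om p C = C ⊔ S := by
    obtain ⟨W, hW, h1, h2, h3, h4⟩ := maschke hX (C := C) (U := C ⊔ S) (V := Om p C) le_sup_left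
      (sup_le (le_Om _ _) ((hSM.trans (hPw ⊤)).trans (comap_mono bot_le)))
      (commutator_le' _ _) (fun v hv => hv) hC.prop.1 (hC.prop.1.sup hS.prop.1)
      (autInv_Om _ hC.prop.1)
    have h5 := hC.le_of_ge (y := W) ⟨hW, by
      rw [eq_bot_iff, ← hC.prop.2, ← h3]
      exact le_inf (le_inf (inf_le_right.trans le_sup_right) inf_le_left) inf_le_right⟩ h1
    rw [← h4]
    exact sup_eq_left.mpr (h5.trans le_sup_left)
  refine ⟨e, B, C, hB.prop.1, hC.prop.1, ?_, ?_, he, hBS ▸ hS.prop.2, hBS ▸ hO, hBS ▸ hirr⟩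
  · by_contra h
    obtain ⟨x, hx, hxp⟩ := CL.PN.exists_orderOf_eq_prime (hA.to_subgroup _) h
    have h1 : x ∈ C ⊓ S := ⟨hx.2, hO.le ⟨hx.1, mem_Om_bot.mpr (by
      rw [← hxp, pow_orderOf_eq_one])⟩⟩
    rw [hC.prop.2, mem_bot] at h1
    rw [h1, orderOf_one] at hxp
    exact hp.out.one_lt.ne hxp
  · rw [eq_top_iff]
    have h1 : ⊤ ≤ Om (p ^ (e + 1)) C := he1.trans (comap_mono bot_le)
    refine h1.trans (Om_le hC.prop.1 (fun D hD hCD _ => ?_) e _ (hB.prop.1.sup hC.prop.1)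
      le_sup_right (le_top.trans h1) fun h => hSC ?_)
    · rcases hirr (D ⊓ S) (hD.inf hS.prop.1) inf_le_right with h | h
      · exact Or.inl (le_antisymm (hC.le_of_ge ⟨hD, h⟩ hCD) hCD)
      · exact Or.inr (hOC ▸ sup_le hCD (h ▸ inf_le_left))
    · rw [← hBS]
      rintro _ ⟨b, hb, rfl⟩
      exact h (mem_sup_left hb)

end CL.Hcy
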