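import Cfsg.Agent.PLOC.ClassTwo
import Cfsg.Agent.SOLV.MaxClass
import Cfsg.Agent.FGS.Homocyclic
import Cfsg.Agent.INV.TwoInv

/-! Dedekind groups (all subgroups normal): the theorem of Dedekind and Baer. -/

set_option autoImplicit false

namespace CL.Ded

open Subgroup CL.PG
open scoped commutatorElement

variable {G : Type*} [Group G]

theorem comm_mem_left (h : ∀ H : Subgroup G, H.Normal) (x y : G) : ⁅x, y⁆ ∈ zpowers x := by
  have := mul_mem (mem_zpowers x) ((h (zpowers x)).conj_mem _ (inv_mem (mem_zpowers x)) y)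
  simpa [commutatorElement_def, mul_assoc] using this

theorem comm_mem_right (h : ∀ H : Subgroup G, H.Normal) (x y : G) : ⁅x, y⁆ ∈ zpowers y := by
  rw [← commutatorElement_inv]
  exact inv_mem (comm_mem_left h y x)

theorem commute_of_mem {x c : G} (h : c ∈ zpowers x) : Commute x c := by
  obtain ⟨k, rfl⟩ := h
  exact (Commute.refl x).zpow_right k

theorem subgroup (h : ∀ H : Subgroup G, H.Normal) (K : Subgroup G) (H : Subgroup K) :
    H.Normal := by
  rw [← comap_map_eq_self_of_injective K.subtype_injective H]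
  exact (h _).comap _

theorem eq_of_sq_eq_one {a g : G} (h : a ^ 2 = 1) (hg : g ∈ zpowers a) : g = 1 ∨ g = a := by
  obtain ⟨k, rfl⟩ := hg
  have h2 : a ^ (2 : ℤ) = 1 := by rw [← h, zpow_ofNat]
  rcases Int.even_or_odd' k with ⟨m, rfl | rfl⟩
  · left; simp only [zpow_mul, h2, one_zpow]
  · right; simp only [zpow_add, zpow_mul, h2, one_zpow, zpow_one, one_mul]

/-- Involutions of a Dedekind group are central. -/
theorem mem_center_of_sq (h : ∀ H : Subgroup G, H.Normal) {a : G} (ha : a ^ 2 = 1) :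
    a ∈ center G := by
  rw [mem_center_iff]
  intro g
  rcases eq_of_sq_eq_one ha ((h (zpowers a)).conj_mem _ (mem_zpowers a) g) with e | e
  · rw [conj_eq_one_iff.mp e]; simp
  · exact mul_inv_eq_iff_eq_mul.mp e

variable [Finite G]

theorem mem_zpowers_four {x y : G} (hx : orderOf x = 4) (h : y ∈ zpowers x) :
    y = 1 ∨ y = x ∨ y = x ^ 2 ∨ y = x⁻¹ := by
  classical
  have h4 : x ^ 4 = 1 := by rw [← hx, pow_orderOf_eq_one]
  rw [mem_zpowers_iff_mem_range_orderOf, hx] at h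
  obtain ⟨k, hk, rfl⟩ := Finset.mem_image.mp h
  rw [Finset.mem_range] at hk
  interval_cases k
  · simp
  · simp
  · simp
  · refine Or.inr (Or.inr (Or.inr (eq_inv_of_mul_eq_one_left ?_)))
    rw [← pow_succ, h4]

theorem conj_eq_or (h : ∀ H : Subgroup G, H.Normal) {x : G} (hx : orderOf x = 4) (g : G) :
    g * x * g⁻¹ = x ∨ g * x * g⁻¹ = x⁻¹ := by
  have h4 : x ^ 4 = 1 := by rw [← hx, pow_orderOf_eq_one]
  have h2 : (g * x * g⁻¹) ^ 2 ≠ 1 := by
    rw [conj_pow, Ne, conj_eq_one_iff]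
    exact pow_ne_one_of_lt_orderOf two_ne_zero (by omega)
  rcases mem_zpowers_four hx ((h (zpowers x)).conj_mem _ (mem_zpowers x) g) with e | e | e | e
  · exact (h2 (by rw [e, one_pow])).elim
  · exact Or.inl e
  · exact (h2 (by rw [e, ← pow_mul, h4])).elim
  · exact Or.inr e

theorem exists_pair_aux (h : ∀ H : Subgroup G, H.Normal) {x y : G} (hxy : ⁅x, y⁆ ≠ 1)
    (hle : orderOf y ≤ orderOf x)
    (hmin : ∀ a b : G, ⁅a, b⁆ ≠ 1 → orderOf x + orderOf y ≤ orderOf a + orderOf b) :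
    orderOf x = 4 ∧ orderOf y = 4 := by
  set c := ⁅x, y⁆ with hc
  have hcx := comm_mem_left h x y
  have hcy := comm_mem_right h x y
  have hx : ∀ q : ℕ, q.Prime → q ∣ orderOf x → c ^ q = 1 := by
    intro q hq hd
    by_contra hne
    rw [hc, ← commutator_pow_left (commute_of_mem hcx)] at hne
    have h1 := hmin _ _ hne
    rw [orderOf_pow_of_dvd hq.ne_zero hd] at h1
    have := Nat.div_lt_self (orderOf_pos x) hq.one_lt
    omega
  have hy : ∀ q : ℕ, q.Prime → q ∣ orderOf y → c ^ q = 1 := by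
    intro q hq hd
    by_contra hne
    rw [hc, ← commutator_pow_right (commute_of_mem hcy)] at hne
    have h1 := hmin _ _ hne
    rw [orderOf_pow_of_dvd hq.ne_zero hd] at h1
    have := Nat.div_lt_self (orderOf_pos y) hq.one_lt
    omega
  obtain ⟨p, hp, hpc⟩ := Nat.exists_prime_and_dvd (n := orderOf c) (by simpa using hxy)
  have := Fact.mk hp
  have hco : orderOf c = p := orderOf_eq_prime (hx p hp (hpc.trans (orderOf_dvd_of_mem_zpowers hcx))) hxy
  have hpw : ∀ z : G, c ∈ zpowers z → (∀ q : ℕ, q.Prime → q ∣ orderOf z → c ^ q = 1) →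
      ∃ m, orderOf z = p ^ (m + 1) := by
    intro z hz hq
    have e := Nat.eq_prime_pow_of_unique_prime_dvd (orderOf_pos z).ne' (p := p) fun {q} hq1 hq2 =>
      ((Nat.prime_dvd_prime_iff_eq hp hq1).mp (hco ▸ orderOf_dvd_of_pow_eq_one (hq q hq1 hq2))).symm
    rcases hk : (orderOf z).primeFactorsList.length with _ | m
    · rw [hk, pow_zero, orderOf_eq_one_iff] at e
      rw [e, zpowers_one_eq_bot, mem_bot] at hz
      exact (hxy hz).elim
    · exact ⟨m, by rw [e, hk]⟩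
  obtain ⟨m, hm⟩ := hpw x hcx hx
  obtain ⟨n, hn⟩ := hpw y hcy hy
  rw [hm, hn, Nat.pow_le_pow_iff_right hp.one_lt] at hle
  obtain ⟨d, rfl⟩ : ∃ d, m = n + d := ⟨m - n, by omega⟩
  have h1 : y ^ p ^ n ∈ zpowers c := CL.PCyc.pow_pow_mem_of_ne_bot hp hn fun e =>
    hxy (mem_bot.mp (e ▸ (⟨mem_zpowers c, hcy⟩ : c ∈ zpowers c ⊓ zpowers y)))
  have h2 : c ∈ zpowers (x ^ p ^ (n + d)) := by
    obtain ⟨j, hj⟩ := mem_zpowers_iff.mp hcx
    have h3 : ((p ^ (n + d + 1) : ℕ) : ℤ) ∣ j * p := by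
      rw [← hm, orderOf_dvd_iff_zpow_eq_one, zpow_mul, hj, zpow_natCast, ← hco, pow_orderOf_eq_one]
    rw [pow_succ, Nat.cast_mul, mul_dvd_mul_iff_right (by exact_mod_cast hp.ne_zero)] at h3
    obtain ⟨k, rfl⟩ := h3
    exact ⟨k, by rw [← hc, zpow_mul, zpow_natCast] at hj; exact hj⟩
  obtain ⟨k, hk⟩ := mem_zpowers_iff.mp (zpowers_le.mpr h2 h1)
  set z := x ^ (-(k * p ^ d)) with hz
  have hzx : Commute x z := (Commute.refl x).zpow_right _
  have hz1 : z ^ p ^ n * y ^ p ^ n = 1 := by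
    rw [← hk, hz, ← zpow_natCast, ← zpow_natCast, ← zpow_mul, ← zpow_mul, ← zpow_add]
    rw [show -(k * (p : ℤ) ^ d) * ((p ^ n : ℕ) : ℤ) + ((p ^ (n + d) : ℕ) : ℤ) * k = 0 by
      push_cast; ring, zpow_zero]
  have hz2 : ⁅x, z * y⁆ = c := by
    rw [commutator_mul_right_of_commute ((commute_of_mem hcx).zpow_left _),
      commutatorElement_eq_one_iff_commute.mpr hzx, one_mul]
  have hz3 : ⁅y, z⁆ = c ^ (k * p ^ d) := by
    rw [hz, commutator_zpow_right (commute_of_mem (comm_mem_right h y x)), ← commutatorElement_inv,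
      ← hc, inv_zpow', neg_neg]
  have h4 : (z * y) ^ p ^ n ≠ 1 := by
    intro e
    have h5 := hmin x (z * y) (by rwa [hz2])
    have h6 := Nat.le_of_dvd (pow_pos hp.pos n) (orderOf_dvd_of_pow_eq_one e)
    have h7 := Nat.pow_lt_pow_right hp.one_lt (Nat.lt_add_one n)
    omega
  rw [mul_pow_of_commute_commutator (commute_of_mem (comm_mem_right h y z))
    (commute_of_mem (comm_mem_left h y z)), hz1, mul_one, hz3, ← zpow_natCast, ← zpow_mul, Ne,
    ← orderOf_dvd_iff_zpow_eq_one, hco] at h4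
  have h5 : d = 0 := by
    by_contra hd
    exact h4 (((dvd_pow_self (p : ℤ) hd).mul_left _).mul_right _)
  have h6 : ¬ p ∣ (p ^ n).choose 2 := fun e => h4 ((Int.natCast_dvd_natCast.mpr e).mul_left _)
  have h7 : n ≠ 0 := by
    rintro rfl
    exact h6 (by simp)
  have h8 : p = 2 := by
    by_contra hp2
    exact h6 ((dvd_pow_self p h7).trans (dvd_choose_two_of_odd (hp.odd_of_ne_two hp2).pow))
  subst h8 h5
  have h9 : n = 1 := by
    by_contra hn1
    obtain ⟨l, rfl⟩ : ∃ l, n = l + 2 := ⟨n - 2, by omega⟩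
    apply h6
    rw [Nat.choose_two_right, pow_succ, mul_assoc, mul_left_comm, Nat.mul_div_cancel_left _ two_pos]
    exact (dvd_pow_self 2 (by omega)).mul_right _
  subst h9
  exact ⟨hm, hn⟩

/-- A non-abelian Dedekind group contains a standard pair of generators of `Q₈`. -/
theorem exists_pair (h : ∀ H : Subgroup G, H.Normal) (hna : ¬ IsMulCommutative G) :
    ∃ x y : G, orderOf x = 4 ∧ orderOf y = 4 ∧ y * y = x ^ 2 ∧ y * x * y⁻¹ = x⁻¹ ∧
      y ∉ zpowers x := by
  obtain ⟨x, y, hxy, hx, hy⟩ : ∃ x y : G, ⁅x, y⁆ ≠ 1 ∧ orderOf x = 4 ∧ orderOf y = 4 := by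
    obtain ⟨⟨x, y⟩, hxy, hmin⟩ := exists_minimalFor_of_wellFoundedLT
      (fun z : G × G => ⁅z.1, z.2⁆ ≠ 1) (fun z => orderOf z.1 + orderOf z.2) (by
        by_contra hc
        push Not at hc
        exact hna ⟨⟨fun a b => commutatorElement_eq_one_iff_mul_comm.mp (hc (a, b))⟩⟩)
    have hmin' : ∀ a b : G, ⁅a, b⁆ ≠ 1 → orderOf x + orderOf y ≤ orderOf a + orderOf b :=
      fun a b hab => le_of_not_gt fun hlt => hlt.not_ge (hmin (j := (a, b)) hab hlt.le)
    rcases le_total (orderOf y) (orderOf x) with hle | hle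
    · exact ⟨x, y, hxy, exists_pair_aux h hxy hle hmin'⟩
    · have hyx : ⁅y, x⁆ ≠ 1 := by rwa [← commutatorElement_inv, Ne, inv_eq_one]
      exact ⟨y, x, hyx, exists_pair_aux h hyx hle fun a b hab => add_comm (orderOf x) _ ▸ hmin' a b hab⟩
  have hne : x * y ≠ y * x := fun e => hxy (commutatorElement_eq_one_iff_mul_comm.mpr e)
  have h1 := (conj_eq_or h hx y).resolve_left fun e => hne (mul_inv_eq_iff_eq_mul.mp e).symm
  have h2 := (conj_eq_or h hy x).resolve_left fun e => hne (mul_inv_eq_iff_eq_mul.mp e)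
  refine ⟨x, y, hx, hy, ?_, h1, fun e => hne (commute_of_mem e)⟩
  have h3 : y ^ 4 = 1 := by rw [← hy, pow_orderOf_eq_one]
  calc y * y = y ^ 4 * (y⁻¹ * y⁻¹) := by rw [← sq]; group
    _ = (x * y * x⁻¹) * y⁻¹ := by rw [h3, h2, one_mul]
    _ = x * (y * x * y⁻¹)⁻¹ := by group
    _ = x ^ 2 := by rw [h1, inv_inv, sq]

/-- A Dedekind group of odd order is abelian. -/
theorem isMulCommutative_of_odd (h : ∀ H : Subgroup G, H.Normal) (ho : Odd (Nat.card G)) :
    IsMulCommutative G := by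
  by_contra hna
  obtain ⟨x, -, hx, -⟩ := exists_pair h hna
  have := (hx ▸ orderOf_dvd_natCard x : 4 ∣ Nat.card G)
  obtain ⟨k, hk⟩ := ho
  omega

/-- An element centralizing a quaternion pair has no order `4`. -/
theorem sq_eq_one_of_commute (h : ∀ H : Subgroup G, H.Normal) {x y c : G} (hx : orderOf x = 4)
    (hxy : y * x * y⁻¹ = x⁻¹) (h1 : Commute c x) (h2 : Commute c y) {k : ℕ}
    (hc : c ^ 2 ^ k = 1) : c ^ 2 = 1 := by
  have hx4 : x ^ 4 = 1 := by rw [← hx, pow_orderOf_eq_one]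
  have hx2 : x ^ 2 ≠ 1 := pow_ne_one_of_lt_orderOf two_ne_zero (by omega)
  have key : ∀ c : G, Commute c x → Commute c y → c ^ 4 = 1 → c ^ 2 = 1 := by
    intro c h1 h2 hc
    by_contra hc2
    have h3 : (x * c) ^ 4 = 1 := by rw [h1.symm.mul_pow, hx4, hc, one_mul]
    have h4 : y * (x * c) * y⁻¹ = x⁻¹ * c := by
      rw [← hxy, mul_assoc y, mul_assoc x, h2.inv_right.eq]; group
    have h5 : x⁻¹ * c ≠ x * c := fun e => hx2 (by
      rw [sq]; exact mul_eq_one_iff_inv_eq.mpr (mul_right_cancel e))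
    by_cases h6 : (x * c) ^ 2 = 1
    · exact h5 (by rw [← h4, mem_center_iff.mp (mem_center_of_sq h h6) y, mul_inv_cancel_right])
    · have h7 : orderOf (x * c) = 2 ^ 2 := orderOf_eq_prime_pow (by simpa using h6) h3
      rcases conj_eq_or h h7 y with e | e
      · exact h5 (h4.symm.trans e)
      · rw [h4, ← h1.eq, mul_inv_rev] at e
        exact hc2 (by rw [sq]; exact mul_eq_one_iff_eq_inv.mpr (mul_left_cancel e))
  induction k generalizing c with
  | zero => rw [show c = 1 by simpa using hc, one_pow]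
  | succ k ih =>
    apply key c h1 h2
    have := ih (h1.pow_left 2) (h2.pow_left 2) (by rwa [← pow_mul, ← pow_succ'])
    rwa [← pow_mul] at this

/-- The theorem of Dedekind and Baer. -/
theorem dedekind_baer (h : ∀ H : Subgroup G, H.Normal) (hna : ¬ IsMulCommutative G) :
    ∃ Q E A : Subgroup G, Nonempty (Q ≃* QuaternionGroup 2) ∧ Cfsg.IsElementaryAbelian 2 E ∧
      IsMulCommutative A ∧ Odd (Nat.card A) ∧ E ⊓ A = ⊥ ∧ Q ⊓ (E ⊔ A) = ⊥ ∧ Q ⊔ (E ⊔ A) = ⊤ := by
  obtain ⟨x, y, hx, hy, h1, h2, h3⟩ := exists_pair h hna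
  obtain ⟨e⟩ := CL.TwoInv.nonempty_closure_mulEquiv_quaternion (n := 2) hx h1 h2 h3
  set Q := Subgroup.closure ({x, y} : Set G) with hQ
  have hxQ : x ∈ Q := subset_closure (by simp)
  have hyQ : y ∈ Q := subset_closure (by simp)
  have hx4 : x ^ 4 = 1 := by rw [← hx, pow_orderOf_eq_one]
  have hx2 : x ^ 2 ≠ 1 := pow_ne_one_of_lt_orderOf two_ne_zero (by omega)
  let N : Subgroup G :=
    { carrier := {z | z ^ 2 = 1}
      one_mem' := one_pow _
      mul_mem' := fun {a b} ha hb => by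
        have hc : Commute b a := mem_center_iff.mp (mem_center_of_sq h ha) b
        rw [Set.mem_ofPred_eq, hc.symm.mul_pow, ha, hb, one_mul]
      inv_mem' := fun {a} ha => by rw [Set.mem_ofPred_eq, inv_pow, ha, inv_one] }
  have hN : ∀ a ∈ N, ∀ b : G, b * a = a * b := fun a ha b =>
    mem_center_iff.mp (mem_center_of_sq h ha) b
  have hzN : x ^ 2 ∈ N := by
    show (x ^ 2) ^ 2 = 1
    rw [← pow_mul, hx4]
  obtain ⟨E, -, -, hE, hE1, hE2⟩ := CL.Hcy.maschke (p := 2) (X := (⊥ : Subgroup (MulAut G)))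
    (by simp) (C := ⊥) (U := zpowers (x ^ 2)) (V := N) bot_le (zpowers_le.mpr hzN)
    (by rw [commutator_le]; exact fun a _ b hb => commutatorElement_eq_one_iff_mul_comm.mpr (hN b hb a))
    (fun v hv => hv)
    (fun a ha x hx => by rw [mem_bot.mp ha]; exact hx)
    (fun a ha x hx => by rw [mem_bot.mp ha]; exact hx)
    (fun a ha x hx => by rw [mem_bot.mp ha]; exact hx)
  obtain ⟨P⟩ : Nonempty (Sylow 2 G) := inferInstance
  have := h P
  obtain ⟨A, hA⟩ := exists_right_complement'_of_coprime P.card_coprime_index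
  have hodd : Odd (Nat.card A) := by
    rw [← hA.symm.index_eq_card, ← Nat.not_even_iff_odd, even_iff_two_dvd]
    exact P.not_dvd_index
  have hA1 : ∀ a ∈ A, a ^ 4 = 1 → a = 1 := fun a ha e => by
    rw [← orderOf_eq_one_iff]
    exact Nat.eq_one_of_dvd_coprimes ((Nat.coprime_two_left.mpr hodd).pow_left 2)
      (orderOf_dvd_of_pow_eq_one e) (orderOf_dvd_natCard A ha)
  have hQ4 : ∀ g ∈ Q, g ^ 4 = 1 := fun g hg => by
    have : ∀ u : QuaternionGroup 2, u ^ 4 = 1 := by decide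
    have h4 : (⟨g, hg⟩ : Q) ^ 4 = 1 := e.injective (by rw [map_pow, this, map_one])
    exact congrArg Subtype.val h4
  have hQ2 : ∀ g ∈ Q, g ^ 2 = 1 → g ∈ zpowers (x ^ 2) := fun g hg hg2 => by
    have : ∀ u v : QuaternionGroup 2, u ^ 2 = 1 → v ^ 2 = 1 → v ≠ 1 → u = 1 ∨ u = v := by decide
    rcases this (e ⟨g, hg⟩) (e ⟨x ^ 2, pow_mem hxQ 2⟩)
      (by rw [← map_pow, ← map_one e]; exact congrArg e (Subtype.ext hg2))
      (by rw [← map_pow, ← map_one e]; exact congrArg e (Subtype.ext hzN))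
      (fun e1 => hx2 (congrArg Subtype.val (e.map_eq_one_iff.mp e1))) with e1 | e1
    · rw [show g = 1 from congrArg Subtype.val (e.map_eq_one_iff.mp e1)]
      exact one_mem _
    · rw [show g = x ^ 2 from congrArg Subtype.val (e.injective e1)]
      exact mem_zpowers _
  refine ⟨Q, E, A, ⟨e⟩, ⟨⟨⟨fun a b => Subtype.ext (hN _ (hE b.2) _)⟩⟩, fun a ha => hE ha⟩,
    isMulCommutative_of_odd (subgroup h A) hodd, hodd, ?_, ?_, ?_⟩
  · rw [eq_bot_iff]
    intro g hg
    apply hA1 g hg.2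
    rw [show 4 = 2 * 2 from rfl, pow_mul, show g ^ 2 = 1 from hE hg.1, one_pow]
  · rw [eq_bot_iff]
    rintro g ⟨hg1, hg2⟩
    have := h E
    obtain ⟨u, hu, a, ha, rfl⟩ := mem_sup_of_normal_left.mp hg2
    have h4 := hQ4 _ hg1
    rw [(Commute.symm (hN u (hE hu) a)).mul_pow, show 4 = 2 * 2 from rfl, pow_mul,
      show u ^ 2 = 1 from hE hu, one_pow, one_mul] at h4
    rw [hA1 a ha h4, mul_one] at hg1 ⊢
    rw [← hE1]
    exact ⟨hQ2 u hg1 (hE hu), hu⟩
  · rw [eq_top_iff, ← hA.sup_eq_top]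
    refine sup_le (fun g hg => ?_) (le_sup_right.trans le_sup_right)
    have hQP : Q ≤ P := by
      apply IsPGroup.le_sylow_of_normal
      intro g
      exact ⟨2, Subtype.ext (hQ4 g g.2)⟩
    have key : ∀ q ∈ Q, g * x * g⁻¹ = q * x * q⁻¹ → g * y * g⁻¹ = q * y * q⁻¹ →
        g ∈ Q ⊔ (E ⊔ A) := by
      intro q hq e1 e2
      obtain ⟨k, hk⟩ := P.isPGroup' ⟨q⁻¹ * g, mul_mem (inv_mem (hQP hq)) hg⟩
      have h5 : q⁻¹ * g ∈ N := sq_eq_one_of_commute h hx h2 (c := q⁻¹ * g) (k := k)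
        (by calc q⁻¹ * g * x = q⁻¹ * (g * x * g⁻¹) * g := by group
              _ = _ := by rw [e1]; group)
        (by calc q⁻¹ * g * y = q⁻¹ * (g * y * g⁻¹) * g := by group
              _ = _ := by rw [e2]; group) (congrArg Subtype.val hk)
      rw [← hE2] at h5
      have h6 : zpowers (x ^ 2) ⊔ E ≤ Q ⊔ (E ⊔ A) :=
        sup_le_sup (zpowers_le.mpr (pow_mem hxQ 2)) le_sup_left
      simpa using mul_mem (mem_sup_left hq) (h6 h5)
    have h4 : x * y * x⁻¹ = y⁻¹ := (conj_eq_or h hy x).resolve_left fun e => hx2 (by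
      have h5 : y * x * y⁻¹ = x := by rw [← mul_inv_eq_iff_eq_mul.mp e, mul_inv_cancel_right]
      rw [sq]; exact mul_eq_one_iff_inv_eq.mpr (h2.symm.trans h5))
    rcases conj_eq_or h hx g with e1 | e1 <;> rcases conj_eq_or h hy g with e2 | e2
    · exact key 1 (one_mem _) (by simpa using e1) (by simpa using e2)
    · exact key x hxQ (by simpa using e1) (e2.trans h4.symm)
    · exact key y hyQ (e1.trans h2.symm) (by simpa using e2)
    · refine key (x * y) (mul_mem hxQ hyQ) (e1.trans ?_) (e2.trans ?_)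
      · calc x⁻¹ = x * x⁻¹ * x⁻¹ := by group
          _ = _ := by nth_rewrite 1 [← h2]; group
      · rw [← h4]; group

end CL.Ded
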