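import Mathlib
import Cfsg.Agent.PLOC.FrobeniusNPC
import Cfsg.Agent.SOLV.Fitting
import Cfsg.Agent.FGS.ClassSize

/-!
# A Sylow subgroup as a direct factor
-/

namespace CL.DirectSylow

open Subgroup

variable {G : Type*} [Group G]

theorem direct_iff_commute [Finite G] (p : ℕ) [hp : Fact p.Prime] :
    (∃ (P : Sylow p G) (K : Subgroup G), (P : Subgroup G).Normal ∧ K.Normal ∧
      (P : Subgroup G) ⊓ K = ⊥ ∧ (P : Subgroup G) ⊔ K = ⊤) ↔
    ∀ x y : G, (∃ a : ℕ, orderOf x = p ^ a) →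
      (∃ q b : ℕ, q.Prime ∧ q ≠ p ∧ orderOf y = q ^ b) → x * y = y * x := by
  constructor
  · rintro ⟨P, K, hP, hK, hi, hs⟩ x y ⟨a, ha⟩ ⟨q, b, hq, hqp, hb⟩
    have hx : x ∈ (P : Subgroup G) := mem_of_coprime_index (by
      rw [ha]
      exact Nat.Coprime.pow_left _ ((Nat.Prime.coprime_iff_not_dvd hp.out).2 P.not_dvd_index))
    have hy : y ∈ K := mem_of_coprime_index (by
      obtain ⟨k, hk⟩ := IsPGroup.iff_card.1
        (isPGroup_quotient_of_sup_eq_top K P.isPGroup' (by rwa [sup_comm]))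
      rw [hb, index_eq_card, hk]
      exact Nat.Coprime.pow _ _ ((Nat.coprime_primes hq hp.out).2 hqp))
    exact commute_of_normal_of_disjoint _ _ hP hK (disjoint_iff.2 hi) x y hx hy
  · intro h
    obtain ⟨P⟩ : Nonempty (Sylow p G) := inferInstance
    have hPel : ∀ x ∈ (P : Subgroup G), ∃ a : ℕ, orderOf x = p ^ a := fun x hx => by
      obtain ⟨k, hk⟩ := IsPGroup.iff_orderOf.1 P.isPGroup' ⟨x, hx⟩
      exact ⟨k, by rwa [Subgroup.orderOf_mk] at hk⟩
    have hN : Cfsg.HasNormalPComplement p G := by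
      by_contra hN
      obtain ⟨Q, q, k, g, h1, h2, h3, h4, -, h6, -⟩ := Tr.exists_prime_acting_of_not_hasNPC P hN
      exact h6 fun x hx => h x g (hPel x (h1 hx)) ⟨q, _, h2, h3, h4⟩
    have hc := isComplement'_pResidual_of_hasNPC hN P
    refine ⟨P, Cfsg.pResidual p G, ?_, inferInstance, ?_, ?_⟩
    · rw [← normalizer_eq_top_iff]
      refine eq_top_of_forall_sylow_le fun q hq => ?_
      by_cases e : q = p
      · subst e; exact ⟨P, le_normalizer⟩
      · obtain ⟨Q⟩ : Nonempty (Sylow q G) := inferInstance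
        refine ⟨Q, le_trans ?_ (centralizer_le_normalizer _)⟩
        intro y hy x hx
        obtain ⟨k, hk⟩ := IsPGroup.iff_orderOf.1 Q.isPGroup' ⟨y, hy⟩
        exact h x y (hPel x hx) ⟨q, k, hq.out, e, by rwa [Subgroup.orderOf_mk] at hk⟩
    · exact disjoint_iff.1 hc.symm.disjoint
    · exact hc.symm.sup_eq_top

end CL.DirectSylow
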