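import Cfsg.Agent.FGS.EigBound
import Cfsg.Agent.FGS.HHSec

/-!
Base change of absolutely irreducible representations and of kernels.
-/

set_option autoImplicit false

open Module
open scoped TensorProduct

namespace CL.HH

variable {k G V : Type*} (K : Type*) [Field k] [Field K] [Algebra k K] [Group G] [AddCommGroup V]
  [Module k V]

theorem finrank_ker_le_baseChange [FiniteDimensional k V] (f : Module.End k V) :
    finrank k (LinearMap.ker f) ≤
      finrank K (LinearMap.ker (Module.End.baseChangeHom k K V f)) := by
  have hi : Function.Injective ((LinearMap.ker f).subtype.baseChange K) :=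
    Module.Flat.lTensor_preserves_injective_linearMap _ (Submodule.injective_subtype _)
  rw [← Module.finrank_baseChange (R := K), ← LinearMap.finrank_range_of_inj hi]
  refine Submodule.finrank_mono ?_
  rintro _ ⟨v, rfl⟩
  change (f.baseChange K ∘ₗ (LinearMap.ker f).subtype.baseChange K) v = 0
  rw [← LinearMap.baseChange_comp, LinearMap.comp_ker_subtype, LinearMap.baseChange_zero]
  rfl

theorem finrank_fixed_le_bc [FiniteDimensional k V] (ρ : Representation k G V) (g : G) :
    finrank k (LinearMap.ker (ρ g - 1)) ≤ finrank K (LinearMap.ker (bc K ρ g - 1)) := by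
  have := finrank_ker_le_baseChange K (ρ g - 1)
  rwa [map_sub, map_one] at this

set_option backward.isDefEq.respectTransparency false in
theorem span_range_eq_top_of_commute [FiniteDimensional k V]
    (σ : Representation k G V) [σ.IsIrreducible]
    (h : ∀ φ : Module.End k V, (∀ u, φ * σ u = σ u * φ) → ∃ c : k, φ = c • 1) :
    Submodule.span k (Set.range σ) = ⊤ := by
  have hb : Function.Surjective (algebraMap k (Module.End (MonoidAlgebra k G) σ.asModule)) := by
    intro e
    obtain ⟨c, hc⟩ := h (σ.asModuleEquiv.toLinearMap ∘ₗ (e.restrictScalars k) ∘ₗ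
      σ.asModuleEquiv.symm.toLinearMap) fun u => by
        ext v
        simp only [Module.End.mul_apply, LinearMap.comp_apply, LinearEquiv.coe_coe,
          Representation.asModuleEquiv_symm_map_rho, LinearMap.restrictScalars_apply, map_smul,
          Representation.asModuleEquiv_map_smul, Representation.asAlgebraHom_of]
    refine ⟨c, LinearMap.ext fun v => σ.asModuleEquiv.injective ?_⟩
    have := LinearMap.congr_fun hc (σ.asModuleEquiv v)
    simpa using this.symm
  have : Module.Finite (Module.End (MonoidAlgebra k G) σ.asModule) σ.asModule :=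
    Module.Finite.of_restrictScalars_finite k _ _
  rw [eq_top_iff]
  intro φ _
  let f : Module.End (Module.End (MonoidAlgebra k G) σ.asModule) σ.asModule :=
    { toFun := fun v => σ.asModuleEquiv.symm (φ (σ.asModuleEquiv v))
      map_add' := fun v w => by simp
      map_smul' := fun e v => by
        obtain ⟨c, rfl⟩ := hb e
        simp }
  obtain ⟨r, hr⟩ := Module.Finite.toModuleEnd_moduleEnd_surjective
    (R := MonoidAlgebra k G) (M := σ.asModule) f
  have h1 : σ.asAlgebraHom r = φ := by
    ext v
    have := congrArg σ.asModuleEquiv (LinearMap.congr_fun hr (σ.asModuleEquiv.symm v))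
    simpa [f] using this
  rw [← h1]
  clear hr h1
  induction r using MonoidAlgebra.induction_linear with
  | zero => simp
  | add a b ha hb => rw [map_add]; exact add_mem ha hb
  | single g a =>
    rw [Representation.asAlgebraHom_single]
    exact Submodule.smul_mem _ _ (Submodule.subset_span ⟨g, rfl⟩)

theorem isIrreducible_bc [FiniteDimensional k V] (σ : Representation k G V) [σ.IsIrreducible]
    (h : ∀ φ : Module.End k V, (∀ u, φ * σ u = σ u * φ) → ∃ c : k, φ = c • 1) :
    (bc K σ).IsIrreducible := by
  classical
  have := nontrivial_of_isIrreducible σ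
  have : Nontrivial (K ⊗[k] V) := by
    rw [← Module.finrank_pos_iff (R := K), Module.finrank_baseChange]
    exact Module.finrank_pos
  refine isIrreducible_of_forall _ fun U hU => or_iff_not_imp_left.2 fun hne => ?_
  have h1 : ∀ φ : Module.End k V, ∀ v ∈ U, φ.baseChange K v ∈ U := by
    intro φ
    have hφ : φ ∈ Submodule.span k (Set.range σ) := span_range_eq_top_of_commute σ h ▸ trivial
    induction hφ using Submodule.span_induction with
    | mem _ hx => obtain ⟨u, rfl⟩ := hx; exact hU u
    | zero => simp
    | add a b _ _ ha hb => exact fun v hv => by simpa using add_mem (ha v hv) (hb v hv)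
    | smul c a _ ha =>
      intro v hv
      rw [LinearMap.baseChange_smul, LinearMap.smul_apply, ← algebraMap_smul K]
      exact U.smul_mem _ (ha v hv)
  obtain ⟨v, hv, hv0⟩ := U.ne_bot_iff.1 hne
  let b := Module.finBasis k V
  let b' := b.baseChange K
  obtain ⟨j, hj⟩ : ∃ j, b'.repr v j ≠ 0 := by
    by_contra! h
    exact hv0 (b'.repr.injective (by ext j; simp [h]))
  rw [eq_top_iff, ← b'.span_eq, Submodule.span_le]
  rintro _ ⟨i, rfl⟩
  have h2 : ((b.coord j).smulRight (b i)).baseChange K = (b'.coord j).smulRight (b' i) := by
    refine b'.ext fun l => ?_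
    by_cases e : l = j <;> simp [b', e, Finsupp.single_apply]
  have h3 := h1 ((b.coord j).smulRight (b i)) v hv
  rw [h2] at h3
  exact (U.smul_mem_iff hj).1 h3

end CL.HH
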