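import Cfsg.Agent.FGS.HHX
import Cfsg.Agent.FGS.SolvLin2

/-!
Fixed spaces of elements of prime order normalising an irreducible group whose commutators are
scalars.
-/

set_option autoImplicit false

open Module Polynomial
open scoped commutatorElement

namespace CL.HH

section Lin

variable {F V : Type*} [Field F] [AddCommGroup V] [Module F V]

theorem sum_sq_le_of_flag [FiniteDimensional F V] (T : Module.End F V) (W : ℕ → Submodule F V)
    (hW : Monotone W) (s : ℕ) (h0 : W 0 = ⊥) (hs : W s = ⊤) (a : ℕ → F)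
    (hT : ∀ k < s, ∀ v ∈ W (k + 1), T v - a k • v ∈ W k) :
    ∑ k ∈ Finset.range s, (finrank F (W (k + 1)) - finrank F (W k)) ^ 2 ≤
      finrank F (commutant T) := by
  have h1 : ∀ t, finrank F (flagSub W t) +
      ∑ k ∈ Finset.range t, (finrank F (W (k + 1)) - finrank F (W k)) ^ 2 ≤
        finrank F (flagSub W 0) := by
    intro t
    induction t with
    | zero => simp
    | succ t ih =>
      rw [Finset.sum_range_succ]
      have := finrank_flagSub_succ W hW t
      omega
  have hTW : ∀ k, ∀ v ∈ W k, T v ∈ W k := by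
    intro k v hv
    rcases le_or_gt s k with h | h
    · exact hW h (hs ▸ Submodule.mem_top)
    · rcases k with _ | k
      · rw [h0] at hv ⊢
        simp [(Submodule.mem_bot F).1 hv]
      · have := hW (Nat.le_succ k) (hT k (by omega) v hv)
        simpa using add_mem this (Submodule.smul_mem _ (a k) hv)
  let ad : Module.End F V →ₗ[F] Module.End F V := LinearMap.mulLeft F T - LinearMap.mulRight F T
  have h3 : LinearMap.range (ad.domRestrict (flagSub W 0)) ≤ flagSub W s := by
    rintro _ ⟨⟨φ, hφ⟩, rfl⟩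
    refine ⟨fun k v hv => ?_, fun k hk v hv => ?_⟩
    · exact sub_mem (hTW k _ (hφ.1 k v hv)) (hφ.1 k _ (hTW k v hv))
    · have e1 := hT k hk _ (hφ.1 _ v hv)
      have e2 := hφ.1 k _ (hT k hk v hv)
      have := sub_mem e1 e2
      simpa [ad] using this
  have h4 : finrank F (LinearMap.ker (ad.domRestrict (flagSub W 0))) ≤ finrank F (commutant T) := by
    rw [← Submodule.finrank_map_subtype_eq]
    refine Submodule.finrank_mono ?_
    rintro _ ⟨φ, hφ, rfl⟩
    exact hφ
  have h5 := LinearMap.finrank_range_add_finrank_ker (ad.domRestrict (flagSub W 0))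
  have h6 := Submodule.finrank_mono h3
  have h7 := h1 s
  omega

/-- Lower bound for the commutant of an operator with `T ^ (m + 1) = 1`. -/
theorem fixed_sq_le [IsAlgClosed F] [FiniteDimensional F V] (T : Module.End F V) {m : ℕ}
    (hT : T ^ (m + 1) = 1) :
    m * finrank F (LinearMap.ker (T - 1)) ^ 2 +
      (finrank F V - finrank F (LinearMap.ker (T - 1))) ^ 2 ≤ m * finrank F (commutant T) := by
  let f : F[X] := ∑ i ∈ Finset.range (m + 1), X ^ i
  have hfm : f.Monic := monic_geom_sum_X (Nat.succ_ne_zero m)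
  have hfd : f.natDegree = m := by
    have h1 : ((X - 1) * f : F[X]) = X ^ (m + 1) - 1 := mul_geom_sum X (m + 1)
    have h2 : ((X - 1 : F[X])).Monic := monic_X_sub_C 1
    have h3 := congrArg natDegree h1
    rw [h2.natDegree_mul hfm, ← C_1, natDegree_X_sub_C, natDegree_X_pow_sub_C] at h3
    omega
  have hsp : f.Splits := IsAlgClosed.splits f
  let l := f.roots.toList
  have hl : l.length = m := by
    rw [Multiset.length_toList, ← hsp.natDegree_eq_card_roots, hfd]
  let a : ℕ → F := fun k => (1 :: l).getD k 0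
  let g : ℕ → F[X] := fun k => ∏ j ∈ Finset.range k, (X - C (a j))
  have hg : g (m + 1) = X ^ (m + 1) - 1 := by
    rw [← mul_geom_sum, mul_comm]
    simp only [g]
    rw [Finset.prod_range_succ']
    congr 1
    change _ = f
    conv_rhs => rw [hsp.eq_prod_roots_of_monic hfm]
    rw [← Multiset.coe_toList f.roots, Multiset.map_coe, Multiset.prod_coe, ← hl]
    simp only [a, List.getD_cons_succ]
    rw [Finset.prod_range (fun j => X - C (l.getD j 0)), ← List.prod_ofFn]
    congr 1
    apply List.ext_getElem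
    · simp [l]
    · intro i h1 h2
      have h3 : i < l.length := by simpa using h1
      simp [l, List.getElem?_eq_getElem h3]
  let W : ℕ → Submodule F V := fun k => LinearMap.ker (aeval T (g k))
  have hW : Monotone W := by
    refine monotone_nat_of_le_succ (fun k v hv => ?_)
    simp only [W, g, Finset.prod_range_succ, LinearMap.mem_ker] at hv ⊢
    rw [mul_comm, map_mul, Module.End.mul_apply, hv, map_zero]
  have h0 : W 0 = ⊥ := by simp [W, g, Module.End.one_eq_id]
  have h1 : W 1 = LinearMap.ker (T - 1) := by simp [W, g, a]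
  have hs : W (m + 1) = ⊤ := by simp [W, hg, hT]
  have h := sum_sq_le_of_flag T W hW (m + 1) h0 hs a (fun k _ v hv => by
    simp only [W, g, Finset.prod_range_succ, LinearMap.mem_ker] at hv ⊢
    rw [map_mul, Module.End.mul_apply] at hv
    simpa using hv)
  have h2 : ∀ t, ∑ k ∈ Finset.range t, (finrank F (W (k + 1 + 1)) - finrank F (W (k + 1))) =
      finrank F (W (t + 1)) - finrank F (W 1) := by
    intro t
    induction t with
    | zero => simp
    | succ t ih =>
      rw [Finset.sum_range_succ, ih]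
      have := Submodule.finrank_mono (hW (Nat.le_succ (t + 1)))
      have := Submodule.finrank_mono (hW (Nat.le_add_left 1 t))
      simp only [Nat.succ_eq_add_one] at *
      omega
  have h8 := sq_sum_le_card_mul_sum_sq (s := Finset.range m)
    (f := fun k => finrank F (W (k + 1 + 1)) - finrank F (W (k + 1)))
  rw [h2, hs, finrank_top, Finset.card_range, h1] at h8
  rw [Finset.sum_range_succ', h0, finrank_bot, Nat.sub_zero, zero_add, h1] at h
  have := Nat.mul_le_mul_left m h
  rw [mul_add] at this
  simp only [Nat.cast_id] at h8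
  omega

theorem sum_finrank_le_of_iSupIndep [FiniteDimensional F V] {ι : Type*} [Fintype ι]
    {U : ι → Submodule F V} (h : iSupIndep U) : ∑ i, finrank F (U i) ≤ finrank F V := by
  classical
  rw [← Module.finrank_directSum]
  exact LinearMap.finrank_le_finrank_of_injective (f := DirectSum.coeLinearMap U)
    h.dfinsupp_lsum_injective

/-- If `T X = ζ X T` with `X` injective and `1, ζ, …, ζ ^ (m - 1)` distinct, then the fixed space
of `T` has dimension at most `dim V / m`. -/
theorem mul_finrank_fixed_le [FiniteDimensional F V] (T X : Module.End F V)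
    (hX : Function.Injective X) {ζ : F} (h : T * X = ζ • (X * T)) {m : ℕ}
    (hζ : ∀ i < m, ∀ j < m, ζ ^ i = ζ ^ j → i = j) :
    m * finrank F (LinearMap.ker (T - 1)) ≤ finrank F V := by
  have h1 : ∀ i, finrank F (LinearMap.ker (T - 1)) ≤ finrank F (T.eigenspace (ζ ^ i)) := by
    intro i
    induction i with
    | zero =>
      refine Submodule.finrank_mono fun v hv => ?_
      rw [Module.End.mem_eigenspace_iff]
      simpa [sub_eq_zero] using hv
    | succ i ih =>
      refine ih.trans ?_
      rw [(Submodule.equivMapOfInjective X hX _).finrank_eq]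
      refine Submodule.finrank_mono ?_
      rintro _ ⟨v, hv, rfl⟩
      have hv' := Module.End.mem_eigenspace_iff.1 hv
      rw [Module.End.mem_eigenspace_iff, ← Module.End.mul_apply, h]
      simp [hv', smul_smul, pow_succ']
  have h2 : iSupIndep fun i : Fin m => T.eigenspace (ζ ^ (i : ℕ)) :=
    (Module.End.eigenspaces_iSupIndep T).comp fun i j e => Fin.ext (hζ i i.2 j j.2 e)
  refine le_trans ?_ (sum_finrank_le_of_iSupIndep h2)
  refine le_trans ?_ (Finset.sum_le_sum fun (i : Fin m) _ => h1 i)
  simp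

theorem finrank_ker_mulLeft [FiniteDimensional F V] (S : Module.End F V) :
    finrank F (LinearMap.ker (LinearMap.mulLeft F S)) =
      finrank F V * finrank F (LinearMap.ker S) := by
  let L : (V →ₗ[F] LinearMap.ker S) →ₗ[F] Module.End F V :=
    LinearMap.llcomp F V (LinearMap.ker S) V (LinearMap.ker S).subtype
  have hL : Function.Injective L := fun φ ψ h => by
    ext v
    exact LinearMap.congr_fun h v
  have : LinearMap.range L = LinearMap.ker (LinearMap.mulLeft F S) := by
    ext φ
    constructor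
    · rintro ⟨ψ, rfl⟩
      ext v
      exact (ψ v).2
    · intro h
      exact ⟨φ.codRestrict _ fun v => LinearMap.congr_fun h v, rfl⟩
  rw [← this, LinearMap.finrank_range_of_inj hL, Module.finrank_linearMap]

end Lin

variable {F H W : Type*} [Field F] [Group H] [AddCommGroup W] [Module F W]

theorem mul_mem_span_image (σ : Representation F H W) (Y : Subgroup H) {a b : Module.End F W}
    (ha : a ∈ Submodule.span F (σ '' Y)) (hb : b ∈ Submodule.span F (σ '' Y)) :
    a * b ∈ Submodule.span F (σ '' Y) := by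
  have := Submodule.mul_mem_mul ha hb
  rw [Submodule.span_mul_span] at this
  refine Submodule.span_mono ?_ this
  rintro _ ⟨_, ⟨x, hx, rfl⟩, _, ⟨y, hy, rfl⟩, rfl⟩
  exact ⟨x * y, mul_mem hx hy, map_mul σ x y⟩

theorem finrank_span_image_le (σ : Representation F H W) (Y : Subgroup H) [Finite H] :
    finrank F (Submodule.span F (σ '' Y)) ≤ (scalars σ).relIndex Y := by
  classical
  have := Fintype.ofFinite (Y ⧸ (scalars σ).subgroupOf Y)
  have h : Submodule.span F (σ '' Y) =
      Submodule.span F (Set.range fun i : Y ⧸ (scalars σ).subgroupOf Y => σ (i.out : Y)) := by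
    refine le_antisymm (Submodule.span_le.2 ?_) (Submodule.span_mono ?_)
    · rintro _ ⟨u, hu, rfl⟩
      obtain ⟨z, hz⟩ := QuotientGroup.mk_out_eq_mul ((scalars σ).subgroupOf Y) ⟨u, hu⟩
      obtain ⟨c, -, hc⟩ := inv_mem (Subgroup.mem_subgroupOf.1 z.2)
      have : u = ((QuotientGroup.mk ⟨u, hu⟩ : Y ⧸ (scalars σ).subgroupOf Y).out : Y) *
          ((z : Y) : H)⁻¹ := by rw [hz]; simp
      rw [this, map_mul, hc, mul_smul_comm, mul_one]
      exact Submodule.smul_mem _ _ (Submodule.subset_span ⟨_, rfl⟩)
    · rintro _ ⟨i, rfl⟩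
      exact ⟨_, i.out.2, rfl⟩
  rw [h, Subgroup.relIndex, Subgroup.index, Nat.card_eq_fintype_card]
  exact finrank_range_le_card _

/-- `End W` is a free left module over the span of `σ Y`. -/
theorem exists_mul_finrank_ker [IsAlgClosed F] [FiniteDimensional F W] [Finite H]
    (σ : Representation F H W) [σ.IsIrreducible] (hc : ∀ u v : H, ⁅u, v⁆ ∈ scalars σ)
    {Y : Subgroup H} (hY : scalars σ ≤ Y) {S : Module.End F W}
    (hS : S ∈ Submodule.span F (σ '' Y)) :
    ∃ k, finrank F W * finrank F (LinearMap.ker S) = Y.index * k := by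
  classical
  have := Fintype.ofFinite (H ⧸ Y)
  set A := Submodule.span F (σ '' Y)
  let Φ : (H ⧸ Y → A) →ₗ[F] Module.End F W :=
    ∑ j : H ⧸ Y, LinearMap.mulRight F (σ j.out⁻¹) ∘ₗ A.subtype ∘ₗ LinearMap.proj j
  have hΦ : ∀ a, Φ a = ∑ j : H ⧸ Y, (a j : Module.End F W) * σ j.out⁻¹ := fun a => by
    simp [Φ]
  have hsurj : Function.Surjective Φ := by
    rw [← LinearMap.range_eq_top, eq_top_iff, ← span_range_eq_top σ, Submodule.span_le]
    rintro _ ⟨u, rfl⟩
    obtain ⟨y, hy⟩ := QuotientGroup.mk_out_eq_mul Y u⁻¹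
    refine ⟨Pi.single (u⁻¹ : H) ⟨σ y, Submodule.subset_span ⟨y, y.2, rfl⟩⟩, ?_⟩
    rw [hΦ, Finset.sum_eq_single ((u⁻¹ : H) : H ⧸ Y)]
    · rw [Pi.single_eq_same, hy, ← map_mul]
      simp
    · intro j _ hj
      rw [Pi.single_eq_of_ne hj]
      simp
    · simp
  have hinj : Function.Injective Φ := by
    refine (LinearMap.injective_iff_surjective_of_finrank_eq_finrank (le_antisymm ?_ ?_)).2 hsurj
    · rw [Module.finrank_pi_fintype, Finset.sum_const, smul_eq_mul, Module.finrank_linearMap,
        ← sq, sq_finrank_eq_index σ hc, ← Subgroup.relIndex_mul_index hY, mul_comm,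
        Finset.card_univ, ← Nat.card_eq_fintype_card]
      exact Nat.mul_le_mul_right _ (finrank_span_image_le σ Y)
    · exact LinearMap.finrank_le_finrank_of_surjective hsurj
  let K : Submodule F A := (LinearMap.ker (LinearMap.mulLeft F S)).comap A.subtype
  refine ⟨finrank F K, ?_⟩
  let L : (H ⧸ Y → K) →ₗ[F] (H ⧸ Y → A) := K.subtype.compLeft (H ⧸ Y)
  have hL : Function.Injective L := fun a b e => funext fun j => Subtype.ext (congrFun e j)
  have h1 : LinearMap.range (Φ ∘ₗ L) = LinearMap.ker (LinearMap.mulLeft F S) := by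
    have h2 : ∀ a, S * Φ a = Φ fun j => ⟨S * a j, mul_mem_span_image σ Y hS (a j).2⟩ := fun a => by
      simp only [hΦ, Finset.mul_sum, mul_assoc]
    ext φ
    obtain ⟨a, rfl⟩ := hsurj φ
    rw [LinearMap.mem_ker, LinearMap.mulLeft_apply, h2, map_eq_zero_iff _ hinj]
    constructor
    · rintro ⟨b, hb⟩
      obtain rfl := hinj hb
      exact funext fun j => Subtype.ext (b j).2
    · intro h
      exact ⟨fun j => ⟨a j, congrArg Subtype.val (congrFun h j)⟩, rfl⟩
  have : Module.Free F K := Module.Free.of_divisionRing F K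
  rw [← finrank_ker_mulLeft, ← h1, LinearMap.finrank_range_of_inj (f := Φ ∘ₗ L) (hinj.comp hL),
    Module.finrank_pi_fintype, Finset.sum_const, smul_eq_mul, Finset.card_univ,
    ← Nat.card_eq_fintype_card]
  rfl

/-- An operator commuting with `σ C` lies in the span of the elements commuting with `σ C`. -/
theorem mem_span_of_commute [IsAlgClosed F] [FiniteDimensional F W]
    (σ : Representation F H W) [σ.IsIrreducible] (hc : ∀ u v : H, ⁅u, v⁆ ∈ scalars σ)
    {C Y : Subgroup H} (hY : ∀ y, (∀ c ∈ C, σ c * σ y = σ y * σ c) → y ∈ Y)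
    {T : Module.End F W} (hT : ∀ c ∈ C, σ c * T = T * σ c) :
    T ∈ Submodule.span F (σ '' Y) := by
  classical
  obtain ⟨b, hb⟩ := exists_basis_of_commutator_scalars σ hc
  have : Finite (H ⧸ scalars σ) := Module.Finite.finite_basis b
  have := Fintype.ofFinite (H ⧸ scalars σ)
  rw [← b.sum_repr T]
  refine Submodule.sum_mem _ fun i _ => ?_
  by_cases h0 : b.repr T i = 0
  · simp [h0]
  refine Submodule.smul_mem _ _ (Submodule.subset_span ⟨i.out, hY _ fun c hcC => ?_, (hb i).symm⟩)
  choose l _ hl using fun j : H ⧸ scalars σ => hc c j.out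
  have h1 : ∀ j, σ c * b j = l j • (b j * σ c) := fun j => by
    rw [hb, ← map_mul, ← map_mul, ← one_mul (σ (j.out * c)), ← smul_mul_assoc, ← hl, ← map_mul]
    congr 1
    simp [commutatorElement_def]
  have h2 : ∑ j, (b.repr T j * l j) • b j = T := by
    have h3 : (∑ j, (b.repr T j * l j) • b j) * σ c = T * σ c := by
      rw [← hT c hcC]
      conv_rhs => rw [← b.sum_repr T]
      simp only [Finset.sum_mul, Finset.mul_sum, smul_mul_assoc, mul_smul_comm, h1, smul_smul]
    have := congrArg (· * σ c⁻¹) h3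
    simpa only [mul_assoc, ← map_mul, mul_inv_cancel, map_one, mul_one] using this
  have h4 : b.repr T i * l i = b.repr T i := by
    conv_rhs => rw [← h2]
    simp [Finsupp.single_apply]
  have h5 : l i = 1 := mul_left_cancel₀ h0 (by rw [h4, mul_one])
  have := h1 i
  rwa [h5, one_smul, hb] at this

theorem pow_intertwine (σ : Representation F H W) (α : MulAut H) (T : Module.End F W)
    (hT : ∀ u, T * σ u = σ (α u) * T) (k : ℕ) (u : H) : T ^ k * σ u = σ ((α ^ k) u) * T ^ k := by
  induction k with
  | zero => simp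
  | succ k ih =>
    rw [pow_succ', mul_assoc, ih, ← mul_assoc, hT, mul_assoc, pow_succ' α, MulAut.mul_apply]

theorem exists_scalar_hom [Nontrivial W] (σ : Representation F H W) (hσ : Function.Injective σ) :
    ∃ j : scalars σ →* F, Function.Injective j := by
  choose c _ hc using fun z : scalars σ => z.2
  have hi : Function.Injective fun a : F => a • (1 : Module.End F W) :=
    smul_left_injective F one_ne_zero
  refine ⟨⟨⟨c, hi ?_⟩, fun a b => hi ?_⟩, fun a b e => Subtype.ext (hσ ?_)⟩
  · simp [← hc]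
  · simp only [← hc, Subgroup.coe_mul, map_mul]
    rw [hc, hc, smul_mul_smul_comm, mul_one]
  · rw [hc, hc]
    exact congrArg (· • (1 : Module.End F W)) e

theorem eig_core [IsAlgClosed F] [FiniteDimensional F W] [Finite H]
    (σ : Representation F H W) [σ.IsIrreducible] (hσ : Function.Injective σ)
    (hc : ∀ u v : H, ⁅u, v⁆ ∈ scalars σ) (α : MulAut H) (T : (Module.End F W)ˣ)
    (hT : ∀ u, (T : Module.End F W) * σ u = σ (α u) * T) {p : ℕ} (hp : p.Prime)
    (hTp : (T : Module.End F W) ^ p = 1) (hα : α ≠ 1) :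
    p * finrank F (LinearMap.ker ((T : Module.End F W) - 1)) ≤ finrank F W ∨
      ∃ t k : ℕ, finrank F (LinearMap.ker ((T : Module.End F W) - 1)) * t = k * finrank F W ∧
        ((p : ℤ) * k - t) ^ 2 ≤ (p - 1) ^ 2 * t ∧ p ≤ t ∧ t ∣ finrank F W ^ 2 ∧
        (Squarefree t → p ∣ t) := by
  have := nontrivial_of_isIrreducible σ
  have := Fact.mk hp
  set S := scalars σ with hSdef
  have hcen : ∀ z ∈ S, ∀ u, z * u = u * z := by
    rintro z ⟨c, -, hz⟩ u
    apply hσ
    rw [map_mul, map_mul, hz, smul_mul_assoc, mul_smul_comm, one_mul, mul_one]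
  have hαp : ∀ u, (α ^ p) u = u := fun u => hσ (by
    have := pow_intertwine σ α _ hT p u
    rwa [hTp, one_mul, mul_one, eq_comm] at this)
  have hfix : ∀ u, α u = u ↔ σ u * T = T * σ u := fun u => by
    rw [hT, T.mul_left_inj, hσ.eq_iff, eq_comm]
  have hαS : ∀ z ∈ S, α z = z := by
    rintro z ⟨c, -, hz⟩
    rw [hfix, hz, smul_mul_assoc, mul_smul_comm, one_mul, mul_one]
  by_cases hD : ∃ u, u⁻¹ * α u ∈ S ∧ α u ≠ u
  · left
    obtain ⟨u, ⟨ζ, -, hζ⟩, hu⟩ := hD
    have h1 : σ (α u) = ζ • σ u := by
      rw [← mul_one (σ u), ← mul_smul_comm, ← hζ, ← map_mul, mul_inv_cancel_left]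
    have h2 : ∀ k : ℕ, (T : Module.End F W) ^ k * σ u = ζ ^ k • (σ u * T ^ k) := by
      intro k
      induction k with
      | zero => simp
      | succ k ih =>
        rw [pow_succ', mul_assoc, ih, mul_smul_comm, ← mul_assoc, hT, h1, smul_mul_assoc,
          smul_mul_assoc, smul_smul, mul_assoc, pow_succ]
    have h3 : ζ ^ p = 1 := by
      have := h2 p
      rw [hTp, one_mul, mul_one] at this
      have h4 : σ u ≠ 0 := (σ.toHomUnits u).ne_zero
      exact smul_left_injective F h4 (this.symm.trans (one_smul F _).symm)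
    have h4 : ζ ≠ 1 := fun e => hu (hσ (by rw [h1, e, one_smul]))
    have h5 := orderOf_eq_prime h3 h4
    exact mul_finrank_fixed_le _ (σ u) (rho_injective σ u) (ζ := ζ) (by simpa using h2 1)
      fun i hi j hj e => pow_injOn_Iio_orderOf (h5 ▸ hi) (h5 ▸ hj) e
  right
  push Not at hD
  let C : Subgroup H := (α : H →* H).eqLocus (MonoidHom.id H)
  have hC : ∀ u, u ∈ C ↔ α u = u := fun u => Iff.rfl
  have hSC : S ≤ C := hαS
  have hCα : ∀ u, α u ∈ C ↔ u ∈ C := fun u => by rw [hC, hC, α.injective.eq_iff]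
  have hN : ∀ u ∉ C, ∀ k, 0 < k → k < p → u⁻¹ * (α ^ k) u ∉ S := by
    intro u hu k hk0 hk h
    have h1 : ∀ k, quotAut σ α T hT ^ k ∈ MulAction.stabilizer (MulAut (H ⧸ S)) (u : H ⧸ S) ↔
        u⁻¹ * (α ^ k) u ∈ S := fun k => by
      rw [MulAction.mem_stabilizer_iff, MulAut.smul_def, quotAut_pow_mk, eq_comm,
        QuotientGroup.eq]
    have h2 := dvd_of_pow_mem hp (x := quotAut σ α T hT) (fun e => hu (hD u (by
      simpa using (h1 1).1 (by simpa using e)))) ((h1 p).2 (by simp [hαp])) ((h1 k).2 h)
    exact absurd (Nat.le_of_dvd hk0 h2) (by omega)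
  let Y : Subgroup H := Subgroup.centralizer (C : Set H)
  have hSY : S ≤ Y := fun z hz u _ => (hcen z hz u).symm
  have hYn : Y.Normal := ⟨fun y hy g => by
    have : g * y * g⁻¹ = ⁅g, y⁆ * y := by simp [commutatorElement_def]
    rw [this]
    exact mul_mem (hSY (hc g y)) hy⟩
  obtain ⟨j, hj⟩ := exists_scalar_hom σ hσ
  have hf : Y.index = S.relIndex C := by
    refine le_antisymm ?_ ?_
    · have := SolvLin.pair_le (K := ⊤) (U := C) (U₀ := S) j hj (fun z hz u _ => hcen z hz u)
        (fun k _ u _ => hc k u) (fun k _ u hu =>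
          commutatorElement_eq_one_iff_mul_comm.2 (hcen u hu k).symm)
      rwa [Subgroup.relIndex_top_right] at this
    · have := SolvLin.pair_le (K := C) (U := ⊤) (U₀ := Y) j hj (fun z hz u _ => hcen z hz u)
        (fun k _ u _ => hc k u) (fun k hk u hu =>
          commutatorElement_eq_one_iff_mul_comm.2 (hu k hk))
      rw [Subgroup.relIndex_top_right] at this
      refine le_trans (Subgroup.relIndex_le_of_le_left (fun z hz => ?_)
        Subgroup.index_ne_zero_of_finite) this
      exact mem_scalars_of_commute σ fun v => by rw [← map_mul, ← map_mul, hz v trivial]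
  have hn : S.relIndex Y * Y.index = finrank F W ^ 2 := by
    rw [sq_finrank_eq_index σ hc, Subgroup.relIndex_mul_index hSY]
  have hTY : (T : Module.End F W) ∈ Submodule.span F (σ '' Y) :=
    mem_span_of_commute σ hc (C := C) (Y := Y)
      (fun y hy c hcC => hσ (by rw [map_mul, map_mul, hy c hcC]))
      fun c hcC => (hfix c).1 hcC
  obtain ⟨k, hk⟩ := exists_mul_finrank_ker σ hc hSY
    (sub_mem hTY (Submodule.subset_span ⟨1, one_mem _, map_one σ⟩))
  have hn0 : 0 < finrank F W := finrank_pos
  have hdt : finrank F (LinearMap.ker ((T : Module.End F W) - 1)) * S.relIndex Y =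
      k * finrank F W := by
    refine Nat.eq_of_mul_eq_mul_left hn0 ?_
    rw [← mul_assoc, hk, mul_comm _ (S.relIndex Y), ← mul_assoc, hn]
    ring
  obtain ⟨u, hu⟩ : ∃ u, u ∉ C := by
    by_contra! h
    exact hα (MulEquiv.ext h)
  have hw : ∀ i : ℕ, u⁻¹ * (α ^ i) u ∈ Y := by
    intro i c hcC
    have h1 : ∀ i : ℕ, c * (α ^ i) u * c⁻¹ = ⁅c, u⁆ * (α ^ i) u := by
      intro i
      induction i with
      | zero => simp [commutatorElement_def]
      | succ i ih =>
        have := congrArg α ih
        rwa [map_mul, map_mul, map_mul, map_inv, hαS _ (hc c u), (hC c).1 hcC, ← MulAut.mul_apply,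
          ← pow_succ'] at this
    have h2 : c * u * c⁻¹ = ⁅c, u⁆ * u := h1 0
    calc _ = (c * u * c⁻¹)⁻¹ * (c * (α ^ i) u * c⁻¹) * c := by group
      _ = _ := by rw [h1, h2]; group
  refine ⟨S.relIndex Y, k, hdt, ?_, ?_, Dvd.intro _ hn, fun hsq => ?_⟩
  · have h1 := mul_finrank_commutant_le σ hc α T hT C hSC hCα p hN
    obtain ⟨m, rfl⟩ : ∃ m, p = m + 1 := ⟨p - 1, (Nat.sub_add_cancel hp.pos).symm⟩
    have h2 := fixed_sq_le _ hTp
    have h3 : finrank F (LinearMap.ker ((T : Module.End F W) - 1)) ≤ finrank F W :=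
      Submodule.finrank_le _
    rw [← hf] at h1
    generalize finrank F (LinearMap.ker ((T : Module.End F W) - 1)) = d at *
    generalize finrank F (commutant (T : Module.End F W)) = c at *
    generalize finrank F W = n at *
    generalize Y.index = f at *
    generalize S.relIndex Y = t at *
    zify [h3] at h1 h2 hn hdt hn0
    have h4 : (((m : ℤ) + 1) * d - n) ^ 2 ≤ m ^ 2 * f := by nlinarith
    have h5 : (n : ℤ) ^ 2 * (((m : ℤ) + 1) * k - t) ^ 2 ≤ n ^ 2 * (m ^ 2 * t) := by
      calc _ = (t : ℤ) ^ 2 * (((m : ℤ) + 1) * d - n) ^ 2 := by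
            rw [← mul_pow, ← mul_pow]
            congr 1
            linear_combination (-((m : ℤ) + 1)) * hdt
        _ ≤ (t : ℤ) ^ 2 * (m ^ 2 * f) := mul_le_mul_of_nonneg_left h4 (sq_nonneg _)
        _ = _ := by rw [← hn]; ring
    simpa using le_of_mul_le_mul_left h5 (by positivity)
  · let g : Fin p → Y ⧸ S.subgroupOf Y := fun i => (⟨_, hw i⟩ : Y)
    have key : ∀ i j : Fin p, i < j → g i ≠ g j := by
      intro i j hij e
      have h1 := Subgroup.mem_subgroupOf.1 (QuotientGroup.eq.1 e)
      refine hN ((α ^ (i : ℕ)) u) (fun h => hu ?_) (j - i) (by omega) (by omega) ?_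
      · rw [hC, ← MulAut.mul_apply, ← pow_succ', pow_succ, MulAut.mul_apply,
          (α ^ (i : ℕ)).injective.eq_iff] at h
        exact h
      · rw [← MulAut.mul_apply, ← pow_add, Nat.sub_add_cancel hij.le]
        simpa [mul_assoc] using h1
    have := Nat.card_le_card_of_injective g fun i j e => by
      rcases lt_trichotomy i j with h | h | h
      · exact absurd e (key i j h)
      · exact h
      · exact absurd e.symm (key j i h)
    rwa [Nat.card_eq_fintype_card, Fintype.card_fin] at this
  · have h1 : IsZGroup (Y ⧸ S.subgroupOf Y) := IsZGroup.of_squarefree hsq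
    let _ : CommGroup (Y ⧸ S.subgroupOf Y) := ⟨fun a b => by
      obtain ⟨a, rfl⟩ := QuotientGroup.mk_surjective a
      obtain ⟨b, rfl⟩ := QuotientGroup.mk_surjective b
      exact QuotientGroup.eq.2 (Subgroup.mem_subgroupOf.2 (by
        simpa [commutatorElement_def, mul_assoc] using hc (b : H)⁻¹ (a : H)⁻¹))⟩
    have h2 := (QuotientGroup.mk' (S.subgroupOf Y)).isMulCommutative_of_isCyclic_of_ker_le_center
      (fun z hz => Subgroup.mem_center_iff.2 fun y => Subtype.ext
        (hcen _ (Subgroup.mem_subgroupOf.1 (by simpa using hz)) _).symm)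
    have h3 : α (u⁻¹ * α u) = u⁻¹ * α u := by
      rw [hfix]
      refine Submodule.span_induction (p := fun φ _ => σ (u⁻¹ * α u) * φ = φ * σ (u⁻¹ * α u))
        ?_ (by simp) (fun a b _ _ ha hb => by rw [mul_add, add_mul, ha, hb])
        (fun c a _ ha => by rw [mul_smul_comm, smul_mul_assoc, ha]) hTY
      rintro _ ⟨y, hy, rfl⟩
      rw [← map_mul, ← map_mul]
      exact congrArg (fun z : Y => σ z) (h2.is_comm.comm ⟨_, by simpa using hw 1⟩ ⟨y, hy⟩)
    have h4 : ∀ i : ℕ, (α ^ i) u = u * (u⁻¹ * α u) ^ i := by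
      intro i
      induction i with
      | zero => simp
      | succ i ih =>
        rw [pow_succ', MulAut.mul_apply, ih, map_mul, map_pow, h3, pow_succ', ← mul_assoc,
          mul_inv_cancel_left]
    have h5 : (u⁻¹ * α u) ^ p = 1 := by
      have := h4 p
      rwa [hαp, left_eq_mul] at this
    let w : Y := ⟨u⁻¹ * α u, by simpa using hw 1⟩
    have h6 : orderOf (w : Y ⧸ S.subgroupOf Y) = p := by
      refine orderOf_eq_prime ?_ fun e => hu (hD u ?_)
      · rw [← QuotientGroup.mk_pow, show w ^ p = 1 from Subtype.ext h5, QuotientGroup.mk_one]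
      · exact Subgroup.mem_subgroupOf.1 ((QuotientGroup.eq_one_iff _).1 e)
    exact h6 ▸ orderOf_dvd_natCard _

theorem eig_arith {p t k : ℕ} (hp : p.Prime) (h : ((p : ℤ) * k - t) ^ 2 ≤ (p - 1) ^ 2 * t)
    (hpt : p ≤ t) (hsq : Squarefree t → p ∣ t) :
    (p = 2 → 4 * k ≤ 3 * t) ∧ (p = 3 → 3 * k ≤ 2 * t) ∧ (3 < p → 2 * k < t) ∧
      (p = 3 → ¬ 3 ∣ t → 2 * k ≤ t) := by
  refine ⟨?_, ?_, fun h3 => ?_, ?_⟩
  · rintro rfl
    by_contra! h1
    push_cast at h
    have h2 : t < 4 := by
      by_contra! h2
      zify at h1 h2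
      nlinarith
    have h3 : k ≤ t := by
      by_contra! h3
      zify at h3 hpt
      nlinarith
    interval_cases t <;> interval_cases k <;> simp_all
  · rintro rfl
    by_contra! h1
    push_cast at h
    have h2 : t < 4 := by
      by_contra! h2
      zify at h1 h2
      nlinarith
    obtain rfl : t = 3 := by omega
    have h3 : (3 : ℤ) ≤ k := by omega
    push_cast at h
    nlinarith
  · by_contra! h1
    have h5 : 5 ≤ p := hp.five_le_of_ne_two_of_ne_three (by omega) (by omega)
    have h2 : ((p : ℤ) - 2) ^ 2 * t ≤ 4 * (p - 1) ^ 2 := by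
      have ht : (0 : ℤ) < t := by omega
      refine le_of_mul_le_mul_right ?_ ht
      have h4 : ((p : ℤ) - 2) * t ≤ 2 * (p * k - t) := by
        have : (p : ℤ) * t ≤ p * (2 * k) := mul_le_mul_of_nonneg_left (by omega) (by omega)
        linarith
      have h6 : 0 ≤ ((p : ℤ) - 2) * t := mul_nonneg (by omega) ht.le
      have := mul_self_le_mul_self h6 h4
      nlinarith
    rcases h5.eq_or_lt with rfl | h6
    · push_cast at h h2
      have h7 : t ≤ 7 := by omega
      have h8 : k ≤ 3 := by
        by_contra! h8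
        zify at h8 h7
        nlinarith
      have h9 : t ≠ 6 := by
        rintro rfl
        exact absurd (hsq (by decide +kernel)) (by norm_num)
      obtain rfl : t = 5 := by omega
      obtain rfl : k = 3 := by omega
      norm_num at h
    · have h7 : p ≠ 6 := by rintro rfl; exact absurd hp (by norm_num)
      have h8 : (7 : ℤ) ≤ p := by omega
      have h9 : (7 : ℤ) ≤ t := by omega
      nlinarith
  · rintro rfl h3
    by_contra! h1
    push_cast at h
    have h2 : t < 16 := by
      by_contra! h2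
      zify at h1 h2
      nlinarith
    have h4 : k ≤ 7 := by
      by_contra! h4
      zify at h4 h2
      nlinarith
    have h5 : t ≠ 5 := by
      rintro rfl
      exact h3 (hsq (by norm_num : Nat.Prime 5).prime.squarefree)
    have h7 : t ≠ 7 := by
      rintro rfl
      exact h3 (hsq (by norm_num : Nat.Prime 7).prime.squarefree)
    interval_cases t <;> interval_cases k <;> simp_all

/-- The fixed space of an operator of prime order `p` inducing a non-trivial automorphism of a
faithful irreducible group whose commutators are scalars. -/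
theorem eig_bound [IsAlgClosed F] [FiniteDimensional F W] [Finite H]
    (σ : Representation F H W) [σ.IsIrreducible] (hσ : Function.Injective σ)
    (hc : ∀ u v : H, ⁅u, v⁆ ∈ scalars σ) (α : MulAut H) (T : (Module.End F W)ˣ)
    (hT : ∀ u, (T : Module.End F W) * σ u = σ (α u) * T) {p : ℕ} (hp : p.Prime)
    (hTp : (T : Module.End F W) ^ p = 1) (hα : α ≠ 1) :
    (p = 2 → 4 * finrank F (LinearMap.ker ((T : Module.End F W) - 1)) ≤ 3 * finrank F W) ∧
    (p = 3 → 3 * finrank F (LinearMap.ker ((T : Module.End F W) - 1)) ≤ 2 * finrank F W) ∧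
    (3 < p → 2 * finrank F (LinearMap.ker ((T : Module.End F W) - 1)) < finrank F W) ∧
    (p = 3 → ¬ 3 ∣ finrank F W →
      2 * finrank F (LinearMap.ker ((T : Module.End F W) - 1)) ≤ finrank F W) := by
  have := nontrivial_of_isIrreducible σ
  have hn : 0 < finrank F W := finrank_pos
  rcases eig_core σ hσ hc α T hT hp hTp hα with h | ⟨t, k, h1, h2, h3, h4, h5⟩
  · refine ⟨?_, ?_, fun h3 => ?_, ?_⟩
    · rintro rfl; omega
    · rintro rfl; omega
    · have := Nat.mul_le_mul_right (finrank F (LinearMap.ker ((T : Module.End F W) - 1))) h3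
      omega
    · rintro rfl; omega
  · obtain ⟨a1, a2, a3, a4⟩ := eig_arith hp h2 h3 h5
    have ht : 0 < t := hp.pos.trans_le h3
    refine ⟨fun e => ?_, fun e => ?_, fun e => ?_, fun e e' => ?_⟩
    · refine Nat.le_of_mul_le_mul_right ?_ ht
      have := Nat.mul_le_mul_right (finrank F W) (a1 e)
      nlinarith
    · refine Nat.le_of_mul_le_mul_right ?_ ht
      have := Nat.mul_le_mul_right (finrank F W) (a2 e)
      nlinarith
    · refine Nat.lt_of_mul_lt_mul_right (a := t) ?_
      have := Nat.mul_lt_mul_of_pos_right (a3 e) hn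
      nlinarith
    · refine Nat.le_of_mul_le_mul_right ?_ ht
      have := Nat.mul_le_mul_right (finrank F W)
        (a4 e fun h => e' (Nat.prime_three.dvd_of_dvd_pow (h.trans h4)))
      nlinarith

end CL.HH
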