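import Mathlib
import Cfsg.Agent.SOLV.Fitting
import Cfsg.Agent.SOLV.Subnormal

/-! Left Engel elements: Baer's characterisation of the Fitting subgroup. -/

set_option autoImplicit false

open scoped Pointwise

namespace CL.FGS

universe u

/-- One Engel step `a ↦ [a, g] = a g a⁻¹ g⁻¹`. -/
def engelStep {G : Type*} [Group G] (g a : G) : G := a * g * a⁻¹ * g⁻¹

theorem engelStep_def {G : Type*} [Group G] (g a : G) : engelStep g a = a * g * a⁻¹ * g⁻¹ := rfl

theorem foldl_replicate_eq_iterate {G : Type*} [Group G] (g : G) (n : ℕ) (x : G) :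
    (List.replicate n g).foldl (fun a b => a * b * a⁻¹ * b⁻¹) x = (engelStep g)^[n] x := by
  induction n generalizing x with
  | zero => rfl
  | succ n ih =>
    rw [List.replicate_succ, List.foldl_cons, ih, Function.iterate_succ_apply]
    rfl

theorem map_engel_iterate {G H : Type*} [Group G] [Group H] (f : G →* H) (g : G) (n : ℕ) (x : G) :
    f ((engelStep g)^[n] x) = (engelStep (f g))^[n] (f x) := by
  induction n with
  | zero => rfl
  | succ n ih =>
    rw [Function.iterate_succ_apply', Function.iterate_succ_apply', ← ih]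
    simp [engelStep_def]

theorem engel_iterate_one {G : Type*} [Group G] (g : G) (n : ℕ) : (engelStep g)^[n] 1 = 1 := by
  induction n with
  | zero => rfl
  | succ n ih => rw [Function.iterate_succ_apply', ih]; simp [engelStep_def]

/-- In a nilpotent group every element is (left and right) Engel. -/
theorem exists_engel_of_isNilpotent {G : Type*} [Group G] [Group.IsNilpotent G] (g x : G) :
    ∃ n : ℕ, (engelStep g)^[n] x = 1 := by
  obtain ⟨n, hn⟩ := (Subgroup.nilpotent_iff_lowerCentralSeries (G := G)).1 inferInstance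
  refine ⟨n, ?_⟩
  have key : ∀ k, (engelStep g)^[k] x ∈ Subgroup.lowerCentralSeries (⊤ : Subgroup G) k := by
    intro k
    induction k with
    | zero => simp
    | succ k ih =>
      rw [Function.iterate_succ_apply', Subgroup.lowerCentralSeries_succ]
      exact Subgroup.commutator_mem_commutator ih (Subgroup.mem_top g)
  have := key n
  rw [hn] at this
  simpa using this

/-- An element of a nilpotent normal subgroup is a left Engel element. -/
theorem exists_engel_of_mem_normal_nilpotent {G : Type*} [Group G] {N : Subgroup G} [hN : N.Normal]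
    (hnil : Group.IsNilpotent N) {g : G} (hg : g ∈ N) (x : G) :
    ∃ n : ℕ, (engelStep g)^[n] x = 1 := by
  have h1 : engelStep g x ∈ N := N.mul_mem (hN.conj_mem g hg x) (N.inv_mem hg)
  obtain ⟨n, hn⟩ := exists_engel_of_isNilpotent (G := N) ⟨g, hg⟩ ⟨_, h1⟩
  refine ⟨n + 1, ?_⟩
  rw [Function.iterate_succ_apply]
  have := congrArg N.subtype hn
  rw [map_engel_iterate] at this
  simpa using this

theorem isSubnormal_zpowers_of_leftEngel (G : Type u) [Group G] [Finite G] :
    ∀ g : G, (∀ x : G, ∃ n : ℕ, (engelStep g)^[n] x = 1) → (Subgroup.zpowers g).IsSubnormal := by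
  revert G
  refine CL.card_induction (P := fun G _ _ => ∀ g : G, (∀ x : G, ∃ n : ℕ, (engelStep g)^[n] x = 1) →
    (Subgroup.zpowers g).IsSubnormal) ?_
  intro G _ _ ih g hg
  by_contra hns
  have hV : ∀ V : Subgroup G, Subgroup.zpowers g ≤ V → V ≠ ⊤ → CL.SnIn V (Subgroup.zpowers g) := by
    intro V hle hV
    have hgV : g ∈ V := hle (Subgroup.mem_zpowers g)
    have hlt : Nat.card V < Nat.card G := by
      have := CL.card_lt_of_lt (lt_top_iff_ne_top.2 hV)
      simpa using this
    have := ih V hlt ⟨g, hgV⟩ (by
      intro x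
      obtain ⟨n, hn⟩ := hg x
      refine ⟨n, V.subtype_injective ?_⟩
      rw [map_engel_iterate]
      simpa using hn)
    rw [CL.SnIn.iff_subgroupOf]
    refine ⟨hle, ?_⟩
    have e : (Subgroup.zpowers g).subgroupOf V = Subgroup.zpowers (⟨g, hgV⟩ : V) := by
      ext y
      simp only [Subgroup.mem_subgroupOf, Subgroup.mem_zpowers_iff]
      constructor
      · rintro ⟨k, hk⟩; exact ⟨k, Subtype.ext (by simpa using hk)⟩
      · rintro ⟨k, hk⟩; exact ⟨k, by rw [← hk]; simp⟩
    rw [e]; exact this
  obtain ⟨M, hM, hgM, hmax⟩ := CL.zipper_lemma hV hns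
  have hgM' : g ∈ M := hgM (Subgroup.mem_zpowers g)
  -- `M` is self-normalizing
  have hN : Subgroup.normalizer (M : Set G) ≤ M := by
    apply hmax _ (hgM.trans Subgroup.le_normalizer)
    intro htop
    apply hns
    have hn : M.Normal := Subgroup.normalizer_eq_top_iff.1 htop
    exact (hV M hgM hM).isSubnormal hn.isSubnormal
  have step : ∀ a : G, engelStep g a ∈ M → a ∈ M := by
    intro a ha
    have h1 : a * g * a⁻¹ ∈ M := by
      have := M.mul_mem ha hgM'
      simpa [engelStep_def] using this
    have h2 : Subgroup.zpowers g ≤ MulAut.conj a⁻¹ • M := by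
      rw [Subgroup.zpowers_le, Subgroup.mem_pointwise_smul_iff_inv_smul_mem]
      simpa using h1
    have h3 : MulAut.conj a⁻¹ • M ≠ ⊤ := by
      intro h
      apply hM
      have := congrArg (fun K : Subgroup G => MulAut.conj a • K) h
      simpa [smul_smul, ← map_mul] using this
    have h4 := CL.conj_smul_eq_of_le (hmax _ h2 h3)
    have h5 : a⁻¹ ∈ Subgroup.normalizer (M : Set G) := by
      rw [Subgroup.mem_normalizer_iff]
      intro h
      conv_rhs => rw [← h4]
      rw [Subgroup.mem_pointwise_smul_iff_inv_smul_mem]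
      simp [mul_assoc]
    exact (M.inv_mem_iff).1 (hN h5)
  have all : ∀ n : ℕ, ∀ x : G, (engelStep g)^[n] x ∈ M → x ∈ M := by
    intro n
    induction n with
    | zero => intro x hx; exact hx
    | succ n ihn =>
      intro x hx
      rw [Function.iterate_succ_apply] at hx
      exact step x (ihn _ hx)
  apply hM
  rw [eq_top_iff]
  intro x _
  obtain ⟨n, hn⟩ := hg x
  exact all n x (hn ▸ M.one_mem)

/-- **Baer**: the Fitting subgroup is the set of left Engel elements. -/
theorem mem_fittingSubgroup_iff_leftEngel {G : Type u} [Group G] [Finite G] (g : G) :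
    g ∈ Cfsg.fittingSubgroup G ↔ ∀ x : G, ∃ n : ℕ, (engelStep g)^[n] x = 1 := by
  constructor
  · intro hg x
    have := CL.fittingSubgroup_normal G
    exact exists_engel_of_mem_normal_nilpotent (CL.isNilpotent_fittingSubgroup G) hg x
  · intro h
    have hs := isSubnormal_zpowers_of_leftEngel G g h
    have hnil : Group.IsNilpotent (Subgroup.zpowers g) :=
      @CommGroup.isNilpotent _ { (inferInstance : Group (Subgroup.zpowers g)) with
        mul_comm := mul_comm' }
    exact CL.le_fittingSubgroup_of_isSubnormal hs hnil (Subgroup.mem_zpowers g)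

end CL.FGS
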