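import Cfsg.Agent.FGS.EqAb1
import Cfsg.Agent.SOLV.PGroupCyclicSCN
import Cfsg.Agent.SOLV.CoprimeAut
import Cfsg.Agent.SOLV.Supersolvable

/-!
Groups in which abelian subgroups of equal order are conjugate: quotients.
-/

set_option autoImplicit false

open Subgroup Cfsg
open scoped Pointwise commutatorElement

namespace CL.EqAb

universe u

variable {G : Type u} [Group G]

/-- Abelian subgroups of equal order are conjugate. -/
def BG (G : Type*) [Group G] : Prop :=
  ∀ A B : Subgroup G, IsMulCommutative A → IsMulCommutative B → Nat.card A = Nat.card B →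
    ∃ g : G, MulAut.conj g • A = B

theorem BG.ab (h : BG G) (p : ℕ) : Ab p G := fun A B _ _ => h A B

theorem hall_sup [Finite G] {π : Set ℕ} {A A1 A2 : Subgroup G} (h1 : IsPiHallOf π A1 A)
    (h2 : IsPiHallOf πᶜ A2 A) : A1 ⊔ A2 = A := by
  have h3 : A1 ⊔ A2 ≤ A := sup_le h1.1 h2.1
  refine le_antisymm h3 (relIndex_eq_one.1 (IsPiNum.eq_one (π := πᶜ)
    ((IsPiHallOf.relIndex h1).of_dvd (relIndex_dvd_of_le_left A le_sup_left))
    ((IsPiHallOf.relIndex h2).of_dvd (relIndex_dvd_of_le_left A le_sup_right))))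

theorem hall_card [Finite G] {π : Set ℕ} {A A1 B B1 : Subgroup G} (h1 : IsPiHallOf π A1 A)
    (h2 : IsPiHallOf π B1 B) (h : Nat.card A = Nat.card B) : Nat.card A1 = Nat.card B1 :=
  Nat.dvd_antisymm
    (((IsPiHallOf.isPiNum h1).coprime (IsPiHallOf.relIndex h2)).dvd_of_dvd_mul_right
      (by rw [card_mul_relIndex_of_le h2.1, ← h]; exact card_dvd_of_le h1.1))
    (((IsPiHallOf.isPiNum h2).coprime (IsPiHallOf.relIndex h1)).dvd_of_dvd_mul_right
      (by rw [card_mul_relIndex_of_le h1.1, h]; exact card_dvd_of_le h2.1))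

theorem comm_sup {A B : Subgroup G} (hA : IsMulCommutative A) (hB : IsMulCommutative B)
    (h : A ≤ centralizer (B : Set G)) : IsMulCommutative ↥(A ⊔ B) := by
  rw [← le_centralizer_iff_isMulCommutative] at hA hB ⊢
  have h1 : A ⊔ B ≤ centralizer (A : Set G) := sup_le hA (le_centralizer_iff.1 h)
  have h2 : A ⊔ B ≤ centralizer (B : Set G) := sup_le h hB
  exact sup_le (le_centralizer_iff.1 h1) (le_centralizer_iff.1 h2)

theorem sylow_conj_in [Finite G] {q : ℕ} [Fact q.Prime] {M P P' : Subgroup G} (h1 : P ≤ M)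
    (h2 : P' ≤ M) (hP : IsPGroup q P) (hP' : IsPGroup q P') (hi : ¬ q ∣ P.index)
    (hi' : ¬ q ∣ P'.index) : ∃ g ∈ M, MulAut.conj g • P = P' := by
  obtain ⟨g, hg⟩ := MulAction.exists_smul_eq M
    ((hP.comap_subtype (K := M)).toSylow fun e => hi (e.trans (relIndex_dvd_index_of_le h1)))
    ((hP'.comap_subtype (K := M)).toSylow fun e => hi' (e.trans (relIndex_dvd_index_of_le h2)))
  exact exists_mem_conj h1 h2 ⟨g, congrArg Sylow.toSubgroup hg⟩

theorem BG.conj_of_coprime [Finite G] (h : BG G) {N : Subgroup G} [N.Normal]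
    {A B : Subgroup (G ⧸ N)} (hA : IsMulCommutative A) (hB : IsMulCommutative B)
    (hc : Nat.card A = Nat.card B) (hN : (Nat.card N).Coprime (Nat.card A)) :
    ∃ g : G ⧸ N, MulAut.conj g • A = B := by
  obtain ⟨Y, rfl, h1, h2⟩ := exists_lift N A hN
  obtain ⟨Y', rfl, h3, h4⟩ := exists_lift N B (hc ▸ hN)
  obtain ⟨g, rfl⟩ := h Y Y' (comm_of_disjoint h1 hA) (comm_of_disjoint h3 hB) (by rw [h2, h4, hc])
  exact ⟨g, (map_conj_smul _ g Y).symm⟩

theorem lift_data [Finite G] {N : Subgroup G} [N.Normal] {q : ℕ} [hq : Fact q.Prime]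
    (hN : Nat.card N = q) (hm : ∀ x : G, orderOf x = q → x ∈ N) {A A1 A2 : Subgroup (G ⧸ N)}
    (hA : IsMulCommutative A) (h1 : IsPiHallOf {q} A1 A) (h2 : IsPiHallOf {q}ᶜ A2 A)
    (h0 : A1 ≠ ⊥) : IsPGroup q (A1.comap (QuotientGroup.mk' N)) ∧
      ∃ Y : Subgroup G, A1.comap (QuotientGroup.mk' N) ⊔ Y = A.comap (QuotientGroup.mk' N) ∧
      Nat.card Y = Nat.card A2 ∧ IsMulCommutative Y ∧
      A1.comap (QuotientGroup.mk' N) ≤ centralizer (Y : Set G) := by
  have hc : (Nat.card A2).Coprime q := (isPiNum_compl_singleton_iff hq.out).1 (IsPiHallOf.isPiNum h2)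
  obtain ⟨Y, rfl, e1, e2⟩ := exists_lift N A2 (hN ▸ hc.symm)
  set P := A1.comap (QuotientGroup.mk' N) with hPd
  have hNP : N ≤ P := le_comap_mk' N A1
  have hP : IsPGroup q P := (isPGroup_iff_isPiNum.2 (IsPiHallOf.isPiNum h1)).comap_of_ker_isPGroup _
    (by rw [QuotientGroup.ker_mk']; exact IsPGroup.of_card (n := 1) (by rw [hN, pow_one]))
  have e3 : ⁅P, Y⁆ ≤ N := by
    rw [← map_mk'_eq_bot_iff, map_commutator, map_comap_mk', commutator_eq_bot_iff_le_centralizer]
    exact h1.1.trans ((le_centralizer_iff_isMulCommutative.2 hA).trans (centralizer_le h2.1))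
  refine ⟨hP, Y, ?_, e2, comm_of_disjoint e1 (isMulCommutative_of_le hA h2.1), ?_⟩
  · rw [← hall_sup h1 h2, ← comap_sup_eq _ _ _ (QuotientGroup.mk'_surjective N), comap_map_mk',
      sup_comm Y, ← sup_assoc, sup_eq_left.2 hNP]
  · have := hP.isNilpotent
    have e4 := coprime_commutator_sup_centralizer Y P
      (le_normalizer_iff_commutator_le_left.2 (e3.trans hNP))
      (coprime_card_of_isPGroup_of_coprime hP (e2 ▸ hc)).symm (Or.inr inferInstance)
    by_cases e : q ∣ Nat.card ↥(P ⊓ centralizer (Y : Set G))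
    · rw [sup_eq_right.2 (e3.trans (le_of_prime hq.out hN hm e))] at e4
      exact inf_eq_left.1 e4
    · exfalso
      rw [inf_eq_bot_of_isPGroup_of_coprime (H := P ⊓ centralizer (Y : Set G))
        (K := P ⊓ centralizer (Y : Set G)) (hP.to_le inf_le_left)
        ((Nat.Prime.coprime_iff_not_dvd hq.out).2 e).symm |> (inf_idem _).symm.trans, sup_bot_eq] at e4
      exact h0 (by rw [← map_comap_mk' N A1, map_mk'_eq_bot_iff, ← hPd, ← e4]; exact e3)

theorem BG.quot_prime [Finite G] (h : BG G) {N : Subgroup G} [N.Normal] {q : ℕ} [hq : Fact q.Prime]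
    (hN : Nat.card N = q)
    (hP : ∀ P : Subgroup G, IsPGroup q P → IsMulCommutative P ∨ ¬ q ∣ P.index) : BG (G ⧸ N) := by
  intro A B hA hB hc
  have hm := (h.ab q).mem_prime (M := N) (hN ▸ dvd_rfl)
  obtain ⟨A1, a1⟩ := exists_isPiHallOf {q} A (isSolvable_of_isMulCommutative A)
  obtain ⟨A2, a2⟩ := exists_isPiHallOf {q}ᶜ A (isSolvable_of_isMulCommutative A)
  obtain ⟨B1, b1⟩ := exists_isPiHallOf {q} B (isSolvable_of_isMulCommutative B)
  obtain ⟨B2, b2⟩ := exists_isPiHallOf {q}ᶜ B (isSolvable_of_isMulCommutative B)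
  have c1 := hall_card a1 b1 hc
  by_cases h0 : A1 = ⊥
  · refine h.conj_of_coprime hA hB hc ?_
    rw [← hall_sup a1 a2, h0, bot_sup_eq, hN]
    exact ((isPiNum_compl_singleton_iff hq.out).1 (IsPiHallOf.isPiNum a2)).symm
  obtain ⟨p1, Y, e1, e2, e3, e4⟩ := lift_data hN hm hA a1 a2 h0
  obtain ⟨p2, Y', f1, f2, f3, f4⟩ := lift_data hN hm hB b1 b2
    (fun e => h0 (card_eq_one.1 (by rw [c1, e, card_bot])))
  suffices ∃ g : G, MulAut.conj g • A.comap (QuotientGroup.mk' N) = B.comap (QuotientGroup.mk' N) by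
    obtain ⟨g, hg⟩ := this
    refine ⟨g, ?_⟩
    have := congrArg (map (QuotientGroup.mk' N)) hg
    rwa [map_conj_smul, map_comap_mk', map_comap_mk'] at this
  have c2 : (A1.comap (QuotientGroup.mk' N)).index = (B1.comap (QuotientGroup.mk' N)).index := by
    rw [index_comap_mk', index_comap_mk']
    have := A1.card_mul_index
    rw [← B1.card_mul_index, c1] at this
    exact Nat.eq_of_mul_eq_mul_left Nat.card_pos this
  by_cases hi : q ∣ (A1.comap (QuotientGroup.mk' N)).index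
  · refine h _ _ (e1 ▸ comm_sup ((hP _ p1).resolve_right (not_not.2 hi)) e3 e4)
      (f1 ▸ comm_sup ((hP _ p2).resolve_right (not_not.2 (c2 ▸ hi))) f3 f4) ?_
    rw [card_comap_mk', card_comap_mk', hc]
  obtain ⟨g, rfl⟩ := h Y Y' e3 f3 (by rw [e2, f2, hall_card a2 b2 hc])
  obtain ⟨c, hc1, hc2⟩ := sylow_conj_in (M := centralizer ((MulAut.conj g • Y : Subgroup G) : Set G))
    (P := MulAut.conj g • A1.comap (QuotientGroup.mk' N))
    (by rw [centralizer_conj_smul]; exact conj_smul_mono g e4) f4 (p1.map _) p2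
    (by rwa [index_conj_smul]) (c2 ▸ hi)
  refine ⟨c * g, ?_⟩
  rw [← conj_smul_conj_smul, ← e1, smul_sup, smul_sup, hc2,
    conj_smul_eq_iff_mem_normalizer.2 (centralizer_le_normalizer _ hc1), f1]

theorem BG.quot_big [Finite G] (h : BG G) {N : Subgroup G} [N.Normal] {q : ℕ} [hq : Fact q.Prime]
    (hE : ∀ x ∈ N, x ^ q = 1) (h0 : N ≠ ⊥) (hN : Nat.card N ≠ q) : BG (G ⧸ N) := fun A B hA hB hc =>
  h.conj_of_coprime hA hB hc ((coprime_index_of_forall_le
    (fun x => ⟨1, Subtype.ext (by simpa using hE x x.2)⟩)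
    fun Q => (h.ab q).le_of_noncyclic hE h0 hN).coprime_dvd_right (card_subgroup_dvd_card A))

theorem BG.of_bij {G' : Type*} [Group G'] (h : BG G) {f : G →* G'} (hf : Function.Bijective f) :
    BG G' := by
  intro A B hA hB hc
  obtain ⟨A, rfl⟩ : ∃ X : Subgroup G, X.map f = A := ⟨_, map_comap_eq_self_of_surjective hf.2 A⟩
  obtain ⟨B, rfl⟩ : ∃ X : Subgroup G, X.map f = B := ⟨_, map_comap_eq_self_of_surjective hf.2 B⟩
  rw [card_map_of_injective hf.1, card_map_of_injective hf.1] at hc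
  have key : ∀ X : Subgroup G, IsMulCommutative (X.map f) → IsMulCommutative X := fun X hX =>
    ⟨⟨fun a b => Subtype.ext (hf.1 (by
      simpa using congrArg Subtype.val (hX.is_comm.comm ⟨_, a, a.2, rfl⟩ ⟨_, b, b.2, rfl⟩)))⟩⟩
  obtain ⟨g, rfl⟩ := h A B (key A hA) (key B hB) hc
  exact ⟨f g, (map_conj_smul _ g A).symm⟩

theorem exists_sq_of_elem {p : ℕ} {P : Subgroup G} {E : Subgroup P} (h1 : IsElementaryAbelian p E)
    (h2 : Nat.card E = p ^ 2) : ∃ E ≤ P, Nat.card E = p ^ 2 ∧ ∀ x ∈ E, x ^ p = 1 :=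
  ⟨E.map P.subtype, map_subtype_le E, by rw [card_map_of_injective P.subtype_injective, h2], by
    rintro _ ⟨x, hx, rfl⟩
    exact congrArg Subtype.val (h1.2 x hx)⟩

theorem map_aux (T : Prop) (hT : T → ∀ (G : Type u) [Group G] [Finite G], Group.IsSolvable G → BG G →
      ∀ (P : Subgroup G) (n : ℕ), Nonempty (P ≃* QuaternionGroup (2 ^ (n + 1))) → ¬ 2 ∣ P.index)
    {G' : Type*} [Group G'] : ∀ (G : Type u) [Group G] [Finite G], BG G → ∀ f : G →* G',
      Function.Surjective f → Group.IsSolvable f.ker →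
      (Odd (Nat.card f.ker) ∨ (T ∧ Group.IsSolvable G)) → BG G' := by
  refine card_induction ?_
  intro G _ _ ih h f hf hs ho
  by_cases h0 : f.ker = ⊥
  · exact h.of_bij ⟨(MonoidHom.ker_eq_bot_iff f).1 h0, hf⟩
  obtain ⟨N, hN, hNk⟩ := exists_isMinNormal_le f.ker h0
  have := hN.normal
  obtain ⟨q, hq, hE⟩ := hN.exists_isElementaryAbelian_of_isSolvable
    (isSolvable_of_mulEquiv (subgroupOfEquivOfLe hNk))
  have := Fact.mk hq
  have hk : (QuotientGroup.lift N f hNk).ker = f.ker.map (QuotientGroup.mk' N) :=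
    QuotientGroup.ker_lift N f hNk
  refine ih (G ⧸ N) (card_quotient_lt hN.ne_bot) ?_ (QuotientGroup.lift N f hNk)
    (QuotientGroup.lift_surjective_of_surjective N f hf hNk) (hk ▸ isSolvable_map _ _)
    (ho.imp (fun e => hk ▸ e.of_dvd_nat (card_map_dvd _ _)) fun e => ⟨e.1, by have := e.2; infer_instance⟩)
  by_cases e : Nat.card N = q
  · refine h.quot_prime e fun P hP => ?_
    rcases PCyc.isCyclic_or_elemAb_or_quaternion hP with h1 | ⟨E, h1, h2⟩ | ⟨rfl, n, h1⟩
    · exact Or.inl inferInstance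
    · obtain ⟨E, -, h3, h4⟩ := exists_sq_of_elem h1 h2
      have : E ≤ N := fun x hx => by
        by_cases e1 : x = 1
        · exact e1 ▸ one_mem N
        · exact (h.ab q).mem_prime (e ▸ dvd_rfl) x (orderOf_eq_prime (h4 x hx) e1)
      have := card_le_of_le this
      rw [h3, e] at this
      nlinarith [hq.two_le]
    · rcases ho with ho | ho
      · exact absurd (ho.of_dvd_nat (e ▸ card_dvd_of_le hNk)) (by decide)
      · exact Or.inr (hT ho.1 G ho.2 h P n h1)
  · exact h.quot_big hE.2 hN.ne_bot e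

theorem BG.map_odd [Finite G] (h : BG G) {G' : Type*} [Group G'] {f : G →* G'}
    (hf : Function.Surjective f) (hs : Group.IsSolvable f.ker) (ho : Odd (Nat.card f.ker)) : BG G' :=
  map_aux False False.elim G h f hf hs (Or.inl ho)

theorem exists_orderOf_sq {p : ℕ} [hp : Fact p.Prime] {y : G} {k : ℕ} (hy : y ^ p ^ k = 1)
    (h : y ^ p ≠ 1) : ∃ m : ℕ, orderOf (y ^ m) = p ^ 2 := by
  obtain ⟨j, -, hj⟩ := (Nat.dvd_prime_pow hp.out).1 (orderOf_dvd_of_pow_eq_one hy)
  refine ⟨_, orderOf_pow_orderOf_div (by rw [hj]; exact pow_ne_zero _ hp.out.ne_zero) ?_⟩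
  rw [hj]
  refine pow_dvd_pow p (not_lt.1 fun h2 => h (orderOf_dvd_iff_pow_eq_one.1 ?_))
  rw [hj]
  exact (pow_dvd_pow p (by omega : j ≤ 1)).trans (by rw [pow_one])

open QuaternionGroup in
theorem quat_core [Finite G] [Group.IsSolvable G] (h : Ab 2 G) (h0 : pPrimeCore 2 G = ⊥)
    (S : Sylow 2 G) {m : ℕ} (e : QuaternionGroup (2 ^ (m + 1)) ≃* S) : m = 0 := by
  let f : QuaternionGroup (2 ^ (m + 1)) →* G := (S : Subgroup G).subtype.comp e.toMonoidHom
  have hf : Function.Injective f := Subtype.val_injective.comp e.injective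
  have hr : ∀ y ∈ (S : Subgroup G), ∃ x, f x = y := fun y hy =>
    ⟨e.symm ⟨y, hy⟩, congrArg Subtype.val (e.apply_symm_apply _)⟩
  have h4 : ∀ i, orderOf (f (xa i)) = 2 ^ 2 := fun i => by rw [orderOf_injective f hf, orderOf_xa]; rfl
  have hO := pCore_le_sylow S
  have hx : ∀ i, f (xa i) ∈ pCore 2 G := by
    by_cases h1 : ∀ y ∈ pCore 2 G, y ^ 2 = 1
    · refine fun i => centralizer_pCore_le_of_isSolvable h0 fun y hy => ?_
      obtain ⟨x, rfl⟩ := hr y (hO hy)
      have h2 : x ^ 2 = 1 := hf (by rw [map_pow, h1 _ hy, map_one])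
      rw [← map_mul, ← map_mul]
      congr 1
      rcases x with j | j
      · rw [sq, a_mul_a, one_def, a.injEq] at h2
        rw [a_mul_xa, xa_mul_a, xa.injEq]
        linear_combination -h2
      · exact absurd (orderOf_xa j ▸ orderOf_dvd_of_pow_eq_one h2) (by decide)
    · push Not at h1
      obtain ⟨y, hy, h1⟩ := h1
      obtain ⟨k, hk⟩ := isPGroup_pCore 2 G ⟨y, hy⟩
      obtain ⟨j, hj⟩ := exists_orderOf_sq (congrArg Subtype.val hk) h1
      exact fun i => h.mem (pow_mem hy j) hj (h4 i)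
  have hS : ∀ x, f x ∈ pCore 2 G := by
    rintro (i | i)
    · have := mul_mem (hx (2 ^ (m + 1) : ℕ)) (hx i)
      rwa [← map_mul, xa_mul_xa, add_sub_cancel_left] at this
    · exact hx i
  by_contra hm
  obtain ⟨m, rfl⟩ := Nat.exists_eq_succ_of_ne_zero hm
  have h5 : orderOf (f ((a 1 ^ 2 ^ m) ^ 2)) = 2 ^ 2 := by
    rw [orderOf_injective f hf, ← pow_mul, orderOf_pow_of_dvd (by positivity)
      (by rw [orderOf_a_one]; exact ⟨4, by rw [Nat.succ_eq_add_one]; ring⟩), orderOf_a_one]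
    exact Nat.div_eq_of_eq_mul_left (by positivity) (by rw [Nat.succ_eq_add_one]; ring)
  obtain ⟨g, hg⟩ := h (zpowers (f ((a 1 ^ 2 ^ m) ^ 2))) (zpowers (f (xa 0)))
    (IsPGroup.of_card (by rw [Nat.card_zpowers, h5])) (IsPGroup.of_card (by rw [Nat.card_zpowers, h4]))
    inferInstance inferInstance (by rw [Nat.card_zpowers, Nat.card_zpowers, h4, h5])
  obtain ⟨k, hk⟩ := mem_conj_smul_iff.1 (hg ▸ mem_zpowers (f (xa 0)))
  obtain ⟨x, hx⟩ := hr _ (hO (Normal.conj_mem inferInstance _ (hS ((a 1 ^ 2 ^ m) ^ k)) g))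
  have h6 : x ^ 2 = xa 0 := hf (by
    rw [map_pow, hx, conj_pow, ← map_pow, ← zpow_natCast _ 2, ← zpow_mul, mul_comm k, zpow_mul,
      zpow_natCast, map_zpow]
    simp only at hk
    rw [hk]; group)
  rcases x with j | j
  · rw [sq, a_mul_a] at h6; cases h6
  · rw [xa_sq] at h6; cases h6

theorem not_isCyclic_quat (n : ℕ) : ¬ IsCyclic (QuaternionGroup (2 ^ (n + 1))) := fun h => by
  have h1 := IsCyclic.exponent_eq_card (α := QuaternionGroup (2 ^ (n + 1)))
  rw [QuaternionGroup.exponent, Nat.card_eq_fintype_card, QuaternionGroup.card, lcm_eq_nat_lcm,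
    Nat.lcm_eq_left (dvd_pow_self 2 n.succ_ne_zero)] at h1
  have : 0 < 2 ^ (n + 1) := by positivity
  omega

theorem BG.quat [Finite G] (h : BG G) (hs : Group.IsSolvable G) {P : Subgroup G} {n : ℕ}
    (e : P ≃* QuaternionGroup (2 ^ (n + 1))) : n = 0 ∧ ¬ 2 ∣ P.index := by
  have hc : ∀ {k : ℕ} {X : Subgroup G}, (X ≃* QuaternionGroup (2 ^ (k + 1))) →
      Nat.card X = 2 ^ (k + 3) := fun {k X} e => by
    rw [Nat.card_congr e.toEquiv, Nat.card_eq_fintype_card, QuaternionGroup.card]; ring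
  obtain ⟨S, hS⟩ := (IsPGroup.of_card (hc e)).exists_le_sylow
  rcases PCyc.isCyclic_or_elemAb_or_quaternion S.isPGroup' with h1 | ⟨E, h1, h2⟩ | ⟨-, m, ⟨e'⟩⟩
  · have := Subgroup.isCyclic_of_le hS
    exact absurd (isCyclic_of_surjective e e.surjective) (not_isCyclic_quat n)
  · obtain ⟨E, -, h3, h4⟩ := exists_sq_of_elem h1 h2
    have h5 : orderOf ((e.symm (QuaternionGroup.xa 0) : P) : G) = 4 := by
      rw [orderOf_coe, MulEquiv.orderOf_eq, QuaternionGroup.orderOf_xa]
    exact absurd (h5 ▸ orderOf_dvd_of_pow_eq_one ((h.ab 2).pow_eq_one h3 h4 (k := 2)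
      (h5 ▸ pow_orderOf_eq_one _))) (by decide)
  · have ho := coprime_card_pPrimeCore 2 G
    have hq := h.map_odd (QuotientGroup.mk'_surjective (pPrimeCore 2 G)) inferInstance
      (by rw [QuotientGroup.ker_mk']; exact Nat.coprime_two_right.1 ho)
    obtain rfl := quat_core (hq.ab 2) (pPrimeCore_quotient_pPrimeCore 2 G)
      (S.mapSurjective (QuotientGroup.mk'_surjective _)) (e'.symm.trans (MulEquiv.ofBijective
        ((QuotientGroup.mk' _).subgroupMap S) ((Nat.bijective_iff_surjective_and_card _).2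
          ⟨MonoidHom.subgroupMap_surjective _ _, (card_map_of_disjoint
            (inf_eq_bot_of_isPGroup_of_coprime S.isPGroup' ho)).symm⟩)))
    have h1 := card_le_of_le hS
    rw [hc e, hc e', Nat.pow_le_pow_iff_right one_lt_two] at h1
    obtain rfl : n = 0 := by omega
    exact ⟨rfl, eq_of_le_of_card_ge hS (by rw [hc e, hc e']) ▸ S.not_dvd_index⟩

theorem BG.map [Finite G] (h : BG G) (hs : Group.IsSolvable G) {G' : Type*} [Group G'] {f : G →* G'}
    (hf : Function.Surjective f) : BG G' :=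
  map_aux True (fun _ _ _ _ hs h _ _ ⟨e⟩ => (h.quat hs e).2) G h f hf inferInstance
    (Or.inr ⟨trivial, hs⟩)

end CL.EqAb
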