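import Cfsg.Agent.FGS.EqAb2

/-!
Solvable groups in which abelian subgroups of equal order are conjugate: all subgroups of equal
order are conjugate.
-/

set_option autoImplicit false

open Subgroup Cfsg
open scoped Pointwise commutatorElement

namespace CL.EqAb

universe u

variable {G : Type u} [Group G]

theorem mem_cent_zpowers {g x : G} : g ∈ centralizer ((zpowers x : Subgroup G) : Set G) ↔
    g * x * g⁻¹ = x := by
  rw [zpowers_eq_closure, centralizer_closure, mem_centralizer_singleton_iff, mul_inv_eq_iff_eq_mul]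

theorem ker_conj (V : Subgroup G) [V.Normal] :
    (MulAut.conjNormal (H := V)).ker = centralizer (V : Set G) := by
  ext g
  rw [MonoidHom.mem_ker, mem_centralizer_iff, MulEquiv.ext_iff]
  exact ⟨fun h v hv => by
    have := congrArg Subtype.val (h ⟨v, hv⟩)
    exact (mul_inv_eq_iff_eq_mul.1 this).symm,
    fun h v => Subtype.ext (mul_inv_eq_iff_eq_mul.2 (h v v.2).symm)⟩

theorem Ab.semireg [Finite G] {p : ℕ} [hp : Fact p.Prime] (h : Ab p G) {V W : Subgroup G} [V.Normal]
    [W.Normal] (hV : IsElementaryAbelian p V)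
    (hW : ∀ a ∈ W, ∀ b ∈ W, ⁅a, b⁆ ∈ centralizer (V : Set G)) {e v : G} (he : e ∈ W) (hv : v ∈ V)
    (h1 : v ≠ 1) (hev : e * v * e⁻¹ = v) : e ∈ centralizer (V : Set G) := by
  let C : G → Subgroup G := fun x => W ⊓ centralizer ((zpowers x : Subgroup G) : Set G)
  have hC : ∀ x ∈ V, ∀ y ∈ V, x ≠ 1 → y ≠ 1 → C x ≤ C y → C x = C y := fun x hx y hy x1 y1 hle => by
    have ox := orderOf_eq_prime (hV.2 x hx) x1
    have oy := orderOf_eq_prime (hV.2 y hy) y1
    obtain ⟨g, hg⟩ := h (zpowers x) (zpowers y)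
      (IsPGroup.of_card (n := 1) (by rw [Nat.card_zpowers, ox, pow_one]))
      (IsPGroup.of_card (n := 1) (by rw [Nat.card_zpowers, oy, pow_one])) inferInstance inferInstance
      (by rw [Nat.card_zpowers, Nat.card_zpowers, ox, oy])
    refine eq_of_le_of_card_ge hle (le_of_eq ?_)
    simp only [C]
    rw [← hg, centralizer_conj_smul, ← card_conj_smul g (W ⊓ centralizer _), smul_inf,
      (conj_smul_eq_iff_mem_normalizer (H := W)).2 (le_normalizer_of_normal (mem_top g))]
  have hcomm : ∀ x ∈ V, ∀ y ∈ V, x * y = y * x := fun x hx y hy =>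
    congrArg Subtype.val (hV.1.is_comm.comm ⟨x, hx⟩ ⟨y, hy⟩)
  have hτV : ∀ x ∈ V, e * x * e⁻¹ * x⁻¹ ∈ V := fun x hx =>
    mul_mem (Normal.conj_mem inferInstance x hx e) (inv_mem hx)
  have hτ : ∀ x ∈ V, e * x * e⁻¹ * x⁻¹ ≠ 1 → C x = C (e * x * e⁻¹ * x⁻¹) := fun x hx h2 => by
    refine hC x hx _ (hτV x hx) (by rintro rfl; simp at h2) h2 fun w hw => ⟨hw.1, ?_⟩
    have h3 := mem_cent_zpowers.1 hw.2
    have h4 := hW e⁻¹ (inv_mem he) w hw.1 x hx
    rw [commutatorElement_def, inv_inv] at h4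
    refine mem_cent_zpowers.2 ?_
    calc w * (e * x * e⁻¹ * x⁻¹) * w⁻¹
        = e * ((e⁻¹ * w * e * w⁻¹) * (w * x * w⁻¹)) * (e⁻¹ * w * e * w⁻¹)⁻¹ * e⁻¹ * (w * x * w⁻¹)⁻¹ := by
          group
      _ = _ := by rw [h3, ← h4]; group
  intro u hu
  by_contra h2
  have h3 : e * u * e⁻¹ * u⁻¹ ≠ 1 := fun h => h2 (by
    rw [mul_inv_eq_one, mul_inv_eq_iff_eq_mul] at h; exact h.symm)
  have h4 : e * (u * v) * e⁻¹ * (u * v)⁻¹ = e * u * e⁻¹ * u⁻¹ := by
    calc _ = e * u * e⁻¹ * (e * v * e⁻¹) * v⁻¹ * u⁻¹ := by group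
      _ = _ := by rw [hev]; group
  have h5 : C u = C (u * v) := by rw [hτ u hu h3, hτ _ (mul_mem hu hv) (h4 ▸ h3), h4]
  have h6 : C u = C v := hC u hu v hv (by rintro rfl; simp at h3) h1 fun w hw => ⟨hw.1, by
    have h7 := mem_cent_zpowers.1 hw.2
    have h8 := mem_cent_zpowers.1 (h5 ▸ hw : w ∈ C (u * v)).2
    refine mem_cent_zpowers.2 (mul_left_cancel (a := u) ?_)
    rw [← h8]
    nth_rw 1 [← h7]
    group⟩
  have h7 := mem_cent_zpowers.1 (h6 ▸ (⟨he, mem_cent_zpowers.2 hev⟩ : e ∈ C v) : e ∈ C u).2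
  exact h3 (by rw [h7, mul_inv_cancel])

theorem Ab.isCyclic [Finite G] {p : ℕ} [hp : Fact p.Prime] (h : Ab p G) {V W S : Subgroup G}
    [V.Normal] [W.Normal] (hV : IsElementaryAbelian p V) (h0 : V ≠ ⊥)
    (hW : ∀ a ∈ W, ∀ b ∈ W, ⁅a, b⁆ ∈ centralizer (V : Set G)) (hS : S ≤ W)
    (hc : (Nat.card S).Coprime (Nat.card V)) : IsCyclic (S.map (MulAut.conjNormal (H := V))) := by
  by_contra hn
  have : IsMulCommutative (S.map (MulAut.conjNormal (H := V))) := ⟨⟨by
    rintro ⟨_, a, ha, rfl⟩ ⟨_, b, hb, rfl⟩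
    have := hW a (hS ha) b (hS hb)
    rw [← ker_conj, MonoidHom.mem_ker, map_commutatorElement, commutatorElement_eq_one_iff_mul_comm]
      at this
    exact Subtype.ext this⟩⟩
  have := act_le_of_forall_fixed_le (G := V) _ ⊤ ⊥ hn (fun _ _ _ _ => mem_top _)
    (by rw [card_top]; exact hc.coprime_dvd_left (card_map_dvd _ _)) (by
      rintro _ ⟨e, he, rfl⟩ h1 v ⟨-, hv⟩
      by_contra h2
      refine h1 ?_
      rw [← MonoidHom.mem_ker, ker_conj]
      exact h.semireg hV hW (hS he) v.2 (fun e => h2 (Subtype.ext e))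
        (congrArg Subtype.val (mem_actFix_zpowers.1 hv)))
  exact h0 (eq_bot_iff.2 fun v hv => congrArg Subtype.val (this (mem_top (⟨v, hv⟩ : V))))

theorem mem_of_cent {T N : Subgroup G} (h : T ≤ centralizer (N : Set G)) {x : G} (hx : x ∈ T ⊔ N)
    (hc : (Nat.card N).Coprime (orderOf x)) : x ∈ T := by
  obtain ⟨t, ht, n, hn, rfl⟩ := (mem_sup_of_le_normalizer (h.trans (centralizer_le_normalizer _))).1 hx
  obtain ⟨m, hm⟩ := exists_pow_eq_self_of_coprime hc
  have h1 : n ^ Nat.card N = 1 := congrArg Subtype.val (pow_card_eq_one' (x := (⟨n, hn⟩ : N)))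
  rw [← hm, (show Commute t n from (h ht n hn).symm).mul_pow, h1, mul_one]
  exact pow_mem (pow_mem ht _) _

theorem BG.normal_of_sq {q : ℕ} [hq : Fact q.Prime] : ∀ (G : Type u) [Group G] [Finite G],
    Group.IsSolvable G → BG G → ∀ E : Subgroup G, Nat.card E = q ^ 2 → (∀ x ∈ E, x ^ q = 1) →
      ∃ T : Subgroup G, T.Normal ∧ IsElementaryAbelian q T ∧ ∀ Q : Subgroup G, IsPGroup q Q → Q ≤ T := by
  refine card_induction ?_
  intro G _ _ ih hs h E hE hE'
  have hq2 : q < q ^ 2 := by nlinarith [hq.out.two_le]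
  have hord : ∀ X : Subgroup G, (∀ x ∈ X, x ^ q = 1) → ∀ (M : Subgroup G) [M.Normal],
      q ∣ Nat.card M → X ≤ M := fun X hX M _ hM x hx => by
    by_cases e1 : x = 1
    · exact e1 ▸ one_mem M
    · exact (h.ab q).mem_prime hM x (orderOf_eq_prime (hX x hx) e1)
  have hEq := IsPGroup.of_card hE
  rcases subsingleton_or_nontrivial G with h0 | h0
  · rw [Subsingleton.elim E ⊥, card_bot] at hE
    have := hq.out.two_le
    omega
  obtain ⟨N, r, hN, hr, hNE, hNr⟩ := exists_isMinNormal_isElementaryAbelian G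
  have := hN.normal
  have := Fact.mk hr
  by_cases e : r = q
  · subst e
    refine ⟨N, hN.normal, hNE, fun Q => (h.ab r).le_of_noncyclic hNE.2 hN.ne_bot fun e => ?_⟩
    have := card_le_of_le (hord E hE' N (e ▸ dvd_rfl))
    omega
  have hco : ∀ X : Subgroup G, IsPGroup q X → (Nat.card X).Coprime (Nat.card N) := fun X hX =>
    IsPGroup.coprime_card_of_ne q r (Ne.symm e) _ _ hX hNr
  obtain ⟨T', hT1, hT2, hT3⟩ := ih (G ⧸ N) (card_quotient_lt hN.ne_bot) inferInstance
    (h.map hs (QuotientGroup.mk'_surjective N)) (E.map (QuotientGroup.mk' N))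
    (by rw [card_map_of_disjoint (inf_eq_bot_of_coprime_card (hco E hEq)), hE])
    (by rintro _ ⟨x, hx, rfl⟩; rw [← map_pow, hE' x hx, map_one])
  have hT'q : IsPGroup q T' := fun x => ⟨1, Subtype.ext (by simpa using hT2.2 x x.2)⟩
  obtain ⟨T, rfl, e1, e2⟩ := exists_lift N T'
    (IsPGroup.coprime_card_of_ne r q e _ _ hNr hT'q)
  have hW : ∀ Q : Subgroup G, IsPGroup q Q → Q ≤ T ⊔ N := fun Q hQ =>
    (map_mk'_le_map_mk'_iff Q T N).1 (hT3 _ (hQ.map _))
  have hWn : (T ⊔ N).Normal := comap_map_mk' T N ▸ hT1.comap _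
  have hTq : ∀ x ∈ T, x ^ q = 1 := fun x hx => by
    have : x ^ q ∈ T ⊓ N := ⟨pow_mem hx q, (QuotientGroup.eq_one_iff _).1 (hT2.2 _ ⟨x, hx, rfl⟩)⟩
    rwa [e1] at this
  have hcyc := (h.ab r).isCyclic (W := T ⊔ N) hNE hN.ne_bot (fun a ha b hb => by
    refine le_centralizer_iff_isMulCommutative.2 hNE.1 ((QuotientGroup.eq_one_iff _).1 ?_)
    rw [← comap_map_mk'] at ha hb
    have := congrArg Subtype.val (hT2.1.is_comm.comm ⟨_, ha⟩ ⟨_, hb⟩)
    exact (map_commutatorElement (QuotientGroup.mk' N) a b).trans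
      (commutatorElement_eq_one_iff_mul_comm.2 this)) (hW E hEq) (hco E hEq)
  have hTC : T ≤ centralizer (N : Set G) := by
    refine hord T hTq _ (by_contra fun hd => ?_)
    have h1 := card_map_mul_card_inf_ker E (MulAut.conjNormal (H := N))
    rw [ker_conj, inf_eq_bot_of_isPGroup_of_coprime hEq
      ((Nat.Prime.coprime_iff_not_dvd hq.out).2 hd).symm, card_bot, mul_one, hE] at h1
    have h2 := card_eq_of_isCyclic hq.out (fun e => by rw [e, card_bot] at h1; have := hq.out.two_le; omega) hcyc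
      (by rintro _ ⟨x, hx, rfl⟩; rw [← map_pow, hE' x hx, map_one])
    omega
  have key : ∀ Q : Subgroup G, IsPGroup q Q → Q ≤ T := fun Q hQ x hx =>
    mem_of_cent hTC (hW Q hQ hx) ((hco Q hQ).coprime_dvd_left (orderOf_dvd_natCard Q hx)).symm
  have hTp : IsPGroup q T := fun x => ⟨1, Subtype.ext (by simpa using hTq x x.2)⟩
  exact ⟨T, ⟨fun x hx g => key (MulAut.conj g • T) (hTp.map _) (conj_mem_conj_smul hx)⟩,
    ⟨comm_of_disjoint e1 hT2.1, hTq⟩, key⟩

theorem BG.le_cent_of_sq [Finite G] (h : BG G) (hs : Group.IsSolvable G) {p q : ℕ} [Fact p.Prime]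
    [Fact q.Prime] {V P : Subgroup G} [V.Normal] (hV : IsElementaryAbelian p V) {E : Subgroup P}
    (h1 : IsElementaryAbelian q E) (h2 : Nat.card E = q ^ 2) (Q : Subgroup G) (hQ : IsPGroup q Q) :
    Q ≤ centralizer (V : Set G) := by
  obtain ⟨E, -, h3, h4⟩ := exists_sq_of_elem h1 h2
  obtain ⟨T, hT1, hT2, hT3⟩ := BG.normal_of_sq G hs h E h3 h4
  have hVp : IsPGroup p V := fun x => ⟨1, Subtype.ext (by simpa using hV.2 x x.2)⟩
  have hTq : IsPGroup q T := fun x => ⟨1, Subtype.ext (by simpa using hT2.2 x x.2)⟩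
  refine (hT3 Q hQ).trans ?_
  by_cases e : q = p
  · subst e
    exact (le_centralizer_iff_isMulCommutative.2 hT2.1).trans (centralizer_le (hT3 V hVp))
  · exact fun t ht v hv => (commute_of_normal_of_disjoint T V hT1 inferInstance
      (IsPGroup.disjoint_of_ne q p e _ _ hTq hVp) t v ht hv).eq.symm

open QuaternionGroup

theorem q_tri : ∀ x : QuaternionGroup 2, x = 1 ∨ x = a 2 ∨ x ^ 2 = a 2 := by decide

theorem q_comm : (a 2 : QuaternionGroup 2) = ⁅(a 1 : QuaternionGroup 2), (xa 0 : QuaternionGroup 2)⁆ := by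
  rw [commutatorElement_def]; decide

theorem q_ord {f : QuaternionGroup 2 →* G} (hf : Function.Injective f) {x : QuaternionGroup 2}
    (hx : x ^ 2 = a 2) : orderOf (f x) = 2 ^ 2 := by
  rw [orderOf_injective f hf]
  exact orderOf_eq_prime_pow (n := 1) (by rw [pow_one, hx]; decide)
    (by rw [show 2 ^ (1 + 1) = 2 * 2 from rfl, pow_mul, hx]; decide)

theorem q_cyc {H : Type*} [Group H] (ψ : QuaternionGroup 2 →* H) (h : IsCyclic ψ.range) :
    ∃ x, x ^ 2 = a 2 ∧ ψ x = 1 := by
  have hc : ∀ x y, ψ x * ψ y = ψ y * ψ x := fun x y =>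
    congrArg Subtype.val (mul_comm' (⟨_, x, rfl⟩ : ψ.range) ⟨_, y, rfl⟩)
  have h1 : ψ (a 2) = 1 := by
    rw [q_comm, map_commutatorElement,
      commutatorElement_eq_one_iff_mul_comm, hc]
  obtain ⟨⟨_, t, rfl⟩, ht⟩ := h.exists_generator
  have h2 : ψ t ^ (2 : ℤ) = 1 := by
    rw [zpow_ofNat, ← map_pow]
    rcases q_tri t with rfl | rfl | h
    · simp
    · rw [map_pow, h1, one_pow]
    · rw [h, h1]
  have h3 : ∀ x, ψ x = 1 ∨ ψ x = ψ t := fun x => by
    obtain ⟨k, hk⟩ := ht ⟨_, x, rfl⟩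
    have hk : ψ t ^ k = ψ x := congrArg Subtype.val hk
    rw [← hk]
    rcases Int.even_or_odd' k with ⟨j, rfl | rfl⟩
    · exact Or.inl (by rw [zpow_mul, h2, one_zpow])
    · exact Or.inr (by rw [zpow_add, zpow_mul, h2, one_zpow, one_mul, zpow_one])
  rcases h3 (a 1) with h4 | h4
  · exact ⟨_, by decide, h4⟩
  rcases h3 (xa 0) with h5 | h5
  · exact ⟨_, by decide, h5⟩
  exact ⟨a 1 * xa 0, by decide, by rw [map_mul, h4, h5, ← sq, ← zpow_ofNat, h2]⟩

theorem Ab.range_le [Finite G] (h : Ab 2 G) {f : QuaternionGroup 2 →* G} (hf : Function.Injective f)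
    {H : Type*} [Group H] (φ : G →* H) (hc : IsCyclic (f.range.map φ)) : f.range ≤ φ.ker := by
  rw [MonoidHom.map_range] at hc
  obtain ⟨x, h1, h2⟩ := q_cyc _ hc
  rintro _ ⟨y, rfl⟩
  rcases q_tri y with rfl | rfl | h3
  · exact (map_one f).symm ▸ one_mem _
  · rw [← h1, map_pow]
    exact pow_mem (show f x ∈ φ.ker from h2) 2
  · exact h.mem (show f x ∈ φ.ker from h2) (q_ord hf h1) (q_ord hf h3)

theorem q_pgroup (f : QuaternionGroup 2 →* G) : IsPGroup 2 f.range :=
  (IsPGroup.of_card (n := 3) (by rw [Nat.card_eq_fintype_card, QuaternionGroup.card]; rfl)).of_surjective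
    _ f.rangeRestrict_surjective

theorem BG.exists_normal [Finite G] (h : BG G) (hs : Group.IsSolvable G)
    {f : QuaternionGroup 2 →* G} (h1 : f (a 2) = 1) (hn : ¬ IsCyclic f.range) :
    ∃ T : Subgroup G, T.Normal ∧ IsElementaryAbelian 2 T ∧ f.range ≤ T := by
  obtain ⟨E, e1, e2⟩ := exists_card_sq (q_pgroup f) (fun e => hn (e ▸ inferInstance))
    (fun e => hn (isCyclic_of_prime_card e))
  obtain ⟨T, hT1, hT2, hT3⟩ := BG.normal_of_sq G hs h E e2 fun x hx => by
    obtain ⟨y, rfl⟩ := e1 hx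
    rcases q_tri y with rfl | rfl | h3
    · simp
    · rw [h1, one_pow]
    · rw [← map_pow, h3, h1]
  exact ⟨T, hT1, hT2, hT3 _ (q_pgroup f)⟩

theorem BG.quat_normal [Finite G] (h : BG G) (hs : Group.IsSolvable G)
    (hcyc : ∀ r, r.Prime → r ≠ 2 → IsCyclic (pCore r G)) {f : QuaternionGroup 2 →* G}
    (hf : Function.Injective f) (hi : ¬ 2 ∣ f.range.index) : f.range.Normal := by
  let S := (q_pgroup f).toSylow hi
  have hO : pCore 2 G ≤ f.range := pCore_le_sylow S
  have hz2 : orderOf (f (a 2)) = 2 := by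
    rw [orderOf_injective f hf]; exact orderOf_eq_prime (by decide) (by decide)
  have hz : f (a 2) ∈ pCore 2 G := by
    refine le_pCore_of_le_fittingSubgroup (zpowers_le_of_mem (centralizer_fittingSubgroup_le G ?_))
      (IsPGroup.of_card (n := 1) (by rw [Nat.card_zpowers, hz2, pow_one])) (mem_zpowers _)
    rw [fittingSubgroup_eq_iSup_pCore, ← zpowers_le, le_centralizer_iff]
    refine iSup_le fun r => le_centralizer_iff.1 (zpowers_le_of_mem ?_)
    by_cases e : (r : ℕ) = 2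
    · rw [e]
      intro y hy
      obtain ⟨y, rfl⟩ := hO hy
      rw [← map_mul, ← map_mul, (by decide : ∀ y : QuaternionGroup 2, y * a 2 = a 2 * y)]
    · have := hcyc r r.2 e
      refine commutator_le_centralizer_of_cyclic_normal _ ?_
      rw [q_comm, map_commutatorElement]
      exact commutator_mem_commutator (mem_top _) (mem_top _)
  have hc : ∀ g, g * f (a 2) * g⁻¹ = f (a 2) := fun g => by
    obtain ⟨y, hy⟩ := hO (Normal.conj_mem inferInstance _ hz g)
    have h2 : orderOf (f y) = 2 := hy ▸ ((MulAut.conj g).orderOf_eq _).trans hz2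
    rcases q_tri y with rfl | rfl | h3
    · simp at h2
    · exact hy.symm
    · rw [q_ord hf h3] at h2; omega
  have : (zpowers (f (a 2))).Normal := ⟨by
    rintro _ ⟨k, rfl⟩ g
    exact ⟨k, by simp only [← conj_zpow, hc]⟩⟩
  by_cases hn : IsCyclic (f.range.map (QuotientGroup.mk' (zpowers (f (a 2)))))
  · have h1 := card_le_of_le ((h.ab 2).range_le hf _ hn)
    rw [QuotientGroup.ker_mk', Nat.card_zpowers, hz2, ← Nat.card_congr (MonoidHom.ofInjective hf).toEquiv,
      Nat.card_eq_fintype_card, QuaternionGroup.card] at h1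
    omega
  rw [MonoidHom.map_range] at hn
  obtain ⟨T, hT1, hT2, hT3⟩ := (h.map hs (QuotientGroup.mk'_surjective _)).exists_normal inferInstance
    ((QuotientGroup.eq_one_iff _).2 (mem_zpowers _)) hn
  have hTp : IsPGroup 2 T := fun x => ⟨1, Subtype.ext (by simpa using hT2.2 x x.2)⟩
  have := S.is_maximal' (hTp.comap_of_ker_isPGroup (QuotientGroup.mk' _) (by
    rw [QuotientGroup.ker_mk']
    exact IsPGroup.of_card (n := 1) (by rw [Nat.card_zpowers, hz2, pow_one])))
    (by rintro _ ⟨y, rfl⟩; exact hT3 ⟨y, rfl⟩)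
  exact (show T.comap (QuotientGroup.mk' _) = f.range from this) ▸ hT1.comap _

theorem comm_cent_of_norm {v x y : G} (hx : x ∈ normalizer ((zpowers v : Subgroup G) : Set G))
    (hy : y ∈ normalizer ((zpowers v : Subgroup G) : Set G)) : v * ⁅x, y⁆ = ⁅x, y⁆ * v := by
  let M := normalizer ((zpowers v : Subgroup G) : Set G)
  have : IsCyclic ((zpowers v).subgroupOf M) :=
    isCyclic_of_surjective _ (subgroupOfEquivOfLe (le_normalizer (H := zpowers v))).symm.surjective
  exact congrArg Subtype.val (commutator_le_centralizer_of_cyclic_normal ((zpowers v).subgroupOf M)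
    (commutator_mem_commutator (mem_top (⟨x, hx⟩ : M)) (mem_top ⟨y, hy⟩))
    ⟨v, le_normalizer (mem_zpowers v)⟩ (mem_zpowers v))

theorem Ab.scalar [Finite G] {p : ℕ} [hp : Fact p.Prime] (h : Ab p G) {V W : Subgroup G}
    [W.Normal] (hV : IsElementaryAbelian p V) (U : Subgroup G) : U ≤ V → U ≠ ⊥ → U ≠ V →
      W ≤ normalizer (U : Set G) → ∀ a ∈ W, ∀ b ∈ W, ⁅a, b⁆ ∈ centralizer (V : Set G) := by
  refine subgroup_induction (P := fun U => U ≤ V → U ≠ ⊥ → U ≠ V → W ≤ normalizer (U : Set G) →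
    ∀ a ∈ W, ∀ b ∈ W, ⁅a, b⁆ ∈ centralizer (V : Set G)) (fun U ih h1 h2 h3 h4 => ?_) U
  have hVp : IsPGroup p V := fun x => ⟨1, Subtype.ext (by simpa using hV.2 x x.2)⟩
  have key : ∀ X ≤ V, Nat.card U = Nat.card X → W ≤ normalizer (X : Set G) := fun X hX hc => by
    obtain ⟨g, rfl⟩ := h U X (hVp.to_le h1) (hVp.to_le hX) (isMulCommutative_of_le hV.1 h1)
      (isMulCommutative_of_le hV.1 hX) hc
    rw [normalizer_conj_smul]
    exact fun w hw => mem_conj_smul_iff.2 (h4 (Normal.conj_mem' inferInstance w hw g))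
  have ho : ∀ v ∈ V, v ≠ 1 → Nat.card (zpowers v) = p := fun v hv e => by
    rw [Nat.card_zpowers, orderOf_eq_prime (hV.2 v hv) e]
  by_cases e : Nat.card U = p
  · intro a ha b hb v hv
    by_cases e1 : v = 1
    · simp [e1]
    have := key _ (zpowers_le_of_mem hv) (e.trans (ho v hv e1).symm)
    exact comm_cent_of_norm (this ha) (this hb)
  obtain ⟨⟨x, hx⟩, x1⟩ := ne_bot_iff_exists_ne_one.1 h2
  have x1 : x ≠ 1 := fun e => x1 (Subtype.ext e)
  obtain ⟨y, hy, hyU⟩ := SetLike.exists_of_lt (lt_of_le_of_ne h1 h3)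
  obtain ⟨k, hk⟩ := (hVp.to_le h1).exists_card_eq
  obtain ⟨E, hE, hEc⟩ := exists_card_sq (hVp.to_le h1) h2 e
  have h0 : zpowers x ⊔ zpowers y ≤ V := sup_le (zpowers_le_of_mem (h1 hx)) (zpowers_le_of_mem hy)
  obtain ⟨j, hj2, hj⟩ : ∃ j ≤ 2, Nat.card ↥(zpowers x ⊔ zpowers y) = p ^ j :=
    (Nat.dvd_prime_pow hp.out).1 (by
      have := card_sup_dvd_mul_of_le_normalizer (H := zpowers x) (K := zpowers y)
        (((zpowers_le_of_mem (h1 hx)).trans ((le_centralizer_iff_isMulCommutative.2 hV.1).trans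
          (centralizer_le (zpowers_le_of_mem hy)))).trans (centralizer_le_normalizer _))
      rwa [ho x (h1 hx) x1, ho y hy (fun e => hyU (e ▸ one_mem U)), ← sq] at this)
  obtain ⟨X, hX, hX'⟩ := Sylow.exists_subgroup_card_pow_prime_le (G := V) p (n := j) (m := k)
    (hk ▸ card_dvd_of_le h1) ((zpowers x ⊔ zpowers y).subgroupOf V)
    (by rw [card_subgroupOf_of_le h0, hj]) (hj2.trans ((Nat.pow_le_pow_iff_right hp.out.one_lt).1
      (hEc ▸ hk ▸ card_le_of_le hE)))
  have hc : Nat.card U = Nat.card (X.map V.subtype) := by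
    rw [card_map_of_injective V.subtype_injective, hX, hk]
  have h5 : zpowers x ⊔ zpowers y ≤ X.map V.subtype := by
    rw [← map_subgroupOf_eq_of_le h0]; exact map_mono hX'
  refine ih (U ⊓ X.map V.subtype) (lt_of_le_of_ne inf_le_left fun e => hyU ?_) (inf_le_left.trans h1)
    (fun e => x1 ((e ▸ ⟨hx, h5 (mem_sup_left (mem_zpowers x))⟩ : x ∈ (⊥ : Subgroup G))))
    (fun e => h3 (le_antisymm h1 (e ▸ inf_le_left))) (le_normalizer_inf h4 (key _ (map_subtype_le X) hc))
  rw [eq_of_le_of_card_ge (inf_eq_left.1 e) hc.ge]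
  exact h5 (mem_sup_right (mem_zpowers y))

theorem BG.star [Finite G] (h : BG G) (hs : Group.IsSolvable G) {p q : ℕ} [hp : Fact p.Prime]
    [Fact q.Prime] (hq : q ≠ p) {V U : Subgroup G} [V.Normal] (hV : IsElementaryAbelian p V)
    (h1 : U ≤ V) (h2 : U ≠ ⊥) (h3 : U ≠ V) {Q : Subgroup G} (hQ : IsPGroup q Q)
    (hU : Q ≤ normalizer (U : Set G)) (hn : ¬ IsCyclic Q) (R : Subgroup G) (hR : IsPGroup q R) :
    R ≤ centralizer (V : Set G) := by
  rcases PCyc.isCyclic_or_elemAb_or_quaternion hQ with h4 | ⟨E, h4, h5⟩ | ⟨rfl, n, ⟨e⟩⟩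
  · exact absurd h4 hn
  · exact h.le_cent_of_sq hs hV h4 h5 R hR
  obtain ⟨rfl, hi⟩ := h.quat hs e
  obtain ⟨f, hf, rfl⟩ : ∃ f : QuaternionGroup 2 →* G, Function.Injective f ∧ f.range = Q :=
    ⟨Q.subtype.comp e.symm.toMonoidHom, Subtype.val_injective.comp e.symm.injective, by
      rw [MonoidHom.range_comp, MonoidHom.range_eq_top.2 e.symm.surjective, ← MonoidHom.range_eq_map,
        range_subtype]⟩
  suffices f.range ≤ centralizer (V : Set G) by
    obtain ⟨S, hS⟩ := hR.exists_le_sylow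
    obtain ⟨g, hg⟩ := MulAction.exists_smul_eq G (hQ.toSylow hi) S
    exact hS.trans (hg ▸ conj_smul_le_of_mem_normalizer this (le_normalizer_of_normal (mem_top g)))
  have hVp : IsPGroup p V := fun x => ⟨1, Subtype.ext (by simpa using hV.2 x x.2)⟩
  have hV0 : V ≠ ⊥ := fun e => h2 (le_bot_iff.1 (e ▸ h1))
  rw [← ker_conj]
  refine (h.ab 2).range_le hf _ ?_
  let ψ := QuotientGroup.mk' (centralizer (V : Set G))
  have hψ : Function.Surjective ψ := QuotientGroup.mk'_surjective _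
  have hb := h.map hs hψ
  have key : ∀ T : Subgroup (G ⧸ centralizer (V : Set G)), T.Normal → (ψ.comp f).range ≤ T →
      (∀ a ∈ T.comap ψ, ∀ b ∈ T.comap ψ, ⁅a, b⁆ ∈ centralizer (V : Set G)) →
      IsCyclic (f.range.map (MulAut.conjNormal (H := V))) := fun T hT h4 h5 =>
    have := hT.comap ψ
    (h.ab p).isCyclic hV hV0 h5 (by rintro _ ⟨y, rfl⟩; exact h4 ⟨y, rfl⟩)
      (IsPGroup.coprime_card_of_ne 2 p hq _ _ hQ hVp)
  have hab : ∀ T : Subgroup (G ⧸ centralizer (V : Set G)), IsMulCommutative T →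
      ∀ a ∈ T.comap ψ, ∀ b ∈ T.comap ψ, ⁅a, b⁆ ∈ centralizer (V : Set G) := fun T hT a ha b hb =>
    (QuotientGroup.eq_one_iff _).1 ((map_commutatorElement ψ a b).trans
      (commutatorElement_eq_one_iff_mul_comm.2 (congrArg Subtype.val (hT.is_comm.comm ⟨_, ha⟩ ⟨_, hb⟩))))
  by_cases hz : ψ (f (a 2)) = 1
  · by_cases hc : IsCyclic (ψ.comp f).range
    · rw [← MonoidHom.map_range] at hc
      rw [(Subgroup.map_eq_bot_iff _).2 (((h.ab 2).range_le hf _ hc).trans (by
        rw [QuotientGroup.ker_mk', ker_conj]))]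
      infer_instance
    · obtain ⟨T, hT1, hT2, hT3⟩ := hb.exists_normal inferInstance hz hc
      exact key T hT1 hT3 (hab T hT2.1)
  · have hinj : Function.Injective (ψ.comp f) := (injective_iff_map_eq_one _).2 fun x hx => by
      rcases q_tri x with rfl | rfl | h4
      · rfl
      · exact absurd hx hz
      · exact absurd (by rw [← h4]; exact ((ψ.comp f).map_pow x 2).trans (by rw [hx, one_pow])) hz
    have hN := hb.quat_normal inferInstance (fun r hr hr2 => by
      have := Fact.mk hr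
      obtain ⟨P, hP, e1⟩ := exists_lift_pgroup hψ (isPGroup_pCore r _)
      rw [← e1]
      rcases PCyc.isCyclic_or_elemAb_or_quaternion hP with h4 | ⟨E, h4, h5⟩ | ⟨e2, -⟩
      · exact isCyclic_of_surjective _ (ψ.subgroupMap_surjective P)
      · rw [(map_mk'_eq_bot_iff _ _).2 (h.le_cent_of_sq hs hV h4 h5 P hP)]
        infer_instance
      · exact absurd e2 hr2) hinj
      (fun e => hi (e.trans (by rw [← MonoidHom.map_range]; exact index_map_dvd _ hψ)))
    have := hN.comap ψ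
    refine key _ hN le_rfl ((h.ab p).scalar hV U h1 h2 h3 ?_)
    rw [← MonoidHom.map_range, comap_map_mk']
    exact sup_le hU ((centralizer_le h1).trans (centralizer_le_normalizer _))

theorem BG.conj_in_normalizer [Finite G] (h : BG G) (hs : Group.IsSolvable G) {p : ℕ}
    [hp : Fact p.Prime] {V U : Subgroup G} [V.Normal] (hV : IsElementaryAbelian p V) (h1 : U ≤ V)
    {A B : Subgroup G} (hA : IsMulCommutative A) (hB : IsMulCommutative B)
    (hc : Nat.card A = Nat.card B) (hAp : (Nat.card A).Coprime p) (hAU : A ≤ normalizer (U : Set G))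
    (hBU : B ≤ normalizer (U : Set G)) : ∃ g ∈ normalizer (U : Set G), MulAut.conj g • A = B := by
  by_cases h2 : U = ⊥ ∨ U = V
  · have : U.Normal := by rcases h2 with rfl | rfl <;> infer_instance
    obtain ⟨g, hg⟩ := h A B hA hB hc
    exact ⟨g, le_normalizer_of_normal (mem_top g), hg⟩
  push Not at h2
  let π : Set ℕ := {q | ∀ Q : Subgroup G, IsPGroup q Q → Q ≤ centralizer (V : Set G)}
  have hUp : IsPGroup p U := fun x => ⟨1, Subtype.ext (by simpa using hV.2 x (h1 x.2))⟩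
  have hUc := isMulCommutative_of_le hV.1 h1
  have data : ∀ X : Subgroup G, IsMulCommutative X → (Nat.card X).Coprime p →
      ∃ X1 X2 : Subgroup G, IsPiHallOf π X1 X ∧ IsPiHallOf πᶜ X2 X ∧ X1 ≤ centralizer (U : Set G) ∧
        (Nat.card U).Coprime (Nat.card X1) ∧ IsMulCommutative ↥(X1 ⊔ U) ∧
        Nat.card ↥(X1 ⊔ U) = Nat.card X1 * Nat.card U := fun X hX hXp => by
    obtain ⟨X1, a1⟩ := exists_isPiHallOf π X (isSolvable_of_isMulCommutative X)
    obtain ⟨X2, a2⟩ := exists_isPiHallOf πᶜ X (isSolvable_of_isMulCommutative X)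
    have e1 : X1 ≤ centralizer (U : Set G) := le_of_forall_isPGroup_le fun r hr P => by
      by_cases e : r ∣ Nat.card X1
      · exact (a1.2.1 r hr.out e _ (P.isPGroup'.map _)).trans (centralizer_le h1)
      · rw [inf_eq_bot_of_isPGroup_of_coprime (K := ⊤) P.isPGroup' (by
          rw [card_top]; exact ((Nat.Prime.coprime_iff_not_dvd hr.out).2 e).symm) |>
          (inf_top_eq _).symm.trans, Subgroup.map_bot]
        exact bot_le
    have e2 := coprime_card_of_isPGroup_of_coprime hUp (hXp.coprime_dvd_left (card_dvd_of_le a1.1))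
    exact ⟨X1, X2, a1, a2, e1, e2, comm_sup (isMulCommutative_of_le hX a1.1) hUc e1,
      card_sup_of_disjoint (e1.trans (centralizer_le_normalizer _)) (inf_eq_bot_of_coprime_card e2.symm)⟩
  obtain ⟨A1, A2, a1, a2, a3, a4, a5, a6⟩ := data A hA hAp
  obtain ⟨B1, B2, b1, b2, b3, b4, b5, b6⟩ := data B hB (hc ▸ hAp)
  have c1 := hall_card a1 b1 hc
  obtain ⟨g, hg⟩ := h _ _ a5 b5 (by rw [a6, b6, c1])
  have g1 : MulAut.conj g • A1 = B1 := eq_of_le_of_card_ge (fun x hx => mem_of_cent b3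
    (hg ▸ conj_smul_mono g le_sup_left hx) (a4.coprime_dvd_right
      (card_conj_smul g A1 ▸ orderOf_dvd_natCard _ hx))) (by rw [card_conj_smul, c1])
  have g2 : MulAut.conj g • U = U := eq_of_le_of_card_ge (fun x hx => mem_of_cent
    (le_centralizer_iff.1 b3) (sup_comm B1 U ▸ hg ▸ conj_smul_mono g le_sup_right hx)
    (b4.symm.coprime_dvd_right (card_conj_smul g U ▸ orderOf_dvd_natCard _ hx)))
    (by rw [card_conj_smul])
  have g3 := conj_smul_eq_iff_mem_normalizer.1 g2
  obtain ⟨c, ⟨hc1, hc2⟩, hc3⟩ := conj_of_cyclic_in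
    (M := normalizer (U : Set G) ⊓ centralizer (B1 : Set G)) (H := MulAut.conj g • A2) (K := B2)
    inferInstance (le_inf (conj_smul_le_of_mem_normalizer (a2.1.trans hAU) (le_normalizer g3)) (by
      rw [← g1, centralizer_conj_smul]
      exact conj_smul_mono g (a2.1.trans ((le_centralizer_iff_isMulCommutative.2 hA).trans
        (centralizer_le a1.1)))))
    (le_inf (b2.1.trans hBU) (b2.1.trans ((le_centralizer_iff_isMulCommutative.2 hB).trans
      (centralizer_le b1.1)))) (by rw [card_conj_smul, hall_card a2 b2 hc])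
    fun q hq hd Q hQ hQq => by
      rw [card_conj_smul] at hd
      have := Fact.mk hq
      by_contra hn
      refine a2.2.1 q hq hd (h.star hs ?_ hV h1 h2.1 h2.2 hQq (hQ.trans inf_le_left) hn)
      rintro rfl
      exact hq.one_lt.ne' (Nat.eq_one_of_dvd_coprimes hAp (hd.trans (card_dvd_of_le a2.1)) dvd_rfl)
  refine ⟨c * g, mul_mem hc1 g3, ?_⟩
  rw [← conj_smul_conj_smul, ← hall_sup a1 a2, smul_sup, smul_sup, g1, hc3,
    conj_smul_eq_iff_mem_normalizer.2 (centralizer_le_normalizer _ hc2), hall_sup b1 b2]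

theorem BG.conj : ∀ (G : Type u) [Group G] [Finite G], Group.IsSolvable G → BG G →
    ∀ H K : Subgroup G, Nat.card H = Nat.card K → ∃ g : G, MulAut.conj g • H = K := by
  refine card_induction ?_
  intro G _ _ ih hs h H K hc
  rcases subsingleton_or_nontrivial G with h0 | h0
  · exact ⟨1, Subsingleton.elim _ _⟩
  obtain ⟨N, q, hN, hq, hE, hNq⟩ := exists_isMinNormal_isElementaryAbelian G
  have := hN.normal
  have := Fact.mk hq
  by_cases e : Nat.card N = q
  · exact step_prime hq e ((h.ab q).mem_prime (e ▸ dvd_rfl)) hc (ih (G ⧸ N)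
      (card_quotient_lt hN.ne_bot) inferInstance (h.map hs (QuotientGroup.mk'_surjective N)) _ _)
  have hco := coprime_index_of_forall_le hNq fun Q => (h.ab q).le_of_noncyclic hE.2 hN.ne_bot e
  refine split hco hc (h _ _ (isMulCommutative_of_le hE.1 inf_le_right)
    (isMulCommutative_of_le hE.1 inf_le_right)) fun Y Y' h1 h2 h3 h4 => ?_
  set L := normalizer ((K ⊓ N : Subgroup G) : Set G)
  have hNL : N ≤ L := ((le_centralizer_iff_isMulCommutative.2 hE.1).trans
    (centralizer_le (inf_le_right : K ⊓ N ≤ N))).trans (centralizer_le_normalizer _)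
  have hcN := card_subgroupOf_of_le hNL
  have hqN : q ∣ Nat.card N := by
    obtain ⟨k, hk⟩ := hNq.exists_card_eq
    exact hk ▸ dvd_pow_self _ fun e => hN.ne_bot (card_eq_one.1 (by rw [hk, e, pow_zero]))
  have hb : BG (L ⧸ N.subgroupOf L) := fun A B hA hB hAB => by
    have hp : ∀ X : Subgroup (L ⧸ N.subgroupOf L), (Nat.card N).Coprime (Nat.card X) := fun X =>
      hco.coprime_dvd_right ((card_subgroup_dvd_card X).trans (relIndex_dvd_index_of_normal N L))
    obtain ⟨X, rfl, a1, a2⟩ := exists_lift _ A (hcN ▸ hp A)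
    obtain ⟨X', rfl, b1, b2⟩ := exists_lift _ B (hcN ▸ hp B)
    have := comm_of_disjoint a1 hA
    have := comm_of_disjoint b1 hB
    obtain ⟨g, hg, e1⟩ := h.conj_in_normalizer hs hE (inf_le_right : K ⊓ N ≤ N)
      (A := X.map L.subtype) (B := X'.map L.subtype) inferInstance inferInstance
      (by rw [card_map_of_injective L.subtype_injective, card_map_of_injective L.subtype_injective,
        a2, b2, hAB])
      (by rw [card_map_of_injective L.subtype_injective, a2]; exact ((hp _).coprime_dvd_left hqN).symm)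
      (map_subtype_le _) (map_subtype_le _)
    obtain rfl : MulAut.conj (⟨g, hg⟩ : L) • X = X' :=
      map_injective L.subtype_injective ((map_conj_smul _ _ _).trans e1)
    exact ⟨_, (map_conj_smul _ _ X).symm⟩
  have := hE.1
  refine exists_mem_conj h1 h2 (step (N := N.subgroupOf L) (isSolvable_of_isMulCommutative _)
    (by rw [card_subgroupOf_of_le h1, card_subgroupOf_of_le h2, h3])
    (Or.inr (by rwa [card_subgroupOf_of_le h1, hcN])) (ih _ ?_ inferInstance hb _ _))
  exact (card_quotient_lt fun e => hN.ne_bot (card_eq_one.1 (by rw [← hcN, e, card_bot]))).trans_le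
    (card_le_card_group L)

end CL.EqAb
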