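import Mathlib
import Cfsg.Agent.SOLV.FrobeniusNil
import Cfsg.Agent.SOLV.Fitting
import Cfsg.Agent.TECH.SylIn
import Cfsg.Agent.PLOC.NPC
import Cfsg.Agent.CHAR.IndRep
import Cfsg.Agent.CHAR.Quot
import Cfsg.Agent.CHAR.PowCongr
import Cfsg.Agent.CHAR.Det
import Cfsg.Agent.S4455

/-!
Equal order pairs and Camina pairs.
-/

set_option autoImplicit false

namespace CL.EqOrd

open Subgroup CL.MSS Cfsg CL.Char

variable {G : Type*} [Group G] [Finite G] {N : Subgroup G} [hN : N.Normal] {p : ℕ}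
  [hp : Fact p.Prime]

omit [Finite G] hN in
theorem eq_order_of_camina (hcam : ∀ g : G, g ∉ N → ∀ n ∈ N, ∃ x : G, x * g * x⁻¹ = g * n) :
    ∀ x : G, x ∉ N → ∀ n ∈ N, orderOf (x * n) = orderOf x := fun x hx n hn => by
  obtain ⟨y, hy⟩ := hcam x hx n hn
  rw [← hy]
  exact (MulAut.conj y).orderOf_eq x

omit hN hp in
/-- If a normal `p`-subgroup is not contained in `N` then `N` is a `p`-group. -/
theorem isPGroup_of_not_le (heq : ∀ x : G, x ∉ N → ∀ n ∈ N, orderOf (x * n) = orderOf x)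
    (h : ¬ pCore p G ≤ N) : IsPGroup p N := by
  obtain ⟨x, hx, hxN⟩ := SetLike.not_le_iff_exists.1 h
  obtain ⟨k, hk⟩ := isPGroup_iff_forall_mem.1 (isPGroup_pCore p G) x hx
  refine isPGroup_iff_forall_mem.2 fun n hn => ?_
  have h1 : (x * n) ^ p ^ k = 1 := by
    rwa [← orderOf_dvd_iff_pow_eq_one, heq x hxN n hn, orderOf_dvd_iff_pow_eq_one]
  have h2 := congrArg (QuotientGroup.mk' (pCore p G)) h1
  rw [map_pow, map_mul, QuotientGroup.mk'_apply, (QuotientGroup.eq_one_iff x).2 hx, one_mul,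
    ← map_pow, map_one, QuotientGroup.mk'_apply, QuotientGroup.eq_one_iff] at h2
  obtain ⟨l, hl⟩ := isPGroup_iff_forall_mem.1 (isPGroup_pCore p G) _ h2
  exact ⟨k + l, by rw [pow_add, pow_mul, hl]⟩

/-- A `p`-subgroup of `G/N` acts fixed-point-freely on a `p'`-quotient of `N`. -/
theorem exists_fpf (heq : ∀ x : G, x ∉ N → ∀ n ∈ N, orderOf (x * n) = orderOf x)
    (K : Subgroup G) [K.Normal] (hKN : K ≤ N) (hK : ¬ p ∣ K.relIndex N) (B : Subgroup (G ⧸ N))
    (hB : IsPGroup p B) : ∃ T : Subgroup (G ⧸ K), IsPGroup p T ∧ Nonempty (T ≃* B) ∧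
      ∀ a ∈ T, a ≠ 1 → N.map (QuotientGroup.mk' K) ⊓ centralizer {a} = ⊥ := by
  obtain ⟨T, hT⟩ := exists_sylIn p (B.comap (QuotientGroup.mk' N))
  have h1 := hT.map (QuotientGroup.mk' N)
  rw [map_comap_mk'] at h1
  have h2 := h1.eq_of_isPGroup hB
  have hone : ∀ n ∈ N, ∀ k : ℕ, (n : G ⧸ K) ^ p ^ k = 1 → (n : G ⧸ K) = 1 := fun n hn k hk => by
    have h3 : orderOf (n : G ⧸ K) ∣ K.relIndex N := by
      rw [← card_map_mk'_eq_relIndex]
      exact orderOf_dvd_natCard _ (mem_map_of_mem (QuotientGroup.mk' K) hn)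
    exact orderOf_eq_one_iff.1 (Nat.eq_one_of_dvd_coprimes
      (((hp.out.coprime_iff_not_dvd).2 hK).pow_left k) (orderOf_dvd_iff_pow_eq_one.2 hk) h3)
  have hone' : ∀ a ∈ T, a ∈ N → (a : G ⧸ K) = 1 := fun a ha haN => by
    obtain ⟨k, hk⟩ := isPGroup_iff_forall_mem.1 hT.pgroup a ha
    exact hone a haN k (by rw [← QuotientGroup.mk_pow, hk, QuotientGroup.mk_one])
  let φ : G ⧸ K →* G ⧸ N := QuotientGroup.map K N (MonoidHom.id G) hKN
  refine ⟨T.map (QuotientGroup.mk' K), hT.pgroup.map _, ?_, ?_⟩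
  · have h3 : (T.map (QuotientGroup.mk' K)).map φ = B := by
      rw [Subgroup.map_map, ← h2]
      rfl
    refine ⟨(MulEquiv.ofBijective (φ.subgroupMap (T.map (QuotientGroup.mk' K)))
      ⟨(injective_iff_map_eq_one _).2 ?_, φ.subgroupMap_surjective _⟩).trans
      (MulEquiv.subgroupCongr h3)⟩
    rintro ⟨_, a, ha, rfl⟩ h
    exact Subtype.ext (hone' a ha ((QuotientGroup.eq_one_iff a).1 (congrArg Subtype.val h)))
  · rintro _ ⟨a, ha, rfl⟩ ha1
    refine eq_bot_iff.2 ?_
    rintro _ ⟨⟨n, hn, rfl⟩, hc⟩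
    obtain ⟨k, hk⟩ := isPGroup_iff_forall_mem.1 hT.pgroup a ha
    have h3 : (a * n) ^ p ^ k = 1 := by
      rwa [← orderOf_dvd_iff_pow_eq_one, heq a (fun h => ha1 (hone' a ha h)) n hn,
        orderOf_dvd_iff_pow_eq_one]
    have h4 := congrArg (QuotientGroup.mk' K) h3
    have h5 : Commute (QuotientGroup.mk' K a) (QuotientGroup.mk' K n) :=
      (mem_centralizer_singleton_iff.1 hc).symm
    rw [map_pow, map_mul, h5.mul_pow, ← map_pow, hk, map_one, one_mul] at h4
    exact hone n hn k h4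

/-- In a Camina pair with `p` dividing `|N|` and `|G : N|`, `N` has no `G`-invariant `p'`-quotient. -/
theorem le_of_not_dvd (heq : ∀ x : G, x ∉ N → ∀ n ∈ N, orderOf (x * n) = orderOf x)
    (hc : ∀ g : G, g ∉ N → Nat.card (centralizer ({g} : Set G)) =
      Nat.card (centralizer ({(g : G ⧸ N)} : Set (G ⧸ N))))
    (h1 : p ∣ Nat.card N) (h2 : p ∣ N.index) (K : Subgroup G) [K.Normal] (hKN : K ≤ N)
    (hK : ¬ p ∣ K.relIndex N) : N ≤ K := by
  by_contra hNK
  obtain ⟨u, hu, hmax⟩ := Set.exists_max_image {u : G ⧸ N | ∃ k, u ^ p ^ k = 1} orderOf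
    (Set.toFinite _) ⟨1, 0, by simp⟩
  have hu1 : u ≠ 1 := by
    rintro rfl
    obtain ⟨v, hv⟩ := exists_prime_orderOf_dvd_card' (G := G ⧸ N) p h2
    have := hmax v ⟨1, by rw [pow_one, ← hv, pow_orderOf_eq_one]⟩
    rw [hv, orderOf_one] at this
    exact hp.out.one_lt.not_ge this
  obtain ⟨k, hk⟩ := hu
  obtain ⟨S, hS, huS⟩ := exists_sylIn_ge (isPGroup_zpowers hk)
    (zpowers_le.2 (mem_centralizer_singleton_iff.2 rfl) : zpowers u ≤ centralizer {u})
  have h3 : S ≤ zpowers u := fun v hv => by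
    have hB : IsPGroup p (zpowers u ⊔ zpowers v : Subgroup _) :=
      hS.pgroup.to_le (sup_le huS (zpowers_le.2 hv))
    have hcomm : IsMulCommutative (zpowers u ⊔ zpowers v : Subgroup _) := by
      rw [zpowers_eq_closure, zpowers_eq_closure, ← Subgroup.closure_union]
      refine Subgroup.isMulCommutative_closure ?_
      have h4 : v * u = u * v := mem_centralizer_singleton_iff.1 (hS.le hv)
      rintro _ (rfl | rfl) _ (rfl | rfl) <;> simp [h4]
    obtain ⟨T, -, ⟨e⟩, hT⟩ := exists_fpf heq K hKN hK _ hB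
    have : IsMulCommutative T := ⟨⟨fun a b => e.injective (by rw [map_mul, map_mul, mul_comm'])⟩⟩
    have := (hN.map _ (QuotientGroup.mk'_surjective K))
    have := CL.Frob.isCyclic_of_comm (mt (map_mk'_eq_bot_iff _ _).1 hNK)
      (by rw [normalizer_eq_top]; exact le_top) hT
    obtain ⟨b, hb⟩ := (isCyclic_iff_exists_zpowers_eq_top.1 (isCyclic_of_surjective e e.surjective))
    have h4 : zpowers (b : G ⧸ N) = zpowers u ⊔ zpowers v := by
      have := MonoidHom.map_zpowers (Subgroup.subtype _) b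
      rw [hb, ← MonoidHom.range_eq_map, range_subtype] at this
      exact this.symm
    have h5 : zpowers u = zpowers (b : G ⧸ N) := by
      refine eq_of_le_of_card_ge (le_sup_left.trans h4.ge) ?_
      rw [Nat.card_zpowers, Nat.card_zpowers]
      exact hmax b (isPGroup_iff_forall_mem.1 hB b b.2)
    rw [h5, h4]
    exact mem_sup_right (mem_zpowers v)
  obtain ⟨T, hT⟩ := exists_sylIn p ((zpowers u).comap (QuotientGroup.mk' N))
  have h4 := hT.map (QuotientGroup.mk' N)
  rw [map_comap_mk'] at h4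
  obtain ⟨x, hx, rfl⟩ : u ∈ T.map (QuotientGroup.mk' N) :=
    h4.eq_of_isPGroup (isPGroup_zpowers hk) ▸ mem_zpowers u
  have hT0 : T ⊓ N ≠ ⊥ := (hT.inf_normal_of_le (by rw [normalizer_eq_top]; exact le_top)
    (le_comap_mk' N _)).ne_bot h1
  have h5 : (T ⊓ N) ⊓ centralizer (T : Set G) ≠ ⊥ := inf_centralizer_ne_bot hT.pgroup
    hT.pgroup.to_inf_left (MSS.le_normalizer_inf le_normalizer
      (by rw [normalizer_eq_top]; exact le_top)) hT0
  have h6 := card_map_mk'_mul (T ⊓ centralizer {x}) N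
  have h7 : p ∣ Nat.card (T ⊓ centralizer {x} ⊓ N : Subgroup G) :=
    dvd_card_of_isPGroup_le hT.pgroup.to_inf_left.to_inf_left h5 fun y hy =>
      ⟨⟨hy.1.1, mem_centralizer_singleton_iff.2 (hy.2 x hx).symm⟩, hy.1.2⟩
  have h8 : Nat.card S ∣ Nat.card ((T ⊓ centralizer {x}).map (QuotientGroup.mk' N)) :=
    card_dvd_of_le (h3.trans (zpowers_le.2
      (mem_map_of_mem _ ⟨hx, mem_centralizer_singleton_iff.2 rfl⟩)))
  have h9 := (Nat.mul_dvd_mul h8 h7).trans (h6 ▸ card_dvd_of_le inf_le_right)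
  rw [hc x fun h => hu1 ((QuotientGroup.eq_one_iff x).2 h)] at h9
  exact hS.not_dvd_relIndex (Nat.dvd_of_mul_dvd_mul_left Nat.card_pos
    (h9.trans (card_mul_relIndex_of_le hS.le).symm.dvd))

theorem dvd_degree (hcam : ∀ g : G, g ∉ N → ∀ n ∈ N, ∃ x : G, x * g * x⁻¹ = g * n)
    {L : Subgroup G} (hNL : N ≤ L) (hL : ¬ p ∣ L.index) {x : G} (hxN : x ∉ N) {k : ℕ}
    (hx : x ^ p ^ k = 1) {ψ : L → ℂ} (hψ : IsIrrCharacter L ψ)
    (hk : ¬ ∀ n ∈ N.subgroupOf L, ψ n = ψ 1) : p ∣ charDegree ψ := by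
  classical
  have := Fintype.ofFinite G
  have h1 := hψ.isCharacter.ind
  have h2 : ∀ y : G, ∑ n : N, extendByZero L ψ (y * n) = 0 := fun y => by
    by_cases hy : y ∈ L
    · rw [← hψ.sum_coset_eq_zero' (N.subgroupOf L) hk ⟨y, hy⟩]
      exact (Fintype.sum_equiv (subgroupOfEquivOfLe hNL).toEquiv _ _ fun n =>
        (extendByZero_coe L ψ (⟨y, hy⟩ * n)).symm).symm
    · exact Finset.sum_eq_zero fun n _ => extendByZero_of_not_mem L ψ fun h =>
        hy ((mul_mem_cancel_right (hNL n.2)).1 h)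
  have h3 : (Nat.card N : ℂ) * indFun L ψ x = 0 := by
    calc (Nat.card N : ℂ) * indFun L ψ x = ∑ n : N, indFun L ψ (x * n) := by
          rw [Finset.sum_congr rfl (g := fun _ => indFun L ψ x), Finset.sum_const, nsmul_eq_mul,
            Nat.card_eq_fintype_card, Finset.card_univ]
          intro n _
          obtain ⟨y, hy⟩ := hcam x hxN n n.2
          rw [← hy]
          exact indFun_isClassFunction L ψ x y
      _ = 0 := by
          simp_rw [indFun_apply']
          rw [← Finset.mul_sum, Finset.sum_comm, Finset.sum_eq_zero, mul_zero]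
          intro g _
          rw [← h2 (g * x * g⁻¹)]
          refine Fintype.sum_equiv (MulAut.conjNormal g).toEquiv _ _ fun n => ?_
          congr 1
          simp [mul_assoc]
  have h4 := h1.dvd_degree_of_eq_zero hp.out hx
    ((mul_eq_zero.1 h3).resolve_left (card_subgroup_ne_zero N))
  rw [charDegree_eq_of_apply_one (n := L.index * charDegree ψ)
    (by rw [indFun_one, hψ.apply_one_eq_charDegree, Nat.cast_mul])] at h4
  exact (hp.out.dvd_mul.1 h4).resolve_left hL

/-- In a Camina pair, `N` has a normal `p`-complement for every prime `p` dividing `|G : N|`;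
here only the case `O^p(N) = N`. -/
theorem not_dvd_card_of_pResidual_eq_top
    (hcam : ∀ g : G, g ∉ N → ∀ n ∈ N, ∃ x : G, x * g * x⁻¹ = g * n) (h2 : p ∣ N.index)
    (h : pResidual p N = ⊤) : ¬ p ∣ Nat.card N := by
  let Q : Sylow p G := default
  set L := N ⊔ (Q : Subgroup G)
  have hL : ¬ p ∣ L.index := fun h => Q.not_dvd_index (h.trans (index_dvd_of_le le_sup_right))
  obtain ⟨x, hx, hxN⟩ := SetLike.not_le_iff_exists.1
    fun h : (Q : Subgroup G) ≤ N => Q.not_dvd_index (h2.trans (index_dvd_of_le h))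
  obtain ⟨k, hk⟩ := isPGroup_iff_forall_mem.1 Q.isPGroup' x hx
  have h3 : IsPGroup p (L ⧸ N.subgroupOf L) := isPGroup_quotient_of_sup_eq_top _
    (isPGroup_subgroupOf Q.isPGroup' L)
    (by rw [← subgroupOf_sup le_sup_left le_sup_right, subgroupOf_self])
  have h4 : pResidual p L = N.subgroupOf L := by
    refine le_antisymm (pResidual_le_of_isPGroup_quotient _ h3) ?_
    have := map_pResidual_mono (p := p) (le_sup_left : N ≤ L)
    rw [h, ← MonoidHom.range_eq_map, range_subtype] at this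
    exact (comap_mono this).trans (comap_map_eq_self_of_injective L.subtype_injective _).le
  obtain ⟨j, hj⟩ := h3.exists_card_eq
  have h5 := Cfsg.Agent.S4455.result (G := L) p hp.out
  have h6 : {χ : IrrCharacter L | ¬ p ∣ charDegree (χ : L → ℂ) ∧ ¬ p ∣ detOrder (χ : L → ℂ)} =
      {⟨fun _ => 1, isIrrCharacter_one⟩} := by
    ext χ
    constructor
    · rintro ⟨h6, h7⟩
      have h8 : ∀ n ∈ N.subgroupOf L, χ.1 n = χ.1 1 :=
        by_contra fun h => h6 (dvd_degree hcam le_sup_left hL hxN hk χ.2 h)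
      have h9 : charDegree χ.1 = 1 := Nat.eq_one_of_dvd_coprimes
        (((hp.out.coprime_iff_not_dvd).2 h6).symm.pow_right j) dvd_rfl
        (χ.2.charDegree_dvd_index_charKer.trans
          (hj ▸ index_dvd_of_le (χ.2.isCharacter.le_charKer_iff.2 h8)))
      have h10 : χ.1 1 = 1 := χ.2.isCharacter.charDegree_eq_one_iff.1 h9
      have h11 := χ.2.isCharacter.detChar_of_apply_one h10
      have h12 : detOrder χ.1 = 1 := Nat.eq_one_of_dvd_coprimes
        (((hp.out.coprime_iff_not_dvd).2 h7).symm.pow_right j) dvd_rfl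
        ((detOrder_dvd_iff _ _).2 fun g => by
          rw [← detHom_apply, ← Units.val_pow_eq_pow_val, ← map_pow, detHom_apply, h11,
            h8 _ (hj ▸ pow_index_mem _ g), h10])
      refine Subtype.ext (funext fun g => ?_)
      have := detChar_pow_detOrder χ.1 g
      rwa [h12, pow_one, h11] at this
    · rintro rfl
      rw [Set.mem_ofPred_eq, charDegree_const_one, detOrder, detChar_one]
      exact ⟨hp.out.not_dvd_one, by
        rw [show (fun _ : L => (1 : ℂ)) = 1 from rfl, orderOf_one]; exact hp.out.not_dvd_one⟩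
  rw [h6, finsum_mem_singleton, charDegree_const_one, h4, card_subgroupOf_of_le le_sup_left] at h5
  intro h7
  have h8 := dvd_add (Int.ModEq.dvd h5) (Int.natCast_dvd_natCast.2 h7)
  exact hp.out.not_dvd_one (Int.natCast_dvd_natCast.1 (by simpa using h8))

theorem le_or_le (heq : ∀ x : G, x ∉ N → ∀ n ∈ N, orderOf (x * n) = orderOf x) :
    N ≤ fittingSubgroup G ∨ fittingSubgroup G ≤ N := by
  refine or_iff_not_imp_right.2 fun h => ?_
  rw [fittingSubgroup_eq_iSup_pCore, iSup_le_iff, not_forall] at h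
  obtain ⟨q, hq⟩ := h
  have := factPrime q
  exact (le_pCore (isPGroup_of_not_le heq hq)).trans (pCore_le_fittingSubgroup _)

omit hN in
theorem isPrimePow_of_lt (heq : ∀ x : G, x ∉ N → ∀ n ∈ N, orderOf (x * n) = orderOf x)
    (hN1 : N ≠ ⊥) (h : N < fittingSubgroup G) :
    ∃ q : ℕ, q.Prime ∧ IsPGroup q (fittingSubgroup G) := by
  have h1 := h.not_ge
  rw [fittingSubgroup_eq_iSup_pCore, iSup_le_iff, not_forall] at h1
  obtain ⟨q, hq⟩ := h1
  have := factPrime q
  have h2 := isPGroup_of_not_le heq hq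
  refine ⟨q, q.2, isPGroup_of_le_pCore ?_⟩
  rw [fittingSubgroup_eq_iSup_pCore]
  refine iSup_le fun r => ?_
  have := factPrime r
  by_cases h3 : pCore r G ≤ N
  · exact h3.trans (le_pCore_of_le_fittingSubgroup h.le h2)
  · by_cases hrq : (r : ℕ) = q
    · exact le_of_eq (by rw [hrq])
    · exact absurd (by simpa using
        IsPGroup.disjoint_of_ne r q hrq N N (isPGroup_of_not_le heq h3) h2) hN1

omit [Finite G] in
theorem isPrimePow_card {H : Subgroup G} [Finite H] (h : IsPGroup p H) (h1 : H ≠ ⊥) :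
    IsPrimePow (Nat.card H) := by
  obtain ⟨k, hk⟩ := h.exists_card_eq
  refine (isPrimePow_nat_iff _).2 ⟨p, k, hp.out, Nat.pos_of_ne_zero ?_, hk.symm⟩
  rintro rfl
  exact h1 (card_eq_one.1 hk)

/-- A nilpotent normal subgroup which is not a `p`-group has a proper `G`-invariant subgroup of
index prime to `p`. -/
theorem exists_of_isNilpotent (hnil : Group.IsNilpotent N) (h : ¬ IsPGroup p N) :
    ∃ K : Subgroup G, K.Normal ∧ K ≤ N ∧ ¬ p ∣ K.relIndex N ∧ ¬ N ≤ K := by
  refine ⟨(pCore p N).map N.subtype, ConjAct.normal_of_characteristic_of_normal, map_subtype_le _,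
    ?_, fun h' => h ((isPGroup_map_pCore _).to_le h')⟩
  rw [relIndex, subgroupOf, comap_map_eq_self_of_injective N.subtype_injective,
    ← sylow_eq_pCore_of_isNilpotent (default : Sylow p N)]
  exact Sylow.not_dvd_index _

end CL.EqOrd
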