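import Mathlib
import Cfsg.Agent.FGS.HHLenC

/-!
The bounds of Hall and Higman for the `p`-length in terms of the exponent.
-/

set_option autoImplicit false
open Module Subgroup Polynomial
open scoped commutatorElement Pointwise

namespace CL.HHL
open CL.HH Cfsg

universe u
variable {G H : Type*} [Group G] [Group H] {p : ℕ} [hp : Fact p.Prime]

/-- The exceptional case of Theorem B does not occur. -/
def NoExc (p : ℕ) (G : Type*) [Group G] : Prop :=
  ∀ (q : ℕ) [Fact q.Prime] (Q : Subgroup G) (l a : ℕ), q ≠ p → IsPGroup q Q → 0 < a →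
    p ^ (l + 1) = q ^ a + 1 → ⁅Q, Q⁆ = ⊥

omit hp in
theorem NoExc.of_surjective [Finite G] (h : NoExc p G) {f : G →* H} (hf : Function.Surjective f) :
    NoExc p H := fun q _ Q l a h1 h2 h3 h4 => by
  obtain ⟨S, hS⟩ := exists_sylow_map_ge hf h2
  rw [eq_bot_iff, ← Subgroup.map_bot f, ← h q S l a h1 S.isPGroup' h3 h4, map_commutator]
  exact commutator_mono hS hS

omit hp in
theorem commutator_eq_bot_of_sylow {q : ℕ} (h : ∀ S : Sylow q G, IsMulCommutative (S : Subgroup G))
    {Q : Subgroup G} (hQ : IsPGroup q Q) : ⁅Q, Q⁆ = ⊥ := by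
  obtain ⟨S, hS⟩ := hQ.exists_le_sylow
  have := h S
  exact eq_bot_iff.2 (commutator_le.2 fun a ha b hb =>
    commutatorElement_eq_one_iff_mul_comm.2 (setLike_mul_comm (hS ha) (hS hb)))

theorem Prim.expLE_of_noExc [Finite H] (h : Prim p H) (hs : IsPSolvable p H) (hn : NoExc p H)
    {n : ℕ} (he : ExpLE p (n + 1) H) : ExpLE p n (H ⧸ pCore p H) := by
  intro y hy
  by_contra hne
  obtain ⟨q, _, Q, k, l, a, h1, h2, h3, -, h4, h5, -⟩ := exists_of_ann (h.ker_rep hs)
    (IsPSolvable.quotient hs _) (pCore_quotient_pCore p H)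
    (he.of_surjective (QuotientGroup.mk'_surjective _) y hy) hne (h.ann_of_expLE hs he hy)
  exact h3 (hn.of_surjective (QuotientGroup.mk'_surjective _) q Q l a h1 h2 h4 h5)

theorem pLengthLE_of_noExc (n : ℕ) : ∀ (G : Type u) [Group G] [Finite G], IsPSolvable p G →
    NoExc p G → ExpLE p n G → PLengthLE p n G := by
  induction n with
  | zero => exact fun G _ _ _ _ he => he.pLengthLE_zero
  | succ n ih =>
  intro G _ _ hs hn he
  by_contra hk
  obtain ⟨H, _, _, f, hf, h1, h2⟩ := exists_prim hs hk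
  have hsH := IsPSolvable.of_surjective hs hf
  exact h1 (h2.succ (ih _ (IsPSolvable.quotient hsH _) ((hn.of_surjective hf).of_surjective
    (QuotientGroup.mk'_surjective _)) (h2.expLE_of_noExc hsH (hn.of_surjective hf)
      (he.of_surjective hf))))

/-- The `p ^ n`-th powers of the elements of a `p`-subgroup commute. -/
def PowComm (p n : ℕ) (G : Type*) [Group G] : Prop :=
  ∀ S : Subgroup G, IsPGroup p S → ∀ x ∈ S, ∀ x' ∈ S, Commute (x ^ p ^ n) (x' ^ p ^ n)

theorem PowComm.of_surjective [Finite G] {n : ℕ} (h : PowComm p n G) {f : G →* H}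
    (hf : Function.Surjective f) : PowComm p n H := fun T hT y hy y' hy' => by
  obtain ⟨S, hS⟩ := exists_sylow_map_ge hf hT
  obtain ⟨x, hx, rfl⟩ := hS hy
  obtain ⟨x', hx', rfl⟩ := hS hy'
  rw [← map_pow, ← map_pow]
  exact (h S S.isPGroup' x hx x' hx').map f

theorem powComm_of_ann {F V : Type*} [Field F] [AddCommGroup V] [Module F V] [IsAlgClosed F]
    [FiniteDimensional F V] [CharP F p] [Finite G] {ρ : Representation F G V} (hρ : ρ.ker = ⊥)
    (hs : IsPSolvable p G) (h0 : pCore p G = ⊥) {n : ℕ} (he : ExpLE p (n + 1) G)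
    (ha : ∀ x, PEl p x → Ann (ρ x) ⊤ (p ^ (n + 1))) : PowComm p n G := fun _ hS x hx x' hx' =>
  commute_of_ann hρ hs h0 hS hx hx' (he x (PEl.of_mem hS hx)) (he x' (PEl.of_mem hS hx'))
    (ha x (PEl.of_mem hS hx)) (ha x' (PEl.of_mem hS hx'))

theorem IsSec.ann_of_commute {E M : Subgroup G} [M.Normal] [E.Normal] (h : IsSec p E M) {x : G}
    {N : ℕ} (hN : 0 < N) (hx : ∀ e ∈ E, ⁅(e * x) ^ N * (x ^ N)⁻¹, x ^ N⁆ ∈ M) :
    Ann (h.rep x) ⊤ (2 * N) := by
  refine Ann.baseChange _ ⟨(X ^ N - 1) * ∑ i ∈ Finset.range N, X ^ i, mul_ne_zero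
    (X_pow_sub_C_ne_zero hN 1) fun e => ?_, ?_, fun v _ => ?_⟩
  · have := congrArg (fun f : (ZMod p)[X] => f.coeff 0) e
    simp [coeff_X_pow, hN] at this
  · refine natDegree_mul_le.trans_lt ?_
    have h1 : (X ^ N - 1 : (ZMod p)[X]).natDegree ≤ N := natDegree_X_pow_sub_C.le
    have h2 : (∑ i ∈ Finset.range N, X ^ i : (ZMod p)[X]).natDegree ≤ N - 1 :=
      natDegree_sum_le_of_forall_le _ _ fun i hi =>
        natDegree_X_pow_le i |>.trans (by rw [Finset.mem_range] at hi; omega)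
    omega
  · obtain ⟨e, he, rfl⟩ := h.exists_vec v
    have h1 : (e * x) ^ N * (x ^ N)⁻¹ ∈ E := by
      rw [← QuotientGroup.eq_one_iff, QuotientGroup.mk_mul, QuotientGroup.mk_inv,
        QuotientGroup.mk_pow, QuotientGroup.mk_pow, QuotientGroup.mk_mul,
        (QuotientGroup.eq_one_iff e).2 he, one_mul, mul_inv_cancel]
    have h2 : ∑ i ∈ Finset.range N, (h.rep0 x ^ i) (h.vec he) = h.vec h1 :=
      Abelem.V.ext (h.val_sum_rep0 x he N)
    simp only [map_mul, map_sub, map_sum, map_pow, aeval_X, map_one, Module.End.mul_apply,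
      LinearMap.sum_apply, LinearMap.sub_apply, Module.End.one_apply]
    rw [Finset.sum_sub_distrib, ← map_sum, h2, ← map_pow, sub_eq_zero, h.rep0_vec_eq_iff]
    exact hx e he

theorem Prim.expLE_of_powComm (hp2 : p ≠ 2) [Finite H] (h : Prim p H) (hs : IsPSolvable p H)
    {n : ℕ} (he : ExpLE p (n + 1) H) (hc : PowComm p n H) : ExpLE p n (H ⧸ pCore p H) := by
  intro y hy
  by_contra hne
  obtain ⟨q, _, Q, k, l, a, -, -, -, rfl, -, -, h1⟩ := exists_of_ann (h.ker_rep hs)
    (IsPSolvable.quotient hs _) (pCore_quotient_pCore p H)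
    (he.of_surjective (QuotientGroup.mk'_surjective _) y hy) hne (h.ann_of_expLE hs he hy)
  obtain ⟨x, rfl⟩ := QuotientGroup.mk_surjective y
  obtain ⟨S, hS⟩ := (hy.of_mk (isPGroup_pCore p H)).exists_sylow
  refine h1 ((IsSec.ann_of_commute h.sec (pow_pos hp.out.pos (k + l)) fun e he' => ?_).mono
    le_rfl ?_)
  · exact commutatorElement_eq_one_iff_commute.2 ((hc S S.isPGroup' _
      (mul_mem (pCore_le_sylow S he') hS) x hS).mul_left (Commute.refl _).inv_left)
  · have h3 : 3 ≤ p := by have := hp.out.two_le; omega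
    have h4 : 0 < p ^ l := pow_pos hp.out.pos _
    rw [pow_add, mul_left_comm, pow_succ]
    refine Nat.mul_le_mul_left _ (Nat.le_sub_one_of_lt ?_)
    nlinarith

theorem pLengthLE_two_mul (hp2 : p ≠ 2) (n : ℕ) : ∀ (G : Type u) [Group G] [Finite G],
    IsPSolvable p G → ExpLE p n G → PLengthLE p (2 * n) G := by
  induction n with
  | zero => exact fun G _ _ _ he => he.pLengthLE_zero
  | succ n ih =>
  intro G _ _ hs he
  by_contra hk
  obtain ⟨H, _, _, f, hf, h1, h2⟩ := exists_prim hs hk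
  have hsH := IsPSolvable.of_surjective hs hf
  have heH := he.of_surjective hf
  have hs1 := IsPSolvable.quotient hsH (pCore p H)
  have he1 := heH.of_surjective (QuotientGroup.mk'_surjective (pCore p H))
  refine h1 (h2.succ (k := 2 * n + 1) ?_)
  by_contra hk1
  obtain ⟨H', _, _, f', hf', h1', h2'⟩ := exists_prim hs1 hk1
  have hsH' := IsPSolvable.of_surjective hs1 hf'
  have heH' := he1.of_surjective hf'
  exact h1' (h2'.succ (ih _ (IsPSolvable.quotient hsH' _) (h2'.expLE_of_powComm hp2 hsH' heH'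
    ((powComm_of_ann (h2.ker_rep hsH) hs1 (pCore_quotient_pCore p H) he1
      fun x hx => h2.ann_of_expLE hsH heH hx).of_surjective hf'))))

end CL.HHL
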