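import Mathlib
import Cfsg.Agent.FGS.HHLenD
import Cfsg.Agent.SOLV.Fitting

/-!
Exceptional involutions lie in `O_{2',2}`.
-/

set_option autoImplicit false
open Module Subgroup
open scoped commutatorElement Pointwise

namespace CL.HHL
open CL.HH Cfsg

section grp
variable {G X : Type*} [Group G] [Group X] {p : ℕ} [hp : Fact p.Prime]

theorem exists_ncrit_not_mem [Finite G] [Group.IsSolvable G] (h0 : pCore p G = ⊥) {z : G}
    (hz : PEl p z) (h1 : z ≠ 1) : ∃ (q : ℕ) (_ : Fact q.Prime) (Q : Subgroup G), q ≠ p ∧ Crit q Q ∧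
      Q.Normal ∧ z ∉ centralizer (Q : Set G) := by
  by_contra hne
  push Not at hne
  refine h1 (mem_bot.1 (h0 ▸ le_pCore_of_le_fittingSubgroup (zpowers_le.2
    (centralizer_fittingSubgroup_le G ?_)) hz.isPGroup (mem_zpowers z)))
  rw [← zpowers_le, le_centralizer_iff, fittingSubgroup_eq_iSup_pCore]
  refine iSup_le fun ⟨q, hq⟩ => ?_
  have := Fact.mk hq
  by_cases e : q = p
  · subst e; exact h0.le.trans bot_le
  obtain ⟨Q, -, h2, h3, h4⟩ := exists_crit (isPGroup_pCore q G)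
  rw [le_centralizer_iff, zpowers_le]
  exact h4 z (le_normalizer_of_normal (mem_top z)) (hz.coprime_orderOf hq e) (hne q this Q e h2
    (normalizer_eq_top_iff.1 (eq_top_iff.2 (le_normalizer_of_normal.trans h3))))

theorem mem_pPrimeCore_of_coprime [Finite G] {x : G} (hx : x ∈ pPrimePCore p G) (h : (orderOf x).Coprime p) :
    x ∈ pPrimeCore p G := by
  obtain ⟨j, hj⟩ := PEl.of_mem (isPGroup_pCore p _) hx
  exact (QuotientGroup.eq_one_iff x).1 (orderOf_eq_one_iff.1 (Nat.eq_one_of_dvd_coprimes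
    (h.pow_right j) (orderOf_map_dvd (QuotientGroup.mk' _) x) (orderOf_dvd_of_pow_eq_one hj)))

omit hp in
theorem exists_orderOf_eq [Finite G] (hp : p.Prime) (x : G) :
    ∃ j m, m.Coprime p ∧ x ^ (p ^ j * m) = 1 := by
  obtain ⟨j, m, h1, h2⟩ := Nat.exists_eq_pow_mul_and_not_dvd (orderOf_pos x).ne' p hp.ne_one
  exact ⟨j, m, (hp.coprime_iff_not_dvd.2 h1).symm, h2 ▸ pow_orderOf_eq_one x⟩

/-- A normal subgroup in which products of `p'`-elements have trivial `p`-part. -/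
theorem le_pPrimePCore_of_mul [Finite G] {D : Subgroup G} [hD : D.Normal]
    (h : ∀ a ∈ D, ∀ b ∈ D, (orderOf a).Coprime p → (orderOf b).Coprime p →
      ∀ m, PEl p ((a * b) ^ m) → (a * b) ^ m = 1) : D ≤ pPrimePCore p G := by
  let K : Subgroup G :=
    { carrier := {a | a ∈ D ∧ (orderOf a).Coprime p}
      one_mem' := ⟨one_mem _, by simp⟩
      inv_mem' := fun ha => ⟨inv_mem ha.1, by rw [orderOf_inv]; exact ha.2⟩
      mul_mem' := fun {a b} ha hb => ⟨mul_mem ha.1 hb.1, by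
        obtain ⟨j, m, h1, h2⟩ := exists_orderOf_eq hp.out (a * b)
        exact h1.coprime_dvd_left (orderOf_dvd_of_pow_eq_one (h a ha.1 b hb.1 ha.2 hb.2 m
          ⟨j, by rwa [← pow_mul, mul_comm]⟩))⟩ }
  have : K.Normal := ⟨fun a ha g => ⟨hD.conj_mem a ha.1 g, by
    rw [show orderOf (g * a * g⁻¹) = orderOf a from orderOf_injective (MulAut.conj g).toMonoidHom
      (MulAut.conj g).injective a]
    exact ha.2⟩⟩
  have hK : K ≤ pPrimeCore p G := le_pPrimeCore (by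
    rw [Nat.coprime_comm, hp.out.coprime_iff_not_dvd]
    intro hd
    obtain ⟨x, hx⟩ := exists_prime_orderOf_dvd_card' p hd
    have := x.2.2
    rw [Subgroup.orderOf_coe, hx, Nat.coprime_self] at this
    exact hp.out.ne_one this)
  rw [pPrimePCore, ← map_le_iff_le_comap]
  have := hD.map _ (QuotientGroup.mk'_surjective (pPrimeCore p G))
  refine le_pCore ?_
  rintro ⟨_, d, hd, rfl⟩
  obtain ⟨j, m, h1, h2⟩ := exists_orderOf_eq hp.out d
  exact ⟨j, Subtype.ext ((QuotientGroup.eq_one_iff (d ^ p ^ j)).2 (hK ⟨pow_mem hd _,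
    h1.coprime_dvd_left (orderOf_dvd_of_pow_eq_one (by rwa [← pow_mul]))⟩))⟩

theorem QR.mem_pCore {k W : Type*} [Field k] [AddCommGroup W] [Module k W] [Finite W] [Finite G]
    (hk : ((2 : ℕ) : k) ≠ 0) {σ : Representation k G W} {g : G} {l : ℕ} (hg : QR 2 l (σ g))
    (hg2 : PEl 2 g) {f : G →* X} (hf : Function.Surjective f) (hker : σ.ker ≤ f.ker)
    (hc : centralizer (pCore 2 X : Set X) ≤ pCore 2 X) : f (g ^ 2 ^ l) ∈ pCore 2 X := by
  have := Finite.of_surjective f hf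
  refine le_pCore_of_commutator_le_frattini hc (commutator_zpowers_le
    (le_normalizer_of_normal (mem_top _)) fun u hu => ?_) (mem_zpowers _)
  obtain ⟨S, hS⟩ := hg2.exists_sylow
  obtain ⟨r, hr, rfl⟩ := le_map_sylow hf (isPGroup_pCore 2 X) S hu
  rcases hg.commute_or hk S.isPGroup' hS hr with h | h
  · rw [← map_commutatorElement, show f _ = 1 from hker (map_commutatorElement_eq_one σ h)]
    exact one_mem _
  · have h1 := commute_of_map_commutatorElement f (hker (map_commutatorElement_eq_one σ h))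
    obtain ⟨l, rfl⟩ : ∃ m, l = m + 1 := ⟨l - 1, by have := hg.pos_of_two; omega⟩
    have h2 : ⁅f r, f (g ^ 2 ^ (l + 1))⁆ = (⁅f r, f g⁆ ^ 2 ^ l) ^ 2 := by
      rw [← pow_mul, ← pow_succ, commutatorElement_def, commutatorElement_def, ← map_inv f r,
        ← map_mul, ← map_mul, ← map_mul, ← map_mul, h1.symm.inv_right.mul_pow, ← conj_pow, map_pow,
        map_pow, inv_pow]
    rw [h2]
    exact PG.pow_mem_frattini_map (isPGroup_pCore 2 X) (pow_mem (commutator_le_left _ ⊤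
      (commutator_mem_commutator hu (mem_top _))) _)

end grp

variable {F G V : Type*} [Field F] [Group G] [AddCommGroup V] [Module F V]
variable {ρ : Representation F G V} [IsAlgClosed F] [FiniteDimensional F V] [Finite G]

theorem eq_one_of_forall_nloc {p : ℕ} [Fact p.Prime] [CharP F p] (hρ : ρ.ker = ⊥)
    [Group.IsSolvable G] (h0 : pCore p G = ⊥) {z : G} (hz : PEl p z)
    (H : ∀ (q : ℕ) [Fact q.Prime] (Q : Subgroup G), q ≠ p → Q.Normal →
      ∀ U, ∀ h : Loc ρ q Q U, ∃ hz : z ∈ classStab ρ Q U, h.sig ⟨z, hz⟩ = 1) : z = 1 := by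
  by_contra h1
  obtain ⟨q, _, Q, hne, hQ, h2, h3⟩ := exists_ncrit_not_mem h0 hz h1
  exact h3 (mem_centralizer_of_forall_loc hρ hQ (hQ.cast_ne_zero hne) hne hz (H q Q hne h2))

/-- Locally, `y` is trivial or the involution of a quasi-reflection. -/
def Good (ρ : Representation F G V) (y : G) : Prop :=
  ∀ (q : ℕ) [Fact q.Prime] (Q : Subgroup G), q ≠ 2 → Q.Normal → ∀ U, ∀ h : Loc ρ q Q U,
    ∃ hy : y ∈ classStab ρ Q U, h.sig ⟨y, hy⟩ = 1 ∨ ∃ l, ∃ g : classStab ρ Q U, PEl 2 g ∧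
      QR 2 l (h.sig g) ∧ h.sig ⟨y, hy⟩ = h.sig (g ^ 2 ^ l)

theorem closure_le_pPrimePCore [CharP F 2] (hρ : ρ.ker = ⊥) [Group.IsSolvable G]
    (h0 : pCore 2 G = ⊥) {Y : Set G} (hY : ∀ y ∈ Y, Good ρ y) [(closure Y).Normal] :
    closure Y ≤ pPrimePCore 2 G := by
  refine le_pPrimePCore_of_mul fun a ha b hb ha' hb' m hm =>
    eq_one_of_forall_nloc hρ h0 hm fun q _ Q hne hQ U h => ?_
  set φ := QuotientGroup.mk' h.sig.ker
  have key : closure Y ≤ ((pPrimePCore 2 _).comap φ).map (classStab ρ Q U).subtype := by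
    refine (closure_le _).2 fun y hy => ?_
    obtain ⟨hy', H⟩ := hY y hy q Q hne hQ U h
    refine ⟨⟨y, hy'⟩, ?_, rfl⟩
    rcases H with H | ⟨l, g, h1, h2, h3⟩
    · rw [SetLike.mem_coe, mem_comap, show φ _ = 1 from (QuotientGroup.eq_one_iff _).2 H]
      exact one_mem _
    · have h4 : φ ⟨y, hy'⟩ = φ (g ^ 2 ^ l) := QuotientGroup.eq.2 (by
        rw [MonoidHom.mem_ker, map_mul, ← h3, ← map_mul, inv_mul_cancel, map_one])
      exact mem_comap.2 (h4 ▸ h2.mem_pCore (cast_ne_zero_of_ne hne) h1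
        (f := (QuotientGroup.mk' _).comp φ)
        ((QuotientGroup.mk'_surjective _).comp (QuotientGroup.mk'_surjective _))
        ((QuotientGroup.ker_mk' _).ge.trans fun x hx => by
          rw [MonoidHom.mem_ker, MonoidHom.comp_apply, show φ x = 1 from hx, map_one])
        (IsPSolvable.centralizer_pCore_le (isPSolvable_of_isSolvable 2 _)
          (pPrimeCore_quotient_pPrimeCore 2 _)))
  have key2 : ∀ a ∈ closure Y, (orderOf a).Coprime 2 →
      a ∈ ((pPrimeCore 2 _).comap φ).map (classStab ρ Q U).subtype := fun a ha ha' => by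
    obtain ⟨a, h1, rfl⟩ := key ha
    exact ⟨a, mem_pPrimeCore_of_coprime h1 ((orderOf_coe a ▸ ha' : (orderOf a).Coprime 2
      ).coprime_dvd_left (orderOf_map_dvd φ a)), rfl⟩
  obtain ⟨z, h1, h2⟩ := pow_mem (mul_mem (key2 a ha ha') (key2 b hb hb')) m
  rw [← h2] at hm ⊢
  obtain ⟨j, hj⟩ := hm
  exact ⟨z.2, (QuotientGroup.eq_one_iff z).1 ((PEl.map ⟨j, Subtype.ext hj⟩ φ).eq_one_of_mem
    (coprime_card_pPrimeCore 2 _) h1)⟩

theorem good_of_ann {x : G} {n : ℕ} (hxn : x ^ 2 ^ (n + 1) = 1) (hs : Ann (ρ x) ⊤ (2 ^ (n + 1))) :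
    Good ρ (x ^ 2 ^ n) := fun q _ Q hne hQ U h => by
  obtain ⟨hy, H⟩ := h.exceptional hne (le_normalizer_of_normal (mem_top x)) hxn hs
  refine ⟨hy, H.imp_right ?_⟩
  rintro ⟨k, l, rfl, hg, H, -⟩
  exact ⟨l, ⟨_, hg⟩, ⟨_, Subtype.ext (pow_pow_eq_one hxn)⟩, H,
    congrArg h.sig (Subtype.ext ((congrArg _ (pow_add 2 k l)).trans (pow_mul x _ _)))⟩

end CL.HHL
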