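import Mathlib
import Cfsg.Agent.FGS.HHLenC
import Cfsg.Agent.S3784

/-!
The commutator form on `Q` modulo scalars, and planes of quasi-reflections for `p = 2`.
-/

set_option autoImplicit false
open Module Subgroup
open scoped commutatorElement Pointwise

namespace CL.HHL
open CL.HH Cfsg

universe u

/-- There is an invariant nondegenerate alternating form. -/
def Symp {k W : Type*} {G : Type u} [Field k] [AddCommGroup W] [Module k W] [Group G]
    (σ : Representation k G W) : Prop :=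
  ∃ (M : Type u) (_ : AddCommGroup M) (B : W →+ W →+ M), (∀ w, B w w = 0) ∧
    (∀ g w w', B (σ g w) (σ g w') = B w w') ∧ ∀ w, (∀ w', B w w' = 0) → w = 0

section constr
variable {G : Type u} [Group G]

theorem commutatorElement_mul_center {a b y z : G} (hy : y ∈ center G) (hz : z ∈ center G) :
    ⁅a * y, b * z⁆ = ⁅a, b⁆ := by
  rw [commutatorElement_def, commutatorElement_def, mul_inv_rev, mul_inv_rev,
    show a * y * (b * z) * (y⁻¹ * a⁻¹) * (z⁻¹ * b⁻¹) = a * (y * (b * z) * y⁻¹) * a⁻¹ * z⁻¹ * b⁻¹ by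
      group, ← mem_center_iff.1 hy, mul_inv_cancel_right,
    show a * (b * z) * a⁻¹ * z⁻¹ = a * b * (z * a⁻¹ * z⁻¹) by group, ← mem_center_iff.1 hz,
    mul_inv_cancel_right]

open scoped IsMulCommutative in
theorem symp_rep0 {s : ℕ} [Fact s.Prime] {E M T : Subgroup G} [E.Normal] [M.Normal] [T.Normal]
    (h : IsSec s E M) (hM : ⁅M, ⊤⁆ ≤ T) (hnd : ∀ e ∈ E, (∀ e' ∈ E, ⁅e, e'⁆ ∈ T) → e ∈ M) :
    Symp h.rep0 := by
  have hz : ∀ m ∈ M, (m : G ⧸ T) ∈ center (G ⧸ T) := fun m hm => mem_center_iff.2 fun g => by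
    obtain ⟨g, rfl⟩ := QuotientGroup.mk_surjective g
    exact (mk_mul_comm_iff.2 (hM (commutator_mem_commutator hm (mem_top g)))).symm
  let c : G ⧸ M → G ⧸ M → G ⧸ T := fun a b => ⁅(a.out : G ⧸ T), (b.out : G ⧸ T)⁆
  have hc : ∀ a b : G, c a b = (⁅a, b⁆ : G) := fun a b => by
    obtain ⟨y, hy⟩ := QuotientGroup.mk_out_eq_mul M a
    obtain ⟨z, hz'⟩ := QuotientGroup.mk_out_eq_mul M b
    simp only [c, hy, hz', QuotientGroup.mk_mul]
    exact commutatorElement_mul_center (hz _ y.2) (hz _ z.2)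
  have hcz : ∀ {a b : G}, a ∈ E → b ∈ E → ((⁅a, b⁆ : G) : G ⧸ T) ∈ center (G ⧸ T) :=
    fun ha hb => hz _ (h.comm (commutator_mem_commutator ha hb))
  let b : Abelem.V h.elemAb → Abelem.V h.elemAb → Additive (center (G ⧸ T)) := fun v w =>
    Additive.ofMul ⟨c v.val w.val, by
      obtain ⟨e, he, rfl⟩ := h.exists_vec v
      obtain ⟨e', he', rfl⟩ := h.exists_vec w
      exact hc e e' ▸ hcz he he'⟩
  have hb : ∀ {e e' : G} (he : e ∈ E) (he' : e' ∈ E),
      b (h.vec he) (h.vec he') = Additive.ofMul ⟨_, hcz he he'⟩ :=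
    fun he he' => congrArg Additive.ofMul (Subtype.ext (hc _ _))
  have hadd : ∀ {e e' : G} (he : e ∈ E) (he' : e' ∈ E),
      h.vec he + h.vec he' = h.vec (mul_mem he he') := fun _ _ => rfl
  refine ⟨_, inferInstance, AddMonoidHom.mk' (fun v => AddMonoidHom.mk' (b v) fun w w' => ?_)
    fun v v' => AddMonoidHom.ext fun w => ?_, fun v => ?_, fun g v w => ?_, fun v hv => ?_⟩
  · obtain ⟨e, he, rfl⟩ := h.exists_vec v
    obtain ⟨x, hx, rfl⟩ := h.exists_vec w
    obtain ⟨y, hy, rfl⟩ := h.exists_vec w'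
    rw [hadd, hb, hb, hb, ← ofMul_mul]
    refine congrArg Additive.ofMul (Subtype.ext ?_)
    change ((⁅e, x * y⁆ : G) : G ⧸ T) = (⁅e, x⁆ : G) * (⁅e, y⁆ : G)
    rw [show ⁅e, x * y⁆ = ⁅e, x⁆ * (x * ⁅e, y⁆ * x⁻¹) by simp only [commutatorElement_def]; group,
      QuotientGroup.mk_mul, QuotientGroup.mk_mul, QuotientGroup.mk_mul,
      mem_center_iff.1 (hcz he hy), QuotientGroup.mk_inv, mul_inv_cancel_right]
  · obtain ⟨e, he, rfl⟩ := h.exists_vec w
    obtain ⟨x, hx, rfl⟩ := h.exists_vec v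
    obtain ⟨y, hy, rfl⟩ := h.exists_vec v'
    change b _ _ = b _ _ + b _ _
    rw [hadd, hb, hb, hb, ← ofMul_mul, mul_comm]
    refine congrArg Additive.ofMul (Subtype.ext ?_)
    change ((⁅x * y, e⁆ : G) : G ⧸ T) = (⁅y, e⁆ : G) * (⁅x, e⁆ : G)
    rw [show ⁅x * y, e⁆ = (x * ⁅y, e⁆ * x⁻¹) * ⁅x, e⁆ by simp only [commutatorElement_def]; group,
      QuotientGroup.mk_mul, QuotientGroup.mk_mul, QuotientGroup.mk_mul,
      mem_center_iff.1 (hcz hy he), QuotientGroup.mk_inv, mul_inv_cancel_right]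
  · obtain ⟨e, he, rfl⟩ := h.exists_vec v
    exact (hb he he).trans (congrArg Additive.ofMul (Subtype.ext (by simp)))
  · obtain ⟨x, hx, rfl⟩ := h.exists_vec v
    obtain ⟨y, hy, rfl⟩ := h.exists_vec w
    refine (hb (Normal.conj_mem ‹_› x hx g) (Normal.conj_mem ‹_› y hy g)).trans
      (Eq.trans (congrArg Additive.ofMul (Subtype.ext ?_)) (hb hx hy).symm)
    change ((⁅g * x * g⁻¹, g * y * g⁻¹⁆ : G) : G ⧸ T) = (⁅x, y⁆ : G)
    rw [← conjugate_commutatorElement, QuotientGroup.mk_mul, QuotientGroup.mk_mul,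
      mem_center_iff.1 (hcz hx hy), QuotientGroup.mk_inv, mul_inv_cancel_right]
  · obtain ⟨e, he, rfl⟩ := h.exists_vec v
    refine (h.vec_eq_zero_iff he).2 (hnd e he fun e' he' => (QuotientGroup.eq_one_iff _).1 ?_)
    exact congrArg Subtype.val (Additive.ofMul.injective ((hb he he').symm.trans (hv _)))

variable {F V : Type*} [Field F] [AddCommGroup V] [Module F V] {ρ : Representation F G V}
  {Q : Subgroup G} {U : Submodule F V} {q : ℕ} [IsAlgClosed F] [FiniteDimensional F V]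

theorem Loc.symp [Fact q.Prime] (h : Loc ρ q Q U) : Symp h.sig := by
  have : ((Q ⊓ triv ρ U).subgroupOf (classStab ρ Q U)).Normal :=
    ⟨fun _ hn g => ⟨(mem_normalizer_iff.1 g.2.1 _).1 hn.1,
      conj_mem_triv_of_mem_classStab g.2 hn.1 hn.2⟩⟩
  refine symp_rep0 (T := (Q ⊓ triv ρ U).subgroupOf (classStab ρ Q U)) h.sec
    (commutator_le.2 fun a ha b _ => ⟨commutatorElement_mem_of_normalizer ha.1 b.2.1, triv_anti
      le_comp (commutator_scal_stab_le (commutator_mem_commutator (mem_scal_comp ha.1 ha.2)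
        (classStab_le_stab_comp b.2)))⟩) fun e he H => ⟨he, h.irr.mem_scal
          (h.irr.2.1.le_stab he) fun u hu => (H ⟨u, Inv.le_classStab h.irr.2.1 hu⟩ hu).2⟩

end constr

variable {q l : ℕ} [hq : Fact q.Prime] {W : Type*} {G : Type u} [AddCommGroup W]
  [Module (ZMod q) W] [Finite W] [Group G] {σ : Representation (ZMod q) G W}

theorem QR.succ_eq {T : Module.End (ZMod q) W} (h : QR 2 l T) : q + 1 = 2 ^ (l + 1) := by
  have h1 := h.card
  rw [Module.natCard_eq_pow_finrank (K := ZMod q), Nat.card_zmod] at h1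
  obtain ⟨a, -, ha⟩ := (Nat.dvd_prime_pow hq.out).1
    (h1 ▸ dvd_pow_self _ two_ne_zero : 2 ^ (l + 1) - 1 ∣ _)
  have h2 := h.two_lt Nat.prime_two
  have h3 : a ≠ 0 := by rintro rfl; rw [pow_zero] at ha; omega
  rcases Agent.S3784.result 2 q (l + 1) a Nat.prime_two hq.out (by omega) (by omega) (by omega)
    with h | h | h
  · exact h.2.2.2
  · have := h.2.1; rw [this] at h2; omega
  · have := h.1; rw [pow_succ] at this; omega

theorem QR.card_eq {T : Module.End (ZMod q) W} (h : QR 2 l T) : Nat.card (pl T) = q ^ 2 := by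
  rw [h.card, ← h.succ_eq, add_tsub_cancel_right]

theorem QR.l_eq {l' : ℕ} {T T' : Module.End (ZMod q) W} (h : QR 2 l T) (h' : QR 2 l' T') :
    l = l' :=
  Nat.succ_injective (Nat.pow_right_injective le_rfl (h.succ_eq.symm.trans h'.succ_eq))

theorem QR.two_ne {T : Module.End (ZMod q) W} (h : QR 2 l T) : ((2 : ℕ) : ZMod q) ≠ 0 :=
  cast_ne_zero_of_ne fun e => by have := h.succ_eq; rw [pow_succ] at this; omega

omit [Finite W] in
theorem eq_zero_of_eq_neg (h2 : ((2 : ℕ) : ZMod q) ≠ 0) {a : W} (h : a = -a) : a = 0 :=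
  (smul_eq_zero.1 (by rw [Nat.cast_smul_eq_nsmul, two_nsmul, add_eq_zero_iff_eq_neg.2 h])
    ).resolve_left h2

theorem QR.exists_trace (hB : Symp σ) {g u : G} (hg : QR 2 l (σ g)) (hu : u ∈ stab σ (pl (σ g))) :
    ∃ t : ZMod q, ∀ a ∈ pl (σ g), σ u (σ u a) = t • σ u a - a := by
  obtain ⟨M, _, B, h1, h2, h3⟩ := hB
  have skew : ∀ v w, B w v = -B v w := fun v w => by
    have := h1 (v + w)
    simp only [map_add, AddMonoidHom.add_apply, h1, zero_add, add_zero] at this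
    exact eq_neg_of_add_eq_zero_left this
  have hr : finrank (ZMod q) (pl (σ g)) = 2 := Nat.pow_right_injective hq.out.two_le (by
    have := hg.card_eq
    rwa [Module.natCard_eq_pow_finrank (K := ZMod q), Nat.card_zmod] at this)
  have : Module.Finite (ZMod q) W := Module.Finite.of_finite
  let b := Module.finBasisOfFinrankEq _ _ hr
  have hsp : ∀ a ∈ pl (σ g), ∃ x y : ℤ, a = x • (b 0 : W) + y • (b 1 : W) := fun a ha => by
    obtain ⟨x, hx⟩ := ZMod.intCast_surjective (b.repr ⟨a, ha⟩ 0)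
    obtain ⟨y, hy⟩ := ZMod.intCast_surjective (b.repr ⟨a, ha⟩ 1)
    refine ⟨x, y, ?_⟩
    have := congrArg Subtype.val (b.sum_repr ⟨a, ha⟩)
    rw [Fin.sum_univ_two, ← hx, ← hy, Int.cast_smul_eq_zsmul, Int.cast_smul_eq_zsmul] at this
    exact this.symm
  have hBB : ∀ x y z w : ℤ, B (x • (b 0 : W) + y • (b 1 : W)) (z • (b 0 : W) + w • (b 1 : W)) =
      (x * w - y * z) • B (b 0) (b 1) := fun x y z w => by
    simp only [map_add, map_zsmul, AddMonoidHom.add_apply, AddMonoidHom.smul_apply, h1,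
      skew (b 0) (b 1)]
    module
  have hm : B (b 0) (b 1) ≠ 0 := by
    intro e
    have h4 : ∀ a ∈ pl (σ g), ∀ a' ∈ pl (σ g), B a a' = 0 := fun a ha a' ha' => by
      obtain ⟨x, y, rfl⟩ := hsp a ha
      obtain ⟨z, w, rfl⟩ := hsp a' ha'
      rw [hBB, e, smul_zero]
    refine hg.pl_ne_bot ((Submodule.eq_bot_iff _).2 fun a ha =>
      eq_zero_of_eq_neg hg.two_ne (eq_neg_of_add_eq_zero_left (h3 _ fun w => ?_)))
    have h5 := h2 (g ^ 2 ^ l) a w
    have h6 := h4 a ha _ (pl_pow_le _ (2 ^ l) (sub_mem_pl _ w))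
    rw [map_pow, hg.apply_eq_neg hg.two_ne ha, map_neg, AddMonoidHom.neg_apply] at h5
    rw [map_sub, sub_eq_zero] at h6
    rw [map_add, AddMonoidHom.add_apply, add_eq_zero_iff_eq_neg]
    exact h5.symm.trans (congrArg _ h6)
  obtain ⟨x, y, e1⟩ := hsp _ (apply_mem_of_mem_stab hu (b 0).2)
  obtain ⟨z, w, e2⟩ := hsp _ (apply_mem_of_mem_stab hu (b 1).2)
  have h4 := h2 u (b 0) (b 1)
  rw [e1, e2, hBB] at h4
  have h5 : ((x * w - y * z - 1 : ℤ) : ZMod q) = 0 := by
    have h6 : q • B (b 0) (b 1) = 0 := by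
      rw [← map_nsmul, ← Nat.cast_smul_eq_nsmul (ZMod q), ZMod.natCast_self, zero_smul, map_zero]
    rw [ZMod.intCast_zmod_eq_zero_iff_dvd, ← addOrderOf_eq_prime h6 hm,
      addOrderOf_dvd_iff_zsmul_eq_zero, sub_smul, h4, one_smul, sub_self]
  push_cast at h5
  refine ⟨x + w, fun a ha => ?_⟩
  obtain ⟨c, d, rfl⟩ := hsp a ha
  simp only [map_add, map_zsmul, e1, e2]
  simp only [← Int.cast_smul_eq_zsmul (ZMod q)]
  linear_combination (norm := module) (-(c : ZMod q) * h5) • (b 0 : W) + (-(d : ZMod q) * h5) • (b 1 : W)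

theorem QR.exists_sign (hB : Symp σ) {g u : G} (hg : QR 2 l (σ g)) (hu : u ∈ stab σ (pl (σ g)))
    (h : ∀ a ∈ pl (σ g), σ u (σ u a) = a) :
    ∃ c : ZMod q, c * c = 1 ∧ ∀ a ∈ pl (σ g), σ u a = c • a := by
  obtain ⟨t, ht⟩ := hg.exists_trace hB hu
  obtain ⟨v, hv, hv0⟩ := (Submodule.ne_bot_iff _).1 hg.pl_ne_bot
  have h1 : ∀ a ∈ pl (σ g), t • σ u a = (2 : ZMod q) • a := fun a ha => by
    rw [two_smul, ← sub_eq_iff_eq_add, ← ht a ha, h a ha]
  have h2 : t ≠ 0 := by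
    rintro rfl
    have := h1 v hv
    rw [zero_smul, eq_comm, smul_eq_zero] at this
    exact this.elim (by exact_mod_cast hg.two_ne) hv0
  have h3 : ∀ a ∈ pl (σ g), σ u a = (t⁻¹ * 2) • a := fun a ha => by
    rw [mul_smul, ← h1 a ha, inv_smul_smul₀ h2]
  refine ⟨_, smul_left_injective _ hv0 ?_, h3⟩
  have := h v hv
  rwa [h3 _ (apply_mem_of_mem_stab hu hv), h3 v hv, smul_smul, ← one_smul (ZMod q) v,
    smul_smul, mul_one] at this

theorem QR.not_four (hB : Symp σ) {g u : G} (hg : QR 2 1 (σ g)) (hu : u ∈ stab σ (pl (σ g)))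
    (h : ∀ a ∈ pl (σ g), σ u (σ u (σ u (σ u a))) = -a) : False := by
  obtain ⟨t, ht⟩ := hg.exists_trace hB hu
  obtain ⟨v, hv, hv0⟩ := (Submodule.ne_bot_iff _).1 hg.pl_ne_bot
  obtain rfl : q = 3 := by have := hg.succ_eq; omega
  have h1 : ∀ a ∈ pl (σ g), t • σ u a = a := fun a ha => by
    have h2 := h a ha
    have h3 : t * t - 2 ≠ 0 := by clear * -; decide +revert
    rw [ht _ (apply_mem_of_mem_stab hu (apply_mem_of_mem_stab hu ha)),
      ht _ (apply_mem_of_mem_stab hu ha), ht a ha] at h2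
    refine smul_right_injective W h3 ?_
    linear_combination (norm := module) h2
  have h2 := ht v hv
  rw [h1 v hv, sub_self, ← map_zero (σ u)] at h2
  exact hv0 (rho_injective σ u ((rho_injective σ u h2).trans (map_zero _).symm))

end CL.HHL
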