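import Mathlib
import Cfsg.Agent.FGS.HHLenN

/-!
Exceptional involutions in a `2`-group acting on a symplectic space.
-/

set_option autoImplicit false
open Module Subgroup
open scoped commutatorElement Pointwise

namespace CL.HHL
open CL.HH Cfsg

universe u
variable {q l : ℕ} [hq : Fact q.Prime] {W : Type*} {G : Type u} [AddCommGroup W]
  [Module (ZMod q) W] [Group G] {σ : Representation (ZMod q) G W} {S : Subgroup G} {Y : Set G}

theorem mem_pl_conj (r : G) {g : G} {a : W} (ha : a ∈ pl (σ g)) :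
    σ r a ∈ pl (σ (r * g * r⁻¹)) := pl_conj (σ := σ) r g ▸ ⟨a, ha, rfl⟩

theorem rho_inv_of_fix {g : G} {a : W} (h : σ g a = a) : σ g⁻¹ a = a := by
  conv_lhs => rw [← h, rho_inv_rho]

theorem conj_mem_of_mem {a b : G} (ha : a ∈ S) (hb : b ∈ S) : a * b * a⁻¹ ∈ S :=
  mul_mem (mul_mem ha hb) (inv_mem ha)

theorem QR.eq_zero [Finite W] {g : G} (hg : QR 2 l (σ g)) {a : W} (ha : a ∈ pl (σ g)) (h : σ g a = a) :
    a = 0 := eq_zero_of_fix hg.two_ne hg.pow ha h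

theorem QR.false_of_sq [Finite W] {g : G} (hg : QR 2 l (σ g))
    (h : ∀ a ∈ pl (σ g), σ g (σ g a) = a) : False :=
  hg.pl_ne_bot ((Submodule.eq_bot_iff _).2 fun a ha => hg.eq_zero_of_pow Nat.prime_two hg.two_ne ha
    (i := 2) (h a ha) fun hd => (hg.two_lt Nat.prime_two).not_ge (Nat.le_of_dvd two_pos hd))

/-- A family of involutions with small commutator spaces. -/
structure Fam (σ : Representation (ZMod q) G W) (S : Subgroup G) (Y : Set G) : Prop where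
  le : ∀ y ∈ Y, y ∈ S
  sq : ∀ y ∈ Y, ∀ w, σ y (σ y w) = w
  card : ∀ y ∈ Y, Nat.card (pl (σ y)) ≤ q ^ 2
  conj : ∀ y ∈ Y, ∀ s ∈ S, s * y * s⁻¹ ∈ Y
  comm : ∀ y ∈ Y, ∀ r ∈ closure Y, Commute (σ y) (σ (r * y * r⁻¹))

theorem Fam.inv (h : Fam σ S Y) {y : G} (hy : y ∈ Y) (w : W) : σ y⁻¹ w = σ y w := by
  conv_lhs => rw [← h.sq y hy w, rho_inv_rho]

theorem Fam.t3 (h : Fam σ S Y) {y r : G} (hy : y ∈ Y) (hr : r ∈ closure Y) (w : W) :
    σ y (σ r (σ y (σ r⁻¹ (σ y (σ r (σ y (σ r⁻¹ w))))))) = w := by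
  have := LinearMap.congr_fun (h.comm y hy r hr).eq (σ y (σ r (σ y (σ r⁻¹ w))))
  simp only [Module.End.mul_apply, rho_mul] at this
  rw [this, h.sq y hy, rho_inv_rho, h.sq y hy, rho_rho_inv]

theorem Fam.pl_conj_conj (h : Fam σ S Y) {y : G} (hy : y ∈ Y) (g : G) :
    pl (σ (y * (y * g * y⁻¹) * y⁻¹)) = pl (σ g) := by
  congr 1
  ext w
  simp only [rho_mul, h.inv hy, h.sq y hy]

theorem Fam.closure_le (h : Fam σ S Y) : closure Y ≤ S := (Subgroup.closure_le _).2 h.le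

variable [Finite W] [Finite S] (hS : IsPGroup 2 S)
include hS

theorem QR.pow_eq_of_pl_eq {g g' : G} (hg : QR 2 l (σ g)) (hg' : QR 2 l (σ g')) (h : g ∈ S)
    (h' : g' ∈ S) (e : pl (σ g) = pl (σ g')) : σ (g ^ 2 ^ l) = σ (g' ^ 2 ^ l) :=
  eq_of_agree hg.two_ne hS (pow_mem h _) (pow_mem h' _) (A := pl (σ g))
    (by rw [map_pow]; exact pl_pow_le _ _) (by rw [map_pow, e]; exact pl_pow_le _ _) fun w hw => by
      rw [map_pow, map_pow, hg.apply_eq_neg hg.two_ne hw, hg'.apply_eq_neg hg.two_ne (e ▸ hw)]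

theorem QR.fix2 {g g' : G} (hg : QR 2 l (σ g)) (hg' : QR 2 l (σ g')) (h : g ∈ S) (h' : g' ∈ S)
    (r : G) (hr : r ∈ S) (hne : pl (σ (r * g * r⁻¹)) ≠ pl (σ g')) {a : W} (ha : a ∈ pl (σ g)) :
    σ g' (σ r a) = σ r a :=
  (hg.conj r).fix_of_ne' hg.two_ne hS hg' (conj_mem_of_mem hr h) h' hne _ (mem_pl_conj r ha)

theorem Fam.fix (h : Fam σ S Y) {y g g₂ : G} (hy : y ∈ Y) (hg : QR 2 l (σ g)) (hgS : g ∈ S)
    (hg₂ : QR 2 l (σ g₂)) (hgS₂ : g₂ ∈ S) (h1 : pl (σ (y * g * y⁻¹)) ≠ pl (σ g))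
    (h2 : pl (σ g) ≠ pl (σ g₂)) (h3 : pl (σ (y * g * y⁻¹)) ≠ pl (σ g₂)) {a : W}
    (ha : a ∈ pl (σ g₂)) : σ y a = a := by
  have hP : (pl (σ g)).map (σ y - 1) = pl (σ y) := by
    refine eq_of_le_of_card_le LinearMap.map_le_range ((h.card y hy).trans (hg.card_eq ▸ ?_))
    refine Nat.card_le_card_of_injective (fun w => ⟨(σ y - 1 : Module.End _ W) w, w, w.2, rfl⟩)
      fun a b e => Subtype.ext (sub_eq_zero.1 (hg.eq_zero (sub_mem a.2 b.2) ?_))
    have h4 : σ y (a - b) = a - b := by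
      have := congrArg Subtype.val e
      simp only [LinearMap.sub_apply, Module.End.one_apply] at this
      rw [map_sub, sub_eq_sub_iff_sub_eq_sub, this]
    have := hg.fix2 hS hg hgS hgS y (h.le y hy) h1 (sub_mem a.2 b.2)
    rwa [h4] at this
  have h4 : σ g₂ (σ y a - a) = σ y a - a := by
    obtain ⟨w, hw, e⟩ : σ y a - a ∈ (pl (σ g)).map (σ y - 1) := hP ▸ sub_mem_pl _ _
    rw [← e, LinearMap.sub_apply, Module.End.one_apply, map_sub,
      hg.fix2 hS hg₂ hgS hgS₂ y (h.le y hy) h3 hw, hg.fix_of_ne' hg.two_ne hS hg₂ hgS hgS₂ h2 w hw]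
  by_cases e : pl (σ (y * g₂ * y⁻¹)) = pl (σ g₂)
  · exact sub_eq_zero.1 (hg₂.eq_zero (sub_mem (e ▸ mem_pl_conj y ha) ha) h4)
  · rw [map_sub, hg₂.fix2 hS hg₂ hgS₂ hgS₂ y (h.le y hy) e ha, sub_right_inj] at h4
    rw [hg₂.eq_zero ha h4, map_zero]

theorem Fam.case_three (h : Fam σ S Y) {y g g' : G} (hy : y ∈ Y) (hg : QR 2 l (σ g)) (hgS : g ∈ S)
    (hg' : QR 2 l (σ g')) (hgS' : g' ∈ S) (hd : g' * g⁻¹ ∈ closure Y) (hne : pl (σ g) ≠ pl (σ g')) :
    pl (σ (y * g * y⁻¹)) = pl (σ g) ∨ pl (σ (y * g * y⁻¹)) = pl (σ g') := by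
  by_contra hc
  push Not at hc
  have key : ∀ a ∈ pl (σ g), σ y (σ (g' * g⁻¹) (σ y (σ (g' * g⁻¹)⁻¹ a))) = σ g a := fun a ha => by
    rw [mul_inv_rev, inv_inv, rho_mul σ g, rho_inv_of_fix (hg.fix_of_ne' hg.two_ne hS hg' hgS hgS'
      hne a ha), rho_mul, rho_inv_of_fix (hg.fix2 hS hg hgS hgS y (h.le y hy) hc.1
        (apply_mem_pl ha)), hg.fix2 hS hg' hgS hgS' y (h.le y hy) hc.2 (apply_mem_pl ha), h.sq y hy]
  refine hg.false_of_sq fun a ha => ?_
  rw [← key _ (apply_mem_pl ha), ← key a ha, h.t3 hy hd]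

theorem Fam.two (h : Fam σ S Y) {y y' g : G} (hy : y ∈ Y) (hy' : y' ∈ Y) (hg : QR 2 l (σ g))
    (hgS : g ∈ S) (hne : pl (σ (y * g * y⁻¹)) ≠ pl (σ g)) :
    pl (σ (y' * g * y'⁻¹)) = pl (σ g) ∨ pl (σ (y' * g * y'⁻¹)) = pl (σ (y * g * y⁻¹)) := by
  by_contra hc
  push Not at hc
  refine hc.1 (pl_conj (σ := σ) y' g ▸ triv_le_stab fun a ha => ?_)
  have h1 := h.fix hS hy' hg hgS (hg.conj y) (conj_mem_of_mem (h.le y hy) hgS) hc.1 hne.symm hc.2
    (mem_pl_conj y ha)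
  have h2 := h.fix hS hy hg hgS (hg.conj y') (conj_mem_of_mem (h.le y' hy') hgS) hne hc.1.symm
    hc.2.symm (mem_pl_conj y' ha)
  have := h.t3 hy (subset_closure hy') a
  simp only [h.inv hy'] at this
  rwa [h2, h.sq y' hy', h1, h.sq y hy, h2] at this

theorem Fam.case_four (hB : Symp σ) (h : Fam σ S Y) {y g d : G} (hy : y ∈ Y) (hg : QR 2 l (σ g))
    (hgS : g ∈ S) (hd : d ∈ closure Y) (h1 : σ ((d * g) ^ 2 ^ l) = 1) :
    pl (σ (y * g * y⁻¹)) = pl (σ g) := by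
  by_contra hne
  have hyS := h.le y hy
  have hf : ∀ a ∈ pl (σ g), σ g (σ y a) = σ y a := fun a ha => hg.fix2 hS hg hgS hgS y hyS hne ha
  have hi : ∀ a ∈ pl (σ g), σ g⁻¹ a ∈ pl (σ g) := fun a ha =>
    apply_mem_of_mem_stab (inv_mem (self_mem_stab g)) ha
  obtain rfl : l = 1 := by
    have key : ∀ a ∈ pl (σ g), σ y (σ (g * y * g⁻¹) (σ y (σ (g * y * g⁻¹)⁻¹ a))) =
        σ g⁻¹ (σ g⁻¹ a) := fun a ha => by
      rw [h.inv (h.conj y hy g hgS)]
      simp only [rho_mul]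
      rw [hf _ (hi a ha), h.sq y hy, hf _ (hi _ (hi a ha)), h.sq y hy]
    obtain ⟨v, hv, hv0⟩ := (Submodule.ne_bot_iff _).1 hg.pl_ne_bot
    have h2 := h.t3 hy (subset_closure (h.conj y hy g hgS)) v
    rw [key v hv, key _ (hi _ (hi v hv))] at h2
    have h3 : 2 ^ (l + 1) ∣ 2 ^ 2 := by
      by_contra h3
      refine hv0 (hg.eq_zero_of_pow Nat.prime_two hg.two_ne hv ?_ h3)
      conv_lhs => rw [← h2]
      simp only [show 2 ^ 2 = 0 + 1 + 1 + 1 + 1 from rfl, pow_succ, pow_zero, one_mul,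
        Module.End.mul_apply, rho_rho_inv]
    have := (Nat.pow_dvd_pow_iff_le_right one_lt_two).1 h3
    have := hg.pos_of_two
    omega
  have hg1 := hg.conj y
  have hgS1 := conj_mem_of_mem hyS hgS
  have hst : closure Y ≤ stab σ (pl (σ g) ⊔ pl (σ (y * g * y⁻¹))) := by
    refine (Subgroup.closure_le _).2 fun y' hy' => mem_stab_of_le fun w hw => ?_
    obtain ⟨a, ha, b, hb, rfl⟩ := Submodule.mem_sup.1 hw
    rw [map_add]
    refine add_mem ?_ ?_
    · rcases h.two hS hy hy' hg hgS hne with e | e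
      · exact Submodule.mem_sup_left (e ▸ mem_pl_conj y' ha)
      · exact Submodule.mem_sup_right (e ▸ mem_pl_conj y' ha)
    · rcases h.two hS hy hy' hg1 hgS1 (by rw [h.pl_conj_conj hy]; exact Ne.symm hne) with e | e
      · exact Submodule.mem_sup_right (e ▸ mem_pl_conj y' hb)
      · exact Submodule.mem_sup_left (h.pl_conj_conj hy g ▸ e ▸ mem_pl_conj y' hb)
  have hor : ∀ r ∈ closure Y, ∀ g' ∈ S, QR 2 1 (σ g') →
      pl (σ g') ≤ pl (σ g) ⊔ pl (σ (y * g * y⁻¹)) → pl (σ (r * g' * r⁻¹)) = pl (σ g) ∨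
        pl (σ (r * g' * r⁻¹)) = pl (σ (y * g * y⁻¹)) := fun r hr g' hgS' hg' hle => by
    by_contra hc
    push Not at hc
    have hgS2 := conj_mem_of_mem (h.closure_le hr) hgS'
    refine (hg'.conj r).pl_ne_bot ((Submodule.eq_bot_iff _).2 fun w hw => (hg'.conj r).eq_zero hw ?_)
    obtain ⟨a, ha, b, hb, rfl⟩ := Submodule.mem_sup.1
      (((Submodule.map_mono hle).trans (hst hr).le) (pl_conj (σ := σ) r g' ▸ hw))
    rw [map_add, hg.fix_of_ne' hg.two_ne hS (hg'.conj r) hgS hgS2 hc.1.symm a ha,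
      hg1.fix_of_ne' hg.two_ne hS (hg'.conj r) hgS1 hgS2 hc.2.symm b hb]
  have hF : ∀ r ∈ closure Y, r ∈ stab σ (pl (σ g)) → ∃ c : ZMod q, c * c = 1 ∧
      ∀ a ∈ pl (σ g), σ y (σ r (σ y a)) = c • σ r a := fun r hr hr1 => by
    have hr2 : r ∈ stab σ (pl (σ (y * g * y⁻¹))) := by
      rw [HH.mem_stab, ← pl_conj]
      refine (hor r hr _ hgS1 hg1 le_sup_right).resolve_left fun e => hne ?_
      rw [pl_conj] at e
      exact Submodule.map_injective_of_injective (rho_injective σ r) (e.trans hr1.symm)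
    obtain ⟨c, h2, h3⟩ := hg.exists_sign hB (u := y * r * y * r⁻¹) (mem_stab_of_le fun a ha => by
      simp only [rho_mul]
      exact h.pl_conj_conj hy g ▸ mem_pl_conj y (apply_mem_of_mem_stab hr2
        (mem_pl_conj y (apply_mem_of_mem_stab (inv_mem hr1) ha)))) fun a _ => by
          simp only [rho_mul]; exact h.t3 hy hr a
    refine ⟨c, h2, fun a ha => ?_⟩
    simpa only [rho_mul, rho_inv_rho] using h3 _ (apply_mem_of_mem_stab hr1 ha)
  have h2 : ∀ w, σ d (σ g (σ d (σ g w))) = w := fun w => by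
    simpa only [pow_one, pow_two, rho_mul, Module.End.one_apply] using LinearMap.congr_fun h1 w
  have h3 : ∀ a ∈ pl (σ g), σ g (σ g a) = -a := fun a ha => hg.apply_eq_neg hg.two_ne ha
  rcases hor d hd g hgS hg le_sup_left with e | e
  · rw [pl_conj] at e
    obtain ⟨c, h4, h5⟩ := hF d hd e
    have h6 : ∀ a ∈ pl (σ g), σ d (σ y a) = c • σ y (σ d a) := fun a ha => by
      rw [← map_smul, ← h5 a ha, h.sq y hy]
    obtain ⟨c', h7, h8⟩ := hg.exists_sign hB e fun a ha => rho_injective σ y (by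
      have h9 := h2 (σ y a)
      rwa [hf a ha, h6 a ha, map_smul, hf _ (apply_mem_of_mem_stab e ha), map_smul,
        h6 _ (apply_mem_of_mem_stab e ha), smul_smul, h4, one_smul] at h9)
    refine hg.false_of_sq fun a ha => ?_
    have h9 := h2 a
    rwa [h8 _ (apply_mem_pl ha), map_smul, map_smul, h8 _ (apply_mem_pl (apply_mem_pl ha)),
      smul_smul, h7, one_smul] at h9
  · have hst' : y * d ∈ stab σ (pl (σ g)) := mem_stab_of_le fun a ha => by
      rw [rho_mul]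
      exact h.pl_conj_conj hy g ▸ mem_pl_conj y (e ▸ mem_pl_conj d ha)
    obtain ⟨c, h4, h5⟩ := hF (y * d) (mul_mem (subset_closure hy) hd) hst'
    have h6 : ∀ w, σ d w = σ y (σ (y * d) w) := fun w => by rw [rho_mul, h.sq y hy]
    have h7 : ∀ a ∈ pl (σ g), σ (y * d) (σ (y * d) (σ g a)) = c • a := fun a ha => by
      have h9 := h2 a
      have h10 := apply_mem_of_mem_stab hst' (apply_mem_pl ha)
      rw [h6 (σ g a), hf _ h10, h6, h5 _ h10] at h9
      conv_rhs => rw [← h9, smul_smul, h4, one_smul]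
    refine hg.not_four hB hst' fun a ha => ?_
    rw [← neg_neg a, ← h3 a ha, map_neg, map_neg, h7 _ (apply_mem_pl ha), map_neg, map_neg,
      map_smul, map_smul, h7 a ha, smul_smul, h4, one_smul, h3 a ha, neg_neg]

theorem Fam.commute_aux (hB : Symp σ) (h : Fam σ S Y) {y g g' : G} (hy : y ∈ Y)
    (hg : QR 2 l (σ g)) (hgS : g ∈ S) (hd : g' * g⁻¹ ∈ closure Y) (h1 : σ (g' ^ 2 ^ l) = 1) :
    Commute (σ y) (σ (g ^ 2 ^ l)) :=
  hg.commute_of_mem_stab hg.two_ne hS hgS (h.le y hy) (by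
    rw [HH.mem_stab, ← pl_conj]
    exact h.case_four hS hB hy hg hgS hd (by rwa [inv_mul_cancel_right]))

theorem Fam.commute (hB : Symp σ) (h : Fam σ S Y) {y g g' : G} (hy : y ∈ Y) (hgS : g ∈ S)
    (hgS' : g' ∈ S) (hd : g' * g⁻¹ ∈ closure Y) (H : σ (g ^ 2 ^ l) = 1 ∨ QR 2 l (σ g))
    (H' : σ (g' ^ 2 ^ l) = 1 ∨ QR 2 l (σ g')) : Commute (σ y) (σ (g' ^ 2 ^ l * g ^ 2 ^ l)) := by
  have hd' : g * g'⁻¹ ∈ closure Y := by simpa using inv_mem hd
  rw [map_mul]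
  rcases H with H | H <;> rcases H' with H' | H'
  · rw [H, H', one_mul]; exact Commute.one_right _
  · rw [H, mul_one]; exact h.commute_aux hS hB hy H' hgS' hd' H
  · rw [H', one_mul]; exact h.commute_aux hS hB hy H hgS hd H'
  have hyS := h.le y hy
  have key : ∀ {a b : G}, a ∈ S → b ∈ S → QR 2 l (σ a) → QR 2 l (σ b) →
      pl (σ (y * a * y⁻¹)) = pl (σ b) → σ y * σ (a ^ 2 ^ l) = σ (b ^ 2 ^ l) * σ y :=
    fun ha hb ha' hb' e => by
      rw [← (ha'.conj y).pow_eq_of_pl_eq hS hb' (conj_mem_of_mem hyS ha) hb e, conj_pow, ← map_mul,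
        ← map_mul, inv_mul_cancel_right]
  by_cases hne : pl (σ g) = pl (σ g')
  · rw [← H.pow_eq_of_pl_eq hS H' hgS hgS' hne, map_pow, ← pow_add, ← two_mul, ← pow_succ', H.pow]
    exact Commute.one_right _
  have hinj : pl (σ (y * g * y⁻¹)) ≠ pl (σ (y * g' * y⁻¹)) := fun e => hne (by
    rw [pl_conj, pl_conj] at e
    exact Submodule.map_injective_of_injective (rho_injective σ y) e)
  rcases h.case_three hS hy H hgS H' hgS' hd hne with e | e <;>
    rcases h.case_three hS hy H' hgS' H hgS hd' (Ne.symm hne) with e' | e'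
  · exact Commute.mul_right (key hgS' hgS' H' H' e') (key hgS hgS H H e)
  · exact absurd (e.trans e'.symm) hinj
  · exact absurd (e.trans e'.symm) hinj
  · rw [Commute, SemiconjBy, ← mul_assoc, key hgS' hgS H' H e', mul_assoc, key hgS hgS' H H' e,
      ← mul_assoc, (H.commute_pow H.two_ne hS H' hgS hgS').eq]

omit [Finite S] hS in
theorem QR.false_of_commute (hB : Symp σ) {g d : G} (hg : QR 2 l (σ g))
    (hd : ∀ w, σ d (σ d w) = w) (hc : Commute (σ d) (σ (g ^ 2 ^ l)))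
    (h1 : σ ((d * g) ^ 2 ^ l) = 1) : False := by
  have hst : d ∈ stab σ (pl (σ g)) := mem_stab_of_le fun a ha => by
    rw [← hg.pl_pow, ← map_pow] at ha ⊢
    obtain ⟨v, rfl⟩ := ha
    exact ⟨σ d v, LinearMap.congr_fun (hc.sub_right (Commute.one_right _)).eq.symm v⟩
  obtain ⟨c, h2, h3⟩ := hg.exists_sign hB hst fun a _ => hd a
  have key : ∀ i : ℕ, ∀ a ∈ pl (σ g), σ ((d * g) ^ i) a = c ^ i • σ (g ^ i) a := fun i a ha => by
    induction i with
    | zero => simp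
    | succ i ih =>
      rw [pow_succ', rho_mul, ih, map_smul, rho_mul, ← rho_mul σ g, ← pow_succ', h3 _
        (apply_mem_of_mem_stab (pow_mem (self_mem_stab g) _) ha), smul_smul, pow_succ c]
  refine hg.pl_ne_bot ((Submodule.eq_bot_iff _).2 fun a ha => eq_zero_of_eq_neg hg.two_ne ?_)
  have := key (2 ^ l) a ha
  obtain ⟨m, rfl⟩ : ∃ m, l = m + 1 := ⟨l - 1, by have := hg.pos_of_two; omega⟩
  rwa [h1, map_pow, hg.apply_eq_neg hg.two_ne ha, pow_succ', pow_mul, pow_two, h2, one_pow,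
    one_smul] at this

theorem pow_eq_of_central (hB : Symp σ) {g d : G} (hgS : g ∈ S) (hdS : d ∈ S)
    (hd : ∀ w, σ d (σ d w) = w) (hc : Commute (σ d) (σ (g ^ 2 ^ l)))
    (hc' : Commute (σ d) (σ ((d * g) ^ 2 ^ l))) (H : σ (g ^ 2 ^ l) = 1 ∨ QR 2 l (σ g))
    (H' : σ ((d * g) ^ 2 ^ l) = 1 ∨ QR 2 l (σ (d * g))) : σ ((d * g) ^ 2 ^ l) = σ (g ^ 2 ^ l) := by
  rcases H with H | H <;> rcases H' with H' | H'
  · rw [H, H']
  · refine (H'.false_of_commute hB hd hc' ?_).elim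
    rw [map_pow, ← H, map_pow]
    congr 1
    exact LinearMap.ext fun w => by rw [rho_mul, rho_mul, hd]
  · exact (H.false_of_commute hB hd hc H').elim
  by_contra hne
  have h1 := fun e => hne (H'.pow_eq_of_pl_eq hS H (mul_mem hdS hgS) hgS e)
  have h2 : ∀ a ∈ pl (σ g), σ g a = σ d a := fun a ha => by
    conv_rhs => rw [← H.fix_of_ne' H.two_ne hS H' hgS (mul_mem hdS hgS) (Ne.symm h1) a ha,
      rho_mul, hd]
  refine H.false_of_sq fun a ha => ?_
  rw [h2 _ (apply_mem_pl ha), h2 a ha, hd]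

end CL.HHL
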