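import Mathlib
import Cfsg.Agent.FGS.HHLenM
import Cfsg.Agent.FGS.HHLenO

/-!
The bound for the `2`-length in terms of the exponent.
-/

set_option autoImplicit false
open Module Subgroup
open scoped commutatorElement Pointwise

namespace CL.HHL
open CL.HH Cfsg

universe u

section grp
variable {G H : Type*} [Group G] [Group H]

theorem mul_pow_mul_inv_mem {K : Subgroup G} {r s : G} (hs : s ∈ normalizer (K : Set G))
    (hr : r ∈ K) (j : ℕ) : (r * s) ^ j * (s ^ j)⁻¹ ∈ K := by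
  induction j with
  | zero => simp
  | succ j ih =>
    rw [show (r * s) ^ (j + 1) * (s ^ (j + 1))⁻¹ = r * (s * ((r * s) ^ j * (s ^ j)⁻¹) * s⁻¹) by
      rw [pow_succ', pow_succ']; group]
    exact mul_mem hr ((mem_normalizer_iff.1 hs _).1 ih)

/-- The central elements of order at most two. -/
def omz (K : Subgroup G) : Subgroup G where
  carrier := {x | x ∈ K ∧ x ∈ centralizer (K : Set G) ∧ x * x = 1}
  one_mem' := ⟨one_mem _, one_mem _, one_mul 1⟩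
  mul_mem' := fun {a b} ha hb => ⟨mul_mem ha.1 hb.1, mul_mem ha.2.1 hb.2.1, by
    rw [mul_assoc, ← mul_assoc b, ha.2.1 b hb.1, mul_assoc, hb.2.2, mul_one, ha.2.2]⟩
  inv_mem' := fun ha => ⟨inv_mem ha.1, inv_mem ha.2.1, by rw [← mul_inv_rev, ha.2.2, inv_one]⟩

theorem normalizer_le_omz [Finite G] {K : Subgroup G} :
    normalizer (K : Set G) ≤ normalizer (omz K : Set G) := fun g hg =>
  mem_normalizer_fintype fun a ha => ⟨(mem_normalizer_iff.1 hg a).1 ha.1,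
    (mem_normalizer_iff.1 (normalizer_le_normalizer_centralizer K hg) a).1 ha.2.1, by
      rw [conj_mul, ha.2.2, mul_one, mul_inv_cancel]⟩

theorem mem_normalizer_closure [Finite G] {Y : Set G} {g : G} (h : ∀ y ∈ Y, g * y * g⁻¹ ∈ Y) :
    g ∈ normalizer (closure Y : Set G) := mem_normalizer_fintype fun a ha =>
  (map_le_iff_le_comap (f := (MulAut.conj g).toMonoidHom) (H := closure Y)).2
    ((closure_le _).2 fun y hy => Subgroup.subset_closure (h y hy)) ⟨a, ha, rfl⟩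

theorem PEl.mul_of_mem {p : ℕ} {E : Subgroup G} [E.Normal] (hE : IsPGroup p E) {v s : G}
    (hv : v ∈ E) (hs : PEl p s) : PEl p (v * s) :=
  PEl.of_mk hE (by
    rw [QuotientGroup.mk_mul, (QuotientGroup.eq_one_iff v).2 hv, one_mul]
    exact hs.map (QuotientGroup.mk' E))

variable [Finite G] {p : ℕ} [Fact p.Prime]

theorem eq_of_mk_eq {S : Subgroup G} (hS : IsPGroup p S) {a b : G} (ha : a ∈ S) (hb : b ∈ S)
    (h : (a : G ⧸ pPrimeCore p G) = b) : a = b :=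
  inv_mul_eq_one.1 ((PEl.of_mem hS (mul_mem (inv_mem ha) hb)).eq_one_of_mem
    (coprime_card_pPrimeCore p G) (QuotientGroup.eq.1 h))

theorem map_closure_inter {Y : Set G} (hY : ∀ y ∈ Y, ∀ g, g * y * g⁻¹ ∈ Y)
    (hp : ∀ y ∈ Y, PEl p y) (hD : closure Y ≤ pPrimePCore p G) (S : Sylow p G) :
    (closure (Y ∩ (S : Subgroup G))).map (QuotientGroup.mk' (pPrimeCore p G)) =
      (closure Y).map (QuotientGroup.mk' _) := by
  refine le_antisymm (map_mono (closure_mono Set.inter_subset_left))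
    (map_le_iff_le_comap.2 ((closure_le _).2 fun y hy => ?_))
  have h1 : y ∈ pPrimeCore p G ⊔ S := by
    rw [← QuotientGroup.ker_mk' (pPrimeCore p G), sup_comm, ← comap_map_eq]
    exact le_map_sylow (QuotientGroup.mk'_surjective _) (isPGroup_pCore p _) S
      (hD (subset_closure hy))
  obtain ⟨k, hk, h2⟩ := coprime_le_conj_of_le_sup _ _ _ le_normalizer_of_normal (zpowers_le.2 h1)
    (coprime_card_of_isPGroup_of_coprime (hp y hy).isPGroup (coprime_card_pPrimeCore p G))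
    (Or.inl (isSolvable_zpowers y))
  refine ⟨k⁻¹ * y * k⁻¹⁻¹, subset_closure ⟨hY y hy _, ?_⟩, ?_⟩
  · have := h2 (mem_zpowers y)
    rwa [mem_pointwise_smul_iff_inv_smul_mem, ← map_inv] at this
  · rw [map_mul, map_mul, map_inv _ k⁻¹, show QuotientGroup.mk' _ k⁻¹ = 1 from
      (QuotientGroup.eq_one_iff _).2 (inv_mem hk), one_mul, inv_one, mul_one]

end grp

section rep
variable {F V : Type*} {G : Type u} [Field F] [Group G] [AddCommGroup V] [Module F V]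
variable {ρ : Representation F G V} [IsAlgClosed F] [FiniteDimensional F V] [Finite G]
  {q : ℕ} [Fact q.Prime] {Q : Subgroup G} {U : Submodule F V} {n : ℕ}

theorem Loc.exists_pair (h : Loc ρ q Q U) (hne : q ≠ 2) [Q.Normal] {x x' : G}
    (hx : x ^ 2 ^ (n + 1) = 1) (ha : Ann (ρ x) ⊤ (2 ^ (n + 1))) (hx' : x' ^ 2 ^ (n + 1) = 1)
    (ha' : Ann (ρ x') ⊤ (2 ^ (n + 1))) (H : ∀ j, x' ^ j * (x ^ j)⁻¹ ∈ classStab ρ Q U) :
    ∃ k l, ∃ g g' : classStab ρ Q U, (g : G) = x ^ 2 ^ k ∧ (g' : G) = x' ^ 2 ^ k ∧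
      (g ^ 2 ^ l : G) = x ^ 2 ^ n ∧ (g' ^ 2 ^ l : G) = x' ^ 2 ^ n ∧
      (h.sig (g ^ 2 ^ l) = 1 ∨ QR 2 l (h.sig g)) ∧ (h.sig (g' ^ 2 ^ l) = 1 ∨ QR 2 l (h.sig g')) := by
  obtain ⟨hy, H1⟩ := h.exceptional hne (le_normalizer_of_normal (mem_top x)) hx ha
  obtain ⟨hy', H2⟩ := h.exceptional hne (le_normalizer_of_normal (mem_top x')) hx' ha'
  have e : ∀ (x : G) {k l : ℕ}, k + l = n → (x ^ 2 ^ k) ^ 2 ^ l = x ^ 2 ^ n := fun x k l e => by
    rw [← pow_mul, ← pow_add, e]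
  rcases H1 with H1 | ⟨k, l, h1, hg, H1, -⟩ <;> rcases H2 with H2 | ⟨k', l', h2, hg', H2, -⟩
  · exact ⟨n, 0, ⟨_, hy⟩, ⟨_, hy'⟩, rfl, rfl, pow_one _, pow_one _,
      Or.inl (by rwa [pow_zero, pow_one]), Or.inl (by rwa [pow_zero, pow_one])⟩
  · exact ⟨k', l', ⟨_, inv_mem_iff.1 ((mul_mem_cancel_left hg').1 (H _))⟩, ⟨_, hg'⟩, rfl, rfl,
      e x h2, e x' h2, Or.inl (H1 ▸ congrArg h.sig (Subtype.ext (e x h2))), Or.inr H2⟩
  · exact ⟨k, l, ⟨_, hg⟩, ⟨_, (mul_mem_cancel_right (inv_mem hg)).1 (H _)⟩, rfl, rfl,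
      e x h1, e x' h1, Or.inr H1, Or.inl (H2 ▸ congrArg h.sig (Subtype.ext (e x' h1)))⟩
  · obtain rfl := H1.l_eq H2
    obtain rfl : k = k' := by omega
    exact ⟨k, l, ⟨_, hg⟩, ⟨_, hg'⟩, rfl, rfl, e x h1, e x' h1, Or.inr H1, Or.inr H2⟩

theorem Loc.fam (h : Loc ρ q Q U) (hne : q ≠ 2) (hQ : Q.Normal) {S : Subgroup G} {Y : Set G}
    (h1 : ∀ y ∈ Y, y ∈ S) (h2 : ∀ y ∈ Y, y * y = 1) (h3 : ∀ y ∈ Y, Good ρ y)
    (h4 : ∀ y ∈ Y, ∀ s ∈ S, s * y * s⁻¹ ∈ Y)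
    (h5 : ∀ y ∈ Y, ∀ r ∈ closure Y, Commute y (r * y * r⁻¹)) :
    Fam h.sig (S.subgroupOf (classStab ρ Q U)) ((↑) ⁻¹' Y) ∧
      closure Y ≤ (Subgroup.closure (Subtype.val ⁻¹' Y)).map (classStab ρ Q U).subtype := by
  refine ⟨⟨fun y hy => h1 y hy, fun y hy w => ?_, fun y hy => ?_, fun y hy s hs => h4 y hy s hs,
    fun y hy r hr => Commute.map (Subtype.ext (h5 y hy r (MonoidHom.closure_preimage_le
      (classStab ρ Q U).subtype Y hr)).eq) _⟩, (closure_le _).2 fun y hy => ?_⟩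
  · rw [← rho_mul, show y * y = 1 from Subtype.ext (h2 y hy), map_one, Module.End.one_apply]
  · obtain ⟨_, H | ⟨l, g, -, H, e⟩⟩ := h3 y hy q Q hne hQ U h
    · rw [show h.sig y = 1 from H, show pl (1 : Module.End (ZMod q) _) = ⊥ by simp [pl],
        Nat.card_unique]
      exact Nat.one_le_pow _ _ (Fact.out : q.Prime).pos
    · rw [show h.sig y = _ from e, map_pow, H.pl_pow, H.card_eq]
  · exact ⟨⟨y, (h3 y hy q Q hne hQ U h).1⟩, subset_closure hy, rfl⟩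

omit [Fact q.Prime]
variable [CharP F 2] [Group.IsSolvable G]

theorem exists_core (hρ : ρ.ker = ⊥) (h0 : pCore 2 G = ⊥) (he : ExpLE 2 (n + 1) G)
    (ha : ∀ x, PEl 2 x → Ann (ρ x) ⊤ (2 ^ (n + 1))) :
    ∃ D : Subgroup (G ⧸ pPrimeCore 2 G), D.Normal ∧ (∀ x, PEl 2 x → x ^ 2 ^ n ∈ D) ∧
      ∀ s, PEl 2 s → ∀ r ∈ D, (r * s) ^ 2 ^ n * s ^ 2 ^ n ∈ omz D ∧
        (r ∈ omz D → (r * s) ^ 2 ^ n = s ^ 2 ^ n) := by
  have hπ := QuotientGroup.mk'_surjective (pPrimeCore 2 G)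
  set π := QuotientGroup.mk' (pPrimeCore 2 G)
  let Y : Set G := {y | ∃ x, PEl 2 x ∧ y = x ^ 2 ^ n}
  have hY : ∀ y ∈ Y, ∀ g, g * y * g⁻¹ ∈ Y := by
    rintro _ ⟨x, hx, rfl⟩ g
    exact ⟨_, hx.conj g, conj_pow.symm⟩
  have hYg : ∀ y ∈ Y, Good ρ y := by
    rintro _ ⟨x, hx, rfl⟩
    exact good_of_ann (he x hx) (ha x hx)
  have hY2 : ∀ y ∈ Y, y * y = 1 := by
    rintro _ ⟨x, hx, rfl⟩
    rw [← pow_add, ← two_mul, ← pow_succ', he x hx]
  have : (closure Y).Normal := normalizer_eq_top_iff.1 (eq_top_iff.2 fun g _ =>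
    mem_normalizer_closure fun y hy => hY y hy g)
  have hD := closure_le_pPrimePCore hρ h0 hYg
  have hDn := this.map π hπ
  refine ⟨_, hDn, fun x hx => ?_, fun s hs0 r hr => ?_⟩
  · obtain ⟨x, hx', rfl⟩ := hx.exists_lift hπ
    exact ⟨_, Subgroup.subset_closure ⟨x, hx', rfl⟩, map_pow _ _ _⟩
  obtain ⟨s, hs, rfl⟩ := hs0.exists_lift hπ
  obtain ⟨S, hsS⟩ := hs.exists_sylow
  have hS := S.isPGroup'
  have hR := map_closure_inter hY (by rintro _ ⟨x, hx, rfl⟩; exact hx.pow _) hD S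
  have hRS : closure (Y ∩ (S : Subgroup G)) ≤ S := (closure_le _).2 Set.inter_subset_right
  have h4 : ∀ y ∈ Y ∩ (S : Subgroup G), ∀ t ∈ (S : Subgroup G), t * y * t⁻¹ ∈ Y ∩ (S : Subgroup G) :=
    fun y hy t ht => ⟨hY y hy.1 t, conj_mem_of_mem ht hy.2⟩
  have h5 : ∀ y ∈ Y ∩ (S : Subgroup G), ∀ r ∈ closure (Y ∩ (S : Subgroup G)),
      Commute y (r * y * r⁻¹) := by
    rintro _ ⟨⟨x, hx, rfl⟩, hy⟩ r hr
    have hy' := conj_mem_of_mem (hRS hr) hy
    refine eq_of_mk_eq hS (mul_mem hy hy') (mul_mem hy' hy) ?_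
    have h1 := (powComm_of_ann hρ (isPSolvable_of_isSolvable 2 G) h0 he ha).of_surjective hπ _
      ((hx.map π).isPGroup.to_sup_of_normal_right (isPGroup_pCore 2 _)) _
      (mem_sup_left (mem_zpowers _)) _ (conj_mem_of_mem (mem_sup_right
        (hD (closure_mono Set.inter_subset_left hr))) (mem_sup_left (mem_zpowers _)))
    rw [conj_pow] at h1
    exact h1.eq
  rw [← hR] at hr ⊢
  obtain ⟨r, hr, rfl⟩ := hr
  have hrs := mul_mem (hRS hr) hsS
  have hn := mem_normalizer_closure fun y hy => h4 y hy s hsS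
  have hy : s ^ 2 ^ n ∈ Y ∩ (S : Subgroup G) := ⟨⟨s, hs, rfl⟩, pow_mem hsS _⟩
  have hy' : (r * s) ^ 2 ^ n ∈ Y ∩ (S : Subgroup G) := ⟨⟨_, PEl.of_mem hS hrs, rfl⟩, pow_mem hrs _⟩
  have hw := mul_mem (subset_closure hy') (subset_closure hy)
  have loc := fun (q : ℕ) [Fact q.Prime] (Q : Subgroup G) (hne : q ≠ 2) (hQ : Q.Normal) U
    (h : Loc ρ q Q U) => h.fam hne hQ (fun y hy => hy.2) (fun y hy => hY2 y hy.1)
      (fun y hy => hYg y hy.1) h4 h5
  have pair := fun (q : ℕ) [Fact q.Prime] (Q : Subgroup G) (hne : q ≠ 2) (hQ : Q.Normal) U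
    (h : Loc ρ q Q U) => h.exists_pair hne (he s hs) (ha s hs) (he _ (PEl.of_mem hS hrs))
      (ha _ (PEl.of_mem hS hrs)) fun j => map_subtype_le _
        ((loc q Q hne hQ U h).2 (mul_pow_mul_inv_mem hn hr j))
  rw [← map_mul, ← map_pow, ← map_pow, ← map_mul]
  refine ⟨⟨⟨_, hw, rfl⟩, ?_, ?_⟩, fun hr' => congrArg π ?_⟩
  · rw [← zpowers_le, le_centralizer_iff, map_le_iff_le_comap, closure_le]
    intro y hy0
    rw [SetLike.mem_coe, mem_comap, MSS.centralizer_zpowers, mem_centralizer_singleton_iff]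
    refine (Commute.map (commutatorElement_eq_one_iff_commute.1 (eq_one_of_forall_nloc hρ h0
      (PEl.of_mem hS (commutator_le_self _ (commutator_mem_commutator hy0.2 (hRS hw))))
        fun q _ Q hne hQ U h => ?_)) π).eq
    obtain ⟨k, l, g, g', e1, e2, e3, e4, H, H'⟩ := pair q Q hne hQ U h
    obtain ⟨hF, hle⟩ := loc q Q hne hQ U h
    obtain ⟨d, hd, e5⟩ := hle (mul_pow_mul_inv_mem hn hr (2 ^ k))
    have := map_commutatorElement_eq_one h.sig (hF.commute hS.comap_subtype h.symp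
      (y := ⟨y, (hYg y hy0.1 q Q hne hQ U h).1⟩) hy0 (mem_subgroupOf.2 (e1 ▸ pow_mem hsS _))
      (mem_subgroupOf.2 (e2 ▸ pow_mem hrs _))
      ((show d = g' * g⁻¹ from Subtype.ext (by rw [← e1, ← e2] at e5; exact e5)) ▸ hd) H H')
    rw [← e3, ← e4]
    exact ⟨_, this⟩
  · rw [← map_mul, ((commute_of_ann hρ (isPSolvable_of_isSolvable 2 G) h0 hS hsS hrs (he s hs)
      (he _ (PEl.of_mem hS hrs)) (ha s hs) (ha _ (PEl.of_mem hS hrs))).mul_mul_mul_comm _ _),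
      hY2 _ hy.1, hY2 _ hy'.1, mul_one, map_one]
  have hr2 : r ∈ omz (closure (Y ∩ (S : Subgroup G))) := ⟨hr, fun a ha' =>
    eq_of_mk_eq hS (mul_mem (hRS ha') (hRS hr)) (mul_mem (hRS hr) (hRS ha'))
      (hr'.2.1 _ ⟨a, ha', rfl⟩), eq_of_mk_eq hS (mul_mem (hRS hr) (hRS hr)) (one_mem _) hr'.2.2⟩
  refine mul_inv_eq_one.1 (eq_one_of_forall_nloc hρ h0
    (PEl.of_mem hS (mul_mem hy'.2 (inv_mem hy.2))) fun q _ Q hne hQ U h => ?_)
  obtain ⟨k, l, g, g', e1, e2, e3, e4, H, H'⟩ := pair q Q hne hQ U h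
  have h6 := mul_pow_mul_inv_mem (normalizer_le_omz hn) hr2 (2 ^ k)
  rw [← e1, ← e2] at h6
  obtain ⟨d, rfl⟩ : ∃ d, g' = d * g := ⟨g' * g⁻¹, by simp⟩
  rw [coe_mul, mul_inv_cancel_right] at h6
  have := pow_eq_of_central (S := (S : Subgroup G).subgroupOf _) hS.comap_subtype h.symp
    (mem_subgroupOf.2 (e1 ▸ pow_mem hsS _)) (hRS h6.1) (fun w => by
      rw [← rho_mul, show d * d = 1 from Subtype.ext h6.2.2, map_one, Module.End.one_apply])
    (Commute.map (x := d) (Subtype.ext (h6.2.1 (g ^ 2 ^ l) (e3 ▸ subset_closure hy)).symm) _)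
    (Commute.map (x := d) (Subtype.ext
      (h6.2.1 ((d * g :) ^ 2 ^ l) (e4 ▸ subset_closure hy')).symm) _) H H'
  rw [← e3, ← e4]
  refine ⟨((d * g) ^ 2 ^ l * (g ^ 2 ^ l)⁻¹ : classStab ρ Q U).2, ?_⟩
  change h.sig ((d * g) ^ 2 ^ l * (g ^ 2 ^ l)⁻¹) = 1
  rw [map_mul, this, ← map_mul, mul_inv_cancel, map_one]

end rep

/-- Multiplying a `2`-element by an element of `O_2` does not change the `2 ^ n`-th power. -/
def NPow (n : ℕ) (H : Type*) [Group H] : Prop :=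
  ∀ s : H, PEl 2 s → ∀ v ∈ pCore 2 H, (v * s) ^ 2 ^ n = s ^ 2 ^ n

theorem Prim.npow_of_core {G H : Type*} [Group G] [Group H] [Finite G] (h : Prim 2 H)
    {f : G →* H} (hf : Function.Surjective f) {n : ℕ} {D : Subgroup G} (hD : D.Normal)
    (h1 : ∀ x, PEl 2 x → x ^ 2 ^ n ∈ D) (h2 : ∀ s, PEl 2 s → ∀ r ∈ D,
      (r * s) ^ 2 ^ n * s ^ 2 ^ n ∈ omz D ∧ (r ∈ omz D → (r * s) ^ 2 ^ n = s ^ 2 ^ n)) :
    NPow n H := fun s hs v hv => by
  have := Finite.of_surjective f hf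
  by_cases e : D.map f = ⊥
  · have key : ∀ y : H, PEl 2 y → y ^ 2 ^ n = 1 := fun y hy => by
      obtain ⟨x, hx, rfl⟩ := hy.exists_lift hf
      exact e.le ⟨_, h1 x hx, map_pow _ _ _⟩
    rw [key s hs, key _ (hs.mul_of_mem (isPGroup_pCore 2 H) hv)]
  obtain ⟨s, hs', rfl⟩ := hs.exists_lift hf
  have hn : (omz D).Normal := normalizer_eq_top_iff.1 (eq_top_iff.2
    (le_normalizer_of_normal.trans normalizer_le_omz))
  by_cases e' : (omz D).map f = ⊥
  · obtain ⟨r, hr, rfl⟩ := h.min _ (hD.map f hf) e hv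
    have h3 : f _ = 1 := e'.le ⟨_, (h2 s hs' r hr).1, rfl⟩
    have h4 : f _ = 1 := e'.le ⟨_, (h2 s hs' 1 (one_mem _)).1, rfl⟩
    rw [one_mul, ← h3, map_mul, map_mul, mul_left_inj, map_pow, map_pow, map_mul] at h4
    exact h4.symm
  · obtain ⟨r, hr, rfl⟩ := h.min _ (hn.map f hf) e' hv
    rw [← map_mul, ← map_pow, (h2 s hs' r hr.1).2 hr, map_pow]

theorem Prim.pLengthLE_of_npow (n : ℕ) : ∀ (H : Type u) [Group H] [Finite H] [Group.IsSolvable H],
    Prim 2 H → NPow n H → PLengthLE 2 n H := by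
  induction n with
  | zero =>
    intro H _ _ _ h hn
    have h1 : pCore 2 H = ⊥ := eq_bot_iff.2 fun v hv => by
      simpa using hn 1 ⟨0, one_pow _⟩ v hv
    refine ExpLE.pLengthLE_zero fun x _ => ?_
    rw [pow_zero, pow_one, ← mem_bot, ← h1]
    refine IsPSolvable.centralizer_pCore_le (isPSolvable_of_isSolvable 2 H) h.core ?_
    rw [h1]
    exact fun a ha => by rw [mem_bot.1 ha, one_mul, mul_one]
  | succ n ih =>
  intro H _ _ _ h hn
  have hs := isPSolvable_of_isSolvable 2 H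
  refine h.succ (pLengthLE_quotient_pPrimeCore_iff.1 ?_)
  by_contra hk
  obtain ⟨H', _, _, f, hf, h1, h2⟩ := exists_prim (isPSolvable_of_isSolvable 2 _) hk
  have := Group.isSolvable_of_surjective hf
  obtain ⟨D, hD, h3, h4⟩ := exists_core (n := n) (h.ker_rep hs) (pCore_quotient_pCore 2 H)
    (fun y hy => by
      obtain ⟨x, rfl⟩ := QuotientGroup.mk_surjective y
      have hx := hy.of_mk (isPGroup_pCore 2 H)
      refine (QuotientGroup.eq_one_iff (x ^ 2 ^ (n + 1))).2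
        (IsPSolvable.centralizer_pCore_le hs h.core fun v hv => ?_)
      have h5 := hn x hx ⁅v, x⁆ (commutator_le_left _ ⊤ (commutator_mem_commutator hv (mem_top x)))
      rw [commutatorElement_def, inv_mul_cancel_right, conj_pow, mul_inv_eq_iff_eq_mul] at h5
      exact h5) (fun y hy => by
      obtain ⟨x, rfl⟩ := QuotientGroup.mk_surjective y
      refine h.sec.ann_of_pow (pow_pos two_pos _) fun e he => ?_
      rw [hn x (hy.of_mk (isPGroup_pCore 2 H)) e he, mul_inv_cancel]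
      exact one_mem _)
  exact h1 (ih H' h2 (h2.npow_of_core hf hD h3 h4))

theorem pLengthLE_two_of_expLE {G : Type u} [Group G] [Finite G] [Group.IsSolvable G] {n : ℕ}
    (he : ExpLE 2 n G) : PLengthLE 2 n G := by
  by_contra hk
  obtain ⟨H, _, _, f, hf, h1, h2⟩ := exists_prim (isPSolvable_of_isSolvable 2 G) hk
  have := Group.isSolvable_of_surjective hf
  exact h1 (h2.pLengthLE_of_npow n H fun s hs v hv => by
    rw [he.of_surjective hf s hs, he.of_surjective hf _ (hs.mul_of_mem (isPGroup_pCore 2 H) hv)])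

end CL.HHL
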