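import Mathlib
import Cfsg.Agent.FGS.HHLenQ
import Cfsg.Agent.FGS.DerLen
import Cfsg.Agent.BLK.JordanP1

/-!
Iterated commutators with the derived series of a `2`-group: the exceptional case.
-/

set_option autoImplicit false
open Module Subgroup
open scoped commutatorElement Pointwise

namespace CL.HHL
open CL.HH Cfsg

universe u v

theorem commutatorElement_mem_centralizer {G : Type*} [Group G] {P : Subgroup G} {a b : G}
    (ha : a ∈ centralizer (P : Set G)) (hb : b ∈ normalizer (P : Set G)) :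
    ⁅a, b⁆ ∈ centralizer (P : Set G) :=
  commutatorElement_mem_of_normalizer ha (normalizer_le_normalizer_centralizer P hb)

section faithful
variable {F G V : Type*} [Field F] [Group G] [AddCommGroup V] [Module F V]
variable {ρ : Representation F G V} {q : ℕ} {Q T : Subgroup G} [Finite G] [hq : Fact q.Prime]
  [CharP F 2] (hρ : ρ.ker = ⊥) (h : Sg ρ q Q T ⊤) (hf : ∀ g ∈ T, Tr Q (scal ρ ⊤) g → g = 1)
include hρ h

omit [CharP F 2] in
theorem Sg.exists_commute {u x : G} (hu : u ∈ Q) (hx : x ∈ T) (H : ⁅u, x⁆ ∈ scal ρ ⊤) :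
    ∃ s ∈ Q ⊓ scal ρ ⊤, u * s ∈ Q ⊓ centralizer {x} := by
  obtain ⟨j, hj⟩ := PEl.of_mem h.two hx
  obtain ⟨s, hs, hc⟩ := mem_of_commutatorElement_mem (S := Q ⊓ scal ρ ⊤) Nat.prime_two hj
    (le_normalizer_inf h.norm le_normalizer_of_normal hx)
    (h.coprime_two.coprime_dvd_left (card_dvd_of_le inf_le_left))
    (le_normalizer_inf le_normalizer le_normalizer_of_normal hu)
    ⟨commutatorElement_mem_of_normalizer hu (h.norm hx), H⟩
  exact ⟨s, hs, mul_mem hu hs.1, mem_centralizer_singleton_iff.2 hc⟩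

omit [CharP F 2] in
theorem Sg.le_centralizer_of_nine (h9 : (scal ρ ⊤).relIndex Q = 9) {u x : G} (hu : u ∈ Q)
    (hu' : u ∉ scal ρ ⊤) (hx : x ∈ T) (H : ⁅u, x⁆ ∈ scal ρ ⊤) : Q ≤ centralizer {x} := by
  obtain ⟨s, hs, hw⟩ := h.exists_commute hρ hu hx H
  have hw' : u * s ∉ scal ρ ⊤ := fun e => hu' (((scal ρ ⊤).mul_mem_cancel_right hs.2).1 e)
  have hD := h.cent hρ hx bot_le bot_le
  have hZ : ∀ g, scal ρ ⊤ ≤ centralizer {g} := fun g =>
    (scal_le_center hρ).trans (center_le_centralizer _)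
  by_contra hc
  have h1 := PCyc.mul_card_le_of_lt h.grp
    (lt_of_le_of_ne inf_le_left fun e => hc (e.ge.trans inf_le_right))
  have h2 := PCyc.mul_card_le_of_lt hD.grp (lt_of_le_of_ne (inf_le_left (b := centralizer {u * s}))
    fun e => hw' (hD.nd' hρ hw (e.ge.trans inf_le_right)))
  have h3 := PCyc.mul_card_le_of_lt (H := scal ρ ⊤ ⊓ Q) (hD.grp.to_le
    (inf_le_left (b := centralizer {u * s}))) (lt_of_le_of_ne (le_inf (le_inf inf_le_right
      (inf_le_left.trans (hZ _))) (inf_le_left.trans (hZ _))) fun e =>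
        hw' (e.ge ⟨hw, mem_centralizer_singleton_iff.2 rfl⟩).1)
  have h4 := card_inf_mul_relIndex (scal ρ ⊤) Q
  rw [h9] at h4
  have h5 : 3 ≤ q := by have := hq.out.two_le; have := h.odd; omega
  have h6 : 0 < Nat.card ↥(scal ρ ⊤ ⊓ Q) := Nat.card_pos
  have h7 := (Nat.mul_le_mul_right _ h5).trans h1
  have h8 := (Nat.mul_le_mul_right _ h5).trans h2
  have h10 := (Nat.mul_le_mul_right _ h5).trans h3
  omega

omit [CharP F 2] in
theorem Sg.relIndex_le_nine (h9 : (scal ρ ⊤).relIndex Q = 9) :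
    (centralizer (Q : Set G)).relIndex T ≤ 9 := by
  obtain ⟨u, hu, hu'⟩ : ∃ u ∈ Q, u ∉ scal ρ ⊤ := by
    by_contra hc
    push Not at hc
    rw [relIndex_eq_one.2 hc] at h9
    omega
  have h1 := JordanP.relIndex_centralizer_le (T.map (QuotientGroup.mk' (scal ρ ⊤))) (u : G ⧸ _)
    (Y := Q.map (QuotientGroup.mk' (scal ρ ⊤))) (by
      rintro _ ⟨g, hg, rfl⟩
      exact ⟨_, (mem_normalizer_iff.1 (h.norm hg) u).1 hu, rfl⟩)
  rw [← relIndex_comap, ← cmod_eq_comap, ← Nat.card_coe_set_eq, SetLike.coe_sort_coe,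
    ← relIndex_ker, QuotientGroup.ker_mk', h9, ← inf_relIndex_right] at h1
  refine le_trans (relIndex_le_of_le_left (fun x hx g hg => ?_)
    (Subgroup.subgroupOf _ T).index_ne_zero_of_finite) h1
  exact mem_centralizer_singleton_iff.1 (h.le_centralizer_of_nine hρ h9 hu hu' hx.2
    (commutatorElement_mem_of_mem_cmod hx.1) hg)

include hf

theorem Sg.eq_of_kill {a b : G} (ha : a ∈ T) (hb : b ∈ T) (ha2 : a * a = 1) (hb2 : b * b = 1)
    (ha1 : a ≠ 1) (hc : Commute a b) (H : ∀ v, ρ a (ρ b v - v) = ρ b v - v) : b = 1 ∨ b = a := by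
  by_contra hne
  push Not at hne
  exact ha1 (hf a ha (h.tr_of_four hρ ha hb ha2 hb2 ha1 hne.1 hne.2.symm hc H))

theorem Sg.he_two [IsAlgClosed F] [FiniteDimensional F V] (hk : Kill ρ 2 T ⊤) {a : G}
    (ha : a ∈ ⁅T, T⁆) (ha1 : a ≠ 1) : HE Q (scal ρ ⊤) T 2 a := by
  have hk' : ∀ x ∈ ⁅T, T⁆, ∀ y ∈ T, ∀ v, ρ x (ρ y v - v) = ρ y v - v := fun x hx y hy v =>
    mcomm_eq_bot_iff.1 hk hx _ (sub_mem_mcomm hy trivial)
  have hle := commutator_le_self T
  obtain ⟨z, hz, hz1, hz2, hzc⟩ := exists_central_invol h.two hle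
    (le_normalizer_commutator le_normalizer le_normalizer) fun e => ha1 (e.le ha)
  have uniq : ∀ y ∈ T, y * y = 1 → y = 1 ∨ y = z := fun y hy hy2 =>
    h.eq_of_kill hρ hf (hle hz) hy hz2 hy2 hz1 (mem_centralizer_singleton_iff.1 (hzc hy)).symm
      (hk' z hz y hy)
  obtain rfl : a = z := (uniq a (hle ha) ((pow_two a).symm.trans
    (pow_eq_one_of_quadratic hρ (hk' a ha a (hle ha))))).resolve_left ha1
  obtain ⟨c, hc, hc1⟩ : ∃ c ∈ T, c * c ≠ 1 := by
    by_contra hc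
    push Not at hc
    refine ha1 (mem_bot.1 (commutator_le.2 (fun x hx y hy => ?_) ha))
    rcases uniq y hy (hc y hy) with rfl | rfl
    · exact (commutatorElement_one_right x).symm ▸ one_mem _
    · exact commutatorElement_eq_one_iff_mul_comm.2 (mem_centralizer_singleton_iff.1 (hzc hx))
  obtain ⟨d, hd, hd1, hd2⟩ := exists_order_four (PEl.of_mem h.two hc) hc1
  have hdT := zpowers_le.2 hc hd
  have hda : d ^ 2 ^ 1 = a := (pow_two d).trans
    ((uniq _ (mul_mem hdT hdT) hd2).resolve_left hd1)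
  have hd4 : d ^ 2 ^ (1 + 1) = 1 := by rw [pow_succ, pow_mul, hda, pow_two, hz2]
  have hQ : (Nat.card Q : F) ≠ 0 := by
    rw [Ne, CharP.cast_eq_zero_iff F 2, ← Nat.prime_two.coprime_iff_not_dvd]
    exact h.coprime_two.symm
  obtain ⟨U, -, hU, h1⟩ := exists_irr_not_le_triv (A := ⁅Q, zpowers (d ^ 2 ^ 1)⁆) hQ inv_top
    fun e => ha1 (hf a (hle ha) fun u hu => triv_le_scal
      (e (commutator_mem_commutator hu (hda ▸ mem_zpowers _))))
  obtain ⟨k, l, h2, U', hU', -, -, h3, h4, h5, -⟩ := exists_exceptional hQ hU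
    (le_trans (commutator_eq_bot_iff_le_centralizer.2 (h.comm.trans ((scal_le_center hρ).trans
      (center_le_centralizer _)))).le bot_le) Nat.prime_two h.coprime_two (h.norm hdT) hd4
    (hd4 ▸ one_mem _) h1 (ann_of_sub_one_pow (j := 3) fun v _ => by
      have h6 := hk' a ha d hdT v
      have h7 := add_self_eq_zero_of_char (F := F) (ρ d v - v - ρ d (ρ d v - v))
      rw [← hda, pow_one, pow_two, rho_mul] at h6
      simp only [pow_succ, pow_zero, one_mul, Module.End.mul_apply, LinearMap.sub_apply,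
        Module.End.one_apply, map_sub] at h6 h7 ⊢
      linear_combination (norm := module) h6 + h7)
  obtain ⟨rfl, rfl⟩ : k = 0 ∧ l = 1 := by
    rcases l with _ | l
    · exact absurd (relIndex_eq_one.1 h4) h3
    · omega
  rw [hda] at h4 h5
  have key : ∀ u ∈ Q, ∀ g ∈ T, u ∈ cmod (scal ρ U') g ↔ ⁅u, g⁆ ∈ scal ρ ⊤ := fun u hu g hg =>
    (and_iff_right (stab_le_normalizer_scal (hU'.2.1.le_stab hu))).trans
      (h.scal_iff le_top hU'.1 hU'.2.1 hu hg)
  refine ⟨rfl, fun y hy H => ?_, ⟨_, fun u hu => key u hu a (hle ha), h4⟩, d, hdT, ?_,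
    fun u hu H => (key u hu d hdT).1 (by simpa using h5 ⟨hu, (key u hu a (hle ha)).2 H⟩)⟩
  · rcases uniq y hy (hf _ (mul_mem hy hy) H) with rfl | rfl
    · exact Or.inl fun u _ => (commutatorElement_one_right u).symm ▸ one_mem _
    · exact Or.inr H
  · rw [← pow_two, show d ^ 2 = a from hda, hz2]
    exact fun u _ => (commutatorElement_one_right u).symm ▸ one_mem _

omit [CharP F 2] in
theorem Sg.cent_le {a z : G} (ha : a ∈ T) (ha1 : a ≠ 1)
    (ih : ∀ P < Q, Sg ρ q P T ⊤ → Tr P (scal ρ ⊤) a) (hz : z ∈ T) (hz1 : z ≠ 1)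
    (hzc : T ≤ centralizer {z}) : Q ⊓ centralizer {z} ≤ scal ρ ⊤ := by
  by_contra hc
  refine ha1 (hf a ha (Tr.of_le ((h.sup_eq hz).ge.trans (sup_le (ih _ (lt_of_le_of_ne
    (h.comm_le hz) fun e => hc fun u hu => h.nd' hρ hu.1 fun v hv => ?_)
    (h.commu hρ hz le_rfl hzc)).le (ih _ (lt_of_le_of_ne inf_le_left fun e =>
      hz1 (hf z hz (tr_of_commute (e.ge.trans inf_le_right)))) (h.cent hρ hz le_rfl hzc)).le))))
  exact mem_centralizer_singleton_iff.2 (h.split hρ z (e.ge hv) u hu).symm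

theorem Sg.false_of_nine (hk : Kill ρ 3 T ⊤) {z t : G} (hz : z ∈ der T 2) (hz1 : z ≠ 1)
    (hz2 : z * z = 1) (hzc : T ≤ centralizer {z}) (hzQ : Q ⊓ centralizer {z} ≤ scal ρ ⊤)
    (ht : t ∈ ⁅T, T⁆) (ht2 : t * t = 1) (ht1 : t ≠ 1) (htz : t ≠ z)
    (htc : ⁅T, T⁆ ≤ centralizer {t}) (hcj : ∀ g ∈ T, g * t * g⁻¹ = t ∨ g * t * g⁻¹ = t * z)
    (hnc : ¬ T ≤ centralizer {t}) (h9 : (scal ρ ⊤).relIndex (Q ⊓ centralizer {t}) = 9) : False := by
  have hle := commutator_le_self T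
  have hz' : z ∈ ⁅T, T⁆ := commutator_le_self _ hz
  have hk' : ∀ x ∈ ⁅T, T⁆, ∀ y ∈ T, ∀ v, ρ z (ρ x (ρ y v - v) - (ρ y v - v)) =
      ρ x (ρ y v - v) - (ρ y v - v) := fun x hx y hy v =>
    mcomm_eq_bot_iff.1 hk hz _ (sub_mem_mcomm hx (sub_mem_mcomm hy trivial))
  have htzc : Commute t z := mem_centralizer_singleton_iff.1 (hzc (hle ht))
  have h1 := h.cent hρ (hle ht) (inf_le_left (b := centralizer {t})) inf_le_right
  set T₁ := T ⊓ centralizer {t}
  set K := centralizer ((Q ⊓ centralizer {t} : Subgroup G) : Set G) ⊓ T₁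
  have hT₁ : ⁅T, T⁆ ≤ T₁ := le_inf hle htc
  have hzK : ¬ Q ⊓ centralizer {t} ≤ centralizer {z} := fun e => by
    rw [relIndex_eq_one.2 ((le_inf inf_le_left e).trans hzQ)] at h9
    omega
  have hA : ∀ k ∈ K, ∀ v, ρ t (ρ k v - v) = ρ k v - v := fun k hk v => by
    by_contra hne
    refine hzK (h1.le_centralizer_of_tr hρ (hT₁ hz') (h1.tr_of_fix hρ (hT₁ hz')
      (Y := (pl (ρ k)).map (ρ t - 1)) (fun e => hne (sub_eq_zero.1 ((Submodule.eq_bot_iff _).1 e _
        ⟨_, sub_mem_pl _ v, rfl⟩))) ?_ ?_))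
    · rintro u hu _ ⟨w, hw, rfl⟩
      exact ⟨ρ u w, inv_pl (fun x hx => mem_centralizer_singleton_iff.2 (hk.1 x hx)) u hu w hw, by
        simp only [LinearMap.sub_apply, Module.End.one_apply, map_sub, ← rho_mul,
          mem_centralizer_singleton_iff.1 hu.2]⟩
    · rintro _ ⟨_, ⟨w, rfl⟩, rfl⟩
      exact hk' t ht k hk.2.1 w
  obtain ⟨s, hs, hs'⟩ := SetLike.not_le_iff_exists.1 hnc
  have hst : s * t * s⁻¹ = t * z := (hcj s hs).resolve_left fun e =>
    hs' (mem_centralizer_singleton_iff.2 (mul_inv_eq_iff_eq_mul.1 e))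
  obtain ⟨k, hkK, hkt⟩ : ∃ k ∈ K, k * k = t := by
    by_contra hc
    push Not at hc
    have h2 : ∀ k ∈ K, k * k = 1 → k = 1 ∨ k = t := fun k hk hk2 =>
      h.eq_of_kill hρ hf (hle ht) hk.2.1 ht2 hk2 ht1
        (mem_centralizer_singleton_iff.1 hk.2.2).symm (hA k hk)
    have h3 : K < ⁅T, T⁆ ⊓ centralizer (⁅T, T⁆ : Subgroup G) := by
      refine lt_of_le_of_ne (fun k hk => ?_) fun e => hzK fun u hu =>
        mem_centralizer_singleton_iff.2 ((e.ge ⟨hz', fun x hx =>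
          mem_centralizer_singleton_iff.1 (hzc (hle hx))⟩).1 u hu)
      rcases h2 k hk (by
        by_contra h3
        obtain ⟨d, hd, h4, h5⟩ := exists_order_four (PEl.of_mem h.two hk.2.1) h3
        have hd' := zpowers_le.2 hk hd
        exact (h2 _ (mul_mem hd' hd') h5).elim h4 (hc d hd')) with rfl | rfl
      · exact one_mem _
      · exact ⟨ht, fun x hx => mem_centralizer_singleton_iff.1 (htc hx)⟩
    obtain ⟨x, hx, hx'⟩ : ∃ x ∈ ⁅T, T⁆, x ∉ centralizer ((⁅T, T⁆ : Subgroup G) : Set G) :=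
      SetLike.not_le_iff_exists.1 fun e => hz1 ((commutator_eq_bot_iff_le_centralizer.2 e).le hz)
    by_cases e : ⁅T, T⁆ = T₁
    · refine (sup_commutator_ne h.two (lt_of_le_of_ne (zpowers_le.2 hs) fun e' => hx' ?_)).not_ge
        fun g hg => ?_
      · exact centralizer_le (hle.trans e'.ge) (le_centralizer _ (e'.ge (hle hx)))
      · rcases hcj g hg with e' | e'
        · exact mem_sup_right (e.ge ⟨hg, mem_centralizer_singleton_iff.2
            (mul_inv_eq_iff_eq_mul.1 e')⟩)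
        · rw [← mul_inv_cancel_left s g]
          refine mul_mem (mem_sup_left (mem_zpowers s)) (mem_sup_right (e.ge
            ⟨T.mul_mem (T.inv_mem hs) hg, mem_centralizer_singleton_iff.2 ?_⟩))
          rw [← hst, mul_inv_eq_iff_eq_mul] at e'
          rw [mul_assoc, e']; group
    have h4 := PCyc.mul_card_le_of_lt h1.two (lt_of_le_of_ne hT₁ e)
    have h5 := PCyc.mul_card_le_of_lt (h.two.to_le hle) (lt_of_le_of_ne
      (inf_le_left (b := centralizer {x})) fun e => hx' fun y hy =>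
        mem_centralizer_singleton_iff.1 (e.ge hy).2)
    have h6 := PCyc.mul_card_le_of_lt (h.two.to_le ((inf_le_left (b := centralizer {x})).trans hle))
      (lt_of_le_of_ne (inf_le_inf_left _ (centralizer_le (Set.singleton_subset_iff.2 hx)))
        fun e => hx' (e.ge ⟨hx, mem_centralizer_singleton_iff.2 rfl⟩).2)
    have h7 := PCyc.mul_card_le_of_lt (h.two.to_le (inf_le_left.trans hle)) h3
    have h8 := (card_inf_mul_relIndex _ T₁).ge.trans
      (Nat.mul_le_mul_left _ (h1.relIndex_le_nine hρ h9))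
    have h10 : 0 < Nat.card K := Nat.card_pos
    change _ ≤ Nat.card K * 9 at h8
    omega
  have hc : k * (s * k⁻¹ * s⁻¹) ∈ ⁅T, T⁆ := by
    rw [← mul_assoc, ← mul_assoc]; exact commutator_mem_commutator hkK.2.1 hs
  have hktz : Commute k (t * z) := Commute.mul_right (mem_centralizer_singleton_iff.1 hkK.2.2)
    (mem_centralizer_singleton_iff.1 (hzc hkK.2.1))
  have hB : ∀ v, ρ (t * z) (ρ (s * k⁻¹ * s⁻¹) v - v) = ρ (s * k⁻¹ * s⁻¹) v - v := fun v => by
    have := congrArg (ρ s) (hA _ (inv_mem hkK) (ρ s⁻¹ v))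
    rw [← hst]
    simpa only [rho_mul, map_sub, rho_rho_inv, rho_inv_rho] using this
  refine (h.eq_of_kill hρ hf (mul_mem (hle ht) (hle hz')) (hle ht)
    (by rw [htzc.symm.mul_mul_mul_comm, ht2, hz2, one_mul])
    ht2 (fun e => htz ?_) ((Commute.refl t).mul_left htzc.symm) fun v => ?_).elim ht1
    fun e => hz1 (mul_eq_left.1 e.symm)
  · rw [← mul_one t, ← hz2, ← mul_assoc, e, one_mul]
  have h2 := hk' _ hc k hkK.2.1 v
  have h3 := hA k hkK v
  have h4 := congrArg (ρ k) (hB (ρ k v - v))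
  have h5 : ρ t v - v = ρ k (ρ k v - v) - (ρ k v - v) := by
    have := add_self_eq_zero_of_char (F := F) (ρ k v - v)
    rw [map_sub, ← rho_mul, hkt]
    linear_combination (norm := module) this
  rw [h5]
  generalize ρ k v - v = w at *
  have h6 : ρ (t * z) (ρ (k * (s * k⁻¹ * s⁻¹)) w - w) = ρ (k * (s * k⁻¹ * s⁻¹)) w - w := by
    rw [rho_mul, h2, map_sub, h3, ← rho_mul, ← mem_centralizer_singleton_iff.1 (htc hc), rho_mul,
      h3]
  rw [← rho_mul, hktz.eq, rho_mul] at h4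
  simp only [map_sub, rho_mul ρ k] at h4 h6 ⊢
  linear_combination (norm := module) h6 - h4

theorem Sg.he_faithful [IsAlgClosed F] [FiniteDimensional F V] {m : ℕ}
    (ih : ∀ (P S : Subgroup G) (X : Submodule F V) (n : ℕ) (b : G),
      n + Nat.card P < m + Nat.card Q → Sg ρ q P S X → Kill ρ (n + 1) S X → b ∈ der S n →
        ¬ Tr P (scal ρ X) b → HE P (scal ρ X) S (n + 1) b)
    (hk : Kill ρ (m + 1) T ⊤) {a : G} (ha : a ∈ der T m) (ha1 : a ≠ 1) :
    HE Q (scal ρ ⊤) T (m + 1) a := by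
  rcases m with _ | _ | k
  · exact absurd (hρ.le (triv_top.le (mcomm_eq_bot_iff.1 hk ha))) ha1
  · exact h.he_two hρ hf hk ha ha1
  exfalso
  have hle := commutator_le_self T
  have haT := der_le T _ ha
  have hcent : ∀ z ∈ T, z ≠ 1 → T ≤ centralizer {z} → Q ⊓ centralizer {z} ≤ scal ρ ⊤ :=
    fun z => h.cent_le hρ hf haT ha1 fun P hP h1 => by
      by_contra h2
      have := (ih P T ⊤ _ a (Nat.add_lt_add_left (card_lt_of_lt hP) _) h1 hk ha h2).1
      omega
  have h2 : der T 2 ≠ ⊥ := fun e => ha1 (e.le (der_anti T (by omega) ha))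
  obtain ⟨z, hz, hz1, hz2, hzc⟩ := exists_central_invol h.two (der_le T 2)
    (le_normalizer.trans (normalizer_le_der T 2)) h2
  have hz' : z ∈ ⁅T, T⁆ := commutator_le_self _ hz
  have hzQ := hcent z (hle hz') hz1 hzc
  have main : ∀ t ∈ ⁅T, T⁆, t * t = 1 → t ≠ 1 → t ≠ z → ⁅T, T⁆ ≤ centralizer {t} →
      (∀ g ∈ T, g * t * g⁻¹ = t ∨ g * t * g⁻¹ = t * z) →
        Tr (Q ⊓ centralizer {t}) (scal ρ ⊤) a := fun t ht ht2 ht1 htz htc hcj => by
    by_contra hne
    have h1 := h.cent hρ (hle ht) hle htc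
    have h3 := fun u (hu : u ∈ Q ⊓ centralizer {t}) g (hg : g ∈ ⁅T, T⁆) =>
      h1.scal_iff le_top (pl_ne_bot hρ ht1) (inv_pl inf_le_right) hu hg
    have ha' : a ∈ der ⁅T, T⁆ (k + 1) := der_succ' T _ ▸ ha
    have haT' := der_le _ _ ha'
    obtain ⟨h4, h5, ⟨C, h6, h7⟩, -⟩ := (ih _ _ _ _ a (by
        have := card_le_of_le (inf_le_left : Q ⊓ centralizer {t} ≤ Q); omega)
      (h1.restrict le_top (pl_ne_bot hρ ht1) (inv_pl inf_le_right) le_rfl (inv_pl htc))
      (Kill.mono (X := mcomm ρ ⊤ T) hk le_rfl (by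
        rintro _ ⟨v, rfl⟩; exact sub_mem_mcomm (hle ht) trivial)) ha'
      fun H => hne fun u hu => (h3 u hu a haT').1 (H u hu)).congr haT' h3
    obtain rfl : k = 0 := by omega
    have h8 := (h5 z hz' (by
      rw [hz2]; exact fun u _ => (commutatorElement_one_right u).symm ▸ one_mem _)).resolve_left
        fun H => hne (tr_of_le ((le_inf inf_le_left (h1.le_centralizer_of_tr hρ hz' H)).trans hzQ) a)
    refine h.false_of_nine hρ hf hk hz hz1 hz2 hzc hzQ ht ht2 ht1 htz htc hcj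
      (fun e => hne (tr_of_le (hcent t (hle ht) ht1 e) a)) ?_
    rw [← h7, ← inf_relIndex_right, ← inf_relIndex_right C]
    congr 1
    ext u
    refine and_congr_left fun hu => Iff.trans ⟨fun H => tr_of_le le_rfl a u H, fun H => ?_⟩
      (h6 u hu).symm
    have hn := fun g => (le_normalizer_of_normal (mem_top g) : g ∈ normalizer (scal ρ ⊤ : Set G))
    obtain ⟨s, hs, h9⟩ := h.exists_commute hρ hu.1 (hle hz') (commutatorElement_mem_of_mem_cmod
      (((cmod _ u).mul_mem_cancel_right (mem_cmod_symm (hn a) H)).1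
        (mem_cmod_symm (hn _) (h8 u hu))))
    exact ((scal ρ ⊤).mul_mem_cancel_right hs.2).1 (hzQ h9)
  obtain ⟨t, ht, ht2, ht1, htz, htc, hcj⟩ := exists_four h.two h2 (hle hz') hz2 hzc
  have htzc : Commute t z := mem_centralizer_singleton_iff.1 (hzc (hle ht))
  refine ha1 (hf a haT (Tr.of_le (le_of_four h.coprime_two ht2 hz2 ht1 hz1 htz htzc
    (h.norm (hle ht)) (h.norm (hle hz')) (main t ht ht2 ht1 htz htc hcj).le (tr_of_le hzQ a).le
    (main _ (mul_mem ht hz') (by rw [htzc.symm.mul_mul_mul_comm, ht2, hz2, one_mul])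
      (fun e => htz ?_) (fun e => ht1 (mul_eq_right.1 e)) (fun x hx =>
        mem_centralizer_singleton_iff.2 (Commute.mul_right (mem_centralizer_singleton_iff.1
          (htc hx)) (mem_centralizer_singleton_iff.1 (hzc (hle hx))))) fun g hg => ?_).le)))
  · rw [← mul_one t, ← hz2, ← mul_assoc, e, one_mul]
  · rw [← conj_mul, mem_centralizer_singleton_iff.1 (hzc hg), mul_inv_cancel_right]
    exact (hcj g hg).imp (congrArg (· * z)) (congrArg (· * z))

end faithful

theorem Kill.of_map {F G G' V V' : Type*} [Field F] [Group G] [Group G'] [AddCommGroup V]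
    [Module F V] [AddCommGroup V'] [Module F V'] {ρ : Representation F G V}
    {τ : Representation F G' V'} {f : G' →* G} {i : V' →ₗ[F] V} (hi : Function.Injective i)
    (H : ∀ g v, i (τ g v) = ρ (f g) (i v)) {d : ℕ} {S : Subgroup G'} {Y : Submodule F V'}
    (h : Kill ρ d (S.map f) (Y.map i)) : Kill τ d S Y := by
  induction d generalizing S Y with
  | zero => exact Submodule.map_injective_of_injective hi (Eq.trans h (Submodule.map_bot i).symm)
  | succ d ih =>
    refine ih (Kill.mono (X := mcomm ρ _ _) h (map_commutator _ _ _).le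
      (Submodule.map_le_iff_le_comap.2 (mcomm_le_iff.2 fun s hs v hv => ?_)))
    rw [Submodule.mem_comap, map_sub, H]
    exact sub_mem_mcomm (mem_map_of_mem f hs) ⟨v, hv, rfl⟩

variable {F : Type*} [Field F] [CharP F 2] {q : ℕ} [hq : Fact q.Prime]

theorem Sg.exists_fix {G V : Type*} [Group G] [Finite G] [AddCommGroup V] [Module F V]
    {ρ : Representation F G V} {Q T : Subgroup G} {X : Submodule F V} (h : Sg ρ q Q T X) :
    ∃ Y ≤ X, Y ≠ ⊥ ∧ Inv ρ Q Y ∧ Inv ρ T Y ∧ ∀ g ∈ T, Tr Q (scal ρ X) g → g ∈ triv ρ Y := by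
  have hn := h.invT.le_stab.trans stab_le_normalizer_scal
  set K := T ⊓ MSS.secC Q (scal ρ X)
  have mem : ∀ v, v ∈ X ⊓ Representation.invariants (ρ.comp K.subtype) ↔
      v ∈ X ∧ ∀ k ∈ K, ρ k v = v := fun v =>
    and_congr_right fun _ => ⟨fun H k hk => H ⟨k, hk⟩, fun H k => H k k.2⟩
  refine ⟨X ⊓ Representation.invariants (ρ.comp K.subtype), inf_le_left, ?_, fun u hu v hv => ?_,
    fun t ht v hv => ?_, fun g hg H v hv => ((mem v).1 hv).2 g ⟨hg, hn hg, H⟩⟩
  · have := Submodule.nontrivial_iff_ne_bot.2 h.ne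
    obtain ⟨v, hv, H⟩ := DL.exists_fixed (h.two.to_le (inf_le_left : K ≤ T))
      (HH.sub (h.invT.mono inf_le_left))
    exact (Submodule.ne_bot_iff _).2 ⟨v, (mem v).2 ⟨v.2, fun k hk =>
      congrArg Subtype.val (H ⟨k, hk⟩)⟩, fun e => hv (Subtype.ext e)⟩
  · rw [mem] at hv ⊢
    refine ⟨h.invQ u hu v hv.1, fun k hk => ?_⟩
    have h1 : ⁅Q, zpowers k⁆ ≤ triv ρ X := by
      rw [← coprime_commutator_commutator _ Q (zpowers_le.2 (h.norm hk.1)) (h.coprime hk.1)
        (Or.inl (isSolvable_zpowers _))]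
      exact HH.commutator_le_triv (commutator_zpowers_le hk.2.1 hk.2.2)
        (zpowers_le.2 (h.invT.le_stab hk.1))
    rw [← (commutatorElement_mem_triv_iff (h.invQ.le_stab hu) (h.invT.le_stab hk.1)).1
      (h1 (commutator_mem_commutator hu (mem_zpowers k))) v hv.1, hv.2 k hk]
  · rw [mem] at hv ⊢
    refine ⟨h.invT t ht v hv.1, fun k hk => ?_⟩
    have := hv.2 _ ((mem_normalizer_iff.1 (le_normalizer_inf le_normalizer
      (MSS.le_normalizer_secC h.norm hn) (inv_mem ht)) k).1 hk)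
    conv_rhs => rw [← this, ← rho_mul, inv_inv, ← mul_assoc, mul_inv_cancel_left, rho_mul]

theorem he_aux [IsAlgClosed F] (N : ℕ) : ∀ (G : Type u) [Group G] [Finite G] (V : Type v)
    [AddCommGroup V] [Module F V] [FiniteDimensional F V] (ρ : Representation F G V)
    (Q T : Subgroup G) (X : Submodule F V) (m : ℕ) (a : G), m + Nat.card Q < N → Sg ρ q Q T X →
      Kill ρ (m + 1) T X → a ∈ der T m → ¬ Tr Q (scal ρ X) a → HE Q (scal ρ X) T (m + 1) a := by
  induction N with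
  | zero => intro G _ _ V _ _ _ ρ Q T X m a h; omega
  | succ N ih =>
  intro G _ _ V _ _ _ ρ Q T X m a hN h hk ha hne
  obtain ⟨Y, hY, hY0, hQY, hTY, hfix⟩ := h.exists_fix
  have h0 := h.restrict hY hY0 hQY le_rfl hTY
  let τ := sub (inv_stab (ρ := ρ) (U := Y))
  let ρ' : Representation F (stab ρ Y ⧸ τ.ker) Y := QuotientGroup.lift _ τ le_rfl
  let φ := QuotientGroup.mk' τ.ker
  have hs : ∀ g : stab ρ Y, φ g ∈ scal ρ' ⊤ ↔ (g : G) ∈ scal ρ Y := fun g =>
    exists_congr fun c => and_congr_right fun _ => ⟨fun H v hv =>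
      congrArg Subtype.val (H ⟨v, hv⟩ trivial), fun H v _ => Subtype.ext (H v v.2)⟩
  have ht : ∀ g : stab ρ Y, φ g ∈ triv ρ' ⊤ ↔ (g : G) ∈ triv ρ Y := fun g =>
    ⟨fun H v hv => congrArg Subtype.val (H ⟨v, hv⟩ trivial), fun H v _ => Subtype.ext (H v v.2)⟩
  have hρ : ρ'.ker = ⊥ := eq_bot_iff.2 fun y hy => by
    obtain ⟨x, rfl⟩ := QuotientGroup.mk_surjective y
    exact (QuotientGroup.eq_one_iff x).2 hy
  have hZ : ∀ u ∈ Q.subgroupOf (stab ρ Y), ∀ g ∈ T.subgroupOf (stab ρ Y),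
      ⁅u, g⁆ ∈ (scal ρ X).subgroupOf (stab ρ Y) ↔ ⁅φ u, φ g⁆ ∈ scal ρ' ⊤ := fun u hu g hg => by
    rw [← map_commutatorElement, hs]
    exact (h.scal_iff hY hY0 hQY hu hg).symm
  have haT := der_le T m ha
  have e1 := map_subgroupOf_eq_of_le hQY.le_stab
  have e2 := map_subgroupOf_eq_of_le hTY.le_stab
  have h' : Sg ρ' q ((Q.subgroupOf (stab ρ Y)).map φ) ((T.subgroupOf (stab ρ Y)).map φ) ⊤ := by
    refine ⟨h.odd, h.grp.comap_subtype.map φ, h.two.comap_subtype.map φ, (map_mono ?_).trans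
      (le_normalizer_map φ), inv_top, inv_top, ?_, ?_, ?_⟩
    · exact (comap_mono h.norm).trans (le_normalizer_comap _)
    · have := Submodule.nontrivial_iff_ne_bot.2 hY0
      exact top_ne_bot
    · rw [← map_commutator, map_le_iff_le_comap]
      exact commutator_le.2 fun u hu v hv => (hs _).2 (h0.comm (commutator_mem_commutator hu hv))
    · rintro _ ⟨u, hu, rfl⟩ H
      exact (hs u).2 (h0.nd u hu fun v hv => (ht ⁅u, ⟨v, hQY.le_stab hv⟩⁆).1 (H _ ⟨_, hv, rfl⟩))
  have h1 := h'.he_faithful hρ (m := m) (by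
      rintro _ ⟨g, hg, rfl⟩ H
      exact hρ.le (triv_top.le ((ht g).2 (hfix g hg fun u hu =>
        (hZ ⟨u, hQY.le_stab hu⟩ hu g hg).2 (H _ ⟨_, hu, rfl⟩)))))
    (fun P S X n b hn => ih _ _ ρ' P S X n b (by
      have := card_le_of_le (H := Q) le_rfl
      have h2 : Nat.card ((Q.subgroupOf (stab ρ Y)).map φ) ≤ Nat.card Q :=
        (Nat.le_of_dvd Nat.card_pos (card_map_dvd _ φ)).trans
          (card_subgroupOf_of_le hQY.le_stab).le
      omega))
    (Kill.map (τ := ρ') (f := φ) (Kill.of_map (f := (stab ρ Y).subtype) Y.injective_subtype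
      (fun _ _ => rfl) (hk.mono e2.le (by rwa [Submodule.map_subtype_top]))))
    (a := φ ⟨a, hTY.le_stab haT⟩) (by
      rw [← map_der]
      refine ⟨_, (mem_map_iff_mem (stab ρ Y).subtype_injective).1 ?_, rfl⟩
      rwa [map_der, e2])
    fun e => hne fun u hu => (hZ ⟨u, hQY.le_stab hu⟩ hu ⟨a, hTY.le_stab haT⟩ haT).2 (by
      rw [e, commutatorElement_one_right]; exact one_mem _)
  have h2 := (he_map_iff (stab ρ Y).subtype (Z' := scal ρ X) haT (fun _ _ _ _ => Iff.rfl)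
    (Or.inl (stab ρ Y).subtype_injective)).2 ((he_map_iff φ haT hZ (Or.inr h1)).1 h1)
  rwa [e1, e2] at h2

theorem Sg.he [IsAlgClosed F] {G V : Type*} [Group G] [Finite G] [AddCommGroup V] [Module F V]
    [FiniteDimensional F V] {ρ : Representation F G V} {Q T : Subgroup G} {X : Submodule F V}
    (h : Sg ρ q Q T X) {m : ℕ} (hk : Kill ρ (m + 1) T X) {a : G} (ha : a ∈ der T m)
    (hne : ¬ Tr Q (scal ρ X) a) : HE Q (scal ρ X) T (m + 1) a :=
  he_aux _ G V ρ Q T X m a (Nat.lt_succ_self _) h hk ha hne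

end CL.HHL
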