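import Mathlib
import Cfsg.Agent.FGS.HHLenP
import Cfsg.Agent.FGS.HHLenR

/-!
The bound for the `2`-length in terms of the derived length.
-/

set_option autoImplicit false
open Module Subgroup
open scoped commutatorElement Pointwise

namespace CL.HHL
open CL.HH Cfsg

universe u

section rep
variable {F V : Type*} {G : Type u} [Field F] [Group G] [AddCommGroup V] [Module F V]
variable {ρ : Representation F G V} [IsAlgClosed F] [FiniteDimensional F V] [Finite G]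
  {q : ℕ} [Fact q.Prime] {Q T : Subgroup G} {U : Submodule F V} {n : ℕ} [CharP F 2]

theorem Loc.he (h : Loc ρ q Q U) (hne : q ≠ 2) (hT : IsPGroup 2 T)
    (hTQ : T ≤ normalizer (Q : Set G)) (hk : Kill ρ (n + 1) T ⊤) {a : G} (ha : a ∈ der T n) :
    ∃ ha' : a ∈ classStab ρ Q U, h.sig ⟨a, ha'⟩ = 1 ∨ ∃ j, j + 1 = n ∧ der T j ≤ classStab ρ Q U ∧
      HE Q (scal ρ U) (der T j) 2 a := by
  obtain ⟨j, m, h1, h2, h3⟩ := hk.exists_der_le h.ne h.irr hT hTQ (le_top.trans le_sup_left)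
  have h0 : comp ρ Q U ≠ ⊥ := fun e => h.irr.1 (eq_bot_iff.2 (le_comp.trans e.le))
  rcases m with _ | m
  · exact absurd h3 h0
  obtain rfl : n = j + m := by omega
  rw [der_add] at ha
  have haT := der_le _ _ ha
  have hs : Sg ρ q Q (der T j) (comp ρ Q U) := ⟨hne, h.crit.grp, hT.to_le (der_le T j),
    (der_le T j).trans hTQ, h.irr.2.1.comp, inv_classStab_comp.mono h2, h0,
    fun u hu => mem_scal_comp (commutator_le_self Q hu) (h.comm_le hu), fun u hu H =>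
      mem_scal_comp hu (h.irr.mem_scal (h.irr.2.1.le_stab hu) fun v hv => triv_anti le_comp (H v hv))⟩
  have hZ := fun u (hu : u ∈ Q) g (hg : g ∈ der T j) =>
    (hs.scal_iff le_comp h.irr.1 h.irr.2.1 hu hg).symm
  refine ⟨h2 haT, or_iff_not_imp_left.2 fun e => ?_⟩
  have h4 := (hs.he h3 ha fun H => e ((h.sig_eq_one_iff _).2 fun u hu =>
    (hZ u hu a haT).1 (H u hu))).congr haT hZ
  obtain rfl : m = 1 := by have := h4.1; omega
  exact ⟨j, rfl, h2, h4⟩

omit [IsAlgClosed F] [FiniteDimensional F V] [Finite G] [Fact q.Prime] in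
theorem sq_eq_one_of_kill (hρ : ρ.ker = ⊥) (hk : Kill ρ (n + 1) T ⊤) {a : G} (ha : a ∈ der T n) :
    a * a = 1 :=
  (pow_two a).symm.trans (pow_eq_one_of_quadratic hρ fun _ =>
    hk.der_quadratic inv_top le_top ha _ (sub_mem_mcomm ha trivial))

omit [Fact q.Prime] in
theorem good_of_kill (hρ : ρ.ker = ⊥) (hT : IsPGroup 2 T) (hk : Kill ρ (n + 1) T ⊤) {a : G}
    (ha : a ∈ der T n) : Good ρ a := fun q _ Q hne hQ U h => by
  obtain ⟨ha', H⟩ := h.he hne hT le_normalizer_of_normal hk ha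
  refine ⟨ha', or_iff_not_imp_left.2 fun e => ?_⟩
  obtain ⟨j, -, h1, -, -, ⟨C, h2, h3⟩, c, hc, h4, h5⟩ := H.resolve_left e
  have h6 : h.sig ⟨a, ha'⟩ * h.sig ⟨a, ha'⟩ = 1 := by
    rw [← map_mul, ← map_one h.sig]
    exact congrArg _ (Subtype.ext (sq_eq_one_of_kill hρ hk ha))
  have h7 : h.sig ⟨c, h1 hc⟩ ^ 2 ^ 1 = h.sig ⟨a, ha'⟩ := by
    have := (h.sig_eq_one_iff ((⟨c, h1 hc⟩ : classStab ρ Q U) * (⟨c, h1 hc⟩ : classStab ρ Q U) *
      (⟨a, ha'⟩ : classStab ρ Q U))).2 h4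
    rw [map_mul, map_mul] at this
    rw [pow_one, pow_two, ← mul_one (_ * _), ← h6, ← mul_assoc, this, one_mul]
  obtain ⟨i, hi⟩ := PEl.of_mem hT (der_le T j hc)
  refine ⟨1, ⟨c, h1 hc⟩, ⟨i, Subtype.ext hi⟩, ⟨by rw [pow_succ, pow_mul, h7, pow_two, h6], ?_,
    fun w hw => ?_, h7 ▸ e⟩, by rw [map_pow, h7]⟩
  · refine (h.card_pl _ fun u hu => (h2 u hu).trans ⟨h5 u hu, fun H => ?_⟩).trans h3
    have hu' : (⟨u, Inv.le_classStab h.irr.2.1 hu⟩ : classStab ρ Q U) ∈ Q.subgroupOf _ := hu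
    refine (h.sig_vec_eq_iff ⟨a, ha'⟩ hu').1 ?_
    rw [← h7]
    exact pow_apply_of_fix ((h.sig_vec_eq_iff ⟨c, h1 hc⟩ hu').2 H) _
  · obtain ⟨e, he, rfl⟩ := h.sec.exists_vec w
    rw [h7, h.sig_vec_eq_iff] at hw
    exact (h.sig_vec_eq_iff _ he).2 (h5 e he hw)

theorem Loc.commute_of_kill (hρ : ρ.ker = ⊥) (h : Loc ρ q Q U) (hne : q ≠ 2) (hT : IsPGroup 2 T)
    (hTQ : T ≤ normalizer (Q : Set G)) (hk : Kill ρ (n + 1) T ⊤) {a r : classStab ρ Q U}
    (ha : (a : G) ∈ der T n) (hr : (r : G) ∈ T) : Commute (h.sig r) (h.sig a) := by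
  obtain ⟨ha', H | ⟨j, rfl, h1, -, h2, -⟩⟩ := h.he hne hT hTQ hk ha
  · rw [show h.sig a = 1 from H]; exact Commute.one_right _
  have h3 : ((r * a * r⁻¹ : classStab ρ Q U) : G) ∈ der T (j + 1) :=
    (mem_normalizer_iff.1 (normalizer_le_der T _ (le_normalizer hr)) a).1 ha
  rcases h2 _ (commutator_le_self _ h3) (by
    rw [sq_eq_one_of_kill hρ hk h3]
    exact fun u _ => (commutatorElement_one_right u).symm ▸ one_mem _) with H | H
  · have := (h.sig_eq_one_iff _).2 H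
    rw [show a = r⁻¹ * (r * a * r⁻¹) * r by group, map_mul, map_mul, this, mul_one, ← map_mul,
      inv_mul_cancel, map_one]
    exact Commute.one_right _
  · refine commute_of_map_commutatorElement h.sig ?_
    rw [commutatorElement_def, show a⁻¹ = a from inv_eq_of_mul_eq_one_right
      (Subtype.ext (sq_eq_one_of_kill hρ hk ha))]
    exact (h.sig_eq_one_iff (r * a * r⁻¹ * a)).2 H

theorem Loc.sig_commutator (hρ : ρ.ker = ⊥) (h : Loc ρ q Q U) (hne : q ≠ 2) (hT : IsPGroup 2 T)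
    (hTQ : T ≤ normalizer (Q : Set G)) (hk : Kill ρ (n + 2) T ⊤) {y b : G} (hy : y ∈ der T n)
    (hb : b ∈ der T n) (hy2 : y * y = 1) :
    ∃ ha : ⁅y, b⁆ ∈ classStab ρ Q U, h.sig ⟨_, ha⟩ = 1 := by
  have ha : ⁅y, b⁆ ∈ der T (n + 1) := commutator_mem_commutator hy hb
  obtain ⟨ha', H | ⟨j, e, h1, -, h2, -⟩⟩ := h.he hne hT hTQ hk ha
  · exact ⟨ha', H⟩
  obtain rfl : j = n := by omega
  refine ⟨ha', map_commutatorElement_eq_one h.sig (a := ⟨y, h1 hy⟩) (b := ⟨b, h1 hb⟩) ?_⟩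
  rcases h2 y hy (by
    rw [hy2]; exact fun u _ => (commutatorElement_one_right u).symm ▸ one_mem _) with H | H
  · rw [(h.sig_eq_one_iff ⟨y, h1 hy⟩).2 H]; exact Commute.one_left _
  · have := (h.sig_eq_one_iff ((⟨y, h1 hy⟩ : classStab ρ Q U) *
      (⟨_, ha'⟩ : classStab ρ Q U))).2 H
    rw [← mul_inv_cancel_right (⟨y, h1 hy⟩ : classStab ρ Q U) ⟨_, ha'⟩, map_mul, this, one_mul]
    exact (h.commute_of_kill hρ hne hT hTQ hk (a := ⟨_, ha'⟩⁻¹) (inv_mem ha) (der_le T _ hb)).symm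

omit [Fact q.Prime]
variable [Group.IsSolvable G]

theorem exists_core_der (hρ : ρ.ker = ⊥) (h0 : pCore 2 G = ⊥)
    (hk : ∀ T : Subgroup G, IsPGroup 2 T → Kill ρ (n + 2) T ⊤) :
    ∃ D : Subgroup (G ⧸ pPrimeCore 2 G), D.Normal ∧
      ∀ T : Subgroup (G ⧸ pPrimeCore 2 G), IsPGroup 2 T →
        der T (n + 1) ≤ D ∧ GKill (n + 1) T D := by
  have hπ := QuotientGroup.mk'_surjective (pPrimeCore 2 G)
  set π := QuotientGroup.mk' (pPrimeCore 2 G)
  let Y : Set G := {y | ∃ T : Subgroup G, IsPGroup 2 T ∧ y ∈ der T (n + 1)}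
  have hY : ∀ y ∈ Y, ∀ g, g * y * g⁻¹ ∈ Y := by
    rintro y ⟨T, hT, hy⟩ g
    exact ⟨_, hT.map (MulAut.conj g).toMonoidHom, (map_der T (MulAut.conj g).toMonoidHom _).le
      ⟨y, hy, rfl⟩⟩
  have hYg : ∀ y ∈ Y, Good ρ y := fun y ⟨T, hT, hy⟩ => good_of_kill hρ hT (hk T hT) hy
  have : (Subgroup.closure Y).Normal := normalizer_eq_top_iff.1 (eq_top_iff.2 fun g _ =>
    mem_normalizer_closure fun y hy => hY y hy g)
  have hR := map_closure_inter hY (fun y ⟨T, hT, hy⟩ => PEl.of_mem hT (der_le T _ hy))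
    (closure_le_pPrimePCore hρ h0 hYg)
  have hRS : ∀ S : Sylow 2 G, Subgroup.closure (Y ∩ (S : Subgroup G)) ≤ S := fun S =>
    (closure_le _).2 Set.inter_subset_right
  refine ⟨_, this.map π hπ, fun T hT => ?_⟩
  obtain ⟨S, hS⟩ := exists_sylow_map_ge hπ hT
  refine ⟨(der_mono hS _).trans (map_der _ π _ ▸ map_mono fun y hy =>
    Subgroup.subset_closure ⟨_, S.isPGroup', hy⟩), ?_⟩
  rw [← hR S]
  refine GKill.mono (GKill.map (gkill_succ_of (le_inf le_rfl (hRS S)) (fun s hs =>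
    mem_normalizer_closure fun y hy => ⟨hY y hy.1 s, conj_mem_of_mem hs hy.2⟩) ?_) π) hS le_rfl
  have h1 : Subgroup.closure (Y ∩ (S : Subgroup G)) ≤
      omz (Subgroup.closure (Y ∩ (S : Subgroup G))) := by
    refine (closure_le _).2 fun y hy => ⟨Subgroup.subset_closure hy, fun x hx => ?_, ?_⟩
    · obtain ⟨T, hT, h1⟩ := hy.1
      obtain ⟨S', hS'⟩ := hT.exists_le_sylow
      replace h1 := der_mono hS' _ h1
      obtain ⟨r, hr, e⟩ : π x ∈ (Subgroup.closure (Y ∩ (S' : Subgroup G))).map π := by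
        rw [hR S', ← hR S]; exact ⟨x, hx, rfl⟩
      refine eq_of_mk_eq S.isPGroup' (mul_mem (hRS S hx) hy.2) (mul_mem hy.2 (hRS S hx)) ?_
      change π x * π y = π y * π x
      rw [← e]
      refine (Commute.map (commutatorElement_eq_one_iff_commute.1 (eq_one_of_forall_nloc hρ h0
        (PEl.of_mem S'.isPGroup' (commutator_le_self _ (commutator_mem_commutator (hRS S' hr)
          (der_le _ _ h1)))) fun q _ Q hne hQ U h => ?_)) π).eq
      exact ⟨_, map_commutatorElement_eq_one h.sig (h.commute_of_kill hρ hne S'.isPGroup'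
        le_normalizer_of_normal (hk _ S'.isPGroup') (a := ⟨y, (hYg y hy.1 q Q hne hQ U h).1⟩)
        (r := ⟨r, (closure_le _).2 (fun z hz => (hYg z hz.1 q Q hne hQ U h).1) hr⟩) h1 (hRS S' hr))⟩
    · obtain ⟨T, hT, h1⟩ := hy.1
      exact sq_eq_one_of_kill hρ (hk T hT) h1
  exact eq_bot_iff.2 (commutator_le.2 fun y hy b hb => eq_one_of_forall_nloc hρ h0
    (PEl.of_mem S.isPGroup' (commutator_le_self _ (commutator_mem_commutator (hRS S hy.1)
      (der_le _ _ hb)))) fun q _ Q hne hQ U h => h.sig_commutator hρ hne S.isPGroup'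
        le_normalizer_of_normal (hk _ S.isPGroup') hy.2 hb (h1 hy.1).2.2)

end rep

theorem Prim.pLengthLE_of_gkill (d : ℕ) : ∀ (H : Type u) [Group H] [Finite H] [Group.IsSolvable H],
    Prim 2 H → (∀ T : Subgroup H, IsPGroup 2 T → GKill d T (pCore 2 H)) → PLengthLE 2 d H := by
  induction d with
  | zero =>
    intro H _ _ _ h hn
    exact h.pLengthLE_of_npow 0 H fun s _ v hv => by
      have hv1 : v = 1 := mem_bot.1 ((show pCore 2 H = ⊥ from hn ⊥ IsPGroup.of_bot).le hv)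
      rw [hv1, one_mul]
  | succ d ih =>
  intro H _ _ _ h hn
  have hs := isPSolvable_of_isSolvable 2 H
  have hk : ∀ T : Subgroup (H ⧸ pCore 2 H), IsPGroup 2 T → Kill (h.rep hs) (d + 1) T ⊤ :=
    fun T hT => h.kill' hs (hn _ (hT.comap_of_ker_isPGroup _ (by
      rw [QuotientGroup.ker_mk']; exact isPGroup_pCore 2 H)))
  refine h.succ ?_
  rcases d with _ | d
  · exact DerLE.pLengthLE_zero fun T hT => eq_bot_iff.2 ((mcomm_eq_bot_iff.1 (hk T hT)).trans
      (triv_top.trans (h.ker_rep hs)).le)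
  refine pLengthLE_quotient_pPrimeCore_iff.1 ?_
  by_contra hl
  obtain ⟨H', _, _, f, hf, h1, h2⟩ := exists_prim (isPSolvable_of_isSolvable 2 _) hl
  have := Group.isSolvable_of_surjective hf
  obtain ⟨D, hD, h3⟩ := exists_core_der (h.ker_rep hs) (pCore_quotient_pCore 2 H) hk
  refine h1 (ih H' h2 fun T hT => ?_)
  obtain ⟨S, hS⟩ := exists_sylow_map_ge hf hT
  by_cases e : D.map f = ⊥
  · exact (gkill_of_der (le_map_sylow hf (isPGroup_pCore 2 H') S) (eq_bot_iff.2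
      (map_der _ f _ ▸ (map_mono (h3 _ S.isPGroup').1).trans e.le))).mono hS le_rfl
  · exact ((h3 _ S.isPGroup').2.map f).mono hS (h2.min _ (hD.map f hf) e)

theorem pLengthLE_two_of_derLE {G : Type u} [Group G] [Finite G] [Group.IsSolvable G] {d : ℕ}
    (hd : DerLE 2 d G) : PLengthLE 2 d G := by
  by_contra hk
  obtain ⟨H, _, _, f, hf, h1, h2⟩ := exists_prim (isPSolvable_of_isSolvable 2 G) hk
  have := Group.isSolvable_of_surjective hf
  exact h1 (h2.pLengthLE_of_gkill d H fun T hT => (gkill_of_der le_sup_right (hd.of_surjective hf _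
    (hT.to_sup_of_normal_right (isPGroup_pCore 2 H)))).mono le_sup_left le_rfl)

end CL.HHL
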