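import Cfsg.Agent.FGS.EigBC
import Cfsg.Agent.FGS.FreeMod
import Cfsg.Agent.SOLV.MinNormal

/-!
The fixed space of an element of prime order `p > 3` whose conjugates generate a solvable
irreducible linear group has dimension less than half the degree.
-/

set_option autoImplicit false

open Module
open scoped commutatorElement

namespace CL.HH

section Perm

variable {G : Type*} [Group G]

theorem exists_family_not_commute {L : Subgroup G} [hL : L.Normal]
    (hab : ∀ a ∈ L, ∀ b ∈ L, a * b = b * a) {x b : G} {p : ℕ} (hp : p.Prime) (hx : x ^ p = 1)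
    (hb : b ∈ L) (hxb : b * x ≠ x * b) :
    ∃ a : ℕ → G, (∀ i, a i ∈ L) ∧
      ∀ i j, i < j → j < p → (a i)⁻¹ * a j * x ≠ x * ((a i)⁻¹ * a j) := by
  let a : ℕ → G := fun i => (b * x) ^ i * (x ^ i)⁻¹
  have h1 : ∀ i, a (i + 1) = a i * (x ^ i * b * (x ^ i)⁻¹) := fun i => by
    simp only [a, pow_succ]; group
  have h2 : ∀ i, a (i + 1) = b * (x * a i * x⁻¹) := fun i => by
    simp only [a]; rw [pow_succ', pow_succ']; group
  have ha : ∀ i, a i ∈ L := by
    intro i
    induction i with
    | zero => simp [a]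
    | succ i ih => rw [h1]; exact mul_mem ih (hL.conj_mem _ hb _)
  refine ⟨a, ha, fun i j hij hj e => ?_⟩
  have h3 : (a (i + 1))⁻¹ * a (j + 1) = (a i)⁻¹ * a j := by
    rw [h2, h2]
    calc _ = x * ((a i)⁻¹ * a j) * x⁻¹ := by group
      _ = _ := by rw [← e, mul_inv_cancel_right]
  rw [h1, h1, mul_inv_rev, mul_assoc, ← mul_assoc (a i)⁻¹,
    hab _ (mul_mem (inv_mem (ha i)) (ha j)) _ (hL.conj_mem _ hb _), ← mul_assoc, mul_eq_right,
    inv_mul_eq_one] at h3
  obtain ⟨m, rfl⟩ := Nat.exists_eq_add_of_le hij.le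
  have h4 : x ^ m ∈ Subgroup.centralizer {b} := by
    rw [Subgroup.mem_centralizer_singleton_iff]
    calc _ = (x ^ i)⁻¹ * (x ^ (i + m) * b * (x ^ (i + m))⁻¹) * x ^ (i + m) := by group
      _ = _ := by rw [← h3]; group
  have := dvd_of_pow_mem hp (B := Subgroup.centralizer {b})
    (fun h => hxb (Subgroup.mem_centralizer_singleton_iff.1 h).symm) (hx ▸ one_mem _) h4
  have := Nat.le_of_dvd (by omega) this
  omega

/-- In a transitive action of a solvable group generated by the conjugates of an element `x` of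
prime order `p`, the element `x` fixes at most `1 / p` of the points. -/
theorem mul_card_fixedBy_le [Finite G] [Group.IsSolvable G] {Ω : Type*} [MulAction G Ω]
    [MulAction.IsPretransitive G Ω] [Nontrivial Ω] [Finite Ω] {x : G} {p : ℕ} (hp : p.Prime)
    (hx : x ^ p = 1) (hgen : Subgroup.normalClosure {x} = ⊤) :
    p * Nat.card (MulAction.fixedBy Ω x) ≤ Nat.card Ω := by
  rcases (MulAction.fixedBy Ω x).eq_empty_or_nonempty with h | ⟨ω, hω⟩
  · simp [h]
  set H := MulAction.stabilizer G ω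
  have hH : H ≠ ⊤ := by
    intro e
    obtain ⟨ω', h'⟩ := exists_ne ω
    obtain ⟨g, rfl⟩ := MulAction.exists_smul_eq G ω ω'
    exact h' (show g ∈ H from e ▸ trivial)
  obtain ⟨N, ⟨hN, hNH⟩, hmax⟩ := Set.exists_max_image
    {N : Subgroup G | N.Normal ∧ N ⊔ H ≠ ⊤} (fun N => Nat.card N) (Set.toFinite _)
    ⟨⊥, inferInstance, by rwa [bot_sup_eq]⟩
  have hmax' : ∀ N' : Subgroup G, N'.Normal → N ≤ N' → N' ⊔ H ≠ ⊤ → N' = N :=
    fun N' h1 h2 h3 => (Subgroup.eq_of_le_of_card_ge h2 (hmax N' ⟨h1, h3⟩)).symm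
  obtain ⟨L, hL, hNL, -, hLL, -⟩ := SolvLin.exists_step (Z := N) (D := ⊤)
    (lt_top_iff_ne_top.2 fun e => hNH (by rw [e, top_sup_eq]))
  have hLH : L ⊔ H = ⊤ := by
    by_contra e
    exact hNL.ne' (hmax' L hL hNL.le e)
  have hdec : ∀ g : G, ∃ l ∈ L, ∃ h ∈ H, l * h = g := fun g =>
    Subgroup.mem_sup_of_normal_left.1 (hLH ▸ trivial)
  have hLM : L ⊓ (N ⊔ H) = N := by
    refine hmax' _ ⟨fun y hy g => ⟨hL.conj_mem _ hy.1 g, ?_⟩⟩ (le_inf hNL.le le_sup_left)
      fun e => hNH (top_unique (e ▸ sup_le inf_le_right le_sup_right))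
    obtain ⟨l, hl, h, hh, rfl⟩ := hdec g
    have h1 : h * y * h⁻¹ ∈ N ⊔ H := mul_mem (mul_mem (Subgroup.mem_sup_right hh) hy.2)
      (inv_mem (Subgroup.mem_sup_right hh))
    have : l * h * y * (l * h)⁻¹ = ⁅l, h * y * h⁻¹⁆ * (h * y * h⁻¹) := by
      simp only [commutatorElement_def]; group
    rw [this]
    exact mul_mem (Subgroup.mem_sup_left (hLL _ hl _ (hL.conj_mem _ hy.1 h))) h1
  let π := QuotientGroup.mk' N
  have hπ : ∀ l ∈ L, l ∈ N ⊔ H → π l = 1 := fun l h1 h2 =>
    (QuotientGroup.eq_one_iff l).2 (hLM ▸ ⟨h1, h2⟩)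
  have : (L.map π).Normal := hL.map _ (QuotientGroup.mk'_surjective N)
  have hab : ∀ a ∈ L.map π, ∀ b ∈ L.map π, a * b = b * a := by
    rintro _ ⟨a, ha, rfl⟩ _ ⟨b, hb, rfl⟩
    exact (mk_mul_comm_iff).2 (hLL a ha b hb)
  obtain ⟨b, hb, hxb⟩ : ∃ b ∈ L.map π, b * π x ≠ π x * b := by
    by_contra! h
    have h1 : (N ⊔ H).Normal := ⟨fun y hy g => by
      obtain ⟨l, hl, h', hh, rfl⟩ := hdec g
      have h1 : h' * y * h'⁻¹ ∈ N ⊔ H := mul_mem (mul_mem (Subgroup.mem_sup_right hh) hy)
        (inv_mem (Subgroup.mem_sup_right hh))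
      have h2 : (Subgroup.centralizer (L.map π : Set (G ⧸ N))).comap π = ⊤ := by
        rw [eq_top_iff, ← hgen]
        exact Subgroup.normalClosure_le_normal (Set.singleton_subset_iff.2 h)
      have h3 : h' * y * h'⁻¹ ∈ (Subgroup.centralizer (L.map π : Set (G ⧸ N))).comap π :=
        h2 ▸ trivial
      have : l * h' * y * (l * h')⁻¹ = ⁅l, h' * y * h'⁻¹⁆ * (h' * y * h'⁻¹) := by
        simp only [commutatorElement_def]; group
      rw [this]
      exact mul_mem (Subgroup.mem_sup_left (mk_mul_comm_iff.1 (h3 _ ⟨l, hl, rfl⟩))) h1⟩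
    exact hNH (top_unique (hgen ▸ Subgroup.normalClosure_le_normal
      (Set.singleton_subset_iff.2 (Subgroup.mem_sup_right hω))))
  obtain ⟨a, ha, hne⟩ := exists_family_not_commute hab hp (x := π x) (by rw [← map_pow, hx, map_one])
    hb hxb
  choose l hl hla using ha
  have hfix : ∀ ω' ∈ MulAction.fixedBy Ω x, ∃ d ∈ L, d • ω = ω' ∧ Commute (π d) (π x) := by
    intro ω' h'
    obtain ⟨g, rfl⟩ := MulAction.exists_smul_eq G ω ω'
    obtain ⟨d, hd, h, hh, rfl⟩ := hdec g
    have e : (d * h) • ω = d • ω := by rw [mul_smul, show h • ω = ω from hh]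
    rw [e] at h' ⊢
    refine ⟨d, hd, rfl, ?_⟩
    have h1 : d⁻¹ * x * d ∈ H := by
      change _ • ω = ω
      rw [mul_smul, mul_smul, show x • d • ω = d • ω from h', inv_smul_smul]
    have h2 := hπ (d⁻¹ * (x * d * x⁻¹)) (mul_mem (inv_mem hd) (hL.conj_mem _ hd x)) (by
      rw [← mul_assoc, ← mul_assoc]
      exact Subgroup.mem_sup_right (mul_mem h1 (inv_mem hω)))
    rw [map_mul, map_inv, inv_mul_eq_one, map_mul, map_mul, map_inv, eq_mul_inv_iff_mul_eq] at h2
    exact h2
  have key : ∀ i j, i < j → j < p → ∀ s ∈ MulAction.fixedBy Ω x, ∀ t ∈ MulAction.fixedBy Ω x,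
      l i • s ≠ l j • t := by
    intro i j hij hj s hs t ht e
    obtain ⟨d, hd, rfl, hdc⟩ := hfix s hs
    obtain ⟨d', hd', rfl, hdc'⟩ := hfix t ht
    have h1 := hπ (d⁻¹ * ((l i)⁻¹ * l j) * d') (mul_mem (mul_mem (inv_mem hd)
      (mul_mem (inv_mem (hl i)) (hl j))) hd') (Subgroup.mem_sup_right (by
        change _ • ω = ω
        rw [mul_smul, mul_smul, mul_smul, ← e, inv_smul_smul, inv_smul_smul]))
    rw [map_mul, map_mul, map_mul, map_inv, map_inv, hla, hla, mul_eq_one_iff_eq_inv,
      inv_mul_eq_iff_eq_mul] at h1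
    exact hne i j hij hj (h1 ▸ (hdc.mul_left hdc'.inv_left).eq)
  let f : Fin p × MulAction.fixedBy Ω x → Ω := fun y => l y.1 • (y.2 : Ω)
  have hf : Function.Injective f := by
    rintro ⟨i, s⟩ ⟨j, t⟩ e
    rcases lt_trichotomy i j with h | rfl | h
    · exact absurd e (key i j h j.2 _ s.2 _ t.2)
    · exact Prod.ext rfl (Subtype.ext (MulAction.injective _ e))
    · exact absurd e.symm (key j i h i.2 _ t.2 _ s.2)
  have := Nat.card_le_card_of_injective f hf
  rwa [Nat.card_prod, Nat.card_eq_fintype_card, Fintype.card_fin] at this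

end Perm

section Lin

variable {F V : Type*} [Field F] [AddCommGroup V] [Module F V]

/-- A block monomial operator. -/
theorem finrank_fixed_le_blocks [FiniteDimensional F V] {I : Type*} [Finite I]
    (U : I → Submodule F V) (hU : iSupIndep U) (htop : iSup U = ⊤) (τ : Module.End F V)
    (π : Equiv.Perm I) (hτ : ∀ i, ∀ v ∈ U i, τ v ∈ U (π i)) {e : ℕ}
    (he : ∀ i, finrank F (U i) = e) :
    finrank F V = Nat.card I * e ∧ finrank F (LinearMap.ker (τ - 1)) ≤
      Nat.card (Quotient (Equiv.Perm.SameCycle.setoid π)) * e := by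
  classical
  have := Fintype.ofFinite I
  have := Fintype.ofFinite (Quotient (Equiv.Perm.SameCycle.setoid π))
  let S : (∀ i, U i) →ₗ[F] V := ∑ i, (U i).subtype ∘ₗ LinearMap.proj i
  have hS : ∀ a, S a = ∑ i, (a i : V) := fun a => by simp [S]
  have hinj : Function.Injective S := by
    rw [injective_iff_map_eq_zero]
    intro a ha
    funext i
    exact Subtype.ext ((iSupIndep_iff_finset_sum_eq_zero_imp_eq_zero U).1 hU Finset.univ
      (fun i => a i) (fun i _ => (a i).2) (hS a ▸ ha) i (Finset.mem_univ i))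
  have hsurj : Function.Surjective S := by
    rw [← LinearMap.range_eq_top, eq_top_iff, ← htop, iSup_le_iff]
    intro i v hv
    refine ⟨Pi.single i ⟨v, hv⟩, ?_⟩
    rw [hS, Finset.sum_eq_single i]
    · simp
    · intro j _ hj
      simp [Pi.single_eq_of_ne hj]
    · simp
  let E := LinearEquiv.ofBijective S ⟨hinj, hsurj⟩
  refine ⟨?_, ?_⟩
  · rw [← E.finrank_eq, Module.finrank_pi_fintype]
    simp [he]
  have h1 : ∀ v, τ v = v → ∀ i, (E.symm v (π i) : V) = τ (E.symm v i) := by
    intro v hv i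
    have : E.symm v = fun j => ⟨τ (E.symm v (π.symm j)), by
        simpa using hτ _ _ (E.symm v (π.symm j)).2⟩ := by
      rw [LinearEquiv.symm_apply_eq]
      change v = S _
      rw [hS, Equiv.sum_comp π.symm (fun j => τ (E.symm v j)), ← map_sum, ← hS]
      exact (congrArg τ (E.apply_symm_apply v)).trans hv |>.symm
    conv_lhs => rw [this]
    exact congrArg (fun j => τ (E.symm v j : V)) (π.symm_apply_apply i)
  let Φ : LinearMap.ker (τ - 1) →ₗ[F]
      ∀ o : Quotient (Equiv.Perm.SameCycle.setoid π), U o.out :=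
    LinearMap.pi fun o => LinearMap.proj o.out ∘ₗ E.symm.toLinearMap ∘ₗ Submodule.subtype _
  have hΦ : Function.Injective Φ := by
    rw [injective_iff_map_eq_zero]
    intro v hv
    have hv' : τ v = v := sub_eq_zero.1 v.2
    refine Subtype.ext (E.symm.map_eq_zero_iff.1 (funext fun i => Subtype.ext ?_))
    have h2 : Equiv.Perm.SameCycle π (Quotient.mk (Equiv.Perm.SameCycle.setoid π) i).out i :=
      Quotient.mk_out (s := Equiv.Perm.SameCycle.setoid π) i
    obtain ⟨k, -, hk⟩ := h2.exists_pow_eq'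
    have h3 : ∀ k : ℕ, (E.symm v ((π ^ k) (Quotient.mk (Equiv.Perm.SameCycle.setoid π) i).out) : V)
        = 0 := by
      intro k
      induction k with
      | zero => exact congrArg Subtype.val (congrFun hv _)
      | succ k ih => rw [pow_succ', Equiv.Perm.mul_apply, h1 v hv', ih, map_zero]
    rw [← hk, h3]
    rfl
  have := LinearMap.finrank_le_finrank_of_injective hΦ
  rw [Module.finrank_pi_fintype] at this
  simpa [he] using this

theorem finrank_ker_le_add [FiniteDimensional F V] (f : Module.End F V) (U : Submodule F V)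
    (hU : U ≤ U.comap f) :
    finrank F (LinearMap.ker (f - 1)) ≤ finrank F (LinearMap.ker (f.restrict hU - 1)) +
      finrank F (LinearMap.ker (U.mapQ U f hU - 1)) := by
  have h1 := LinearMap.finrank_range_add_finrank_ker (U.mkQ.domRestrict (LinearMap.ker (f - 1)))
  have h2 : LinearMap.range (U.mkQ.domRestrict (LinearMap.ker (f - 1))) ≤
      LinearMap.ker (U.mapQ U f hU - 1) := by
    rintro _ ⟨v, rfl⟩
    have : f v = v := sub_eq_zero.1 v.2
    simp [this]
  have h3 : finrank F (LinearMap.ker (U.mkQ.domRestrict (LinearMap.ker (f - 1)))) ≤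
      finrank F (LinearMap.ker (f.restrict hU - 1)) := by
    rw [← Submodule.finrank_map_subtype_eq, ← Submodule.finrank_map_subtype_eq U]
    refine Submodule.finrank_mono ?_
    rintro _ ⟨v, hv, rfl⟩
    exact ⟨⟨v, by simpa using hv⟩, Subtype.ext v.2, rfl⟩
  have := Submodule.finrank_mono h2
  omega

end Lin

universe u

variable {F : Type*} [Field F] [IsAlgClosed F]

theorem two_mul_lt_of_central {E : Type*} [Group E] [Finite E]
    (hc : ∀ u v : E, ⁅u, v⁆ ∈ Subgroup.center E) (l : E → F)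
    (hl : ∀ z ∈ Subgroup.center E, l z = 1 → z = 1) (α : MulAut E)
    (hαZ : ∀ z ∈ Subgroup.center E, α z = z) (hα : α ≠ 1) {p : ℕ} (hp : p.Prime) (h3 : 3 < p)
    (n : ℕ) : ∀ {V : Type u} [AddCommGroup V] [Module F V] [FiniteDimensional F V] [Nontrivial V]
      (τ : Representation F E V) (X : Module.End F V), finrank F V = n →
      (∀ z ∈ Subgroup.center E, ∀ v, τ z v = l z • v) → (∀ u v, X (τ u v) = τ (α u) (X v)) →
      (∀ v, (X ^ p) v = v) → 2 * finrank F (LinearMap.ker (X - 1)) < finrank F V := by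
  induction n using Nat.strong_induction_on with
  | _ n ih =>
  intro V _ _ _ _ τ X hn hτ hX hXp
  obtain ⟨U, -, hU⟩ := exists_irr_le (ρ := τ) (Q := ⊤) (W := ⊤) inv_top bot_ne_top.symm
  have hUi : ∀ u, U ≤ U.comap (τ u) := fun u v hv => hU.2.1 u trivial v hv
  let σ := τ.subrepresentation U hUi
  have : Nontrivial U := Submodule.nontrivial_iff_ne_bot.2 hU.1
  have hσ : σ.IsIrreducible := isIrreducible_of_forall σ fun U' h => by
    rcases hU.2.2 (U'.map U.subtype) (Submodule.map_subtype_le _ _) (by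
      rintro u - _ ⟨v, hv, rfl⟩
      exact ⟨_, h u v hv, rfl⟩) with e | e
    · exact Or.inl (Submodule.map_injective_of_injective U.injective_subtype (by simpa using e))
    · exact Or.inr (Submodule.map_injective_of_injective U.injective_subtype (by simpa using e))
  have hσZ : ∀ z ∈ Subgroup.center E, σ z = l z • 1 := fun z hz =>
    LinearMap.ext fun v => Subtype.ext (hτ z hz v)
  have hσ1 : ∀ z ∈ Subgroup.center E, σ z = 1 → z = 1 := fun z hz e => hl z hz
    (smul_left_injective F (one_ne_zero (α := Module.End F U))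
      (((hσZ z hz).symm.trans e).trans (one_smul F _).symm))
  have hσc : ∀ u, (∀ v, σ u * σ v = σ v * σ u) → u ∈ Subgroup.center E := fun u h =>
    Subgroup.mem_center_iff.2 fun v => commutatorElement_eq_one_iff_mul_comm.1
      (hσ1 _ (hc v u) (by
        rw [commutatorElement_def, map_mul, map_mul, map_mul, ← h, ← map_mul, ← map_mul,
          mul_inv_cancel_right, ← map_mul, mul_inv_cancel, map_one]))
  have hinj : Function.Injective σ := (injective_iff_map_eq_one σ).2 fun u hu =>
    hσ1 u (hσc u fun v => by rw [hu, one_mul, mul_one]) hu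
  have hcs : ∀ u v : E, ⁅u, v⁆ ∈ scalars σ := fun u v => center_le_scalars σ (hc u v)
  obtain ⟨T, hT⟩ := exists_intertwiner σ hcs α (by
    rintro s ⟨c, -, hs⟩
    rw [hαZ s (hσc s fun v => by rw [hs, smul_mul_assoc, mul_smul_comm, one_mul, mul_one])])
  let M : Submodule F (U →ₗ[F] V) :=
    { carrier := {φ | ∀ u v, φ (σ u v) = τ u (φ v)}
      add_mem' := fun ha hb u v => by simp only [LinearMap.add_apply, ha u, hb u, map_add]
      zero_mem' := fun u v => by simp
      smul_mem' := fun c a ha u v => by simp only [LinearMap.smul_apply, ha u, map_smul] }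
  have hT' : ∀ u, ((T⁻¹ : (Module.End F U)ˣ) : Module.End F U) * σ (α u) = σ u * ↑T⁻¹ := fun u => by
    rw [Units.inv_mul_eq_iff_eq_mul, ← mul_assoc, hT, Units.mul_inv_cancel_right]
  let Φ : Module.End F (U →ₗ[F] V) :=
    LinearMap.llcomp F U V V X ∘ₗ LinearMap.lcomp F V ((T⁻¹ : (Module.End F U)ˣ) : Module.End F U)
  have hΦ : ∀ φ v, Φ φ v = X (φ (((T⁻¹ : (Module.End F U)ˣ) : Module.End F U) v)) := fun _ _ => rfl
  have hΦM : ∀ φ ∈ M, Φ φ ∈ M := fun φ hφ u v => by
    obtain ⟨u, rfl⟩ := α.surjective u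
    rw [hΦ, hΦ, ← Module.End.mul_apply, hT', Module.End.mul_apply, hφ, hX]
  have : Nontrivial M := ⟨⟨U.subtype, fun _ _ => rfl⟩, 0, fun e => hU.1 (by
    rw [← U.range_subtype, show U.subtype = 0 from congrArg Subtype.val e, LinearMap.range_zero])⟩
  obtain ⟨c, hc'⟩ := Module.End.exists_eigenvalue (Φ.restrict hΦM)
  obtain ⟨⟨φ, hφ⟩, hφc⟩ := hc'.exists_hasEigenvector
  have hφ0 : φ ≠ 0 := fun e => hφc.2 (Subtype.ext e)
  have he : ∀ v, X (φ v) = φ ((c • (T : Module.End F U)) v) := fun v => by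
    have := LinearMap.congr_fun (congrArg Subtype.val hφc.apply_eq_smul) ((T : Module.End F U) v)
    change Φ φ _ = c • φ _ at this
    rw [hΦ, ← Module.End.mul_apply, Units.inv_mul, Module.End.one_apply] at this
    rw [this, LinearMap.smul_apply, map_smul]
  have hφi : Function.Injective φ := by
    rw [← LinearMap.ker_eq_bot]
    refine (eq_bot_or_top_of_isIrreducible σ _ fun u v hv => ?_).resolve_right
      fun e => hφ0 (LinearMap.ker_eq_top.1 e)
    rw [LinearMap.mem_ker, hφ, LinearMap.mem_ker.1 hv, map_zero]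
  have hpow : ∀ (k : ℕ) v, (X ^ k) (φ v) = φ (((c • (T : Module.End F U)) ^ k) v) := by
    intro k
    induction k with
    | zero => simp
    | succ k ih => intro v; rw [pow_succ, pow_succ, Module.End.mul_apply, he, ih]; rfl
  have hTp : (c • (T : Module.End F U)) ^ p = 1 :=
    LinearMap.ext fun v => hφi (by rw [← hpow, hXp]; rfl)
  have h1 := (eig_bound σ hinj hcs α (Units.ofPowEqOne _ p hTp hp.ne_zero) (fun u => by
    simp only [Units.val_ofPowEqOne, smul_mul_assoc, mul_smul_comm, hT]) hp hTp hα).2.2.1 h3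
  rw [Units.val_ofPowEqOne] at h1
  set U' := LinearMap.range φ
  have hU'X : U' ≤ U'.comap X := by
    rintro _ ⟨v, rfl⟩
    exact ⟨_, (he v).symm⟩
  have hU'τ : ∀ u, U' ≤ U'.comap (τ u) := by
    rintro u _ ⟨v, rfl⟩
    exact ⟨_, hφ u v⟩
  have h2 := finrank_ker_le_add X U' hU'X
  have h4 : finrank F (LinearMap.ker (X.restrict (p := U') (q := U') hU'X - 1)) ≤
      finrank F (LinearMap.ker (c • (T : Module.End F U) - 1)) := by
    rw [← Submodule.finrank_map_subtype_eq, (Submodule.equivMapOfInjective φ hφi _).finrank_eq]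
    refine Submodule.finrank_mono ?_
    rintro _ ⟨⟨_, v, rfl⟩, hv, rfl⟩
    refine ⟨v, hφi ?_, rfl⟩
    rw [LinearMap.sub_apply, map_sub, ← he, map_zero]
    exact congrArg Subtype.val hv
  have h5 := Submodule.finrank_quotient_add_finrank U'
  have h6 : finrank F U' = finrank F U := LinearMap.finrank_range_of_inj hφi
  rcases subsingleton_or_nontrivial (V ⧸ U') with h7 | h7
  · have : finrank F (LinearMap.ker (U'.mapQ U' X hU'X - 1)) = 0 := finrank_zero_of_subsingleton
    omega
  · have := ih (finrank F (V ⧸ U')) (by omega) (τ.quotient U' hU'τ) (U'.mapQ U' X hU'X) rfl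
      (fun z hz v => by
        obtain ⟨v, rfl⟩ := U'.mkQ_surjective v
        exact (congrArg U'.mkQ (hτ z hz v)).trans (map_smul _ _ _))
      (fun u v => by
        obtain ⟨v, rfl⟩ := U'.mkQ_surjective v
        exact congrArg U'.mkQ (hX u v))
      (fun v => by
        obtain ⟨v, rfl⟩ := U'.mkQ_surjective v
        rw [← Submodule.mapQ_pow]
        exact congrArg U'.mkQ (hXp v))
    omega

variable {G : Type*} [Group G] [Finite G] [Group.IsSolvable G]

theorem two_mul_lt_of_imprimitive {V : Type*} [AddCommGroup V] [Module F V] [FiniteDimensional F V]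
    (ρ : Representation F G V) [ρ.IsIrreducible] {x : G} {p : ℕ} (hp : p.Prime) (h3 : 3 < p)
    (hx : x ^ p = 1) (hgen : Subgroup.normalClosure {x} = ⊤) {A : Subgroup G} [hA : A.Normal]
    (hab : ∀ a ∈ A, ∀ b ∈ A, a * b = b * a) (hns : ¬ A ≤ scalars ρ) :
    2 * finrank F (LinearMap.ker (ρ x - 1)) < finrank F V := by
  have := nontrivial_of_isIrreducible ρ
  obtain ⟨U, -, hU⟩ := exists_irr_le (ρ := ρ) (Q := A) (W := ⊤) inv_top bot_ne_top.symm
  have hsc : A ≤ scal ρ U := hU.le_scal hU.2.1.le_stab (by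
    rw [Subgroup.commutator_le]
    intro a ha b hb
    rw [commutatorElement_eq_one_iff_mul_comm.2 (hab a ha b hb)]
    exact one_mem _)
  choose c _ hc using fun a : A => mem_scal.1 (hsc a.2)
  let wt : (A → F) → Submodule F V := fun χ => ⨅ a : A, Module.End.eigenspace (ρ a) (χ a)
  have hwt : ∀ χ v, v ∈ wt χ ↔ ∀ a : A, ρ a v = χ a • v := fun χ v => by
    simp only [wt, Submodule.mem_iInf, Module.End.mem_eigenspace_iff]
  have hind : iSupIndep wt := by
    refine (Module.End.independent_iInf_maxGenEigenspace_of_forall_mapsTo (fun a : A => ρ a)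
      fun a b φ => Module.End.mapsTo_maxGenEigenspace_of_comm ?_ φ).mono fun χ =>
      iInf_mono fun a => Module.End.eigenspace_le_maxGenEigenspace
    rw [Commute, SemiconjBy, ← map_mul, ← map_mul, hab _ b.2 _ a.2]
  have hmap : ∀ χ g, (wt χ).map (ρ g) = wt fun a => χ ⟨g⁻¹ * a * g, hA.conj_mem' _ a.2 g⟩ := by
    intro χ g
    ext v
    rw [mem_map_rho, hwt, hwt]
    constructor
    · intro h a
      have := congrArg (ρ g) (h ⟨g⁻¹ * a * g, hA.conj_mem' _ a.2 g⟩)
      simpa only [rho_mul, rho_rho_inv, map_smul] using this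
    · intro h a
      have := congrArg (ρ g⁻¹) (h ⟨g * a * g⁻¹, hA.conj_mem _ a.2 g⟩)
      simpa [rho_mul, rho_inv_rho, map_smul, mul_assoc] using this
  set U₀ := wt c with hU₀
  have hne : U₀ ≠ ⊥ := fun e => hU.1 (eq_bot_iff.2 (e ▸ fun v hv => (hwt c v).2 fun a => hc a v hv))
  set H := stab ρ U₀
  let B : G ⧸ H → Submodule F V := fun j => U₀.map (ρ j.out)
  have hB : ∀ g : G, B g = U₀.map (ρ g) := fun g => by
    obtain ⟨h, hh⟩ := QuotientGroup.mk_out_eq_mul H g
    simp only [B]
    rw [hh, map_rho_mul, mem_stab.1 h.2]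
  have hBi : iSupIndep B := by
    have := hind.comp (f := fun j : G ⧸ H => fun a : A =>
      c ⟨j.out⁻¹ * a * j.out, hA.conj_mem' _ a.2 _⟩) fun i j e => by
        rw [← i.out_eq, ← j.out_eq]
        refine QuotientGroup.eq.2 (mem_stab.2 ?_)
        have h1 : U₀.map (ρ i.out) = U₀.map (ρ j.out) := by
          exact (hmap c _).trans ((congrArg wt e).trans (hmap c _).symm)
        rw [map_rho_mul, ← h1, ← map_rho_mul, inv_mul_cancel, map_rho_one]
    rwa [show B = _ from funext fun j => hmap c j.out]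
  have hBx : ∀ (g : G) j, ∀ v ∈ B j, ρ g v ∈ B (g • j) := by
    intro g j v hv
    obtain ⟨k, rfl⟩ := QuotientGroup.mk_surjective j
    rw [MulAction.Quotient.smul_mk, smul_eq_mul, hB, map_rho_mul]
    exact ⟨v, hB k ▸ hv, rfl⟩
  have htop : iSup B = ⊤ := by
    refine (eq_bot_or_top_of_isIrreducible ρ _ fun g v hv => ?_).resolve_left fun e =>
      map_rho_ne_bot 1 hne (eq_bot_iff.2 (e ▸ hB 1 ▸ le_iSup B _))
    exact (show iSup B ≤ (iSup B).comap (ρ g) from
      iSup_le fun j w hw => le_iSup B (g • j) (hBx g j w hw)) hv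
  have hH : H ≠ ⊤ := by
    intro e
    have h1 : U₀ = ⊤ := (eq_bot_or_top_of_isIrreducible ρ _ fun g v hv =>
      apply_mem_of_mem_stab (show g ∈ H from e ▸ trivial) hv).resolve_left hne
    exact hns fun a ha => mem_scalars_iff.2 ⟨c ⟨a, ha⟩, LinearMap.ext fun v =>
      (hwt c v).1 (show v ∈ U₀ from h1 ▸ trivial) ⟨a, ha⟩⟩
  have : Nontrivial (G ⧸ H) := QuotientGroup.nontrivial_iff.2 hH
  obtain ⟨h1, h2⟩ := finrank_fixed_le_blocks B hBi htop (ρ x) (MulAction.toPerm x) (hBx x)
    (e := finrank F U₀) fun j => finrank_map_rho _ _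
  have h4 := mul_card_fixedBy_le (Ω := G ⧸ H) hp hx hgen
  have h5 := mul_card_orbits_le (MulAction.toPerm x) (MulAction.fixedBy (G ⧸ H) x)
    (fun i => by simp) p fun i hi k hk0 hk e => by
      have := dvd_of_pow_mem hp (B := MulAction.stabilizer G i) hi (hx ▸ one_mem _)
        (k := k) (by rwa [← MulAction.toPermHom_apply, ← map_pow] at e)
      exact absurd (Nat.le_of_dvd hk0 this) (by omega)
  have h6 : Nat.card (Quotient.mk (Equiv.Perm.SameCycle.setoid (MulAction.toPerm x)) ''
      MulAction.fixedBy (G ⧸ H) x) ≤ Nat.card (MulAction.fixedBy (G ⧸ H) x) :=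
    Nat.card_image_le (Set.toFinite _)
  have h7 : 0 < finrank F U₀ := by
    rw [Nat.pos_iff_ne_zero, Ne, Submodule.finrank_eq_zero]; exact hne
  have h8 : 0 < Nat.card (G ⧸ H) := Nat.card_pos
  have h9 : 2 * Nat.card (Quotient (Equiv.Perm.SameCycle.setoid
      (MulAction.toPerm x : Equiv.Perm (G ⧸ H)))) < Nat.card (G ⧸ H) := by
    by_contra! h
    have e1 := Nat.mul_le_mul_left p h
    have e2 := Nat.mul_le_mul_left p h6
    have e3 := Nat.mul_le_mul_right (Nat.card (G ⧸ H))
      (hp.five_le_of_ne_two_of_ne_three (by omega) (by omega))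
    rw [mul_left_comm] at e1
    omega
  rw [h1]
  nlinarith

theorem two_mul_lt_of_faithful {V : Type*} [AddCommGroup V] [Module F V] [FiniteDimensional F V]
    (ρ : Representation F G V) [ρ.IsIrreducible] (hρ : Function.Injective ρ) [Nontrivial G]
    {x : G} {p : ℕ} (hp : p.Prime) (h3 : 3 < p) (hx : x ^ p = 1)
    (hgen : Subgroup.normalClosure {x} = ⊤) :
    2 * finrank F (LinearMap.ker (ρ x - 1)) < finrank F V := by
  have := nontrivial_of_isIrreducible ρ
  by_cases h : ∃ A : Subgroup G, A.Normal ∧ (∀ a ∈ A, ∀ b ∈ A, a * b = b * a) ∧ ¬ A ≤ scalars ρ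
  · obtain ⟨A, _, h1, h2⟩ := h
    exact two_mul_lt_of_imprimitive ρ hp h3 hx hgen h1 h2
  push Not at h
  have hcen : scalars ρ ≤ Subgroup.center G := by
    rintro z ⟨c, -, hz⟩
    exact Subgroup.mem_center_iff.2 fun g => hρ (by
      rw [map_mul, map_mul, hz, smul_mul_assoc, mul_smul_comm, one_mul, mul_one])
  by_cases hZ : Subgroup.center G = ⊤
  · obtain ⟨c, -, hc⟩ := center_le_scalars ρ (show x ∈ _ from hZ ▸ trivial)
    have h1 : c ≠ 1 := by
      rintro rfl
      have : x = 1 := hρ (by rw [hc, one_smul, map_one])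
      subst this
      exact bot_ne_top (top_unique (hgen ▸ Subgroup.normalClosure_le_normal
        (Set.singleton_subset_iff.2 (one_mem (⊥ : Subgroup G)))))
    have h2 : LinearMap.ker (ρ x - 1) = ⊥ := by
      rw [eq_bot_iff]
      intro v hv
      rw [LinearMap.mem_ker, hc, ← one_smul F (1 : Module.End F V), smul_smul, mul_one,
        ← sub_smul] at hv
      exact (smul_eq_zero.1 hv).resolve_left (sub_ne_zero.2 h1)
    rw [h2, finrank_bot]
    exact finrank_pos
  obtain ⟨E, hE, hZE, -, hEE, -⟩ := SolvLin.exists_step (Z := Subgroup.center G) (D := ⊤)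
    (lt_top_iff_ne_top.2 hZ)
  have hZE' : ∀ z : E, z ∈ Subgroup.center E → (z : G) ∈ scalars ρ := fun z hz =>
    h ((Subgroup.center E).map E.subtype) inferInstance (by
      rintro _ ⟨a, ha, rfl⟩ _ ⟨b, -, rfl⟩
      exact congrArg Subtype.val (Subgroup.mem_center_iff.1 ha b).symm) ⟨z, hz, rfl⟩
  choose! l _ hl using hZE'
  refine two_mul_lt_of_central (E := E) (fun u v => Subgroup.mem_center_iff.2 fun w =>
      Subtype.ext (Subgroup.mem_center_iff.1 (hEE u u.2 v v.2) w)) l
    (fun z hz e => Subtype.ext (hρ (by rw [hl z hz, e, one_smul, OneMemClass.coe_one, map_one])))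
    (MulAut.conjNormal x) (fun z hz => Subtype.ext ?_) (fun e => hZE.not_ge fun u hu => ?_) hp h3 _
    (ρ.comp E.subtype) (ρ x) rfl (fun z hz v => LinearMap.congr_fun (hl z hz) v)
    (fun u v => ?_) fun v => by rw [← map_pow, hx, map_one]; rfl
  · have : (z : G) ∈ Subgroup.center G := Subgroup.mem_center_iff.2 fun g => hρ (by
      rw [map_mul, map_mul, hl z hz, smul_mul_assoc, mul_smul_comm, one_mul, mul_one])
    rw [MulAut.conjNormal_apply, Subgroup.mem_center_iff.1 this x, mul_inv_cancel_right]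
  · have h1 : Subgroup.centralizer (E : Set G) = ⊤ := top_unique (hgen ▸
      Subgroup.normalClosure_le_normal (Set.singleton_subset_iff.2 fun w hw =>
        (mul_inv_eq_iff_eq_mul.1 (show x * w * x⁻¹ = w from
          congrArg Subtype.val (DFunLike.congr_fun e (⟨w, hw⟩ : E)))).symm))
    exact Subgroup.mem_center_iff.2 fun g =>
      ((show g ∈ Subgroup.centralizer (E : Set G) from h1 ▸ trivial) u hu).symm
  · change ρ x (ρ u v) = ρ (x * u * x⁻¹) (ρ x v)
    rw [rho_mul, rho_mul, rho_inv_rho]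

theorem two_mul_lt_of_irreducible {V : Type*} [AddCommGroup V] [Module F V] [FiniteDimensional F V]
    (ρ : Representation F G V) [ρ.IsIrreducible] (hρ : ρ.ker ≠ ⊤)
    {x : G} {p : ℕ} (hp : p.Prime) (h3 : 3 < p) (hx : x ^ p = 1)
    (hgen : Subgroup.normalClosure {x} = ⊤) :
    2 * finrank F (LinearMap.ker (ρ x - 1)) < finrank F V := by
  have := nontrivial_of_isIrreducible ρ
  let ρ' : Representation F (G ⧸ ρ.ker) V := QuotientGroup.lift ρ.ker ρ fun _ h => h
  have h1 : ∀ g : G, ρ' g = ρ g := fun _ => rfl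
  have : ρ'.IsIrreducible := isIrreducible_of_forall ρ' fun U hU =>
    eq_bot_or_top_of_isIrreducible ρ U fun g v hv => h1 g ▸ hU g v hv
  have : Nontrivial (G ⧸ ρ.ker) := QuotientGroup.nontrivial_iff.2 hρ
  have h2 : Function.Injective ρ' := (injective_iff_map_eq_one ρ').2 fun g hg => by
    obtain ⟨g, rfl⟩ := QuotientGroup.mk_surjective g
    exact (QuotientGroup.eq_one_iff g).2 hg
  rw [← h1]
  refine two_mul_lt_of_faithful ρ' h2 hp h3
    (by rw [← QuotientGroup.mk_pow, hx, QuotientGroup.mk_one]) ?_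
  have := Subgroup.map_normalClosure {x} (QuotientGroup.mk' ρ.ker) (QuotientGroup.mk'_surjective _)
  rwa [hgen, Subgroup.map_top_of_surjective _ (QuotientGroup.mk'_surjective _),
    Set.image_singleton, eq_comm] at this

theorem two_mul_lt_of_sum_eq_zero {x : G} {p : ℕ} (hp : p.Prime) (h3 : 3 < p) (hx : x ^ p = 1)
    (hgen : Subgroup.normalClosure {x} = ⊤) (N : Subgroup G) [Fintype N]
    (hN : (Nat.card N : F) ≠ 0) (n : ℕ) :
    ∀ {V : Type u} [AddCommGroup V] [Module F V] [FiniteDimensional F V] [Nontrivial V]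
      (ρ : Representation F G V), finrank F V = n → (∀ v, ∑ y : N, ρ y v = 0) →
      2 * finrank F (LinearMap.ker (ρ x - 1)) < finrank F V := by
  induction n using Nat.strong_induction_on with
  | _ n ih =>
  intro V _ _ _ _ ρ hn hs
  by_cases hirr : ∀ U : Submodule F V, (∀ g, U ≤ U.comap (ρ g)) → U = ⊥ ∨ U = ⊤
  · have : ρ.IsIrreducible := isIrreducible_of_forall ρ fun U hU => hirr U fun g v hv => hU g v hv
    refine two_mul_lt_of_irreducible ρ (fun e => ?_) hp h3 hx hgen
    obtain ⟨v, hv⟩ := exists_ne (0 : V)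
    have h1 : ∀ y : G, ρ y = 1 := fun y => show y ∈ ρ.ker from e ▸ trivial
    have := hs v
    simp only [h1, Module.End.one_apply] at this
    rw [Finset.sum_const, Finset.card_univ, ← Nat.cast_smul_eq_nsmul F, ← Nat.card_eq_fintype_card,
      smul_eq_zero] at this
    tauto
  push Not at hirr
  obtain ⟨U, hU, hU0, hU1⟩ := hirr
  have e4 := Submodule.finrank_quotient_add_finrank U
  have hpos : 0 < finrank F U := by
    rw [Nat.pos_iff_ne_zero, Ne, Submodule.finrank_eq_zero]; exact hU0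
  have hlt : finrank F U < finrank F V := Submodule.finrank_lt hU1
  have : Nontrivial U := Submodule.nontrivial_iff_ne_bot.2 hU0
  have : Nontrivial (V ⧸ U) := Submodule.Quotient.nontrivial_iff.2 hU1
  have h1 := ih _ (hn ▸ hlt) (ρ.subrepresentation U hU) rfl fun v => Subtype.ext (by
    simpa using hs v)
  have h2 := ih (finrank F (V ⧸ U)) (by omega) (ρ.quotient U hU) rfl fun v => by
    obtain ⟨v, rfl⟩ := U.mkQ_surjective v
    have := congrArg U.mkQ (hs v)
    rw [map_sum, map_zero] at this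
    exact this
  exact lt_of_le_of_lt (Nat.mul_le_mul_left 2 (finrank_ker_le_add (ρ x) U (hU x))) (by
    rw [mul_add, ← e4, add_comm]
    exact add_lt_add h2 h1)

/-- The fixed space of an element of prime order `p > 3` whose conjugates generate a solvable
group acting faithfully and irreducibly in positive characteristic. -/
theorem two_mul_finrank_fixed_lt {k V : Type*} [Field k] (ℓ : ℕ) [Fact ℓ.Prime] [CharP k ℓ]
    [AddCommGroup V] [Module k V] [FiniteDimensional k V] (ρ : Representation k G V)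
    [ρ.IsIrreducible] (hρ : Function.Injective ρ) [Nontrivial G] {x : G} {p : ℕ} (hp : p.Prime)
    (h3 : 3 < p) (hx : x ^ p = 1) (hgen : Subgroup.normalClosure {x} = ⊤) :
    2 * finrank k (LinearMap.ker (ρ x - 1)) < finrank k V := by
  classical
  have := nontrivial_of_isIrreducible ρ
  obtain ⟨r, hr, hN⟩ := CL.exists_pCore_ne_bot G
  have := Fact.mk hr
  set N := Cfsg.pCore r G
  have := Fintype.ofFinite N
  have hfix : ∀ v, (∀ b ∈ N, ρ b v = v) → v = 0 := by
    let U : Submodule k V :=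
      { carrier := {v | ∀ x ∈ N, ρ x v = v}
        zero_mem' := by simp
        add_mem' := fun {a b} ha hb x hx => by rw [map_add, ha x hx, hb x hx]
        smul_mem' := fun c a ha x hx => by rw [map_smul, ha x hx] }
    rcases eq_bot_or_top_of_isIrreducible ρ U (fun g w hw y hy => by
      have h2 := congrArg (ρ g) (hw _ (Subgroup.Normal.conj_mem' inferInstance y hy g))
      rwa [rho_mul, rho_mul, rho_rho_inv] at h2) with e | e
    · exact fun v hv => (Submodule.mem_bot k).1 (e ▸ show v ∈ U from hv)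
    · exact absurd (eq_bot_iff.2 fun y hy => hρ (LinearMap.ext fun v =>
        ((show v ∈ U from e ▸ trivial) y hy).trans (by simp))) hN
  have hrl : r ≠ ℓ := by
    rintro rfl
    obtain ⟨w, hw0, hw⟩ := CL.DL.exists_fixed (CL.isPGroup_pCore r G) (ρ.comp N.subtype)
    exact hw0 (hfix w fun b hb => hw ⟨b, hb⟩)
  let K := AlgebraicClosure k
  have : Nontrivial (TensorProduct k K V) := by
    rw [← Module.finrank_pos_iff (R := K), Module.finrank_baseChange]
    exact Module.finrank_pos
  have h1 := two_mul_lt_of_sum_eq_zero (F := K) hp h3 hx hgen N (by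
    obtain ⟨m, hm⟩ := IsPGroup.iff_card.1 (CL.isPGroup_pCore r G)
    rw [hm, Ne, CharP.cast_eq_zero_iff K ℓ]
    exact fun h => hrl ((Nat.prime_dvd_prime_iff_eq Fact.out hr).1
      ((Fact.out : ℓ.Prime).dvd_of_dvd_pow h)).symm) _ (bc K ρ) rfl (sum_bc_eq_zero K ρ hfix)
  have h2 := finrank_fixed_le_bc K ρ x
  rw [Module.finrank_baseChange] at h1
  omega

end CL.HH
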