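import Mathlib
import Cfsg.Agent.SOLV.PSolvable
import Cfsg.Agent.TECH.SylIn
import Cfsg.Agent.SOLV.Schmidt

/-! A `p`-solvable group has Hall `{p, q}`-subgroups. -/

namespace CL.FGS.HallPQ

open Cfsg

universe u

theorem exists_hall (p q : ℕ) [hp : Fact p.Prime] [hq : Fact q.Prime] (G : Type u) [Group G] [Finite G]
    (hG : IsPSolvable p G) : ∃ L : Subgroup G, IsPiHall {p, q} L := by
  revert hG
  refine CL.card_induction (P := fun G _ _ => IsPSolvable p G → ∃ L : Subgroup G, IsPiHall {p, q} L) ?_ G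
  intro G _ _ ih hG
  by_contra hcon
  have hA : ∀ X : Subgroup G, ¬ p ∣ X.index → ¬ q ∣ X.index → X = ⊤ := by
    intro X h1 h2
    by_contra hX
    obtain ⟨L, hL1, hL2⟩ := ih X (CL.card_lt_of_ne_top hX) (CL.IsPSolvable.subgroup hG X)
    refine hcon ⟨L.map X.subtype, fun r hr hd => hL1 r hr (by rwa [Subgroup.card_subtype] at hd),
      fun r hr hπ hd => ?_⟩
    rw [Subgroup.index_map_subtype] at hd
    rcases (Nat.Prime.dvd_mul hr).1 hd with h | h
    · exact hL2 r hr hπ h
    · rcases hπ with rfl | rfl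
      exacts [h1 h, h2 h]
  have hQ : ∀ N : Subgroup G, ∀ _ : N.Normal, N ≠ ⊥ → ∀ r : ℕ, r.Prime → r ∣ N.index → r ∈ ({p, q} : Set ℕ) := by
    intro N _ hN
    obtain ⟨L, hL1, hL2⟩ := ih (G ⧸ N) (by
      rw [← N.index_eq_card, ← N.card_mul_index]
      exact lt_mul_of_one_lt_left (Nat.pos_of_ne_zero N.index_ne_zero_of_finite)
        (N.one_lt_card_iff_ne_bot.2 hN)) (CL.IsPSolvable.quotient hG N)
    have h1 := hA (L.comap (QuotientGroup.mk' N))
      (by rw [Subgroup.index_comap_of_surjective _ (QuotientGroup.mk'_surjective N)]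
          exact hL2 p hp.out (by simp))
      (by rw [Subgroup.index_comap_of_surjective _ (QuotientGroup.mk'_surjective N)]
          exact hL2 q hq.out (by simp))
    have h2 : L = ⊤ := by
      rw [← Subgroup.map_comap_eq_self_of_surjective (QuotientGroup.mk'_surjective N) L, h1,
        Subgroup.map_top_of_surjective _ (QuotientGroup.mk'_surjective N)]
    intro r hr hd
    exact hL1 r hr (by rwa [h2, Subgroup.card_top, ← N.index_eq_card])
  have hB : ∀ (r : ℕ) [Fact r.Prime], r ∈ ({p, q} : Set ℕ) → ∀ N : Subgroup G, N.Normal → IsPGroup r N → N = ⊥ := by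
    intro r hr hπ N hN hNr
    by_contra h0
    refine hcon ⟨⊤, fun s hs hd => ?_, fun s hs _ => by simpa using hs.ne_one⟩
    rw [Subgroup.card_top, ← N.card_mul_index] at hd
    rcases (Nat.Prime.dvd_mul hs).1 hd with h | h
    · obtain ⟨k, hk⟩ := IsPGroup.iff_card.1 hNr
      rw [hk] at h
      rwa [(Nat.prime_dvd_prime_iff_eq hs hr.out).1 (hs.dvd_of_dvd_pow h)]
    · exact hQ N hN h0 s hs h
  rcases subsingleton_or_nontrivial G with hs | hs
  · exact hcon ⟨⊤, fun s hs hd => absurd hd (by simpa using hs.ne_one), fun s hs _ => by simpa using hs.ne_one⟩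
  have hN0 : pPrimeCore p G ≠ ⊥ := CL.IsPSolvable.pPrimeCore_ne_bot hG
    (hB p (by simp) _ inferInstance (CL.isPGroup_pCore p G))
  set N := pPrimeCore p G with hN
  have hNp : ¬ p ∣ Nat.card N := (Nat.Prime.coprime_iff_not_dvd hp.out).1 (CL.coprime_card_pPrimeCore p G).symm
  obtain ⟨S⟩ : Nonempty (Sylow q G) := inferInstance
  have hS := CL.MSS.sylIn_inf_normal S N
  have hfr := hS.frattini_sup (H := ⊤) le_top (by rw [Subgroup.normalizer_eq_top])
  rw [top_inf_eq] at hfr
  have h1 : Subgroup.normalizer ((S ⊓ N : Subgroup G) : Set G) = ⊤ := by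
    refine hA _ (fun h => hNp (h.trans ?_)) fun h => S.not_dvd_index (h.trans (Subgroup.index_dvd_of_le ?_))
    · exact CL.index_dvd_card_of_sup_eq_top' hfr
    · exact (le_inf Subgroup.le_normalizer (by rw [Subgroup.normalizer_eq_top]; exact le_top)).trans
        (Subgroup.inf_normalizer_le_normalizer_inf)
  have h2 := hB q (by simp) _ (Subgroup.normalizer_eq_top_iff.1 h1) hS.pgroup
  have hNq : ¬ q ∣ Nat.card N := CL.MSS.not_dvd_card_of_sylIn_bot (h2 ▸ hS)
  obtain ⟨K, hK⟩ := Subgroup.exists_right_complement'_of_coprime (N := N) (by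
    refine Nat.coprime_of_dvd fun r hr h3 h4 => ?_
    rcases hQ N inferInstance hN0 r hr h4 with rfl | rfl
    exacts [hNp h3, hNq h3])
  have h3 := hA K (by rwa [hK.index_eq_card]) (by rwa [hK.index_eq_card])
  have h4 := hK.index_eq_card
  rw [h3, Subgroup.index_top] at h4
  exact hN0 (Subgroup.card_eq_one.1 h4.symm)

end CL.FGS.HallPQ
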