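import Mathlib
import Cfsg.Agent.SOLV.Basic
import Cfsg.Agent.SOLV.MinNormal
import Cfsg.Agent.FGS.NilpBasic
import Cfsg.Agent.FGS.CyclicCrit

/-! The hypercenter `⨆ n, upperCentralSeries G n` of a finite group. -/

set_option autoImplicit false

namespace CL.FGS

universe u

theorem mem_hypercenter_iff {G : Type*} [Group G] (g : G) :
    g ∈ (⨆ n : ℕ, Subgroup.upperCentralSeries G n) ↔ ∃ n, g ∈ Subgroup.upperCentralSeries G n :=
  Subgroup.mem_iSup_of_directed (Subgroup.upperCentralSeries_mono G).directed_le

theorem mem_hypercenter_of_mk_center {G : Type*} [Group G] (g : G)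
    (h : (QuotientGroup.mk' (Subgroup.center G)) g ∈
      ⨆ n : ℕ, Subgroup.upperCentralSeries (G ⧸ Subgroup.center G) n) :
    g ∈ ⨆ n : ℕ, Subgroup.upperCentralSeries G n := by
  rw [mem_hypercenter_iff] at h ⊢
  obtain ⟨n, hn⟩ := h
  refine ⟨n + 1, ?_⟩
  rw [← Subgroup.comap_upperCentralSeries_quotient_center]
  exact hn

/-- If `H` is generated by elements of `Z_n(G)` modulo a nilpotent image, it is nilpotent:
`H ⊔ Z_n(G)` version. -/
theorem isNilpotent_sup_upperCentralSeries (n : ℕ) :
    ∀ (G : Type u) [Group G] (H : Subgroup G), Group.IsNilpotent H →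
      Group.IsNilpotent (H ⊔ Subgroup.upperCentralSeries G n : Subgroup G) := by
  induction n with
  | zero => intro G _ H hH; exact CL.isNilpotent_of_le hH (by simp)
  | succ n ih =>
    intro G _ H hH
    set f := QuotientGroup.mk' (Subgroup.center G) with hf
    have h1 : Group.IsNilpotent (H.map f) := by
      have := hH
      exact Group.nilpotent_of_surjective (f.subgroupMap H) (f.subgroupMap_surjective H)
    have h2 := ih (G ⧸ Subgroup.center G) (H.map f) h1
    set K : Subgroup G := H ⊔ Subgroup.upperCentralSeries G (n + 1) with hK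
    have hle : K.map f ≤ H.map f ⊔ Subgroup.upperCentralSeries (G ⧸ Subgroup.center G) n := by
      rw [hK, Subgroup.map_sup]
      refine sup_le_sup_left ?_ _
      rw [← Subgroup.comap_upperCentralSeries_quotient_center]
      exact Subgroup.map_comap_le _ _
    have h3 : Group.IsNilpotent (K.map f) := CL.isNilpotent_of_le h2 hle
    refine Subgroup.isNilpotent_of_ker_le_center (f.subgroupMap K) ?_
    intro x hx
    have : (x : G) ∈ Subgroup.center G := by
      have := congrArg Subtype.val (MonoidHom.mem_ker.1 hx)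
      simpa [hf] using this
    rw [Subgroup.mem_center_iff]
    intro y
    exact Subtype.ext (Subgroup.mem_center_iff.1 this y)

/-- A `p`-element commuting with every `p'`-element forces a nontrivial center. -/
theorem center_ne_bot_of_commute_pPrime {G : Type*} [Group G] [Finite G] {p : ℕ} [Fact p.Prime]
    {g : G} (hg1 : g ≠ 1) {k : ℕ} (hk : g ^ p ^ k = 1)
    (h : ∀ x : G, (orderOf x).Coprime p → Commute g x) : Subgroup.center G ≠ ⊥ := by
  set S : Set G := {x | (orderOf x).Coprime p} with hS
  have hCn : (Subgroup.centralizer S).Normal := by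
    refine ⟨fun c hc y => ?_⟩
    rw [Subgroup.mem_centralizer_iff] at hc ⊢
    intro s hs
    have hs' : y⁻¹ * s * y ∈ S := by
      have : orderOf (y⁻¹ * s * y) = orderOf s := by
        have := (MulAut.conj y⁻¹).orderOf_eq s
        simpa using this
      simpa [hS, this] using hs
    have := hc _ hs'
    calc s * (y * c * y⁻¹) = y * ((y⁻¹ * s * y) * c) * y⁻¹ := by group
      _ = y * (c * (y⁻¹ * s * y)) * y⁻¹ := by rw [this]
      _ = y * c * y⁻¹ * s := by group
  obtain ⟨P, hP⟩ := exists_sylow_mem_of_pow_eq_one hk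
  have hgC : g ∈ Subgroup.centralizer S := by
    rw [Subgroup.mem_centralizer_iff]
    intro s hs
    exact (h s hs).symm.eq
  have hPn : Group.IsNilpotent P := P.isPGroup'.isNilpotent
  have hne : (Subgroup.centralizer S).subgroupOf P ≠ ⊥ := by
    intro hb
    have : (⟨g, hP⟩ : P) ∈ (Subgroup.centralizer S).subgroupOf P := hgC
    rw [hb, Subgroup.mem_bot] at this
    exact hg1 (congrArg Subtype.val this)
  obtain ⟨z, hzC, hz1, hzZ⟩ := exists_mem_center_of_normal_ne_bot _ hne
  have htop : Subgroup.centralizer ({(z : G)} : Set G) = ⊤ := by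
    apply eq_top_of_forall_prime_exists_sylow_le
    intro q _
    by_cases hq : q = p
    · subst hq
      refine ⟨P, fun y hy => ?_⟩
      rw [Subgroup.mem_centralizer_singleton_iff]
      exact congrArg Subtype.val (Subgroup.mem_center_iff.1 hzZ ⟨y, hy⟩)
    · obtain ⟨R⟩ : Nonempty (Sylow q G) := inferInstance
      refine ⟨R, fun y hy => ?_⟩
      rw [Subgroup.mem_centralizer_singleton_iff]
      have hyS : y ∈ S := by
        obtain ⟨m, hm⟩ := (IsPGroup.iff_orderOf.1 R.isPGroup') ⟨y, hy⟩
        have : orderOf y = q ^ m := by rw [← hm]; exact (Subgroup.orderOf_mk y hy).symm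
        simp only [hS, Set.mem_ofPred_eq, this]
        exact Nat.Coprime.pow_left _ ((Nat.coprime_primes Fact.out Fact.out).2 hq)
      exact Subgroup.mem_centralizer_iff.1 hzC y hyS
  intro hb
  have : (z : G) ∈ Subgroup.center G := by
    rw [Subgroup.mem_center_iff]
    intro y
    have : y ∈ Subgroup.centralizer ({(z : G)} : Set G) := htop ▸ Subgroup.mem_top y
    exact Subgroup.mem_centralizer_singleton_iff.1 this
  rw [hb, Subgroup.mem_bot] at this
  exact hz1 (Subtype.ext this)

theorem mem_hypercenter_of_forall_isNilpotent (G : Type u) [Group G] [Finite G] :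
    ∀ g : G, (∀ x : G, Group.IsNilpotent (Subgroup.closure ({x, g} : Set G))) →
      g ∈ ⨆ n : ℕ, Subgroup.upperCentralSeries G n := by
  revert G
  refine CL.card_induction (P := fun G _ _ => ∀ g : G,
    (∀ x : G, Group.IsNilpotent (Subgroup.closure ({x, g} : Set G))) →
      g ∈ ⨆ n : ℕ, Subgroup.upperCentralSeries G n) ?_
  intro G _ _ ih g hg
  by_cases hg1 : g = 1
  · rw [hg1]; exact Subgroup.one_mem _
  have hZ : Subgroup.center G ≠ ⊥ := by
    obtain ⟨p, hp, hdvd⟩ := Nat.exists_prime_and_dvd (n := orderOf g) (by simpa using hg1)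
    have : Fact p.Prime := ⟨hp⟩
    have hord : orderOf (g ^ (orderOf g / p)) = p := orderOf_pow_orderOf_div (orderOf_pos g).ne' hdvd
    refine center_ne_bot_of_commute_pPrime (p := p) (g := g ^ (orderOf g / p)) (k := 1) ?_ ?_ ?_
    · intro h; rw [h, orderOf_one] at hord; exact hp.one_lt.ne hord
    · have := pow_orderOf_eq_one (g ^ (orderOf g / p))
      rw [hord] at this
      rwa [pow_one]
    · intro x hx
      refine commute_of_mem_nilpotent_of_coprime _ (hg x) ?_ ?_ ?_
      · exact Subgroup.pow_mem _ (Subgroup.subset_closure (by simp)) _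
      · exact Subgroup.subset_closure (by simp)
      · rw [hord]; exact hx.symm
  apply mem_hypercenter_of_mk_center
  apply ih _ (CL.card_quotient_lt hZ)
  intro x
  obtain ⟨x, rfl⟩ := QuotientGroup.mk'_surjective (Subgroup.center G) x
  have e : Subgroup.closure ({QuotientGroup.mk' (Subgroup.center G) x,
      QuotientGroup.mk' (Subgroup.center G) g} : Set (G ⧸ Subgroup.center G)) =
      (Subgroup.closure ({x, g} : Set G)).map (QuotientGroup.mk' (Subgroup.center G)) := by
    rw [MonoidHom.map_closure, Set.image_pair]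
  rw [e]
  have := hg x
  exact Group.nilpotent_of_surjective (MonoidHom.subgroupMap _ _) (MonoidHom.subgroupMap_surjective _ _)

theorem isNilpotent_closure_pair_of_mem_hypercenter {G : Type u} [Group G] {g : G}
    (hg : g ∈ ⨆ n : ℕ, Subgroup.upperCentralSeries G n) (x : G) :
    Group.IsNilpotent (Subgroup.closure ({x, g} : Set G)) := by
  obtain ⟨n, hn⟩ := (mem_hypercenter_iff g).1 hg
  have h1 : Group.IsNilpotent (Subgroup.zpowers x) := CL.isNilpotent_of_isMulCommutative _
  refine CL.isNilpotent_of_le (isNilpotent_sup_upperCentralSeries n G _ h1) ?_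
  rw [Subgroup.closure_le]
  rintro y (rfl | rfl)
  · exact Subgroup.mem_sup_left (Subgroup.mem_zpowers _)
  · exact Subgroup.mem_sup_right hn

end CL.FGS
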