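import Mathlib
import Cfsg.Agent.SOLV.MinNormal
import Cfsg.Agent.SOLV.Fitting

/-! Elements of order three with one Jordan block of size three on a space over `F₃`: the lines of
an invariant four-group. -/

set_option autoImplicit false
set_option linter.unusedSectionVars false
open Subgroup

namespace CL.J3

abbrev k := ZMod 3

variable {G V : Type*} [Group G] [AddCommGroup V] [Module k V] {ρ : Representation k G V}

theorem t3 (v : V) : v + v + v = 0 := by
  have : ((1 : k) + 1 + 1) • v = 0 := by rw [show (1 : k) + 1 + 1 = 0 by decide, zero_smul]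
  simpa [add_smul] using this

theorem neg0 {v : V} (h : v = -v) : v = 0 := by
  linear_combination (norm := module) t3 v - h

theorem k3 (c : k) : c = 0 ∨ c = 1 ∨ c = -1 := by revert c; decide

theorem mu (g h : G) (v : V) : ρ (g * h) v = ρ g (ρ h v) := by rw [map_mul]; rfl

theorem on (v : V) : ρ 1 v = v := by rw [map_one]; rfl

theorem iv (g : G) (v : V) : ρ g⁻¹ (ρ g v) = v := by rw [← mu, inv_mul_cancel, on]

theorem vi (g : G) (v : V) : ρ g (ρ g⁻¹ v) = v := by rw [← mu, mul_inv_cancel, on]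

theorem inj {g : G} {v w : V} (h : ρ g v = ρ g w) : v = w := by rw [← iv (ρ := ρ) g v, h, iv]

theorem sm0 {g : G} {v : V} (h : ρ g v = 0) : v = 0 := inj (h.trans (map_zero _).symm)

/-- the stabilizer of a vector -/
def Fx (ρ : Representation k G V) (v : V) : Subgroup G where
  carrier := {g | ρ g v = v}
  one_mem' := on v
  mul_mem' := fun {a b} (h1 : ρ a v = v) (h2 : ρ b v = v) => show ρ (a * b) v = v by rw [mu, h2, h1]
  inv_mem' := fun {a} (h : ρ a v = v) => show ρ a⁻¹ v = v by rw [← h, iv, h]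

theorem fix_cop {a : G} {v : V} {m n : ℕ} (h1 : ρ (a ^ m) v = v) (h2 : ρ (a ^ n) v = v)
    (c : m.Coprime n) : ρ a v = v := by
  have e : a ^ ((m : ℤ) * Nat.gcdA m n + (n : ℤ) * Nat.gcdB m n) = a := by
    rw [← Nat.gcd_eq_gcd_ab, c.gcd_eq_one]; simp
  have : a ∈ Fx ρ v := by
    rw [← e, zpow_add, zpow_mul, zpow_mul, zpow_natCast, zpow_natCast]
    exact mul_mem (zpow_mem (show _ ∈ Fx ρ v from h1) _) (zpow_mem (show _ ∈ Fx ρ v from h2) _)
  exact this

/-- one step of a two by two matrix -/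
def st (α β γ δ : k) (x : k × k) : k × k := (α * x.1 + γ * x.2, β * x.1 + δ * x.2)

theorem st26 : ∀ α β γ δ x y : k, (st α β γ δ)^[26] (x, y) = (st α β γ δ)^[2] (x, y) := by
  decide +kernel

theorem pow_st {a : G} {u w : V} {α β γ δ : k} (h1 : ρ a u = α • u + β • w)
    (h2 : ρ a w = γ • u + δ • w) (n : ℕ) (x : k × k) :
    ρ (a ^ n) (x.1 • u + x.2 • w) = ((st α β γ δ)^[n] x).1 • u + ((st α β γ δ)^[n] x).2 • w := by
  induction n with
  | zero => simp
  | succ n ih =>
    rw [pow_succ', mu, ih, Function.iterate_succ_apply', map_add, map_smul, map_smul, h1, h2]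
    simp only [st]
    module

/-- an element of order prime to six acts trivially on an invariant plane -/
theorem plane {a : G} {l : ℕ} (hl : a ^ l = 1) (c : l.Coprime 24) {u w : V} {α β γ δ : k}
    (h1 : ρ a u = α • u + β • w) (h2 : ρ a w = γ • u + δ • w) : ρ a u = u ∧ ρ a w = w := by
  have key : ∀ x y : k, ρ a (x • u + y • w) = x • u + y • w := fun x y => by
    refine fix_cop (m := l) (n := 24) (by rw [hl, on]) ?_ c
    have e := pow_st h1 h2 26 (x, y)
    rw [st26, ← pow_st h1 h2 2 (x, y), show 26 = 2 + 24 from rfl, pow_add, mu] at e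
    exact inj e
  exact ⟨by simpa using key 1 0, by simpa using key 0 1⟩

/-- a four-group on which `b` acts without fixed points -/
structure Four (b q p : G) : Prop where
  ne : q ≠ 1
  sq : q * q = 1
  cj : b * q * b⁻¹ = p
  pr : b * p * b⁻¹ = q * p

namespace Four
variable {b q p : G} (F : Four b q p)
include F

theorem sq2 : p * p = 1 := by rw [← F.cj, conj_mul, F.sq, mul_one, mul_inv_cancel]

theorem sq3 : q * p * (q * p) = 1 := by rw [← F.pr, conj_mul, F.sq2, mul_one, mul_inv_cancel]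

theorem comm : p * q = q * p := by
  calc p * q = q * q * (p * q) * (p * p) := by rw [F.sq, F.sq2, one_mul, mul_one]
    _ = q * (q * p * (q * p)) * p := by group
    _ = q * p := by rw [F.sq3, mul_one]

theorem ne2 : p ≠ 1 := fun h => F.ne (by
  have := F.cj; rw [h, mul_inv_eq_one, mul_eq_left] at this; exact this)

theorem rot : Four b p (q * p) :=
  ⟨F.ne2, F.sq2, F.pr, by rw [← conj_mul, F.cj, F.pr]⟩

theorem cj3 : b * (q * p) * b⁻¹ = q := by
  rw [F.rot.pr, ← mul_assoc, F.comm, mul_assoc, F.sq2, mul_one]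

theorem a1 (v : V) : ρ p (ρ b v) = ρ b (ρ q v) := by
  rw [← mu, ← F.cj, inv_mul_cancel_right, mu]

theorem a3 (v : V) : ρ q (ρ b v) = ρ b (ρ q (ρ p v)) := by
  conv_lhs => rw [← mu, ← F.cj3, inv_mul_cancel_right, mu, mu]

theorem qq (v : V) : ρ q (ρ q v) = v := by rw [← mu, F.sq, on]

theorem pp (v : V) : ρ p (ρ p v) = v := by rw [← mu, F.sq2, on]

theorem pq (v : V) : ρ p (ρ q v) = ρ q (ρ p v) := by rw [← mu, F.comm, mu]

end Four

/-- the displacement space of `b` has dimension at most two -/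
def Dep (ρ : Representation k G V) (b : G) : Prop :=
  ∀ x y z : V, ∃ a c d : k, (a ≠ 0 ∨ c ≠ 0 ∨ d ≠ 0) ∧
    a • (ρ b x - x) + c • (ρ b y - y) + d • (ρ b z - z) = 0

/-- a vector on the first line of the four-group -/
structure Ln (ρ : Representation k G V) (b q p : G) (e : V) : Prop extends Four b q p where
  b3 : b * b * b = 1
  dep : Dep ρ b
  e0 : e ≠ 0
  q1 : ρ q e = e
  p1 : ρ p e = -e

theorem ext_of (hρ : Function.Injective ρ) {g h : G} (e : ∀ v, ρ g v = ρ h v) : g = h :=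
  hρ (LinearMap.ext e)

theorem Four.exists_ln {b q p : G} (F : Four b q p) (h0 : ∃ v, ρ q v ≠ v) (b3 : b * b * b = 1)
    (dep : Dep ρ b) : ∃ e : V, Ln ρ b q p e := by
  obtain ⟨v, hv⟩ := h0
  obtain ⟨u, hu, hq⟩ : ∃ u : V, u ≠ 0 ∧ ρ q u = -u :=
    ⟨v - ρ q v, sub_ne_zero.2 hv.symm, by rw [map_sub, F.qq, neg_sub]⟩
  by_cases h : u - ρ p u = 0
  · have h' : ρ p u = u := (sub_eq_zero.1 h).symm
    refine ⟨ρ b (ρ b u), F, b3, dep, fun c => hu (sm0 (sm0 c)), ?_, ?_⟩
    · simp only [F.a3, F.a1, hq, h', map_neg, neg_neg]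
    · simp only [F.a3, F.a1, hq, h', map_neg]
  · have h1 : ρ q (u - ρ p u) = -(u - ρ p u) := by rw [map_sub, ← F.pq, hq, map_neg]; abel
    have h2 : ρ p (u - ρ p u) = -(u - ρ p u) := by rw [map_sub, F.pp, neg_sub]
    refine ⟨ρ b (u - ρ p u), F, b3, dep, fun c => h (sm0 c), ?_, ?_⟩
    · rw [F.a3, h2, map_neg, h1, neg_neg]
    · rw [F.a1, h1, map_neg]

theorem moves (hρ : Function.Injective ρ) {q : G} (h : q ≠ 1) : ∃ v, ρ q v ≠ v := by
  by_contra c
  push Not at c
  exact h (ext_of hρ fun v => by rw [c, on])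

namespace Ln
variable {b q p : G} {e : V} (L : Ln ρ b q p e)
include L

theorem bbb (v : V) : ρ b (ρ b (ρ b v)) = v := by rw [← mu, ← mu, L.b3, on]

theorem q2 : ρ q (ρ b e) = -ρ b e := by rw [L.a3, L.p1, map_neg, L.q1, map_neg]
theorem p2 : ρ p (ρ b e) = ρ b e := by rw [L.a1, L.q1]
theorem q3 : ρ q (ρ b (ρ b e)) = -ρ b (ρ b e) := by rw [L.a3, L.p2, L.q2, map_neg]
theorem p3 : ρ p (ρ b (ρ b e)) = -ρ b (ρ b e) := by rw [L.a1, L.q2, map_neg]

theorem rot : Ln ρ b p (q * p) (ρ b e) :=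
  ⟨L.toFour.rot, L.b3, L.dep, fun c => L.e0 (sm0 c), L.p2, by rw [mu, L.p2, L.q2]⟩

theorem be : ρ b e ≠ e := fun h => L.e0 (neg0 (by
  have := L.p2; rw [h, L.p1] at this; exact this.symm))

theorem ind {v : V} {x y z : k} (h1 : ρ q v = v) (h2 : ρ p v = v)
    (h : v + x • e + y • ρ b e + z • ρ b (ρ b e) = 0) : v = 0 ∧ x = 0 ∧ y = 0 ∧ z = 0 := by
  have a := congrArg (ρ q) h
  have c := congrArg (ρ p) h
  simp only [map_add, map_smul, h1, h2, L.q1, L.q2, L.q3, L.p1, L.p2, L.p3, map_zero] at a c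
  have d := congrArg (ρ q) c
  simp only [map_add, map_smul, map_neg, h1, L.q1, L.q2, L.q3, map_zero] at d
  have e1 : x • e = 0 := by linear_combination (norm := module) h + a - c - d - t3 (x • e)
  have e2 : y • ρ b e = 0 := by
    linear_combination (norm := module) h - a + c - d - t3 (y • ρ b e)
  have e3 : z • ρ b (ρ b e) = 0 := by
    linear_combination (norm := module) h - a - c + d - t3 (z • ρ b (ρ b e))
  refine ⟨by linear_combination (norm := module) h + a + c + d - t3 v, ?_, ?_, ?_⟩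
  · exact (smul_eq_zero.1 e1).resolve_right L.e0
  · exact (smul_eq_zero.1 e2).resolve_right L.rot.e0
  · exact (smul_eq_zero.1 e3).resolve_right L.rot.rot.e0

theorem line {w : V} (h1 : ρ q w = w) (h2 : ρ p w = -w) : ∃ c : k, w = c • e := by
  obtain ⟨a, c, d, hn, h⟩ := L.dep e (ρ b e) w
  have w1 : ρ q (ρ b w) = -ρ b w := by rw [L.a3, h2, map_neg, h1, map_neg]
  have w2 : ρ p (ρ b w) = ρ b w := by rw [L.a1, h1]
  have x := congrArg (ρ q) h
  have y := congrArg (ρ p) h
  simp only [map_add, map_sub, map_smul, h1, h2, w1, w2, L.q1, L.q2, L.q3, L.p1, L.p2, L.p3,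
    map_zero] at x y
  have z := congrArg (ρ q) y
  simp only [map_add, map_sub, map_smul, map_neg, h1, w1, L.q1, L.q2, L.q3, map_zero] at z
  have e3 : c • ρ b (ρ b e) = 0 := by
    linear_combination (norm := module) h - x - y + z - t3 (c • ρ b (ρ b e))
  have e1 : a • e + d • w = 0 := by
    linear_combination (norm := module) -h - x + y + z - t3 (a • e + d • w)
  have c0 := (smul_eq_zero.1 e3).resolve_right L.rot.rot.e0
  rcases k3 d with rfl | rfl | rfl
  · rw [zero_smul, add_zero] at e1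
    have := (smul_eq_zero.1 e1).resolve_right L.e0
    simp [this, c0] at hn
  · exact ⟨-a, by linear_combination (norm := module) e1⟩
  · exact ⟨a, by linear_combination (norm := module) -e1⟩

theorem line' {w : V} (h0 : w ≠ 0) (h1 : ρ q w = w) (h2 : ρ p w = -w) : w = e ∨ w = -e := by
  obtain ⟨c, rfl⟩ := L.line h1 h2
  rcases k3 c with rfl | rfl | rfl <;> simp at h0 ⊢

theorem rng (v : V) : ∃ α β : k, ρ b v - v = α • (ρ b e - e) + β • (ρ b (ρ b e) - ρ b e) := by
  obtain ⟨a, c, d, hn, h⟩ := L.dep e (ρ b e) v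
  rcases k3 d with rfl | rfl | rfl
  · obtain ⟨-, h1, -, h3⟩ := L.ind (v := 0) (x := -a) (y := a - c) (z := c) (map_zero _)
      (map_zero _) (by linear_combination (norm := module) h)
    simp [neg_eq_zero.1 h1, h3] at hn
  · exact ⟨-a, -c, by linear_combination (norm := module) h⟩
  · exact ⟨a, c, by linear_combination (norm := module) -h⟩

theorem fixb {v : V} (h1 : ρ q v = v) (h2 : ρ p v = v) : ρ b v = v := by
  obtain ⟨α, β, h⟩ := L.rng v
  exact sub_eq_zero.1 (L.ind (v := ρ b v - v) (x := α) (y := β - α) (z := -β)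
    (by rw [map_sub, L.a3, h2, h1]) (by rw [map_sub, L.a1, h1, h2])
    (by linear_combination (norm := module) h)).1

theorem dec (v : V) : ∃ (u : V) (x y z : k), ρ q u = u ∧ ρ p u = u ∧
    v = u + x • e + y • ρ b e + z • ρ b (ρ b e) := by
  obtain ⟨x, hx⟩ := L.line (w := v + ρ q v - ρ p v - ρ q (ρ p v))
    (by simp only [map_add, map_sub, L.qq]; abel)
    (by simp only [map_add, map_sub, L.pq, L.pp]; abel)
  obtain ⟨y, hy⟩ := L.rot.line (w := v - ρ q v + ρ p v - ρ q (ρ p v))
    (by simp only [map_add, map_sub, L.pq, L.pp]; abel)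
    (by simp only [mu, map_add, map_sub, L.pq, L.pp, L.qq]; abel)
  obtain ⟨z, hz⟩ := L.rot.rot.line (w := v - ρ q v - ρ p v + ρ q (ρ p v))
    (by simp only [mu, map_add, map_sub, L.pq, L.pp, L.qq]; abel)
    (by simp only [mu, map_add, map_sub, L.pq, L.pp, L.qq]; abel)
  refine ⟨v + ρ q v + ρ p v + ρ q (ρ p v), x, y, z, ?_, ?_, ?_⟩
  · simp only [map_add, L.qq]; abel
  · simp only [map_add, L.pq, L.pp]; abel
  · linear_combination (norm := module) hx + hy + hz - t3 v

theorem negq {v : V} (h : ρ q v = -v) : ∃ y z : k, v = y • ρ b e + z • ρ b (ρ b e) := by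
  obtain ⟨u, x, y, z, h1, h2, rfl⟩ := L.dec v
  simp only [map_add, map_smul, h1, L.q1, L.q2, L.q3] at h
  exact ⟨y, z, by linear_combination (norm := module) -h + t3 (u + x • e)⟩

theorem cq {g : G} (h1 : g * q = q * g) (h2 : g * p = p * g) : ρ g e = e ∨ ρ g e = -e :=
  L.line' (fun c => L.e0 (sm0 c)) (by rw [← mu, ← h1, mu, L.q1])
    (by rw [← mu, ← h2, mu, L.p1, map_neg])

/-- an element of order prime to six centralized by `q` and inverted by `p` is trivial -/
theorem odd (hρ : Function.Injective ρ) {a : G} {l : ℕ} (hl : a ^ l = 1) (c : l.Coprime 24)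
    (h1 : q * a = a * q) (h2 : p * a = a⁻¹ * p) : a = 1 := by
  have qa : ∀ v : V, ρ q (ρ a v) = ρ a (ρ q v) := fun v => by rw [← mu, h1, mu]
  have qa' : ∀ v : V, ρ q (ρ a⁻¹ v) = ρ a⁻¹ (ρ q v) := fun v => by
    apply inj (ρ := ρ) (g := a); rw [← qa, vi, vi]
  have pa : ∀ v : V, ρ p (ρ a v) = ρ a⁻¹ (ρ p v) := fun v => by rw [← mu, h2, mu]
  have pa' : ∀ v : V, ρ p (ρ a⁻¹ v) = ρ a (ρ p v) := fun v => by
    apply inj (ρ := ρ) (g := a⁻¹); rw [← pa, vi, iv]
  obtain ⟨α, β, s1⟩ := L.negq (v := ρ a (ρ b e)) (by rw [qa, L.q2, map_neg])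
  obtain ⟨γ, δ, s2⟩ := L.negq (v := ρ a (ρ b (ρ b e))) (by rw [qa, L.q3, map_neg])
  obtain ⟨f2, f3⟩ := plane hl c s1 s2
  obtain ⟨d, hd⟩ := L.line (w := ρ a e + ρ a⁻¹ e) (by rw [map_add, qa, qa', L.q1])
    (by rw [map_add, pa, pa', L.p1, map_neg, map_neg]; abel)
  have hd' := congrArg (ρ a) hd
  simp only [map_add, vi, map_smul] at hd'
  have f1 := (plane (ρ := ρ) (u := e) (w := ρ a e) (α := 0) (β := 1) (γ := -1) (δ := d) hl c
    (by module) (by linear_combination (norm := module) hd')).1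
  refine ext_of hρ fun v => ?_
  obtain ⟨u, x, y, z, u1, u2, rfl⟩ := L.dec v
  obtain ⟨t, ht⟩ := L.line (w := ρ a u - ρ a⁻¹ u) (by rw [map_sub, qa, qa', u1])
    (by rw [map_sub, pa, pa', u2, neg_sub])
  have h := congrArg (ρ a) ht
  simp only [map_sub, vi, map_smul, f1] at h
  have h' : ρ a (ρ a u) = u + t • e := by linear_combination (norm := module) h
  have f0 : ρ a u = u := fix_cop (m := l) (n := 6) (by rw [hl, on]) (by
    simp only [pow_succ, pow_zero, one_mul, mu, h', map_add, map_smul, f1]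
    linear_combination (norm := module) t3 (t • e)) (c.coprime_dvd_right (by norm_num))
  simp only [map_add, map_smul, f0, f1, f2, f3, on]

end Ln

end CL.J3
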