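import Cfsg.Agent.FGS.J3A

/-! Elements of order three with one Jordan block of size three on a space over `F₃`: the
irreducible setting, odd normal subgroups and the monomial case. -/

set_option autoImplicit false
set_option linter.unusedSectionVars false
open Subgroup Cfsg

namespace CL.J3

variable {G V : Type*} [Group G] [AddCommGroup V] [Module k V] {ρ : Representation k G V}

/-- `G = R⟨b⟩` acts faithfully and irreducibly -/
structure St (ρ : Representation k G V) (R : Subgroup G) (b : G) : Prop where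
  inj : Function.Injective ρ
  irr : ∀ N : Submodule k V, (∀ g, ∀ v ∈ N, ρ g v ∈ N) → N = ⊥ ∨ N = ⊤
  nR : R.Normal
  cop : ¬ 3 ∣ Nat.card R
  b3 : b * b * b = 1
  comm : R ≤ ⁅R, zpowers b⁆
  top : R ⊔ zpowers b = ⊤
  dep : Dep ρ b
  four : ∃ q p, q ∈ R ∧ Four b q p

theorem zp3 {b β : G} (b3 : b * b * b = 1) (h : β ∈ zpowers b) : β = 1 ∨ β = b ∨ β = b * b := by
  let K : Subgroup G :=
    { carrier := {x | x = 1 ∨ x = b ∨ x = b * b}
      one_mem' := Or.inl rfl
      mul_mem' := by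
        rintro _ _ (rfl | rfl | rfl) (rfl | rfl | rfl) <;>
          simp [← mul_assoc, b3]
      inv_mem' := by
        rintro _ (rfl | rfl | rfl)
        · simp
        · exact Or.inr (Or.inr (inv_eq_of_mul_eq_one_left b3))
        · exact Or.inr (Or.inl (inv_eq_of_mul_eq_one_right b3)) }
  exact (zpowers_le (H := K)).2 (Or.inr (Or.inl rfl)) h

theorem fin4 [Finite V] (a b c d : V) (h : Submodule.span k {a, b, c, d} = ⊤) :
    Module.finrank k V ≤ 4 := by
  have := finrank_le_of_span_eq_top (R := k) (v := ![a, b, c, d]) (by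
    rw [← h]; congr 1; ext x; simp [eq_comm]; tauto)
  simpa using this

theorem span_inv {s : Set V} {d : G} (h : ∀ x ∈ s, ρ d x ∈ Submodule.span k s) :
    ∀ v ∈ Submodule.span k s, ρ d v ∈ Submodule.span k s := fun v hv =>
  (Submodule.span_le (p := (Submodule.span k s).comap (ρ d))).2 h hv

namespace St
variable {R : Subgroup G} {b : G} (S : St ρ R b)
include S

theorem ln {q p : G} (F : Four b q p) : ∃ e : V, Ln ρ b q p e :=
  F.exists_ln (moves S.inj F.ne) S.b3 S.dep

theorem le_of_comm {K : Subgroup G} (hK : ∀ x ∈ K, b * x * b⁻¹ ∈ K)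
    (h : ∀ r ∈ R, r * b * r⁻¹ * b⁻¹ ∈ K) : R ≤ K := by
  refine S.comm.trans (commutator_le.2 fun r hr β hβ => ?_)
  rcases zp3 S.b3 hβ with rfl | rfl | rfl
  · simp
  · exact h r hr
  · have := mul_mem (h r hr) (hK _ (h r hr))
    convert this using 1
    rw [commutatorElement_def]; group

theorem genD {K : Subgroup G} (h : ∀ g, g * b * g⁻¹ ∈ K) : K = ⊤ := by
  have hb : b ∈ K.normalCore := h
  have n : K.normalCore.Normal := inferInstance
  rw [eq_top_iff, ← S.top]
  exact (sup_le (S.le_of_comm (fun x hx => n.conj_mem x hx b) fun r _ =>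
    mul_mem (n.conj_mem b hb r) (inv_mem hb)) (zpowers_le.2 hb)).trans K.normalCore_le

theorem cen_of_b {A : Subgroup G} (hA : A.Normal) (h : ∀ a ∈ A, b * a = a * b) : A ≤ center G := by
  have : centralizer (A : Set G) = ⊤ := S.genD fun g => mem_centralizer_iff.2 fun a ha => by
    have := h _ (hA.conj_mem a ha g⁻¹)
    calc a * (g * b * g⁻¹) = g * (g⁻¹ * a * g⁻¹⁻¹ * b) * g⁻¹ := by group
      _ = _ := by rw [← this]; group
  exact fun a ha => mem_center_iff.2 fun g => (mem_centralizer_iff.1 (this ▸ mem_top g) a ha).symm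

theorem dcmp (g : G) : ∃ r ∈ R, g = r ∨ g = r * b ∨ g = r * (b * b) := by
  have := S.nR
  obtain ⟨r, hr, β, hβ, rfl⟩ := mem_sup_of_normal_left.1 (S.top ▸ mem_top g)
  rcases zp3 S.b3 hβ with rfl | rfl | rfl <;> exact ⟨r, hr, by simp⟩

theorem memR (g : G) : g * b * g⁻¹ * b⁻¹ ∈ R := by
  obtain ⟨r, hr, rfl | rfl | rfl⟩ := S.dcmp g <;>
    convert mul_mem hr (S.nR.conj_mem _ (inv_mem hr) b) using 1 <;> group

theorem memR2 (g h : G) : (g * b * g⁻¹)⁻¹ * (h * b * h⁻¹) ∈ R := by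
  convert S.nR.conj_mem _ (mul_mem (inv_mem (S.memR g)) (S.memR h)) b⁻¹ using 1
  group

theorem fix3 [Finite G] {r : G} (hr : r ∈ R) {v : V} (h : ρ r (ρ r (ρ r v)) = v) : ρ r v = v :=
  fix_cop (m := 3) (n := Nat.card R) (by simp only [pow_succ, pow_zero, one_mul, mu, h])
    (by rw [show r ^ Nat.card R = 1 from
      congrArg Subtype.val (pow_card_eq_one' (G := R) (x := ⟨r, hr⟩)), on])
    ((Nat.Prime.coprime_iff_not_dvd Nat.prime_three).2 S.cop)

theorem d3 (g : G) (v : V) :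
    ρ (g * b * g⁻¹) (ρ (g * b * g⁻¹) (ρ (g * b * g⁻¹) v)) = v := by
  rw [← mu, ← mu, conj_mul, conj_mul, S.b3, mul_one, mul_inv_cancel, on]

theorem inv_of_D {W : Submodule k V} (h : ∀ g, ∀ v ∈ W, ρ (g * b * g⁻¹) v ∈ W) :
    W = ⊥ ∨ W = ⊤ := by
  let K : Subgroup G :=
    { carrier := {g | ∀ v, v ∈ W ↔ ρ g v ∈ W}
      one_mem' := fun v => by rw [on]
      mul_mem' := fun {x y} hx hy v => by rw [mu, ← hx, ← hy]
      inv_mem' := fun {x} hx v => by rw [hx (ρ x⁻¹ v), vi] }
  have : K = ⊤ := S.genD fun g v => ⟨h g v, fun c => S.d3 g v ▸ h g _ (h g _ c)⟩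
  exact S.irr W fun g v hv => ((this ▸ mem_top g : g ∈ K) v).1 hv

theorem fix_all {A : Subgroup G} (hA : A.Normal) {v : V} (hv : v ≠ 0) (h : ∀ a ∈ A, ρ a v = v) :
    A = ⊥ := by
  let W : Submodule k V :=
    { carrier := {v | ∀ a ∈ A, ρ a v = v}
      zero_mem' := fun a _ => map_zero _
      add_mem' := fun hx hy a ha => by rw [map_add, hx a ha, hy a ha]
      smul_mem' := fun c x hx a ha => by rw [map_smul, hx a ha] }
  rcases S.irr W (fun g x hx a ha => by
    have := hx _ (hA.conj_mem a ha g⁻¹)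
    rw [inv_inv, mu, mu] at this
    conv_rhs => rw [← this, vi]) with e | e
  · exact absurd ((Submodule.mem_bot k).1 (e ▸ (h : v ∈ W))) hv
  · exact eq_bot_iff.2 fun a ha => ext_of S.inj fun x => by
      rw [(e ▸ Submodule.mem_top : x ∈ W) a ha, on]

theorem cen {g : G} (hg : g ∈ center G) : g = 1 ∨ ∀ v, ρ g v = -v := by
  obtain ⟨q, p, -, F⟩ := S.four
  obtain ⟨e, L⟩ := S.ln F
  have key : ∀ c : k, ρ g e = c • e → ∀ v, ρ g v = c • v := fun c h v => by
    rcases S.irr (LinearMap.ker (ρ g - c • LinearMap.id)) (fun x y hy => by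
      simp only [LinearMap.mem_ker, LinearMap.sub_apply, LinearMap.smul_apply, LinearMap.id_apply,
        sub_eq_zero] at hy ⊢
      rw [← mu, ← mem_center_iff.1 hg, mu, hy, map_smul]) with e' | e'
    · exact absurd ((Submodule.mem_bot k).1 (e' ▸ (by simp [h]))) L.e0
    · have : v ∈ LinearMap.ker (ρ g - c • LinearMap.id) := e' ▸ Submodule.mem_top
      simpa [sub_eq_zero] using this
  rcases L.cq (mem_center_iff.1 hg q).symm (mem_center_iff.1 hg p).symm with h | h
  · exact Or.inl (ext_of S.inj fun v => by rw [key 1 (by simpa), one_smul, on])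
  · exact Or.inr fun v => by rw [key (-1) (by simpa), neg_one_smul]

theorem cen_sq {g : G} (hg : g ∈ center G) : g * g = 1 := by
  rcases S.cen hg with rfl | h
  · exact one_mul 1
  · exact ext_of S.inj fun v => by rw [mu, h, h, neg_neg, on]

theorem cen_eq {g z : G} (hg : g ∈ center G) (hz : ∀ v, ρ z v = -v) : g = 1 ∨ g = z :=
  (S.cen hg).imp_right fun h => ext_of S.inj fun v => by rw [h, hz]

theorem b_nc : b ∉ center G := fun h => by
  obtain ⟨q, p, -, F⟩ := S.four
  have := F.cj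
  rw [← mem_center_iff.1 h q, mul_inv_cancel_right] at this
  exact F.rot.ne2 (by rw [← this, F.sq])

theorem oddcore [Finite G] [Group.IsSolvable G] : pPrimeCore 2 G = ⊥ := by
  by_contra hn
  obtain ⟨A, hA, hle⟩ := CL.exists_isMinNormal_le _ hn
  obtain ⟨l, hl, hab, hp⟩ := hA.exists_isElementaryAbelian_of_isSolvable inferInstance
  have cm : ∀ x ∈ A, ∀ y ∈ A, x * y = y * x := fun x hx y hy => setLike_mul_comm hx hy
  have nA := hA.normal
  obtain ⟨q, p, hq, F⟩ := S.four
  obtain ⟨e, L⟩ := S.ln F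
  have l2 : l ≠ 2 := by
    rintro rfl
    obtain ⟨a, ha, a1⟩ := (A.bot_or_exists_ne_one).resolve_left hA.ne_bot
    have := orderOf_eq_prime (hp a ha) a1
    exact CL.not_dvd_card_pPrimeCore 2 G (this ▸ (pPrimeCore 2 G).orderOf_dvd_natCard (hle ha))
  by_cases hc : ∀ a ∈ A, a * p = p * a
  · refine hA.ne_bot (S.fix_all nA L.e0 fun a ha => fix_cop (m := 2) (n := l) ?_
      (by rw [hp a ha, on]) ((Nat.coprime_primes Nat.prime_two hl).2 l2.symm))
    have h1 : a * q = q * a := by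
      have := hc _ (nA.conj_mem a ha b)
      rw [← F.cj, conj_mul, conj_mul] at this
      simpa using this
    rcases L.cq h1 (hc a ha) with h | h <;> simp [pow_two, h]
  push Not at hc
  obtain ⟨a, ha, hap⟩ := hc
  have hpR : p ∈ R := F.cj ▸ S.nR.conj_mem q hq b
  have pi : p⁻¹ = p := inv_eq_of_mul_eq_one_right F.sq2
  have qi : q⁻¹ = q := inv_eq_of_mul_eq_one_right F.sq
  obtain ⟨x, hx, hxR, x1, xp⟩ : ∃ x ∈ A, x ∈ R ∧ x ≠ 1 ∧ p * x * p⁻¹ = x⁻¹ := by
    refine ⟨a⁻¹ * (p * a * p⁻¹), mul_mem (inv_mem ha) (nA.conj_mem a ha p), ?_, fun h => hap ?_, ?_⟩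
    · convert mul_mem (S.nR.conj_mem p hpR a⁻¹) (inv_mem hpR) using 1; group
    · rw [inv_mul_eq_one, eq_mul_inv_iff_mul_eq] at h; exact h
    · rw [← conj_mul, show p * (p * a * p⁻¹) * p⁻¹ = (p * p) * a * (p * p)⁻¹ by group, F.sq2]
      group
  have l3 : l ≠ 3 := by
    rintro rfl
    have : Fact (Nat.Prime 3) := ⟨hl⟩
    exact S.cop (orderOf_eq_prime (hp x hx) x1 ▸ R.orderOf_dvd_natCard hxR)
  have c24 : l.Coprime 24 := by
    rw [show 24 = 2 ^ 3 * 3 from rfl]
    exact (((Nat.coprime_primes hl Nat.prime_two).2 l2).pow_right 3).mul_right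
      ((Nat.coprime_primes hl Nat.prime_three).2 l3)
  have hy : q * x * q⁻¹ ∈ A := nA.conj_mem x hx q
  by_cases h : x * (q * x * q⁻¹) = 1
  · refine x1 (L.rot.rot.odd S.inj (hp x hx) c24 ?_ ?_)
    · rw [← mul_inv_eq_iff_eq_mul, mul_inv_rev,
        show q * p * x * (p⁻¹ * q⁻¹) = q * (p * x * p⁻¹) * q⁻¹ by group, xp, ← conj_inv]
      exact (eq_inv_of_mul_eq_one_left h).symm
    · rw [← mul_assoc p, F.comm, mul_assoc q p p, F.sq2, mul_one, ← mul_inv_eq_iff_eq_mul]
      exact eq_inv_of_mul_eq_one_right h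
  · refine h (L.odd S.inj (hp _ (mul_mem hx hy)) c24 ?_ ?_)
    · rw [← mul_inv_eq_iff_eq_mul, ← conj_mul,
        show q * (q * x * q⁻¹) * q⁻¹ = (q * q) * x * (q * q)⁻¹ by group, F.sq, cm x hx _ hy]
      group
    · rw [← mul_inv_eq_iff_eq_mul, ← conj_mul,
        show p * (q * x * q⁻¹) * p⁻¹ = (p * q) * x * (p * q)⁻¹ by group, F.comm,
        show q * p * x * (q * p)⁻¹ = q * (p * x * p⁻¹) * q⁻¹ by group, xp, cm x hx _ hy]
      group

end St

end CL.J3
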