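import Cfsg.Agent.FGS.J3B

/-! Elements of order three with one Jordan block of size three on a space over `F₃`: the monomial
case. -/

set_option autoImplicit false
set_option linter.unusedSectionVars false
open Subgroup Cfsg

namespace CL.J3

variable {G V : Type*} [Group G] [AddCommGroup V] [Module k V] {ρ : Representation k G V}

theorem iq {g : G} {x y : V} (h : ρ g x = y) : ρ g⁻¹ y = x := by rw [← h, iv]

/-- `w` lies on one of the three lines through `v`, `d v`, `d² v` -/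
def Sp (ρ : Representation k G V) (d : G) (v w : V) : Prop :=
  w = v ∨ w = -v ∨ w = ρ d v ∨ w = -ρ d v ∨ w = ρ d (ρ d v) ∨ w = -ρ d (ρ d v)

theorem Sp.mem {d : G} {v w : V} (h : Sp ρ d v w) {W : Submodule k V} (h1 : v ∈ W)
    (h2 : ρ d v ∈ W) (h3 : ρ d (ρ d v) ∈ W) : w ∈ W := by
  rcases h with h | h | h | h | h | h <;> simp [h, h1, h2, h3]

/-- an invariant set of vectors on whose lines the conjugates of `b` act as `3`-cycles -/
structure Mo (ρ : Representation k G V) (b : G) (X : Set V) : Prop where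
  inv : ∀ g, ∀ v ∈ X, ρ g v ∈ X
  ne : ∀ v ∈ X, v ≠ 0
  sp : ∀ d, IsConj b d → ∀ v ∈ X, ∀ w ∈ X, ρ d v ≠ v → ρ d w ≠ w → Sp ρ d v w

namespace St
variable {R : Subgroup G} {b : G} (S : St ρ R b)
include S

theorem c3 {d : G} (h : IsConj b d) (v : V) : ρ d (ρ d (ρ d v)) = v := by
  obtain ⟨g, rfl⟩ := isConj_iff.1 h
  exact S.d3 g v

theorem cR {d d' : G} (h : IsConj b d) (h' : IsConj b d') : d⁻¹ * d' ∈ R := by
  obtain ⟨g, rfl⟩ := isConj_iff.1 h
  obtain ⟨g', rfl⟩ := isConj_iff.1 h'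
  exact S.memR2 g g'

theorem nn {d : G} (h : IsConj b d) {v : V} (e : ρ d v = -v) : v = 0 :=
  neg0 (by have := S.c3 h v; simp only [e, map_neg, neg_neg] at this; exact this.symm)

theorem two [Finite G] {X : Set V} (M : Mo ρ b X) {d d' : G} (hd : IsConj b d) (hd' : IsConj b d')
    {v : V} (hv : v ∈ X) (m : ρ d' v ≠ v) (f1 : ρ d (ρ d' v) = ρ d' v) : ρ d v ≠ v := fun f0 => by
  obtain ⟨y, hy⟩ : ∃ y, ρ d' (ρ d' v) = y := ⟨_, rfl⟩
  have yv : ρ d' y = v := by rw [← hy, S.c3 hd']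
  have yX : y ∈ X := hy ▸ M.inv _ _ (M.inv _ _ hv)
  have ne : v ≠ y := fun c => m (by rw [← c] at yv; exact yv)
  by_cases fy : ρ d y = y
  · have := S.fix3 (S.cR hd' hd) (v := v) (by
      simp only [mu, f0, iq yv, fy, iq hy, f1, iv])
    rw [mu, f0, iq yv] at this
    exact ne this.symm
  have fx : ∀ w ∈ X, ρ d w ≠ w → w ≠ y → w ≠ -y → ρ d' w = w := fun w hw a1 a2 a3 => by
    by_contra c
    rcases M.sp d' hd' v hv w hw m c with h | h | h | h | h | h
    · exact a1 (by rw [h, f0])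
    · exact a1 (by rw [h, map_neg, f0])
    · exact a1 (by rw [h, f1])
    · exact a1 (by rw [h, map_neg, f1])
    · exact a2 (by rw [h, hy])
    · exact a3 (by rw [h, hy])
  have y3 := S.c3 hd y
  have ff := fx _ (M.inv d y yX) (fun c => fy (J3.inj c)) fy fun c => M.ne y yX (S.nn hd c)
  have n1 : ρ d (ρ d y) ≠ y := fun c => fy (by rw [c] at y3; exact y3)
  have fh := fx _ (M.inv d _ (M.inv d y yX)) (by rw [y3]; exact n1.symm) n1 fun c =>
    M.ne y yX (S.nn hd (by rw [c, map_neg] at y3; exact neg_eq_iff_eq_neg.1 y3))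
  have hk : d' * d * d'⁻¹ * d⁻¹ ∈ R := by
    convert S.nR.conj_mem _ (S.cR hd (hd.trans (isConj_iff.2 ⟨d', rfl⟩))) d using 1
    group
  have k1 : ρ (d' * d * d'⁻¹ * d⁻¹) y = v := by simp only [mu, iq y3, iq fh, y3, yv]
  have k2 : ρ (d' * d * d'⁻¹ * d⁻¹) v = ρ d y := by simp only [mu, iq f0, iq yv, ff]
  have k3 : ρ (d' * d * d'⁻¹ * d⁻¹) (ρ d y) = y := by simp only [mu, iv, iq hy, f1, hy]
  exact ne (k1.symm.trans (S.fix3 hk (by rw [k1, k2, k3])))

theorem mo_dim [Finite G] [Finite V] {X : Set V} (M : Mo ρ b X) {e : V} (he : e ∈ X)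
    (m : ρ b e ≠ e) : Module.finrank k V ≤ 4 := by
  have hb : IsConj b b := IsConj.refl b
  have top : ∀ s : Set V, e ∈ s → (∀ d, IsConj b d → ∀ x ∈ s, ρ d x ∈ Submodule.span k s) →
      Submodule.span k s = ⊤ := fun s hs h =>
    (S.inv_of_D fun g => span_inv (h _ (isConj_iff.2 ⟨g, rfl⟩))).resolve_left fun c =>
      M.ne e he ((Submodule.mem_bot k).1 (c ▸ Submodule.subset_span hs))
  by_cases h : ∀ d, IsConj b d → ∀ x ∈ ({e, ρ b e, ρ b (ρ b e), e} : Set V),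
      ρ d x ∈ Submodule.span k ({e, ρ b e, ρ b (ρ b e), e} : Set V)
  · exact fin4 _ _ _ _ (top _ (by simp) h)
  push Not at h
  obtain ⟨d, hd, u, hu, hf⟩ := h
  set W := Submodule.span k ({e, ρ b e, ρ b (ρ b e), e} : Set V)
  have w1 : e ∈ W := Submodule.subset_span (by simp)
  have w2 : ρ b e ∈ W := Submodule.subset_span (by simp)
  have w3 : ρ b (ρ b e) ∈ W := Submodule.subset_span (by simp)
  have mvW : ∀ w ∈ X, ρ b w ≠ w → w ∈ W := fun w hw c => (M.sp b hb e he w hw m c).mem w1 w2 w3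
  have m2 : ρ b (ρ b e) ≠ ρ b e := fun c => m (J3.inj c)
  obtain ⟨uX, mu'⟩ : u ∈ X ∧ ρ b u ≠ u := by
    rcases hu with rfl | rfl | rfl | rfl
    exacts [⟨he, m⟩, ⟨M.inv _ _ he, m2⟩, ⟨M.inv _ _ (M.inv _ _ he), fun c => m2 (J3.inj c)⟩, ⟨he, m⟩]
  have uW := mvW u uX mu'
  have du : ρ d u ≠ u := fun c => hf (c.symm ▸ uW)
  have fX := M.inv d u uX
  have bf : ρ b (ρ d u) = ρ d u := by_contra fun c => hf (mvW _ fX c)
  have bh : ρ b (ρ d (ρ d u)) ≠ ρ d (ρ d u) := fun c =>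
    S.two M hb hd fX (fun c => du (J3.inj c)) c bf
  set U := Submodule.span k ({e, ρ b e, ρ b (ρ b e), ρ d u} : Set V)
  have WU : W ≤ U := Submodule.span_le.2 (by
    rintro x (rfl | rfl | rfl | rfl) <;> exact Submodule.subset_span (by simp))
  have fU : ρ d u ∈ U := Submodule.subset_span (by simp)
  have bU : ∀ v ∈ U, ρ b v ∈ U := span_inv (by
    rintro x (rfl | rfl | rfl | rfl)
    exacts [WU w2, WU w3, by rw [S.c3 hb]; exact WU w1, by rw [bf]; exact fU])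
  have mvU : ∀ w ∈ X, ρ d w ≠ w → w ∈ U := fun w hw c =>
    (M.sp d hd u uX w hw du c).mem (WU uW) fU (WU (mvW _ (M.inv _ _ fX) bh))
  obtain ⟨y, yX, my, dy⟩ : ∃ y ∈ X, ρ b y ≠ y ∧ ρ d y = y := by
    have m1 : ρ b (ρ b u) ≠ ρ b u := fun c => mu' (J3.inj c)
    have m2 : ρ b (ρ b (ρ b u)) ≠ ρ b (ρ b u) := fun c => m1 (J3.inj c)
    have x1 := M.inv b u uX
    have x2 := M.inv b _ x1
    by_contra c
    push Not at c
    have key : ∀ w ∈ X, ρ b w ≠ w → w ≠ u → w ≠ -u → w = ρ d (ρ d u) ∨ w = -ρ d (ρ d u) :=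
      fun w hw a1 a2 a3 => by
        rcases M.sp d hd u uX w hw du (c w hw a1) with h | h | h | h | h | h
        exacts [absurd h a2, absurd h a3, absurd (by rw [h, bf]) a1,
          absurd (by rw [h, map_neg, bf]) a1, Or.inl h, Or.inr h]
    have n1 : ρ b u ≠ -u := fun c => M.ne u uX (S.nn hb c)
    have u3 := S.c3 hb u
    have k1 := key _ x1 m1 mu' n1
    have k2 := key _ x2 m2 (fun c => mu' (by rw [c] at u3; exact u3)) fun c =>
      n1 (by rw [c, map_neg] at u3; exact neg_eq_iff_eq_neg.1 u3)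
    have n2 : ρ b (ρ b u) ≠ -ρ b u := fun c => M.ne _ x1 (S.nn hb c)
    rcases k1 with k1 | k1 <;> rcases k2 with k2 | k2
    · exact m1 (k2.trans k1.symm)
    · exact n2 (k2.trans (congrArg Neg.neg k1.symm))
    · exact n2 (k2.trans (neg_eq_iff_eq_neg.2 k1).symm)
    · exact m1 (k2.trans k1.symm)
  refine fin4 e (ρ b e) (ρ b (ρ b e)) (ρ d u)
    (top _ (by simp) fun d' hd' x hx => by_contra fun c => ?_)
  have xX : x ∈ X := by
    rcases hx with rfl | rfl | rfl | rfl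
    exacts [he, M.inv _ _ he, M.inv _ _ (M.inv _ _ he), fX]
  have mx : ρ d' x ≠ x := fun a => c (a.symm ▸ Submodule.subset_span hx)
  have kX := M.inv d' x xX
  have cj : ∀ g : G, (∀ v ∈ U, ρ g v ∈ U) → ρ d (ρ g⁻¹ x) ≠ ρ g⁻¹ x := fun g hg a =>
    S.two M (hd.trans (isConj_iff.2 ⟨g, rfl⟩)) hd' xX mx (by_contra fun a' => c (by
      have := hg _ (mvU _ (M.inv g⁻¹ _ kX) fun a'' => a' (by rw [mu, mu, a'', vi]))
      rwa [vi] at this)) (by rw [mu, mu, a, vi])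
  have bx := S.two M hb hd' xX mx (by_contra fun a => c (WU (mvW _ kX a)))
  have c0 := cj 1 fun v hv => by rwa [on]
  have c1 := cj b bU
  have c2 := cj (b * b) fun v hv => by rw [mu]; exact bU _ (bU _ hv)
  rw [inv_one, on] at c0
  rw [mul_inv_rev, mu] at c2
  rcases M.sp b hb y yX x xX my bx with rfl | rfl | rfl | rfl | rfl | rfl
  · exact c0 dy
  · exact c0 (by rw [map_neg, dy])
  · exact c1 (by rw [iv, dy])
  · exact c1 (by rw [map_neg, iv, map_neg, dy])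
  · exact c2 (by rw [iv, iv, dy])
  · exact c2 (by rw [map_neg, map_neg, iv, iv, map_neg, dy])

theorem mono [Finite G] [Finite V] {A : Subgroup G} (nA : A.Normal)
    (cm : ∀ x ∈ A, ∀ y ∈ A, x * y = y * x) {q p : G} (F : Four b q p) (hq : q ∈ A) :
    Module.finrank k V ≤ 4 := by
  obtain ⟨e, L⟩ := S.ln F
  have hp : p ∈ A := F.cj ▸ nA.conj_mem q hq b
  have x0 : ∀ g, ρ g e ≠ 0 := fun g c => L.e0 (sm0 c)
  have xs : ∀ a ∈ A, ∀ g, ρ a (ρ g e) = ρ g e ∨ ρ a (ρ g e) = -ρ g e := fun a ha g => by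
    have h := nA.conj_mem a ha g⁻¹
    have := L.cq (cm _ h q hq) (cm _ h p hp)
    rw [inv_inv, mu, mu] at this
    rcases this with c | c
    · exact Or.inl (by rw [← iq c, inv_inv])
    · exact Or.inr (by rw [← map_neg, ← iq c, inv_inv])
  have x2 : ∀ g, ρ b (ρ g e) ≠ ρ g e → Sp ρ b e (ρ g e) := fun g m => by
    rcases xs q hq g with h1 | h1 <;> rcases xs p hp g with h2 | h2
    · exact absurd (L.fixb h1 h2) m
    · rcases L.line' (x0 g) h1 h2 with h | h <;> simp [Sp, h]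
    · rcases L.rot.line' (x0 g) h2 (by rw [mu, h2, h1]) with h | h <;> simp [Sp, h]
    · rcases L.rot.rot.line' (x0 g) (by rw [mu, h2, map_neg, h1, neg_neg])
        (by rw [mu, mu, h2, map_neg, h1, neg_neg, h2]) with h | h <;> simp [Sp, h]
  refine S.mo_dim (X := {v | ∃ g, ρ g e = v}) ⟨?_, ?_, ?_⟩ ⟨1, on e⟩ L.be
  · rintro g _ ⟨h, rfl⟩
    exact ⟨g * h, mu _ _ _⟩
  · rintro _ ⟨h, rfl⟩
    exact x0 h
  · rintro d hd _ ⟨g, rfl⟩ _ ⟨h, rfl⟩ m1 m2
    obtain ⟨c, rfl⟩ := isConj_iff.1 hd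
    have a1 := x2 (c⁻¹ * g) fun a => m1 (by rw [mu, mu, ← mu c⁻¹, a, mu, vi])
    have a2 := x2 (c⁻¹ * h) fun a => m2 (by rw [mu, mu, ← mu c⁻¹, a, mu, vi])
    rw [← vi (ρ := ρ) c (ρ g e), ← vi (ρ := ρ) c (ρ h e), ← mu c⁻¹, ← mu c⁻¹]
    generalize ρ (c⁻¹ * g) e = v at a1
    generalize ρ (c⁻¹ * h) e = w at a2
    rcases a1 with rfl | rfl | rfl | rfl | rfl | rfl <;>
      rcases a2 with rfl | rfl | rfl | rfl | rfl | rfl <;>
      simp only [Sp, mu, iv, map_neg, neg_neg, L.bbb, true_or, or_true]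

end St

end CL.J3
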