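import Cfsg.Agent.FGS.J3C

/-! Elements of order three with one Jordan block of size three on a space over `F₃`: the space has
dimension at most four. -/

set_option autoImplicit false
set_option linter.unusedSectionVars false
open Subgroup Cfsg

namespace CL.J3

variable {G V : Type*} [Group G] [AddCommGroup V] [Module k V] {ρ : Representation k G V}

/-- `Ω₁ Z(N)` -/
def Om (N : Subgroup G) : Subgroup G where
  carrier := {x | x ∈ N ∧ x * x = 1 ∧ ∀ n ∈ N, x * n = n * x}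
  one_mem' := ⟨one_mem _, one_mul _, fun n _ => by simp⟩
  mul_mem' := fun {x y} hx hy => ⟨mul_mem hx.1 hy.1, by
    rw [mul_assoc, ← mul_assoc y, ← hx.2.2 y hy.1, mul_assoc, hy.2.1, mul_one, hx.2.1],
    fun n hn => by rw [mul_assoc, hy.2.2 n hn, ← mul_assoc, hx.2.2 n hn, mul_assoc]⟩
  inv_mem' := fun {x} hx => by rw [inv_eq_of_mul_eq_one_right hx.2.1]; exact hx

theorem Om_normal {N : Subgroup G} (h : N.Normal) : (Om N).Normal :=
  ⟨fun x hx g => ⟨h.conj_mem x hx.1 g, by rw [conj_mul, hx.2.1, mul_one, mul_inv_cancel],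
    fun n hn => by
      have := hx.2.2 _ (h.conj_mem n hn g⁻¹)
      calc g * x * g⁻¹ * n = g * (x * (g⁻¹ * n * g⁻¹⁻¹)) * g⁻¹ := by group
        _ = _ := by rw [this]; group⟩⟩

theorem exOm [Finite G] {K N : Subgroup G} (hN : IsPGroup 2 N) (KN : K ≤ N)
    (hn : ∀ n ∈ N, ∀ x ∈ K, n * x * n⁻¹ ∈ K) (h : K ≠ ⊥) : ∃ x ∈ K, x ≠ 1 ∧ x ∈ Om N := by
  have h1 := CL.inf_centralizer_ne_bot_of_isNilpotent hN.isNilpotent KN
    (fun n m => mem_normalizer_iff.2 fun x => ⟨hn n m x, fun c => by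
      simpa [mul_assoc] using hn _ (inv_mem m) _ c⟩) h
  have h2 : IsPGroup 2 ↥(K ⊓ centralizer (N : Set G)) := hN.to_le (inf_le_left.trans KN)
  obtain ⟨⟨x, hx⟩, o⟩ := exists_prime_orderOf_dvd_card' 2
    (h2.card_eq_or_dvd.resolve_left fun c => h1 (card_eq_one.1 c))
  rw [← orderOf_coe] at o
  refine ⟨x, hx.1, fun c => by simp [c] at o, KN hx.1, ?_, fun n m => ?_⟩
  · rw [← pow_two, ← o]; exact pow_orderOf_eq_one _
  · exact (mem_centralizer_iff.1 hx.2 n m).symm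

/-- the preimage in `N` of `Ω₁ Z(N Z(G) / Z(G))` -/
def PP (N : Subgroup G) : Subgroup G :=
  (Om (N.map (QuotientGroup.mk' (center G)))).comap (QuotientGroup.mk' (center G)) ⊓ N

theorem mem_PP {N : Subgroup G} {x : G} : x ∈ PP N ↔
    x ∈ N ∧ x * x ∈ center G ∧ ∀ n ∈ N, x * n * x⁻¹ * n⁻¹ ∈ center G := by
  have e : ∀ n, x * n * x⁻¹ * n⁻¹ ∈ center G ↔ QuotientGroup.mk' (center G) x *
      QuotientGroup.mk' (center G) n = QuotientGroup.mk' (center G) n *
      QuotientGroup.mk' (center G) x := fun n => by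
    rw [← QuotientGroup.eq_one_iff, ← commutatorElement_def, ← commutatorElement_eq_one_iff_mul_comm,
      ← map_commutatorElement]
    rfl
  refine ⟨fun h => ⟨h.2, (QuotientGroup.eq_one_iff _).1 h.1.2.1, fun n hn =>
    (e n).2 (h.1.2.2 _ (mem_map_of_mem _ hn))⟩, fun h => ⟨⟨mem_map_of_mem _ h.1,
      (QuotientGroup.eq_one_iff _).2 h.2.1, ?_⟩, h.1⟩⟩
  rintro _ ⟨n, hn, rfl⟩
  exact (e n).1 (h.2.2 n hn)

theorem PP_normal {N : Subgroup G} (h : N.Normal) : (PP N).Normal :=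
  have := (Om_normal (h.map _ (QuotientGroup.mk'_surjective (center G)))).comap
    (QuotientGroup.mk' (center G))
  normal_inf_normal _ _

theorem exPP [Finite G] {K N : Subgroup G} (hN : IsPGroup 2 N) (KN : K ≤ N)
    (hn : ∀ n ∈ N, ∀ x ∈ K, n * x * n⁻¹ ∈ K) (h : ¬ K ≤ center G) :
    ∃ x ∈ K, x ∉ center G ∧ x ∈ PP N := by
  obtain ⟨_, ⟨x, hx, rfl⟩, x1, ho⟩ := exOm (K := K.map (QuotientGroup.mk' (center G)))
    (hN.map (QuotientGroup.mk' (center G))) (map_mono KN) (by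
      rintro _ ⟨n, m, rfl⟩ _ ⟨x, hx, rfl⟩
      exact ⟨_, hn n m x hx, by simp⟩) (by rwa [Ne, Subgroup.map_eq_bot_iff, QuotientGroup.ker_mk'])
  exact ⟨x, hx, fun c => x1 ((QuotientGroup.eq_one_iff _).2 c), ho, KN hx⟩

theorem cz {c : G} (h : c ∈ center G) (x : G) : c * x = x * c := (mem_center_iff.1 h x).symm

theorem cjz {c : G} (h : c ∈ center G) (x : G) : x * c * x⁻¹ = c := by
  rw [← cz h, mul_inv_cancel_right]

theorem cjm (g x y : G) : g * (x * y) * g⁻¹ = g * x * g⁻¹ * (g * y * g⁻¹) := conj_mul.symm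

/-- the product of the three conjugates -/
def Tri (b u : G) : G := u * (b * u * b⁻¹) * (b * (b * u * b⁻¹) * b⁻¹)

namespace St
variable {R : Subgroup G} {b : G} (S : St ρ R b)
include S

theorem cj3 (x : G) : b * (b * (b * x * b⁻¹) * b⁻¹) * b⁻¹ = x := by
  rw [show b * (b * (b * x * b⁻¹) * b⁻¹) * b⁻¹ = (b * b * b) * x * (b * b * b)⁻¹ by group, S.b3]
  group

theorem fixmod {x : G} (h : b * x * b⁻¹ * x⁻¹ ∈ center G) : b * x = x * b := by
  obtain ⟨c, hc, e⟩ : ∃ c ∈ center G, b * x * b⁻¹ = c * x := ⟨_, h, by group⟩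
  have := S.cj3 x
  rw [e, cjm b c, cjz hc, e, ← mul_assoc c, S.cen_sq hc, one_mul] at this
  rw [← mul_inv_eq_iff_eq_mul, this]

theorem exU {N : Subgroup G} (nN : N.Normal) {x : G} (hx : x ∈ PP N) (m : b * x ≠ x * b) :
    ∃ u ∈ PP N, u ∉ center G ∧ Tri b u ∈ center G := by
  have s := (mem_PP.1 hx).2.1
  refine ⟨x * (b * x * b⁻¹), mul_mem hx ((PP_normal nN).conj_mem x hx b), fun c => m (S.fixmod ?_), ?_⟩
  · convert mul_mem ((inferInstance : (center G).Normal).conj_mem _ c x⁻¹) (inv_mem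
      ((inferInstance : (center G).Normal).conj_mem _ s x⁻¹)) using 1
    group
  · rw [Tri, cjm b x, cjm b (b * x * b⁻¹), S.cj3,
      show ∀ a c d : G, a * c * (c * d) * (d * a) = a * (c * c) * (d * d) * a from fun a c d => by
        group, conj_mul, conj_mul, conj_mul, cjz s, cjz s, mul_assoc x, ← cz (mul_mem s s), mul_assoc]
    exact mul_mem (mul_mem s s) s

theorem four_of {N : Subgroup G} (nN : N.Normal) {u : G} (hu : u ∈ PP N) (m : u ∉ center G)
    (t : Tri b u ∈ center G) (s : u * u = 1) : ∃ q p, Four b q p ∧ q ∈ PP N := by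
  have n := PP_normal nN
  have s3 : b * (b * u * b⁻¹) * b⁻¹ * (b * (b * u * b⁻¹) * b⁻¹) = 1 := by
    rw [conj_mul, conj_mul, s]; group
  refine ⟨u * Tri b u, _, ⟨fun c => m ?_, ?_, rfl, ?_⟩,
    mul_mem hu (mul_mem (mul_mem hu (n.conj_mem u hu b)) (n.conj_mem _ (n.conj_mem u hu b) b))⟩
  · rw [eq_inv_of_mul_eq_one_left c]; exact inv_mem t
  · rw [mul_assoc, ← mul_assoc (Tri b u), cz t u, mul_assoc, S.cen_sq t, mul_one, s]
  · rw [cjm b u, cjz t, cjm b _ (Tri b u), cjz t, mul_assoc u, ← mul_assoc (Tri b u),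
      cz t (b * u * b⁻¹), mul_assoc (b * u * b⁻¹), S.cen_sq t, mul_one, ← cz t, Tri, mul_assoc, s3,
      mul_one]

theorem four_om {N : Subgroup G} (nN : N.Normal) (h : ¬ Om N ≤ center G) :
    ∃ q p, Four b q p ∧ q ∈ Om N := by
  have n := Om_normal nN
  obtain ⟨a, ha, m⟩ : ∃ a ∈ Om N, b * a ≠ a * b := by
    by_contra c
    push Not at c
    exact h (S.cen_of_b n c)
  have h2 := n.conj_mem a ha b
  have h3 := n.conj_mem _ h2 b
  refine ⟨a * (b * a * b⁻¹), _, ⟨fun c => m ?_, (mul_mem ha h2).2.1, rfl, ?_⟩, mul_mem ha h2⟩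
  · rw [← mul_inv_eq_iff_eq_mul, eq_inv_of_mul_eq_one_right c, inv_eq_of_mul_eq_one_right ha.2.1]
  · rw [cjm b a, cjm b (b * a * b⁻¹), S.cj3, h3.2.2 a ha.1, mul_assoc a,
      ← mul_assoc (b * a * b⁻¹), h2.2.1, one_mul]

theorem ex_z [Finite G] {N : Subgroup G} (hN : IsPGroup 2 N) (h0 : N ≠ ⊥) (h : Om N ≤ center G) :
    ∃ z ∈ N, z ∈ center G ∧ z ≠ 1 ∧ ∀ v, ρ z v = -v := by
  obtain ⟨z, hz, z1, ho⟩ := exOm hN le_rfl (fun n m x hx => mul_mem (mul_mem m hx) (inv_mem m)) h0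
  exact ⟨z, hz, h ho, z1, (S.cen (h ho)).resolve_left z1⟩

theorem swap {N : Subgroup G} (h : Om N ≤ center G) {z : G} (hz : ∀ v, ρ z v = -v) {q p : G}
    (F : Four b q p) (hq : q ∈ PP N) : ∃ n ∈ N, n * q = q * n * z := by
  by_contra c
  push Not at c
  obtain ⟨q1, -, q3⟩ := mem_PP.1 hq
  have qc : q ∈ center G := h ⟨q1, F.sq, fun n hn => by
    rcases S.cen_eq (q3 n hn) hz with e | e
    · rw [← commutatorElement_def, commutatorElement_eq_one_iff_mul_comm] at e; exact e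
    · refine absurd ?_ (c n hn)
      have zc : z ∈ center G := e ▸ q3 n hn
      rw [← cz zc, show q * n = q * n * q⁻¹ * n⁻¹ * (n * q) by group, e, ← mul_assoc,
        S.cen_sq zc, one_mul]⟩
  have := F.cj
  rw [cjz qc] at this
  exact F.rot.ne2 (by rw [← this, F.sq])

theorem self_c [Finite G] [Group.IsSolvable G] : centralizer (pCore 2 G : Set G) ≤ pCore 2 G :=
  CL.centralizer_pCore_le_of_isSolvable S.oddcore

theorem core_nc [Finite G] [Group.IsSolvable G] : ¬ pCore 2 G ≤ center G := fun h => by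
  have hb : b ∈ pCore 2 G := S.self_c (mem_centralizer_iff.2 fun x hx => cz (h hx) b)
  exact S.b_nc (h hb)

theorem dim4 [Finite G] [Finite V] [Group.IsSolvable G] : Module.finrank k V ≤ 4 := by
  have nN : (pCore 2 G).Normal := inferInstance
  have pN := CL.isPGroup_pCore 2 G
  by_cases h : ¬ Om (pCore 2 G) ≤ center G
  · obtain ⟨q, p, F, hq⟩ := S.four_om nN h
    exact S.mono (Om_normal nN) (fun x hx y hy => hx.2.2 y hy.1) F hq
  push Not at h
  obtain ⟨z, -, zc, z1, hz⟩ := S.ex_z pN (fun c => S.core_nc (c ▸ bot_le)) h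
  obtain ⟨x, hx, m⟩ : ∃ x ∈ PP (pCore 2 G), b * x ≠ x * b := by
    by_contra c
    push Not at c
    obtain ⟨x, -, x1, x2⟩ := exPP pN le_rfl (fun n _ x hx => nN.conj_mem x hx n) S.core_nc
    exact x1 (S.cen_of_b (PP_normal nN) c x2)
  obtain ⟨u, hu, uc, t⟩ := S.exU nN hx m
  have s := (mem_PP.1 hu).2.1
  rcases S.cen_eq s hz with s1 | s1
  · obtain ⟨q, p, F, hq⟩ := S.four_of nN hu uc t s1
    obtain ⟨n, -, hn⟩ := S.swap h hz F hq
    obtain ⟨e, L⟩ := S.ln F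
    refine fin4 (ρ b e) (ρ b (ρ b e)) (ρ n (ρ b e)) (ρ n (ρ b (ρ b e))) (eq_top_iff.2 fun v _ => ?_)
    obtain ⟨y1, z1, h1⟩ := L.negq (v := v - ρ q v) (by rw [map_sub, L.qq, neg_sub])
    obtain ⟨y2, z2, h2⟩ := L.negq (v := ρ n⁻¹ (v + ρ q v)) (by
      apply J3.inj (ρ := ρ) (g := n)
      rw [← mu, hn, mu, mu, hz, map_neg, map_neg, vi, map_add, L.qq, add_comm])
    have h3 := congrArg (ρ n) h2
    rw [vi, map_add, map_smul, map_smul] at h3
    rw [show v = -(v - ρ q v) - (v + ρ q v) by linear_combination (norm := module) t3 v, h1, h3]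
    refine sub_mem (neg_mem (add_mem ?_ ?_)) (add_mem ?_ ?_) <;>
      exact Submodule.smul_mem _ _ (Submodule.subset_span (by simp))
  obtain ⟨q, p, -, F⟩ := S.four
  obtain ⟨e, L⟩ := S.ln F
  refine fin4 (ρ b e - e) (ρ b (ρ b e) - ρ b e) (ρ u (ρ b e - e)) (ρ u (ρ b (ρ b e) - ρ b e))
    (eq_top_iff.2 fun v _ => ?_)
  set U := Submodule.span k ({ρ b e - e, ρ b (ρ b e) - ρ b e, ρ u (ρ b e - e),
    ρ u (ρ b (ρ b e) - ρ b e)} : Set V)
  let H : Subgroup G :=
    { carrier := {g | ∀ v, ρ g v - v ∈ U}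
      one_mem' := fun v => by rw [on, sub_self]; exact zero_mem _
      mul_mem' := fun {x y} hx hy v => by
        rw [mu, ← sub_add_sub_cancel _ (ρ y v)]; exact add_mem (hx _) (hy _)
      inv_mem' := fun {x} hx v => by
        have := neg_mem (hx (ρ x⁻¹ v))
        rwa [vi, neg_sub] at this }
  have hb : b ∈ H := fun v => by
    obtain ⟨α, β, h⟩ := L.rng v
    rw [h]
    refine add_mem ?_ ?_ <;> exact Submodule.smul_mem _ _ (Submodule.subset_span (by simp))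
  have hd : u * b * u⁻¹ ∈ H := fun v => by
    obtain ⟨α, β, h⟩ := L.rng (ρ u⁻¹ v)
    have := congrArg (ρ u) h
    rw [map_sub, vi, map_add, map_smul, map_smul] at this
    rw [mu, mu, this]
    refine add_mem ?_ ?_ <;> exact Submodule.smul_mem _ _ (Submodule.subset_span (by simp))
  have hw := mul_mem hd (inv_mem hb)
  have e1 : u * b * u⁻¹ * b⁻¹ = Tri b u * z⁻¹ * (b * (b * u * b⁻¹) * b⁻¹)⁻¹ := by
    rw [mul_assoc (Tri b u), cz (inv_mem zc), ← mul_assoc, Tri, mul_inv_cancel_right, ← cjz zc b,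
      ← s1]
    group
  have c1 := mul_mem t (inv_mem zc)
  have e2 : (u * b * u⁻¹ * b⁻¹) * (u * b * u⁻¹ * b⁻¹) = z⁻¹ := by
    rw [e1, mul_assoc, ← mul_assoc _ (Tri b u * z⁻¹), ← cz c1, mul_assoc (Tri b u * z⁻¹),
      ← mul_assoc (Tri b u * z⁻¹), S.cen_sq c1, one_mul, ← mul_inv_rev, conj_mul, conj_mul, s1,
      cjz zc, cjz zc]
  have := (inv_mem (e2 ▸ mul_mem hw hw) : z⁻¹⁻¹ ∈ H) v
  rw [inv_inv, hz] at this
  rwa [show -v - v = v by linear_combination (norm := module) -t3 v] at this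

end St

end CL.J3
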