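import Cfsg.Agent.FGS.J3D
import Cfsg.Agent.SOLV.CoprimeSylow

/-! Elements of order three with one Jordan block of size three on a space over `F₃`: `R` is a
`2`-group. -/

set_option autoImplicit false
set_option linter.unusedSectionVars false
open Subgroup Cfsg

namespace CL.J3

variable {G V : Type*} [Group G] [AddCommGroup V] [Module k V] {ρ : Representation k G V}

theorem cnt {α : Type*} [Finite α] {p : ℕ} [Fact p.Prime] (f : α → α) (h : f^[p] = id) :
    Nat.card α ≡ Nat.card {x // f x = x} [MOD p] := by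
  classical
  have := Fintype.ofFinite α
  have e := Equiv.Perm.card_fixedPoints_modEq (p := p) (n := 1) (f := (f : Function.End α))
    (by
      rw [pow_one]
      exact (hom_coe_pow (fun g : Function.End α => g) rfl (fun _ _ => rfl) f p).trans h)
  rw [← Nat.card_eq_fintype_card, ← Nat.card_eq_fintype_card] at e
  exact e

theorem card_two [Finite G] (K H : Subgroup G) {a : G} (ha : a ∈ K) (na : a ∉ H)
    (h : ∀ x ∈ K, x ∉ H → x * a ∈ H) : Nat.card K = 2 * Nat.card ↥(K ⊓ H) := by
  have i : (H.subgroupOf K).index = 2 := index_eq_two_iff.2 ⟨⟨a, ha⟩, fun x => by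
    by_cases c : x.1 ∈ H
    · exact Or.inr ⟨c, fun d => na ((mul_mem_cancel_left c).1 d)⟩
    · exact Or.inl ⟨h x x.2 c, c⟩⟩
  rw [← (H.subgroupOf K).card_mul_index, i, mul_comm, ← inf_subgroupOf_left,
    Nat.card_congr (subgroupOfEquivOfLe inf_le_left).toEquiv]

theorem ea2 {A : Subgroup G} (h : ∀ a ∈ A, a * a = 1) : IsElementaryAbelian 2 A :=
  ⟨⟨⟨fun x y => Subtype.ext (by
    have e := h _ (mul_mem x.2 y.2)
    calc x.1 * y = x.1 * (x * y * (x * y)) * y := by rw [e, mul_one]
      _ = (x * x) * (y * x) * (y * y) := by group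
      _ = y.1 * x := by rw [h _ x.2, h _ y.2, one_mul, mul_one])⟩⟩,
    fun a ha => by rw [pow_two, h a ha]⟩

namespace St
variable {R : Subgroup G} {b : G} (S : St ρ R b)
include S

theorem card_dvd [Finite G] [Finite V] [Group.IsSolvable G] :
    Nat.card G ∣ 2 ^ 9 * 3 ^ 6 * 5 * 13 := by
  have h := S.dim4
  have := card_dvd_of_injective (((LinearMap.toMatrixAlgEquiv
    (Module.finBasis k V)).toMulEquiv.toMonoidHom.comp ρ).toHomUnits) fun x y e => S.inj
      ((LinearMap.toMatrixAlgEquiv (Module.finBasis k V)).injective (congrArg Units.val e))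
  refine this.trans ?_
  erw [Matrix.card_GL_field]
  generalize Module.finrank k V = n at h
  interval_cases n <;> simp [Fin.prod_univ_succ]

theorem not13 [Finite G] [Finite V] [Group.IsSolvable G] : ¬ 13 ∣ Nat.card G := fun h => by
  have : Fact (Nat.Prime 13) := ⟨by norm_num⟩
  obtain ⟨y, o⟩ := exists_prime_orderOf_dvd_card' 13 h
  have nN : (pCore 2 G).Normal := inferInstance
  let f : pCore 2 G → pCore 2 G := fun x => ⟨y * x * y⁻¹, nN.conj_mem _ x.2 y⟩
  have it : ∀ n x, (f^[n] x).1 = y ^ n * x * (y ^ n)⁻¹ := fun n x => by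
    induction n with
    | zero => simp
    | succ n ih => rw [Function.iterate_succ_apply', pow_succ']; simp only [f, ih]; group
  have c := cnt (p := 13) f (funext fun x => Subtype.ext (by
    rw [it, ← o, pow_orderOf_eq_one]; simp))
  let C := (centralizer {y}).subgroupOf (pCore 2 G)
  have e : Nat.card {x // f x = x} = Nat.card C := Nat.card_congr (Equiv.subtypeEquivRight fun x => by
    simp only [f, C, Subtype.ext_iff, mem_subgroupOf, mem_centralizer_singleton_iff,
      mul_inv_eq_iff_eq_mul]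
    exact eq_comm)
  obtain ⟨a, ha⟩ := IsPGroup.iff_card.1 (CL.isPGroup_pCore 2 G)
  have d := C.card_subgroup_dvd_card
  rw [ha] at d
  obtain ⟨j, hj, hc⟩ := (Nat.dvd_prime_pow Nat.prime_two).1 d
  have a9 : a ≤ 9 := by
    by_contra n
    exact absurd (((pow_dvd_pow 2 (show 10 ≤ a by omega)).trans
      (ha ▸ (pCore 2 G).card_subgroup_dvd_card)).trans S.card_dvd) (by norm_num)
  rw [e, ha, hc] at c
  have : j = a := by
    revert c
    unfold Nat.ModEq
    interval_cases a <;> interval_cases j <;> simp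
  have t : C = ⊤ := eq_top_of_card_eq _ (by rw [hc, ha, this])
  have m : y ∈ pCore 2 G := S.self_c (mem_centralizer_iff.2 fun x hx =>
    mem_centralizer_singleton_iff.1 (t ▸ mem_top (⟨x, hx⟩ : pCore 2 G) : _ ∈ C))
  have := (pCore 2 G).orderOf_dvd_natCard m
  rw [o, ha] at this
  exact absurd ((Nat.Prime.dvd_of_dvd_pow (by norm_num) this)) (by norm_num)

theorem not5 [Finite G] [Finite V] [Group.IsSolvable G] : ¬ 5 ∣ Nat.card R := fun h => by
  have : Fact (Nat.Prime 5) := ⟨by norm_num⟩
  have nR := S.nR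
  have ob : orderOf b = 3 := orderOf_eq_prime (by rw [pow_succ, pow_two, S.b3])
    fun c => S.b_nc (c ▸ one_mem _)
  obtain ⟨P, hP⟩ := CL.coprime_exists_invariant_sylow (zpowers b) R (by simp [normalizer_eq_top])
    (by rw [Nat.card_zpowers, ob]; exact (Nat.Prime.coprime_iff_not_dvd Nat.prime_three).2 S.cop)
    (Or.inr inferInstance) 5
  obtain ⟨a, ha⟩ := IsPGroup.iff_card.1 P.isPGroup'
  have c5 : Nat.card ((P : Subgroup R).map R.subtype) = 5 := by
    rw [card_subtype, ha]
    have h1 := P.dvd_card_of_dvd_card h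
    have h2 := (P.1.card_subgroup_dvd_card.trans R.card_subgroup_dvd_card).trans S.card_dvd
    rw [ha] at h1 h2
    have : a < 2 := by
      by_contra n
      exact absurd ((pow_dvd_pow 5 (show 2 ≤ a by omega)).trans h2) (by norm_num)
    interval_cases a <;> simp at h1 ⊢
  obtain ⟨y, hy, y1⟩ := ((P : Subgroup R).map R.subtype).bot_or_exists_ne_one.resolve_left
    fun c => by rw [c, card_bot] at c5; omega
  have o : orderOf y = 5 := ((Nat.dvd_prime Nat.prime_five).1
    (c5 ▸ Subgroup.orderOf_dvd_natCard _ hy)).resolve_left (mt orderOf_eq_one_iff.1 y1)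
  obtain ⟨j, hj⟩ := mem_powers_of_prime_card c5 (g := ⟨y, hy⟩) (fun c => y1 (congrArg Subtype.val c))
    (g' := ⟨_, (mem_normalizer_iff.1 (hP (mem_zpowers b)) y).1 hy⟩)
  have e : b * y * b⁻¹ = y ^ j := (congrArg Subtype.val hj).symm
  have e3 := S.cj3 y
  rw [e, ← conj_pow, e, ← pow_mul, ← conj_pow, e, ← pow_mul, ← pow_one y, ← pow_mul,
    pow_eq_pow_iff_modEq, o] at e3
  have j1 : j % 5 = 1 := by
    unfold Nat.ModEq at e3
    rw [one_mul, Nat.mul_mod, Nat.mul_mod j j] at e3
    have : j % 5 < 5 := Nat.mod_lt _ (by norm_num)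
    generalize j % 5 = i at *
    interval_cases i <;> simp at e3 ⊢
  rw [← pow_mod_orderOf, o, j1, pow_one, mul_inv_eq_iff_eq_mul] at e
  have yb : ∀ v, ρ y (ρ b v) = ρ b (ρ y v) := fun v => by rw [← mu, ← e, mu]
  have y5 : y ^ 5 = 1 := o ▸ pow_orderOf_eq_one y
  obtain ⟨q, p, -, F⟩ := S.four
  obtain ⟨e, L⟩ := S.ln F
  obtain ⟨α, β, h1⟩ := L.rng (ρ y e)
  have h2 := congrArg (ρ b) h1
  simp only [map_sub, map_add, map_smul, L.bbb] at h2
  have s0 : e + ρ b e + ρ b (ρ b e) ≠ 0 := fun c =>
    one_ne_zero (L.ind (v := 0) (x := 1) (y := 1) (z := 1) (map_zero _) (map_zero _)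
      (by linear_combination (norm := module) c)).2.1
  have fs := (plane (ρ := ρ) (u := e + ρ b e + ρ b (ρ b e)) (w := 0) (α := α + β) (β := 0) (γ := 0)
    (δ := 0) y5 (by norm_num) (by
      simp only [map_add, yb]
      linear_combination (norm := module) h2 - h1 + t3 (ρ b (ρ y e)) - α • t3 (ρ b e) -
        β • t3 (ρ b (ρ b e))) (by simp)).1
  have c := cnt (p := 5) (ρ y) (funext fun v => by
    rw [← Module.End.coe_pow, ← map_pow, y5, map_one]; rfl)
  let W := LinearMap.ker (ρ y - LinearMap.id)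
  have e : Nat.card {x // ρ y x = x} = Nat.card W :=
    Nat.card_congr (Equiv.subtypeEquivRight fun x => by simp [W, sub_eq_zero])
  have w0 : Module.finrank k W ≠ 0 := fun c => s0 ((Submodule.mem_bot k).1
    (Submodule.finrank_eq_zero.1 c ▸ (by simpa only [W, LinearMap.mem_ker, LinearMap.sub_apply,
      LinearMap.id_apply, sub_eq_zero] using fs : _ ∈ W)))
  rw [e, Module.natCard_eq_pow_finrank (K := k) (V := V),
    Module.natCard_eq_pow_finrank (K := k) (V := W), Nat.card_zmod] at c
  have t : W = ⊤ := Submodule.eq_top_of_finrank_eq (by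
    have h1 := S.dim4
    have h2 := Submodule.finrank_le W
    generalize Module.finrank k W = m at *
    generalize Module.finrank k V = n at *
    revert c
    unfold Nat.ModEq
    interval_cases n <;> interval_cases m <;> first | exact absurd rfl w0 | decide)
  exact y1 (ext_of S.inj fun v => by
    have : v ∈ W := t ▸ Submodule.mem_top
    simpa [W, sub_eq_zero] using this)

theorem two_group [Finite G] [Finite V] [Group.IsSolvable G] : IsPGroup 2 R :=
  IsPGroup.of_card (Nat.eq_prime_pow_of_unique_prime_dvd Nat.card_pos.ne' fun {d} hd h => by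
    have := (h.trans R.card_subgroup_dvd_card).trans S.card_dvd
    simp only [hd.dvd_mul] at this
    rcases this with ((c | c) | c) | c
    · exact (Nat.prime_dvd_prime_iff_eq hd Nat.prime_two).1 (hd.dvd_of_dvd_pow c)
    · exact absurd ((Nat.prime_dvd_prime_iff_eq hd Nat.prime_three).1 (hd.dvd_of_dvd_pow c) ▸ h) S.cop
    · exact absurd ((Nat.prime_dvd_prime_iff_eq hd Nat.prime_five).1 c ▸ h) S.not5
    · exact absurd (((Nat.prime_dvd_prime_iff_eq hd (by norm_num)).1 c ▸ h).trans
        R.card_subgroup_dvd_card) S.not13)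

theorem det_mono {n : ℕ} {v : Fin n → V} (li : LinearIndependent k v)
    (sp : ⊤ ≤ Submodule.span k (Set.range v)) {r : G} (hr : r ∈ R) (σ : Equiv.Perm (Fin n))
    (s : Fin n → k) (h : ∀ i, ρ r (v i) = s i • v (σ i)) :
    (∏ i, s i) * ((Equiv.Perm.sign σ : ℤˣ) • (1 : k)) = 1 := by
  have d : LinearMap.det (ρ r) = 1 := by
    have : R ≤ ((LinearMap.det : Module.End k V →* k).comp ρ).toHomUnits.ker :=
      S.comm.trans (commutator_le.2 fun x _ y _ => by
        rw [MonoidHom.mem_ker, map_commutatorElement, commutatorElement_eq_one_iff_mul_comm, mul_comm])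
    exact congrArg Units.val (this hr)
  have e := (Module.Basis.mk li sp).det_comp (ρ r) (Module.Basis.mk li sp)
  rw [d, Module.Basis.det_self, one_mul, show ρ r ∘ Module.Basis.mk li sp =
    fun i => s i • (Module.Basis.mk li sp ∘ σ) i from funext fun i => by simp [h],
    AlternatingMap.map_smul_univ, AlternatingMap.map_perm, Module.Basis.det_self] at e
  exact e

end St

end CL.J3
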