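import Cfsg.Agent.FGS.J3E
import Cfsg.Agent.PLOC.Symplectic

/-! Elements of order three with one Jordan block of size three on a space over `F₃`: `R` is a
four-group or `Q₈ ∗ Q₈`. -/

set_option autoImplicit false
set_option linter.unusedSectionVars false
open Subgroup Cfsg

namespace CL.J3

variable {G V : Type*} [Group G] [AddCommGroup V] [Module k V] {ρ : Representation k G V}

theorem pm {v w : V} (h : w = v ∨ w = -v) : ∃ s : k, s * s = 1 ∧ w = s • v := by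
  rcases h with h | h
  exacts [⟨1, by simp, by simp [h]⟩, ⟨-1, by simp, by simp [h]⟩]

theorem mem_Fx {g : G} {v : V} : g ∈ Fx ρ v ↔ ρ g v = v := Iff.rfl

theorem two_Fx [Finite G] (K : Subgroup G) {a : G} {v : V} (v0 : v ≠ 0) (ha : a ∈ K)
    (h1 : ρ a v = -v) (h : ∀ x ∈ K, ρ x v = v ∨ ρ x v = -v) :
    Nat.card K = 2 * Nat.card ↥(K ⊓ Fx ρ v) :=
  card_two K _ ha (fun c => v0 (neg0 ((mem_Fx.1 c).symm.trans h1))) fun x hx c =>
    mem_Fx.2 (by rw [mu, h1, map_neg, (h x hx).resolve_left c, neg_neg])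

/-- `a` and `x` commute up to `z` -/
def An (z a x : G) : Prop := a * x = x * a * z

theorem An.mul {z a c x : G} (zc : z ∈ center G) (zz : z * z = 1) (h1 : An z a x) (h2 : An z c x) :
    a * c * x = x * (a * c) := by
  rw [mul_assoc, h2, ← mul_assoc, ← mul_assoc, h1, mul_assoc _ z, cz zc c, mul_assoc, mul_assoc,
    mul_assoc, zz, mul_one]

theorem An.mul' {z a x y : G} (zc : z ∈ center G) (zz : z * z = 1) (h1 : An z a x) (h2 : An z a y) :
    a * (x * y) = x * y * a := by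
  rw [← mul_assoc, h1, mul_assoc _ z, cz zc y, ← mul_assoc, mul_assoc x, h2, mul_assoc, mul_assoc,
    zz, mul_one, mul_assoc]

theorem An.mulr {z a c x : G} (h1 : An z a x) (zc : z ∈ center G) (h2 : c * x = x * c) :
    An z (a * c) x := by
  rw [An, mul_assoc, h2, ← mul_assoc, h1, mul_assoc _ z, cz zc c, mul_assoc, mul_assoc, mul_assoc]

theorem An.l {z a x y : G} (h1 : An z a x) (zc : z ∈ center G) (h2 : a * y = y * a) :
    An z a (x * y) := by
  rw [An, ← mul_assoc, h1, mul_assoc _ z, cz zc y, ← mul_assoc, mul_assoc x, h2, ← mul_assoc]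

theorem An.r {z a x y : G} (h1 : a * x = x * a) (h2 : An z a y) : An z a (x * y) := by
  rw [An, ← mul_assoc, h1, mul_assoc, h2, ← mul_assoc, ← mul_assoc]

theorem An.cj {z a x : G} (h : An z a x) (zc : z ∈ center G) (g : G) :
    An z (g * a * g⁻¹) (g * x * g⁻¹) := by
  rw [An, conj_mul, h, cjm, cjz zc, conj_mul]

theorem An.symm {z a x : G} (h : An z a x) (zz : z * z = 1) : An z x a := by
  rw [An, h, mul_assoc, zz, mul_one]

theorem cm_cj {a x : G} (h : a * x = x * a) (g : G) :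
    g * a * g⁻¹ * (g * x * g⁻¹) = g * x * g⁻¹ * (g * a * g⁻¹) := by rw [conj_mul, h, conj_mul]

theorem An.act {z a x : G} (h : An z a x) (hz : ∀ v, ρ z v = -v) (v : V) :
    ρ x (ρ a v) = -ρ a (ρ x v) := by
  rw [← mu a, h, mu, mu, hz, map_neg, map_neg, neg_neg]

theorem cm_act {a x : G} (h : a * x = x * a) (v : V) : ρ x (ρ a v) = ρ a (ρ x v) := by
  rw [← mu, ← h, mu]

namespace St
variable {R : Subgroup G} {b : G} (S : St ρ R b)
include S

theorem case_four [Finite G] {q p : G} (F : Four b q p) (hq : q ∈ Om R) :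
    IsElementaryAbelian 2 R ∧ Nat.card R = 4 := by
  obtain ⟨e, L⟩ := S.ln F
  have n := Om_normal S.nR
  have hp : p ∈ Om R := F.cj ▸ n.conj_mem q hq b
  have s1 : ∀ r ∈ R, ρ r e = e ∨ ρ r e = -e := fun r hr =>
    L.cq (hq.2.2 r hr).symm (hp.2.2 r hr).symm
  have s2 : ∀ r ∈ R, ρ r (ρ b e) = ρ b e ∨ ρ r (ρ b e) = -ρ b e := fun r hr =>
    L.rot.cq (hp.2.2 r hr).symm ((mul_mem hq hp).2.2 r hr).symm
  have s3 : ∀ r ∈ R, ρ r (ρ b (ρ b e)) = ρ b (ρ b e) ∨ ρ r (ρ b (ρ b e)) = -ρ b (ρ b e) :=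
    fun r hr => L.rot.rot.cq ((mul_mem hq hp).2.2 r hr).symm
      ((mul_mem hp (mul_mem hq hp)).2.2 r hr).symm
  have sp : Submodule.span k (Set.range ![e, ρ b e, ρ b (ρ b e)]) = ⊤ := by
    have m : ∀ i, ![e, ρ b e, ρ b (ρ b e)] i ∈
        Submodule.span k (Set.range ![e, ρ b e, ρ b (ρ b e)]) := fun i =>
      Submodule.subset_span ⟨i, rfl⟩
    have m0 : e ∈ _ := m 0
    have m1 : ρ b e ∈ _ := m 1
    have m2 : ρ b (ρ b e) ∈ _ := m 2
    have hb : ∀ v ∈ _, ρ b v ∈ _ := span_inv (s := Set.range ![e, ρ b e, ρ b (ρ b e)]) (by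
      rintro _ ⟨i, rfl⟩
      fin_cases i
      exacts [m1, m2, (L.bbb e).symm ▸ m0])
    have hr : ∀ r ∈ R, ∀ v ∈ _, ρ r v ∈ _ := fun r hr =>
      span_inv (s := Set.range ![e, ρ b e, ρ b (ρ b e)]) (by
        rintro _ ⟨i, rfl⟩
        fin_cases i
        · exact (s1 r hr).elim (fun h => h.symm ▸ m0) fun h => h.symm ▸ neg_mem m0
        · exact (s2 r hr).elim (fun h => h.symm ▸ m1) fun h => h.symm ▸ neg_mem m1
        · exact (s3 r hr).elim (fun h => h.symm ▸ m2) fun h => h.symm ▸ neg_mem m2)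
    refine (S.irr _ fun g v hv => ?_).resolve_left fun c => L.e0 ((Submodule.mem_bot k).1 (c ▸ m0))
    obtain ⟨r, h, rfl | rfl | rfl⟩ := S.dcmp g
    exacts [hr _ h v hv, mu r b v ▸ hr _ h _ (hb v hv), by
      rw [mu, mu]; exact hr _ h _ (hb _ (hb v hv))]
  have ex : ∀ g : G, ρ g e = e → ρ g (ρ b e) = ρ b e → ρ g (ρ b (ρ b e)) = ρ b (ρ b e) → g = 1 :=
    fun g h1 h2 h3 => S.inj (LinearMap.ext_on sp (by
      rintro _ ⟨i, rfl⟩
      fin_cases i <;> simp [h1, h2, h3]))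
  refine ⟨ea2 fun r hr => ex _ ?_ ?_ ?_, ?_⟩
  · rcases s1 r hr with h | h <;> simp only [mu, h, map_neg, neg_neg]
  · rcases s2 r hr with h | h <;> simp only [mu, h, map_neg, neg_neg]
  · rcases s3 r hr with h | h <;> simp only [mu, h, map_neg, neg_neg]
  have li : LinearIndependent k ![e, ρ b e, ρ b (ρ b e)] :=
    Fintype.linearIndependent_iff.2 fun g h i => by
      rw [Fin.sum_univ_three] at h
      obtain ⟨-, h1, h2, h3⟩ := L.ind (v := 0) (x := g 0) (y := g 1) (z := g 2) (map_zero _)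
        (map_zero _) (by simpa using h)
      fin_cases i
      exacts [h1, h2, h3]
  have t : R ⊓ Fx ρ (ρ b e) ⊓ Fx ρ e = ⊥ := eq_bot_iff.2 fun r hr => by
    refine ex r hr.2 hr.1.2 ((s3 r hr.1.1).resolve_right fun c => ?_)
    have := S.det_mono li sp.ge hr.1.1 1 ![1, 1, -1] fun i => by
      fin_cases i <;> simp [mem_Fx.1 hr.2, mem_Fx.1 hr.1.2, c]
    revert this
    decide
  rw [two_Fx R L.rot.e0 hq.1 L.q2 s2, two_Fx _ L.e0 (mem_inf.2 ⟨hp.1, L.p2⟩) L.p1 fun x hx => s1 x hx.1, t,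
    card_bot]

theorem sg {z : G} (hz : ∀ v, ρ z v = -v) {x n : G} (hx : x ∈ PP R) (hn : n ∈ R) :
    n * x = x * n ∨ An z n x := by
  have h := (mem_PP.1 hx).2.2 n hn
  rcases S.cen_eq h hz with e | e
  · rw [← commutatorElement_def, commutatorElement_eq_one_iff_mul_comm] at e
    exact Or.inl e.symm
  · have zc : z ∈ center G := e ▸ h
    refine Or.inr ?_
    rw [An, ← cz zc, show x * n = x * n * x⁻¹ * n⁻¹ * (n * x) by group, e, ← mul_assoc,
      S.cen_sq zc, one_mul]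

theorem cj_comm {x n c : G} (hx : x ∈ PP R) (hn : n ∈ R) (h : c * x = x * c) :
    n * c * n⁻¹ * x = x * (n * c * n⁻¹) := by
  obtain ⟨t, ht, e⟩ : ∃ t ∈ center G, n⁻¹ * x * n = t * x :=
    ⟨_, (inferInstance : (center G).Normal).conj_mem _
      (inv_mem ((mem_PP.1 hx).2.2 _ (inv_mem hn))) 1, by group⟩
  calc n * c * n⁻¹ * x = n * (c * (n⁻¹ * x * n)) * n⁻¹ := by group
    _ = n * (n⁻¹ * x * n * c) * n⁻¹ := by rw [e, ← mul_assoc c, ← cz ht, mul_assoc t, h, mul_assoc t]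
    _ = _ := by group

theorem fpf {x : G} (hx : x ∈ PP R) (h : b * x * b⁻¹ * x⁻¹ ∈ center G) : x ∈ center G := by
  have e := S.fixmod h
  have hb : b ∈ centralizer {x} := mem_centralizer_singleton_iff.2 e
  have : R ≤ centralizer {x} := S.le_of_comm (fun y hy => mul_mem (mul_mem hb hy) (inv_mem hb))
    fun r hr => mul_mem (mem_centralizer_singleton_iff.2 (S.cj_comm hx hr e)) (inv_mem hb)
  exact mem_center_iff.2 fun g => mem_centralizer_singleton_iff.1
    ((S.top.ge.trans (sup_le this (zpowers_le.2 hb))) (mem_top g))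

theorem tri {x : G} (hx : x ∈ PP R) : Tri b x ∈ center G := by
  have n := PP_normal S.nR
  have h2 := n.conj_mem x hx b
  have h3 := n.conj_mem _ h2 b
  refine S.fpf (mul_mem (mul_mem hx h2) h3) ?_
  rw [Tri, cjm b (x * _), cjm b x, S.cj3]
  convert (mem_PP.1 (mul_mem h2 h3)).2.2 x (mem_PP.1 hx).1 using 1
  group

theorem four_nc {q p : G} (F : Four b q p) : q ∉ center G := fun h => by
  have := F.cj
  rw [cjz h] at this
  exact F.rot.ne2 (by rw [← this, F.sq])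

theorem ex_inv [Finite G] (h2 : IsPGroup 2 R) {z : G} (zc : z ∈ center G) (z1 : z ≠ 1)
    (hz : ∀ v, ρ z v = -v) : ∃ u ∈ PP R, u ∉ center G ∧ u * u = 1 := by
  by_contra c
  push Not at c
  have sq : ∀ u ∈ PP R, u ∉ center G → u * u = z := fun u hu m =>
    (S.cen_eq (mem_PP.1 hu).2.1 hz).resolve_left (c u hu m)
  have zz := S.cen_sq zc
  have nZ : (center G).Normal := inferInstance
  obtain ⟨q, p, hq, F⟩ := S.four
  obtain ⟨x, xR, xc, hx⟩ := exPP h2 le_rfl (fun n _ x hx => S.nR.conj_mem x hx n)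
    fun h => S.four_nc F (h hq)
  obtain ⟨y, e⟩ : ∃ y, b * x * b⁻¹ = y := ⟨_, rfl⟩
  have hy : y ∈ PP R := e ▸ (PP_normal S.nR).conj_mem x hx b
  have yR := (mem_PP.1 hy).1
  have yc : y ∉ center G := fun h => xc (by
    have := nZ.conj_mem _ h b⁻¹
    rw [← e] at this; simpa [mul_assoc] using this)
  have xyc : x * y ∉ center G := fun h => xc (S.fpf hx (by
    rw [e]
    convert mul_mem (nZ.conj_mem _ h x⁻¹) (inv_mem (nZ.conj_mem _ (mem_PP.1 hx).2.1 x⁻¹)) using 1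
    group))
  have nc : x * y ≠ y * x := fun h => z1 (by
    rw [← sq _ (mul_mem hx hy) xyc, mul_assoc, ← mul_assoc y, ← h, mul_assoc, sq y hy yc,
      ← mul_assoc, sq x hx xc, zz])
  have a1 : An z x y := (S.sg hz hy xR).resolve_left nc
  have hC : R ⊓ centralizer {x} ⊓ centralizer {y} ≤ center G := by
    by_contra h
    obtain ⟨t, ht, tc, tP⟩ := exPP h2 (inf_le_left.trans inf_le_left) (fun n hn w hw =>
      mem_inf.2 ⟨mem_inf.2 ⟨S.nR.conj_mem _ hw.1.1 n, mem_centralizer_singleton_iff.2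
        (S.cj_comm hx hn (mem_centralizer_singleton_iff.1 hw.1.2))⟩,
        mem_centralizer_singleton_iff.2 (S.cj_comm hy hn (mem_centralizer_singleton_iff.1 hw.2))⟩) h
    have t1 := mem_centralizer_singleton_iff.1 ht.1.2
    have m : t * x ∈ center G := by_contra fun m => c _ (mul_mem tP hx) m (by
      rw [mul_assoc, ← mul_assoc x, ← t1, mul_assoc, sq x hx xc, ← mul_assoc, sq t tP tc, zz])
    have := cz m y
    rw [← mul_assoc, ← mem_centralizer_singleton_iff.1 ht.2, mul_assoc, mul_assoc] at this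
    exact nc (mul_left_cancel this)
  have key : ∀ w ∈ PP R, q * w * x = x * (q * w) → q * w * y = y * (q * w) → False :=
    fun w hw h1 h2 => by
      have mR := mul_mem hq (mem_PP.1 hw).1
      have m := hC (mem_inf.2 ⟨mem_inf.2 ⟨mR, mem_centralizer_singleton_iff.2 h1⟩,
        mem_centralizer_singleton_iff.2 h2⟩)
      have mP : q * w ∈ PP R := mem_PP.2 ⟨mR, mul_mem m m, fun n _ => by
        rw [cz m n, mul_inv_cancel_right, mul_inv_cancel]; exact one_mem _⟩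
      exact c q (by simpa using mul_mem mP (inv_mem hw)) (S.four_nc F) F.sq
  rcases S.sg hz hx hq with h1 | h1 <;> rcases S.sg hz hy hq with h2 | h2
  · exact key 1 (one_mem _) (by simpa) (by simpa)
  · exact key x hx (by rw [h1, mul_assoc, h1]) (h2.mul zc zz a1)
  · exact key y hy (h1.mul zc zz (a1.symm zz)) (by rw [h2, mul_assoc, h2])
  · refine key _ (mul_mem hx hy) ?_ ?_
    · rw [← mul_assoc q]; exact (h1.mulr zc rfl).mul zc zz (a1.symm zz)
    · rw [← mul_assoc q, ← mul_assoc y, ← h2.mul zc zz a1]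

theorem case_es [Finite G] (h2 : IsPGroup 2 R) (hO : Om R ≤ center G) {z : G} (zR : z ∈ R)
    (zc : z ∈ center G) (z1 : z ≠ 1) (hz : ∀ v, ρ z v = -v) {q p : G} (F : Four b q p)
    (hq : q ∈ PP R) {n : G} (hn : n ∈ R) (n1 : n * q = q * n) (n2 : An z n p) :
    IsExtraspecial 2 R ∧ Nat.card R = 32 ∧
      ∃ A : Subgroup G, A ≤ R ∧ IsElementaryAbelian 2 A ∧ Nat.card A = 8 := by
  obtain ⟨e, L⟩ := S.ln F
  have zz := S.cen_sq zc
  have hp : p ∈ PP R := F.cj ▸ (PP_normal S.nR).conj_mem q hq b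
  obtain ⟨f, hf⟩ : ∃ f, ρ n e = f := ⟨_, rfl⟩
  have f0 : f ≠ 0 := fun c => L.e0 (sm0 (hf.trans c))
  have fq : ρ q f = f := by rw [← hf, cm_act n1, L.q1]
  have fp : ρ p f = f := by rw [← hf, n2.act hz, L.p1, map_neg, neg_neg]
  have l0 : ∀ u, ρ q u = u → ρ p u = u → ∃ c : k, u = c • f := fun u h1 h2 => by
    obtain ⟨c, hc⟩ := L.line (w := ρ n⁻¹ u)
      (J3.inj (ρ := ρ) (g := n) (by rw [← cm_act n1, vi, h1]))
      (J3.inj (ρ := ρ) (g := n) (by rw [← neg_inj, ← n2.act hz, vi, h2, map_neg, vi, neg_neg]))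
    exact ⟨c, by rw [← hf, ← map_smul, ← hc, vi]⟩
  have l0' : ∀ u, u ≠ 0 → ρ q u = u → ρ p u = u → u = f ∨ u = -f := fun u u0 h1 h2 => by
    obtain ⟨c, rfl⟩ := l0 u h1 h2
    rcases k3 c with rfl | rfl | rfl <;> simp at u0 ⊢
  have sp : Submodule.span k (Set.range ![f, e, ρ b e, ρ b (ρ b e)]) = ⊤ := eq_top_iff.2 fun v _ => by
    obtain ⟨u, x, y, t, h1, h2, rfl⟩ := L.dec v
    obtain ⟨c, rfl⟩ := l0 u h1 h2
    refine add_mem (add_mem (add_mem ?_ ?_) ?_) ?_ <;> refine Submodule.smul_mem _ _ ?_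
    exacts [Submodule.subset_span ⟨0, rfl⟩, Submodule.subset_span ⟨1, rfl⟩,
      Submodule.subset_span ⟨2, rfl⟩, Submodule.subset_span ⟨3, rfl⟩]
  have li : LinearIndependent k ![f, e, ρ b e, ρ b (ρ b e)] :=
    Fintype.linearIndependent_iff.2 fun g h i => by
      rw [Fin.sum_univ_four] at h
      obtain ⟨h0, h1, h2, h3⟩ := L.ind (v := g 0 • f) (x := g 1) (y := g 2) (z := g 3)
        (by rw [map_smul, fq]) (by rw [map_smul, fp]) (by simpa using h)
      fin_cases i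
      exacts [(smul_eq_zero.1 h0).resolve_right f0, h1, h2, h3]
  have ex : ∀ g h : G, ρ g f = ρ h f → ρ g e = ρ h e → ρ g (ρ b e) = ρ h (ρ b e) →
      ρ g (ρ b (ρ b e)) = ρ h (ρ b (ρ b e)) → g = h :=
    fun g h h0 h1 h2 h3 => S.inj (LinearMap.ext_on sp (by
      rintro _ ⟨i, rfl⟩
      fin_cases i
      exacts [h0, h1, h2, h3]))
  have s0 : ∀ r, r * q = q * r → r * p = p * r → ρ r f = f ∨ ρ r f = -f := fun r h1 h2 =>
    l0' _ (fun c => f0 (sm0 c)) (by rw [cm_act h1, fq]) (by rw [cm_act h2, fp])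
  have cqp : ∀ r, r * q = q * r → r * p = p * r → r * (q * p) = q * p * r := fun r h1 h2 => by
    rw [← mul_assoc, h1, mul_assoc, h2, mul_assoc]
  have s2 : ∀ r, r * q = q * r → r * p = p * r → ρ r (ρ b e) = ρ b e ∨ ρ r (ρ b e) = -ρ b e :=
    fun r h1 h2 => L.rot.cq h2 (cqp r h1 h2)
  have s3 : ∀ r, r * q = q * r → r * p = p * r →
      ρ r (ρ b (ρ b e)) = ρ b (ρ b e) ∨ ρ r (ρ b (ρ b e)) = -ρ b (ρ b e) :=
    fun r h1 h2 => L.rot.rot.cq (cqp r h1 h2) (by
      rw [← mul_assoc, h2, mul_assoc, cqp r h1 h2, ← mul_assoc])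
  have t0 : ∀ r, r * q = q * r → r * p = p * r → r * r = 1 := fun r h1 h2 => by
    refine ex _ _ ?_ ?_ ?_ ?_
    · rcases s0 r h1 h2 with h | h <;> simp only [mu, on, h, map_neg, neg_neg]
    · rcases L.cq h1 h2 with h | h <;> simp only [mu, on, h, map_neg, neg_neg]
    · rcases s2 r h1 h2 with h | h <;> simp only [mu, on, h, map_neg, neg_neg]
    · rcases s3 r h1 h2 with h | h <;> simp only [mu, on, h, map_neg, neg_neg]
  have t1 : ∀ r ∈ R, r * q = q * r → An z r p → r * r ∈ center G := fun r hr h1 h2 => by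
    obtain ⟨a0, b0, c0⟩ := pm (L.line' (w := ρ r f) (fun c => f0 (sm0 c)) (by rw [cm_act h1, fq])
      (by rw [h2.act hz, fp]))
    obtain ⟨a1, b1, c1⟩ := pm (l0' (ρ r e) (fun c => L.e0 (sm0 c)) (by rw [cm_act h1, L.q1])
      (by rw [h2.act hz, L.p1, map_neg, neg_neg]))
    obtain ⟨a2, b2, c2⟩ := pm (L.rot.rot.line' (w := ρ r (ρ b e)) (fun c => L.rot.e0 (sm0 c))
      (by rw [mu, h2.act hz, L.p2, map_neg, cm_act h1, L.q2, map_neg, neg_neg])
      (by simp only [mu, h2.act hz, L.p2, map_neg, cm_act h1, L.q2, neg_neg]))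
    obtain ⟨a3, b3, c3⟩ := pm (L.rot.line' (w := ρ r (ρ b (ρ b e))) (fun c => L.rot.rot.e0 (sm0 c))
      (by rw [h2.act hz, L.p3, map_neg, neg_neg])
      (by simp only [mu, h2.act hz, L.p3, map_neg, neg_neg, cm_act h1, L.q3]))
    have d := S.det_mono li sp.ge hr (Equiv.swap 0 1 * Equiv.swap 2 3) ![a0, a1, a2, a3] fun i => by
      fin_cases i
      exacts [c0, c1, c2, c3]
    have : a0 * a1 = 1 ∧ a2 * a3 = 1 ∨ a0 * a1 = -1 ∧ a2 * a3 = -1 := by
      revert a0 a1 a2 a3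
      suffices ∀ a0 a1 a2 a3 : k, (∏ i, ![a0, a1, a2, a3] i) * ((Equiv.Perm.sign
        (Equiv.swap (0 : Fin 4) 1 * Equiv.swap 2 3) : ℤˣ) • (1 : k)) = 1 →
          a0 * a1 = 1 ∧ a2 * a3 = 1 ∨ a0 * a1 = -1 ∧ a2 * a3 = -1 from
        fun a0 _ _ a1 _ _ a2 _ _ a3 _ _ d => this a0 a1 a2 a3 d
      decide
    rcases this with ⟨u1, u2⟩ | ⟨u1, u2⟩
    · rw [ex (r * r) 1 (by rw [mu, c0, map_smul, c1, smul_smul, u1, one_smul, on])
        (by rw [mu, c1, map_smul, c0, smul_smul, mul_comm, u1, one_smul, on])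
        (by rw [mu, c2, map_smul, c3, smul_smul, u2, one_smul, on])
        (by rw [mu, c3, map_smul, c2, smul_smul, mul_comm, u2, one_smul, on])]
      exact one_mem _
    · rwa [ex (r * r) z (by rw [mu, c0, map_smul, c1, smul_smul, u1, neg_one_smul, hz])
        (by rw [mu, c1, map_smul, c0, smul_smul, mul_comm, u1, neg_one_smul, hz])
        (by rw [mu, c2, map_smul, c3, smul_smul, u2, neg_one_smul, hz])
        (by rw [mu, c3, map_smul, c2, smul_smul, mul_comm, u2, neg_one_smul, hz])]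
  have nZ : (center G).Normal := inferInstance
  have un : ∀ r g : G, g * r * g⁻¹ * (g * r * g⁻¹) ∈ center G → r * r ∈ center G := fun r g h => by
    have := nZ.conj_mem _ h g⁻¹
    rw [conj_mul] at this
    simpa [mul_assoc] using this
  have sq : ∀ r ∈ R, r * r ∈ center G := fun r hr => by
    rcases S.sg hz hq hr with h1 | h1 <;> rcases S.sg hz hp hr with h2 | h2
    · rw [t0 r h1 h2]; exact one_mem _
    · exact t1 r hr h1 h2
    · refine un _ b (un _ b (t1 _ (S.nR.conj_mem _ (S.nR.conj_mem _ hr b) b) ?_ ?_))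
      · have := cm_cj (cm_cj h2 b) b
        rwa [F.pr, F.cj3] at this
      · have := ((h1.l zc h2).cj zc b).cj zc b
        rwa [F.cj3, F.cj] at this
    · refine un _ b (t1 _ (S.nR.conj_mem _ hr b) ?_ ?_)
      · have := cm_cj (h1.mul' zc zz h2) b
        rwa [F.cj3] at this
      · have := h1.cj zc b
        rwa [F.cj] at this
  have zp : ∀ x ∈ center G, x ∈ zpowers z := fun x hx => by
    rcases S.cen_eq hx hz with rfl | rfl
    exacts [one_mem _, mem_zpowers _]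
  have qR := (mem_PP.1 hq).1
  have pR := (mem_PP.1 hp).1
  have zl : zpowers z ≤ center G := zpowers_le.2 zc
  have twoC : ∀ (K : Subgroup G) (x a : G), K ≤ R → x ∈ PP R → a ∈ K → An z a x →
      Nat.card K = 2 * Nat.card ↥(K ⊓ centralizer {x}) := fun K x a hK hx ha h =>
    card_two K _ ha (fun c => z1 (by
      have := mem_centralizer_singleton_iff.1 c
      rw [h, mul_eq_left] at this; exact this)) fun y hy c => mem_centralizer_singleton_iff.2
        (((S.sg hz hx (hK hy)).resolve_left fun d => c (mem_centralizer_singleton_iff.2 d)).mul zc zz h)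
  have mc : ∀ {a x : G}, a ∈ centralizer {x} ↔ a * x = x * a := mem_centralizer_singleton_iff
  have c8 : Nat.card ↥(R ⊓ centralizer {q} ⊓ centralizer {p}) = 8 := by
    have t : R ⊓ centralizer {q} ⊓ centralizer {p} ⊓ Fx ρ f ⊓ Fx ρ (ρ b e) ⊓ Fx ρ e = ⊥ :=
      eq_bot_iff.2 fun r hr => by
        refine ex r 1 (by rw [on]; exact hr.1.1.2) (by rw [on]; exact hr.2)
          (by rw [on]; exact hr.1.2) ?_
        rw [on]
        refine (s3 r (mc.1 hr.1.1.1.1.2) (mc.1 hr.1.1.1.2)).resolve_right fun c => ?_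
        have := S.det_mono li sp.ge hr.1.1.1.1.1 1 ![1, 1, 1, -1] fun i => by
          fin_cases i <;> simp [mem_Fx.1 hr.2, mem_Fx.1 hr.1.2, mem_Fx.1 hr.1.1.2, c]
        revert this
        decide
    have mq : q ∈ R ⊓ centralizer {q} ⊓ centralizer {p} ⊓ Fx ρ f :=
      mem_inf.2 ⟨mem_inf.2 ⟨mem_inf.2 ⟨qR, mc.2 rfl⟩, mc.2 F.comm.symm⟩, fq⟩
    have mp : p ∈ R ⊓ centralizer {q} ⊓ centralizer {p} ⊓ Fx ρ f ⊓ Fx ρ (ρ b e) :=
      mem_inf.2 ⟨mem_inf.2 ⟨mem_inf.2 ⟨mem_inf.2 ⟨pR, mc.2 F.comm⟩, mc.2 rfl⟩, fp⟩, L.p2⟩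
    rw [two_Fx _ f0 (mem_inf.2 ⟨mem_inf.2 ⟨zR, mc.2 (cz zc q)⟩, mc.2 (cz zc p)⟩) (hz f)
      fun x hx => s0 x (mc.1 hx.1.2) (mc.1 hx.2),
      two_Fx _ L.rot.e0 mq L.q2 fun x hx => s2 x (mc.1 hx.1.1.2) (mc.1 hx.1.2),
      two_Fx _ L.e0 mp L.p1 fun x hx => L.cq (mc.1 hx.1.1.1.2) (mc.1 hx.1.1.2), t, card_bot]
  refine ⟨CL.ES.isExtraspecial_of_not_comm zR (orderOf_eq_prime (by rw [pow_two, zz]) z1)
    (fun x hx y hy => zp _ ?_) (fun x hx => zp _ (pow_two x ▸ sq x hx)) (le_antisymm (fun x hx => ?_)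
      (zpowers_le.2 (mem_inf.2 ⟨zR, mem_centralizer_iff.2 fun y _ => (cz zc y).symm⟩)))
      fun c => S.four_nc F (zl (c ▸ qR)), ?_,
    _, inf_le_left.trans inf_le_left, ea2 fun r hr => t0 r (mc.1 hr.1.2) (mc.1 hr.2), c8⟩
  · convert mul_mem (mul_mem (sq _ (mul_mem hx hy)) (nZ.conj_mem _ (inv_mem (sq x hx)) y⁻¹))
      (inv_mem (sq y hy)) using 1
    rw [commutatorElement_def]; group
  · have h := fun y hy => (mem_centralizer_iff.1 (mem_inf.1 hx).2 y hy).symm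
    exact zp x (hO ⟨hx.1, t0 x (h q qR) (h p pR), h⟩)
  · have := (An.r n1 n2).cj zc b
    rw [F.cj3] at this
    rw [twoC R q _ le_rfl hq (S.nR.conj_mem n hn b) this,
      twoC _ p n inf_le_left hp (mem_inf.2 ⟨hn, mc.2 n1⟩) n2, c8]

theorem final [Finite G] [Finite V] [Group.IsSolvable G] :
    (IsElementaryAbelian 2 R ∧ Nat.card R = 4) ∨ (IsExtraspecial 2 R ∧ Nat.card R = 32 ∧
      ∃ A : Subgroup G, A ≤ R ∧ IsElementaryAbelian 2 A ∧ Nat.card A = 8) := by
  have h2 := S.two_group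
  by_cases h : ¬ Om R ≤ center G
  · obtain ⟨q, p, F, hq⟩ := S.four_om S.nR h
    exact Or.inl (S.case_four F hq)
  push Not at h
  right
  obtain ⟨q0, p0, hq0, F0⟩ := S.four
  obtain ⟨z, zR, zc, z1, hz⟩ := S.ex_z h2 (fun c => F0.ne (mem_bot.1 (c ▸ hq0))) h
  obtain ⟨u, hu, uc, us⟩ := S.ex_inv h2 zc z1 hz
  obtain ⟨q, p, F, hq⟩ := S.four_of S.nR hu uc (S.tri hu) us
  obtain ⟨n, hn, n1⟩ := S.swap h hz F hq
  have hp : p ∈ PP R := F.cj ▸ (PP_normal S.nR).conj_mem q hq b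
  rcases S.sg hz hp hn with n2 | n2
  · exact S.case_es h2 h zR zc z1 hz F.rot hp hn n2 (An.l n1 zc n2)
  · have e := An.mul' zc (S.cen_sq zc) n1 n2
    exact S.case_es h2 h zR zc z1 hz F.rot.rot (mul_mem hq hp) hn e (n2.l zc e)

end St

end CL.J3
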