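import Mathlib
import Cfsg.Agent.FGS.Mart1

/-! There is no invariant trilinear form on three twisted natural modules of a Suzuki group. -/

set_option autoImplicit false
set_option linter.unusedSectionVars false

namespace CL.Mart

open Matrix CL.Sz Finset

variable {F : Type*} [Field F] [Fintype F] [DecidableEq F] [CharP F 2] {θ : F →+* F} {L : Type*}
  [Group L] (M : Model θ L)

include M in
theorem exists_weight {z : F} (hz : z ≠ 0) :
    ∃ l : Fˣ, θ l * l = z := by
  have h := Model.θ_ne_zero (θ := θ) hz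
  refine ⟨Units.mk0 (θ z * z⁻¹) (mul_ne_zero h (inv_ne_zero hz)), ?_⟩
  rw [Units.val_mk0, map_mul, map_inv₀, M.tits]; field_simp

theorem trilin_key {t : F} (ht0 : t ≠ 0) (ht1 : t ≠ 1) {α β γ : F →+* F}
    (T : (Fin 4 → F) →ₗ[F] (Fin 4 → F) →ₗ[F] (Fin 4 → F) →ₗ[F] F)
    (hT : ∀ g x y z, T (nat M α g x) (nat M β g y) (nat M γ g z) = T x y z) (h0 : T ≠ 0) :
    β = γ ∧ α ≠ β := by
  let e : Fin 4 → Fin 4 → F := fun i => Pi.single i 1
  have he : ∀ (c : F →+* F) g j i, nat M c g (e j) i = c (M.ρ g i j) := fun c g j i => by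
    simp [nat_apply, e, Pi.single_apply]
  obtain ⟨G, hG⟩ : ∃ G : Fin 4 → Fin 4 → F, ∀ p q, T (e 0) p q = ∑ j, ∑ k, p j * q k * G j k := by
    refine ⟨fun j k => T (e 0) (e j) (e k), fun p q => ?_⟩
    have hp : ∀ p : Fin 4 → F, p = ∑ j, p j • e j := fun p => pi_eq_sum_univ' p
    conv_lhs => rw [hp p, hp q]
    simp only [map_sum, map_smul, LinearMap.sum_apply, LinearMap.smul_apply, smul_eq_mul, mul_sum, mul_assoc]
    rw [sum_comm]
    simp only [mul_left_comm]
  have hG0 : ¬ ∀ j k, G j k = 0 := fun h => h0 (by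
    have h1 : ∀ g, T (nat M α g (e 0)) = 0 := fun g => LinearMap.ext₂ fun y z => by
      have := hT g (e 0) (nat M β g⁻¹ y) (nat M γ g⁻¹ z)
      rw [Representation.self_inv_apply, Representation.self_inv_apply, hG] at this
      simp [this, h]
    have v0 : nat M α 1 (e 0) = e 0 := by simp
    have v3 : nat M α M.w (e 0) = e 3 := by
      ext i; rw [he, M.ρ_w]; fin_cases i <;> simp [e, Cfsg.suzukiForm]
    have v1 : nat M α (a5 M) (e 0) = e 0 + e 1 + e 3 := by
      ext i; rw [he, ρ_a5]; fin_cases i <;> simp [e]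
    have v2 : nat M α (a5 M ^ 3) (e 0) = e 0 + e 2 + e 3 := by
      ext i; rw [he, ρ_a5_three]; fin_cases i <;> simp [e]
    have u0 := v0 ▸ h1 1
    have u3 := v3 ▸ h1 M.w
    have u1 := v1 ▸ h1 (a5 M)
    have u2 := v2 ▸ h1 (a5 M ^ 3)
    rw [map_add, map_add, u0, u3, zero_add, add_zero] at u1 u2
    refine LinearMap.ext fun x => ?_
    rw [show x = ∑ j, x j • e j from pi_eq_sum_univ' x]
    simp [Fin.sum_univ_four, u0, u1, u2, u3])
  have hGe : ∀ j k, T (e 0) (e j) (e k) = G j k := fun j k => by simp [hG, e, Pi.single_apply]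
  have hu : ∀ x y j k, ∑ j', ∑ k', β (uMat θ x y j' j) * γ (uMat θ x y k' k) * G j' k' = G j k := by
    intro x y j k
    have h1 : nat M α (M.u x y) (e 0) = e 0 := by
      ext i; rw [he, M.ρ_u]; fin_cases i <;> simp [e, uMat]
    have := hT (M.u x y) (e 0) (e j) (e k)
    rwa [h1, hG, hGe, funext (he β _ j), funext (he γ _ k), M.ρ_u] at this
  have hh : ∀ (l : Fˣ) j k, α (θ l * l) * ∑ j', ∑ k', β (hMat θ l j' j) * γ (hMat θ l k' k) * G j' k' =
      G j k := by
    intro l j k
    have h1 : nat M α (M.h l) (e 0) = α (θ l * l) • e 0 := by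
      ext i; rw [he, M.ρ_h]; fin_cases i <;> simp [e, hMat]
    have := hT (M.h l) (e 0) (e j) (e k)
    rwa [h1, map_smul, LinearMap.smul_apply, LinearMap.smul_apply, hG, hGe, funext (he β _ j),
      funext (he γ _ k), M.ρ_h] at this
  have two : (2 : F) = 0 := CharTwo.two_eq_zero
  have g00 : G 0 0 = 0 := by simpa [Fin.sum_univ_four, uMat] using hu 1 0 0 1
  have g01 : G 0 1 = 0 := by simpa [Fin.sum_univ_four, uMat, g00] using hu 1 0 0 2
  have g10 : G 1 0 = 0 := by simpa [Fin.sum_univ_four, uMat, g00] using hu 1 0 2 0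
  have g02 : G 0 2 = 0 := by simpa [Fin.sum_univ_four, uMat, g00, g01] using hu 1 0 0 3
  have g20 : G 2 0 = 0 := by simpa [Fin.sum_univ_four, uMat, g00, g10] using hu 1 0 3 0
  have g11 : G 1 1 = 0 := by simpa [Fin.sum_univ_four, uMat, g00, g10, g01, g02] using hu 1 0 1 2
  have e13 : ∀ x, β x * G 0 3 + γ x * G 1 2 = 0 := fun x => by
    simpa [Fin.sum_univ_four, uMat, g00, g10, g01, g02, g11, ← add_assoc] using hu x 0 1 3
  have e31 : ∀ x, γ x * G 3 0 + β x * G 2 1 = 0 := fun x => by
    have := hu x 0 3 1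
    simp [Fin.sum_univ_four, uMat, g00, g10, g01, g20, g11] at this
    linear_combination this
  have e22 : G 1 2 + G 2 1 = 0 := by
    simpa [Fin.sum_univ_four, uMat, g00, g10, g01, g20, g02, g11, ← add_assoc] using hu 1 0 2 2
  have g12 : G 1 2 = 0 := by
    by_contra h
    have h1 : G 0 3 = G 1 2 := by simpa [CharTwo.add_eq_zero] using e13 1
    obtain rfl : β = γ := RingHom.ext fun x => mul_right_cancel₀ h (by
      linear_combination e13 x - β x * h1 - γ x * G 1 2 * two)
    obtain ⟨l, hl⟩ := exists_weight M ht0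
    have h2 := hh l 1 2
    simp [Fin.sum_univ_four, hMat, -map_mul] at h2
    rw [hl] at h2
    exact ht1 (α.injective (by rw [map_one]; exact mul_right_cancel₀ h (by rw [h2, one_mul])))
  have g21 : G 2 1 = 0 := by simpa [g12] using e22
  have g03 : G 0 3 = 0 := by simpa [g12] using e13 1
  have g30 : G 3 0 = 0 := by simpa [g21] using e31 1
  have e23 : ∀ x, β (θ x) * G 1 3 + γ x * G 2 2 = 0 := fun x => by
    simpa [Fin.sum_univ_four, uMat, g00, g10, g01, g02, g20, g11, g12, g21, g03, ← add_assoc]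
      using hu x 0 2 3
  have e32 : ∀ x, γ (θ x) * G 3 1 + β x * G 2 2 = 0 := fun x => by
    have := hu x 0 3 2
    simp [Fin.sum_univ_four, uMat, g00, g10, g01, g02, g20, g11, g12, g21, g30] at this
    linear_combination this
  have g22 : G 2 2 = 0 := by
    by_contra h
    have h1 : G 1 3 = G 2 2 := by simpa [CharTwo.add_eq_zero] using e23 1
    have h2 : G 3 1 = G 2 2 := by simpa [CharTwo.add_eq_zero] using e32 1
    have h3 : ∀ x, β (θ x) = γ x := fun x => mul_right_cancel₀ h (by
      linear_combination e23 x - β (θ x) * h1 - γ x * G 2 2 * two)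
    have h4 : ∀ x, γ (θ x) = β x := fun x => mul_right_cancel₀ h (by
      linear_combination e32 x - γ (θ x) * h2 - β x * G 2 2 * two)
    have h5 := β.injective ((h3 (θ t)).trans (h4 t))
    rw [M.tits] at h5
    exact ht1 (mul_left_cancel₀ ht0 (by rw [← sq, h5, mul_one]))
  have g13 : G 1 3 = 0 := by simpa [g22] using e23 1
  have g31 : G 3 1 = 0 := by simpa [g22] using e32 1
  have e33 : ∀ x, β x * G 2 3 + γ x * G 3 2 = 0 := fun x => by
    simpa [Fin.sum_univ_four, uMat, g00, g10, g01, g02, g20, g11, g12, g21, g03, g30, g22, g13, g31,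
      ← add_assoc] using hu x 0 3 3
  by_cases h : G 2 3 = 0
  · have g32 : G 3 2 = 0 := by simpa [h] using e33 1
    have g33 : G 3 3 ≠ 0 := fun g33 => hG0 fun j k => by
      fin_cases j <;> fin_cases k <;> assumption
    have h1 : ∀ z, α z = β z * γ z := fun z => by
      by_cases hz : z = 0
      · simp [hz]
      obtain ⟨l, hl⟩ := exists_weight M hz
      have h2 := hh l 3 3
      simp [Fin.sum_univ_four, hMat, -map_mul] at h2
      rw [← mul_inv, mul_comm (l : F), hl, map_inv₀, map_inv₀] at h2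
      have hb := (map_ne_zero β).2 hz
      have hc := (map_ne_zero γ).2 hz
      field_simp at h2
      exact h2
    obtain rfl : β = γ := RingHom.ext fun x => by
      have := h1 (x + 1)
      simp only [map_add, map_one, h1 x] at this
      linear_combination (exp := 1) -this - γ x * two
    refine ⟨rfl, ?_⟩
    rintro rfl
    exact ht1 (α.injective (by
      rw [map_one]; exact mul_left_cancel₀ ((map_ne_zero α).2 ht0) (by rw [← h1, mul_one])))
  · have h1 : G 3 2 = G 2 3 := Eq.symm (by simpa [CharTwo.add_eq_zero] using e33 1)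
    obtain rfl : β = γ := RingHom.ext fun x => mul_right_cancel₀ h (by
      linear_combination e33 x - γ x * h1 - γ x * G 2 3 * two)
    refine ⟨rfl, ?_⟩
    rintro rfl
    have h2 := hh (Units.mk0 t ht0) 2 3
    simp [Fin.sum_univ_four, hMat, -map_mul] at h2
    rw [← mul_inv, mul_comm t, map_inv₀] at h2
    have hb := (map_ne_zero α).2 ht0
    have hc := (map_ne_zero α).2 (mul_ne_zero (Model.θ_ne_zero (θ := θ) ht0) ht0)
    field_simp at h2
    exact ht1 (α.injective (by rw [map_one, ← h2]))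

theorem trilin_eq_zero {t : F} (ht0 : t ≠ 0) (ht1 : t ≠ 1) {α β γ : F →+* F}
    (T : (Fin 4 → F) →ₗ[F] (Fin 4 → F) →ₗ[F] (Fin 4 → F) →ₗ[F] F)
    (hT : ∀ g x y z, T (nat M α g x) (nat M β g y) (nat M γ g z) = T x y z) : T = 0 := by
  by_contra h0
  obtain ⟨h1, h2⟩ := trilin_key M ht0 ht1 T hT h0
  exact h2 ((trilin_key M ht0 ht1 T.flip (fun g x y z => hT g y x z)
    fun h => h0 (LinearMap.ext₂ fun x y => LinearMap.congr_fun₂ h y x)).1.trans h1.symm)

end CL.Mart
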