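import Mathlib
import Cfsg.Agent.FGS.Mart2
import Cfsg.Agent.FGS.HigSec
import Cfsg.Agent.FGS.CITBasic
import Cfsg.Agent.FGS.CIT1

/-! Martineau's theorem: a `2`-group extended by a Suzuki group whose elements of odd order act
without fixed points is elementary abelian. -/

set_option autoImplicit false
set_option linter.unusedSectionVars false

namespace CL.Mart

open Matrix CL.Sz Finset
open scoped commutatorElement

universe u

/-- One ordered pair from each unordered pair of distinct elements. -/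
noncomputable def pairs (ι : Type*) [Fintype ι] : Finset (ι × ι) :=
  univ.filter fun p => Fintype.equivFin ι p.1 < Fintype.equivFin ι p.2

theorem sum_pairs {ι R : Type*} [Fintype ι] [AddCommMonoid R] (f : ι → ι → R) :
    ∑ i, ∑ j, f i j = ∑ i, f i i + ∑ p ∈ pairs ι, (f p.1 p.2 + f p.2 p.1) := by
  classical
  let e := Fintype.equivFin ι
  have h : ∀ i j, f i j = (if i = j then f i j else 0) + ((if e i < e j then f i j else 0) +
      (if e j < e i then f i j else 0)) := fun i j => by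
    rcases lt_trichotomy (e i) (e j) with h | h | h
    · simp [h, h.asymm, show i ≠ j from fun e' => h.ne (by rw [e'])]
    · simp [e.injective h]
    · simp [h, h.asymm, show i ≠ j from fun e' => h.ne (by rw [e'])]
  rw [sum_congr rfl fun i _ => sum_congr rfl fun j _ => h i j, pairs, sum_filter, Fintype.sum_prod_type]
  simp only [sum_add_distrib, sum_ite_eq, mem_univ, if_true, ite_add_zero]
  congr 2
  exact sum_comm

variable {F : Type*} [Field F] [Fintype F] [DecidableEq F] [CharP F 2] {θ : F →+* F} {L : Type*}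
  [Group L] (M : Model θ L)

/-- The representation on additive maps. -/
def homRep (A : Type*) [AddCommGroup A] [DistribMulAction L A] {W : Type*} [AddCommGroup W] [Module F W]
    (R : Representation F L W) : Representation F L (A →+ W) where
  toFun g :=
    { toFun := fun φ => (R g).toAddMonoidHom.comp (φ.comp (DistribMulAction.toAddMonoidHom A g⁻¹))
      map_add' := fun _ _ => by ext; simp
      map_smul' := fun _ _ => by ext; simp }
  map_one' := by ext; simp
  map_mul' a b := by ext; simp [mul_smul]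

theorem homRep_apply {A : Type*} [AddCommGroup A] [DistribMulAction L A] {W : Type*} [AddCommGroup W]
    [Module F W] (R : Representation F L W) (g : L) (φ : A →+ W) (x : A) :
    homRep A R g φ x = R g (φ (g⁻¹ • x)) := rfl

/-- A `2`-group on which the elements of odd order act without fixed points. -/
structure Fp (L A : Type*) [Group L] [AddCommGroup A] [DistribMulAction L A] : Prop where
  two : ∀ x : A, ∃ k : ℕ, 2 ^ k • x = 0
  fpf : ∀ g : L, Odd (orderOf g) → g ≠ 1 → ∀ x : A, g • x = x → x = 0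

variable {A : Type*} [AddCommGroup A] [DistribMulAction L A]

theorem Fp.norm (h : Fp L A) {g : L} (h1 : g ≠ 1) (h5 : g ^ 5 = 1) (x : A) :
    ∑ i ∈ range 5, g ^ i • x = 0 := by
  refine h.fpf g (Odd.of_dvd_nat (by decide) (orderOf_dvd_of_pow_eq_one h5)) h1 _ ?_
  have := (sum_range_succ' (fun i => g ^ i • x) 5).symm.trans (sum_range_succ (fun i => g ^ i • x) 5)
  rw [h5, pow_zero, add_left_inj] at this
  rw [smul_sum, ← this]
  simp only [pow_succ', mul_smul]

theorem Fp.normH (h : Fp L A) {t : F} (ht0 : t ≠ 0) (ht1 : t ≠ 1) (x : A) : ∑ l : Fˣ, M.h l • x = 0 := by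
  have h1 : Odd (Fintype.card Fˣ) := by
    by_contra h1
    have := (CharP.cast_eq_zero_iff F 2 _).2 (even_iff_two_dvd.1 (Nat.not_odd_iff_even.1 h1))
    exact one_ne_zero (card_units_cast.symm.trans this)
  refine h.fpf (M.h (Units.mk0 t ht0)) (h1.of_dvd_nat ((orderOf_map_dvd _ _).trans orderOf_dvd_card))
    (fun e => ht1 (congrArg Units.val (M.h_inj (e.trans M.h.map_one.symm)))) _ ?_
  rw [smul_sum]
  exact Fintype.sum_equiv (Equiv.mulLeft (Units.mk0 t ht0)) _ _ fun l => by simp [mul_smul]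

theorem Fp.exists_hom [Finite A] [Nontrivial A] (h : Fp L A) : ∃ φ : A →+ F, φ ≠ 0 := by
  classical
  have h1 : IsPGroup 2 (Multiplicative A) := fun x => h.two x.toAdd
  obtain ⟨K, -, hK⟩ := exists_normal_index_prime (Multiplicative A)
  obtain ⟨n, hn⟩ := h1.index K
  have h2 : K.index = 2 := (Nat.prime_dvd_prime_iff_eq hK Nat.prime_two).1 (hK.dvd_of_dvd_pow hn.dvd)
  refine ⟨AddMonoidHom.mk' (fun x => if Multiplicative.ofAdd x ∈ K then 0 else 1) fun x y => ?_, fun e => ?_⟩
  · rw [ofAdd_add, Subgroup.mul_mem_iff_of_index_two h2]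
    by_cases hx : Multiplicative.ofAdd x ∈ K <;> by_cases hy : Multiplicative.ofAdd y ∈ K <;>
      simp [hx, hy, CharTwo.add_self_eq_zero]
  · have h3 : K = ⊤ := eq_top_iff.2 fun x _ => by
      simpa using DFunLike.congr_fun e x.toAdd
    simp [h3] at h2

include M in
theorem Fp.bilin [Finite A] {B : Type*} [AddCommGroup B] [DistribMulAction L B] [Finite B] (hA : Fp L A)
    (hB : Fp L B) {t : F} (ht0 : t ≠ 0) (ht1 : t ≠ 1) (b : A → A → B)
    (b1 : ∀ x y y', b x (y + y') = b x y + b x y') (b2 : ∀ x y, b x y = -b y x)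
    (b3 : ∀ (g : L) x y, g • b x y = b (g • x) (g • y)) (φ : B →+ F) (x y : A) : φ (b x y) = 0 := by
  by_contra h0
  let RD := homRep B (Representation.trivial F L F)
  have : Finite (B →+ F) := DFunLike.finite _
  have : Finite (Module.Dual F (B →+ F)) := DFunLike.finite _
  have : Finite (A →+ Module.Dual F (B →+ F)) := DFunLike.finite _
  have : Finite ((Fin 4 → F) →ₗ[F] Module.Dual F (B →+ F)) := DFunLike.finite _
  have : Finite (Module.Dual F (Fin 4 → F)) := DFunLike.finite _
  have : Finite ((Fin 4 → F) →ₗ[F] Module.Dual F (Fin 4 → F)) := DFunLike.finite _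
  have n1 := hA.norm (a5_ne_one M) (a5_pow_five M)
  have n2 := hA.normH M ht0 ht1
  let ev : B →+ Module.Dual F (B →+ F) := AddMonoidHom.mk'
    (fun z => { toFun := fun ψ => ψ z, map_add' := fun _ _ => rfl, map_smul' := fun _ _ => rfl })
    fun z z' => LinearMap.ext fun ψ => map_add ψ z z'
  obtain ⟨c1, ι1, i1, -, e1⟩ := exists_nat_of_hom M (homRep A RD.dual) (fun g (x : A) => g • x) n1 n2
    (AddMonoidHom.mk' (fun x => ev.comp (AddMonoidHom.mk' (b x) (b1 x))) fun x x' =>
      AddMonoidHom.ext fun y => (congrArg ev (by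
        rw [AddMonoidHom.mk'_apply, b2, b1, neg_add, ← b2, ← b2])).trans (map_add ev (b x y) (b x' y)))
    (fun g x => AddMonoidHom.ext fun y => LinearMap.ext fun ψ => by
      change ψ (b (g • x) y) = ψ (g⁻¹⁻¹ • b x (g⁻¹ • y))
      rw [inv_inv, b3, smul_inv_smul])
    fun e => h0 (LinearMap.congr_fun (DFunLike.congr_fun (DFunLike.congr_fun e x) y) φ)
  obtain ⟨c2, ι2, i2, -, e2⟩ := exists_nat_of_hom M ((nat M c1).linHom RD.dual) (fun g (x : A) => g • x) n1 n2
    (AddMonoidHom.mk' (fun y =>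
      { toFun := fun m => ι1 m y
        map_add' := fun m m' => by rw [map_add]; rfl
        map_smul' := fun a m => by rw [map_smul]; rfl }) fun y y' =>
      LinearMap.ext fun m => map_add (ι1 m) y y')
    (fun g y => LinearMap.ext fun m => by
      change ι1 m (g • y) = RD.dual g (ι1 (nat M c1 g⁻¹ m) y)
      rw [e1, homRep_apply, inv_inv, Representation.self_inv_apply])
    fun e => one_ne_zero (congrFun (i1 (a₁ := 1) (a₂ := 0) (by
      rw [map_zero]
      exact AddMonoidHom.ext fun y => LinearMap.congr_fun (DFunLike.congr_fun e y) 1)) 0)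
  obtain ⟨c3, ι3, i3, -, e3⟩ := exists_nat_of_hom M ((nat M c2).linHom (nat M c1).dual) (fun g ψ => RD g ψ)
    (fun ψ => AddMonoidHom.ext fun z => by
      have := congrArg ψ (hB.norm (inv_ne_one.2 (a5_ne_one M)) (by rw [inv_pow, a5_pow_five, inv_one]) z)
      simpa [RD, homRep_apply, -map_pow] using this)
    (fun ψ => AddMonoidHom.ext fun z => by
      have := congrArg ψ (hB.normH M ht0 ht1 z)
      rw [← Equiv.sum_comp (Equiv.inv Fˣ)] at this
      simpa [RD, homRep_apply] using this)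
    (AddMonoidHom.mk' (fun ψ => LinearMap.mk₂ F (fun m m' => ι2 m m' ψ) (by simp) (by simp) (by simp)
      (by simp)) fun ψ ψ' => LinearMap.ext₂ fun m m' => by simp)
    (fun g ψ => LinearMap.ext₂ fun m m' => by
      change ι2 m m' (RD g ψ) = ι2 (nat M c2 g⁻¹ m) (nat M c1 g⁻¹ m') ψ
      rw [e2]
      change _ = ι2 m (nat M c1 g⁻¹⁻¹ (nat M c1 g⁻¹ m')) (RD g⁻¹⁻¹ ψ)
      rw [inv_inv, Representation.self_inv_apply])
    fun e => one_ne_zero (congrFun (i2 (a₁ := 1) (a₂ := 0) (by
      rw [map_zero]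
      exact LinearMap.ext₂ fun m ψ => LinearMap.congr_fun₂ (DFunLike.congr_fun e ψ) 1 m)) 0)
  have := trilin_eq_zero M ht0 ht1 ι3 fun g x y z => by
    rw [e3]
    change ι3 x (nat M c2 g⁻¹ (nat M c2 g y)) (nat M c1 g⁻¹ (nat M c1 g z)) = _
    rw [Representation.inv_self_apply, Representation.inv_self_apply]
  exact one_ne_zero (congrFun (i3 (a₁ := 1) (a₂ := 0) (by rw [this]; rfl)) 0)

include M in
theorem Fp.add_self [Finite A] (hA : Fp L A) {t : F} (ht0 : t ≠ 0) (ht1 : t ≠ 1) (x : A) : x + x = 0 := by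
  by_contra h0
  let w : Fˣ → Fˣ → L := fun l m => M.u 0 (l ^ 2 * θ l) * M.u 0 (m ^ 2 * θ m) * (M.h l * M.h m)
  have w1 : ∀ l m, w m l = w l m := fun l m => by
    simp only [w, M.u_zero_mul_u_zero, add_comm, M.h_comm l m]
  have w2 : ∀ x : A, ∑ p ∈ pairs Fˣ, w p.1 p.2 • (x + x) = 0 := fun x => by
    have h1 := sum_pairs fun l m => w l m • x
    have h2 : ∀ l, ∑ m, w l m • x = 0 := fun l => by
      have := congrArg (fun y => M.u 0 (l ^ 2 * θ l) • y) (hA.normH M ht0 ht1 (M.u 0 1 • M.h l • x))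
      simp only [smul_zero, smul_sum, ← mul_smul, ← mul_assoc] at this
      rw [← this]
      refine sum_congr rfl fun m _ => ?_
      rw [mul_assoc _ (M.h m), M.h_mul_u, mul_zero, mul_one, ← mul_assoc, mul_assoc _ (M.h m), M.h_comm m l]
    have h3 : ∑ l, w l l • x = 0 := by
      rw [← hA.normH M ht0 ht1 x]
      refine Fintype.sum_bijective (fun l => l * l) (Finite.injective_iff_bijective.1 fun l m e => ?_) _ _
        fun l => by simp only [w, M.u_zero_sq, one_mul, map_mul]
      refine mul_inv_eq_one.1 (Model.sq_eq_one_units ?_)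
      rw [mul_mul_mul_comm, show l * l = m * m from e, ← mul_inv, mul_inv_cancel]
    simp only [h2, h3, sum_const_zero, zero_add] at h1
    rw [h1]
    exact sum_congr rfl fun p _ => by rw [smul_add, w1 p.1 p.2]
  have w3 : ∑ p ∈ pairs Fˣ, M.ρ (w p.1 p.2) 0 3 = 1 := by
    have h1 := sum_pairs fun l m : Fˣ => (θ l * l) * (θ m * m)⁻¹
    have h2 : ∑ l : Fˣ, θ l * l = 0 := by
      refine sum_hom_units_eq_zero ((θ : F →* F).comp (Units.coeHom F) * Units.coeHom F) fun e => ?_
      obtain ⟨l, hl⟩ := exists_weight M ht0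
      exact ht1 (hl.symm.trans (DFunLike.congr_fun e l))
    have h3 : ∀ l : Fˣ, θ l * l ≠ 0 := fun l => mul_ne_zero (Model.θ_ne_zero l.ne_zero) l.ne_zero
    rw [← sum_mul_sum, h2, zero_mul, sum_congr rfl fun l _ => mul_inv_cancel₀ (h3 l), sum_const, card_univ,
      nsmul_one, card_units_cast, eq_comm, CharTwo.add_eq_zero] at h1
    rw [h1]
    refine sum_congr rfl fun p _ => ?_
    have h4 := h3 p.1
    have h5 := h3 p.2
    simp only [w, M.u_zero_mul_u_zero, map_mul, M.ρ_u, M.ρ_h]
    simp [uMat, hMat, ov, Matrix.mul_apply, Fin.sum_univ_four, M.tits]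
    have h6 := Model.θ_ne_zero (θ := θ) p.1.ne_zero
    have h7 := Model.θ_ne_zero (θ := θ) p.2.ne_zero
    field_simp
  let K := (AddMonoidHom.mk' (fun x : A => x + x) fun x y => add_add_add_comm x y x y).range
  let : SMul L K := ⟨fun g x => ⟨g • x.1, by
    obtain ⟨y, hy⟩ := x.2
    exact ⟨g • y, by rw [← hy]; exact (smul_add g y y).symm⟩⟩⟩
  let : DistribMulAction L K :=
    Function.Injective.distribMulAction K.subtype Subtype.val_injective fun _ _ => rfl
  have hK : Fp L K := ⟨fun x => (hA.two x).imp fun k hk => Subtype.ext hk,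
    fun g h1 h2 x e => Subtype.ext (hA.fpf g h1 h2 x (congrArg Subtype.val e))⟩
  have : Nontrivial K := ⟨⟨⟨x + x, x, rfl⟩, 0, fun e => h0 (congrArg Subtype.val e)⟩⟩
  obtain ⟨φ, hφ⟩ := hK.exists_hom (F := F)
  have : Finite (K →+ F) := DFunLike.finite _
  have : Finite (Module.Dual F (K →+ F)) := DFunLike.finite _
  let R := (homRep K (Representation.trivial F L F)).dual
  let ev : K →+ Module.Dual F (K →+ F) := AddMonoidHom.mk'
    (fun z => { toFun := fun ψ => ψ z, map_add' := fun _ _ => rfl, map_smul' := fun _ _ => rfl })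
    fun z z' => LinearMap.ext fun ψ => map_add ψ z z'
  have hev : ∀ g z, ev (g • z) = R g (ev z) := fun g z => LinearMap.ext fun ψ => by
    change ψ (g • z) = ψ (g⁻¹⁻¹ • z)
    rw [inv_inv]
  obtain ⟨c, ι, i1, i2, i3⟩ := exists_nat_of_hom M R (fun g (z : K) => g • z)
    (hK.norm (a5_ne_one M) (a5_pow_five M)) (hK.normH M ht0 ht1) ev hev
    fun e => hφ (AddMonoidHom.ext fun z => LinearMap.congr_fun (DFunLike.congr_fun e z) φ)
  have h1 : ∀ y ∈ Submodule.span F (Set.range ev), ∑ p ∈ pairs Fˣ, R (w p.1 p.2) y = 0 := fun y hy => by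
    induction hy using Submodule.span_induction with
    | mem y hy =>
      obtain ⟨⟨_, z, rfl⟩, rfl⟩ := hy
      simp_rw [← hev]
      rw [← map_sum, ← map_zero ev]
      congr 1
      exact Subtype.ext (by rw [AddSubmonoidClass.coe_finsetSum]; exact w2 z)
    | zero => simp
    | add x y _ _ hx hy => simp only [map_add, sum_add_distrib, hx, hy, add_zero]
    | smul a x _ hx => simp only [map_smul, ← smul_sum, hx, smul_zero]
  have h2 := h1 _ (i2 (Pi.single 3 1))
  simp_rw [← i3] at h2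
  rw [← map_sum, map_eq_zero_iff ι i1] at h2
  have h3 := congrFun h2 0
  simp only [Finset.sum_apply, nat_apply, Pi.single_apply, mul_ite, mul_one, mul_zero, sum_ite_eq', mem_univ,
    if_true] at h3
  rw [← map_sum, w3, map_one] at h3
  exact one_ne_zero h3

open Subgroup Hig in
include M in
/-- **Martineau's theorem** for CIT-groups. -/
theorem main {G : Type u} [Group G] [Finite G] (hG : CITC.IsCIT G) (φ : G →* L)
    (hφ : Function.Surjective φ) (hQ : IsPGroup 2 φ.ker) {t : F} (ht0 : t ≠ 0) (ht1 : t ≠ 1) :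
    IsMulCommutative φ.ker ∧ ∀ x ∈ φ.ker, x * x = 1 := by
  have hm : ∀ {A : Type u} [AddCommGroup A] [DistribMulAction L A] {K N : Subgroup G} [K.Normal] [N.Normal]
      {π : G → A}, Sec φ K N π → K ≤ φ.ker → N ≤ φ.ker → Fp L A ∧ Finite A := by
    intro A _ _ K N _ _ π S hK hN
    refine ⟨⟨S.two (hQ.to_le hK), fun g ho h1 v hv => ?_⟩,
      Finite.of_surjective π fun v => (S.surj v).imp fun _ h => h.2⟩
    have := Finite.of_surjective φ hφ
    obtain ⟨g, rfl⟩ := hφ g
    obtain ⟨q, hq, rfl⟩ := S.surj v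
    obtain ⟨k, hk⟩ := CIT.exists_odd_pow g
    have h2 : φ (g ^ 2 ^ k) • π q = π q := by
      rw [map_pow]; exact (MulAction.stabilizer L (π q)).pow_mem hv _
    have h3 : g ^ 2 ^ k ∉ N := fun h => h1 (CIT.Two.eq_one ⟨k, by rw [← map_pow]; exact hN h⟩ ho)
    generalize g ^ 2 ^ k = x at hk h2 h3
    obtain ⟨j, hj⟩ := hQ ⟨q, hK hq⟩
    rw [← S.act x q hq, S.eq_iff (Normal.conj_mem inferInstance q hq x) hq, ← QuotientGroup.eq] at h2
    refine (S.ker q hq).2 ((QuotientGroup.eq_one_iff q).1 ((hG.quotient N).eq_one_of_commute (x := x)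
      (mt (QuotientGroup.eq_one_iff x).1 h3) (hk.of_dvd_nat (orderOf_map_dvd (QuotientGroup.mk' N) x))
      (mul_inv_eq_iff_eq_mul.1 h2) (k := j) ?_))
    rw [← QuotientGroup.mk_pow, show q ^ 2 ^ j = 1 from congrArg Subtype.val hj, QuotientGroup.mk_one]
  have h4 : ⁅φ.ker, φ.ker⁆ = ⊥ := by
    obtain ⟨A, _, _, π, S⟩ := exists_sec φ hφ φ.ker ⁅φ.ker, φ.ker⁆ le_rfl le_rfl
    obtain ⟨B, _, _, π', T⟩ := exists_sec φ hφ ⁅φ.ker, φ.ker⁆ ⁅⁅φ.ker, φ.ker⁆, φ.ker⁆
      (commutator_le_left _ _) le_rfl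
    obtain ⟨b, b1, b2, b3, b4⟩ := exists_bilin hφ S T
    obtain ⟨hA, _⟩ := hm S le_rfl (commutator_le_left _ _)
    obtain ⟨hB, _⟩ := hm T (commutator_le_left _ _) (commutator_le_right _ _)
    refine eq_bot_of_le_commutator_of_isNilpotent hQ.isNilpotent (commutator_le_left _ _)
      fun y hy => (T.ker _ hy).1 ?_
    by_contra h0
    have : Nontrivial B := ⟨⟨_, _, h0⟩⟩
    obtain ⟨ψ, hψ⟩ := hB.exists_hom (F := F)
    refine hψ (AddMonoidHom.ext fun v => ?_)
    obtain ⟨z, hz, rfl⟩ := T.surj v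
    induction hz using closure_induction with
    | mem z hz =>
      obtain ⟨a, ha, c, hc, rfl⟩ := hz
      rw [← b4 a ha c hc]
      exact hA.bilin M hB ht0 ht1 b b1 b2 b3 ψ _ _
    | one => rw [T.one]; simp
    | mul a c ha hc h1 h2 => rw [T.add a ha c hc, map_add, h1, h2]; simp
    | inv a ha h1 => rw [T.inv ha, map_neg, h1]; simp
  obtain ⟨A, _, _, π, S⟩ := exists_sec φ hφ φ.ker ⊥ le_rfl h4.le
  obtain ⟨hA, _⟩ := hm S le_rfl bot_le
  exact ⟨⟨⟨fun a b => Subtype.ext (commutatorElement_eq_one_iff_mul_comm.1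
    (mem_bot.1 (h4 ▸ commutator_mem_commutator a.2 b.2)))⟩⟩, fun a ha =>
      (S.ker _ (mul_mem ha ha)).1 (by rw [S.add a ha a ha, hA.add_self M ht0 ht1])⟩

end CL.Mart
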