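import Mathlib
import Cfsg.Agent.PLOC.NPC
import Cfsg.Agent.PLOC.PFrattini
import Cfsg.Agent.SOLV.PSolvable
import Cfsg.Agent.SOLV.Frattini
import Cfsg.Agent.SOLV.Supersolvable
import Cfsg.Agent.SOLV.CoprimeSylow

/-!
# `p`-solvable groups whose maximal subgroups are `p`-nilpotent or of prime index
-/

set_option autoImplicit false
open Cfsg Pointwise

namespace CL.FGS.MaxNPC

universe u

section
variable {G : Type u} [Group G] [Finite G] {p : ℕ} [hp : Fact p.Prime]

/-- `p`-nilpotency lifts over a normal `p`-subgroup of the Frattini subgroup. -/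
theorem hasNPC_of_le_frattini (N B : Subgroup G) [N.Normal] [B.Normal] (hN : N ≤ frattini G)
    (hNp : IsPGroup p N) (hB : HasNormalPComplement p (B.map (QuotientGroup.mk' N))) :
    HasNormalPComplement p B := by
  set B' := B.map (QuotientGroup.mk' N) with hB'
  have : B'.Normal := Subgroup.Normal.map inferInstance _ (QuotientGroup.mk'_surjective N)
  have := CL.pResidual_characteristic p B'
  set K' := (pResidual p B').map B'.subtype with hK'
  have hK'n : K'.Normal := inferInstance
  have hK'c : (Nat.card K').Coprime p := by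
    rw [hK', Subgroup.card_map_of_injective B'.subtype_injective]
    exact CL.hasNPC_iff_coprime_card_pResidual.1 hB
  set K := K'.comap (QuotientGroup.mk' N) with hK
  have hNK : N ≤ K := CL.le_comap_mk' N K'
  have hrel : N.relIndex K = Nat.card K' := CL.relIndex_comap_mk' N K'
  obtain ⟨n, hn⟩ := IsPGroup.iff_card.1 hNp
  obtain ⟨L', hL'⟩ := Subgroup.exists_right_complement'_of_coprime (N := N.subgroupOf K) (by
    rw [CL.card_subgroupOf_of_le hNK, hn]
    change (p ^ n).Coprime (N.relIndex K)
    rw [hrel]; exact hK'c.symm.pow_left n)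
  set L := L'.map K.subtype with hL
  have hLc : Nat.card L = Nat.card K' := by
    rw [hL, Subgroup.card_map_of_injective K.subtype_injective, ← hrel]
    exact hL'.symm.index_eq_card.symm
  have hNL : N ⊔ L = K := by
    have := congrArg (Subgroup.map K.subtype) hL'.sup_eq_top
    rwa [Subgroup.map_sup, Subgroup.subgroupOf_map_subtype, inf_eq_left.2 hNK,
      ← MonoidHom.range_eq_map, Subgroup.range_subtype] at this
  have hLn : L.Normal := by
    rw [← Subgroup.normalizer_eq_top_iff]
    refine CL.eq_top_of_sup_eq_top_of_le_frattini hN ?_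
    rw [eq_top_iff]
    intro g _
    obtain ⟨k, hk, hle⟩ := CL.coprime_le_conj_of_le_sup (MulAut.conj g • L) N L
      (Subgroup.normalizer_eq_top N ▸ le_top)
      (by
        rw [hNL]
        exact CL.conj_smul_le_of_mem_normalizer (hNL ▸ le_sup_right)
          (Subgroup.normalizer_eq_top K ▸ Subgroup.mem_top g))
      (by rw [CL.card_conj_smul, hLc, hn]; exact hK'c.pow_right n)
      (Or.inr (CL.isSolvable_of_isPGroup hNp))
    have heq : MulAut.conj g • L = MulAut.conj k • L :=
      Subgroup.eq_of_le_of_card_ge hle (by rw [CL.card_conj_smul, CL.card_conj_smul])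
    have hm : k⁻¹ * g ∈ Subgroup.normalizer (L : Set G) := by
      rw [← CL.conj_smul_eq_iff_mem_normalizer, ← CL.conj_smul_conj_smul, heq,
        CL.conj_smul_conj_smul, inv_mul_cancel, CL.conj_one_smul]
    have : g = k * (k⁻¹ * g) := by group
    rw [this]
    exact Subgroup.mul_mem _ (Subgroup.mem_sup_left hk) (Subgroup.mem_sup_right hm)
  have hle : pResidual p B ≤ L.subgroupOf B := by
    refine CL.pResidual_le_iff.2 fun g hg => ?_
    have h1 : (g : G) ∈ K := by
      have h0 : QuotientGroup.mk' N g ∈ B' := ⟨g, g.2, rfl⟩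
      refine ⟨⟨QuotientGroup.mk' N g, h0⟩, CL.mem_pResidual_of_coprime ?_, rfl⟩
      rw [Subgroup.orderOf_mk]
      refine hg.coprime_dvd_left ?_
      rw [← Subgroup.orderOf_coe]
      exact orderOf_map_dvd _ _
    have h2 : L.subgroupOf K = L' := by
      rw [hL]; exact Subgroup.comap_map_eq_self_of_injective K.subtype_injective L'
    have h3 := CL.mem_of_coprime_index (N := L.subgroupOf K) (g := ⟨g, h1⟩) (by
      rw [h2, hL'.index_eq_card, CL.card_subgroupOf_of_le hNK, hn, Subgroup.orderOf_mk,
        Subgroup.orderOf_coe]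
      exact hg.pow_right n)
    exact h3
  refine CL.hasNPC_iff_coprime_card_pResidual.2 (Nat.Coprime.coprime_dvd_left ?_ (hLc ▸ hK'c))
  refine (Subgroup.card_dvd_of_le hle).trans ?_
  rw [CL.card_subgroupOf_eq]
  exact Subgroup.card_dvd_of_le inf_le_left

/-- subdirect products of `p`-nilpotent groups are `p`-nilpotent -/
theorem hasNPC_quotient_inf (B C : Subgroup G) [B.Normal] [C.Normal]
    (hB : HasNormalPComplement p (G ⧸ B)) (hC : HasNormalPComplement p (G ⧸ C)) :
    HasNormalPComplement p (G ⧸ (B ⊓ C)) := by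
  refine CL.hasNPC_iff_forall_mem_pResidual.2 fun y hy => ?_
  obtain ⟨g, rfl⟩ := QuotientGroup.mk'_surjective (B ⊓ C) y
  have key : ∀ (D : Subgroup G) [D.Normal], B ⊓ C ≤ D → HasNormalPComplement p (G ⧸ D) →
      ∃ m, m.Coprime p ∧ g ^ m ∈ D := by
    intro D _ hD h
    have h1 := CL.hasNPC_iff_forall_mem_pResidual.1 h _
      (CL.pResidual_le_comap (QuotientGroup.map (B ⊓ C) D (MonoidHom.id G) hD) hy)
    refine ⟨_, h1, ?_⟩
    rw [← QuotientGroup.eq_one_iff, QuotientGroup.mk_pow]
    exact pow_orderOf_eq_one _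
  obtain ⟨m, hm, h1⟩ := key B inf_le_left hB
  obtain ⟨n, hn, h2⟩ := key C inf_le_right hC
  refine Nat.Coprime.coprime_dvd_left (orderOf_dvd_of_pow_eq_one (n := m * n) ?_) (hm.mul_left hn)
  rw [← map_pow, QuotientGroup.mk'_apply, QuotientGroup.eq_one_iff]
  exact ⟨by rw [pow_mul]; exact B.pow_mem h1 n, by rw [mul_comm, pow_mul]; exact C.pow_mem h2 m⟩

end

theorem main (p : ℕ) [hp : Fact p.Prime] (G : Type u) [Group G] [Finite G] :
    IsPSolvable p G → (∀ M : Subgroup G, IsCoatom M → HasNormalPComplement p M ∨ M.index.Prime) →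
    ∃ (B : Subgroup G) (_ : B.Normal), HasNormalPComplement p B ∧ HasNormalPComplement p (G ⧸ B) := by
  refine CL.card_induction (P := fun G _ _ => IsPSolvable p G →
    (∀ M : Subgroup G, IsCoatom M → HasNormalPComplement p M ∨ M.index.Prime) →
    ∃ (B : Subgroup G) (_ : B.Normal), HasNormalPComplement p B ∧ HasNormalPComplement p (G ⧸ B)) ?_ G
  intro G _ _ ih hG hmax
  rcases subsingleton_or_nontrivial G with hs | hnt
  · exact ⟨⊤, inferInstance, CL.hasNPC_of_isNilpotent, CL.hasNPC_of_isNilpotent⟩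
  obtain ⟨N, hN⟩ := CL.exists_isMinNormal G
  have := hN.normal
  obtain ⟨B', hB'n, hB', hGB'⟩ := ih (G ⧸ N) (CL.card_quotient_lt hN.ne_bot)
    (CL.IsPSolvable.quotient hG N) (by
      intro M hM
      have hM' : IsCoatom (M.comap (QuotientGroup.mk' N)) :=
        Subgroup.isCoatom_comap_of_surjective (QuotientGroup.mk'_surjective N) hM
      rcases hmax _ hM' with h | h
      · left
        have := CL.hasNPC_map h (QuotientGroup.mk' N)
        rwa [CL.map_comap_mk'] at this
      · right
        rwa [CL.index_comap_mk'] at h)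
  set B := B'.comap (QuotientGroup.mk' N) with hB
  have hNB : N ≤ B := CL.le_comap_mk' N B'
  have hmap : B.map (QuotientGroup.mk' N) = B' := CL.map_comap_mk' N B'
  have hGB : HasNormalPComplement p (G ⧸ B) := by
    refine CL.hasNPC_of_injective hGB' (QuotientGroup.map B B' (QuotientGroup.mk' N) le_rfl) ?_
    rw [injective_iff_map_eq_one]
    intro y hy
    obtain ⟨g, rfl⟩ := QuotientGroup.mk_surjective y
    rw [QuotientGroup.map_mk, QuotientGroup.eq_one_iff] at hy
    exact (QuotientGroup.eq_one_iff g).2 hy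
  have hquo : ∀ D : Subgroup G, D ≤ B → HasNormalPComplement p (D ⧸ N.subgroupOf D) := by
    intro D hD
    have h1 : HasNormalPComplement p (D.map (QuotientGroup.mk' N)) :=
      CL.hasNPC_of_le hB' (hmap ▸ Subgroup.map_mono hD)
    exact CL.hasNPC_of_equiv h1 (CL.quotientSubgroupOfEquivMap D N).symm
  rcases CL.IsMinNormal.isPGroup_or_coprime hN (CL.IsPSolvable.subgroup hG N) with hNp | hNc
  · by_cases hΦ : N ≤ frattini G
    · exact ⟨B, inferInstance, hasNPC_of_le_frattini N B hΦ hNp (hmap ▸ hB'), hGB⟩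
    · obtain ⟨M, hM, hNM⟩ : ∃ M : Subgroup G, IsCoatom M ∧ ¬ N ≤ M := by
        by_contra h
        push Not at h
        exact hΦ (CL.PG.le_frattini_iff.2 h)
      have hsup : N ⊔ M = ⊤ := hM.2 _ (lt_of_le_of_ne le_sup_right fun e => hNM (e ▸ le_sup_left))
      have hNa := (hN.isElementaryAbelian_of_isPGroup hNp).1
      set C := Subgroup.centralizer (N : Set G) with hC
      have hNC : N ≤ C := N.le_centralizer
      have hGC : HasNormalPComplement p (G ⧸ C) := by
        rcases hmax M hM with h | h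
        · refine CL.hasNPC_of_surjective h ((QuotientGroup.mk' C).comp M.subtype) fun y => ?_
          obtain ⟨g, rfl⟩ := QuotientGroup.mk'_surjective C y
          obtain ⟨a, ha, b, hb, rfl⟩ := (CL.mem_sup_of_le_normalizer'
            (Subgroup.normalizer_eq_top N ▸ le_top)).1 (hsup ▸ Subgroup.mem_top g : g ∈ N ⊔ M)
          refine ⟨⟨b, hb⟩, ?_⟩
          rw [map_mul, QuotientGroup.mk'_apply C a, (QuotientGroup.eq_one_iff a).2 (hNC ha), one_mul]
          rfl
        · have h1 : N ⊓ M = ⊥ := by
            have := CL.inf_normal_of_sup_eq_top_of_comm hsup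
            exact hN.eq_bot_of_lt (lt_of_le_of_ne inf_le_left fun e => hNM (e ▸ inf_le_right))
          have h2 := (CL.isComplement'_of_sup_eq_top_of_inf_eq_bot hsup h1).index_eq_card
          have := Fact.mk h
          have : IsCyclic N := isCyclic_of_prime_card h2.symm
          have h3 := CL.commutator_le_centralizer_of_cyclic_normal N
          have : IsMulCommutative (G ⧸ C) := Subgroup.Normal.quotient_commutative_iff_commutator_le.2 h3
          have := CL.isNilpotent_of_isMulCommutative (G ⧸ C)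
          exact CL.hasNPC_of_isNilpotent
      refine ⟨B ⊓ C, inferInstance, ?_, hasNPC_quotient_inf B C hGB hGC⟩
      refine CL.hasNPC_of_quotient_central (N.subgroupOf (B ⊓ C)) ?_ (hquo _ inf_le_left)
      intro x hx
      rw [Subgroup.mem_center_iff]
      intro y
      exact Subtype.ext (Subgroup.mem_centralizer_iff.1 y.2.2 x hx).symm
  · refine ⟨B, inferInstance, CL.hasNPC_of_quotient_coprime (N.subgroupOf B) ?_ (hquo B le_rfl), hGB⟩
    rwa [CL.card_subgroupOf_of_le hNB]

theorem chain (p : ℕ) [hp : Fact p.Prime] {G : Type u} [Group G] [Finite G] (hG : IsPSolvable p G)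
    (hmax : ∀ M : Subgroup G, IsCoatom M →
      (∃ K : Subgroup ↥M, K.Normal ∧ ¬ p ∣ Nat.card K ∧ ∃ k : ℕ, K.index = p ^ k) ∨ (M.index).Prime) :
    ∃ A B C : Subgroup G, A.Normal ∧ B.Normal ∧ C.Normal ∧ A ≤ B ∧ B ≤ C ∧ ¬ p ∣ Nat.card A ∧
      (∃ k : ℕ, A.relIndex B = p ^ k) ∧ ¬ p ∣ B.relIndex C ∧ ∃ k : ℕ, C.index = p ^ k := by
  obtain ⟨B, hBn, hB, hGB⟩ := main p G hG fun M hM => (hmax M hM).imp_left fun ⟨K, hK, h1, h2⟩ =>
    CL.hasNPC_iff_exists_normal_index.2 ⟨K, hK, ((Nat.Prime.coprime_iff_not_dvd hp.out).2 h1).symm, h2⟩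
  have := CL.pResidual_characteristic p B
  have := CL.pResidual_normal p (G ⧸ B)
  refine ⟨(pResidual p B).map B.subtype, B, (pResidual p (G ⧸ B)).comap (QuotientGroup.mk' B),
    inferInstance, hBn, inferInstance, Subgroup.map_subtype_le _, CL.le_comap_mk' _ _, ?_, ?_, ?_, ?_⟩
  · rw [Subgroup.card_map_of_injective B.subtype_injective]
    exact CL.hasNPC_iff_not_dvd_card_pResidual.1 hB
  · obtain ⟨k, hk⟩ := CL.exists_pResidual_index (G := B) (p := p)
    refine ⟨k, ?_⟩
    rw [← hk, Subgroup.relIndex, Subgroup.subgroupOf,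
      Subgroup.comap_map_eq_self_of_injective B.subtype_injective]
  · rw [CL.relIndex_comap_mk']
    exact CL.hasNPC_iff_not_dvd_card_pResidual.1 hGB
  · rw [CL.index_comap_mk']
    exact CL.exists_pResidual_index

end CL.FGS.MaxNPC
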