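/-
Groups in which normalizers of `{p, q}`-subgroups are maximal: rigidity arguments.
-/
import Mathlib
import Cfsg.Agent.FGS.MaxNorm1
import Cfsg.Agent.FGS.Dedekind

set_option autoImplicit false

namespace CL.MaxN

open Subgroup Cfsg

variable {G : Type*} [Group G]

theorem closure_two (a b : G) : closure ({a, b} : Set G) = zpowers a ⊔ zpowers b := by
  rw [Set.insert_eq, Subgroup.closure_union, zpowers_eq_closure, zpowers_eq_closure]

theorem isPGroup_zp {r : ℕ} {x : G} (hx : x ^ r = 1) : IsPGroup r (zpowers x) := by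
  rintro ⟨_, n, rfl⟩
  exact ⟨1, Subtype.ext (by
    simp only [pow_one, coe_pow, coe_one]
    rw [← zpow_natCast, ← zpow_mul, mul_comm, zpow_mul, zpow_natCast, hx, one_zpow])⟩

theorem pq_two [Finite G] {p q : ℕ} (hp : p.Prime) (hq : q.Prime) {a b : G} (ha : a ^ p = 1)
    (hb : b ^ q = 1) (h : b * a * b⁻¹ ∈ zpowers a) : PQ (closure ({a, b} : Set G)) := by
  rw [closure_two]
  exact pq_sup hp hq (isPGroup_zp ha) (isPGroup_zp hb) ((zpowers_le (G := G)).2 (mem_norm_zpowers h))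

theorem mem_two [Finite G] {a b x : G} (hb : b * b = 1) (h : b * a * b⁻¹ ∈ zpowers a)
    (hx : x ∈ closure ({a, b} : Set G)) : ∃ i : ℕ, x = a ^ i ∨ x = a ^ i * b := by
  rw [closure_two] at hx
  obtain ⟨y, hy, z, hz, rfl⟩ := (mem_sup_of_le_normalizer'
    ((zpowers_le (G := G)).2 (mem_norm_zpowers h))).1 hx
  obtain ⟨n, rfl⟩ := (Submonoid.mem_powers_iff _ _).1 (mem_powers_iff_mem_zpowers.2 hy)
  rcases CL.Ded.eq_of_sq_eq_one (by rwa [pow_two]) hz with rfl | rfl
  exacts [⟨n, .inl (mul_one _)⟩, ⟨n, .inr rfl⟩]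

/-- a four-group normalized by `e`. -/
structure Four (s z e : G) : Prop where
  ss : s * s = 1
  zz : z * z = 1
  zs : z * s = s * z
  s1 : s ≠ 1
  z1 : z ≠ 1
  sz : s ≠ z
  es : e * s = s * z * e
  ez : e * z = s * e

theorem Four.conj {s z e : G} (h : Four s z e) : z * s * z⁻¹ ∈ zpowers s := by simp [h.zs]

theorem Four.pq [Finite G] {s z e : G} (h : Four s z e) : PQ (closure ({s, z} : Set G)) :=
  pq_two Nat.prime_two Nat.prime_two (by rw [pow_two, h.ss]) (by rw [pow_two, h.zz]) h.conj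

theorem Four.mem_iff [Finite G] {s z e x : G} (h : Four s z e) :
    x ∈ closure ({s, z} : Set G) ↔ x = 1 ∨ x = s ∨ x = z ∨ x = s * z := by
  have hs : s ∈ closure ({s, z} : Set G) := subset_closure (by simp)
  have hz : z ∈ closure ({s, z} : Set G) := subset_closure (by simp)
  refine ⟨fun hx => ?_, ?_⟩
  · obtain ⟨i, hi⟩ := mem_two h.zz h.conj hx
    rcases CL.Ded.eq_of_sq_eq_one (by rw [pow_two, h.ss]) (npow_mem_zpowers s i) with e | e <;>
      rw [e] at hi <;> rcases hi with rfl | rfl <;> simp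
  · rintro (rfl | rfl | rfl | rfl)
    exacts [one_mem _, hs, hz, mul_mem hs hz]

theorem Four.mem_norm [Finite G] {s z x : G} (h1 : x * s * x⁻¹ ∈ closure ({s, z} : Set G))
    (h2 : x * z * x⁻¹ ∈ closure ({s, z} : Set G)) :
    x ∈ normalizer (closure ({s, z} : Set G) : Set G) :=
  mem_norm_closure (by rintro _ (rfl | rfl); exacts [h1, h2])

theorem Four.e_mem [Finite G] {s z e : G} (h : Four s z e) :
    e ∈ normalizer (closure ({s, z} : Set G) : Set G) :=
  Four.mem_norm (h.mem_iff.2 (by simp [h.es])) (h.mem_iff.2 (by simp [h.ez]))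

theorem Four.not_pd [Finite G] {s z e : G} (h : Four s z e)
    (hc : ∀ x, x * s * x⁻¹ ∈ closure ({s, z} : Set G) → x * z * x⁻¹ ∈ closure ({s, z} : Set G)) :
    ¬ PD G := fun hd => by
  have h1 := hd s _ h.s1 (subset_closure (by simp)) h.pq (fun x hx => Four.mem_norm hx (hc x hx))
    e h.e_mem
  rw [h.es, mul_inv_cancel_right] at h1
  rcases CL.Ded.eq_of_sq_eq_one (by rw [pow_two, h.ss]) h1 with k | k
  · exact h.sz (mul_right_cancel (k.trans h.zz.symm))
  · exact h.z1 (by simpa using k)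

/-- rigidity data. -/
structure Rig (b s z e : G) (n : ℕ) : Prop extends Four s z e where
  b3 : b ^ 3 = 1
  b1 : b ≠ 1
  sb : s * b = b * b * s
  zb : z * b = b * z
  ze : z * e = e * s * z
  o1 : (b * e) ^ n = 1
  o2 : (b * (e * z)) ^ n ≠ 1
  o3 : (b * (e * (s * z))) ^ n ≠ 1
  c1 : ∀ x, x * b = b * x → x * x = 1 → x = 1 ∨ x = z
  c2 : ∀ x, x * s = s * x → x * z = z * x → x = 1 ∨ x = s ∨ x = z ∨ x = s * z
  gen : ∀ H : Subgroup G, b ∈ H → s ∈ H → z ∈ H → e ∈ H → H = ⊤

namespace Rig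

variable {b s z e : G} {n : ℕ} (h : Rig b s z e n)
include h

theorem aut_eq {α β : MulAut G} (h1 : α b = β b) (h2 : α s = β s) (h3 : α z = β z)
    (h4 : α e = β e) : α = β := by
  have := h.gen (MonoidHom.eqLocus α.toMonoidHom β.toMonoidHom) h1 h2 h3 h4
  ext x
  exact this.ge (mem_top x)

theorem inner₁ {α : MulAut G} (h1 : α b = b) (h2 : α s = s) : ∃ t, α = MulAut.conj t := by
  have h3 : α z = z := (h.c1 (α z) (by simpa [h1] using congrArg α h.zb)
    (by simpa using congrArg α h.zz)).resolve_left (by simpa using h.z1)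
  have k1 : α e * s = s * z * α e := by simpa [h2, h3] using congrArg α h.es
  have k2 : α e * z = s * α e := by simpa [h2, h3] using congrArg α h.ez
  have k3 : (b * α e) ^ n = 1 := by simpa [h1] using congrArg α h.o1
  have k4 := h.c2 (e⁻¹ * α e)
    (by rw [mul_assoc, k1, inv_mul_eq_iff_eq_mul, ← mul_assoc e, h.es]; simp [mul_assoc])
    (by rw [mul_assoc, k2, inv_mul_eq_iff_eq_mul, ← mul_assoc e, h.ez]; simp [mul_assoc])
  simp only [inv_mul_eq_iff_eq_mul] at k4
  rcases k4 with k | k | k | k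
  · exact ⟨1, h.aut_eq (by simp [h1]) (by simp [h2]) (by simp [h3]) (by simp [k])⟩
  · exact ⟨z, h.aut_eq (by simp [h1, h.zb]) (by simp [h2, h.zs]) (by simp [h3]) (by simp [k, h.ze])⟩
  · exact absurd (k ▸ k3) h.o2
  · exact absurd (k ▸ k3) h.o3

theorem sbi (i : ℕ) : s * b ^ i = b ^ (2 * i) * s := by
  induction i with
  | zero => simp
  | succ i ih => rw [pow_succ, ← mul_assoc, ih, mul_assoc, h.sb, mul_add, pow_add, pow_two]; group

theorem inner₂ {α : MulAut G} (h1 : α b = b) {i : ℕ} (h2 : α s = b ^ i * s) :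
    ∃ t, α = MulAut.conj t := by
  obtain ⟨t, ht⟩ := h.inner₁ (α := MulAut.conj (b ^ i) * α)
    (by rw [MulAut.mul_apply, h1, MulAut.conj_apply, ← pow_succ, pow_succ', mul_inv_cancel_right]) (by
      rw [MulAut.mul_apply, h2, MulAut.conj_apply, mul_inv_eq_iff_eq_mul, h.sbi, two_mul, pow_add,
        mul_assoc])
  exact ⟨(b ^ i)⁻¹ * t, by rw [map_mul, ← ht, map_inv, inv_mul_cancel_left]⟩

theorem conj_b : s * b * s⁻¹ ∈ zpowers b := by
  rw [h.sb, mul_inv_cancel_right]
  exact mul_mem (mem_zpowers b) (mem_zpowers b)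

theorem inner [Finite G] {α : MulAut G} (h1 : α b ∈ closure ({b, s} : Set G))
    (h2 : α s ∈ closure ({b, s} : Set G)) : ∃ t, α = MulAut.conj t := by
  have sq : ∀ i : ℕ, b ^ i * s * (b ^ i * s) = 1 := fun i => by
    rw [mul_assoc, ← mul_assoc s, h.sbi, mul_assoc, h.ss, mul_one, ← pow_add,
      show i + 2 * i = 3 * i by ring, pow_mul, h.b3, one_pow]
  have cu : ∀ x : G, x ^ 3 = 1 → x * x = 1 → x = 1 := fun x k1 k2 => by
    rwa [pow_three', k2, one_mul] at k1
  obtain ⟨i, hi⟩ := mem_two h.ss h.conj_b h1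
  obtain ⟨j, hj⟩ := mem_two h.ss h.conj_b h2
  have hi' : α b = b ^ i := hi.resolve_right fun k => h.b1 (cu b h.b3 (α.injective (by
    rw [map_mul, k, sq, map_one])))
  have hj' : α s = b ^ j * s := hj.resolve_left fun k => h.s1 (α.injective (by
    rw [map_one]
    exact cu _ (by rw [k, ← pow_mul, mul_comm, pow_mul, h.b3, one_pow])
      (by rw [← map_mul, h.ss, map_one])))
  rw [pow_eq_pow_mod i h.b3] at hi'
  have := Nat.mod_lt i (show 0 < 3 by norm_num)
  generalize i % 3 = k at hi' this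
  interval_cases k
  · exact absurd (by simpa using hi') h.b1
  · exact h.inner₂ (by simpa using hi') hj'
  · obtain ⟨t, ht⟩ := h.inner₂ (α := MulAut.conj s * α) (i := 2 * j) (by
      rw [MulAut.mul_apply, hi', MulAut.conj_apply, h.sbi, mul_inv_cancel_right,
        show 2 * 2 = 3 + 1 by rfl, pow_succ, h.b3, one_mul]) (by
      rw [MulAut.mul_apply, hj', MulAut.conj_apply, ← mul_assoc, mul_inv_cancel_right, h.sbi])
    exact ⟨s⁻¹ * t, by rw [map_mul, ← ht, map_inv, inv_mul_cancel_left]⟩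

end Rig

theorem HQ.eq_top [Finite G] (h : HQ G) {T : Subgroup G} [T.Normal] [IsSimpleGroup T]
    (hT : ¬ Group.IsSolvable T) (hC : centralizer (T : Set G) = ⊥) {b s z e : T} {n : ℕ}
    (r : Rig b s z e n) : T = ⊤ := by
  set H := closure ({b, s} : Set T)
  have hb : b ∈ H := subset_closure (by simp)
  have hs : s ∈ H := subset_closure (by simp)
  have hH : PQ (H.map T.subtype) := (pq_two Nat.prime_three Nat.prime_two r.b3
    (by rw [pow_two, r.ss]) r.conj_b).of_card_dvd (card_map_dvd _ _)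
  refine eq_top_iff.2 fun g _ => ?_
  obtain ⟨m, hm, x, hx, rfl⟩ := h.sup_eq hT (map_subtype_le H) (fun k => r.b1 (Subtype.ext
    (mem_bot.1 (k ▸ mem_map_of_mem T.subtype hb)))) hH g
  have key : ∀ y ∈ H, MulAut.conjNormal m y ∈ H := fun y hy => by
    obtain ⟨w, hw, k⟩ := (mem_normalizer_iff.1 hm _).1 (mem_map_of_mem T.subtype hy)
    rwa [show MulAut.conjNormal m y = w from Subtype.ext k.symm]
  obtain ⟨t, ht⟩ := r.inner (key b hb) (key s hs)
  have : (t : G)⁻¹ * m ∈ centralizer (T : Set G) := fun y hy => by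
    have k : m * y * m⁻¹ = t * y * (t : G)⁻¹ :=
      congrArg (fun α : MulAut T => ((α ⟨y, hy⟩ : T) : G)) ht
    rw [mul_assoc, mul_inv_eq_iff_eq_mul.1 k]
    group
  rw [hC, mem_bot, inv_mul_eq_one] at this
  exact mul_mem (this ▸ t.2) hx

end CL.MaxN
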