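/-
Groups in which normalizers of `{p, q}`-subgroups are maximal: `PSL₂(p)` for small `p`.
-/
import Mathlib
import Cfsg.Agent.FGS.MaxNorm3
import Cfsg.Agent.PLOC.Involves

set_option autoImplicit false
set_option maxRecDepth 100000
set_option exponentiation.threshold 3000

namespace CL.MaxN

open Subgroup Cfsg
open scoped MatrixGroups

variable {T : Type*} [Group T] {R : Type*} [CommRing R]

/-- an element of `SL₂` from its entries. -/
def m2 (a b c d : R) (h : a * d - b * c = 1) : SL(2, R) :=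
  ⟨!![a, b; c, d], by simp [Matrix.det_fin_two, h]⟩

/-- an element of `SL₂(p)` from natural numbers. -/
def mn (p a b c d : ℕ) (h : (a * d) % p = (1 + b * c) % p) : SL(2, ZMod p) :=
  m2 a b c d (by
    have := (ZMod.natCast_eq_natCast_iff' _ _ p).2 h
    push_cast at this
    rw [this, add_sub_cancel_right])

/-- the check of a property on `SL₂(p)`. -/
def chk (p : ℕ) (P : SL(2, ZMod p) → Prop) [DecidablePred P] : Bool :=
  (List.range p).all fun a => (List.range p).all fun b => (List.range p).all fun c =>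
    (List.range p).all fun d =>
      if e : (a * d) % p = (1 + b * c) % p then decide (P (mn p a b c d e)) else true

theorem forall_sl {p : ℕ} [NeZero p] {P : SL(2, ZMod p) → Prop} [DecidablePred P]
    (h' : chk p P = true) (x : SL(2, ZMod p)) : P x := by
  have h : ∀ a < p, ∀ b < p, ∀ c < p, ∀ d < p, ∀ e, P (mn p a b c d e) := by
    intro a ha b hb c hc d hd e
    simp only [chk, List.all_eq_true, List.mem_range] at h'
    simpa [e] using h' a ha b hb c hc d hd
  have hd := x.det_coe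
  rw [Matrix.det_fin_two] at hd
  have := h _ (ZMod.val_lt (x 0 0)) _ (ZMod.val_lt (x 0 1)) _ (ZMod.val_lt (x 1 0)) _
    (ZMod.val_lt (x 1 1)) ((ZMod.natCast_eq_natCast_iff' _ _ p).1 (by
      push_cast [ZMod.natCast_zmod_val]
      linear_combination hd))
  convert this
  ext i j
  fin_cases i <;> fin_cases j <;> simp [mn, m2]

/-- equality up to sign. -/
def pm (x y : SL(2, R)) : Prop := x = y ∨ x = -y

instance [DecidableEq R] (x y : SL(2, R)) : Decidable (pm x y) := by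
  unfold pm; infer_instance

/-- `T` is `SL₂(R) / ±1`. -/
structure Cov (φ : SL(2, R) →* T) : Prop where
  surj : Function.Surjective φ
  eq : ∀ x y, φ x = φ y ↔ pm x y

theorem Cov.one {φ : SL(2, R) →* T} (h : Cov φ) (x : SL(2, R)) : φ x = 1 ↔ pm x 1 := by
  rw [← h.eq, map_one]

/-- the data of a four-group. -/
def FourD (S Z E : SL(2, R)) : Prop := pm (S * S) 1 ∧ pm (Z * Z) 1 ∧ pm (Z * S) (S * Z) ∧ ¬ pm S 1 ∧
  ¬ pm Z 1 ∧ ¬ pm S Z ∧ pm (E * S) (S * Z * E) ∧ pm (E * Z) (S * E)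

instance [DecidableEq R] (S Z E : SL(2, R)) : Decidable (FourD S Z E) := by
  unfold FourD; infer_instance

theorem Cov.four {φ : SL(2, R) →* T} (h : Cov φ) {S Z E : SL(2, R)} (k : FourD S Z E) :
    Four (φ S) (φ Z) (φ E) := by
  obtain ⟨k1, k2, k3, k4, k5, k6, k7, k8⟩ := k
  constructor <;> simp only [← map_mul, h.eq, h.one, ne_eq] <;> assumption

/-- the conjugate of `y` by `x` lies in the four-group. -/
def InV (S Z x y : SL(2, R)) : Prop :=
  pm (x * y) x ∨ pm (x * y) (S * x) ∨ pm (x * y) (Z * x) ∨ pm (x * y) (S * Z * x)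

instance [DecidableEq R] (S Z x y : SL(2, R)) : Decidable (InV S Z x y) := by
  unfold InV; infer_instance

theorem Cov.inV [Finite T] {φ : SL(2, R) →* T} (h : Cov φ) {S Z E : SL(2, R)} (k : FourD S Z E)
    (x y : SL(2, R)) : φ x * φ y * (φ x)⁻¹ ∈ closure ({φ S, φ Z} : Set T) ↔ InV S Z x y := by
  rw [(h.four k).mem_iff]
  simp only [mul_inv_eq_iff_eq_mul, one_mul, ← map_mul, h.eq, InV]

theorem Cov.not_pd [Finite T] {φ : SL(2, R) →* T} (h : Cov φ) {S Z E : SL(2, R)} (k : FourD S Z E)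
    (hc : ∀ x, InV S Z x S → InV S Z x Z) : ¬ PD T :=
  (h.four k).not_pd fun x => by
    obtain ⟨x, rfl⟩ := h.surj x
    rw [h.inV k, h.inV k]
    exact hc x

theorem not_pd_five [Finite T] {φ : SL(2, ZMod 5) →* T} (h : Cov φ) : ¬ PD T :=
  h.not_pd (S := m2 0 4 1 0 (by decide)) (Z := m2 0 2 2 0 (by decide)) (E := m2 1 3 4 3 (by decide))
    (by decide +kernel) (forall_sl (by decide +kernel))

theorem not_pd_seven [Finite T] {φ : SL(2, ZMod 7) →* T} (h : Cov φ) : ¬ PD T :=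
  h.not_pd (S := m2 0 6 1 0 (by decide)) (Z := m2 2 3 3 5 (by decide)) (E := m2 6 2 3 0 (by decide))
    (by decide +kernel) (forall_sl (by decide +kernel))

/-- the closed rigidity data. -/
def RigD (B S Z E : SL(2, R)) (n : ℕ) : Prop := pm (B ^ 3) 1 ∧ ¬ pm B 1 ∧ pm (S * B) (B * B * S) ∧
  pm (Z * B) (B * Z) ∧ pm (Z * E) (E * S * Z) ∧ pm ((B * E) ^ n) 1 ∧ ¬ pm ((B * (E * Z)) ^ n) 1 ∧
  ¬ pm ((B * (E * (S * Z))) ^ n) 1

instance [DecidableEq R] (B S Z E : SL(2, R)) (n : ℕ) : Decidable (RigD B S Z E n) := by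
  unfold RigD; infer_instance

theorem Cov.rig {φ : SL(2, R) →* T} (h : Cov φ) {B S Z E : SL(2, R)} {n : ℕ} (k : FourD S Z E)
    (r : RigD B S Z E n) (c1 : ∀ x, pm (x * B) (B * x) → pm (x * x) 1 → pm x 1 ∨ pm x Z)
    (c2 : ∀ x, pm (x * S) (S * x) → pm (x * Z) (Z * x) → pm x 1 ∨ pm x S ∨ pm x Z ∨ pm x (S * Z))
    (gen : ∀ H : Subgroup SL(2, R), B ∈ H → S ∈ H → Z ∈ H → E ∈ H → H = ⊤) :
    Rig (φ B) (φ S) (φ Z) (φ E) n := by
  obtain ⟨k1, k2, k3, k4, k5, k6, k7, k8⟩ := r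
  refine ⟨h.four k, ?_, ?_, ?_, ?_, ?_, ?_, ?_, ?_, fun x => ?_, fun x => ?_,
    fun H h1 h2 h3 h4 => ?_⟩
  iterate 8
    simpa only [← map_mul, ← map_pow, h.eq, h.one, ne_eq]
  · obtain ⟨x, rfl⟩ := h.surj x
    simpa only [← map_mul, h.eq, h.one] using c1 x
  · obtain ⟨x, rfl⟩ := h.surj x
    simpa only [← map_mul, h.eq, h.one] using c2 x
  · rw [← map_comap_eq_self_of_surjective h.surj H, gen (H.comap φ) h1 h2 h3 h4,
      map_top_of_surjective _ h.surj]

instance fact11 : Fact (Nat.Prime 11) := ⟨by norm_num⟩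

instance fact13 : Fact (Nat.Prime 13) := ⟨by norm_num⟩

def B13 : SL(2, ZMod 13) := m2 0 12 1 12 (by decide)
def S13 : SL(2, ZMod 13) := m2 0 5 5 0 (by decide)
def Z13 : SL(2, ZMod 13) := m2 3 7 6 10 (by decide)
def E13 : SL(2, ZMod 13) := m2 3 5 0 9 (by decide)
def B11 : SL(2, ZMod 11) := m2 0 10 1 10 (by decide)
def S11 : SL(2, ZMod 11) := m2 5 7 1 6 (by decide)
def Z11 : SL(2, ZMod 11) := m2 2 7 4 9 (by decide)
def E11 : SL(2, ZMod 11) := m2 0 1 10 10 (by decide)

theorem four13 : FourD S13 Z13 E13 := by decide +kernel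
theorem four11 : FourD S11 Z11 E11 := by decide +kernel

theorem c13a : ∀ x, pm (x * B13) (B13 * x) → pm (x * x) 1 → pm x 1 ∨ pm x Z13 :=
  forall_sl (by decide +kernel)
theorem c13b : ∀ x, pm (x * S13) (S13 * x) → pm (x * Z13) (Z13 * x) →
    pm x 1 ∨ pm x S13 ∨ pm x Z13 ∨ pm x (S13 * Z13) := forall_sl (by decide +kernel)
theorem c11a : ∀ x, pm (x * B11) (B11 * x) → pm (x * x) 1 → pm x 1 ∨ pm x Z11 :=
  forall_sl (by decide +kernel)
theorem c11b : ∀ x, pm (x * S11) (S11 * x) → pm (x * Z11) (Z11 * x) →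
    pm x 1 ∨ pm x S11 ∨ pm x Z11 ∨ pm x (S11 * Z11) := forall_sl (by decide +kernel)

theorem w13 : CL.Dickson.u 1 = B13 * B13 * Z13 * E13 * B13 * E13 * E13 ∧
    CL.Dickson.l 1 = B13 * S13 * E13 * S13 * B13 * E13 * E13 := by decide +kernel

theorem w11 : CL.Dickson.u 1 = Z11 * E11 * B11 * E11 * E11 * B11 * S11 * E11 * B11 ∧
    CL.Dickson.l 1 = E11 * B11 * B11 * E11 * E11 * B11 * E11 * S11 * B11 * E11 := by decide +kernel

theorem rig13 {φ : SL(2, ZMod 13) →* T} (h : Cov φ) : Rig (φ B13) (φ S13) (φ Z13) (φ E13) 6 :=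
  h.rig four13 (by decide +kernel) c13a c13b fun H h1 h2 h3 h4 => by
    refine CL.Sec.sl2_eq_top_of_mem H (w13.1 ▸ ?_) (w13.2 ▸ ?_) <;>
      repeat first | assumption | apply H.mul_mem

theorem rig11 {φ : SL(2, ZMod 11) →* T} (h : Cov φ) : Rig (φ B11) (φ S11) (φ Z11) (φ E11) 5 :=
  h.rig four11 (by decide +kernel) c11a c11b fun H h1 h2 h3 h4 => by
    refine CL.Sec.sl2_eq_top_of_mem H (w11.1 ▸ ?_) (w11.2 ▸ ?_) <;>
      repeat first | assumption | apply H.mul_mem

/-- the natural action on pairs. -/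
def act (g : SL(2, R)) (v : R × R) : R × R :=
  (g.1 0 0 * v.1 + g.1 0 1 * v.2, g.1 1 0 * v.1 + g.1 1 1 * v.2)

theorem act_mul (g h : SL(2, R)) (v : R × R) : act (g * h) v = act g (act h v) := by
  simp only [act, Matrix.SpecialLinearGroup.coe_mul, Matrix.mul_apply, Fin.sum_univ_two]
  ext <;> ring

theorem act_one (v : R × R) : act 1 v = v := by simp [act]

/-- the elements commuting with a map on pairs. -/
def comm (f : R × R → R × R) : Subgroup SL(2, R) where
  carrier := {g | ∀ v, f (act g v) = act g (f v)}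
  one_mem' v := by rw [act_one, act_one]
  mul_mem' {a b} ha hb v := by rw [act_mul, act_mul, ha, hb]
  inv_mem' {a} ha v := by
    have := ha (act a⁻¹ v)
    rw [← act_mul, mul_inv_cancel, act_one] at this
    rw [this, ← act_mul, inv_mul_cancel, act_one]

def tab11 : ℕ := 0x8911041625872213580aa037289a241550129123265927064803a43970614aa27577553880524153493a748654458a514220435618572964a3657890796a31766792478172687a69308366443519715a408217087305944695982aa960a697219384620163a8993496a507aa3210a1361433090288a7851a00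

def f11 (v : ZMod 11 × ZMod 11) : ZMod 11 × ZMod 11 :=
  (((tab11 >>> (8 * (11 * v.1.val + v.2.val))) % 16 : ℕ),
    ((tab11 >>> (8 * (11 * v.1.val + v.2.val) + 4)) % 16 : ℕ))

def Y11 : SL(2, ZMod 11) := m2 0 2 5 0 (by decide)

theorem c11c : ∀ x, InV S11 Z11 x S11 → InV S11 Z11 x Z11 → ∀ v, f11 (act x v) = act x (f11 v) :=
  forall_sl (by decide +kernel)

theorem c11d : (∀ v, f11 (act Y11 v) = act Y11 (f11 v)) ∧ ¬ InV S11 Z11 Y11 S11 ∧
    ∀ x ∈ [B11, -B11], ¬ ∀ v, f11 (act x v) = act x (f11 v) := by decide +kernel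

theorem not_hq_eleven [Finite T] {φ : SL(2, ZMod 11) →* T} (h : Cov φ) : ¬ HQ T := fun hq => by
  have f := h.four four11
  have hs : φ S11 ∈ closure ({φ S11, φ Z11} : Set T) := subset_closure (by simp)
  have hz : φ Z11 ∈ closure ({φ S11, φ Z11} : Set T) := subset_closure (by simp)
  have h1 := hq _ (fun e => f.s1 (mem_bot.1 (e ▸ hs))) f.pq
  have h2 : normalizer (closure ({φ S11, φ Z11} : Set T) : Set T) ≤ (comm f11).map φ := fun x hx => by
    obtain ⟨x, rfl⟩ := h.surj x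
    exact mem_map_of_mem φ (c11c x ((h.inV four11 _ _).1 ((mem_normalizer_iff.1 hx _).1 hs))
      ((h.inV four11 _ _).1 ((mem_normalizer_iff.1 hx _).1 hz)))
  rcases h1.le_iff.1 h2 with e | e
  · obtain ⟨x, hx, k⟩ := e.ge (mem_top (φ B11))
    refine c11d.2.2 x ?_ hx
    rcases (h.eq _ _).1 k with rfl | rfl <;> simp
  · exact c11d.2.1 ((h.inV four11 _ _).1
      ((mem_normalizer_iff.1 (e.le (mem_map_of_mem φ c11d.1)) _).1 hs))

end CL.MaxN
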