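import Mathlib

/-! Core of Miller's theorem on multiply transitive groups of degree `k p + r`. -/

namespace CL.FGS.Miller

open MulAction
open scoped commutatorElement Pointwise

variable {G : Type*} [Group G] [Finite G] {α : Type*} [MulAction G α] {p : ℕ} [hp : Fact p.Prime]

/-- A `p`-subgroup fixing `Δ` pointwise with all other orbits of length `p`. -/
structure Cfg (p : ℕ) (P : Subgroup G) (Δ : Set α) : Prop where
  pg : IsPGroup p P
  fix : ∀ v ∈ P, ∀ δ ∈ Δ, v • δ = δ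
  idx : ∀ ω ∉ Δ, (stabilizer P ω).index = p
  A : ∀ g : G, (∀ ω ∉ Δ, g • ω = ω) → g = 1

/-- `x` acts on `P` at the point `ω` as the power `m`. -/
def Mu (P : Subgroup G) (x : G) (ω : α) (m : ℤ) : Prop :=
  ∀ v ∈ P, (x * v * x⁻¹) • ω = (v ^ m) • ω

variable {P : Subgroup G} {Δ : Set α}

theorem Cfg.normal (h : Cfg p P Δ) {ω : α} (hω : ω ∉ Δ) : (stabilizer P ω).Normal := by
  obtain ⟨m, hm⟩ := IsPGroup.iff_card.1 h.pg
  have hk := h.idx ω hω
  have hm0 : m ≠ 0 := by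
    rintro rfl
    have := (stabilizer P ω).index_dvd_card
    rw [hk, hm, pow_zero, Nat.dvd_one] at this
    exact hp.out.ne_one this
  exact Subgroup.normal_of_index_eq_minFac_card (by rw [hk, hm, hp.out.pow_minFac hm0])

theorem Cfg.comm (h : Cfg p P Δ) {a b : G} (ha : a ∈ P) (hb : b ∈ P) : a * b = b * a := by
  have : (b * a)⁻¹ * (a * b) = 1 := by
    refine h.A _ fun ω hω => ?_
    have hn := h.normal hω
    have hc : IsCyclic (P ⧸ stabilizer P ω) := isCyclic_of_prime_card (p := p) (h.idx ω hω)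
    have hmem : ((⟨b, hb⟩ : P) * ⟨a, ha⟩)⁻¹ * (⟨a, ha⟩ * ⟨b, hb⟩) ∈ stabilizer P ω := by
      rw [← QuotientGroup.eq]
      simp only [QuotientGroup.mk_mul]
      exact mul_comm' _ _
    exact hmem
  rw [inv_mul_eq_one] at this
  exact this.symm

theorem Cfg.pow (h : Cfg p P Δ) {a : G} (ha : a ∈ P) : a ^ p = 1 := by
  refine h.A _ fun ω hω => ?_
  have hn := h.normal hω
  have := (stabilizer P ω).pow_index_mem ⟨a, ha⟩
  rw [h.idx ω hω] at this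
  exact this

omit [Finite G] in
theorem Cfg.exists_moved (h : Cfg p P Δ) {ω : α} (hω : ω ∉ Δ) : ∃ v ∈ P, v • ω ≠ ω := by
  by_contra hc
  push Not at hc
  have : stabilizer P ω = ⊤ := by
    rw [eq_top_iff]; intro v _; exact hc v v.2
  have h2 := h.idx ω hω
  rw [this, Subgroup.index_top] at h2
  exact hp.out.ne_one h2.symm

theorem Cfg.exists_mu (h : Cfg p P Δ) {x : G} (hx : x ∈ Subgroup.normalizer (P : Set G)) {ω : α}
    (hω : ω ∉ Δ) (hxω : ∃ u ∈ P, x⁻¹ • ω = u • ω) : ∃ m : ℤ, Mu P x ω m := by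
  have hn := h.normal hω
  have hc : IsCyclic (P ⧸ stabilizer P ω) := isCyclic_of_prime_card (p := p) (h.idx ω hω)
  obtain ⟨u, hu, hxu⟩ := hxω
  let φ : P →* P := (P.normalizerMonoidHom ⟨x, hx⟩).toMonoidHom
  have hφ : ∀ v : P, (φ v : G) = x * v * x⁻¹ := fun v => rfl
  have hS : stabilizer P ω ≤ (stabilizer P ω).comap φ := by
    intro v hv
    have hv' : (v : G) • ω = ω := hv
    change (φ v : G) • ω = ω
    rw [hφ, mul_smul, mul_smul, hxu, ← mul_smul (v : G), h.comm v.2 hu, mul_smul, hv', ← hxu, smul_inv_smul]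
  obtain ⟨m, hm⟩ := MonoidHom.map_cyclic (QuotientGroup.map _ _ φ hS)
  refine ⟨m, fun v hv => ?_⟩
  have h1 := hm (⟨v, hv⟩ : P)
  rw [QuotientGroup.map_mk, ← QuotientGroup.mk_zpow, QuotientGroup.eq] at h1
  have h2 : ((φ ⟨v, hv⟩ : G)⁻¹ * v ^ m) • ω = ω := h1
  rw [mul_smul, inv_smul_eq_iff, hφ] at h2
  exact h2.symm

omit [Finite G] hp in
theorem conj_mem {x v : G} (hx : x ∈ Subgroup.normalizer (P : Set G)) (hv : v ∈ P) : x * v * x⁻¹ ∈ P :=
  (Subgroup.mem_normalizer_iff.1 hx v).1 hv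

theorem Cfg.mu_orbit (h : Cfg p P Δ) {x : G} (hx : x ∈ Subgroup.normalizer (P : Set G)) {ω : α} {m : ℤ}
    (hm : Mu P x ω m) {ω' : α} (hω' : ω' ∈ orbit P ω) : Mu P x ω' m := by
  obtain ⟨⟨u, hu⟩, rfl⟩ := hω'
  intro v hv
  change (x * v * x⁻¹) • u • ω = (v ^ m) • u • ω
  rw [← mul_smul, h.comm (conj_mem hx hv) hu, mul_smul, hm v hv, ← mul_smul, ← mul_smul,
    h.comm hu (P.zpow_mem hv m)]

theorem Cfg.zpow_congr (h : Cfg p P Δ) {u v : G} (hu : u ∈ P) (hv : v ∈ P) {ω : α}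
    (huv : u • ω = v • ω) (j : ℤ) : (u ^ j) • ω = (v ^ j) • ω := by
  have h1 : v⁻¹ * u ∈ stabilizer G ω := by
    rw [mem_stabilizer_iff, mul_smul, huv, inv_smul_smul]
  have h2 := (stabilizer G ω).zpow_mem h1 j
  have hc : Commute v⁻¹ u := h.comm (P.inv_mem hv) hu
  rw [hc.mul_zpow, mem_stabilizer_iff, mul_smul, inv_zpow, inv_smul_eq_iff] at h2
  exact h2

theorem Cfg.mu_congr (h : Cfg p P Δ) {x : G} {ω : α} {m m' : ℤ} (hm : Mu P x ω m)
    (hd : (p : ℤ) ∣ m - m') : Mu P x ω m' := by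
  intro v hv
  obtain ⟨c, hc⟩ := hd
  rw [hm v hv, show m = m' + p * c by linarith, zpow_add, zpow_mul, zpow_natCast, h.pow hv, one_zpow,
    mul_one]

theorem Cfg.T_apply (h : Cfg p P Δ) {x : G} (hx : x ∈ Subgroup.normalizer (P : Set G)) {ω : α} {m : ℤ}
    (hm : Mu P x ω m) (a : ℤ) {v : G} (hv : v ∈ P) :
    (x * v * x⁻¹ * v ^ (-a)) • ω = (v ^ (m - a)) • ω := by
  rw [h.comm (conj_mem hx hv) (P.zpow_mem hv _), mul_smul, hm v hv, ← mul_smul, ← zpow_add]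
  congr 2; ring

theorem Cfg.iso (h : Cfg p P Δ) (hB : ∀ g ∈ P, ∀ ω ∉ Δ, (∀ ω' ∉ orbit P ω, g • ω' = ω') → g = 1)
    {x : G} (hx : x ∈ Subgroup.normalizer (P : Set G)) {ω : α} (hω : ω ∉ Δ) {m a b : ℤ}
    (hm : Mu P x ω m) (ha : ¬ (p : ℤ) ∣ m - a) (hb : ¬ (p : ℤ) ∣ m - b)
    (ho : ∀ ω' ∉ orbit P ω, ω' ∈ Δ ∨ Mu P x ω' a ∨ Mu P x ω' b) : False := by
  obtain ⟨v, hv, hvω⟩ := h.exists_moved hω
  set w := x * v * x⁻¹ * v ^ (-b) with hw
  have hwP : w ∈ P := P.mul_mem (conj_mem hx hv) (P.zpow_mem hv _)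
  have hw2P : x * w * x⁻¹ * w ^ (-a) ∈ P := P.mul_mem (conj_mem hx hwP) (P.zpow_mem hwP _)
  have h1 : x * w * x⁻¹ * w ^ (-a) = 1 := by
    refine hB _ hw2P ω hω fun ω' hω' => ?_
    rcases ho ω' hω' with h1 | h1 | h1
    · exact h.fix _ hw2P _ h1
    · rw [h.T_apply hx h1 a hwP, sub_self, zpow_zero, one_smul]
    · rw [h.T_apply hx h1 a hwP]
      have h2 : w • ω' = ω' := by rw [hw, h.T_apply hx h1 b hv, sub_self, zpow_zero, one_smul]
      exact (stabilizer G ω').zpow_mem h2 _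
  have h2 := h.T_apply hx hm a hwP
  rw [h1, one_smul, h.zpow_congr hwP (P.zpow_mem hv _) (h.T_apply hx hm b hv), ← zpow_mul] at h2
  have h3 : v ^ ((m - b) * (m - a)) ∈ stabilizer G ω := h2.symm
  have hpr : Prime (p : ℤ) := Nat.prime_iff_prime_int.1 hp.out
  have h4 : IsCoprime ((m - b) * (m - a)) (p : ℤ) :=
    ((hpr.irreducible.coprime_iff_not_dvd.2 hb).mul_right (hpr.irreducible.coprime_iff_not_dvd.2 ha)).symm
  obtain ⟨s, t, hst⟩ := h4
  apply hvω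
  have h5 : v = (v ^ ((m - b) * (m - a))) ^ s := by
    rw [← zpow_mul]
    conv_lhs => rw [← zpow_one v, ← hst, zpow_add, mul_comm t, zpow_mul v p, zpow_natCast, h.pow hv,
      one_zpow, mul_one, mul_comm]
  rw [h5]
  exact (stabilizer G ω).zpow_mem h3 s

/-- With at most three orbits and no `p`-cycles, an element fixing all orbits acts as a power map. -/
theorem Cfg.scalar (h : Cfg p P Δ) (hB : ∀ g ∈ P, ∀ ω ∉ Δ, (∀ ω' ∉ orbit P ω, g • ω' = ω') → g = 1)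
    (h3 : ∀ ω₁ ∉ Δ, ∀ ω₂ ∉ Δ, ω₂ ∉ orbit P ω₁ →
      ∃ ω₃ ∉ Δ, ∀ ω ∉ Δ, ω ∈ orbit P ω₁ ∨ ω ∈ orbit P ω₂ ∨ ω ∈ orbit P ω₃)
    {x : G} (hx : x ∈ Subgroup.normalizer (P : Set G)) (hxK : ∀ ω ∉ Δ, ∃ u ∈ P, x⁻¹ • ω = u • ω) :
    ∃ m : ℤ, ∀ v ∈ P, x * v * x⁻¹ = v ^ m := by
  suffices hs : ∃ m : ℤ, ∀ ω ∉ Δ, Mu P x ω m by
    obtain ⟨m, hm⟩ := hs
    refine ⟨m, fun v hv => ?_⟩
    rw [← inv_mul_eq_one]
    refine h.A _ fun ω hω => ?_
    rw [mul_smul, inv_smul_eq_iff, hm ω hω v hv]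
  by_contra hc
  push Not at hc
  obtain ⟨ω₁, h1, -⟩ := hc 0
  obtain ⟨m₁, hm₁⟩ := h.exists_mu hx h1 (hxK _ h1)
  obtain ⟨ω₂, h2, h21⟩ := hc m₁
  obtain ⟨m₂, hm₂⟩ := h.exists_mu hx h2 (hxK _ h2)
  obtain ⟨ω₃, h3, hall⟩ := h3 ω₁ h1 ω₂ h2 fun ho => h21 (h.mu_orbit hx hm₁ ho)
  obtain ⟨m₃, hm₃⟩ := h.exists_mu hx h3 (hxK _ h3)
  have h12 : ¬ (p : ℤ) ∣ m₂ - m₁ := fun hd => h21 (h.mu_congr hm₂ hd)
  by_cases h31 : (p : ℤ) ∣ m₃ - m₁
  · refine h.iso hB hx h2 hm₂ h12 h12 fun ω' hω' => ?_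
    by_cases hΔ : ω' ∈ Δ
    · exact Or.inl hΔ
    rcases hall ω' hΔ with h4 | h4 | h4
    · exact Or.inr (Or.inl (h.mu_orbit hx hm₁ h4))
    · exact absurd h4 hω'
    · exact Or.inr (Or.inl (h.mu_orbit hx (h.mu_congr hm₃ h31) h4))
  · refine h.iso hB hx h1 hm₁ (fun hd => h12 (dvd_sub_comm.1 hd)) (fun hd => h31 (dvd_sub_comm.1 hd))
      fun ω' hω' => ?_
    by_cases hΔ : ω' ∈ Δ
    · exact Or.inl hΔ
    rcases hall ω' hΔ with h4 | h4 | h4
    · exact absurd h4 hω'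
    · exact Or.inr (Or.inl (h.mu_orbit hx hm₂ h4))
    · exact Or.inr (Or.inr (h.mu_orbit hx hm₃ h4))

theorem Cfg.pow_of_cent (h : Cfg p P Δ) {c : G} (hc : ∀ v ∈ P, c * v = v * c)
    (hK : ∀ ω ∉ Δ, ∃ u ∈ P, c • ω = u • ω) : c ^ p = 1 := by
  refine h.A _ fun ω hω => ?_
  obtain ⟨u, hu, hcu⟩ := hK ω hω
  have : ∀ j : ℕ, (c ^ j) • ω = (u ^ j) • ω := by
    intro j
    induction j with
    | zero => simp
    | succ j ih =>
      rw [pow_succ', mul_smul, ih, ← mul_smul, hc _ (P.pow_mem hu j), mul_smul, hcu, ← mul_smul, ← pow_succ]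
  rw [this, h.pow hu, one_smul]

theorem Cfg.comm_of_K (h : Cfg p P Δ) {x y : G} (hx : x ∈ Subgroup.normalizer (P : Set G))
    (hy : y ∈ Subgroup.normalizer (P : Set G)) (hxK : ∀ ω ∉ Δ, ∃ u ∈ P, x⁻¹ • ω = u • ω)
    (hyK : ∀ ω ∉ Δ, ∃ u ∈ P, y⁻¹ • ω = u • ω) {v : G} (hv : v ∈ P) :
    x * (y * v * y⁻¹) * x⁻¹ = y * (x * v * x⁻¹) * y⁻¹ := by
  rw [← inv_mul_eq_one]
  refine h.A _ fun ω hω => ?_
  obtain ⟨a, ha⟩ := h.exists_mu hx hω (hxK _ hω)
  obtain ⟨b, hb⟩ := h.exists_mu hy hω (hyK _ hω)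
  rw [mul_smul, inv_smul_eq_iff, ha _ (conj_mem hy hv), hb _ (conj_mem hx hv),
    h.zpow_congr (conj_mem hy hv) (P.zpow_mem hv _) (hb v hv),
    h.zpow_congr (conj_mem hx hv) (P.zpow_mem hv _) (ha v hv), ← zpow_mul, ← zpow_mul, mul_comm]

omit [Finite G] in
theorem Cfg.smul_notMem (h : Cfg p P Δ) {x : G} (hx : x ∈ Subgroup.normalizer (P : Set G)) {ω : α}
    (hω : ω ∉ Δ) : x • ω ∉ Δ := by
  intro hc
  obtain ⟨v, hv, hvω⟩ := h.exists_moved hω
  have := h.fix _ (conj_mem hx hv) _ hc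
  rw [mul_smul, inv_smul_smul, mul_smul] at this
  exact hvω (smul_left_cancel x this)

omit [Finite G] hp in
theorem smul_orbit_eq {x : G} (hx : x ∈ Subgroup.normalizer (P : Set G)) (ω : α) :
    x • orbit P ω = orbit P (x • ω) := by
  ext y
  constructor
  · rintro ⟨_, ⟨⟨u, hu⟩, rfl⟩, rfl⟩
    refine ⟨⟨x * u * x⁻¹, conj_mem hx hu⟩, ?_⟩
    change (x * u * x⁻¹) • x • ω = x • u • ω
    rw [mul_smul, inv_smul_smul, mul_smul]
  · rintro ⟨⟨u, hu⟩, rfl⟩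
    refine ⟨_, ⟨⟨x⁻¹ * u * x⁻¹⁻¹, conj_mem (Subgroup.inv_mem _ hx) hu⟩, rfl⟩, ?_⟩
    change x • (x⁻¹ * u * x⁻¹⁻¹) • ω = u • x • ω
    rw [inv_inv, mul_smul, mul_smul, smul_inv_smul]

omit [Finite G] in
theorem Cfg.orbit_subset (h : Cfg p P Δ) {ω : α} (hω : ω ∉ Δ) : orbit P ω ⊆ Δᶜ := by
  rintro _ ⟨u, rfl⟩
  exact h.smul_notMem (Subgroup.le_normalizer u.2) hω

omit [Finite G] hp in
theorem Cfg.ncard_orbit (h : Cfg p P Δ) {ω : α} (hω : ω ∉ Δ) : (orbit P ω).ncard = p := by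
  rw [← index_stabilizer, h.idx ω hω]

/-- The set of nontrivial orbits. -/
def Cfg.orbs (h : Cfg p P Δ) : SubMulAction (Subgroup.normalizer (P : Set G)) (Set α) where
  carrier := {O | ∃ ω ∉ Δ, O = orbit P ω}
  smul_mem' := by
    rintro ⟨x, hx⟩ _ ⟨ω, hω, rfl⟩
    exact ⟨x • ω, h.smul_notMem hx hω, smul_orbit_eq hx ω⟩

omit [Finite G] in
theorem Cfg.ncard_orbs [Finite α] (h : Cfg p P Δ) {k : ℕ} (hk : Δᶜ.ncard = k * p) :
    (h.orbs : Set (Set α)).ncard ≤ k := by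
  classical
  have := Fintype.ofFinite α
  have h1 := Finset.mul_card_image_le_card (f := fun ω : α => orbit P ω) Δᶜ.toFinset p (by
    intro b hb
    obtain ⟨ω, hω, rfl⟩ := Finset.mem_image.1 hb
    rw [Set.mem_toFinset] at hω
    rw [← h.ncard_orbit hω, Set.ncard_eq_toFinset_card']
    refine Finset.card_le_card fun y hy => ?_
    rw [Set.mem_toFinset] at hy
    exact Finset.mem_filter.2 ⟨Set.mem_toFinset.2 (h.orbit_subset hω hy), orbit_eq_iff.2 hy⟩)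
  rw [← Set.ncard_eq_toFinset_card', hk, mul_comm k] at h1
  have h2 := Nat.le_of_mul_le_mul_left h1 hp.out.pos
  have h3 : (h.orbs : Set (Set α)) = (Finset.image (fun ω : α => orbit P ω) Δᶜ.toFinset : Finset _) := by
    ext O
    simp only [Finset.coe_image, Set.coe_toFinset, Set.mem_image, Set.mem_compl_iff]
    exact ⟨fun ⟨ω, h1, h2⟩ => ⟨ω, h1, h2.symm⟩, fun ⟨ω, h1, h2⟩ => ⟨ω, h1, h2.symm⟩⟩
  rw [h3, Set.ncard_coe_finset]
  exact h2

theorem fin3 : ∀ g : Equiv.Perm (Fin 3), g ≠ 1 → ∃ s : Equiv.Perm (Fin 3),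
    s * g * s⁻¹ * g⁻¹ ≠ 1 ∧ (s * g * s⁻¹ * g⁻¹) ^ 3 = 1 := by decide +kernel

theorem fin4 : ∀ g : Equiv.Perm (Fin 4), g ≠ 1 → ∃ s : Equiv.Perm (Fin 4),
    s * g * s⁻¹ * g⁻¹ ≠ 1 ∧ (s * g * s⁻¹ * g⁻¹) ^ 2 = 1 := by decide +kernel

theorem eq_of_pow {H : Type*} [Group H] {g : H} {q : ℕ} (hq : q.Prime) (h1 : g ≠ 1) (h2 : g ^ q = 1)
    (h3 : g ^ p = 1) : p = q := by
  have := Fact.mk hq
  rw [← orderOf_eq_prime h3 h1, orderOf_eq_prime h2 h1]

theorem Cfg.main [Finite α] {r k : ℕ} {e : Fin r ↪ α} (h : Cfg p P (Set.range e))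
    (hB : ∀ g ∈ P, ∀ ω ∉ Set.range e, (∀ ω' ∉ orbit P ω, g • ω' = ω') → g = 1)
    (hk : (Set.range e)ᶜ.ncard = k * p) (hk1 : 1 ≤ k) (hkp : k < p) (hkr : k < r) (hr : 3 ≤ r)
    (hW : ∀ σ : Equiv.Perm (Fin r), ∃ x ∈ Subgroup.normalizer (P : Set G), ∀ i, x • e i = e (σ i)) :
    k = 2 ∧ p = 3 ∧ r = 3 := by
  classical
  have hk2 : 2 ≤ k := by
    by_contra hc
    obtain rfl : k = 1 := by omega
    obtain ⟨ω, hω⟩ : (Set.range e)ᶜ.Nonempty := Set.nonempty_of_ncard_ne_zero (by omega)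
    have h1 : orbit P ω = (Set.range e)ᶜ :=
      Set.eq_of_subset_of_ncard_le (h.orbit_subset hω) (by rw [h.ncard_orbit hω]; omega)
    obtain ⟨v, hv, hvω⟩ := h.exists_moved hω
    refine hvω ?_
    rw [hB v hv ω hω fun ω' hω' => h.fix v hv ω' (by rw [h1] at hω'; exact not_not.1 hω'), one_smul]
  set N := Subgroup.normalizer (P : Set G) with hN
  have hex : ∀ (x : N) (i : Fin r), ∃ j, (x : G) • e i = e j := by
    intro x i
    by_contra hc
    push Not at hc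
    have h1 : (x : G) • e i ∉ Set.range e := fun ⟨j, hj⟩ => hc j hj.symm
    have h2 := h.smul_notMem (N.inv_mem x.2) h1
    rw [inv_smul_smul] at h2
    exact h2 ⟨i, rfl⟩
  choose f hf using hex
  let act : MulAction N (Fin r) :=
    { smul := f
      one_smul := fun i => e.injective (by change e (f 1 i) = _; rw [← hf]; simp)
      mul_smul := fun x y i => e.injective (by
        change e (f (x * y) i) = e (f x (f y i))
        rw [← hf, ← hf, ← hf, Subgroup.coe_mul, mul_smul]) }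
  let π : N →* Equiv.Perm (Fin r) := MulAction.toPermHom N (Fin r)
  have hπ : ∀ (x : N) i, e (π x i) = (x : G) • e i := fun x i => (hf x i).symm
  have hsurj : Function.Surjective π := by
    intro σ
    obtain ⟨x, hx, hxσ⟩ := hW σ
    exact ⟨⟨x, hx⟩, Equiv.ext fun i => e.injective (by rw [hπ, hxσ])⟩
  let K : Subgroup N := (MulAction.toPermHom N h.orbs).ker
  have hKo : ∀ x ∈ K, ∀ ω ∉ Set.range e, ∃ u ∈ P, (x : G) • ω = u • ω := by
    intro x hx ω hω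
    have h1 := congrArg Subtype.val (DFunLike.congr_fun (MonoidHom.mem_ker.1 hx) ⟨orbit P ω, ω, hω, rfl⟩)
    have h2 : (x : G) • orbit P ω = orbit P ω := h1
    rw [smul_orbit_eq x.2, orbit_eq_iff] at h2
    obtain ⟨u, hu⟩ := h2
    exact ⟨u, u.2, hu.symm⟩
  have hKi : K.index ≤ k.factorial := by
    rw [Subgroup.index_ker]
    refine (Nat.card_le_card_of_injective _ Subtype.val_injective).trans ?_
    rw [Nat.card_perm]
    exact Nat.factorial_le (h.ncard_orbs hk)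
  have hM : K.map π ≠ ⊥ := by
    intro hb
    have h1 := Nat.le_of_dvd (Nat.pos_of_ne_zero Subgroup.index_ne_zero_of_finite)
      (Subgroup.index_map_dvd K hsurj)
    rw [hb, Subgroup.index_bot, Nat.card_perm, Nat.card_eq_fintype_card, Fintype.card_fin] at h1
    have := Nat.factorial_lt_of_lt (by omega) hkr
    omega
  have hE : ∀ c ∈ K, (∀ v ∈ P, (c : G) * v = v * c) → π c ^ p = 1 := by
    intro c hc hcP
    have : c ^ p = 1 := Subtype.ext (h.pow_of_cent hcP (hKo c hc))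
    rw [← map_pow, this, map_one]
  by_cases h5 : 5 ≤ r
  · exfalso
    have hMn : (K.map π).Normal := Subgroup.Normal.map inferInstance π hsurj
    have hA : alternatingGroup (Fin r) ≤ K.map π :=
      Equiv.Perm.alternatingGroup_le_of_normal (by simpa using h5) ((Subgroup.nontrivial_iff_ne_bot _).2 hM)
    let E : Subgroup N := K ⊓ (Subgroup.centralizer (P : Set G)).subgroupOf N
    have hKE : ⁅K, K⁆ ≤ E := by
      rw [Subgroup.commutator_le]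
      intro x hx y hy
      refine ⟨Subgroup.commutator_le_left K K (Subgroup.commutator_mem_commutator hx hy), fun v hv => ?_⟩
      have h1 := h.comm_of_K (N.inv_mem x.2) (N.inv_mem y.2) (by simpa using hKo x hx)
        (by simpa using hKo y hy) hv
      change v * ((x : G) * y * (x : G)⁻¹ * (y : G)⁻¹) = ((x : G) * y * (x : G)⁻¹ * (y : G)⁻¹) * v
      calc v * ((x : G) * y * (x : G)⁻¹ * (y : G)⁻¹)
          = x * y * ((y : G)⁻¹ * ((x : G)⁻¹ * v * (x : G)⁻¹⁻¹) * (y : G)⁻¹⁻¹) * (x : G)⁻¹ * (y : G)⁻¹ := by group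
        _ = x * y * ((x : G)⁻¹ * ((y : G)⁻¹ * v * (y : G)⁻¹⁻¹) * (x : G)⁻¹⁻¹) * (x : G)⁻¹ * (y : G)⁻¹ := by
          rw [h1]
        _ = _ := by group
    have hA2 : alternatingGroup (Fin r) ≤ E.map π := by
      rw [← commutator_alternatingGroup_eq_self (by simpa using h5)]
      refine (Subgroup.commutator_mono hA hA).trans ?_
      rw [← Subgroup.map_commutator]
      exact Subgroup.map_mono hKE
    obtain ⟨g, hg⟩ := (Equiv.Perm.exists_with_cycleType_iff (Fin r) (m := {2, 2})).2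
      ⟨by simp; omega, by simp⟩
    have hgA : g ∈ alternatingGroup (Fin r) := by
      rw [Equiv.Perm.mem_alternatingGroup, Equiv.Perm.sign_of_cycleType, hg]
      decide
    have ho : orderOf g = 2 := by
      rw [← Equiv.Perm.lcm_cycleType, hg]; decide
    obtain ⟨c, ⟨hc1, hc2⟩, hcg⟩ := hA2 hgA
    have h1 := hE c hc1 fun v hv => (hc2 v hv).symm
    rw [hcg, ← orderOf_dvd_iff_pow_eq_one, ho, Nat.prime_dvd_prime_iff_eq Nat.prime_two hp.out] at h1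
    omega
  · have h3 : ∀ ω₁ ∉ Set.range e, ∀ ω₂ ∉ Set.range e, ω₂ ∉ orbit P ω₁ →
        ∃ ω₃ ∉ Set.range e, ∀ ω ∉ Set.range e,
        ω ∈ orbit P ω₁ ∨ ω ∈ orbit P ω₂ ∨ ω ∈ orbit P ω₃ := by
      intro ω₁ h1 ω₂ h2 h21
      have hc := h.ncard_orbs hk
      by_contra hcon
      push Not at hcon
      obtain ⟨ω₃, h3, h31, h32, -⟩ := hcon ω₁ h1
      obtain ⟨ω₄, h4, h41, h42, h43⟩ := hcon ω₃ h3
      have hne : ∀ {a b : α}, a ∉ orbit P b → orbit P a ≠ orbit P b := fun hab h0 => hab (orbit_eq_iff.1 h0)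
      have hsub : ({orbit P ω₄, orbit P ω₃, orbit P ω₂, orbit P ω₁} : Set (Set α)) ⊆ h.orbs := by
        rintro O (rfl | rfl | rfl | rfl)
        exacts [⟨_, h4, rfl⟩, ⟨_, h3, rfl⟩, ⟨_, h2, rfl⟩, ⟨_, h1, rfl⟩]
      have h6 := Set.ncard_le_ncard hsub
      rw [Set.ncard_insert_of_notMem (by simp [hne h41, hne h42, hne h43]),
        Set.ncard_insert_of_notMem (by simp [hne h31, hne h32]),
        Set.ncard_insert_of_notMem (by simp [hne h21]), Set.ncard_singleton] at h6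
      omega
    obtain ⟨⟨_, x, hxK, rfl⟩, hx1⟩ := Subgroup.ne_bot_iff_exists_ne_one.1 hM
    have hx1' : π x ≠ 1 := fun h => hx1 (Subtype.ext h)
    obtain ⟨m, hm⟩ := h.scalar hB h3 x.2 (hKo x⁻¹ (K.inv_mem hxK))
    have key : ∀ s : Equiv.Perm (Fin r), (s * π x * s⁻¹ * (π x)⁻¹) ^ p = 1 := by
      intro s
      obtain ⟨y, rfl⟩ := hsurj s
      rw [← map_inv, ← map_inv, ← map_mul, ← map_mul, ← map_mul]
      refine hE _ (K.mul_mem (Subgroup.Normal.conj_mem inferInstance x hxK y) (K.inv_mem hxK)) fun v hv => ?_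
      have hw : (x : G)⁻¹ * v * (x : G)⁻¹⁻¹ ∈ P := conj_mem (N.inv_mem x.2) hv
      have h1 := hm _ hw
      have h2 := hm _ (conj_mem (N.inv_mem y.2) hw)
      rw [conj_zpow, ← h1] at h2
      change (y : G) * x * (y : G)⁻¹ * (x : G)⁻¹ * v = v * ((y : G) * x * (y : G)⁻¹ * (x : G)⁻¹)
      calc (y : G) * x * (y : G)⁻¹ * (x : G)⁻¹ * v
          = y * (x * ((y : G)⁻¹ * ((x : G)⁻¹ * v * (x : G)⁻¹⁻¹) * (y : G)⁻¹⁻¹) * (x : G)⁻¹) * x * (y : G)⁻¹ * (x : G)⁻¹ := by group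
        _ = _ := by rw [h2]; group
    rcases (show r = 3 ∨ r = 4 by omega) with rfl | rfl
    · obtain ⟨s, hs1, hs2⟩ := fin3 _ hx1'
      have := eq_of_pow Nat.prime_three hs1 hs2 (key s)
      omega
    · obtain ⟨s, hs1, hs2⟩ := fin4 _ hx1'
      have := eq_of_pow Nat.prime_two hs1 hs2 (key s)
      omega

end CL.FGS.Miller
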