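import Mathlib
import Cfsg.Agent.FGS.Min8a
import Cfsg.Agent.S0095
import Cfsg.Agent.SOLV.Frattini

/-!
# 2-groups minimal (under an odd order operator group) with a noncyclic abelian subgroup of order 8
-/

set_option autoImplicit false

namespace CL.Min8

open Subgroup CL.PCyc
open scoped commutatorElement

variable {X : Type*} [Group X] {A : Type*} [Group A] [MulDistribMulAction A X]

theorem not_comm_top_of_sup {Y Z : Subgroup X} (hY : IsMulCommutative Y) (hZ : Z ≤ center X)
    (h : ∀ g : X, ∃ y ∈ Y, ∃ c ∈ Z, g = y * c) : IsMulCommutative X := by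
  refine ⟨⟨fun g1 g2 => ?_⟩⟩
  obtain ⟨y1, hy1, c1, hc1, rfl⟩ := h g1
  obtain ⟨y2, hy2, c2, hc2, rfl⟩ := h g2
  have h1 := mem_center_iff.1 (hZ hc1)
  have h2 := mem_center_iff.1 (hZ hc2)
  have h3 : y1 * y2 = y2 * y1 :=
    congrArg Subtype.val (hY.is_comm.comm (⟨y1, hy1⟩ : Y) ⟨y2, hy2⟩)
  calc y1 * c1 * (y2 * c2) = y1 * (c1 * y2) * c2 := by group
    _ = y1 * y2 * (c1 * c2) := by rw [← h1]; group
    _ = y2 * y1 * (c2 * c1) := by rw [h3, h2 c1]
    _ = y2 * (y1 * c2) * c1 := by group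
    _ = y2 * c2 * (y1 * c1) := by rw [h2 y1]; group

theorem isMulCommutative_of_eq_top {Y : Subgroup X} (hY : IsMulCommutative Y) (h : Y = ⊤) :
    IsMulCommutative X := by
  subst h
  exact isMulCommutative_of_equiv topEquiv hY

theorem commutator_eq_zpowers {z : X} (ho : orderOf z = 2) (hna : ¬ IsMulCommutative X)
    (h1 : ∀ x y : X, ⁅x, y⁆ ∈ zpowers z) : commutator X = zpowers z := by
  have hle : commutator X ≤ zpowers z := by
    rw [_root_.commutator_def, commutator_le]; exact fun x _ y _ => h1 x y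
  have hfin : Finite (zpowers z) := Nat.finite_of_card_ne_zero (by rw [Nat.card_zpowers]; omega)
  by_contra hne
  have h2 := mul_card_le_of_lt (G := zpowers z) (p := 2)
    (IsPGroup.of_card (n := 1) (by rw [Subgroup.card_top, Nat.card_zpowers, ho]; norm_num))
    (H := (commutator X).subgroupOf (zpowers z)) (K := ⊤) (lt_top_iff_ne_top.2 fun h =>
      hne (le_antisymm hle (subgroupOf_eq_top.1 h)))
  rw [Subgroup.card_top, Nat.card_zpowers, ho,
    Nat.card_congr (subgroupOfEquivOfLe hle).toEquiv] at h2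
  have h3 : Finite (commutator X) := Finite.of_injective _ (inclusion_injective hle)
  have h4 : commutator X = ⊥ := by
    rw [← Subgroup.card_le_one_iff_eq_bot]; omega
  apply hna
  refine ⟨⟨fun a b => ?_⟩⟩
  have : ⁅a, b⁆ ∈ commutator X := commutator_mem_commutator (mem_top a) (mem_top b)
  rw [h4, mem_bot, commutatorElement_eq_one_iff_mul_comm] at this
  exact this

/-- The elements whose square lies in a central commutator subgroup of order 2. -/
def sqIn {z : X} (hz : z ∈ center X) (h1 : ∀ x y : X, ⁅x, y⁆ ∈ zpowers z) : Subgroup X where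
  carrier := {x | x ^ 2 ∈ zpowers z}
  one_mem' := by simp
  mul_mem' := by
    intro x y hx hy
    have hc := mem_center_iff.1 ((zpowers_le.2 hz) (h1 y x))
    have : (x * y) ^ 2 = ⁅y, x⁆ * (x ^ 2 * y ^ 2) := by
      calc (x * y) ^ 2 = (x * ⁅y, x⁆) * (x * y * y) := by
            simp only [pow_two, commutatorElement_def]; group
        _ = _ := by rw [hc x]; simp only [pow_two]; group
    show (x * y) ^ 2 ∈ zpowers z
    rw [this]
    exact mul_mem (h1 y x) (mul_mem hx hy)
  inv_mem' := by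
    intro x hx
    show x⁻¹ ^ 2 ∈ zpowers z
    rw [inv_pow]; exact inv_mem hx

theorem inv_sqIn {z : X} (hz : z ∈ center X) (h1 : ∀ x y : X, ⁅x, y⁆ ∈ zpowers z)
    (h : commutator X = zpowers z) : Inv A (sqIn hz h1) := by
  intro a y hy
  show (a • y) ^ 2 ∈ zpowers z
  rw [← smul_pow', ← h]
  exact smul_mem_of_characteristic _ a _ (h ▸ hy)

theorem pow_four_of_sq_mem {z x : X} (ho : orderOf z = 2) (h : x ^ 2 ∈ zpowers z) : x ^ 4 = 1 := by
  obtain ⟨k, hk⟩ := h
  have hz : z ^ 2 = 1 := ho ▸ pow_orderOf_eq_one z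
  calc x ^ 4 = (x ^ 2) ^ 2 := by rw [← pow_mul]
    _ = (z ^ 2) ^ k := by
      rw [← hk]; simp only [← zpow_natCast, ← zpow_mul, mul_comm]
    _ = 1 := by rw [hz, one_zpow]

theorem center_comm : IsMulCommutative (center X) := inferInstance

theorem mem_centralizer_center (y : X) : y ∈ centralizer ((center X : Subgroup X) : Set X) :=
  fun _ hc => (mem_center_iff.1 hc y).symm

variable [Finite X] [Finite A]

theorem final (hX : IsPGroup 2 X) (hA : Odd (Nat.card A))
    (hmin : ∀ Y : Subgroup X, Inv A Y → Has Y → Y = ⊤) (hna : ¬ IsMulCommutative X)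
    {z : X} (ho : orderOf z = 2) (hz : z ∈ center X) (h1 : ∀ x y : X, ⁅x, y⁆ ∈ zpowers z)
    (h2 : ∀ x : X, x ^ 2 ∈ zpowers z) (h4 : Nat.card (center X) = 4) :
    ∃ (X₀ : Subgroup X) (k : ℕ), X₀.index = 2 ∧ Nonempty (X₀ ≃* QuaternionGroup (2 ^ (k + 1))) ∧
      X₀ ⊔ centralizer (X₀ : Set X) = ⊤ := by
  have hcomm := commutator_eq_zpowers ho hna h1
  have hcop : ∀ N : Subgroup X, (Nat.card (⊤ : Subgroup A)).Coprime (Nat.card N) := fun N => by
    obtain ⟨n, hn⟩ := IsPGroup.iff_card.1 (hX.to_subgroup N)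
    rw [hn, Subgroup.card_top]
    exact Nat.Coprime.pow_right n (Nat.coprime_two_right.2 hA)
  have hzle : zpowers z ≤ center X := zpowers_le.2 hz
  have hidx : (zpowers z).relIndex (center X) = 2 := by
    have := (zpowers z).subgroupOf (center X) |>.card_mul_index
    rw [Nat.card_congr (subgroupOfEquivOfLe hzle).toEquiv, Nat.card_zpowers, ho, h4] at this
    unfold relIndex; omega
  have hprod : ∀ x ∈ center X, ∀ y ∈ center X, x ∉ zpowers z → y ∉ zpowers z →
      x * y ∈ zpowers z := fun x hx y hy hx' hy' => by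
    have := (mul_mem_iff_of_index_two (H := (zpowers z).subgroupOf (center X)) hidx
      (a := ⟨x, hx⟩) (b := ⟨y, hy⟩)).2 (by simp [mem_subgroupOf, hx', hy'])
    exact this
  have hzinv : Inv A (zpowers z) := hcomm ▸ Inv.of_char (commutator X)
  have hzfix : zpowers z ≤ actFix X (⊤ : Subgroup A) :=
    hzinv.fix_of_isPGroup hA (CL.OddAut.isPGroup_mulAut_of_isCyclic (hX.to_subgroup _))
  have hZfix : center X ≤ actFix X (⊤ : Subgroup A) := by
    refine act_le_actFix_of_trivial_on_factors ⊤ _ (zpowers z) (hcop _) hzfix ?_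
    refine (closure_le _).2 ?_
    rintro _ ⟨b, -, h, hh, rfl⟩
    by_cases hm : h ∈ zpowers z
    · exact mul_mem (inv_mem hm) (hzinv b h hm)
    · refine hprod _ (inv_mem hh) _ (Inv.of_char (center X) b h hh) (by simpa using hm)
        fun hb => hm ?_
      simpa using hzinv b⁻¹ _ hb
  have hexp : ∀ x : X, x ^ 4 = 1 := fun x => pow_four_of_sq_mem ho (h2 x)
  have hfixZ : actFix X (⊤ : Subgroup A) ≤ center X := by
    intro y hy
    by_contra hyZ
    have hle : center X ⊔ zpowers y ≤ actFix X (⊤ : Subgroup A) := sup_le hZfix (zpowers_le.2 hy)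
    have := hmin (center X ⊔ zpowers y) (fun a x hx => by rw [hle hx a (mem_top a)]; exact hx)
      (has_sup hX center_comm (mem_centralizer_center y) hyZ h4.ge le_sup_left
        ((le_sup_right : zpowers y ≤ _) (mem_zpowers y)) (Or.inr fun x _ => hexp x))
    exact hna (isMulCommutative_of_eq_top
      (CL.PG.isMulCommutative_sup_zpowers center_comm (mem_centralizer_center y)) this)
  set Y := actComm (⊤ : Subgroup X) (⊤ : Subgroup A) with hY
  have hdec : ∀ g : X, ∃ y ∈ Y, ∃ c ∈ center X, g = y * c := fun g => by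
    have : Group.IsNilpotent (⊤ : Subgroup X) := (hX.to_subgroup ⊤).isNilpotent
    obtain ⟨s, hs, c, hc, rfl⟩ := act_exists_actComm_mul_actFix (⊤ : Subgroup A) (⊤ : Subgroup X)
      (fun _ _ _ _ => mem_top _) (hcop ⊤) (Or.inr inferInstance) g (mem_top g)
    exact ⟨s, hs, c, hfixZ hc.2, rfl⟩
  have hYinv : Inv A Y := fun a y hy => smul_mem_actComm ⊤ ⊤ a (mem_top a) y hy
  have hYna : ¬ IsMulCommutative Y := fun h => hna (not_comm_top_of_sup h le_rfl hdec)
  obtain ⟨w, hwZ, hwz⟩ : ∃ w ∈ center X, w ∉ zpowers z := by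
    by_contra h
    push Not at h
    have := Subgroup.card_le_of_le (show center X ≤ zpowers z from h)
    rw [Nat.card_zpowers] at this
    omega
  have hnot : ∀ w ∈ center X, w ∉ zpowers z → w ∉ Y := fun w hwZ hwz =>
    notMem_actComm hA (hZfix hwZ) (hcomm ▸ h2 w) (hcomm ▸ hwz)
  have hYtop : Y ≠ ⊤ := fun h => hnot w hwZ hwz (h ▸ mem_top w)
  have hYhas : ¬ Has (⊤ : Subgroup Y) := fun h => hYtop (hmin Y hYinv ((has_top_iff Y).1 h))
  have hzY : zpowers z ≤ Y := by
    by_contra hn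
    apply hYna
    refine ⟨⟨fun a b => Subtype.ext ?_⟩⟩
    have hab : ⁅(a : X), (b : X)⁆ ∈ Y := by
      rw [commutatorElement_def]
      exact mul_mem (mul_mem (mul_mem a.2 b.2) (inv_mem a.2)) (inv_mem b.2)
    have hlt : zpowers z ⊓ Y < zpowers z := lt_of_le_of_ne inf_le_left fun h => hn (h ▸ inf_le_right)
    have h5 := mul_card_le_of_lt (hX.to_subgroup _) hlt
    rw [Nat.card_zpowers, ho] at h5
    have h6 : zpowers z ⊓ Y = ⊥ := by rw [← Subgroup.card_le_one_iff_eq_bot]; omega
    have h7 : ⁅(a : X), (b : X)⁆ ∈ zpowers z ⊓ Y := ⟨h1 _ _, hab⟩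
    rw [h6, mem_bot, commutatorElement_eq_one_iff_mul_comm] at h7
    exact h7
  rcases classify (hX.to_subgroup Y) hYhas with h | h | ⟨n, a, b, h⟩
  · exact absurd (⟨⟨fun a b => h.commGroup.mul_comm a b⟩⟩ : IsMulCommutative Y) hYna
  · exact absurd (IsPGroup.isMulCommutative_of_card_eq_prime_sq (p := 2) h) hYna
  rcases isPGroup_mulAut_or_quaternion h with h' | ⟨k, hk⟩
  · exact absurd (⟨⟨fun a b => Subtype.ext
      (mem_center_iff.1 (((hYinv.fix_of_isPGroup hA h').trans hfixZ) b.2) a)⟩⟩ :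
        IsMulCommutative Y) hYna
  refine ⟨Y, k, ?_, hk, ?_⟩
  · rw [index_eq_two_iff]
    refine ⟨w, fun g => ?_⟩
    obtain ⟨y, hy, c, hc, rfl⟩ := hdec g
    rw [mul_assoc, mul_mem_cancel_left hy, mul_mem_cancel_left hy]
    by_cases hm : c ∈ zpowers z
    · refine Or.inr ⟨hzY hm, fun h => hnot w hwZ hwz ?_⟩
      exact (mul_mem_cancel_left (hzY hm)).1 h
    · exact Or.inl ⟨hzY (hprod c hc w hwZ hm hwz), hnot c hc hm⟩
  · rw [eq_top_iff]
    intro g _
    obtain ⟨y, hy, c, hc, rfl⟩ := hdec g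
    exact mul_mem_sup hy (fun x _ => mem_center_iff.1 hc x)

/-- The possible structures. -/
def Concl (X : Type*) [Group X] : Prop :=
  IsMulCommutative X ∨ (Cfsg.IsExtraspecial 2 X ∧ 32 ≤ Nat.card X) ∨
    (∃ (X₀ : Subgroup X) (k : ℕ), X₀.index = 2 ∧ Nonempty (X₀ ≃* QuaternionGroup (2 ^ (k + 1))) ∧
      X₀ ⊔ centralizer (X₀ : Set X) = ⊤) ∨
    (Cfsg.IsSpecial 2 X ∧ Nat.card (center X) = 4)

theorem case_center (hX : IsPGroup 2 X) (hA : Odd (Nat.card A))
    (hmin : ∀ Y : Subgroup X, Inv A Y → Has Y → Y = ⊤) (hna : ¬ IsMulCommutative X)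
    (hZ : ¬ IsCyclic (center X)) : Concl X := by
  have hZtop : center X ≠ ⊤ := fun h => hna (isMulCommutative_of_eq_top center_comm h)
  obtain ⟨h4, hZ2⟩ := card_eq_four_of_not_has (hX.to_subgroup (center X)) hZ
    (fun h => hZtop (hmin _ (Inv.of_char _) h))
  have hbig : ∀ Y : Subgroup X, Inv A Y → center X ≤ Y → Y ≤ center X ∨ Y = ⊤ := by
    intro Y hY hZY
    by_cases h : Y ≤ center X
    · exact Or.inl h
    · obtain ⟨y, hy, hyZ⟩ := SetLike.not_le_iff_exists.1 h
      exact Or.inr (hmin Y hY (has_sup hX center_comm (mem_centralizer_center y) hyZ h4.ge hZY hy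
        (Or.inl hZ)))
  have hΦ : frattini X ≤ center X := by
    rcases hbig (frattini X ⊔ center X) (Inv.of_char _) le_sup_right with h | h
    · exact le_sup_left.trans h
    · exact absurd (eq_top_of_sup_eq_top_of_le_frattini le_rfl h) hZtop
  have hc : commutator X ≤ center X := (CL.PG.commutator_le_frattini hX).trans hΦ
  by_cases hcZ : commutator X = center X
  · exact Or.inr (Or.inr (Or.inr ⟨⟨hX, le_antisymm hΦ (hcZ ▸ CL.PG.commutator_le_frattini hX),
      hcZ⟩, h4⟩))
  have hlt := mul_card_le_of_lt (hX.to_subgroup _) (lt_of_le_of_ne hc hcZ)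
  obtain ⟨x0, y0, hxy⟩ : ∃ x y : X, x * y ≠ y * x := by
    by_contra h
    push Not at h
    exact hna ⟨⟨h⟩⟩
  have hmem : ∀ x y : X, ⁅x, y⁆ ∈ commutator X := fun x y =>
    commutator_mem_commutator (mem_top x) (mem_top y)
  set z := ⁅x0, y0⁆ with hzdef
  have hz1 : z ≠ 1 := fun h => hxy (commutatorElement_eq_one_iff_mul_comm.1 h)
  have hz : z ∈ center X := hc (hmem _ _)
  have ho : orderOf z = 2 := orderOf_eq_prime (hZ2 z hz) hz1
  have hcz : zpowers z = commutator X :=
    Subgroup.eq_of_le_of_card_ge (zpowers_le.2 (hmem _ _)) (by rw [Nat.card_zpowers]; omega)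
  have h1 : ∀ x y : X, ⁅x, y⁆ ∈ zpowers z := fun x y => hcz ▸ hmem x y
  rcases hbig (sqIn hz h1) (inv_sqIn hz h1 hcz.symm) (fun x hx => by
    show x ^ 2 ∈ zpowers z
    rw [hZ2 x hx]; exact one_mem _) with h | h
  · exfalso
    have hzle : zpowers z ≤ center X := zpowers_le.2 hz
    have hidx : (zpowers z).relIndex (center X) = 2 := by
      have := (zpowers z).subgroupOf (center X) |>.card_mul_index
      rw [Nat.card_congr (subgroupOfEquivOfLe hzle).toEquiv, Nat.card_zpowers, ho, h4] at this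
      unfold relIndex; omega
    have hx0 : x0 ∉ center X := fun h => hxy (mem_center_iff.1 h y0).symm
    have hy0 : y0 ∉ center X := fun h => hxy (mem_center_iff.1 h x0)
    have hsq : ∀ x : X, x ^ 2 ∈ center X := fun x => hΦ (CL.PG.pow_mem_frattini hX x)
    have hx2 : x0 ^ 2 ∉ zpowers z := fun h' => hx0 (h h')
    have hy2 : y0 ^ 2 ∉ zpowers z := fun h' => hy0 (h h')
    have h5 : x0 ^ 2 * y0 ^ 2 ∈ zpowers z :=
      (mul_mem_iff_of_index_two (H := (zpowers z).subgroupOf (center X)) hidx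
        (a := ⟨_, hsq x0⟩) (b := ⟨_, hsq y0⟩)).2 (by simp [mem_subgroupOf, hx2, hy2])
    have hc' := mem_center_iff.1 (hzle (h1 y0 x0))
    have h6 : (x0 * y0) ^ 2 = ⁅y0, x0⁆ * (x0 ^ 2 * y0 ^ 2) := by
      calc (x0 * y0) ^ 2 = (x0 * ⁅y0, x0⁆) * (x0 * y0 * y0) := by
            simp only [pow_two, commutatorElement_def]; group
        _ = _ := by rw [hc' x0]; simp only [pow_two]; group
    have h7 : x0 * y0 ∈ center X := h (show (x0 * y0) ^ 2 ∈ zpowers z by
      rw [h6]; exact mul_mem (h1 _ _) h5)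
    have h8 := mem_center_iff.1 h7 x0
    rw [mul_assoc] at h8
    exact hxy (mul_left_cancel h8)
  · exact Or.inr (Or.inr (Or.inl (final hX hA hmin hna ho hz h1
      (fun x => (h ▸ mem_top x : x ∈ sqIn hz h1)) h4)))

theorem char_cyclic (hX : IsPGroup 2 X) (h8 : Has (⊤ : Subgroup X))
    (hmin : ∀ Y : Subgroup X, Inv A Y → Has Y → Y = ⊤) (hna : ¬ IsMulCommutative X)
    (hZ : IsCyclic (center X)) (W : Subgroup X) (hW : W.Characteristic)
    (hc : IsMulCommutative W) : IsCyclic W := by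
  by_contra hnc
  obtain ⟨h4, -⟩ := card_eq_four_of_not_has (hX.to_subgroup W) hnc
    (fun h => hna (isMulCommutative_of_eq_top hc (hmin _ (Inv.of_char _) h)))
  have hC : centralizer (W : Set X) ≤ W := by
    intro y hy
    by_contra hyW
    have := hmin (centralizer (W : Set X)) (Inv.of_char _)
      (has_sup hX hc hy hyW h4.ge (le_centralizer W) hy (Or.inl hnc))
    exact hnc (Subgroup.isCyclic_of_le (centralizer_eq_top_iff_subset.1 this :  W ≤ center X))
  have h9 : 8 ≤ Nat.card X := by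
    obtain ⟨B, -, -, -, hB⟩ := h8
    exact hB ▸ Subgroup.card_le_card_group B
  obtain ⟨n, a, b, h⟩ := isDQS_of_selfCent hX hC (Or.inl h4) h9
  exact not_has_of_isDQS h h8

theorem main (hX : IsPGroup 2 X) (hA : Odd (Nat.card A)) (h8 : Has (⊤ : Subgroup X))
    (hmin : ∀ Y : Subgroup X, Inv A Y → Has Y → Y = ⊤) : Concl X := by
  by_cases hna : IsMulCommutative X
  · exact Or.inl hna
  by_cases hZ : IsCyclic (center X)
  swap
  · exact case_center hX hA hmin hna hZ
  have hnt : Nontrivial X := by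
    by_contra h
    rw [not_nontrivial_iff_subsingleton] at h
    exact hna ⟨⟨fun a b => Subsingleton.elim _ _⟩⟩
  obtain ⟨z, F, ho, hz, hzF, h1, h2, h3, hdec, hC⟩ :=
    CL.ES.exists_symplectic_decomp hX (char_cyclic hX h8 hmin hna hZ)
  set C := centralizer (F : Set X) with hCdef
  have hFC : ∀ f ∈ F, ∀ c ∈ C, f * c = c * f := fun f hf c hc => hc f hf
  have hzC : z ∈ C := fun f _ => mem_center_iff.1 hz f
  by_cases hF : F = zpowers z
  · exfalso
    have hCtop : C = ⊤ := centralizer_eq_top_iff_subset.2 (by rw [hF]; exact zpowers_le.2 hz)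
    have hh : Has (⊤ : Subgroup C) := (has_top_iff C).2 (hCtop ▸ h8)
    rcases hC with h | ⟨-, n, a, b, -, h⟩
    · exact not_has_of_isCyclic h hh
    · exact not_has_of_isDQS h hh
  obtain ⟨f, hfF, hfz⟩ : ∃ f ∈ F, f ∉ zpowers z := by
    by_contra h
    push Not at h
    exact hF (le_antisymm h (zpowers_le.2 hzF))
  have hfC : f ∉ C := fun h => hfz (h3 ▸ ⟨hfF, h⟩)
  by_cases hCF : C ≤ F
  · have hFtop : F = ⊤ := by
      rw [eq_top_iff]
      intro g _
      obtain ⟨f, hf, c, hc, rfl⟩ := hdec g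
      exact mul_mem hf (hCF hc)
    have hes := CL.ES.isExtraspecial_of_not_comm hzF ho (fun x _ y hy => h1 x y hy) h2 h3 hF
    have hZz : center X = zpowers z := by
      rw [← h3, hCdef, hFtop, top_inf_eq, coe_top, centralizer_univ]
    have hcomm := commutator_eq_zpowers ho hna (fun x y => h1 x y (hFtop ▸ mem_top y))
    have hes' : Cfsg.IsExtraspecial 2 X := by
      refine ⟨⟨hX, le_antisymm ?_ ?_, hcomm.trans hZz.symm⟩, by rw [hZz, Nat.card_zpowers, ho]⟩
      · rw [hZz]
        exact CL.PG.frattini_le_of_commutator_le_of_pow_mem (p := 2) hcomm.le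
          fun g => h2 g (hFtop ▸ mem_top g)
      · rw [hZz, ← hcomm]; exact CL.PG.commutator_le_frattini hX
    refine Or.inr (Or.inl ⟨hes', ?_⟩)
    obtain ⟨n, hn, hcard⟩ := Cfsg.Agent.S0095.result hes'
    by_cases hn1 : n = 1
    · subst hn1
      obtain ⟨B, -, hB1, -, hB⟩ := h8
      exact absurd (isMulCommutative_of_eq_top hB1
        (Subgroup.eq_top_of_card_eq B (by rw [hB, hcard]; norm_num))) hna
    · rw [hcard]
      exact Nat.pow_le_pow_right (n := 2) (i := 5) (by norm_num) (by omega)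
  have hcomm : ∀ g1 g2 : X, ∃ c1 ∈ C, ∃ c2 ∈ C, ∃ t ∈ zpowers z, ⁅g1, g2⁆ = ⁅c1, c2⁆ * t := by
    intro g1 g2
    obtain ⟨f1, hf1, c1, hc1, rfl⟩ := hdec g1
    obtain ⟨f2, hf2, c2, hc2, hg2⟩ := hdec g2
    have hcc : ⁅c1, c2⁆ ∈ C := by
      rw [commutatorElement_def]
      exact mul_mem (mul_mem (mul_mem hc1 hc2) (inv_mem hc1)) (inv_mem hc2)
    have e1 : ⁅c1, g2⁆ = ⁅c1, c2⁆ := by
      have e2 : c1 * f2 = f2 * c1 := (hFC f2 hf2 c1 hc1).symm
      calc ⁅c1, g2⁆ = (c1 * f2) * c2 * c1⁻¹ * c2⁻¹ * f2⁻¹ := by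
            rw [hg2, commutatorElement_def]; group
        _ = (f2 * ⁅c1, c2⁆) * f2⁻¹ := by rw [e2, commutatorElement_def]; group
        _ = _ := by rw [hFC f2 hf2 _ hcc]; group
    refine ⟨c1, hc1, c2, hc2, ⁅g2, f1⁆⁻¹, inv_mem (h1 g2 f1 hf1), ?_⟩
    calc ⁅f1 * c1, g2⁆ = (f1 * ⁅c1, g2⁆) * f1⁻¹ * ⁅g2, f1⁆⁻¹ := by
          simp only [commutatorElement_def]; group
      _ = _ := by rw [e1, hFC f1 hf1 _ hcc]; group
  rcases hC with hC | ⟨-, n, a, b, hn, hD⟩
  · have hCc : ∀ c1 ∈ C, ∀ c2 ∈ C, c1 * c2 = c2 * c1 := fun c1 hc1 c2 hc2 =>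
      congrArg Subtype.val (hC.commGroup.mul_comm (⟨c1, hc1⟩ : C) ⟨c2, hc2⟩)
    have hCZ : center X = C := by
      refine le_antisymm (fun c hc f _ => mem_center_iff.1 hc f) fun c hc => ?_
      rw [mem_center_iff]
      intro g
      obtain ⟨f1, hf1, c1, hc1, rfl⟩ := hdec g
      rw [mul_assoc, hCc c1 hc1 c hc, ← mul_assoc, hFC f1 hf1 c hc, mul_assoc]
    have h1' : ∀ x y : X, ⁅x, y⁆ ∈ zpowers z := fun x y => by
      obtain ⟨c1, hc1, c2, hc2, t, ht, e⟩ := hcomm x y
      rw [e, commutatorElement_eq_one_iff_mul_comm.2 (hCc c1 hc1 c2 hc2), one_mul]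
      exact ht
    have hcz := commutator_eq_zpowers ho hna h1'
    have hzC' : zpowers z < C := lt_of_le_of_ne (zpowers_le.2 hzC) fun h =>
      hCF (h ▸ zpowers_le.2 hzF)
    have h4 := mul_card_le_of_lt (hX.to_subgroup _) hzC'
    rw [Nat.card_zpowers, ho] at h4
    obtain ⟨m, hm⟩ := IsPGroup.iff_card.1 (hX.to_subgroup C)
    have hm2 : 2 ≤ m := by
      by_contra h
      have : m ≤ 1 := by omega
      have := Nat.pow_le_pow_right (show 0 < 2 by norm_num) this
      omega
    obtain ⟨W', hW'⟩ := Sylow.exists_subgroup_card_pow_prime (G := C) 2 (n := 2)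
      (hm ▸ pow_dvd_pow 2 hm2)
    set W := W'.map C.subtype with hW
    have hWc : Nat.card W = 4 := by rw [hW, card_map_of_injective C.subtype_injective, hW']; rfl
    have hWC : W ≤ C := map_subtype_le W'
    have hWsq : W ≤ sqIn hz h1' := fun w hw => by
      show w ^ 2 ∈ zpowers z
      refine CL.ES.mem_zpowers_of_isCyclic hC hzC (pow_mem (hWC hw) 2) ?_
      rw [ho, ← pow_mul]
      have : (⟨w, hw⟩ : W) ^ Nat.card W = 1 := pow_card_eq_one'
      rw [hWc] at this
      exact congrArg Subtype.val this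
    have hWcomm : IsMulCommutative W :=
      ⟨⟨fun a b => Subtype.ext (hCc _ (hWC a.2) _ (hWC b.2))⟩⟩
    have htop := hmin (sqIn hz h1') (inv_sqIn hz h1' hcz)
      (has_sup hX hWcomm (y := f) (fun w hw => (hFC f hfF w (hWC hw)).symm) (fun h => hfC (hWC h))
        hWc.ge hWsq (h2 f hfF) (Or.inr fun x hx => pow_four_of_sq_mem ho hx))
    have h2' : ∀ x : X, x ^ 2 ∈ zpowers z := fun x => (htop ▸ mem_top x : x ∈ sqIn hz h1')
    refine Or.inr (Or.inr (Or.inl (final hX hA hmin hna ho hz h1' h2' ?_)))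
    rw [hCZ]
    obtain ⟨g, hg⟩ := IsCyclic.exists_ofOrder_eq_natCard (α := C)
    have h5 : g ^ 4 = 1 := Subtype.ext (pow_four_of_sq_mem ho (h2' g))
    have := Nat.le_of_dvd (by norm_num) (orderOf_dvd_of_pow_eq_one h5)
    omega
  · exfalso
    have hza : z ∈ zpowers (a : X) := by
      have h5 : (⟨z, hzC⟩ : C) ∈ center C := by
        rw [mem_center_iff]; exact fun g => Subtype.ext (mem_center_iff.1 hz g)
      rw [hD.center_eq] at h5
      obtain ⟨k, hk⟩ := h5
      have := congrArg Subtype.val hk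
      simp only [SubgroupClass.coe_zpow, SubmonoidClass.coe_pow] at this
      exact this ▸ zpow_mem (pow_mem (mem_zpowers _) _) _
    have hle : commutator X ≤ zpowers (a : X) := by
      rw [_root_.commutator_def, commutator_le]
      intro g1 _ g2 _
      obtain ⟨c1, hc1, c2, hc2, t, ht, e⟩ := hcomm g1 g2
      rw [e]
      refine mul_mem ?_ (zpowers_le.2 hza ht)
      have h5 : ⁅(⟨c1, hc1⟩ : C), (⟨c2, hc2⟩ : C)⁆ ∈ commutator C :=
        commutator_mem_commutator (mem_top _) (mem_top _)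
      rw [hD.commutator_eq] at h5
      obtain ⟨k, hk⟩ := h5
      have := congrArg Subtype.val hk
      simp only [SubgroupClass.coe_zpow, SubmonoidClass.coe_pow, commutatorElement_def,
        coe_mul, coe_inv] at this
      rw [commutatorElement_def, ← this]
      exact zpow_mem (pow_mem (mem_zpowers _) _) _
    have haC : zpowers (a : X) ≤ C := zpowers_le.2 a.2
    have hoa : orderOf (a : X) = 2 ^ n := by rw [Subgroup.orderOf_coe, hD.orderOf_eq]
    have h8n := Nat.pow_le_pow_right (show 0 < 2 by norm_num) hn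
    have hfa : f ∈ centralizer (zpowers (a : X) : Set X) := fun w hw => (hFC f hfF w (haC hw)).symm
    have hcyc : ¬ IsCyclic (zpowers (a : X) ⊔ zpowers f : Subgroup X) := fun hc => by
      refine hfC (haC (CL.ES.mem_zpowers_of_isCyclic hc
        ((le_sup_left : zpowers (a : X) ≤ _) (mem_zpowers _))
        ((le_sup_right : zpowers f ≤ _) (mem_zpowers _)) ?_))
      obtain ⟨m, rfl⟩ : ∃ m, n = m + 2 := ⟨n - 2, by omega⟩
      rw [hoa, pow_add, mul_comm, pow_mul, show (2 : ℕ) ^ 2 = 4 by norm_num,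
        pow_four_of_sq_mem ho (h2 f hfF), one_pow]
    have hcm := CL.PG.isMulCommutative_sup_zpowers (M := zpowers (a : X)) inferInstance hfa
    have hhas : Has (zpowers (a : X) ⊔ zpowers f : Subgroup X) :=
      has_of_abelian (hX.to_subgroup _) hcyc (by
        have := Subgroup.card_le_of_le (le_sup_left : zpowers (a : X) ≤ zpowers (a : X) ⊔ zpowers f)
        rw [Nat.card_zpowers] at this
        omega)
    have hle2 : zpowers (a : X) ⊔ zpowers f ≤ centralizer (commutator X : Set X) := by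
      refine le_trans ?_ (centralizer_le hle)
      exact sup_le (le_centralizer _) (zpowers_le.2 hfa)
    have htop := hmin _ (Inv.of_char _) (hhas.mono hle2)
    have hcz : commutator X ≤ center X := centralizer_eq_top_iff_subset.1 htop
    have h5 : a ^ 2 ∈ commutator C := hD.commutator_eq ▸ mem_zpowers _
    have h6 : ((a ^ 2 : C) : X) ∈ commutator X := by
      have : (commutator C).map C.subtype ≤ commutator X := by
        rw [_root_.commutator_def, map_commutator]; exact commutator_mono le_top le_top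
      exact this ⟨_, h5, rfl⟩
    have h7 : a ^ 2 ∈ center C := by
      rw [mem_center_iff]; exact fun g => Subtype.ext (mem_center_iff.1 (hcz h6) g)
    have h9 : (⟨_, h7⟩ : center C) ^ Nat.card (center C) = 1 := pow_card_eq_one'
    rw [hD.card_center] at h9
    have h10 : a ^ 4 = 1 := by
      have := congrArg Subtype.val h9
      simpa [← pow_mul] using this
    have := Nat.le_of_dvd (by norm_num) (orderOf_dvd_of_pow_eq_one h10)
    rw [hD.orderOf_eq] at this
    omega

end CL.Min8
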