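import Mathlib

/-!
Small explicit groups for the order type counterexample (P. Müller's example of order
`2^13 * 3^4 * 7^3`): definitions.
-/

set_option autoImplicit false

namespace CL.Mueller

/-- Build an action homomorphism from an explicit function. -/
def mkAct {N K : Type} [Group N] [Group K] (act : K → N → N) (h1 : ∀ n, act 1 n = n)
    (hmul : ∀ k l n, act (k * l) n = act k (act l n))
    (hhom : ∀ k n m, act k (n * m) = act k n * act k m) : K →* MulAut N where
  toFun k :=
    { toFun := act k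
      invFun := act k⁻¹
      left_inv := fun n => by rw [← hmul, inv_mul_cancel, h1]
      right_inv := fun n => by rw [← hmul, mul_inv_cancel, h1]
      map_mul' := hhom k }
  map_one' := MulEquiv.ext h1
  map_mul' k l := MulEquiv.ext (hmul k l)

/-- cyclic groups -/
abbrev Cy (n : ℕ) : Type := Multiplicative (ZMod n)

/-- Action of `K` on `Cy m` through a multiplicative function `ψ`. -/
def cycAct {K : Type} [Group K] (m : ℕ) (ψ : K → ZMod m) (h1 : ψ 1 = 1)
    (hmul : ∀ k l, ψ (k * l) = ψ k * ψ l) : K →* MulAut (Cy m) :=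
  mkAct (fun k n => Multiplicative.ofAdd (ψ k * n.toAdd)) (fun n => by simp [h1])
    (fun k l n => by simp [hmul, mul_assoc]) (fun k n m => by simp [mul_add])

instance instFintypeSD {N K : Type} [Group N] [Group K] [Fintype N] [Fintype K]
    (φ : K →* MulAut N) : Fintype (N ⋊[φ] K) :=
  Fintype.ofEquiv _ SemidirectProduct.equivProd.symm

theorem solvable_sd {N K : Type} [Group N] [Group K] [Group.IsSolvable N] [Group.IsSolvable K]
    (φ : K →* MulAut N) : Group.IsSolvable (N ⋊[φ] K) :=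
  Group.isSolvable_of_ker_le_range SemidirectProduct.inl SemidirectProduct.rightHom
    SemidirectProduct.range_inl_eq_ker_rightHom.ge

/-- binary powering -/
def pw {G : Type} [Group G] : ℕ → G → ℕ → G
  | 0, _, _ => 1
  | f + 1, g, n => if n = 0 then 1 else if n = 1 then g else
      if n % 2 = 0 then pw f (g * g) (n / 2) else g * pw f (g * g) (n / 2)

theorem pw_eq {G : Type} [Group G] (f : ℕ) : ∀ (g : G) (n : ℕ), n < 2 ^ f → pw f g n = g ^ n := by
  induction f with
  | zero => intro g n hn; obtain rfl : n = 0 := by omega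
            simp [pw]
  | succ f ih =>
    intro g n hn
    unfold pw
    have h2 : n / 2 < 2 ^ f := by rw [pow_succ] at hn; omega
    split_ifs with h0 h1 h3
    · rw [h0, pow_zero]
    · rw [h1, pow_one]
    · rw [ih _ _ h2, ← pow_two, ← pow_mul]
      congr 1; omega
    · rw [ih _ _ h2, ← pow_two, ← pow_mul, ← pow_succ']
      congr 1; omega

/-- number of solutions of `g ^ n = 1` -/
noncomputable def cnt (G : Type) [Group G] (n : ℕ) : ℕ := Nat.card {g : G // g ^ n = 1}

/-- computable version -/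
def cntc (G : Type) [Group G] [Fintype G] [DecidableEq G] (n : ℕ) : ℕ :=
  (Finset.univ.filter fun g : G => pw 8 g n = 1).card

theorem cnt_eq (G : Type) [Group G] [Fintype G] [DecidableEq G] {n : ℕ} (hn : n < 2 ^ 8) :
    cnt G n = cntc G n := by
  unfold cnt cntc
  rw [Nat.card_eq_fintype_card, Fintype.card_subtype]
  congr 1
  ext g
  simp [pw_eq 8 g n hn]

theorem cycAct_apply {K : Type} [Group K] (m : ℕ) (ψ : K → ZMod m) (h1 : ψ 1 = 1)
    (hmul : ∀ k l, ψ (k * l) = ψ k * ψ l) (k : K) (a : Cy m) :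
    cycAct m ψ h1 hmul k a = Multiplicative.ofAdd (ψ k * a.toAdd) := rfl

theorem sd_pow {K : Type} [Group K] (m : ℕ) (ψ : K → ZMod m) (h1 : ψ 1 = 1)
    (hmul : ∀ k l, ψ (k * l) = ψ k * ψ l) (a : Cy m) (k : K) (n : ℕ) :
    (⟨a, k⟩ : Cy m ⋊[cycAct m ψ h1 hmul] K) ^ n =
      ⟨Multiplicative.ofAdd ((∑ i ∈ Finset.range n, ψ k ^ i) * a.toAdd), k ^ n⟩ := by
  induction n with
  | zero => simp
  | succ n ih =>
    rw [pow_succ', ih]
    refine SemidirectProduct.ext ?_ ?_
    · simp only [SemidirectProduct.mul_left, cycAct_apply, toAdd_ofAdd]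
      rw [geom_sum_succ, add_mul, one_mul, ofAdd_add, ofAdd_toAdd, mul_comm a, mul_assoc]
    · simp only [SemidirectProduct.mul_right]
      rw [pow_succ']

/-- computable count for `C7 ⋊ K` -/
def cnt7 (K : Type) [Group K] [Fintype K] [DecidableEq K] (ψ : K → ZMod 7) (n : ℕ) : ℕ :=
  ∑ k : K, if pw 8 k n = 1 then (if ψ k = 1 ∧ n % 7 ≠ 0 then 1 else 7) else 0

theorem cnt_sd7 {K : Type} [Group K] [Fintype K] [DecidableEq K] (ψ : K → ZMod 7) (h1 : ψ 1 = 1)
    (hmul : ∀ k l, ψ (k * l) = ψ k * ψ l) {n : ℕ} (hn : n < 2 ^ 8) :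
    cnt (Cy 7 ⋊[cycAct 7 ψ h1 hmul] K) n = cnt7 K ψ n := by
  have h7 : Fact (Nat.Prime 7) := ⟨by norm_num⟩
  unfold cnt cnt7
  rw [Nat.card_eq_fintype_card, Fintype.card_subtype, Finset.card_filter,
    ← SemidirectProduct.equivProd.symm.sum_comp, Fintype.sum_prod_type_right]
  refine Finset.sum_congr rfl fun k _ => ?_
  rw [pw_eq 8 k n hn]
  have e : ∀ a : Cy 7, (SemidirectProduct.equivProd.symm (a, k) :
      Cy 7 ⋊[cycAct 7 ψ h1 hmul] K) ^ n = 1 ↔
      (∑ i ∈ Finset.range n, ψ k ^ i) * a.toAdd = 0 ∧ k ^ n = 1 := by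
    intro a
    show (⟨a, k⟩ : Cy 7 ⋊[cycAct 7 ψ h1 hmul] K) ^ n = 1 ↔ _
    rw [sd_pow, SemidirectProduct.ext_iff]
    simp
  simp only [e]
  by_cases hk : k ^ n = 1
  · simp only [hk, and_true, if_true]
    have hpow : ∀ j : ℕ, ψ (k ^ j) = ψ k ^ j := by
      intro j
      induction j with
      | zero => simpa using h1
      | succ j ih => rw [pow_succ, hmul, ih, pow_succ]
    split_ifs with hc
    · have h2 : (∑ i ∈ Finset.range n, ψ k ^ i) ≠ 0 := by
        rw [hc.1]
        simp only [one_pow, Finset.sum_const, Finset.card_range, nsmul_eq_mul, mul_one]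
        rw [Ne, ZMod.natCast_eq_zero_iff]
        omega
      simp only [mul_eq_zero, h2, false_or]
      clear e h2 hc hpow hk
      decide +revert
    · have h2 : (∑ i ∈ Finset.range n, ψ k ^ i) = 0 := by
        by_cases h3 : ψ k = 1
        · rw [h3]
          simp only [one_pow, Finset.sum_const, Finset.card_range, nsmul_eq_mul, mul_one]
          rw [ZMod.natCast_eq_zero_iff]
          have : ¬ n % 7 ≠ 0 := fun h => hc ⟨h3, h⟩
          omega
        · have := geom_sum_mul (ψ k) n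
          rw [← hpow, hk, h1, sub_self] at this
          exact (mul_eq_zero.mp this).resolve_right (sub_ne_zero.mpr h3)
      simp [h2]
  · simp [hk]

/-- the divisors of 168 -/
def dl : List ℕ := [1, 2, 4, 8, 3, 6, 12, 24, 7, 14, 28, 56, 21, 42, 84, 168]

/-- `2 ^ k` in `ZMod 7` for `k` in `Cy 3` -/
def two7 (k : Cy 3) : ZMod 7 := if k.toAdd = 0 then 1 else if k.toAdd = 1 then 2 else 4

theorem two7_mul : ∀ k l, two7 (k * l) = two7 k * two7 l := by decide

/-- Frobenius group of order 21 -/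
abbrev F21 : Type := Cy 7 ⋊[cycAct 7 two7 rfl two7_mul] Cy 3

theorem cnt_F21 : dl.map (cnt7 (Cy 3) two7) =
    [1, 1, 1, 1, 15, 15, 15, 15, 7, 7, 7, 7, 21, 21, 21, 21] := by
  decide +kernel

open QuaternionGroup in
/-- order three automorphism of `Q8` -/
def theta : QuaternionGroup 2 → QuaternionGroup 2
  | a i => if i = 1 then xa 0 else if i = 3 then xa 2 else a i
  | xa i => if i = 0 then xa 3 else if i = 2 then xa 1 else if i = 3 then a 1 else a 3

/-- action of `Cy 3` on `Q8` -/
def actQ (k : Cy 3) (q : QuaternionGroup 2) : QuaternionGroup 2 :=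
  if k.toAdd = 0 then q else if k.toAdd = 1 then theta q else theta (theta q)

/-- `SL(2,3)` -/
abbrev SL23 : Type :=
  QuaternionGroup 2 ⋊[mkAct actQ (by decide) (by decide) (by decide)] Cy 3

/-- action of `Cy 2` on `SL(2,3)` by an inner automorphism -/
def actS (k : Cy 2) (g : SL23) : SL23 :=
  if k.toAdd = 0 then g else ⟨QuaternionGroup.a 1, 1⟩ * g * ⟨QuaternionGroup.a 3, 1⟩

theorem actS_one (g : SL23) : actS 1 g = g := rfl

theorem actS_mul : ∀ k l n, actS (k * l) n = actS k (actS l n) := by decide +kernel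

theorem actS_hom (k : Cy 2) (n m : SL23) : actS k (n * m) = actS k n * actS k m := by
  unfold actS
  split_ifs
  · rfl
  · have : (⟨QuaternionGroup.a 3, 1⟩ : SL23) = (⟨QuaternionGroup.a 1, 1⟩ : SL23)⁻¹ := by decide
    rw [this]
    group

/-- `C4 ∘ SL(2,3)` -/
abbrev L48 : Type := SL23 ⋊[mkAct actS actS_one actS_mul actS_hom] Cy 2

/-- sign character -/
def sg4 (k : Cy 2) : ZMod 4 := if k.toAdd = 0 then 1 else 3

theorem sg4_mul : ∀ k l, sg4 (k * l) = sg4 k * sg4 l := by decide

/-- `(C4 ⋊ C4) ∘ SL(2,3)` -/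
abbrev K192 : Type :=
  Cy 4 ⋊[cycAct 4 (fun l : L48 => sg4 l.right) rfl (fun k l => sg4_mul k.right l.right)] L48

/-- parity sign -/
def par7 (k : Cy 4) : ZMod 7 := if k.toAdd = 0 ∨ k.toAdd = 2 then 1 else 6

theorem par7_mul : ∀ k l, par7 (k * l) = par7 k * par7 l := by decide

theorem par7_act : ∀ (s : Cy 2) (k : Cy 4),
    par7 (Multiplicative.ofAdd (sg4 s * k.toAdd)) = par7 k := by decide

theorem actS_right : ∀ (s : Cy 2) (g : SL23), (actS s g).right = g.right := by decide +kernel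

/-- action on `C7` -/
def psi3 (k : K192) : ZMod 7 := par7 k.left * two7 k.right.left.right

theorem psi3_mul (k l : K192) : psi3 (k * l) = psi3 k * psi3 l := by
  show par7 (k.left * Multiplicative.ofAdd (sg4 k.right.right * l.left.toAdd)) *
    two7 (k.right.left.right * (actS k.right.right l.right.left).right) = _
  rw [par7_mul, par7_act, actS_right, two7_mul, psi3, psi3]
  ring

/-- the third solvable factor, of order 1344 -/
abbrev G3 : Type := Cy 7 ⋊[cycAct 7 psi3 (by decide) psi3_mul] K192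

theorem cnt_G3 : dl.map (cnt7 K192 psi3) =
    [1, 100, 256, 256, 57, 324, 1152, 1152, 7, 196, 448, 448, 63, 420, 1344, 1344] := by
  decide +kernel

open QuaternionGroup in
/-- parity on `Q16` -/
def parQ : QuaternionGroup 4 → ℤ
  | a i => if i.val % 2 = 0 then 1 else -1
  | xa i => if i.val % 2 = 0 then 1 else -1

theorem parQ_mul : ∀ k l, parQ (k * l) = parQ k * parQ l := by decide +kernel

/-- `C3 ⋊ Q16` -/
abbrev K48 : Type := Cy 3 ⋊[cycAct 3 (fun q : QuaternionGroup 4 => (parQ q : ZMod 3)) rfl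
  (fun k l => by rw [parQ_mul]; push_cast; rfl)] QuaternionGroup 4

/-- action on `C7` -/
def psi2 (k : Cy 3 × K48) : ZMod 7 := two7 k.1 * (parQ k.2.right : ZMod 7)

theorem psi2_mul (k l : Cy 3 × K48) : psi2 (k * l) = psi2 k * psi2 l := by
  show two7 (k.1 * l.1) * (parQ (k.2.right * l.2.right) : ZMod 7) = _
  rw [two7_mul, parQ_mul, psi2, psi2]
  push_cast
  ring

/-- the second solvable factor, of order 1008 -/
abbrev G2 : Type := Cy 7 ⋊[cycAct 7 psi2 (by decide) psi2_mul] (Cy 3 × K48)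

theorem cnt_G2 : dl.map (cnt7 (Cy 3 × K48) psi2) =
    [1, 2, 92, 176, 45, 90, 612, 864, 7, 14, 140, 224, 63, 126, 756, 1008] := by
  decide +kernel

/-- action of `Cy 3` on the four-group -/
def actV (k : Cy 3) (v : Cy 2 × Cy 2) : Cy 2 × Cy 2 :=
  if k.toAdd = 0 then v else if k.toAdd = 1 then (v.2, v.1 * v.2) else (v.1 * v.2, v.1)

/-- `A4` -/
abbrev A4 : Type := (Cy 2 × Cy 2) ⋊[mkAct actV (by decide) (by decide) (by decide)] Cy 3

/-- action on `C7` -/
def psi4 (k : Cy 4 × A4) : ZMod 7 := par7 k.1 * two7 k.2.right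

theorem psi4_mul (k l : Cy 4 × A4) : psi4 (k * l) = psi4 k * psi4 l := by
  show par7 (k.1 * l.1) * two7 (k.2.right * l.2.right) = _
  rw [par7_mul, two7_mul, psi4, psi4]
  ring

/-- `C7 ⋊ (C4 × A4)` -/
abbrev H3 : Type := Cy 7 ⋊[cycAct 7 psi4 (by decide) psi4_mul] (Cy 4 × A4)

theorem cnt_H3 : dl.map (cnt7 (Cy 4 × A4) psi4) =
    [1, 8, 64, 64, 57, 120, 288, 288, 7, 56, 112, 112, 63, 168, 336, 336] := by
  decide +kernel

/-- `C12 × Q8` -/
abbrev H2 : Type := Cy 12 × QuaternionGroup 2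

theorem cnt_H2 : dl.map (cntc H2) =
    [1, 4, 32, 32, 3, 12, 96, 96, 1, 4, 32, 32, 3, 12, 96, 96] := by
  decide +kernel

/-- the field with eight elements, additively -/
abbrev V8 : Type := Cy 2 × Cy 2 × Cy 2

/-- multiplication by a root `w` of `x ^ 3 + x + 1` -/
def mulW (v : V8) : V8 := (v.2.2, v.1 * v.2.2, v.2.1)

/-- Frobenius map -/
def frob (v : V8) : V8 := (v.1, v.2.2, v.2.1 * v.2.2)

/-- action of `F21` -/
def act8 (k : F21) (v : V8) : V8 := mulW^[k.left.toAdd.val] (frob^[k.right.toAdd.val] v)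

theorem act8_one (v : V8) : act8 1 v = v := rfl

theorem act8_mul : ∀ k l n, act8 (k * l) n = act8 k (act8 l n) := by decide +kernel

theorem act8_hom : ∀ k n m, act8 k (n * m) = act8 k n * act8 k m := by decide +kernel

/-- `AΓL(1,8)` -/
abbrev G1 : Type := V8 ⋊[mkAct act8 act8_one act8_mul act8_hom] F21

theorem cnt_G1 : dl.map (cntc G1) =
    [1, 8, 8, 8, 57, 120, 120, 120, 49, 56, 56, 56, 105, 168, 168, 168] := by
  decide +kernel

end CL.Mueller
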