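import Mathlib
import Cfsg.Agent.FGS.Mueller1
import Cfsg.Agent.FGS.OrderType

/-!
`PGL(2,7)` as an explicit quotient, its element counts and non-solvability.
-/

set_option autoImplicit false

namespace CL.Mueller

/-- quadruples -/
abbrev Q7 : Type := ZMod 7 × ZMod 7 × ZMod 7 × ZMod 7

/-- matrix product -/
def qmul (x y : Q7) : Q7 :=
  (x.1 * y.1 + x.2.1 * y.2.2.1, x.1 * y.2.1 + x.2.1 * y.2.2.2,
    x.2.2.1 * y.1 + x.2.2.2 * y.2.2.1, x.2.2.1 * y.2.1 + x.2.2.2 * y.2.2.2)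

/-- determinant -/
def qdet (x : Q7) : ZMod 7 := x.1 * x.2.2.2 - x.2.1 * x.2.2.1

instance fact7 : Fact (Nat.Prime 7) := ⟨by norm_num⟩

/-- `GL(2,7)` -/
def GL7 : Type := {x : Q7 // qdet x ≠ 0}

instance instDecEqGL7 : DecidableEq GL7 := inferInstanceAs (DecidableEq {x : Q7 // qdet x ≠ 0})

instance instFintypeGL7 : Fintype GL7 := inferInstanceAs (Fintype {x : Q7 // qdet x ≠ 0})

theorem qdet_mul (x y : Q7) : qdet (qmul x y) = qdet x * qdet y := by
  simp only [qdet, qmul]; ring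

theorem pow5_mul {d : ZMod 7} (h : d ≠ 0) : d ^ 5 * d = 1 := by
  revert d; decide

instance instGroupGL7 : Group GL7 where
  mul x y := ⟨qmul x.1 y.1, by rw [qdet_mul]; exact mul_ne_zero x.2 y.2⟩
  one := ⟨(1, 0, 0, 1), by decide⟩
  inv x := ⟨(qdet x.1 ^ 5 * x.1.2.2.2, - (qdet x.1 ^ 5 * x.1.2.1), - (qdet x.1 ^ 5 * x.1.2.2.1),
    qdet x.1 ^ 5 * x.1.1), by
      have h := pow5_mul x.2
      have : qdet (qdet x.1 ^ 5 * x.1.2.2.2, - (qdet x.1 ^ 5 * x.1.2.1),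
        - (qdet x.1 ^ 5 * x.1.2.2.1), qdet x.1 ^ 5 * x.1.1) = qdet x.1 ^ 5 * (qdet x.1 ^ 5 * qdet x.1) := by
        generalize qdet x.1 ^ 5 = e
        simp only [qdet]; ring
      rw [this, h, mul_one]
      exact pow_ne_zero _ x.2⟩
  mul_assoc x y z := Subtype.ext (by
    show qmul (qmul x.1 y.1) z.1 = qmul x.1 (qmul y.1 z.1)
    simp only [qmul, Prod.mk.injEq]
    refine ⟨by ring, by ring, by ring, by ring⟩)
  one_mul x := Subtype.ext (by
    show qmul (1, 0, 0, 1) x.1 = x.1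
    simp [qmul])
  mul_one x := Subtype.ext (by
    show qmul x.1 (1, 0, 0, 1) = x.1
    simp [qmul])
  inv_mul_cancel x := Subtype.ext (by
    have h := pow5_mul x.2
    show qmul (qdet x.1 ^ 5 * x.1.2.2.2, - (qdet x.1 ^ 5 * x.1.2.1), - (qdet x.1 ^ 5 * x.1.2.2.1),
      qdet x.1 ^ 5 * x.1.1) x.1 = (1, 0, 0, 1)
    generalize qdet x.1 ^ 5 = e at h
    simp only [qmul, qdet, Prod.mk.injEq] at h ⊢
    refine ⟨by linear_combination h, by ring, by ring, by linear_combination h⟩)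

theorem gl7_mul (x y : GL7) : (x * y).1 = qmul x.1 y.1 := rfl

/-- scalar predicate -/
def isScal (x : Q7) : Prop := x.2.1 = 0 ∧ x.2.2.1 = 0 ∧ x.1 = x.2.2.2

instance instDecIsScal : DecidablePred isScal := fun x =>
  inferInstanceAs (Decidable (x.2.1 = 0 ∧ x.2.2.1 = 0 ∧ x.1 = x.2.2.2))

/-- scalar matrices -/
def Z7 : Subgroup GL7 where
  carrier := {x | isScal x.1}
  one_mem' := ⟨rfl, rfl, rfl⟩
  mul_mem' := by
    rintro ⟨⟨a, b, c, d⟩, h⟩ ⟨⟨a', b', c', d'⟩, h'⟩ ⟨h1, h2, h3⟩ ⟨h4, h5, h6⟩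
    simp only at h1 h2 h3 h4 h5 h6
    subst h1 h2 h3 h4 h5 h6
    show isScal (qmul _ _)
    simp [isScal, qmul]
  inv_mem' := by
    rintro ⟨⟨a, b, c, d⟩, h⟩ ⟨h1, h2, h3⟩
    simp only at h1 h2 h3
    subst h1 h2 h3
    exact ⟨by show - (_ * 0) = 0; simp, by show - (_ * 0) = 0; simp, rfl⟩

theorem Z7_comm {z : GL7} (hz : z ∈ Z7) (g : GL7) : g * z = z * g := by
  obtain ⟨⟨a, b, c, d⟩, h⟩ := z
  obtain ⟨h1, h2, h3⟩ := hz
  simp only at h1 h2 h3
  subst h1 h2 h3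
  refine Subtype.ext ?_
  show qmul _ _ = qmul _ _
  simp [qmul, mul_comm]

instance instNormalZ7 : Z7.Normal := ⟨fun z hz g => by rw [Z7_comm hz g]; simpa using hz⟩

/-- `PGL(2,7)` -/
abbrev H4 : Type := GL7 ⧸ Z7

theorem card_Z7 : Nat.card Z7 = 6 := by
  have : Nat.card Z7 = (Finset.univ.filter fun g : GL7 => isScal g.1).card := by
    rw [← Fintype.card_subtype, ← Nat.card_eq_fintype_card]
    rfl
  rw [this]
  decide +kernel

/-- natural number quadruples -/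
abbrev N4 : Type := ℕ × ℕ × ℕ × ℕ

/-- product mod 7 -/
def nm (x y : N4) : N4 :=
  (Nat.mod (Nat.add (Nat.mul x.1 y.1) (Nat.mul x.2.1 y.2.2.1)) 7,
   Nat.mod (Nat.add (Nat.mul x.1 y.2.1) (Nat.mul x.2.1 y.2.2.2)) 7,
   Nat.mod (Nat.add (Nat.mul x.2.2.1 y.1) (Nat.mul x.2.2.2 y.2.2.1)) 7,
   Nat.mod (Nat.add (Nat.mul x.2.2.1 y.2.1) (Nat.mul x.2.2.2 y.2.2.2)) 7)

/-- cast -/
def cst (x : N4) : Q7 := (x.1, x.2.1, x.2.2.1, x.2.2.2)

theorem cst_nm (x y : N4) : cst (nm x y) = qmul (cst x) (cst y) := by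
  have : ∀ a : ℕ, ((Nat.mod a 7 : ℕ) : ZMod 7) = a := fun a => ZMod.natCast_mod a 7
  simp [cst, nm, qmul, this]

/-- binary powering on quadruples -/
def npw : ℕ → N4 → ℕ → N4
  | 0, _, _ => (1, 0, 0, 1)
  | f + 1, g, n => if n = 0 then (1, 0, 0, 1) else if n = 1 then g else
      if n % 2 = 0 then npw f (nm g g) (n / 2) else nm g (npw f (nm g g) (n / 2))

theorem cst_npw (f : ℕ) : ∀ (x : N4) (g : GL7) (n : ℕ), cst x = g.1 →
    cst (npw f x n) = (pw f g n).1 := by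
  induction f with
  | zero => intro x g n _; rfl
  | succ f ih =>
    intro x g n h
    have h2 : cst (nm x x) = (g * g).1 := by rw [cst_nm, h]; rfl
    unfold npw pw
    split_ifs
    · rfl
    · exact h
    · exact ih _ _ _ h2
    · rw [cst_nm, ih _ _ _ h2, h]; rfl

/-- scalar test -/
def nscal (x : N4) : Bool :=
  Nat.beq (Nat.mod x.2.1 7) 0 && (Nat.beq (Nat.mod x.2.2.1 7) 0 &&
    Nat.beq (Nat.mod x.1 7) (Nat.mod x.2.2.2 7))

theorem nscal_iff (x : N4) : nscal x = true ↔ isScal (cst x) := by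
  simp only [nscal, isScal, cst, Bool.and_eq_true, Nat.beq_eq, ZMod.natCast_eq_zero_iff,
    ZMod.natCast_eq_natCast_iff', Nat.dvd_iff_mod_eq_zero]
  rfl

/-- values -/
def vals (x : Q7) : N4 := (x.1.val, x.2.1.val, x.2.2.1.val, x.2.2.2.val)

theorem cst_vals (x : Q7) : cst (vals x) = x := by simp [cst, vals]

/-- computable count -/
def cntP (n : ℕ) : ℕ := (Finset.univ.filter fun g : GL7 => nscal (npw 8 (vals g.1) n) = true).card

theorem cnt_H4_eq {n : ℕ} (hn : n < 2 ^ 8) : 6 * cnt H4 n = cntP n := by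
  unfold cnt cntP
  rw [← card_Z7, ← CL.OrdType.card_subtype_quotient Z7 fun x => x ^ n = 1,
    ← Fintype.card_subtype, ← Nat.card_eq_fintype_card]
  refine Nat.card_congr (Equiv.subtypeEquivRight fun g => ?_)
  rw [← QuotientGroup.mk_pow, QuotientGroup.eq_one_iff, nscal_iff, cst_npw 8 _ g n (cst_vals _),
    pw_eq 8 g n hn]
  rfl

theorem cntP_eq : dl.map cntP =
    [6, 300, 552, 1056, 342, 972, 1224, 1728, 294, 588, 840, 1344, 630, 1260, 1512, 2016] := by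
  decide +kernel

open scoped commutatorElement in
theorem not_solvable_H4 : ¬ Group.IsSolvable H4 := by
  let x : GL7 := ⟨(2, 0, 0, 4), by decide⟩
  let y : GL7 := ⟨(1, 1, 1, 2), by decide⟩
  let z : GL7 := ⟨(1, 3, 2, 0), by decide⟩
  have key : x = z * ⁅x, y * x * y⁻¹⁆ * z⁻¹ := Subtype.ext (by unfold x y z; decide +kernel)
  have key' : (x : H4) = z * ⁅(x : H4), y * x * (y : H4)⁻¹⁆ * (z : H4)⁻¹ := by
    have := congrArg (QuotientGroup.mk' Z7) key
    simpa [commutatorElement_def] using this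
  refine not_isSolvable_of_mem_derivedSeries (g := (x : H4)) ?_ fun n => ?_
  · rw [Ne, QuotientGroup.eq_one_iff]
    show ¬ isScal x.1
    decide
  induction n with
  | zero => exact Subgroup.mem_top _
  | succ n ih =>
    rw [key', (derivedSeries_normal _ _).mem_comm_iff, inv_mul_cancel_left]
    exact Subgroup.commutator_mem_commutator ih ((derivedSeries_normal _ _).conj_mem _ ih _)

end CL.Mueller
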