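import Mathlib
import Cfsg.Agent.FGS.SolvLin6
import Cfsg.Agent.PLOC.Symplectic

/-!
# Regular orbits of odd `p`-groups of symplectic type
-/

open Subgroup
open scoped Pointwise commutatorElement

namespace CL.NFx

open CL.SolvLin

section
variable {Q : Type*} [Group Q] {V : Type*} [AddCommGroup V] [DistribMulAction Q V]

theorem smul_inj (hf : ∀ z ∈ center Q, ∀ v : V, z • v = v → z = 1 ∨ v = 0) {a b : Q}
    (ha : a ∈ center Q) (hb : b ∈ center Q) (hne : a ≠ b) {v : V} (e : a • v = b • v) : v = 0 :=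
  (hf (b⁻¹ * a) (mul_mem (inv_mem hb) ha) v (by rw [mul_smul, e, inv_smul_smul])).resolve_left
    fun e => hne (inv_mul_eq_one.1 e).symm

theorem vdm (hf : ∀ z ∈ center Q, ∀ v : V, z • v = v → z = 1 ∨ v = 0) {z₀ z₁ z₂ : Q}
    (h0 : z₀ ∈ center Q) (h1 : z₁ ∈ center Q) (h2 : z₂ ∈ center Q) (n1 : z₀ ≠ z₁)
    (n2 : z₀ ≠ z₂) (n3 : z₁ ≠ z₂) {a b c : V} (e0 : a + z₀ • b + z₀ • z₀ • c = 0)
    (e1 : a + z₁ • b + z₁ • z₁ • c = 0) (e2 : a + z₂ • b + z₂ • z₂ • c = 0) : b = 0 ∧ c = 0 := by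
  have key : ∀ z ∈ center Q, z₀ ≠ z → a + z • b + z • z • c = 0 → b + z₀ • c + z • c = 0 := by
    intro z hz n e
    refine smul_inj hf h0 hz n ?_
    rw [smul_add, smul_add, smul_add, smul_add, ← mul_smul z₀ z, mem_center_iff.1 hz z₀, mul_smul,
      ← add_right_inj a]
    calc _ = a + z₀ • b + z₀ • z₀ • c + z • z₀ • c := by abel
      _ = a + z • b + z • z • c + z • z₀ • c := by rw [e0, e]
      _ = _ := by abel
  have k1 := key z₁ h1 n1 e1
  have hc : c = 0 := smul_inj hf h1 h2 n3 (add_left_cancel (k1.trans (key z₂ h2 n2 e2).symm))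
  rw [hc, smul_zero, smul_zero, add_zero, add_zero] at k1
  exact ⟨k1, hc⟩

theorem fix_cube [Finite V] (hA : Odd (Nat.card Q)) (hcm : ∀ x y : Q, ⁅x, y⁆ ∈ center Q)
    (hf : ∀ z ∈ center Q, ∀ v : V, z • v = v → z = 1 ∨ v = 0) {g : Q} (hgZ : g ∉ center Q) :
    Nat.card (fix V g) ^ 3 ≤ Nat.card V := by
  obtain ⟨y, hne⟩ : ∃ y, y * g ≠ g * y := by
    by_contra hc
    push Not at hc
    exact hgZ (mem_center_iff.2 hc)
  have hζ := hcm g y
  set ζ := ⁅g, y⁆ with hζ'
  have hζ1 : 1 ≠ ζ := fun e => hne (commutatorElement_eq_one_iff_mul_comm.1 e.symm).symm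
  have hgy : g * y = ζ * y * g := by rw [hζ', commutatorElement_def]; group
  have hc : ∀ x, ζ * x = x * ζ := fun x => (mem_center_iff.1 hζ x).symm
  refine card_pow_three_le _ y (y * y) fun a ha b hb c hc' e => ?_
  have k1 : g • y • b = ζ • y • b := by rw [← mul_smul, hgy, mul_smul, mem_fix.1 hb, mul_smul]
  have k2 : g • (y * y) • c = ζ • ζ • (y * y) • c := by
    have : g * (y * y) = ζ * ζ * (y * y) * g := by
      calc g * (y * y) = ζ * y * (g * y) := by rw [← mul_assoc, ← mul_assoc, ← hgy]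
        _ = ζ * (y * ζ) * y * g := by rw [hgy]; group
        _ = _ := by rw [← hc y]; group
    rw [← mul_smul, this, mul_smul, mem_fix.1 hc', mul_smul, mul_smul]
  have k3 : ∀ w : V, g • ζ • w = ζ • g • w := fun w => by
    rw [← mul_smul, ← hc g, mul_smul]
  have e1 := congrArg (g • ·) e
  simp only [smul_add, smul_zero, mem_fix.1 ha, k1, k2] at e1
  have e2 := congrArg (g • ·) e1
  simp only [smul_add, smul_zero, mem_fix.1 ha, k1, k2, k3] at e2
  have := vdm hf (one_mem _) hζ (mul_mem hζ hζ) hζ1 (fun e' => hζ1 ?_) (by simpa using hζ1.symm)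
    (a := a) (b := y • b) (c := (y * y) • c) (by simpa using e) e1 (by simpa only [mul_smul] using e2)
  · simpa only [smul_eq_zero_iff_eq] using this
  · have := smul_eq_of_sq (odd_orderOf hA ζ) (x := (1 : Q)) (by simpa using e'.symm)
    simpa using this.symm

end

theorem num_aux {p d : ℕ} (hp : 3 ≤ p) (hd : 2 ≤ d) : p ^ 3 * d ^ 6 < 8 * (p + 1) ^ (2 * d) := by
  obtain ⟨e, rfl⟩ := Nat.exists_eq_add_of_le hd
  have h1 : (2 + e) ^ 6 ≤ 64 * 16 ^ e := by
    induction e with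
    | zero => norm_num
    | succ e ih =>
      have h2 : (2 * (2 + (e + 1))) ^ 6 ≤ (3 * (2 + e)) ^ 6 :=
        Nat.pow_le_pow_left (by omega) 6
      have h3 := ih (by omega)
      rw [mul_pow, mul_pow] at h2
      rw [pow_succ 16 e]
      omega
  have h2 : 8 * p ^ 3 < (p + 1) ^ 4 := by
    obtain ⟨k, rfl⟩ := Nat.exists_eq_add_of_le hp
    ring_nf
    nlinarith [Nat.zero_le k, Nat.zero_le (k ^ 2), Nat.zero_le (k ^ 3), Nat.zero_le (k ^ 4)]
  have h3 : 16 ^ e ≤ (p + 1) ^ (2 * e) := by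
    rw [pow_mul]; gcongr; nlinarith
  calc p ^ 3 * (2 + e) ^ 6 ≤ p ^ 3 * (64 * 16 ^ e) := by gcongr
    _ = 8 * (8 * p ^ 3 * 16 ^ e) := by ring
    _ < 8 * ((p + 1) ^ 4 * (p + 1) ^ (2 * e)) := by
      have : 0 < 16 ^ e := by positivity
      gcongr 8 * ?_
      calc 8 * p ^ 3 * 16 ^ e < (p + 1) ^ 4 * 16 ^ e := by gcongr
        _ ≤ _ := by gcongr
    _ = _ := by rw [← pow_add]; ring_nf

theorem card_omega_le {Q : Type*} [Group Q] [Fintype Q] [DecidableEq Q] {p : ℕ} (hp : 0 < p)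
    (hc : IsCyclic (center Q)) :
    (Finset.univ.filter fun b : Q => b ^ p = 1).card ≤ p * (center Q).index := by
  classical
  have := Fintype.ofFinite (Q ⧸ center Q)
  refine (Finset.card_le_mul_card_image (f := fun b : Q => (b : Q ⧸ center Q)) _ p
    fun y hy => ?_).trans (Nat.mul_le_mul_left _ ?_)
  · obtain ⟨b, hb, rfl⟩ := Finset.mem_image.1 hy
    have hb : b ^ p = 1 := (Finset.mem_filter.1 hb).2
    refine le_trans ?_ (IsCyclic.card_pow_eq_one_le (α := center Q) hp)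
    refine Finset.card_le_card_of_injOn
      (fun x => if h : b⁻¹ * x ∈ center Q then ⟨b⁻¹ * x, h⟩ else 1) (fun x hx => ?_)
      fun x hx x' hx' e => ?_
    · simp only [Finset.coe_filter, Finset.mem_filter, Finset.mem_univ, true_and,
        Set.mem_ofPred_eq] at hx ⊢
      have h1 : b⁻¹ * x ∈ center Q := QuotientGroup.eq.1 hx.2.symm
      rw [dif_pos h1]
      refine Subtype.ext ?_
      change (b⁻¹ * x) ^ p = 1
      have h2 : Commute b (b⁻¹ * x) := mem_center_iff.1 h1 b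
      have h3 := h2.mul_pow p
      rw [mul_inv_cancel_left, hx.1, hb, one_mul] at h3
      exact h3.symm
    · simp only [Finset.coe_filter, Finset.mem_filter, Finset.mem_univ, true_and,
        Set.mem_ofPred_eq] at hx hx'
      have h1 : b⁻¹ * x ∈ center Q := QuotientGroup.eq.1 hx.2.symm
      have h2 : b⁻¹ * x' ∈ center Q := QuotientGroup.eq.1 hx'.2.symm
      simp only [dif_pos h1, dif_pos h2] at e
      exact mul_left_cancel (congrArg Subtype.val e)
  · rw [index, Nat.card_eq_fintype_card]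
    exact Finset.card_le_univ _

theorem exists_pow_order {Q : Type*} [Group Q] {p : ℕ} (hQ : IsPGroup p Q)
    {b : Q} (hb : b ≠ 1) : ∃ k : ℕ, b ^ k ≠ 1 ∧ (b ^ k) ^ p = 1 := by
  classical
  have h := hQ b
  have h0 : Nat.find h ≠ 0 := fun e => hb (by simpa [e] using Nat.find_spec h)
  obtain ⟨j, hj⟩ := Nat.exists_eq_succ_of_ne_zero h0
  refine ⟨p ^ j, Nat.find_min h (by omega), ?_⟩
  rw [← pow_mul, ← pow_succ, ← Nat.succ_eq_add_one, ← hj]
  exact Nat.find_spec h

/-- A `p`-group of class two, `p` odd, whose centre acts freely has a regular orbit. -/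
theorem reg_class_two {Q V : Type*} [Group Q] [Finite Q] [AddCommGroup V] [Finite V] [Nontrivial V]
    [DistribMulAction Q V] {p : ℕ} [hp : Fact p.Prime] (hp2 : p ≠ 2) (hQ : IsPGroup p Q)
    (hcm : ∀ x y : Q, ⁅x, y⁆ ∈ center Q)
    (hf : ∀ z ∈ center Q, ∀ v : V, z • v = v → z = 1 ∨ v = 0) :
    ∃ v : V, ∀ b : Q, b • v = v → b = 1 := by
  classical
  by_contra hcon
  push Not at hcon
  have := Fintype.ofFinite Q
  have := Fintype.ofFinite V
  have hp3 : 3 ≤ p := by have := hp.out.two_le; omega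
  have hodd : Odd (Nat.card Q) := by
    obtain ⟨n, hn⟩ := IsPGroup.iff_card.1 hQ
    rw [hn]; exact (hp.out.odd_of_ne_two hp2).pow
  let S : Finset Q := Finset.univ.filter fun b => b ^ p = 1 ∧ b ∉ center Q
  have hS : ∀ v : V, ∃ b ∈ S, b • v = v := by
    have h1 : ∀ v : V, v ≠ 0 → ∃ b ∈ S, b • v = v := fun v hv => by
      obtain ⟨b, hb, hb1⟩ := hcon v
      obtain ⟨k, h1, h2⟩ := exists_pow_order hQ hb1
      have h3 : b ^ k • v = v := pow_mem (show b ∈ MulAction.stabilizer Q v from hb) k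
      exact ⟨b ^ k, Finset.mem_filter.2 ⟨Finset.mem_univ _, h2, fun hz =>
        (hf _ hz v h3).elim h1 hv⟩, h3⟩
    intro v
    by_cases hv : v = 0
    · obtain ⟨w, hw⟩ := exists_ne (0 : V)
      obtain ⟨b, hb, -⟩ := h1 w hw
      exact ⟨b, hb, by rw [hv, smul_zero]⟩
    · exact h1 v hv
  obtain ⟨hcyc, q, d, hq, hz, hN, hd⟩ := exists_field (A := Q) (V := V) (Z := center Q) (E := ⊤)
    le_top (fun z hz x _ => (mem_center_iff.1 hz x).symm) hf (fun x _ y _ => hcm x y)
    fun x _ hx => mem_center_iff.2 fun y => hx y trivial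
  rw [relIndex_top_right] at hd
  obtain ⟨b₀, hb₀, -⟩ := hS 0
  have hb₀ := (Finset.mem_filter.1 hb₀).2.2
  have hd2 : 2 ≤ d := by
    by_contra hlt
    have h1 : (center Q).index ≤ 1 := hd.trans (by
      have : d = 0 ∨ d = 1 := by omega
      rcases this with rfl | rfl <;> simp)
    have h2 : (center Q).index ≠ 0 := FiniteIndex.index_ne_zero
    rw [index_eq_one.1 (show (center Q).index = 1 by omega)] at hb₀
    exact hb₀ trivial
  have hqp : p + 1 ≤ q := by
    have : Nontrivial Q := ⟨b₀, 1, fun e => hb₀ (e ▸ one_mem _)⟩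
    have h1 := hQ.center_nontrivial
    obtain ⟨n, hn0, hn⟩ := (hQ.to_subgroup (center Q)).nontrivial_iff_card.1 h1
    have h2 : p ∣ q - 1 := (hn ▸ dvd_pow_self p hn0.ne').trans hz
    have h3 := hq.two_le
    have := Nat.le_of_dvd (by omega) h2
    omega
  have hSc : S.card ≤ p * d ^ 2 := by
    refine le_trans (Finset.card_le_card fun b hb => ?_)
      ((card_omega_le hp.out.pos hcyc).trans (Nat.mul_le_mul_left _ hd))
    simp only [S, Finset.mem_filter, Finset.mem_univ, true_and] at hb ⊢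
    exact hb.1
  have hsum : 2 * Nat.card V ≤ ∑ b ∈ S, Nat.card (fix V b) := by
    have h1 : ∀ b : Q, Nat.card (fix V b) = ∑ v : V, if b • v = v then 1 else 0 := fun b => by
      rw [Nat.card_eq_fintype_card, Fintype.card_subtype, Finset.card_filter]
      rfl
    simp only [h1]
    rw [Finset.sum_comm, Nat.card_eq_fintype_card, ← Finset.card_univ, mul_comm, ← smul_eq_mul,
      ← Finset.sum_const]
    refine Finset.sum_le_sum fun v _ => ?_
    obtain ⟨b, hb, hv⟩ := hS v
    have hb' := (Finset.mem_filter.1 hb).2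
    have hne : b ≠ b⁻¹ := fun e => by
      have := smul_eq_of_sq (odd_orderOf hodd b) (x := (1 : Q)) (by
        rw [smul_eq_mul, smul_eq_mul, mul_one]; nth_rewrite 2 [e]; exact mul_inv_cancel b)
      rw [smul_eq_mul, mul_one] at this
      exact hb'.2 (this ▸ one_mem _)
    rw [← Finset.card_filter]
    calc 2 = ({b, b⁻¹} : Finset Q).card := (Finset.card_pair hne).symm
      _ ≤ _ := Finset.card_le_card fun x hx => by
        rcases Finset.mem_insert.1 hx with rfl | hx
        · exact Finset.mem_filter.2 ⟨hb, hv⟩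
        · rw [Finset.mem_singleton.1 hx]
          exact Finset.mem_filter.2 ⟨Finset.mem_filter.2 ⟨Finset.mem_univ _,
            by rw [inv_pow, hb'.1, inv_one], fun h => hb'.2 (inv_mem_iff.1 h)⟩,
            inv_smul_eq_iff.2 hv.symm⟩
  obtain ⟨b, hb, hmax⟩ := Finset.exists_max_image S (fun b => Nat.card (fix V b)) ⟨_, (hS 0).choose_spec.1⟩
  have h1 : 2 * Nat.card V ≤ p * d ^ 2 * Nat.card (fix V b) :=
    hsum.trans ((Finset.sum_le_card_nsmul _ _ _ hmax).trans (by
      rw [smul_eq_mul]; exact Nat.mul_le_mul_right _ hSc))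
  have h2 := fix_cube hodd hcm hf (Finset.mem_filter.1 hb).2.2
  have h3 : 8 * Nat.card V ^ 2 * Nat.card V ≤ p ^ 3 * d ^ 6 * Nat.card V := by
    calc _ = (2 * Nat.card V) ^ 3 := by ring
      _ ≤ (p * d ^ 2 * Nat.card (fix V b)) ^ 3 := by gcongr
      _ = p ^ 3 * d ^ 6 * Nat.card (fix V b) ^ 3 := by ring
      _ ≤ _ := by gcongr
  have h4 := Nat.le_of_mul_le_mul_right h3 Nat.card_pos
  have h5 := num_aux hp3 hd2
  have h6 : (p + 1) ^ (2 * d) ≤ Nat.card V ^ 2 := by
    rw [mul_comm, pow_mul]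
    gcongr
    exact le_trans (by gcongr) hN
  omega

/-- In the primitive case a normal `p`-subgroup, `p` odd, has a regular orbit. -/
theorem reg_prim {A V : Type*} [Group A] [Finite A] [AddCommGroup V] [Finite V] [Nontrivial V]
    [DistribMulAction A V] (h : Prim A V) {p : ℕ} [hp : Fact p.Prime] (hp2 : p ≠ 2)
    (P : Subgroup A) [P.Normal] (hP : IsPGroup p P) : ∃ v : V, ∀ b ∈ P, b • v = v → b = 1 := by
  have key : ∀ B : Subgroup P, B.Characteristic → IsMulCommutative B →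
      ∀ b ∈ B, ∀ v : V, b • v = v → b = 1 ∨ v = 0 := fun B _ hB b hb v hv =>
    (h (B.map P.subtype) inferInstance (by
      rintro _ ⟨x, hx, rfl⟩ _ ⟨y, hy, rfl⟩
      exact congrArg (fun t : B => ((t : P) : A)) (hB.is_comm.comm ⟨x, hx⟩ ⟨y, hy⟩)) b
      ⟨b, hb, rfl⟩ v hv).imp Subtype.ext id
  suffices hcm : ∀ x y : P, ⁅x, y⁆ ∈ center P by
    obtain ⟨v, hv⟩ := reg_class_two (V := V) hp2 hP hcm (key _ inferInstance inferInstance)
    exact ⟨v, fun b hb e => congrArg Subtype.val (hv ⟨b, hb⟩ e)⟩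
  rcases subsingleton_or_nontrivial P with h1 | h1
  · exact fun x y => by rw [Subsingleton.elim ⁅x, y⁆ 1]; exact one_mem _
  obtain ⟨z, F, -, hzc, -, h2, -, -, h3, h4⟩ := CL.ES.exists_symplectic_decomp hP fun B hB hc => by
    have hab : ∀ z ∈ B, ∀ x ∈ B, z * x = x * z := fun z hz x hx =>
      congrArg Subtype.val (hc.is_comm.comm ⟨z, hz⟩ ⟨x, hx⟩)
    exact (exists_field (V := V) (Z := B) (E := B) le_rfl hab (key B hB hc) (fun x hx y hy => by
      rw [commutatorElement_eq_one_iff_mul_comm.2 (hab x hx y hy)]; exact one_mem _)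
      fun x hx _ => hx).1
  have h5 := h4.resolve_right fun e => hp2 e.1
  have h6 : ∀ c ∈ centralizer (F : Set P), c ∈ center P := fun c hc => mem_center_iff.2 fun g => by
    obtain ⟨f, hf, c', hc', rfl⟩ := h3 g
    have e1 : f * c = c * f := hc f hf
    have e2 : c' * c = c * c' := by
      let := h5.commGroup
      exact congrArg Subtype.val (mul_comm (⟨c', hc'⟩ : centralizer (F : Set P)) ⟨c, hc⟩)
    rw [mul_assoc, e2, ← mul_assoc, e1, mul_assoc]
  intro x y
  obtain ⟨f, hf, c, hc, rfl⟩ := h3 y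
  have e : ⁅x, f * c⁆ = ⁅x, f⁆ := by
    have := mem_center_iff.1 (h6 c hc) x⁻¹
    simp only [commutatorElement_def]
    calc _ = x * f * (c * x⁻¹) * c⁻¹ * f⁻¹ := by group
      _ = _ := by rw [← this]; group
  rw [e]
  exact zpowers_le.2 hzc (h2 x f hf)

end CL.NFx
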