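import Mathlib
import Cfsg.Agent.FGS.NFx1

/-!
# A vector moved by every conjugate of a given `p`-element
-/

open Subgroup
open scoped Pointwise commutatorElement

namespace CL.NFx

open CL.SolvLin

universe u

theorem smul_comp {A V : Type*} [Group A] [AddCommGroup V] [DistribMulAction A V]
    {U : AddSubgroup V} [Fintype (MulAction.orbit A U)] (h : Indep A U)
    {y : MulAction.orbit A U → V} (hy : ∀ l, y l ∈ l.1) {a : A} (ha : a • ∑ l, y l = ∑ l, y l)
    (l : MulAction.orbit A U) : a • y l = y (a • l) := by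
  have := h Finset.univ (fun m => a • y (a⁻¹ • m) - y m)
    (fun m => sub_mem (by
      have := AddSubgroup.smul_mem_pointwise_smul _ a _ (hy (a⁻¹ • m))
      rwa [show a • (a⁻¹ • m).1 = m.1 from congrArg Subtype.val (smul_inv_smul a m)] at this)
      (hy m)) (by
      rw [Finset.sum_sub_distrib, ← ha, Finset.smul_sum, sub_eq_zero]
      exact Fintype.sum_equiv (MulAction.toPerm a⁻¹) _ _ fun m => rfl) (a • l) (Finset.mem_univ _)
  simpa only [inv_smul_smul, sub_eq_zero] using this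

/-- The inductive statement. -/
def Mv (p n : ℕ) : Prop :=
  ∀ (A V : Type u) [Group A] [Finite A] [Group.IsSolvable A] [AddCommGroup V] [Finite V]
    [DistribMulAction A V], Nat.card V = n → Irr A V → ∀ (P : Subgroup A), P.Normal →
    (∀ x ∈ P, ∃ k : ℕ, ∀ v : V, x ^ p ^ k • v = v) → ∀ a ∈ P, (∃ v : V, a • v ≠ v) →
    ∃ v : V, ∀ g : A, (g * a * g⁻¹) • v ≠ v

theorem mv_step {p : ℕ} [hp : Fact p.Prime] (hp2 : p ≠ 2) {A V : Type u} [Group A] [Finite A]
    [Group.IsSolvable A] [AddCommGroup V] [Finite V] [Nontrivial V] [DistribMulAction A V]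
    (ih : ∀ m < Nat.card V, Mv.{u} p m) (hirr : Irr A V)
    (hf : ∀ a : A, (∀ v : V, a • v = v) → a = 1) (P : Subgroup A) (hPn : P.Normal)
    (hP : IsPGroup p P) (a : A) (ha : a ∈ P) (ha1 : a ≠ 1) :
    ∃ v : V, ∀ g : A, (g * a * g⁻¹) • v ≠ v := by
  classical
  have hc1 : ∀ g : A, g * a * g⁻¹ ≠ 1 := fun g e => ha1 (by
    rw [← inv_mul_cancel_left g a, mul_inv_eq_iff_eq_mul.1 e, one_mul, inv_mul_cancel])
  by_cases hpr : Prim A V
  · obtain ⟨v, hv⟩ := reg_prim hpr hp2 P hP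
    exact ⟨v, fun g e => hc1 g (hv _ (hPn.conj_mem a ha g) e)⟩
  obtain ⟨U, h1, h2, h3⟩ := exists_indep hf hpr
  have : Finite (MulAction.orbit A U) := Finite.finite_mulAction_orbit U
  have := Fintype.ofFinite (MulAction.orbit A U)
  obtain ⟨r, hr⟩ := exists_reps (A := A) U
  by_cases hmv : ∀ l : MulAction.orbit A U, a • l = l
  swap
  · have hodd : Odd (Nat.card P) := by
      obtain ⟨m, hm⟩ := IsPGroup.iff_card.1 hP
      rw [hm]; exact (hp.out.odd_of_ne_two hp2).pow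
    obtain ⟨D, hD⟩ := gluck (pOdd _) _ P (MulAction.orbit A U) rfl (Nat.lt_succ_self _) hodd
    obtain ⟨⟨u, hu⟩, hu0⟩ := (AddSubgroup.ne_bot_iff_exists_ne_zero).1 h1
    have hu0 : u ≠ 0 := fun e => hu0 (Subtype.ext e)
    let y : MulAction.orbit A U → V := fun l => if l ∈ D then r l • u else 0
    have hy : ∀ l, y l ∈ l.1 := fun l => by
      simp only [y]
      split_ifs
      · exact hr l ▸ AddSubgroup.smul_mem_pointwise_smul u _ U hu
      · exact zero_mem _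
    have hy0 : ∀ l, y l ≠ 0 ↔ l ∈ D := fun l => by
      simp only [y]
      split_ifs with hl
      · exact iff_of_true (fun e => hu0 ((smul_eq_zero_iff_eq _).1 e)) hl
      · exact iff_of_false (by simp) hl
    refine ⟨∑ l, y l, fun g e => hmv fun l => ?_⟩
    have h4 := hD ⟨_, hPn.conj_mem a ha g⟩ (fun l => by
      rw [← hy0, ← hy0]
      change y ((g * a * g⁻¹) • l) ≠ 0 ↔ _
      rw [← smul_comp h3 hy e l, Ne, smul_eq_zero_iff_eq]) (g • l)
    change (g * a * g⁻¹) • g • l = g • l at h4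
    rwa [mul_smul, inv_smul_smul, mul_smul, smul_left_cancel_iff] at h4
  obtain ⟨l₀, w, hw, hwa⟩ : ∃ l : MulAction.orbit A U, ∃ w ∈ l.1, a • w ≠ w := by
    by_contra hc
    push Not at hc
    refine ha1 (hf a fun v => ?_)
    obtain ⟨y, hy, rfl⟩ := exists_decomp hirr h1 (inv_stabilizer U) r hr v
    rw [Finset.smul_sum]
    exact Finset.sum_congr rfl fun l _ => hc l _ (hr l ▸ hy l)
  have hlt : Nat.card U < Nat.card V :=
    lt_of_le_of_ne U.card_le_card_addGroup fun e => h2 (AddSubgroup.eq_top_of_card_eq _ e)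
  have ha' : (r l₀)⁻¹ * a * r l₀ ∈ MulAction.stabilizer A U := by
    rw [MulAction.mem_stabilizer_iff, mul_smul, mul_smul, hr,
      show a • l₀.1 = l₀.1 from congrArg Subtype.val (hmv l₀), ← hr, inv_smul_smul]
  let := resAct _ U (inv_stabilizer (A := A) U)
  obtain ⟨v₁, hv₁⟩ := ih _ hlt (MulAction.stabilizer A U) U rfl (irr_res _ (h3.irr hirr))
    (P.subgroupOf _) inferInstance (fun x hx => by
      obtain ⟨k, hk⟩ := hP ⟨x, hx⟩
      refine ⟨k, fun v => ?_⟩
      rw [show x ^ p ^ k = 1 from Subtype.ext (congrArg Subtype.val hk :), one_smul])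
    ⟨_, ha'⟩ (mem_subgroupOf.2 (by simpa using hPn.conj_mem a ha (r l₀)⁻¹)) (by
      rw [← hr l₀] at hw
      obtain ⟨u, hu, rfl⟩ := hw
      refine ⟨⟨u, hu⟩, fun e => hwa ?_⟩
      have e' : ((r l₀)⁻¹ * a * r l₀) • u = u := congrArg Subtype.val e
      rw [mul_smul, mul_smul, inv_smul_eq_iff] at e'
      exact e')
  have hy : ∀ l, r l • (v₁ : V) ∈ l.1 := fun l =>
    hr l ▸ AddSubgroup.smul_mem_pointwise_smul _ _ U v₁.2
  refine ⟨∑ l, r l • (v₁ : V), fun g e => ?_⟩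
  have h4 := smul_comp h3 hy e (g • l₀)
  rw [show (g * a * g⁻¹) • g • l₀ = g • l₀ by rw [mul_smul, inv_smul_smul, mul_smul, hmv]] at h4
  refine hv₁ ⟨(r (g • l₀))⁻¹ * g * r l₀, ?_⟩ (Subtype.ext ?_)
  · rw [MulAction.mem_stabilizer_iff, mul_smul, mul_smul, hr, inv_smul_eq_iff, hr]
    rfl
  · change ((r (g • l₀))⁻¹ * g * r l₀ * ((r l₀)⁻¹ * a * r l₀) *
      ((r (g • l₀))⁻¹ * g * r l₀)⁻¹) • (v₁ : V) = v₁
    rw [show (r (g • l₀))⁻¹ * g * r l₀ * ((r l₀)⁻¹ * a * r l₀) *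
      ((r (g • l₀))⁻¹ * g * r l₀)⁻¹ = (r (g • l₀))⁻¹ * ((g * a * g⁻¹) * r (g • l₀)) by group,
      mul_smul, mul_smul, h4, inv_smul_smul]

theorem mv {p : ℕ} [hp : Fact p.Prime] (hp2 : p ≠ 2) (n : ℕ) : Mv.{u} p n := by
  induction n using Nat.strong_induction_on with
  | _ n ih =>
  intro A₀ V _ _ _ _ _ _ hn hirr₀ P₀ hP₀ hp₀ a₀ ha₀ hmv₀
  have := Group.isSolvable_of_surjective (toImg_surj (A := A₀) (V := V))
  have : Finite (Img A₀ V) := Finite.of_surjective _ toImg_surj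
  have hV : Nontrivial V := by
    obtain ⟨v, hv⟩ := hmv₀
    exact ⟨_, _, hv⟩
  obtain ⟨v, hv⟩ := mv_step hp2 (A := Img A₀ V) (V := V) (hn ▸ ih)
    (fun U hU => hirr₀ U fun a => hU (toImg V a)) img_faithful (P₀.map (toImg V))
    (hP₀.map _ toImg_surj) (by
      rintro ⟨_, x, hx, rfl⟩
      obtain ⟨k, hk⟩ := hp₀ x hx
      refine ⟨k, Subtype.ext (img_faithful _ fun v => ?_)⟩
      rw [SubgroupClass.coe_pow, ← map_pow, toImg_smul, hk]) (toImg V a₀) ⟨a₀, ha₀, rfl⟩ (fun e => by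
      obtain ⟨v, hv⟩ := hmv₀
      exact hv (by rw [← toImg_smul, e, one_smul]))
  refine ⟨v, fun g e => hv (toImg V g) ?_⟩
  rw [← map_inv, ← map_mul, ← map_mul, toImg_smul, e]

end CL.NFx
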