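import Cfsg.Agent.FGS.SylowNum
import Cfsg.Agent.INV.SmallInter

/-! Groups with fewer than `p ^ 2` Sylow `p`-subgroups: intersections of Sylow subgroups. -/

set_option autoImplicit false
open Subgroup
open scoped Pointwise

namespace CL.NpSq

variable {G : Type*} [Group G] [Finite G] {p : ℕ} [hp : Fact p.Prime]

theorem relIndex_eq (hn : Nat.card (Sylow p G) < p ^ 2) {P Q : Sylow p G} (h : P ≠ Q) :
    (Q : Subgroup G).relIndex P = p := by
  have h1 := (CL.SN.relIndex_sylow_le_card P.isPGroup' Q).trans_lt hn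
  obtain ⟨k, hk⟩ := P.isPGroup'.index ((Q : Subgroup G).subgroupOf P)
  change (Q : Subgroup G).relIndex P = _ at hk
  rw [hk, Nat.pow_lt_pow_iff_right hp.out.one_lt] at h1
  have h2 : k ≠ 0 := by
    rintro rfl
    rw [pow_zero, relIndex_eq_one] at hk
    exact h (Sylow.ext (P.is_maximal' Q.isPGroup' hk).symm)
  rw [hk, show k = 1 by omega, pow_one]

theorem card_inf (hn : Nat.card (Sylow p G) < p ^ 2) {P Q : Sylow p G} (h : P ≠ Q)
    (R : Sylow p G) : Nat.card ↥((P : Subgroup G) ⊓ Q) * p = Nat.card R := by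
  have h1 := CL.card_inf_mul_relIndex (Q : Subgroup G) (P : Subgroup G)
  rw [relIndex_eq hn h, inf_comm] at h1
  rw [h1, P.card_eq_multiplicity, R.card_eq_multiplicity]

theorem le_norm (hn : Nat.card (Sylow p G) < p ^ 2) {P Q : Sylow p G} (h : P ≠ Q) :
    (P : Subgroup G) ≤ normalizer (((P : Subgroup G) ⊓ Q : Subgroup G) : Set G) :=
  CL.Small.le_normalizer_of_relIndex_prime P.isPGroup' inf_le_left
    (by rw [inf_relIndex_left, relIndex_eq hn h])

theorem inf_le_smul (hn : Nat.card (Sylow p G) < p ^ 2) {P Q : Sylow p G} (h : P ≠ Q) {x : G}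
    (hx : x ∈ (P : Subgroup G)) : (P : Subgroup G) ⊓ Q ≤ (x • Q : Sylow p G) := fun y hy => by
  have h1 := (mem_normalizer_iff.1 (inv_mem (le_norm hn h hx)) y).1 hy
  rw [Sylow.coe_subgroup_smul, mem_pointwise_smul_iff_inv_smul_mem]
  have h2 : x⁻¹ * y * x⁻¹⁻¹ ∈ (Q : Subgroup G) := h1.2
  simpa using h2

theorem ncard_orbit (hn : Nat.card (Sylow p G) < p ^ 2) {P Q : Sylow p G} (h : P ≠ Q) :
    (MulAction.orbit (P : Subgroup G) Q).ncard = p := by
  rw [CL.SN.ncard_orbit_sylow, CL.SN.normalizer_relIndex_eq P.isPGroup', relIndex_eq hn h]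

/-- The intersection of two Sylow subgroups lies in all Sylow subgroups. -/
theorem inf_le (hn : Nat.card (Sylow p G) < p ^ 2) {P Q : Sylow p G} (h : P ≠ Q)
    (R : Sylow p G) : (P : Subgroup G) ⊓ Q ≤ R := by
  classical
  by_contra hR
  have hA : ∀ T ∈ MulAction.orbit (P : Subgroup G) Q, (P : Subgroup G) ⊓ Q ≤ T := by
    rintro _ ⟨x, rfl⟩
    exact inf_le_smul hn h x.2
  have hne : ∀ T ∈ MulAction.orbit (P : Subgroup G) Q, R ≠ T := fun T hT e => hR (e ▸ hA T hT)
  let A := (Set.toFinite (MulAction.orbit (P : Subgroup G) Q)).toFinset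
  let B := fun T : Sylow p G => (Set.toFinite (MulAction.orbit (R : Subgroup G) T)).toFinset
  have hd : (A : Set (Sylow p G)).PairwiseDisjoint B := by
    intro T hT T' hT' e
    simp only [A, Set.Finite.coe_toFinset] at hT hT'
    refine Finset.disjoint_left.2 fun U h1 h2 => ?_
    simp only [B, Set.Finite.mem_toFinset] at h1 h2
    obtain ⟨r, hr⟩ : T' ∈ MulAction.orbit (R : Subgroup G) T := by
      rw [← MulAction.orbit_eq_iff.2 h1, MulAction.orbit_eq_iff.2 h2]
      exact MulAction.mem_orbit_self _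
    have h3 : (R : Subgroup G) ⊓ T ≤ (T : Subgroup G) ⊓ T' :=
      le_inf inf_le_right (hr ▸ inf_le_smul hn (hne T hT) r.2)
    have h4 : (P : Subgroup G) ⊓ Q ≤ (T : Subgroup G) ⊓ T' := le_inf (hA T hT) (hA T' hT')
    have h5 := eq_of_le_of_card_ge h3 (Nat.eq_of_mul_eq_mul_right hp.out.pos
      ((card_inf hn e R).trans (card_inf hn (hne T hT) R).symm)).le
    exact hR ((h4.trans h5.ge).trans inf_le_left)
  have h1 := Finset.card_biUnion hd
  rw [Finset.sum_congr rfl (g := fun _ => p) fun T hT => by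
    simp only [A, Set.Finite.mem_toFinset] at hT
    rw [← Set.ncard_eq_toFinset_card, ncard_orbit hn (hne T hT)], Finset.sum_const,
    ← Set.ncard_eq_toFinset_card, ncard_orbit hn h, smul_eq_mul] at h1
  have := Fintype.ofFinite (Sylow p G)
  have h2 := Finset.card_le_univ (A.biUnion B)
  rw [h1, ← Nat.card_eq_fintype_card, ← sq] at h2
  omega

theorem card_sylow_ne_one [IsSimpleGroup G] (hG : ¬ IsMulCommutative G) (hd : p ∣ Nat.card G) :
    Nat.card (Sylow p G) ≠ 1 := fun e => by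
  obtain ⟨P⟩ : Nonempty (Sylow p G) := inferInstance
  rcases ((CL.SN.card_sylow_eq_one_iff_normal P).1 e).eq_bot_or_eq_top with a | a
  · exact absurd a (P.ne_bot_of_dvd_card hd)
  · have : IsPGroup p G := (a ▸ P.isPGroup').of_equiv topEquiv
    haveI := this.isNilpotent
    exact hG ⟨⟨IsSimpleGroup.comm_iff_isSolvable.2 inferInstance⟩⟩

/-- A simple group with fewer than `p ^ 2` Sylow `p`-subgroups has them of order `p`. -/
theorem card_eq [IsSimpleGroup G] (hG : ¬ IsMulCommutative G) (hd : p ∣ Nat.card G)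
    (hn : Nat.card (Sylow p G) < p ^ 2) (P : Sylow p G) : Nat.card P = p := by
  have h1 := card_sylow_ne_one hG hd
  obtain ⟨Q, hQ⟩ : ∃ Q, P ≠ Q := by
    by_contra! h
    exact h1 (CL.SN.card_sylow_eq_one_iff_subsingleton.2 ⟨fun a b => (h a).symm.trans (h b)⟩)
  have h2 : (P : Subgroup G) ⊓ Q ≤ (P : Subgroup G).normalCore := fun x hx g => by
    have := inf_le hn hQ (g⁻¹ • P) hx
    rw [Sylow.coe_subgroup_smul, mem_pointwise_smul_iff_inv_smul_mem] at this
    simpa using this
  rcases (normalCore_normal (P : Subgroup G)).eq_bot_or_eq_top with a | a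
  · rw [a, le_bot_iff] at h2
    rw [← card_inf hn hQ P, h2, card_bot, one_mul]
  · have h3 : (P : Subgroup G) = ⊤ := top_le_iff.1 (a ▸ normalCore_le _)
    exact absurd ((CL.SN.card_sylow_eq_one_iff_normal P).2 (h3 ▸ inferInstance)) h1

end CL.NpSq
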