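/-
A group generated by an involution `x` and the elements of odd order inverted by `x` has order
bounded in terms of the number of these elements.
-/
import Mathlib
import Cfsg.Agent.FGS.ClassSize

set_option autoImplicit false

open Subgroup CL.CS
open scoped Pointwise commutatorElement

namespace CL.OddInv

variable {X : Type*} [Group X]

/-- the bound in Dietzmann's lemma. -/
def B (k e b : ℕ) : ℕ := (b ^ k) ^ (b ^ k * (b ^ k * b ^ k) + 1) * e ^ k

theorem card_commutatorSet_le [Finite X] :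
    Nat.card (commutatorSet X) ≤ (center X).index * (center X).index := by
  let f : (X ⧸ center X) × (X ⧸ center X) → commutatorSet X := fun p => ⟨⁅p.1.out, p.2.out⁆, _, _, rfl⟩
  have hf : Function.Surjective f := by
    rintro ⟨_, a, b, rfl⟩
    obtain ⟨⟨y, hy⟩, h1⟩ := QuotientGroup.mk_out_eq_mul (center X) a
    obtain ⟨⟨z, hz⟩, h2⟩ := QuotientGroup.mk_out_eq_mul (center X) b
    refine ⟨(a, b), Subtype.ext ?_⟩
    simp only [f, h1, h2, commutatorElement_def, mul_inv_rev]
    have e1 := fun g => mem_center_iff.1 hy g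
    have e2 := fun g => mem_center_iff.1 hz g
    calc a * y * (b * z) * (y⁻¹ * a⁻¹) * (z⁻¹ * b⁻¹)
        = a * (y * (b * z)) * y⁻¹ * a⁻¹ * z⁻¹ * b⁻¹ := by group
      _ = a * b * (z * a⁻¹) * z⁻¹ * b⁻¹ := by rw [← e1]; group
      _ = a * b * a⁻¹ * b⁻¹ := by rw [← e2]; group
  simpa [index_eq_card] using Nat.card_le_card_of_surjective f hf

theorem card_le_B [Finite X] {S : Set X} (hS : closure S = ⊤) {k e b : ℕ} (hk : S.ncard ≤ k)
    (he : 0 < e) (hb : 0 < b) (h1 : ∀ s ∈ S, s ^ e = 1) (h2 : ∀ s ∈ S, 𝐂[s].index ≤ b) :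
    Nat.card X ≤ B k e b := by
  classical
  have hz : (center X).index ≤ b ^ k := by
    have := Fintype.ofFinite S
    have e1 : center X = ⨅ s : S, 𝐂[(s : X)] := by
      refine le_antisymm (le_iInf fun s => center_le_cen _) fun g hg => mem_center_iff.2 fun y => ?_
      have : closure S ≤ 𝐂[g] := (closure_le _).2 fun s hs =>
        mem_cen_comm.1 (mem_iInf.1 hg ⟨s, hs⟩)
      exact (mem_cen.1 (this (hS ▸ mem_top y))).eq
    rw [e1]
    refine (index_iInf_le _).trans ((Finset.prod_le_pow_card _ _ b fun (s : S) _ => h2 s s.2).trans ?_)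
    refine Nat.pow_le_pow_right hb ?_
    rwa [Finset.card_univ, ← Nat.card_eq_fintype_card, Nat.card_coe_set_eq]
  have hz0 : 0 < b ^ k := by positivity
  have h3 : Nat.card (_root_.commutator X) ≤ (b ^ k) ^ (b ^ k * (b ^ k * b ^ k) + 1) := by
    refine (Nat.le_of_dvd (pow_pos (Nat.pos_of_ne_zero index_ne_zero_of_finite) _)
      (card_commutator_dvd_index_center_pow X)).trans ?_
    refine (Nat.pow_le_pow_left hz _).trans (Nat.pow_le_pow_right hz0 ?_)
    exact Nat.succ_le_succ (Nat.mul_le_mul hz (card_commutatorSet_le.trans (Nat.mul_le_mul hz hz)))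
  have h4 : Nat.card (Abelianization X) ≤ e ^ k := by
    have hs : Function.Surjective (Abelianization.of (G := X)) := QuotientGroup.mk'_surjective _
    have : Finite (Abelianization X) := Finite.of_surjective _ hs
    have e1 : closure (Abelianization.of '' S) = ⊤ := by
      rw [← MonoidHom.map_closure, hS, map_top_of_surjective _ hs]
    have e2 : ∀ g : Abelianization X, g ^ e = 1 := fun g => by
      have : closure (Abelianization.of '' S) ≤ (powMonoidHom e).ker := by
        rw [closure_le]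
        rintro _ ⟨s, hs, rfl⟩
        change Abelianization.of s ^ e = 1
        rw [← map_pow, h1 s hs, map_one]
      exact this (e1 ▸ mem_top g)
    refine (Nat.le_of_dvd (by positivity) (card_dvd_exponent_pow_rank' _ e2)).trans
      (Nat.pow_le_pow_right he ?_)
    refine (Group.rank_le (S := (Set.toFinite (Abelianization.of '' S)).toFinset)
      (by simpa using e1)).trans ?_
    rw [← Set.ncard_eq_toFinset_card]
    exact (Set.ncard_image_le (Set.toFinite S)).trans hk
  rw [card_eq_card_quotient_mul_card_subgroup (_root_.commutator X), mul_comm]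
  exact Nat.mul_le_mul h3 h4

theorem card_closure_le_B [Finite X] {S : Set X} {k e b : ℕ} (hk : S.ncard ≤ k)
    (he : 0 < e) (hb : 0 < b) (h1 : ∀ s ∈ S, s ^ e = 1) (h2 : ∀ s ∈ S, 𝐂[s].index ≤ b) :
    Nat.card (closure S) ≤ B k e b := by
  refine card_le_B (closure_preimage_eq_top S) ?_ he hb (fun s hs => Subtype.ext (h1 s hs))
    fun s hs => ?_
  · exact (Set.ncard_le_ncard_of_injOn Subtype.val (fun s hs => hs) Subtype.val_injective.injOn
      (Set.toFinite S)).trans hk
  · rw [index_cen_subgroup]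
    exact (relIndex_le_of_le_right le_top (by simp [index_ne_zero_of_finite])).trans
      (by simpa using h2 s hs)

/-- the elements of odd order inverted by `x`. -/
def J (x : X) : Set X := {w | Odd (orderOf w) ∧ x * w * x⁻¹ = w⁻¹}

/-- the standing hypothesis. -/
structure Hyp (x : X) (m : ℕ) : Prop where
  sq : x * x = 1
  gen : closure (insert x (J x)) = ⊤
  card : (J x).ncard ≤ m

theorem pow_mem_J {x w : X} (h : w ∈ J x) (k : ℕ) : w ^ k ∈ J x :=
  ⟨h.1.of_dvd_nat (orderOf_pow_dvd k), by rw [← conj_pow, h.2, inv_pow]⟩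

theorem exists_sq_eq {w : X} (h : Odd (orderOf w)) : ∃ k, w ^ k * w ^ k = w := by
  obtain ⟨k, hk⟩ := h
  exact ⟨k + 1, by rw [← pow_add, show k + 1 + (k + 1) = 2 * k + 1 + 1 by ring, ← hk, pow_succ,
    pow_orderOf_eq_one, one_mul]⟩

theorem image_J [Finite X] {Y : Type*} [Group Y] {f : X →* Y} (hf : Function.Surjective f) {x : X}
    (hx : x * x = 1) : f '' J x = J (f x) := by
  have hi : x⁻¹ = x := inv_eq_of_mul_eq_one_right hx
  refine Set.Subset.antisymm ?_ fun w hw => ?_
  · rintro _ ⟨w, hw, rfl⟩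
    exact ⟨hw.1.of_dvd_nat (orderOf_map_dvd f w), by rw [← map_inv, ← map_mul, ← map_mul, hw.2, map_inv]⟩
  · obtain ⟨k, hk⟩ := exists_sq_eq hw.1
    obtain ⟨v, hv⟩ := hf (w ^ k)
    obtain ⟨u, hu⟩ : ∃ u, u = v * (x * v * x⁻¹)⁻¹ := ⟨_, rfl⟩
    have h1 : f u = w := by
      rw [hu, map_mul, map_inv, map_mul, map_mul, map_inv, hv, (pow_mem_J hw k).2, inv_inv, hk]
    have h2 : x * u * x⁻¹ = u⁻¹ := by
      rw [hu, mul_inv_rev v, inv_inv, hi]
      simp only [mul_inv_rev, hi, mul_assoc, hx, mul_one]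
    obtain ⟨a, n, hn, e⟩ := Nat.exists_eq_two_pow_mul_odd (orderOf_pos u).ne'
    have h3 : (2 ^ a).Coprime (orderOf w) := (Nat.coprime_two_left.2 hw.1).pow_left a
    obtain ⟨c, hc⟩ := Nat.exists_mul_mod_eq_of_coprime 1 h3 (by
      have := hw.1
      intro e; simp [e] at this)
    refine ⟨u ^ (2 ^ a * c), ⟨hn.of_dvd_nat (orderOf_dvd_of_pow_eq_one ?_), ?_⟩, ?_⟩
    · rw [← pow_mul, mul_right_comm, ← e, pow_mul, pow_orderOf_eq_one, one_pow]
    · rw [← conj_pow, h2, inv_pow]
    · rw [map_pow, h1, ← pow_mod_orderOf, hc.2, pow_mod_orderOf, pow_one]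

theorem Hyp.map [Finite X] {Y : Type*} [Group Y] {f : X →* Y} (hf : Function.Surjective f) {x : X}
    {m : ℕ} (h : Hyp x m) : Hyp (f x) m :=
  ⟨by rw [← map_mul, h.sq, map_one], by
    rw [← image_J hf h.sq, ← Set.image_insert_eq, ← MonoidHom.map_closure, h.gen,
      map_top_of_surjective _ hf],
    image_J hf h.sq ▸ (Set.ncard_image_le (Set.toFinite _)).trans h.card⟩

theorem conj_mem_J {x w : X} (h : w ∈ J x) : x * w * x⁻¹ ∈ J x := by
  rw [h.2]
  exact ⟨by simpa using h.1, by rw [← conj_inv, h.2]⟩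

theorem Hyp.normal [Finite X] {x : X} {m : ℕ} (h : Hyp x m) : (closure (J x)).Normal := by
  rw [← normalizer_eq_top_iff, eq_top_iff, ← h.gen, closure_le]
  rintro g (rfl | hg)
  · refine conj_smul_eq_iff_mem_normalizer.1 (eq_of_le_of_card_ge ?_ ?_)
    · rw [conj_smul_eq_map, map_le_iff_le_comap, closure_le]
      exact fun w hw => subset_closure (conj_mem_J hw)
    · rw [conj_smul_eq_map, card_map_of_injective (MulAut.conj g).injective]
  · exact le_normalizer (subset_closure hg)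

theorem Hyp.index_le [Finite X] {x : X} {m : ℕ} (h : Hyp x m) : (closure (J x)).index ≤ 2 := by
  have := h.normal
  have h1 : zpowers (x : X ⧸ closure (J x)) = ⊤ := by
    rw [eq_top_iff, ← map_top_of_surjective _ (QuotientGroup.mk'_surjective (closure (J x))), ← h.gen,
      map_le_iff_le_comap, closure_le]
    rintro g (rfl | hg)
    · exact mem_zpowers _
    · change (g : X ⧸ closure (J x)) ∈ zpowers _
      rw [(QuotientGroup.eq_one_iff g).2 (subset_closure hg)]
      exact one_mem _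
  rw [index_eq_card, ← card_top, ← h1, Nat.card_zpowers]
  exact orderOf_le_of_pow_eq_one two_pos (by rw [pow_two, ← QuotientGroup.mk_mul, h.sq]; rfl)

theorem Hyp.mul_conj_mem [Finite X] {x : X} {m : ℕ} (h : Hyp x m) (g : X) :
    x * (g * x * g⁻¹) ∈ closure (J x) := by
  have := h.normal
  have h1 : closure (insert x (J x)) ≤
      𝐂[(x : X ⧸ closure (J x))].comap (QuotientGroup.mk' (closure (J x))) := by
    rw [closure_le]
    rintro g (rfl | hg)
    · exact self_mem_cen _
    · change (g : X ⧸ closure (J x)) ∈ 𝐂[(x : X ⧸ closure (J x))]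
      rw [(QuotientGroup.eq_one_iff g).2 (subset_closure hg)]
      exact one_mem _
  have h2 : Commute (g : X ⧸ closure (J x)) x := mem_cen.1 (h1 (h.gen ▸ mem_top g))
  rw [← QuotientGroup.eq_one_iff, QuotientGroup.mk_mul, QuotientGroup.mk_mul, QuotientGroup.mk_mul,
    QuotientGroup.mk_inv, h2.eq, mul_inv_cancel_right, ← QuotientGroup.mk_mul, h.sq]
  rfl

theorem Hyp.cen_normal [Finite X] {x : X} {m : ℕ} (h : Hyp x m) : (centralizer (J x)).Normal := by
  have := h.normal
  rw [← centralizer_closure]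
  infer_instance

theorem card_mul_relIndex {A C : Subgroup X} (h : A ≤ C) : Nat.card A * A.relIndex C = Nat.card C := by
  rw [← (A.subgroupOf C).card_mul_index, Nat.card_congr (subgroupOfEquivOfLe h).toEquiv]
  rfl

theorem card_comap_mk' [Finite X] (N : Subgroup X) [N.Normal] (K : Subgroup (X ⧸ N)) :
    Nat.card (K.comap (QuotientGroup.mk' N)) = Nat.card K * Nat.card N := by
  have h1 := (K.comap (QuotientGroup.mk' N)).card_mul_index
  rw [index_comap_of_surjective _ (QuotientGroup.mk'_surjective N),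
    card_eq_card_quotient_mul_card_subgroup N, ← K.card_mul_index] at h1
  exact Nat.eq_of_mul_eq_mul_right (Nat.pos_of_ne_zero K.index_ne_zero_of_finite)
    (h1.trans (by ring))

theorem card_cen_quot [Finite X] (N : Subgroup X) [N.Normal] (x : X) :
    Nat.card 𝐂[(x : X ⧸ N)] < Nat.card 𝐂[x] ∨ (Nat.card 𝐂[(x : X ⧸ N)] = Nat.card 𝐂[x] ∧
      ∀ n ∈ N, ∃ g, g * x * g⁻¹ = n * x) := by
  obtain ⟨P, hP⟩ : ∃ P, P = 𝐂[(x : X ⧸ N)].comap (QuotientGroup.mk' N) := ⟨_, rfl⟩
  have h1 : Nat.card P = _ := hP ▸ card_comap_mk' N _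
  have h2 : 𝐂[x] ≤ P := hP ▸ map_le_iff_le_comap.1 (map_cen_le _ x)
  rw [← card_mul_relIndex h2, ← ncard_conj_subgroup] at h1
  have h3 : (Set.range fun h : P => (h : X) * x * (h : X)⁻¹) ⊆ (· * x) '' (N : Set X) := by
    rintro _ ⟨⟨g, hg⟩, rfl⟩
    refine ⟨g * x * g⁻¹ * x⁻¹, ?_, by simp⟩
    rw [hP] at hg
    have : Commute (g : X ⧸ N) x := mem_cen.1 hg
    change _ ∈ N
    rw [← QuotientGroup.eq_one_iff]
    simp [this.eq]
  have h4 : ((· * x) '' (N : Set X)).ncard = Nat.card N := by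
    rw [Set.ncard_image_of_injective _ (mul_left_injective x)]; rfl
  have h5 : 0 < Nat.card N := Nat.card_pos
  rcases (Set.ncard_le_ncard h3 (Set.toFinite _)).lt_or_eq with h | h
  · refine Or.inl (lt_of_mul_lt_mul_right ?_ h5.le)
    rw [← h1, ← h4]
    exact Nat.mul_lt_mul_of_pos_left h Nat.card_pos
  · refine Or.inr ⟨(Nat.eq_of_mul_eq_mul_right h5 (by rw [← h1, h, h4])), fun n hn => ?_⟩
    obtain ⟨g, hg⟩ : n * x ∈ Set.range fun h : P => (h : X) * x * (h : X)⁻¹ := by
      rw [Set.eq_of_subset_of_ncard_le h3 h.ge (Set.toFinite _)]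
      exact ⟨n, hn, rfl⟩
    exact ⟨g, hg⟩

theorem ncard_conj_le [Finite X] (y z : X) : {g | g * y * g⁻¹ = z}.ncard ≤ Nat.card 𝐂[y] := by
  rcases Set.eq_empty_or_nonempty {g | g * y * g⁻¹ = z} with h | ⟨g₀, h⟩
  · simp [h]
  · refine Set.ncard_le_ncard_of_injOn (t := (𝐂[y] : Set X)) (g₀⁻¹ * ·) (fun g hg => mem_cen.2 ?_)
      (mul_right_injective _).injOn (Set.toFinite _)
    have h1 : g * y * g⁻¹ = g₀ * y * g₀⁻¹ := hg.trans (Eq.symm h)
    change g₀⁻¹ * g * y = y * (g₀⁻¹ * g)
    calc g₀⁻¹ * g * y = g₀⁻¹ * (g * y * g⁻¹) * g := by group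
      _ = y * (g₀⁻¹ * g) := by rw [h1]; group

theorem Hyp.count [Finite X] {x : X} {m c : ℕ} (h : Hyp x m) (hc : Nat.card 𝐂[x] ≤ c) :
    Nat.card X ≤ 2 * (m * c) ∨
      ∃ t ∈ closure (J x), t * t = 1 ∧ t ≠ 1 ∧ 𝐂[t].index ≤ 2 * (c * c) := by
  classical
  have := Fintype.ofFinite X
  by_contra hn
  push Not at hn
  obtain ⟨h0, hn⟩ := hn
  have hi : x⁻¹ = x := inv_eq_of_mul_eq_one_right h.sq
  obtain ⟨q, hq⟩ : ∃ q, q = Nat.card X / (2 * (c * c)) := ⟨_, rfl⟩
  have hc0 : 0 < c := lt_of_lt_of_le Nat.card_pos hc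
  let T : Finset X := Finset.univ.filter fun t => t ∈ 𝐂[x] ∧ Nat.card 𝐂[t] ≤ q
  let C : Finset X := Finset.univ.filter fun t => t ∈ 𝐂[x]
  have hC : C.card ≤ c := by
    refine le_trans (le_of_eq ?_) hc
    rw [Nat.card_eq_fintype_card, Fintype.card_subtype]
  have hT : T.card ≤ c := (Finset.card_le_card fun t ht => by
    simp only [T, C, Finset.mem_filter] at ht ⊢
    exact ⟨ht.1, ht.2.1⟩).trans hC
  have hJ : (J x).toFinset.card ≤ m := by
    rw [← Set.ncard_eq_toFinset_card']; exact h.card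
  have hsub : (Finset.univ : Finset X) ⊆
      ((J x).toFinset.biUnion fun j => {g | g * x * g⁻¹ = x * j}.toFinset) ∪
        (T ×ˢ C).biUnion fun p => ({g | g * p.1 * g⁻¹ = p.2}.toFinset).image (·⁻¹) := by
    intro g _
    obtain ⟨w, hw⟩ : ∃ w, w = x * (g * x * g⁻¹) := ⟨_, rfl⟩
    have h1 : x * w * x⁻¹ = w⁻¹ := by
      rw [hw, ← mul_assoc, h.sq, one_mul, mul_inv_rev, conj_inv, hi]
    rcases Nat.even_or_odd (orderOf w) with ⟨k, hk⟩ | ho
    · have hk0 : 0 < k := by have := orderOf_pos w; omega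
      have h2 : w ^ k * w ^ k = 1 := by rw [← pow_add, ← hk, pow_orderOf_eq_one]
      have h3 : w ^ k ≠ 1 := pow_ne_one_of_lt_orderOf hk0.ne' (by omega)
      have h4 : Commute x (w ^ k) := by
        rw [Commute, SemiconjBy, ← mul_inv_eq_iff_eq_mul, ← conj_pow, h1, inv_pow,
          inv_eq_of_mul_eq_one_right h2]
      have h5 : Commute (g * x * g⁻¹) (w ^ k) := by
        have : g * x * g⁻¹ = x * w := by rw [hw, ← mul_assoc x x, h.sq, one_mul]
        rw [this]
        exact h4.mul_left (Commute.self_pow w k)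
      have h6 := hn _ (pow_mem (hw ▸ h.mul_conj_mem g) k) h2 h3
      refine Finset.mem_union_right _ (Finset.mem_biUnion.2 ⟨(w ^ k, g⁻¹ * w ^ k * g), ?_, ?_⟩)
      · simp only [T, C, Finset.mem_product, Finset.mem_filter, Finset.mem_univ, true_and]
        refine ⟨⟨mem_cen'.2 h4, ?_⟩, mem_cen'.2 ?_⟩
        · rw [hq, Nat.le_div_iff_mul_le (by positivity), ← 𝐂[w ^ k].card_mul_index]
          exact Nat.mul_le_mul_left _ h6.le
        · change x * (g⁻¹ * w ^ k * g) = g⁻¹ * w ^ k * g * x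
          calc x * (g⁻¹ * w ^ k * g) = g⁻¹ * (g * x * g⁻¹ * w ^ k) * g := by group
            _ = g⁻¹ * w ^ k * g * x := by rw [h5.eq]; group
      · exact Finset.mem_image.2 ⟨g⁻¹, by simp, inv_inv g⟩
    · refine Finset.mem_union_left _ (Finset.mem_biUnion.2 ⟨w, by simpa using ⟨ho, h1⟩, ?_⟩)
      simp only [Set.mem_toFinset, Set.mem_ofPred_eq]
      rw [hw, ← mul_assoc x x, h.sq, one_mul]
  have h1 := (Finset.card_le_card hsub).trans (Finset.card_union_le _ _)
  have h2 : ((J x).toFinset.biUnion fun j => {g | g * x * g⁻¹ = x * j}.toFinset).card ≤ m * c :=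
    (Finset.card_biUnion_le_card_mul _ _ c fun j _ => by
      rw [← Set.ncard_eq_toFinset_card']
      exact (ncard_conj_le _ _).trans hc).trans (Nat.mul_le_mul_right _ hJ)
  have h3 : ((T ×ˢ C).biUnion fun p => ({g | g * p.1 * g⁻¹ = p.2}.toFinset).image (·⁻¹)).card ≤
      c * c * q :=
    (Finset.card_biUnion_le_card_mul _ _ q fun p hp => by
      refine Finset.card_image_le.trans ?_
      rw [← Set.ncard_eq_toFinset_card']
      exact (ncard_conj_le _ _).trans (Finset.mem_filter.1 (Finset.mem_product.1 hp).1).2.2).trans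
      (Nat.mul_le_mul_right _ (by rw [Finset.card_product]; exact Nat.mul_le_mul hT hC))
  have h4 : 2 * (c * c) * q ≤ Nat.card X := hq ▸ Nat.mul_div_le _ _
  rw [Finset.card_univ, ← Nat.card_eq_fintype_card] at h1
  nlinarith

theorem Hyp.card_le [Finite X] {x : X} {m b : ℕ} (h : Hyp x m) (hb : (centralizer (J x)).index ≤ b) :
    Nat.card X ≤ B m m.factorial b * 2 := by
  rw [← (closure (J x)).card_mul_index]
  refine Nat.mul_le_mul (card_closure_le_B h.card m.factorial_pos
    (lt_of_lt_of_le (Nat.pos_of_ne_zero index_ne_zero_of_finite) hb) (fun s hs => ?_) fun s hs => ?_)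
    h.index_le
  · refine orderOf_dvd_iff_pow_eq_one.1 (Nat.dvd_factorial (orderOf_pos s) (le_trans ?_ h.card))
    rw [← Nat.card_zpowers]
    refine Set.ncard_le_ncard (s := (zpowers s : Set X)) (fun y hy => ?_) (Set.toFinite _)
    obtain ⟨k, rfl⟩ := mem_powers_iff_mem_zpowers.2 hy
    exact pow_mem_J hs k
  · exact (Nat.le_of_dvd (Nat.pos_of_ne_zero index_ne_zero_of_finite)
      (index_dvd_of_le (centralizer_le (Set.singleton_subset_iff.2 hs)))).trans hb

theorem Hyp.no_central [Finite X] {x : X} {m : ℕ} (h : Hyp x m) [(centralizer (J x)).Normal]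
    {t : X ⧸ centralizer (J x)} (ht : t ∈ closure (J (x : X ⧸ centralizer (J x)))) (h2 : t * t = 1)
    (hc : ∀ j ∈ J (x : X ⧸ centralizer (J x)), Commute t j) : t = 1 := by
  have e := image_J (QuotientGroup.mk'_surjective (centralizer (J x))) h.sq
  rw [QuotientGroup.mk'_apply] at e
  rw [← e, ← MonoidHom.map_closure] at ht
  obtain ⟨g, hg, rfl⟩ := ht
  refine (QuotientGroup.eq_one_iff g).2 fun j hj => ?_
  have h3 : g * g ∈ centralizer (J x) := (QuotientGroup.eq_one_iff _).1 h2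
  obtain ⟨z, hz⟩ : ∃ z, z = g * j * g⁻¹ * j⁻¹ := ⟨_, rfl⟩
  have h4 : z ∈ centralizer (J x) := by
    rw [← QuotientGroup.eq_one_iff, hz]
    have : Commute (g : X ⧸ centralizer (J x)) j := hc _ (e ▸ ⟨j, hj, rfl⟩)
    simp [this.eq]
  have h5 : g * z = z * g := (centralizer_closure (J x) ▸ h4 : z ∈ centralizer (closure (J x) : Set X)) g hg
  have h6 : g * j * g⁻¹ = z * j := by rw [hz]; group
  have h7 : z * z = 1 := by
    have : g * (g * j * g⁻¹) * g⁻¹ = j := by
      calc g * (g * j * g⁻¹) * g⁻¹ = (g * g * j) * (g * g)⁻¹ := by group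
        _ = j := by rw [← h3 j hj]; group
    rw [h6, ← mul_assoc, h5, mul_assoc z, mul_assoc z, h6, ← mul_assoc] at this
    exact mul_eq_right.1 this
  have h8 : z ^ orderOf j = 1 := by
    have : (z * j) ^ orderOf j = 1 := by rw [← h6, conj_pow, pow_orderOf_eq_one]; simp
    rwa [Commute.mul_pow (h4 j hj).symm, pow_orderOf_eq_one, mul_one] at this
  have h9 : z = 1 := orderOf_eq_one_iff.1 (Nat.eq_one_of_dvd_coprimes (Nat.coprime_two_left.2 hj.1)
    (orderOf_dvd_of_pow_eq_one (by rw [pow_two, h7])) (orderOf_dvd_of_pow_eq_one h8))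
  rw [h9, one_mul] at h6
  rw [← mul_inv_eq_iff_eq_mul.1 h6]

theorem exists_bound (m c : ℕ) : ∃ b, ∀ (X : Type) [Group X] [Finite X] (x : X), Hyp x m →
    Nat.card 𝐂[x] ≤ c → Nat.card X ≤ b := by
  induction c with
  | zero => exact ⟨0, fun X _ _ x _ h => absurd h (not_le.2 Nat.card_pos)⟩
  | succ c ih =>
  obtain ⟨b, hb⟩ := ih
  obtain ⟨d, hd⟩ : ∃ d, d = 2 * ((c + 1) * (c + 1)) := ⟨_, rfl⟩
  have key : ∀ (X : Type) [Group X] [Finite X] (x : X), Hyp x m → Nat.card 𝐂[x] ≤ c + 1 →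
      (∀ t ∈ closure (J x), t * t = 1 → (∀ j ∈ J x, Commute t j) → t = 1) →
      Nat.card X ≤ 2 * (m * (c + 1)) + b * B d 2 d := fun X _ _ x h hc hno => by
    rcases h.count hc with h1 | ⟨t, ht, h2, h3, h4⟩
    · omega
    rw [← hd] at h4
    have hi : x⁻¹ = x := inv_eq_of_mul_eq_one_right h.sq
    have h5 : Nat.card (normalClosure {t}) ≤ B d 2 d := by
      refine card_closure_le_B ?_ two_pos (by rw [hd]; positivity) (fun s hs => ?_) fun s hs => ?_
      · refine le_trans (le_of_eq ?_) h4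
        rw [← card_carrier_eq_index, Nat.card_coe_set_eq]
        congr 1
        ext s
        rw [Group.mem_conjugatesOfSet_iff, ConjClasses.mem_carrier_iff_mk_eq,
          ConjClasses.mk_eq_mk_iff_isConj]
        exact ⟨fun ⟨_, h, h'⟩ => (h ▸ h').symm, fun h => ⟨t, rfl, h.symm⟩⟩
      · obtain ⟨_, rfl, g, rfl⟩ := by simpa only [Group.mem_conjugatesOfSet_iff, isConj_iff] using hs
        rw [conj_pow, pow_two, h2]; simp
      · obtain ⟨_, rfl, hs'⟩ := Group.mem_conjugatesOfSet_iff.1 hs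
        rwa [← index_cen_of_isConj hs']
    rcases card_cen_quot (normalClosure {t}) x with h6 | ⟨-, h6⟩
    · have := hb _ _ (h.map (QuotientGroup.mk'_surjective (normalClosure {t})))
        (by rw [QuotientGroup.mk'_apply]; omega)
      rw [card_eq_card_quotient_mul_card_subgroup (normalClosure {t})]
      exact (Nat.mul_le_mul this h5).trans (Nat.le_add_left _ _)
    · have h7 : ∀ g, Commute x (g * t * g⁻¹) := fun g => by
        obtain ⟨k, hk⟩ := h6 _ (Normal.conj_mem inferInstance t (subset_normalClosure (Set.mem_singleton t)) g)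
        have e1 : g * t * g⁻¹ * x * (g * t * g⁻¹ * x) = 1 := by
          rw [← hk, conj_mul, h.sq]; simp
        have e2 : (g * t * g⁻¹)⁻¹ = g * t * g⁻¹ := by rw [conj_inv, inv_eq_of_mul_eq_one_right h2]
        have e3 := inv_eq_of_mul_eq_one_right e1
        rw [mul_inv_rev, hi, e2] at e3
        exact e3
      refine (h3 (hno t ht h2 fun j hj => ?_)).elim
      obtain ⟨k, hk⟩ := exists_sq_eq hj.1
      have e1 : j = (j ^ k * x * (j ^ k)⁻¹) * x := by
        have := (pow_mem_J hj k).2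
        calc j = j ^ k * (x * j ^ k * x⁻¹)⁻¹ := by rw [this, inv_inv, hk]
          _ = _ := by rw [mul_inv_rev, mul_inv_rev, inv_inv, hi]; group
      have e2 : Commute t x := by simpa using (h7 1).symm
      have e3 : Commute t (j ^ k * x * (j ^ k)⁻¹) := by
        have := (h7 (j ^ k)⁻¹).eq
        change t * _ = _ * t
        calc t * (j ^ k * x * (j ^ k)⁻¹) = j ^ k * ((j ^ k)⁻¹ * t * (j ^ k)⁻¹⁻¹ * x) * (j ^ k)⁻¹ := by group
          _ = _ := by rw [← this]; group
      rw [e1]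
      exact e3.mul_right e2
  refine ⟨_, fun X _ _ x h hc => h.card_le (b := 2 * (m * (c + 1)) + b * B d 2 d) ?_⟩
  have := h.cen_normal
  refine key _ (x : X ⧸ centralizer (J x)) (h.map (QuotientGroup.mk'_surjective _)) ?_
    fun t => h.no_central
  rcases card_cen_quot (centralizer (J x)) x with h1 | h1
  · omega
  · omega

theorem Hyp.card_cen_le [Finite X] {x : X} {m : ℕ} (h : Hyp x m) [(centralizer (J x)).Normal] :
    Nat.card 𝐂[(x : X ⧸ centralizer (J x))] ≤ m ^ m := by
  have h1 : ∀ g : 𝐂[(x : X ⧸ centralizer (J x))], ∀ j ∈ J x, g.1.out⁻¹ * j * g.1.out ∈ J x := by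
    intro g j hj
    obtain ⟨a, ha⟩ : ∃ a, a = g.1.out := ⟨_, rfl⟩
    have e1 : Commute (a : X ⧸ centralizer (J x)) x := by
      rw [ha, QuotientGroup.out_eq']; exact mem_cen.1 g.2
    have e2 : x⁻¹ * (a * x * a⁻¹) ∈ centralizer (J x) := by
      rw [← QuotientGroup.eq_one_iff]; simp [e1.eq]
    rw [← ha]
    have e0 : orderOf (a⁻¹ * j * a) = orderOf j := by simpa using (MulAut.conj a⁻¹).orderOf_eq j
    refine ⟨e0 ▸ hj.1, ?_⟩
    have e3 := e2 j hj
    calc x * (a⁻¹ * j * a) * x⁻¹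
        = a⁻¹ * x * (x⁻¹ * (a * x * a⁻¹) * j) * (x⁻¹ * (a * x * a⁻¹))⁻¹ * x⁻¹ * a := by group
      _ = a⁻¹ * (x * j * x⁻¹) * a := by rw [← e3]; group
      _ = _ := by rw [hj.2]; group
  let φ : 𝐂[(x : X ⧸ centralizer (J x))] → (J x → J x) := fun g j => ⟨_, h1 g j j.2⟩
  have hφ : Function.Injective φ := fun g g' e => by
    refine Subtype.ext ?_
    rw [← g.1.out_eq', ← g'.1.out_eq', ← mul_inv_eq_one, ← QuotientGroup.mk_inv,
      ← QuotientGroup.mk_mul, QuotientGroup.eq_one_iff]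
    intro j hj
    have : g.1.out⁻¹ * j * g.1.out = g'.1.out⁻¹ * j * g'.1.out :=
      congrArg Subtype.val (congrFun e ⟨j, hj⟩)
    calc j * (g.1.out * g'.1.out⁻¹) = g.1.out * (g.1.out⁻¹ * j * g.1.out) * g'.1.out⁻¹ := by group
      _ = _ := by rw [this]; group
  have h2 : Nat.card (J x) ≤ m := h.card
  have h3 : 0 < Nat.card (J x) := by
    have : Nonempty (J x) := ⟨⟨1, by simp [J]⟩⟩
    exact Nat.card_pos
  refine (Nat.card_le_card_of_injective φ hφ).trans ?_
  rw [Nat.card_fun]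
  exact (Nat.pow_le_pow_left h2 _).trans (Nat.pow_le_pow_right (by omega) h2)

theorem exists_bound' (m : ℕ) : ∃ b, ∀ (X : Type) [Group X] [Finite X] (x : X), Hyp x m →
    Nat.card X ≤ b := by
  obtain ⟨b, hb⟩ := exists_bound m (m ^ m)
  refine ⟨_, fun X _ _ x h => h.card_le (b := b) ?_⟩
  have := h.cen_normal
  exact hb _ (x : X ⧸ centralizer (J x)) (h.map (QuotientGroup.mk'_surjective _)) h.card_cen_le

end CL.OddInv
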