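import Cfsg.Agent.FGS.PiHomog2
import Cfsg.Agent.SOLV.OddOrderCor
import Cfsg.Agent.SOLV.Hall
import Cfsg.Agent.TECH.SylIn
import Cfsg.Agent.S0877

/-!
`π`-homogeneous `D_π`-groups with `π'`-closed proper subgroups.
-/

set_option autoImplicit false
open Cfsg Subgroup CL.MSS
open scoped Pointwise

namespace CL.PiHom

universe u v

variable {G : Type u} {X : Type v} [Group G] [Group X] {π : Set ℕ}

/-- Every `π`-subgroup lies in a Hall `π`-subgroup. -/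
def DD (π : Set ℕ) (G : Type u) [Group G] : Prop :=
  ∀ U : Subgroup G, IsPiNum π (Nat.card U) → ∃ H, IsPiHall π H ∧ U ≤ H

/-- The Hall `π`-subgroups are conjugate. -/
def CC (π : Set ℕ) (G : Type u) [Group G] : Prop :=
  ∀ H K : Subgroup G, IsPiHall π H → IsPiHall π K → ∃ g : G, g •ᶜ H = K

variable [Finite G]

omit [Finite G] in
theorem isPiHall_cj {H : Subgroup G} (h : IsPiHall π H) (g : G) : IsPiHall π (g •ᶜ H) :=
  IsPiHall.map h (MulAut.conj g).surjective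

theorem hall_of_maximal (h : IsDPiGroup π G) {H : Subgroup G} (hH : Maximal (IsPiSubgroup π) H) :
    IsPiHall π H := by
  refine ⟨hH.1, fun p hp hπ hd => ?_⟩
  have := Fact.mk hp
  obtain ⟨P⟩ : Nonempty (Sylow p G) := inferInstance
  obtain ⟨K, hPK, hK⟩ := Finite.exists_le_maximal (p := IsPiSubgroup π) (a := (P : Subgroup G))
    (IsPiNum.of_isPGroup P.2 hπ)
  obtain ⟨g, hg⟩ := h H K hH hK
  refine P.not_dvd_index (dvd_trans ?_ (index_dvd_of_le hPK))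
  rwa [hg, index_cj]

theorem dd_of_isDPi (h : IsDPiGroup π G) : DD π G := fun U hU =>
  let ⟨K, hUK, hK⟩ := Finite.exists_le_maximal (p := IsPiSubgroup π) (a := U) hU
  ⟨K, hall_of_maximal h hK, hUK⟩

omit [Finite G] in
theorem cc_of_isDPi (h : IsDPiGroup π G) : CC π G := by
  have key : ∀ H : Subgroup G, IsPiHall π H → Maximal (IsPiSubgroup π) H := fun H hH =>
    ⟨hH.1, fun K hK hle => (IsPiHallOf.eq_of_le (isPiHallOf_top.2 hH) hle le_top hK).ge⟩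
  intro H K hH hK
  obtain ⟨g, hg⟩ := h H K (key H hH) (key K hK)
  exact ⟨g, hg.symm⟩

theorem DD.normal (h : DD π G) (N : Subgroup G) [N.Normal] : DD π N := by
  intro U hU
  obtain ⟨H, hH, hle⟩ := h (U.map N.subtype) (by rwa [card_map_of_injective N.subtype_injective])
  exact ⟨H.subgroupOf N, IsPiHall.subgroupOf_normal hH N, fun x hx => hle ⟨x, hx, rfl⟩⟩

theorem DD.of_surjective (h : DD π G) (f : G →* X) (hf : Function.Surjective f)
    (hk : IsPiSeparable π f.ker) : DD π X := by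
  intro U hU
  obtain ⟨Y, hY, rfl⟩ := exists_lift f hf hk hU
  obtain ⟨H, hH, hle⟩ := h Y hY
  exact ⟨H.map f, IsPiHall.map hH hf, map_mono hle⟩

theorem CC.of_surjective (h : CC π G) (hD : DD π G) (f : G →* X) (hf : Function.Surjective f)
    (hk : IsPiSeparable π f.ker) : CC π X := by
  have : Finite X := Finite.of_surjective f hf
  have key : ∀ K : Subgroup X, IsPiHall π K → ∃ H, IsPiHall π H ∧ H.map f = K := by
    intro K hK
    obtain ⟨Y, hY, rfl⟩ := exists_lift f hf hk hK.1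
    obtain ⟨H, hH, hle⟩ := hD Y hY
    exact ⟨H, hH, (IsPiHallOf.eq_of_le (isPiHallOf_top.2 hK) (map_mono hle) le_top
      (IsPiHall.map hH hf).1).symm⟩
  intro K K' hK hK'
  obtain ⟨H, hH, rfl⟩ := key K hK
  obtain ⟨H', hH', rfl⟩ := key K' hK'
  obtain ⟨g, rfl⟩ := h H H' hH hH'
  refine ⟨f g, ?_⟩
  rw [map_map, map_map]
  congr 1
  ext x
  simp

section loc

variable {M : Subgroup G}

theorem Cl.exists_hall (h : Cl πᶜ M) {U : Subgroup G} (hU : IsPiNum π (Nat.card U)) (hUM : U ≤ M) :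
    ∃ L, IsPiHallOf π L M ∧ U ≤ L := by
  obtain ⟨L, hL, hle⟩ := h.sep'.exists_isPiHall_ge' (K := U.subgroupOf M)
    (by rwa [card_subgroupOf_of_le hUM])
  exact ⟨L.map M.subtype, isPiHallOf_map_subtype_iff.2 hL, fun x hx => ⟨⟨x, hUM hx⟩, hle hx, rfl⟩⟩

theorem Cl.decomp (h : Cl πᶜ M) {L : Subgroup G} (hL : IsPiHallOf π L M) {m : G} (hm : m ∈ M) :
    ∃ o ∈ M, ∃ l ∈ L, IsPiNum πᶜ (orderOf o) ∧ o * l = m := by
  obtain ⟨K, hK⟩ := h
  obtain ⟨h1, -, h3⟩ := Cfsg.Agent.S4050.closed_aux hK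
  have hi : IsPiNum π K.index := fun p hp hd => by
    by_contra hπ
    have := Fact.mk hp
    obtain ⟨P⟩ : Nonempty (Sylow p M) := inferInstance
    exact P.not_dvd_index (hd.trans (index_dvd_of_le (h3 p P hp hπ P.isPGroup')))
  have h4 := IsPiHall.sup_eq_top (IsPiHallOf.subgroupOf hL) hi
  obtain ⟨o, ho, l, hl, e⟩ := mem_sup_of_normal_left.1
    (show (⟨m, hm⟩ : M) ∈ K ⊔ L.subgroupOf M by rw [sup_comm, h4]; trivial)
  exact ⟨o, o.2, l, hl, by rw [orderOf_coe]; exact (hK o).1 ho, congrArg Subtype.val e⟩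

theorem Cl.exists_cj (h : Cl πᶜ M) {L L' : Subgroup G} (hL : IsPiHallOf π L M)
    (hL' : IsPiHallOf π L' M) : ∃ o ∈ M, IsPiNum πᶜ (orderOf o) ∧ o •ᶜ L = L' := by
  obtain ⟨g, hg⟩ := h.sep'.exists_conj_eq' (IsPiHallOf.subgroupOf hL) (IsPiHallOf.subgroupOf hL')
  obtain ⟨o, ho, l, hl, h1, e⟩ := h.decomp hL g.2
  refine ⟨o, ho, h1, ?_⟩
  rw [← cj_eq_of_mem hl, ← cj_mul, e]
  refine eq_of_le_of_card_ge ?_ (by rw [card_cj, IsPiHallOf.card_eq hL hL'])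
  rintro _ ⟨x, hx, rfl⟩
  have : g * ⟨x, hL.1 hx⟩ * g⁻¹ ∈ L'.subgroupOf M := hg ▸ ⟨⟨x, hL.1 hx⟩, hx, rfl⟩
  exact this

theorem Cl.eq_of_conj (h : Cl πᶜ M) {U : Subgroup G} (hU : IsPiNum π (Nat.card U)) (hUM : U ≤ M)
    {a o : G} (ha : a ∈ U) (ho : o ∈ M) (ho' : IsPiNum πᶜ (orderOf o)) (hb : o * a * o⁻¹ ∈ U) :
    o * a * o⁻¹ = a := by
  obtain ⟨K, hK⟩ := h
  obtain ⟨h1, -, -⟩ := Cfsg.Agent.S4050.closed_aux hK
  have h2 : (⟨o, ho⟩ : M) ∈ K := (hK _).2 (by rwa [orderOf_mk])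
  have h3 := (hK _).1 (K.mul_mem h2 (h1.conj_mem _ (K.inv_mem h2) ⟨a, hUM ha⟩))
  rw [← orderOf_coe] at h3
  have h4 : o * (a * o⁻¹ * a⁻¹) ∈ U := by
    have := U.mul_mem hb (U.inv_mem ha)
    simpa only [mul_assoc] using this
  have h5 := (hU.of_dvd (U.orderOf_dvd_natCard h4)).eq_one h3
  rw [orderOf_eq_one_iff] at h5
  rw [← mul_inv_eq_one, ← h5]
  simp only [mul_assoc]

theorem Cl.hallOf_inf (h : Cl πᶜ M) (hD : DD π G) {E H : Subgroup G} (hH : IsPiHall π H)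
    (hEH : E ≤ H) (hEM : E ≤ M)
    (hc : ∀ H', IsPiHall π H' → E ≤ H' → ∃ k ∈ M, k •ᶜ H = H') : IsPiHallOf π (H ⊓ M) M := by
  obtain ⟨L, hL, hle⟩ := h.exists_hall (U := H ⊓ M)
    (IsPiNum.of_dvd hH.1 (card_dvd_of_le inf_le_left)) inf_le_right
  obtain ⟨H', hH', hle'⟩ := hD L hL.2.1
  obtain ⟨k, hk, rfl⟩ := hc H' hH' ((le_inf hEH hEM).trans (hle.trans hle'))
  have h1 : L ≤ k •ᶜ (H ⊓ M) := by rw [cj_inf, cj_eq_of_mem hk]; exact le_inf hle' hL.1
  rwa [eq_of_le_of_card_ge hle ((card_le_of_le h1).trans (card_cj _ _).le)]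

end loc

theorem exists_cj_centralizer (hH : Hom π G) (hD : DD π G) (hC : CC π G) {p : ℕ}
    [hp : Fact p.Prime] (hπ : p ∈ π)
    (hloc : ∀ E : Subgroup G, E ≠ ⊥ → IsPGroup p E → Cl πᶜ (normalizer (E : Set G)))
    (E : Subgroup G) : E ≠ ⊥ → IsPGroup p E → ∀ H₁ H₂, IsPiHall π H₁ → IsPiHall π H₂ → E ≤ H₁ →
      E ≤ H₂ → ∃ c ∈ centralizer (E : Set G), c •ᶜ H₁ = H₂ := by
  induction E using WellFoundedGT.induction with
  | ind E ih =>
  intro hE0 hE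
  have hM := hloc E hE0 hE
  have hEπ := IsPiNum.of_isPGroup hE hπ
  have hsyl : ∀ H, IsPiHall π H → SylIn p E H → ∀ H', IsPiHall π H' → E ≤ H' →
      ∃ k ∈ normalizer (E : Set G), k •ᶜ H = H' := by
    intro H h1 hS H' h2 hle
    obtain ⟨g, rfl⟩ := hC H H' h1 h2
    obtain ⟨x, hx, e⟩ := hS.exists_conj (hS.of_card_le (R := g⁻¹ •ᶜ E) (hE.map _)
      (le_cj_iff.1 hle) (card_cj _ _).ge)
    refine ⟨g * x, mem_normalizer_of_cj_le ?_, by rw [cj_mul, cj_eq_of_mem hx]⟩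
    rw [cj_mul, e, cj_inv_cj]
  have key : ∀ H H', IsPiHall π H → IsPiHall π H' → E ≤ H → H ⊓ normalizer (E : Set G) ≤ H' →
      ∃ c ∈ centralizer (E : Set G), c •ᶜ H = H' := by
    intro H H' h1 h2 hle hle'
    obtain ⟨P, hP, hEP⟩ := exists_sylIn_ge hE (le_inf hle le_normalizer)
    rcases hEP.eq_or_lt with rfl | hlt
    · have hS := hP.of_normalizer
      obtain ⟨k, hk, e⟩ := hsyl H h1 hS H' h2 ((le_inf hle le_normalizer).trans hle')
      obtain ⟨o, ho, l, hl, ho', rfl⟩ :=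
        hM.decomp (hM.hallOf_inf hD h1 hle le_normalizer (hsyl H h1 hS)) hk
      exact ⟨o, hH E hEπ o ho ho', by rwa [cj_mul, cj_eq_of_mem hl.1] at e⟩
    · obtain ⟨c, hc, e⟩ := ih P hlt (fun h => hE0 (le_bot_iff.1 (h ▸ hEP))) hP.2 H H' h1 h2
        (hP.1.trans inf_le_left) (hP.1.trans hle')
      exact ⟨c, centralizer_le hEP hc, e⟩
  intro H₁ H₂ h1 h2 hle1 hle2
  obtain ⟨L₁, hL₁, l1⟩ := hM.exists_hall (U := H₁ ⊓ normalizer (E : Set G))
    (IsPiNum.of_dvd h1.1 (card_dvd_of_le inf_le_left)) inf_le_right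
  obtain ⟨L₂, hL₂, l2⟩ := hM.exists_hall (U := H₂ ⊓ normalizer (E : Set G))
    (IsPiNum.of_dvd h2.1 (card_dvd_of_le inf_le_left)) inf_le_right
  obtain ⟨o, ho, ho', rfl⟩ := hM.exists_cj hL₁ hL₂
  obtain ⟨H₃, h3, l3⟩ := hD L₁ hL₁.2.1
  obtain ⟨c, hc, rfl⟩ := key H₁ H₃ h1 h3 hle1 (l1.trans l3)
  obtain ⟨c', hc', e⟩ := key H₂ _ h2 (isPiHall_cj h3 o) hle2 (l2.trans (cj_mono o l3))
  refine ⟨c'⁻¹ * (o * c), mul_mem (inv_mem hc') (mul_mem (hH E hEπ o ho ho') hc), ?_⟩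
  rw [cj_mul, cj_mul, ← e, inv_cj_cj]

theorem sep_of_dd [IsSimpleGroup G] (hG : ¬ IsMulCommutative G) (hH : Hom π G) (hD : DD π G)
    (hC : CC π G) (hloc : ∀ M : Subgroup G, M ≠ ⊤ → Cl πᶜ M) : IsPiSeparable π G := by
  obtain ⟨H, h1, -⟩ := hD ⊥ (by rw [card_bot]; exact IsPiNum.one π)
  by_cases hb : H = ⊥
  · refine isPiSeparable_of_isPiNum_compl ?_
    have := (isPiHall_iff.1 h1).2
    rwa [hb, index_bot] at this
  by_cases ht : H = ⊤
  · refine isPiSeparable_of_isPiNum ?_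
    have := (isPiHall_iff.1 h1).1
    rwa [ht, card_top] at this
  exfalso
  obtain ⟨K, hK, h2, h3⟩ := Cfsg.Agent.S0877.result H (IsPiHall.coprime h1) (by
    intro x hx y hy hxy
    obtain ⟨g, rfl⟩ := isConj_iff.1 hxy
    by_cases hx1 : x = 1
    · exact ⟨1, one_mem _, by simp [hx1]⟩
    obtain ⟨p, hp, hd⟩ := Nat.exists_prime_and_dvd (mt orderOf_eq_one_iff.1 hx1)
    have := Fact.mk hp
    have hπ : p ∈ π := h1.1 p hp (hd.trans (H.orderOf_dvd_natCard hx))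
    have he : orderOf (x ^ (orderOf x / p)) = p := orderOf_pow_orderOf_div (orderOf_pos x).ne' hd
    set e := x ^ (orderOf x / p) with he'
    have hE : IsPGroup p (zpowers e) := IsPGroup.of_card (n := 1) (by
      rw [Nat.card_zpowers, he, pow_one])
    have hE0 : zpowers e ≠ ⊥ := by
      rw [Ne, zpowers_eq_bot]
      rintro h
      rw [h, orderOf_one] at he
      exact hp.ne_one he.symm
    have hT := exists_cj_centralizer hH hD hC hπ (fun E h0 hE => hloc _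
      (Small.normalizer_ne_top h0 (Small.ne_top_of_isPGroup hG hE))) _ hE0 hE
    have hEH : zpowers e ≤ H := zpowers_le.2 (H.pow_mem hx _)
    have hxC : x ∈ centralizer (zpowers e : Set G) := by
      rintro _ ⟨i, rfl⟩
      exact (((Commute.refl x).pow_left _).zpow_left i).eq
    have hEC : zpowers e ≤ centralizer (zpowers e : Set G) := le_centralizer _
    have hCl : Cl πᶜ (centralizer (zpowers e : Set G)) := hloc _ fun h =>
      Small.normalizer_ne_top hE0 (Small.ne_top_of_isPGroup hG hE)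
        (top_le_iff.1 (h ▸ centralizer_le_normalizer _))
    obtain ⟨c, hc, e1⟩ := hT H (g⁻¹ •ᶜ H) h1 (isPiHall_cj h1 _) hEH
      (zpowers_le.2 (pow_mem (mem_cj.2 (by rwa [inv_inv])) _))
    have hgc : g * c ∈ normalizer (H : Set G) :=
      mem_normalizer_of_cj_le (by rw [cj_mul, e1, cj_inv_cj])
    obtain ⟨o, ho, h, hh, ho', e2⟩ := (hloc _ (Small.normalizer_ne_top hb ht)).decomp
      (IsPiHall.isPiHallOf h1 le_normalizer) hgc
    have hoC := hH H h1.1 o ho ho' _ hy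
    have hHC := hCl.hallOf_inf hD h1 hEH hEC fun H' h' hle => hT H H' h1 h' hEH hle
    obtain ⟨o', ho1, l, hl, ho2, e3⟩ := hCl.decomp hHC (inv_mem hc)
    have e4 : h⁻¹ * (g * x * g⁻¹) * h = o' * (l * x * l⁻¹) * o'⁻¹ := by
      have e5 : g = o * h * (o' * l) := by rw [e2, e3, mul_inv_cancel_right]
      have e6 : g * x * g⁻¹ = o⁻¹ * (g * x * g⁻¹) * o := by rw [mul_assoc o⁻¹, hoC]; simp
      rw [e6, e5]
      group
    have e7 := hCl.eq_of_conj (U := H ⊓ centralizer (zpowers e : Set G)) hHC.2.1 inf_le_right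
      (a := l * x * l⁻¹) (mul_mem (mul_mem hl ⟨hx, hxC⟩) (inv_mem hl)) ho1 ho2
      ⟨e4 ▸ H.mul_mem (H.mul_mem (H.inv_mem hh) hy) hh,
        Subgroup.mul_mem _ (Subgroup.mul_mem _ ho1 (Subgroup.mul_mem _ (Subgroup.mul_mem _ hl.2 hxC)
          (Subgroup.inv_mem _ hl.2))) (Subgroup.inv_mem _ ho1)⟩
    refine ⟨h * l, H.mul_mem hh hl.1, ?_⟩
    rw [← e4] at e7
    calc h * l * x * (h * l)⁻¹ = h * (l * x * l⁻¹) * h⁻¹ := by group
      _ = _ := by rw [← e7]; group) (by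
    intro E p _ _ hd
    obtain ⟨H', h', hle⟩ := hD E (IsPiNum.of_dvd h1.1 hd)
    obtain ⟨g, rfl⟩ := hC H' H h' h1
    exact ⟨g, cj_mono g hle⟩)
  rcases hK.eq_bot_or_eq_top with rfl | rfl
  · exact ht (by simpa using h2)
  · exact hb (by simpa using h3)

end CL.PiHom
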