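import Mathlib
import Cfsg.Agent.SOLV.Coprime
import Cfsg.Agent.SOLV.Basic
import Cfsg.Agent.PLOC.PFrattini
import Cfsg.Agent.PLOC.FrobeniusNPC

/-! An automorphism of odd order of a `2`-group without real elements of order `4` which
centralizes all involutions is trivial. -/

set_option autoImplicit false
open Cfsg Subgroup CL
open scoped commutatorElement

namespace CL.RealCent

variable {G : Type*} [Group G] [Finite G]

theorem le_centralizer {g : G} (hg : (orderOf g).Coprime 2) (n : ℕ) :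
    ∀ Q : Subgroup G, Nat.card Q = n → IsPGroup 2 Q → (∀ x ∈ Q, x * x = 1 → g * x = x * g) →
      (∀ x ∈ Q, ∀ y ∈ Q, y * x * y⁻¹ = x⁻¹ → x * x = 1) → g ∈ normalizer (Q : Set G) →
      Q ≤ centralizer (zpowers g : Set G) := by
  have : Fact (Nat.Prime 2) := ⟨Nat.prime_two⟩
  induction n using Nat.strong_induction_on with
  | _ n ih =>
  intro Q hn hQ h1 h2 hgQ
  set A := zpowers g with hA
  have cA : ∀ x, x ∈ centralizer (A : Set G) ↔ g * x = x * g := fun x => by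
    constructor
    · intro h; exact h g (mem_zpowers g)
    · rintro h _ ⟨i, rfl⟩
      exact ((show Commute g x from h).zpow_left i).eq
  have ih' : ∀ R : Subgroup G, R ≤ Q → R ≠ Q → (∀ x ∈ R, g * x * g⁻¹ ∈ R) → R ≤ centralizer (A : Set G) := by
    intro R hR hne hgR
    refine ih _ ?_ R rfl (hQ.to_le hR) (fun x hx => h1 x (hR hx)) (fun x hx y hy => h2 x (hR hx) y (hR hy))
      (Subgroup.mem_normalizer_fintype hgR)
    rw [← hn]
    by_contra hc
    exact hne (Subgroup.eq_of_le_of_card_ge hR (not_lt.mp hc))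
  by_contra hne
  have hAQ : A ≤ normalizer (Q : Set G) := (zpowers_le).mpr hgQ
  have gQ : ∀ x ∈ Q, g * x * g⁻¹ ∈ Q := fun x hx => (mem_normalizer_iff.mp hgQ x).mp hx
  have gQ' : ∀ x ∈ Q, g⁻¹ * x * g ∈ Q := fun x hx => by
    simpa using (mem_normalizer_iff.mp (inv_mem hgQ) x).mp hx
  have hcop : (Nat.card A).Coprime (Nat.card Q) := by
    obtain ⟨k, hk⟩ := IsPGroup.iff_card.mp hQ
    rw [hA, Nat.card_zpowers, hk]; exact hg.pow_right k
  have hsol : Group.IsSolvable A ∨ Group.IsSolvable Q := Or.inr (by have := hQ.isNilpotent; infer_instance)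
  have hQA : ⁅Q, A⁆ ≤ Q := commutator_le.mpr fun x hx a ha => by
    rw [commutatorElement_def, mul_assoc, mul_assoc]
    exact Q.mul_mem hx (by simpa [mul_assoc] using (mem_normalizer_iff.mp (hAQ ha) _).mp (Q.inv_mem hx))
  have key : ∀ R : Subgroup G, R ≤ Q → (∀ x ∈ R, g * x * g⁻¹ ∈ R) → ⁅Q, A⁆ ≤ R → R = Q := by
    intro R hR hgR h
    by_contra hc
    exact hne (coprime_le_centralizer_of_commutator_le A Q hAQ hcop hsol (h.trans (ih' R hR hc hgR)))
  have hQA' : ⁅Q, A⁆ = Q := key _ hQA (fun x hx => by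
    have : g ∈ normalizer ((⁅Q, A⁆ : Subgroup G) : Set G) :=
      Subgroup.normalizer_commutator_ge_right Q A (mem_zpowers g)
    exact (mem_normalizer_iff.mp this x).mp hx) le_rfl
  have hnt : Nontrivial Q := by
    rw [Subgroup.nontrivial_iff_ne_bot]; rintro rfl; exact hne bot_le
  have hΦ : (frattini Q).map Q.subtype ≤ centralizer (A : Set G) := by
    refine ih' _ (map_subtype_le _) (fun h => CL.PG.frattini_ne_top (P := Q) ?_) fun x hx =>
      (mem_normalizer_iff.mp (normalizer_le_normalizer_map_subtype Q (frattini Q) hgQ) x).mp hx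
    apply map_injective Q.subtype_injective
    rw [h, ← MonoidHom.range_eq_map, range_subtype]
  have hcomm : ⁅Q, Q⁆ ≤ centralizer (A : Set G) := (CL.PG.commutator_le_frattini_map hQ).trans hΦ
  have hsq : ∀ x ∈ Q, x * x ∈ centralizer (A : Set G) := fun x hx => by
    rw [← sq]; exact hΦ (CL.PG.pow_mem_frattini_map hQ hx)
  have hD : Q ⊓ centralizer (A : Set G) ≤ centralizer (Q : Set G) := by
    rw [← commutator_eq_bot_iff_le_centralizer, commutator_comm]
    have : ⁅⁅A, Q⁆, Q ⊓ centralizer (A : Set G)⁆ = ⊥ := by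
      apply commutator_commutator_eq_bot_of_rotate
      · rw [commutator_eq_bot_iff_le_centralizer]
        exact (commutator_mono le_rfl inf_le_left).trans hcomm
      · rw [(commutator_eq_bot_iff_le_centralizer).mpr inf_le_right, commutator_bot_left]
    rwa [commutator_comm A, hQA'] at this
  have cQ : ∀ u ∈ Q, ∀ y ∈ Q, ⁅u, y⁆ ∈ Q := fun u hu y hy =>
    Q.mul_mem (Q.mul_mem (Q.mul_mem hu hy) (Q.inv_mem hu)) (Q.inv_mem hy)
  have cC : ∀ u ∈ Q, ∀ y ∈ Q, ∀ z ∈ Q, z * ⁅u, y⁆ = ⁅u, y⁆ * z := fun u hu y hy z hz =>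
    hD ⟨cQ u hu y hy, hcomm (commutator_mem_commutator hu hy)⟩ z hz
  have cg : ∀ u ∈ Q, ∀ y ∈ Q, g * ⁅u, y⁆ = ⁅u, y⁆ * g := fun u hu y hy =>
    (cA _).mp (hcomm (commutator_mem_commutator hu hy))
  obtain ⟨x, hx, hxA⟩ := SetLike.not_le_iff_exists.mp hne
  let f : Q →* G := MonoidHom.mk' (fun y => ⁅x, (y : G)⁆) fun y z => by
    have := cC x hx z z.2 y y.2
    calc ⁅x, ((y * z : Q) : G)⁆ = ⁅x, (y : G)⁆ * ((y * ⁅x, (z : G)⁆) * (y : G)⁻¹) := by
          simp only [commutatorElement_def, Subgroup.coe_mul]; group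
      _ = _ := by rw [this]; group
  let Z₁ : Subgroup G :=
    { carrier := {u | u ∈ Q ∧ ∀ y ∈ Q, ⁅u, y⁆ ∈ f.range}
      one_mem' := ⟨Q.one_mem, fun y _ => by simp⟩
      mul_mem' := fun {u v} hu hv => ⟨Q.mul_mem hu.1 hv.1, fun y hy => by
        have e : ⁅u * v, y⁆ = (u * ⁅v, y⁆) * u⁻¹ * ⁅u, y⁆ := by
          simp only [commutatorElement_def]; group
        rw [e, cC v hv.1 y hy u hu.1, mul_inv_cancel_right]
        exact mul_mem (hv.2 y hy) (hu.2 y hy)⟩
      inv_mem' := fun {u} hu => ⟨Q.inv_mem hu.1, fun y hy => by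
        have e : ⁅u⁻¹, y⁆ = (u⁻¹ * ⁅u, y⁆ * u)⁻¹ := by
          simp only [commutatorElement_def]; group
        rw [e, cC u hu.1 y hy _ (Q.inv_mem hu.1), inv_mul_cancel_right]
        exact inv_mem (hu.2 y hy)⟩ }
  have hZ₁ : Z₁ = Q := by
    by_contra hc
    refine hxA (ih' Z₁ (fun u hu => hu.1) hc (fun u hu => ⟨gQ u hu.1, fun y hy => ?_⟩)
      ⟨hx, fun y hy => ⟨⟨y, hy⟩, rfl⟩⟩)
    have e : ⁅g * u * g⁻¹, y⁆ = g * ⁅u, g⁻¹ * y * g⁆ * g⁻¹ := by
      simp only [commutatorElement_def]; group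
    rw [e, cg u hu.1 _ (gQ' y hy), mul_inv_cancel_right]
    exact hu.2 _ (gQ' y hy)
  have cW : ∀ u ∈ Q, ∀ y ∈ Q, ⁅u, y⁆ ∈ f.range := fun u hu => (show u ∈ Z₁ from hZ₁.symm ▸ hu).2
  have sqmul : ∀ u ∈ Q, ∀ v ∈ Q, u * v * (u * v) = ⁅v, u⁆ * (u * u * (v * v)) := fun u hu v hv => by
    calc u * v * (u * v) = (u * ⁅v, u⁆) * (u * v * v) := by simp only [commutatorElement_def]; group
      _ = _ := by rw [cC v hv u hu u hu]; group
  let Z₂ : Subgroup G :=
    { carrier := {u | u ∈ Q ∧ u * u ∈ f.range}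
      one_mem' := ⟨Q.one_mem, by simp⟩
      mul_mem' := fun {u v} hu hv => ⟨Q.mul_mem hu.1 hv.1, by
        rw [sqmul u hu.1 v hv.1]
        exact mul_mem (cW v hv.1 u hu.1) (mul_mem hu.2 hv.2)⟩
      inv_mem' := fun {u} hu => ⟨Q.inv_mem hu.1, by rw [← mul_inv_rev]; exact inv_mem hu.2⟩ }
  have hZ₂ : Z₂ = Q := by
    refine key Z₂ (fun u hu => hu.1) (fun u hu => ⟨gQ u hu.1, ?_⟩) (commutator_le.mpr fun y hy a ha => ?_)
    · have e : g * u * g⁻¹ * (g * u * g⁻¹) = g * (u * u) * g⁻¹ := by group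
      rw [e, (cA _).mp (hsq u hu.1), mul_inv_cancel_right]
      exact hu.2
    · have hv : a * y⁻¹ * a⁻¹ ∈ Q := (mem_normalizer_iff.mp (hAQ ha) _).mp (Q.inv_mem hy)
      refine ⟨hQA (commutator_mem_commutator hy ha), ?_⟩
      have e : ⁅y, a⁆ = y * (a * y⁻¹ * a⁻¹) := by simp only [commutatorElement_def]; group
      have e2 : a * y⁻¹ * a⁻¹ * (a * y⁻¹ * a⁻¹) = (y * y)⁻¹ := by
        calc _ = (a * (y * y) * a⁻¹)⁻¹ := by group
          _ = _ := by rw [hsq y hy a ha, mul_inv_cancel_right]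
      rw [e, sqmul y hy _ hv, e2, mul_inv_cancel, mul_one]
      exact cW _ hv y hy
  obtain ⟨y, hy⟩ := (show x ∈ Z₂ from hZ₂.symm ▸ hx).2
  have hy' : ⁅x, (y : G)⁆ = x * x := hy
  refine hxA ((cA x).mpr (h1 x hx (h2 x hx y y.2 ?_)))
  calc (y : G) * x * (y : G)⁻¹ = ⁅x, (y : G)⁆⁻¹ * x := by simp only [commutatorElement_def]; group
    _ = x⁻¹ := by rw [hy']; group

/-- A finite group in which all involutions are central and whose Sylow `2`-subgroup has no real
element of order `4` has a normal `2`-complement. -/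
theorem hasNPC (S : Sylow 2 G) (h1 : ∀ x : G, x * x = 1 → x ∈ center G)
    (h2 : ∀ x ∈ (S : Subgroup G), ∀ y ∈ (S : Subgroup G), y * x * y⁻¹ = x⁻¹ → x * x = 1) :
    HasNormalPComplement 2 G := by
  have : Fact (Nat.Prime 2) := ⟨Nat.prime_two⟩
  refine (CL.Tr.hasNPC_iff_forall_le_sylow S).mpr fun Q hQ g hg hc y hy => ?_
  exact (le_centralizer hc _ Q rfl (S.isPGroup'.to_le hQ) (fun x _ hx => mem_center_iff.mp (h1 x hx) g)
    (fun x hx y hy => h2 x (hQ hx) y (hQ hy)) hg hy g (mem_zpowers g)).symm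

end CL.RealCent
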