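import Mathlib
import Cfsg.Agent.FGS.ClassSize
import Cfsg.Agent.S0200

/-!
If the centralizer of every odd-order element inverted by a `2`-central involution is transitive on the Sylow
`2`-subgroups, then one such element generates a subgroup normalized by all `2`-central involutions.
-/

set_option autoImplicit false
set_option maxHeartbeats 400000

namespace CL.RKey

open Subgroup Cfsg CL.CS
open scoped Pointwise

variable {G : Type*} [Group G]

/-- `z` is central in `S` and `z ^ 2 = 1` -/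
def Om (S : Sylow 2 G) (z : G) : Prop :=
  z ∈ (S : Subgroup G) ∧ z * z = 1 ∧ ∀ s ∈ (S : Subgroup G), s * z = z * s

/-- nontrivial elements of odd order inverted by a `2`-central involution -/
def YY (y : G) : Prop := y ≠ 1 ∧ Odd (orderOf y) ∧ ∃ (S : Sylow 2 G) (z : G), Om S z ∧ z * y * z = y⁻¹

theorem Om.smul {S : Sylow 2 G} {z : G} (h : Om S z) (c : G) : Om (c • S) (c * z * c⁻¹) := by
  refine ⟨?_, ?_, fun s hs => ?_⟩
  · rw [Sylow.coe_subgroup_smul]; exact conj_mem_conj_smul h.1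
  · calc c * z * c⁻¹ * (c * z * c⁻¹) = c * (z * z) * c⁻¹ := by group
      _ = 1 := by rw [h.2.1]; group
  · rw [Sylow.coe_subgroup_smul, mem_conj_smul_iff] at hs
    have := h.2.2 _ hs
    calc s * (c * z * c⁻¹) = c * (c⁻¹ * s * c * z) * c⁻¹ := by group
      _ = c * z * c⁻¹ * s := by rw [this]; group

theorem Om.mul {S : Sylow 2 G} {a b : G} (ha : Om S a) (hb : Om S b) : Om S (a * b) := by
  refine ⟨mul_mem ha.1 hb.1, ?_, fun s hs => ?_⟩
  · calc a * b * (a * b) = a * (b * a) * b := by group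
      _ = (a * a) * (b * b) := by rw [ha.2.2 b hb.1]; group
      _ = 1 := by rw [ha.2.1, hb.2.1, one_mul]
  · rw [← mul_assoc, ha.2.2 s hs, mul_assoc, hb.2.2 s hs, mul_assoc]

theorem eq_one_of_odd {y : G} (hy : Odd (orderOf y)) {k : ℕ} (h : y ^ 2 ^ k = 1) : y = 1 :=
  orderOf_eq_one_iff.1 (Nat.eq_one_of_dvd_coprimes ((Nat.coprime_two_right.2 hy).pow_right k) dvd_rfl
    (orderOf_dvd_of_pow_eq_one h))

theorem exists_sq_eq {y : G} (hy : Odd (orderOf y)) : ∃ k : ℕ, y ^ k * y ^ k = y := by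
  obtain ⟨m, hm⟩ := hy
  refine ⟨m + 1, ?_⟩
  rw [← pow_add, show m + 1 + (m + 1) = orderOf y + 1 by omega, pow_succ, pow_orderOf_eq_one, one_mul]

/-- the odd part and the `2`-part of an element -/
theorem exists_split [Finite G] (w : G) : ∃ a b k : ℕ, Odd (orderOf (w ^ a)) ∧ (w ^ b) ^ 2 ^ k = 1 ∧
    w ^ a * w ^ b = w := by
  obtain ⟨k, m, hm, h⟩ := Nat.exists_eq_pow_mul_and_not_dvd (orderOf_pos w).ne' 2 (by norm_num)
  have hco : (2 ^ k).Coprime m := ((Nat.Prime.coprime_iff_not_dvd Nat.prime_two).2 hm).pow_left k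
  obtain ⟨a, ha1, ha2⟩ := Nat.chineseRemainder hco 0 1
  obtain ⟨b, hb1, hb2⟩ := Nat.chineseRemainder hco 1 0
  refine ⟨a, b, k, ?_, ?_, ?_⟩
  · have : orderOf (w ^ a) ∣ m := by
      apply orderOf_dvd_of_pow_eq_one
      rw [← pow_mul]
      apply orderOf_dvd_iff_pow_eq_one.1
      rw [h]
      exact Nat.mul_dvd_mul_right ((Nat.modEq_zero_iff_dvd).1 ha1) m
    exact Odd.of_dvd_nat (Nat.not_even_iff_odd.1 fun he => hm (even_iff_two_dvd.1 he)) this
  · rw [← pow_mul]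
    apply orderOf_dvd_iff_pow_eq_one.1
    rw [h, mul_comm]
    exact Nat.mul_dvd_mul_right ((Nat.modEq_zero_iff_dvd).1 hb2) _
  · rw [← pow_add]
    conv_rhs => rw [← pow_one w]
    rw [pow_eq_pow_iff_modEq, h]
    exact (Nat.modEq_and_modEq_iff_modEq_mul hco).1 ⟨by simpa using ha1.add hb1, by simpa using ha2.add hb2⟩

theorem inv_pow_of_inv {z y : G} (hz : z * z = 1) (h : z * y * z = y⁻¹) (k : ℕ) :
    z * y ^ k * z = (y ^ k)⁻¹ := by
  have hz' : z⁻¹ = z := inv_eq_of_mul_eq_one_right hz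
  rw [← inv_pow, ← h]
  conv_rhs => rw [show z * y * z = z * y * z⁻¹ by rw [hz'], conj_pow, hz']

theorem isPGroup_zpowers {x : G} {k : ℕ} (h : x ^ 2 ^ k = 1) : IsPGroup 2 (zpowers x) := by
  rintro ⟨_, ⟨i, rfl⟩⟩
  refine ⟨k, Subtype.ext ?_⟩
  simp only [SubmonoidClass.coe_pow, OneMemClass.coe_one]
  rw [← zpow_natCast, ← zpow_mul, mul_comm, zpow_mul, zpow_natCast, h, one_zpow]

/-- two involutions whose product is a `2`-element generate a `2`-group -/
theorem isPGroup_pair [Finite G] {a b : G} (ha : a * a = 1) (hb : b * b = 1) {k : ℕ} (h : (a * b) ^ 2 ^ k = 1) :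
    IsPGroup 2 ↥(zpowers a ⊔ zpowers (a * b)) := by
  have ha' : a⁻¹ = a := inv_eq_of_mul_eq_one_right ha
  have hb' : b⁻¹ = b := inv_eq_of_mul_eq_one_right hb
  have h1 : a * (a * b) * a⁻¹ = (a * b)⁻¹ := by
    rw [mul_inv_rev, ha', hb', ← mul_assoc, ha, one_mul]
  refine (isPGroup_zpowers (k := 1) (by rw [pow_one, sq, ha])).to_sup_of_normal_right' (isPGroup_zpowers h) ?_
  rw [zpowers_le]
  refine mem_normalizer_fintype ?_
  rintro _ ⟨i, rfl⟩
  dsimp only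
  rw [← conj_zpow, h1]
  exact zpow_mem (inv_mem (mem_zpowers _)) i

variable [Finite G]

/-- the set-up: transitivity, and a `2`-subgroup of maximal order centralizing a member of `YY` -/
structure Ctx (D : Subgroup G) : Prop where
  tr : ∀ y : G, YY y → ∀ S S' : Sylow 2 G, ∃ c : G, c * y = y * c ∧ c • S = S'
  pD : IsPGroup 2 D
  mx : ∀ y : G, YY y → ∀ D' : Subgroup G, IsPGroup 2 D' → D' ≤ 𝐂[y] → Nat.card D' ≤ Nat.card D
  ex : ∃ y : G, YY y ∧ D ≤ 𝐂[y]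

/-- the involutions central in a Sylow subgroup over `D`, outside `D` -/
def ZZ (D : Subgroup G) (z : G) : Prop := z ∉ D ∧ ∃ S : Sylow 2 G, D ≤ S ∧ Om S z

omit [Finite G] in
theorem Om.mem_cent {D : Subgroup G} {S : Sylow 2 G} (hS : D ≤ S) {z : G} (h : Om S z) :
    z ∈ centralizer (D : Set G) := fun d hd => h.2.2 d (hS hd)

omit [Finite G] in
theorem ZZ.cent {D : Subgroup G} {z : G} (h : ZZ D z) : z ∈ centralizer (D : Set G) := by
  obtain ⟨S, hS, hz⟩ := h.2; exact hz.mem_cent hS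

omit [Finite G] in
theorem ZZ.sq {D : Subgroup G} {z : G} (h : ZZ D z) : z * z = 1 := by
  obtain ⟨S, -, hz⟩ := h.2; exact hz.2.1

omit [Finite G] in
theorem ZZ.conj {D : Subgroup G} {z c : G} (h : ZZ D z) (hc : c ∈ centralizer (D : Set G)) :
    ZZ D (c * z * c⁻¹) := by
  obtain ⟨h1, S, hS, hz⟩ := h
  refine ⟨fun hd => h1 ?_, c • S, fun d hd => ?_, hz.smul c⟩
  · have := hc _ hd
    have e : z = c * z * c⁻¹ := by
      calc z = c⁻¹ * (c * z * c⁻¹ * c) := by group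
        _ = c * z * c⁻¹ := by rw [this]; group
    exact e ▸ hd
  · rw [Sylow.coe_subgroup_smul, mem_conj_smul_iff]
    have : c⁻¹ * d * c = d := by rw [mul_assoc, hc d hd]; group
    rw [this]; exact hS hd

namespace Ctx

variable {D : Subgroup G} (X : Ctx D)
include X

theorem inv {y : G} (hy : YY y) (S : Sylow 2 G) : ∃ z, Om S z ∧ z * y * z = y⁻¹ := by
  obtain ⟨S1, z, hz, hzy⟩ := hy.2.2
  obtain ⟨c, hc, rfl⟩ := X.tr y hy S1 S
  refine ⟨_, hz.smul c, ?_⟩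
  have h1 : c⁻¹ * y * c = y := by rw [mul_assoc, ← hc]; group
  have h2 : c * y⁻¹ * c⁻¹ = y⁻¹ := by
    rw [mul_inv_eq_iff_eq_mul]; exact (Commute.inv_right hc).eq
  calc c * z * c⁻¹ * y * (c * z * c⁻¹) = c * (z * (c⁻¹ * y * c) * z) * c⁻¹ := by group
    _ = y⁻¹ := by rw [h1, hzy, h2]

theorem le_of {y : G} (hy : YY y) (hD : D ≤ 𝐂[y]) {Q : Subgroup G} (hQ : IsPGroup 2 Q)
    (hn : Q ≤ normalizer (D : Set G)) (hc : Q ≤ 𝐂[y]) : Q ≤ D := by
  have h1 : IsPGroup 2 ↥(Q ⊔ D) := hQ.to_sup_of_normal_right' X.pD hn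
  have h2 := X.mx y hy _ h1 (sup_le hc hD)
  have : D = Q ⊔ D := eq_of_le_of_card_ge le_sup_right h2
  rw [this]; exact le_sup_left

theorem mem_of {y x : G} (hy : YY y) (hD : D ≤ 𝐂[y]) {k : ℕ} (hx : x ^ 2 ^ k = 1)
    (hn : x ∈ centralizer (D : Set G)) (hc : x * y = y * x) : x ∈ D :=
  X.le_of hy hD (isPGroup_zpowers hx) ((zpowers_le.2 hn).trans (centralizer_le_normalizer _))
    (zpowers_le.2 (mem_cen.2 hc)) (mem_zpowers x)

/-- the product of two members of `ZZ` is a `2`-element or odd modulo `D` -/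
theorem split {a b : G} (ha : ZZ D a) (hb : ZZ D b) : (∃ k : ℕ, (a * b) ^ 2 ^ k = 1) ∨
    ∃ y d : G, YY y ∧ y ∈ centralizer (D : Set G) ∧ d ∈ D ∧ a * b = y * d ∧ a * y * a = y⁻¹ ∧
      y ∈ zpowers (a * b) := by
  obtain ⟨i, j, k, h1, h2, h3⟩ := exists_split (a * b)
  by_cases h : (a * b) ^ i = 1
  · left; exact ⟨k, by rw [← h3, h, one_mul, h2]⟩
  right
  have hab : a * b ∈ centralizer (D : Set G) := mul_mem ha.cent hb.cent
  have hi : a * (a * b) * a = (a * b)⁻¹ := by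
    rw [mul_inv_rev, inv_eq_of_mul_eq_one_right ha.sq, inv_eq_of_mul_eq_one_right hb.sq, ← mul_assoc, ha.sq,
      one_mul]
  have hi' := inv_pow_of_inv ha.sq hi i
  obtain ⟨S, -, hS⟩ := ha.2
  have hy : YY ((a * b) ^ i) := ⟨h, h1, S, a, hS, hi'⟩
  have hyc : (a * b) ^ i ∈ centralizer (D : Set G) := pow_mem hab i
  exact ⟨_, _, hy, hyc, X.mem_of hy (le_cen_iff.2 hyc) h2 (pow_mem hab j) (Commute.pow_pow_self _ _ _).eq, h3.symm, hi',
    pow_mem (mem_zpowers _) i⟩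

/-- every member of `ZZ` inverts a member of `YY` centralizing `D` -/
theorem exists_inv {a : G} (ha : ZZ D a) :
    ∃ y : G, YY y ∧ y ∈ centralizer (D : Set G) ∧ a * y * a = y⁻¹ := by
  set C := centralizer (D : Set G) with hC
  have ha1 : a ≠ 1 := fun e => ha.1 (e ▸ D.one_mem)
  have ho : orderOf (⟨a, ha.cent⟩ : C) = 2 := by
    rw [← Subgroup.orderOf_coe]
    exact orderOf_eq_prime (by rw [sq]; exact ha.sq) ha1
  obtain ⟨⟨y, hyC⟩, h1, h2, h3⟩ := Cfsg.Agent.S0200.result _ ho (by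
    intro N hN hN2 haN
    obtain ⟨y0, hy0, hD0⟩ := X.ex
    have hy0C : y0 ∈ C := le_cen_iff.1 hD0
    have hQ : IsPGroup 2 (N.map C.subtype) := hN2.map _
    have hQC : N.map C.subtype ≤ C := map_subtype_le _
    have hQn : N.map C.subtype ≤ normalizer (D : Set G) := hQC.trans (centralizer_le_normalizer _)
    obtain ⟨S, hS⟩ := (hQ.to_sup_of_normal_right' X.pD hQn).exists_le_sylow
    obtain ⟨z, hz, hzy⟩ := X.inv hy0 S
    have hz' : z⁻¹ = z := inv_eq_of_mul_eq_one_right hz.2.1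
    have hzc : z ∈ centralizer ((N.map C.subtype : Subgroup G) : Set G) :=
      fun q hq => hz.2.2 q (hS (mem_sup_left hq))
    have hn : y0 ∈ normalizer ((centralizer ((N.map C.subtype : Subgroup G) : Set G) : Subgroup G) : Set G) :=
      normalizer_le_normalizer_centralizer _ (le_normalizer_map_subtype C N hy0C)
    have h2 : y0 * y0 ∈ centralizer ((N.map C.subtype : Subgroup G) : Set G) := by
      have e : y0 * y0 = (y0 * z * y0⁻¹) * z := by
        rw [← hzy]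
        calc y0 * y0 = y0 * (z * z) * y0 * (z * z) := by rw [hz.2.1]; group
          _ = _ := by group
      rw [e]
      exact mul_mem ((mem_normalizer_iff.1 hn z).1 hzc) hzc
    obtain ⟨k, hk⟩ := exists_sq_eq hy0.2.1
    have h3 : y0 ∈ centralizer ((N.map C.subtype : Subgroup G) : Set G) := by
      rw [← hk, ← (Commute.refl y0).mul_pow]; exact pow_mem h2 k
    exact ha.1 (X.le_of hy0 hD0 hQ hQn (le_cen_iff.2 h3) ⟨_, haN, rfl⟩))
  have h3' : a * y * a = y⁻¹ := by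
    have := congrArg Subtype.val h3
    simpa [inv_eq_of_mul_eq_one_right ha.sq] using this
  obtain ⟨S, -, hS⟩ := ha.2
  exact ⟨y, ⟨fun e => h1 (Subtype.ext e), by rwa [← Subgroup.orderOf_coe] at h2, S, a, hS, h3'⟩, hyC, h3'⟩

theorem exists_om {a : G} (ha : ZZ D a) {S : Sylow 2 G} (hS : D ≤ S) (haS : a ∈ (S : Subgroup G)) :
    ∃ z d : G, Om S z ∧ d ∈ D ∧ a = z * d := by
  obtain ⟨y, hy, hyC, hay⟩ := X.exists_inv ha
  obtain ⟨z, hz, hzy⟩ := X.inv hy S
  refine ⟨z, z * a, hz, ?_, by rw [← mul_assoc, hz.2.1, one_mul]⟩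
  obtain ⟨k, hk⟩ := S.isPGroup' ⟨z * a, mul_mem hz.1 haS⟩
  refine X.mem_of hy (le_cen_iff.2 hyC) (k := k) (by simpa using congrArg Subtype.val hk)
    (mul_mem (hz.mem_cent hS) ha.cent) ?_
  calc z * a * y = z * (a * y * a) * a := by rw [mul_assoc z, mul_assoc z, mul_assoc _ a a, ha.sq, mul_one]
    _ = z * (z * y * z) * a := by rw [hay, hzy]
    _ = y * (z * a) := by rw [← mul_assoc, ← mul_assoc, hz.2.1, one_mul, mul_assoc]

theorem comm_of_mem {a x : G} (ha : ZZ D a) {S : Sylow 2 G} (hS : D ≤ S) (haS : a ∈ (S : Subgroup G))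
    (hx : x ∈ (S : Subgroup G)) (hxC : x ∈ centralizer (D : Set G)) : x * a = a * x := by
  obtain ⟨z, d, hz, hd, rfl⟩ := X.exists_om ha hS haS
  rw [← mul_assoc, hz.2.2 x hx, mul_assoc, ← hxC d hd, mul_assoc]

theorem exists_sylow {a b : G} (ha : ZZ D a) (hb : ZZ D b) {k : ℕ} (h : (a * b) ^ 2 ^ k = 1) :
    ∃ S : Sylow 2 G, D ≤ S ∧ a ∈ (S : Subgroup G) ∧ b ∈ (S : Subgroup G) := by
  have h1 := (isPGroup_pair ha.sq hb.sq h).to_sup_of_normal_right' X.pD
    ((sup_le (zpowers_le.2 ha.cent) (zpowers_le.2 (mul_mem ha.cent hb.cent))).trans (centralizer_le_normalizer _))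
  obtain ⟨S, hS⟩ := h1.exists_le_sylow
  have haS : a ∈ (S : Subgroup G) := hS (mem_sup_left (mem_sup_left (mem_zpowers a)))
  have hab : a * b ∈ (S : Subgroup G) := hS (mem_sup_left (mem_sup_right (mem_zpowers _)))
  exact ⟨S, le_sup_right.trans hS, haS, (mul_mem_cancel_left haS).1 hab⟩

theorem comm_of_two {a b : G} (ha : ZZ D a) (hb : ZZ D b) {k : ℕ} (h : (a * b) ^ 2 ^ k = 1) : a * b = b * a := by
  obtain ⟨S, hS, haS, hbS⟩ := X.exists_sylow ha hb h
  exact X.comm_of_mem hb hS hbS haS ha.cent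

/-- commuting is transitive on `ZZ` -/
theorem trans {a b c : G} (ha : ZZ D a) (hb : ZZ D b) (hc : ZZ D c) (h1 : a * b = b * a) (h2 : a * c = c * a) :
    b * c = c * b := by
  rcases X.split hb hc with ⟨k, hk⟩ | ⟨y, d, hy, hyC, -, -, -, i, rfl⟩
  · exact X.comm_of_two hb hc hk
  · exact absurd (X.mem_of hy (le_cen_iff.2 hyC) (k := 1) (by rw [pow_one, sq, ha.sq]) ha.cent
      (Commute.zpow_right (Commute.mul_right h1 h2) i).eq) ha.1

omit X [Finite G] in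
theorem sq_of_comm {a b : G} (ha : a * a = 1) (hb : b * b = 1) (h : a * b = b * a) : (a * b) ^ 2 ^ 1 = 1 := by
  rw [pow_one, sq]
  calc a * b * (a * b) = a * (b * a) * b := by group
    _ = (a * a) * (b * b) := by rw [← h]; group
    _ = 1 := by rw [ha, hb, one_mul]

omit X [Finite G] in
/-- an involution inverting `y` does not commute with its conjugate under `y` -/
theorem not_comm {z y : G} (hy : y ≠ 1) (ho : Odd (orderOf y)) (hz : z * z = 1) (h : z * y * z = y⁻¹) :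
    z * (y * z * y⁻¹) ≠ y * z * y⁻¹ * z := by
  intro e
  apply hy
  have h1 : y * z * y⁻¹ * z = y * y := by
    rw [← h]
    calc y * z * (z * y * z) * z = y * (z * z) * y * (z * z) := by group
      _ = _ := by rw [hz]; group
  have h2 : z * (y * z * y⁻¹) = y⁻¹ * y⁻¹ := by rw [← mul_assoc, ← mul_assoc, h]
  refine eq_one_of_odd ho (k := 2) ?_
  rw [h1, h2] at e
  calc y ^ 2 ^ 2 = (y * y) * (y * y) := by norm_num [pow_succ, mul_assoc]
    _ = (y⁻¹ * y⁻¹) * (y * y) := by rw [e]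
    _ = 1 := by group

theorem mem_or {y z t : G} (hy : YY y) (hD : D ≤ 𝐂[y]) {S : Sylow 2 G} (hS : D ≤ S) (hz : Om S z)
    (hzy : z * y * z = y⁻¹) (ht : Om S t) : t ∈ D ∨ z * t ∈ D := by
  by_contra hcon
  push Not at hcon
  have hyC : y ∈ centralizer (D : Set G) := le_cen_iff.1 hD
  have notD : ∀ {y s : G}, YY y → y ∈ centralizer (D : Set G) → s * s = 1 → s * y * s = y⁻¹ → s ∉ D := by
    intro y s hy hyC hs hsy hsD
    apply hy.1
    refine eq_one_of_odd hy.2.1 (k := 1) ?_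
    rw [hyC s hsD, mul_assoc, hs, mul_one] at hsy
    rw [pow_one, sq]; exact mul_eq_one_iff_eq_inv.2 hsy
  have Z1 : ZZ D z := ⟨notD hy hyC hz.2.1 hzy, S, hS, hz⟩
  have Z2 : ZZ D t := ⟨hcon.1, S, hS, ht⟩
  have Zv : ZZ D (z * t) := ⟨hcon.2, S, hS, hz.mul ht⟩
  have hzt : z * t = t * z := ht.2.2 z hz.1
  have hzv : z * (z * t) = z * t * z := (hz.mul ht).2.2 z hz.1
  obtain ⟨u, hu⟩ : ∃ u, u = y * z * y⁻¹ := ⟨_, rfl⟩
  have Zu : ZZ D u := hu ▸ Z1.conj hyC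
  have hu' : u⁻¹ = u := inv_eq_of_mul_eq_one_right Zu.sq
  have hzu : z * u ≠ u * z := hu ▸ not_comm hy.1 hy.2.1 hz.2.1 hzy
  have Za : ZZ D (u * z * u⁻¹) := Z1.conj Zu.cent
  rcases X.split Za Z2 with ⟨k, hk⟩ | ⟨w, d, hw, hwC, hd, hwd, haw, -⟩
  · have h1 := X.trans Z2 Za Z1 (X.comm_of_two Za Z2 hk).symm hzt.symm
    refine hzu (X.comm_of_two Zu Z1 (k := 2) ?_).symm
    have := sq_of_comm Za.sq Z1.sq h1
    rw [hu'] at this
    rw [← this]; norm_num [pow_succ, mul_assoc]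
  obtain ⟨a, ha⟩ : ∃ a, a = u * z * u⁻¹ := ⟨_, rfl⟩
  rw [← ha] at Za hwd haw
  have ha' : a⁻¹ = a := inv_eq_of_mul_eq_one_right Za.sq
  obtain ⟨k, hk⟩ := exists_sq_eq hw.2.1
  obtain ⟨l, hl⟩ := exists_sq_eq (y := w ^ k) (Odd.of_dvd_nat hw.2.1 (orderOf_pow_dvd k))
  have i1 := inv_pow_of_inv Za.sq haw k
  have i2 := inv_pow_of_inv Za.sq i1 l
  obtain ⟨h, hh⟩ : ∃ h, h = w ^ k := ⟨_, rfl⟩
  have hhC : h ∈ centralizer (D : Set G) := hh ▸ pow_mem hwC k
  rw [← hh] at hk hl i1 i2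
  have hg : h ^ l ∈ centralizer (D : Set G) := pow_mem hhC l
  obtain ⟨g, hgg⟩ : ∃ g, g = h ^ l := ⟨_, rfl⟩
  rw [← hgg] at hl i2 hg
  have ex : a * h = g⁻¹ * a * g⁻¹⁻¹ := by
    rw [inv_inv, ← i2, ← hl]
    calc a * (g * g) = a * g * (a * a) * g := by rw [Za.sq]; group
      _ = _ := by group
  have Zx : ZZ D (a * h) := ex ▸ Za.conj (inv_mem hg)
  have hdC : ∀ c ∈ centralizer (D : Set G), c * d⁻¹ = d⁻¹ * c := fun c hc => (hc _ (inv_mem hd)).symm
  have e1 : (a * h * u) * z * (a * h * u)⁻¹ = t * d⁻¹ := by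
    calc (a * h * u) * z * (a * h * u)⁻¹ = a * h * (u * z * u⁻¹) * h⁻¹ * a⁻¹ := by group
      _ = (a * h * a) * (h⁻¹ * a) := by rw [← ha, ha']; group
      _ = (h⁻¹ * h⁻¹) * a := by rw [i1]; group
      _ = (a * w * a) * a := by rw [haw, ← hk]; group
      _ = a * (w * d) * d⁻¹ := by rw [mul_assoc _ a a, Za.sq]; group
      _ = t * d⁻¹ := by rw [← hwd, ← mul_assoc, Za.sq, one_mul]
  have heC : a * h * u ∈ centralizer (D : Set G) := mul_mem Zx.cent Zu.cent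
  have Zt : ZZ D (t * d⁻¹) := e1 ▸ Z1.conj heC
  have hztd : z * (t * d⁻¹) = t * d⁻¹ * z := by
    rw [← mul_assoc, hzt, mul_assoc, hdC z Z1.cent, mul_assoc]
  rcases X.split Zx Zu with ⟨m, hm⟩ | ⟨w', d', hw', hwC', hd', hwd', -, -⟩
  · obtain ⟨S', hS', hxS, huS⟩ := X.exists_sylow Zx Zu hm
    have he2 := sq_of_comm Zx.sq Zu.sq (X.comm_of_two Zx Zu hm)
    rw [pow_one, sq] at he2
    obtain ⟨z3, d3, hz3, hd3, e3⟩ := X.exists_om Zx hS' hxS
    obtain ⟨z4, d4, hz4, hd4, e4⟩ := X.exists_om Zu hS' huS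
    obtain ⟨e, he⟩ : ∃ e, e = a * h * u := ⟨_, rfl⟩
    have e5 : e = z3 * z4 * (d3 * d4) := by
      rw [he, e3]
      conv_lhs => rw [e4]
      rw [mul_assoc, ← mul_assoc d3, hz4.mem_cent hS' d3 hd3]; group
    rw [← he] at e1 he2 heC
    have he' : e⁻¹ = e := inv_eq_of_mul_eq_one_right he2
    have e6 : e * (t * d⁻¹) * e⁻¹ = z := by
      rw [← e1, he']
      calc e * (e * z * e) * e = (e * e) * z * (e * e) := by group
        _ = z := by rw [he2]; group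
    have hev : e * (z * t) = z * t * e := by
      have : e * (z * (t * d⁻¹)) * e⁻¹ = z * (t * d⁻¹) := by
        calc e * (z * (t * d⁻¹)) * e⁻¹ = (e * z * e⁻¹) * (e * (t * d⁻¹) * e⁻¹) := by group
          _ = _ := by rw [e1, e6, hztd]
      calc e * (z * t) = e * (z * (t * d⁻¹)) * e⁻¹ * (e * d) := by group
        _ = z * t * e := by rw [this, ← heC d hd]; group
    have hd34 : d3 * d4 ∈ D := mul_mem hd3 hd4
    by_cases h5 : z3 * z4 ∈ D
    · have heD : e ∈ D := e5 ▸ mul_mem h5 hd34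
      apply hcon.2
      have : z = t * d⁻¹ := by rw [← e1, Z1.cent e heD]; group
      rw [hzt]
      conv => arg 2; rw [this, ← mul_assoc, ht.2.1, one_mul]
      exact inv_mem hd
    · have Z5 : ZZ D (z3 * z4) := ⟨h5, S', hS', hz3.mul hz4⟩
      have c1 : z3 * z4 * u = u * (z3 * z4) := ((hz3.mul hz4).2.2 u huS).symm
      have c2 : z3 * z4 * (z * t) = z * t * (z3 * z4) := by
        have : z3 * z4 = e * (d3 * d4)⁻¹ := by rw [e5]; group
        rw [this, mul_assoc, Zv.cent _ (inv_mem hd34), ← mul_assoc, hev, mul_assoc]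
      exact hzu (X.trans Zv Z1 Zu hzv.symm (X.trans Z5 Zv Zu c2 c1))
  · obtain ⟨s, hs, hsw⟩ := X.inv hw' S
    have Zs : ZZ D s := ⟨notD hw' hwC' hs.2.1 hsw, S, hS, hs⟩
    have cj : ∀ c ∈ centralizer (D : Set G), w' * c * w'⁻¹ = a * h * u * c * (a * h * u)⁻¹ := by
      intro c hc
      rw [hwd', mul_assoc w' d', hc d' hd']; group
    have c1 : (w' * z * w'⁻¹) * (w' * s * w'⁻¹) = (w' * s * w'⁻¹) * (w' * z * w'⁻¹) := by
      calc (w' * z * w'⁻¹) * (w' * s * w'⁻¹) = w' * (z * s) * w'⁻¹ := by group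
        _ = _ := by rw [hs.2.2 z hz.1]; group
    rw [cj z Z1.cent, e1] at c1
    have c2 := X.trans Zt Z1 (Zs.conj hwC') hztd.symm c1
    exact not_comm hw'.1 hw'.2.1 hs.2.1 hsw (X.trans Z1 Zs (Zs.conj hwC') (hs.2.2 z hz.1) c2)

end Ctx

/-- the key lemma -/
theorem key (tr : ∀ y : G, YY y → ∀ S S' : Sylow 2 G, ∃ c : G, c * y = y * c ∧ c • S = S') (hex : ∃ y : G, YY y) :
    ∃ y : G, YY y ∧ ∀ (S : Sylow 2 G) (t : G), Om S t → t * y * t = y ∨ t * y * t = y⁻¹ := by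
  obtain ⟨y1, hy1⟩ := hex
  obtain ⟨D, ⟨hD, y, hy, hDy⟩, hmax⟩ := Set.exists_max_image
    {D : Subgroup G | IsPGroup 2 D ∧ ∃ y, YY y ∧ D ≤ 𝐂[y]} (fun D => Nat.card D) (Set.toFinite _)
    ⟨⊥, IsPGroup.of_bot, y1, hy1, bot_le⟩
  have X : Ctx D := ⟨tr, hD, fun y hy D' h1 h2 => hmax D' ⟨h1, y, hy, h2⟩, y, hy, hDy⟩
  obtain ⟨S, hS⟩ := hD.exists_le_sylow
  obtain ⟨z, hz, hzy⟩ := X.inv hy S
  refine ⟨y, hy, fun S' t ht => ?_⟩
  obtain ⟨c, hc, rfl⟩ := tr y hy S' S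
  have h1 : c⁻¹ * y * c = y := by rw [mul_assoc, ← hc]; group
  have h2 : c⁻¹ * y⁻¹ * c = y⁻¹ := by rw [mul_assoc, ← (Commute.inv_right hc).eq]; group
  have hs := ht.smul c
  have e : t * y * t = c⁻¹ * (c * t * c⁻¹ * y * (c * t * c⁻¹)) * c := by
    conv_lhs => rw [← h1]
    group
  obtain ⟨s, hs'⟩ : ∃ s, s = c * t * c⁻¹ := ⟨_, rfl⟩
  rw [← hs'] at hs e
  rcases X.mem_or hy hDy hS hz hzy hs with h | h
  · left; rw [e, mem_cen.1 (hDy h), mul_assoc y, hs.2.1, mul_one, h1]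
  · right
    have h3 : s * y * s = y⁻¹ := by
      calc s * y * s = z * (z * s * y) * s := by rw [← mul_assoc, ← mul_assoc, hz.2.1, one_mul]
        _ = z * y * z * (s * s) := by rw [mem_cen.1 (hDy h)]; group
        _ = y⁻¹ := by rw [hs.2.1, mul_one, hzy]
    rw [e, h3, h2]

end CL.RKey
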