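import Mathlib
import Cfsg.Agent.SOLV.CoprimeGen
import Cfsg.Agent.SOLV.Fitting
import Cfsg.Agent.SOLV.Coprime
import Cfsg.Agent.SIG.Quasisimple

/-! Generation by centralizers of hyperplanes and a nilpotency criterion. -/

set_option autoImplicit false

namespace CL.Shum

open Subgroup Cfsg

variable {X A : Type*} [Group X] [Group A]

/-- The centralizer of the image of `B`. -/
abbrev cB (φ : A →* X) (B : Subgroup A) : Subgroup X := centralizer ((B.map φ : Subgroup X) : Set X)

theorem cB_anti (φ : A →* X) {B C : Subgroup A} (h : B ≤ C) : cB φ C ≤ cB φ B :=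
  centralizer_le (map_mono h)

theorem range_comm (φ : A →* X) (hc : ∀ a b : A, a * b = b * a) : IsMulCommutative φ.range :=
  ⟨⟨by rintro ⟨_, a, rfl⟩ ⟨_, b, rfl⟩; exact Subtype.ext (by simp [← map_mul, hc a b])⟩⟩

theorem range_le_cB (φ : A →* X) (hc : ∀ a b : A, a * b = b * a) (B : Subgroup A) : φ.range ≤ cB φ B := by
  rintro _ ⟨a, rfl⟩ _ ⟨b, -, rfl⟩
  rw [← map_mul, hc, map_mul]

theorem range_le_norm_inf (φ : A →* X) (hc : ∀ a b : A, a * b = b * a) {K : Subgroup X}
    (h : φ.range ≤ normalizer (K : Set X)) (B : Subgroup A) :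
    φ.range ≤ normalizer ((K ⊓ cB φ B : Subgroup X) : Set X) :=
  (le_inf h ((range_le_cB φ hc B).trans le_normalizer)).trans inf_normalizer_le_normalizer_inf

theorem cop_map (φ : A →* X) {K : Subgroup X} (hcop : (Nat.card A).Coprime (Nat.card K)) (B : Subgroup A) :
    (Nat.card (B.map φ)).Coprime (Nat.card K) :=
  hcop.coprime_dvd_left ((card_map_dvd _ _).trans B.card_subgroup_dvd_card)

theorem solv_map (φ : A →* X) (hc : ∀ a b : A, a * b = b * a) (B : Subgroup A) : Group.IsSolvable (B.map φ) :=
  have := isMulCommutative_of_le (range_comm φ hc) (map_le_range φ B)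
  isSolvable_of_isMulCommutative _

theorem le_of_hyp [Finite X] {p : ℕ} (hp : p.Prime) (φ : A →* X) (hc : ∀ a b : A, a * b = b * a)
    (hA : ∀ a : A, a ^ p = 1) {K H : Subgroup X} (hK : φ.range ≤ normalizer (K : Set X))
    (hcop : (Nat.card A).Coprime (Nat.card K)) (h : ∀ B : Subgroup A, B.index ≤ p → K ⊓ cB φ B ≤ H) : K ≤ H := by
  have := range_comm φ hc
  refine coprime_le_of_forall_cyclic_quotient φ.range K H hK
    (by rw [φ.range_eq_map]; exact cop_map φ hcop ⊤) fun B a e => ?_
  refine (inf_le_inf_left _ (centralizer_le (map_comap_le φ B))).trans (h (B.comap φ) ?_)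
  rw [index_comap]
  refine Nat.le_of_dvd hp.pos ((relIndex_dvd_orderOf_of_sup_zpowers e).trans ?_)
  obtain ⟨b, rfl⟩ : a ∈ φ.range := e ▸ mem_sup_right (mem_zpowers a)
  exact orderOf_dvd_of_pow_eq_one (by rw [← map_pow, hA, map_one])

theorem nilp_of_family {A ι : Type} [Group A] {p : ℕ} (hp : p.Prime) (hc : ∀ a b : A, a * b = b * a)
    (hA : ∀ a : A, a ^ p = 1) (n : ℕ) : ∀ {X : Type} [Group X] [Finite X] (φ : A →* X) (N : Subgroup X) [N.Normal]
    (H : ι → Subgroup X), Nat.card N = n → (Nat.card A).Coprime (Nat.card N) → Group.IsSolvable N →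
    ⨆ u, H u = N → (∀ u (B : Subgroup A), B.index ≤ p → ∃ W : Subgroup X, Group.IsNilpotent W ∧ H u ≤ W ∧
      N ⊓ cB φ B ≤ normalizer (W : Set X)) → Group.IsNilpotent N := by
  induction n using Nat.strong_induction_on with
  | _ n ih =>
  intro X _ _ φ N _ H hn hcop hs hH h
  by_cases h0 : N = ⊥
  · subst h0
    infer_instance
  obtain ⟨V, hV, hVN⟩ := exists_isMinNormal_le N h0
  have := hV.normal
  obtain ⟨q, hq, hVq⟩ := hV.exists_isPGroup_of_isSolvable (isSolvable_of_le hVN hs)
  have := Fact.mk hq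
  have hcV : (Nat.card A).Coprime (Nat.card V) := hcop.coprime_dvd_right (card_dvd_of_le hVN)
  have hk : (QuotientGroup.mk' V).ker = V := QuotientGroup.ker_mk' V
  have hn' : (N.map (QuotientGroup.mk' V)).Normal := Normal.map inferInstance _ (QuotientGroup.mk'_surjective V)
  have hq' : Group.IsNilpotent (N.map (QuotientGroup.mk' V)) := by
    refine ih _ ?_ ((QuotientGroup.mk' V).comp φ) _ (fun u => (H u).map (QuotientGroup.mk' V)) rfl
      (hcop.coprime_dvd_right (card_map_dvd _ _)) (isSolvable_map _ _) (by rw [← Subgroup.map_iSup, hH]) fun u B hB => ?_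
    · rw [← hn, ← relIndex_ker, hk, ← (V.subgroupOf N).card_mul_index]
      refine lt_mul_of_one_lt_left (Nat.pos_of_ne_zero index_ne_zero_of_finite) ?_
      rw [Nat.card_congr (subgroupOfEquivOfLe hVN).toEquiv]
      exact (one_lt_card_iff_ne_bot _).2 hV.ne_bot
    · obtain ⟨W, h1, h2, h3⟩ := h u B hB
      refine ⟨W.map _, isNilpotent_map _ _, map_mono h2, ?_⟩
      rw [cB, ← map_map, inf_centralizer_map_of_coprime _ _ _ (hk.le.trans hVN) (by rw [hk]; exact cop_map φ hcV B)
        (Or.inl (solv_map φ hc B))]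
      exact (map_mono h3).trans (le_normalizer_map _)
  have hNV : N ≤ centralizer (V : Set X) := by
    rw [← hH]
    refine iSup_le fun u => le_of_forall_isPGroup_le fun r _ P => ?_
    have hP := P.isPGroup'.map (H u).subtype
    have hPH : (P : Subgroup (H u)).map (H u).subtype ≤ H u := map_subtype_le _
    generalize (P : Subgroup (H u)).map (H u).subtype = R at hP hPH
    have hRN : R ≤ N := hPH.trans (hH ▸ le_iSup H u)
    by_cases e : r = q
    · subst e
      refine (map_le_iff_le_comap.1 (le_pCore_of_le_fittingSubgroup ((map_mono hRN).trans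
        (le_fittingSubgroup hq')) (hP.map (QuotientGroup.mk' V)))).trans (hV.le_centralizer_of_isNilpotent ?_)
      exact ((isPGroup_pCore r _).comap_of_ker_isPGroup _ (by rw [hk]; exact hVq)).isNilpotent
    · refine le_centralizer_iff.1 (le_of_hyp hp φ hc hA (le_normalizer_of_normal) hcV fun B hB => ?_)
      obtain ⟨W, h1, h2, h3⟩ := h u B hB
      have hcR := IsPGroup.coprime_card_of_ne r q e R (V ⊓ W) hP (hVq.to_le inf_le_left)
      refine coprime_le_centralizer_of_trivial_on_factors R _ (V ⊓ W)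
        ((le_inf le_normalizer_of_normal ((hPH.trans h2).trans le_normalizer)).trans
          inf_normalizer_le_normalizer_inf) hcR
        (le_centralizer_of_coprime_of_le_nilpotent h1 inf_le_right (hPH.trans h2) hcR.symm)
        (le_inf ((commutator_mono inf_le_left le_top).trans (commutator_le_left _ _)) ?_)
      exact (commutator_mono ((inf_le_inf_right _ hVN).trans h3) (hPH.trans h2)).trans
        (le_normalizer_iff_commutator_le_right.1 le_rfl)
  obtain ⟨k, hk'⟩ := (isNilpotent_iff_lowerCentralSeries _).1 hq'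
  rw [← map_lowerCentralSeries, Subgroup.map_eq_bot_iff, hk] at hk'
  refine (isNilpotent_iff_lowerCentralSeries _).2 ⟨k + 1, eq_bot_iff.2 ?_⟩
  rw [Subgroup.lowerCentralSeries_succ]
  exact (commutator_mono hk' hNV).trans (commutator_eq_bot_iff_le_centralizer.2 (le_centralizer_iff.1 le_rfl)).le

end CL.Shum
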