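/-
Lie rings spanned by a bounded number of homogeneous subgroups acting nilpotently.
-/
import Mathlib
import Cfsg.Agent.FGS.Kreknin

set_option autoImplicit false

namespace CL.Shum

open CL.Krek

variable {L : Type*} [LieRing L]

/-- The additive span of the brackets. -/
def bk (S T : AddSubgroup L) : AddSubgroup L := AddSubgroup.closure {z | ∃ x ∈ S, ∃ y ∈ T, ⁅x, y⁆ = z}

theorem mem_bk {S T : AddSubgroup L} {x y : L} (hx : x ∈ S) (hy : y ∈ T) : ⁅x, y⁆ ∈ bk S T :=
  AddSubgroup.subset_closure ⟨x, hx, y, hy, rfl⟩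

theorem bk_le {S T P : AddSubgroup L} (h : ∀ x ∈ S, ∀ y ∈ T, ⁅x, y⁆ ∈ P) : bk S T ≤ P :=
  (AddSubgroup.closure_le _).2 (by rintro _ ⟨x, hx, y, hy, rfl⟩; exact h x hx y hy)

theorem bk_mono {S T S' T' : AddSubgroup L} (h1 : S ≤ S') (h2 : T ≤ T') : bk S T ≤ bk S' T' :=
  bk_le fun _ hx _ hy => mem_bk (h1 hx) (h2 hy)

theorem bk_comm (S T : AddSubgroup L) : bk S T ≤ bk T S :=
  bk_le fun x hx y hy => by rw [← lie_skew]; exact neg_mem (mem_bk hy hx)

theorem bk_iSup_le {ι κ : Sort*} {S : ι → AddSubgroup L} {T : κ → AddSubgroup L} {P : AddSubgroup L}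
    (h : ∀ i j, bk (S i) (T j) ≤ P) : bk (⨆ i, S i) (⨆ j, T j) ≤ P := bk_le fun x hx y hy =>
  (iSup_le fun i x hx => (iSup_le fun j _ hy => h i j (mem_bk hx hy) : _ ≤ P.comap (lad x)) hy :
    _ ≤ P.comap (rad y)) hx

theorem bk_sup_le {S S' T P : AddSubgroup L} (h : bk S T ≤ P) (h' : bk S' T ≤ P) : bk (S ⊔ S') T ≤ P :=
  bk_le fun _ hx y hy => (sup_le (fun _ hx => h (mem_bk hx hy)) fun _ hx => h' (mem_bk hx hy) :
    _ ≤ P.comap (rad y)) hx

theorem bk_sup_le' {S T T' P : AddSubgroup L} (h : bk S T ≤ P) (h' : bk S T' ≤ P) : bk S (T ⊔ T') ≤ P :=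
  bk_le fun x hx _ hy => (sup_le (fun _ hy => h (mem_bk hx hy)) fun _ hy => h' (mem_bk hx hy) :
    _ ≤ P.comap (lad x)) hy

theorem bk_bk_le {U P Q W : AddSubgroup L} (h1 : bk (bk U Q) P ≤ W) (h2 : bk U (bk P Q) ≤ W) :
    bk (bk U P) Q ≤ W := bk_le fun _ hx z hz => (bk_le fun x hx y hy => by
  change ⁅⁅x, y⁆, z⁆ ∈ W
  rw [show ⁅⁅x, y⁆, z⁆ = ⁅x, ⁅y, z⁆⁆ + ⁅⁅x, z⁆, y⁆ by rw [lie_lie, ← lie_skew ⁅x, z⁆ y, sub_eq_add_neg]]
  exact add_mem (h2 (mem_bk hx (mem_bk hy hz))) (h1 (mem_bk (mem_bk hx hz) hy)) : _ ≤ W.comap (rad z)) hx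

theorem bk_bot_left (T : AddSubgroup L) : bk ⊥ T = ⊥ :=
  eq_bot_iff.2 (bk_le fun x hx y _ => by rw [AddSubgroup.mem_bot.1 hx, zero_lie]; exact zero_mem _)

/-- `[U, T, …, T]`. -/
def act (U T : AddSubgroup L) (n : ℕ) : AddSubgroup L := (fun V => bk V T)^[n] U

theorem act_succ (U T : AddSubgroup L) (n : ℕ) : act U T (n + 1) = act (bk U T) T n := rfl

theorem act_succ' (U T : AddSubgroup L) (n : ℕ) : act U T (n + 1) = bk (act U T n) T :=
  Function.iterate_succ_apply' _ _ _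

theorem act_add (U T : AddSubgroup L) (m n : ℕ) : act U T (m + n) = act (act U T n) T m :=
  Function.iterate_add_apply _ _ _ _

theorem act_mono {U T U' T' : AddSubgroup L} (h1 : U ≤ U') (h2 : T ≤ T') (n : ℕ) : act U T n ≤ act U' T' n := by
  induction n with
  | zero => exact h1
  | succ n ih => rw [act_succ', act_succ']; exact bk_mono ih h2

theorem act_le {U T W : AddSubgroup L} (h1 : U ≤ W) (h2 : bk W T ≤ W) (n : ℕ) : act U T n ≤ W := by
  induction n with
  | zero => exact h1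
  | succ n ih => rw [act_succ']; exact (bk_mono ih le_rfl).trans h2

theorem act_iSup_le {ι : Sort*} (U : ι → AddSubgroup L) (T : AddSubgroup L) (n : ℕ) :
    act (⨆ i, U i) T n ≤ ⨆ i, act (U i) T n := by
  induction n with
  | zero => exact le_rfl
  | succ n ih =>
    rw [act_succ']
    refine (bk_mono ih (le_iSup (fun _ : Unit => T) ())).trans (bk_iSup_le fun i _ => ?_)
    exact (act_succ' _ _ _).ge.trans (le_iSup (fun i => act (U i) T (n + 1)) i)

theorem act_sup_le (U U' T : AddSubgroup L) (n : ℕ) : act (U ⊔ U') T n ≤ act U T n ⊔ act U' T n := by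
  rw [sup_eq_iSup, sup_eq_iSup]
  refine (act_iSup_le _ _ _).trans (iSup_mono fun b => ?_)
  cases b <;> exact le_rfl

section Comm

variable {V W S : AddSubgroup L} (hV : bk V S ≤ V) (hW : bk W S ≤ W) (hc : bk V (bk S S) ≤ W)
include hV hW hc

theorem act_bk_le {U P Q : AddSubgroup L} (hU : U ≤ V) (hP : P ≤ S) (hQ : Q ≤ S) (n : ℕ) :
    act (bk U P) Q n ≤ bk (act U Q n) P ⊔ W := by
  induction n with
  | zero => exact le_sup_left
  | succ n ih =>
    rw [act_succ', act_succ']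
    exact (bk_mono ih le_rfl).trans (bk_sup_le (bk_bk_le le_sup_left (((bk_mono (act_le hU
      ((bk_mono le_rfl hQ).trans hV) n) (bk_mono hP hQ)).trans hc).trans le_sup_right))
      (((bk_mono le_rfl hQ).trans hW).trans le_sup_right))

theorem act_sup_le_of {P Q : AddSubgroup L} (hP : P ≤ S) (hQ : Q ≤ S) (n : ℕ) :
    ∀ a b, a + b = n → ∀ U ≤ V, act U P a ≤ W → act U Q b ≤ W → act U (P ⊔ Q) n ≤ W := by
  have hW' := (bk_mono le_rfl (sup_le hP hQ)).trans hW
  induction n with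
  | zero =>
    intro a b e U _ h1 _
    obtain rfl : a = 0 := by omega
    exact h1
  | succ n ih =>
    intro a b e U hU h1 h2
    rcases a with _ | a
    · exact act_le h1 hW' _
    rcases b with _ | b
    · exact act_le h2 hW' _
    refine (act_mono (bk_sup_le' le_sup_left le_sup_right : _ ≤ bk U P ⊔ bk U Q) le_rfl n).trans
      ((act_sup_le _ _ _ _).trans (sup_le (ih a (b + 1) (by omega) _ ((bk_mono hU hP).trans hV) h1 ?_)
        (ih (a + 1) b (by omega) _ ((bk_mono hU hQ).trans hV) ?_ h2)))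
    · exact (act_bk_le hV hW hc hU hP hQ _).trans (sup_le ((bk_mono h2 hP).trans hW) le_rfl)
    · exact (act_bk_le hV hW hc hU hQ hP _).trans (sup_le ((bk_mono h1 hQ).trans hW) le_rfl)

theorem act_biSup_le {ι : Type*} {Y : ι → AddSubgroup L} (hY : ∀ i, Y i ≤ S) {n : ℕ}
    (h : ∀ i, act ⊤ (Y i) n = ⊥) (I : Finset ι) : act V (⨆ i ∈ I, Y i) (I.card * n + 1) ≤ W := by
  classical
  induction I using Finset.induction_on with
  | empty => simpa [act] using (bk_comm _ _).trans ((bk_bot_left V).le.trans bot_le)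
  | insert i I hi ih =>
    rw [Finset.iSup_insert, Finset.card_insert_of_notMem hi]
    exact act_sup_le_of hV hW hc (hY i) (iSup₂_le fun i _ => hY i) _ n _ (by ring) V le_rfl
      ((act_mono le_top le_rfl n).trans ((h i).le.trans bot_le)) ih

end Comm

/-- The derived subring. -/
def dr (S : AddSubgroup L) : AddSubgroup L := bk S S

theorem dr_mono {S T : AddSubgroup L} (h : S ≤ T) (s : ℕ) : dr^[s] S ≤ dr^[s] T :=
  Monotone.iterate (fun _ _ h => bk_mono h h) s h

theorem solv_lc (m n s : ℕ) : ∃ N, ∀ {L : Type} [LieRing L] {ι : Type} [Finite ι] (Y : ι → AddSubgroup L),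
    Nat.card ι ≤ m → (∀ i j, ∃ u, bk (Y i) (Y j) ≤ Y u) → (∀ i, act ⊤ (Y i) n = ⊥) →
    dr^[s] (⨆ i, Y i) = ⊥ → act ⊤ (⨆ i, Y i) N = ⊥ := by
  induction s with
  | zero =>
    refine ⟨1, fun Y _ _ _ h => ?_⟩
    rw [show ⨆ i, Y i = ⊥ from h]
    exact eq_bot_iff.2 ((bk_comm _ _).trans (bk_bot_left _).le)
  | succ s ih =>
    obtain ⟨N, hN⟩ := ih
    refine ⟨N * (m * n + 1), fun {L} _ {ι} _ Y hm h1 h2 h3 => ?_⟩
    set S := ⨆ i, Y i
    have hS : bk S S ≤ S := bk_iSup_le fun i j => (h1 i j).elim fun u h => h.trans (le_iSup Y u)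
    have e : ⨆ i, Y i ⊓ bk S S = bk S S := le_antisymm (iSup_le fun _ => inf_le_right)
      (bk_iSup_le fun i j => (h1 i j).elim fun u h => (le_inf h (bk_mono (le_iSup Y i) (le_iSup Y j))).trans
        (le_iSup (fun i => Y i ⊓ bk S S) u))
    have h4 := hN (fun i => Y i ⊓ bk S S) hm (fun i j => (h1 i j).imp fun u h => le_inf
      ((bk_mono inf_le_left inf_le_left).trans h) (bk_mono (inf_le_right.trans hS) (inf_le_right.trans hS)))
      (fun i => eq_bot_iff.2 ((act_mono le_rfl inf_le_left n).trans (h2 i).le)) (e.symm ▸ h3)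
    rw [e] at h4
    have hV : ∀ j, bk (act ⊤ (bk S S) j) S ≤ act ⊤ (bk S S) j := fun j => by
      induction j with
      | zero => exact le_top
      | succ j ih =>
        rw [act_succ']
        exact bk_bk_le (bk_mono ih le_rfl) (bk_mono le_rfl (bk_mono hS le_rfl))
    have := Fintype.ofFinite ι
    have h5 : ∀ j, act ⊤ S (j * (m * n + 1)) ≤ act ⊤ (bk S S) j := fun j => by
      induction j with
      | zero => simp [act]
      | succ j ih =>
        have k := act_biSup_le (hV j) (hV (j + 1)) (act_succ' _ _ _).ge (le_iSup Y) h2 Finset.univ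
        simp only [Finset.mem_univ, iSup_true, Finset.card_univ, Fintype.card_eq_nat_card] at k
        obtain ⟨d, rfl⟩ := Nat.exists_eq_add_of_le hm
        rw [show (j + 1) * ((Nat.card ι + d) * n + 1) = d * n + ((Nat.card ι * n + 1) + j * ((Nat.card ι + d) * n + 1))
          by ring, act_add, act_add]
        exact act_le ((act_mono ih le_rfl _).trans k) (hV _) _
    exact eq_bot_iff.2 ((h5 N).trans h4.le)

variable {n : ℕ}

theorem gen_lie_zero {M : ZMod n → AddSubgroup L} (hM : br M M ≤ M) {S : Set (ZMod n)} {a : ZMod n} {x z : L}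
    (hx : Gen M S a x) (hz : z ∈ M 0) : Gen M S a ⁅x, z⁆ := by
  induction hx with
  | of ha hy => exact Gen.of ha (hM _ (mem_br hy hz (add_zero _)))
  | zero a => rw [zero_lie]; exact Gen.zero a
  | add _ _ h1 h2 => rw [add_lie]; exact h1.add h2
  | neg _ h => rw [neg_lie]; exact h.neg
  | @lie a b c x y hx hy h h1 h2 =>
    rw [show ⁅⁅x, y⁆, z⁆ = ⁅x, ⁅y, z⁆⁆ + ⁅⁅x, z⁆, y⁆ by rw [lie_lie, ← lie_skew ⁅x, z⁆ y, sub_eq_add_neg]]
    exact (hx.lie h2 h).add (h1.lie hy h)

theorem gk_aux (n : ℕ) [NeZero n] (m k : ℕ) : ∃ f, ∀ {L : Type} [LieRing L] (M : ZMod n → AddSubgroup L),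
    br M M ≤ M → act ⊤ (M 0) m = ⊥ → der^[f] M ≤ gen M {c | k ≤ c.val} := by
  induction k with
  | zero => exact ⟨0, fun M _ _ a x hx => Gen.of (Nat.zero_le _) hx⟩
  | succ k ih =>
    obtain ⟨f, ih⟩ := ih
    refine ⟨f + m * (f + 1), fun {L} _ M hM h0 a x hx => ?_⟩
    have hle := der_iterate_le hM
    have h0' : ∀ s, act ⊤ (der^[s] M 0) m = ⊥ := fun s =>
      eq_bot_iff.2 ((act_mono le_rfl ((hle s).1 0) m).trans h0.le)
    rw [Function.iterate_add_apply] at hx
    refine Gen.trans (fun c hc y hy => ?_) (ih _ (hle _).2 (h0' _) a hx)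
    by_cases hc' : k + 1 ≤ c.val
    · exact Gen.of hc' ((hle _).1 c hy)
    have hck : c.val = k := by have : k ≤ c.val := hc; omega
    have key : ∀ j, der^[j * (f + 1)] M c ≤ gen M {c | k + 1 ≤ c.val} c ⊔ act ⊤ (M 0) j := fun j => by
      induction j with
      | zero => exact le_top.trans le_sup_right
      | succ j ihj =>
        rw [show (j + 1) * (f + 1) = (f + j * (f + 1)) + 1 by ring, Function.iterate_succ_apply',
          Function.iterate_add_apply]
        set M' := der^[j * (f + 1)] M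
        have hM' : br M' M' ≤ M' := (hle _).2
        refine br_le fun u v x y huv hx hy => ?_
        have h5 := Gen.lie_mem hM' (S := {c | k ≤ c.val})
          (P := fun d => if d = c then gen M {c | k + 1 ≤ c.val} c ⊔ act ⊤ (M 0) (j + 1) else ⊤) (by
            intro b d w z hw hd hz
            split_ifs with hbd
            · by_cases hd' : k + 1 ≤ d.val
              · refine AddSubgroup.mem_sup_left (Gen.lie (Gen.of ?_ ((hle _).1 _ hw)) (Gen.of hd' ((hle _).1 _ hz)) hbd)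
                change k + 1 ≤ b.val
                have h6 := ZMod.val_add b d
                rw [hbd, hck] at h6
                have h7 := ZMod.val_lt d
                by_contra h8
                by_cases h9 : b.val + d.val < n
                · rw [Nat.mod_eq_of_lt h9] at h6
                  omega
                · rw [Nat.mod_eq_sub_mod (by omega), Nat.mod_eq_of_lt (by omega)] at h6
                  omega
              · have hdc : d = c := ZMod.val_injective n (by have : k ≤ d.val := hd; omega)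
                have hb : b = 0 := by simpa [hdc] using hbd
                subst hdc hb
                exact (bk_sup_le ((bk_le fun x hx y hy => gen_lie_zero hM hx hy).trans le_sup_left)
                  ((act_succ' _ _ _).ge.trans le_sup_right)) (bk_comm _ _ (mem_bk ((hle _).1 _ hw) (ihj hz)))
            · trivial) (ih M' hM' (h0' _) v hy) u x ((der_iterate_le hM' _).1 u hx)
        simpa [huv] using h5
    have := key m hy
    rwa [h0, sup_bot_eq] at this

theorem dr_iSup_le (M : ZMod n → AddSubgroup L) (s : ℕ) : dr^[s] (⨆ a, M a) ≤ ⨆ a, der^[s] M a := by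
  induction s with
  | zero => exact le_rfl
  | succ s ih =>
    simp only [Function.iterate_succ_apply']
    exact (bk_mono ih ih).trans (bk_le fun _ hx _ hy => lie_mem_iSup hx hy)

/-- Kreknin's theorem for a zero component acting nilpotently. -/
theorem gk (n : ℕ) [NeZero n] (m : ℕ) : ∃ f, ∀ {L : Type} [LieRing L] (M : ZMod n → AddSubgroup L),
    br M M ≤ M → act ⊤ (M 0) m = ⊥ → dr^[f] (⨆ a, M a) = ⊥ := by
  obtain ⟨f, h⟩ := gk_aux n m n
  refine ⟨f, fun M h1 h2 => eq_bot_iff.2 ((dr_iSup_le M f).trans (iSup_le fun a x hx => ?_))⟩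
  have k := h M h1 h2 a hx
  rw [show {c : ZMod n | n ≤ c.val} = ∅ from Set.eq_empty_of_forall_notMem fun c => (ZMod.val_lt c).not_ge] at k
  exact Gen.eq_zero k

theorem dr_sup_le {I J : AddSubgroup L} (h1 : bk J I ≤ J) (h2 : bk J J ≤ J) (h3 : bk I I ≤ I) (s : ℕ) :
    dr^[s] (I ⊔ J) ≤ dr^[s] I ⊔ J ∧ dr^[s] I ≤ I := by
  induction s with
  | zero => exact ⟨le_rfl, le_rfl⟩
  | succ s ih =>
    simp only [Function.iterate_succ_apply']
    have k := (bk_mono le_rfl ih.2).trans h1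
    exact ⟨(bk_mono ih.1 ih.1).trans (bk_sup_le (bk_sup_le' le_sup_left (((bk_comm _ _).trans k).trans le_sup_right))
      ((bk_sup_le' k h2).trans le_sup_right)), (bk_mono ih.2 ih.2).trans h3⟩

theorem dr_biSup {ι : Type*} {Z : ι → AddSubgroup L} (h1 : ∀ i j, bk (Z i) (Z j) ≤ Z i) {s : ℕ}
    (h2 : ∀ i, dr^[s] (Z i) = ⊥) (I : Finset ι) : dr^[I.card * s] (⨆ i ∈ I, Z i) = ⊥ := by
  classical
  induction I using Finset.induction_on with
  | empty => simp
  | insert i I hi ih =>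
    have k : ∀ T : AddSubgroup L, (∀ j, bk (Z j) T ≤ Z j) → bk (⨆ i ∈ I, Z i) T ≤ ⨆ i ∈ I, Z i := fun T hT => by
      rw [iSup_subtype']
      exact (bk_mono le_rfl (le_iSup (fun _ : Unit => T) ())).trans
        (bk_iSup_le fun j _ => (hT j).trans (le_iSup (fun j : I => Z j) j))
    rw [Finset.iSup_insert, Finset.card_insert_of_notMem hi, add_mul, one_mul, Function.iterate_add_apply]
    refine eq_bot_iff.2 ((dr_mono ((dr_sup_le (k _ fun j => h1 j i) (k _ fun j => ?_) (h1 i i) s).1.trans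
      (by rw [h2, bot_sup_eq])) _).trans ih.le)
    rw [iSup_subtype']
    exact (bk_mono (le_iSup (fun _ : Unit => Z j) ()) le_rfl).trans (bk_iSup_le fun _ _ => h1 _ _)

theorem dr_eq_bot_of_le {S : AddSubgroup L} {s t : ℕ} (h : dr^[s] S = ⊥) (hst : s ≤ t) : dr^[t] S = ⊥ := by
  obtain ⟨d, rfl⟩ := Nat.exists_eq_add_of_le' hst
  rw [Function.iterate_add_apply, h, Function.iterate_fixed (f := dr) (bk_bot_left _)]

theorem graded_aux (p : ℕ) [NeZero p] (m n s j : ℕ) : ∃ g, ∀ {L : Type} [LieRing L] {ι σ : Type} [Finite ι]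
    (Y : ι → AddSubgroup L) (w : ι → σ → ZMod p), Nat.card ι ≤ m →
    (∀ i j, ∃ u, w u = w i + w j ∧ bk (Y i) (Y j) ≤ Y u) → (∀ i, act ⊤ (Y i) n = ⊥) →
    dr^[s] (⨆ i : {i // w i = 0}, Y i) = ⊥ →
    ∀ D : Finset σ, D.card = j → dr^[g] (⨆ i : {i // ∀ a ∉ D, w i a = 0}, Y i) = ⊥ := by
  induction j with
  | zero =>
    refine ⟨s, fun Y w _ _ _ h D hD => eq_bot_iff.2 ((dr_mono (iSup_le fun i => ?_) s).trans h.le)⟩
    exact le_iSup (fun i : {i // w i = 0} => Y i) ⟨i, funext fun a => i.2 a (by simp [Finset.card_eq_zero.1 hD])⟩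
  | succ j ih =>
    classical
    obtain ⟨g, ih⟩ := ih
    obtain ⟨N, hN⟩ := solv_lc m n g
    obtain ⟨f, hf⟩ := gk p N
    refine ⟨f, fun {L} _ {ι σ} _ Y w hm h1 h2 h3 D hD => ?_⟩
    obtain ⟨a, D, ha, rfl, hD'⟩ := Finset.card_eq_succ.1 hD
    have k := hN (fun i : {i // ∀ a ∉ D, w i a = 0} => Y i) ((Finite.card_subtype_le _).trans hm)
      (fun i j => (h1 i j).elim fun u h => ⟨⟨u, fun b hb => by rw [h.1, Pi.add_apply, i.2 b hb, j.2 b hb, add_zero]⟩,
        h.2⟩) (fun i => h2 i) (ih Y w hm h1 h2 h3 D hD')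
    refine eq_bot_iff.2 ((dr_mono (iSup_le fun i => ?_) f).trans (hf
      (fun c => ⨆ i : {i // (∀ b ∉ insert a D, w i b = 0) ∧ w i a = c}, Y i) (fun c => br_le fun u v x y e hx hy =>
        bk_iSup_le (fun i j => ?_) (mem_bk hx hy)) (eq_bot_iff.2 ((act_mono le_rfl (iSup_le fun i => ?_) N).trans
          k.le))).le)
    · exact le_iSup_of_le (w i a) (le_iSup_of_le ⟨i, i.2, rfl⟩ le_rfl)
    · obtain ⟨t, h4, h5⟩ := h1 i j
      exact h5.trans (le_iSup_of_le ⟨t, fun b hb => by rw [h4, Pi.add_apply, i.2.1 b hb, j.2.1 b hb, add_zero],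
        by rw [h4, Pi.add_apply, i.2.2, j.2.2, e]⟩ le_rfl)
    · refine le_iSup_of_le ⟨i, fun b hb => ?_⟩ le_rfl
      by_cases e : b = a
      · exact e ▸ i.2.2
      · exact i.2.1 b (by simp [e, hb])

/-- The combinatorial nilpotency theorem. -/
theorem graded (p : ℕ) [NeZero p] (m n s j : ℕ) : ∃ N, ∀ {L : Type} [LieRing L] {ι σ : Type} [Finite ι] [Finite σ]
    (Y Z : ι → AddSubgroup L) (w : ι → σ → ZMod p), Nat.card ι ≤ m → Nat.card σ = j →
    (∀ i j, ∃ u, w u = w i + w j ∧ bk (Y i) (Y j) ≤ Y u) → (∀ i, act ⊤ (Y i) n = ⊥) →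
    (∀ i, w i = 0 → Y i ≤ Z i) → (∀ i j, bk (Z i) (Z j) ≤ Z i) → (∀ i, dr^[s] (Z i) = ⊥) →
    act ⊤ (⨆ i, Y i) N = ⊥ := by
  obtain ⟨g, hg⟩ := graded_aux p m n (m * s) j
  obtain ⟨N, hN⟩ := solv_lc m n g
  refine ⟨N, fun {L} _ {ι σ} _ _ Y Z w hm hj h1 h2 h3 h4 h5 => hN Y hm (fun i j => (h1 i j).imp fun _ h => h.2) h2 ?_⟩
  have := Fintype.ofFinite ι
  have := Fintype.ofFinite σ
  refine eq_bot_iff.2 ((dr_mono (iSup_le fun i => ?_) g).trans (hg Y w hm h1 h2 (eq_bot_iff.2 ((dr_mono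
    (iSup_le fun i => ?_) _).trans (dr_eq_bot_of_le (dr_biSup h4 h5 Finset.univ) (Nat.mul_le_mul_right _ ?_)).le))
    Finset.univ (by rw [← hj, Finset.card_univ, Nat.card_eq_fintype_card])).le)
  · exact le_iSup_of_le ⟨i, fun a ha => (ha (Finset.mem_univ a)).elim⟩ le_rfl
  · exact (h3 i i.2).trans (le_iSup₂_of_le i.1 (Finset.mem_univ _) le_rfl)
  · rwa [Finset.card_univ, ← Nat.card_eq_fintype_card]

end CL.Shum
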