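import Mathlib
import Cfsg.Agent.FGS.HKK
import Cfsg.Agent.FGS.ShumLie

/-! A nilpotency bound for Lie rings with a coprime elementary abelian group of operators. -/

set_option autoImplicit false

open scoped TensorProduct

namespace CL.Shum

open CL.Krek CL.GrLie

/-- The `B`-average of every element of `T` lies in `W`. -/
def Av {A L : Type*} [Group A] [AddCommGroup L] (F : A → L → L) (B : Subgroup A) (T W : AddSubgroup L) : Prop :=
  ∀ _ : Fintype B, ∀ z ∈ T, ∑ b : B, F b z ∈ W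

theorem Av.mem_of_fix {A L : Type*} [Group A] [Finite A] [AddCommGroup L] {F : A → L → L} {B : Subgroup A}
    {T W : AddSubgroup L} (h : Av F B T W) {N : ℕ} (hN : N.Coprime (Nat.card A)) (hNx : ∀ x : L, N • x = 0)
    {z : L} (hz : z ∈ T) (hf : ∀ b ∈ B, F b z = z) : z ∈ W := by
  have := Fintype.ofFinite B
  obtain ⟨v, hv⟩ := eq_zsmul_of_coprime (hN.coprime_dvd_right B.card_subgroup_dvd_card) hNx
  have h1 := h this z hz
  rw [Finset.sum_congr rfl fun b _ => hf b.1 b.2, Finset.sum_const, Finset.card_univ,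
    ← Nat.card_eq_fintype_card] at h1
  rw [hv z]
  exact zsmul_mem h1 v

section alg

variable {R L A : Type} [CommRing R] [LieRing L] [LieAlgebra R L] [Group A] {p : ℕ}

theorem proj (hp : p.Prime) {w : R} (hw : ∑ i ∈ Finset.range p, w ^ i = 0) {f : Module.End R L}
    (hFp : f ^ p = 1) {N : ℕ} (hN : N.Coprime p) (hNx : ∀ x : L, N • x = 0) {T P : AddSubgroup L}
    (h1 : ∀ x ∈ T, w • x ∈ T) (h2 : ∀ x ∈ T, f x ∈ T)
    (h : ∀ i : ZMod p, ∀ x ∈ T, f x = w ^ i.val • x → x ∈ P) : T ≤ P := by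
  have : Fact p.Prime := ⟨hp⟩
  obtain ⟨v, hv⟩ := eq_zsmul_of_coprime hN hNx
  have hwp : w ^ p = 1 := by
    have := mul_geom_sum w p
    rw [hw, mul_zero] at this
    exact (sub_eq_zero.1 this.symm)
  have k1 : ∀ k, ∀ x ∈ T, w ^ k • x ∈ T := fun k => by
    induction k with
    | zero => simp
    | succ k ih => exact fun x hx => by rw [pow_succ, mul_smul]; exact ih _ (h1 x hx)
  have k2 : ∀ k, ∀ x ∈ T, (f ^ k) x ∈ T := fun k => by
    induction k with
    | zero => simp
    | succ k ih => exact fun x hx => by rw [pow_succ, Module.End.mul_apply]; exact ih _ (h2 x hx)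
  intro x hx
  have h1 : ∀ i : ZMod p, ∑ j : ZMod p, w ^ (-(i * j)).val • (f ^ j.val) x ∈ P := by
    intro i
    refine h i _ (sum_mem fun j _ => k1 _ _ (k2 _ _ hx)) ?_
    rw [map_sum, Finset.smul_sum, ← Equiv.sum_comp (Equiv.addRight (1 : ZMod p))
      (fun j : ZMod p => w ^ i.val • w ^ (-(i * j)).val • (f ^ j.val) x)]
    refine Finset.sum_congr rfl fun j _ => ?_
    simp only [Equiv.coe_addRight]
    rw [smul_smul, ← pow_val_add hwp, map_smul, add_comm j 1,
      pow_val_add hFp, ZMod.val_one, pow_one, Module.End.mul_apply]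
    congr 3
    ring
  have h2 : ∑ i : ZMod p, ∑ j : ZMod p, w ^ (-(i * j)).val • (f ^ j.val) x = p • x := by
    rw [Finset.sum_comm, Finset.sum_eq_single (0 : ZMod p)]
    · simp
    · intro j _ hj
      rw [← Finset.sum_smul]
      have : ∑ i : ZMod p, w ^ (-(i * j)).val = ∑ i : ZMod p, w ^ i.val := by
        rw [← Equiv.sum_comp (Equiv.mulRight₀ (-j) (neg_ne_zero.2 hj))
          (fun i : ZMod p => w ^ i.val)]
        simp
      rw [this, sum_zmod (fun i => w ^ i), hw, zero_smul]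
    · simp
  rw [hv x, ← h2]
  exact zsmul_mem (sum_mem fun i _ => h1 i) v

/-- Simultaneous eigenspace. -/
def Wt (F : A →* Module.End R L) (w : R) (D : Finset A) (ν : A → ZMod p) : AddSubgroup L where
  carrier := {x | ∀ a ∈ D, F a x = w ^ (ν a).val • x}
  zero_mem' := by simp
  add_mem' := fun {x y} hx hy a ha => by rw [map_add, hx a ha, hy a ha, smul_add]
  neg_mem' := fun {x} hx a ha => by rw [map_neg, hx a ha, smul_neg]

theorem decomp (hp : p.Prime) {w : R} (hw : ∑ i ∈ Finset.range p, w ^ i = 0) (F : A →* Module.End R L)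
    (hc : ∀ a b : A, a * b = b * a) (hA : ∀ a : A, a ^ p = 1)
    {N : ℕ} (hN : N.Coprime p) (hNx : ∀ x : L, N • x = 0) {T : AddSubgroup L}
    (h1 : ∀ x ∈ T, w • x ∈ T) (h2 : ∀ a, ∀ x ∈ T, F a x ∈ T) (D : Finset A) :
    T ≤ ⨆ ν : A → ZMod p, T ⊓ Wt F w D ν := by
  classical
  induction D using Finset.induction_on with
  | empty => exact le_iSup_of_le 0 (le_inf le_rfl fun x _ a ha => by simp at ha)
  | insert a D ha ih =>
    refine ih.trans (iSup_le fun ν => proj hp hw (f := F a) (by rw [← map_pow, hA, map_one]) hN hNx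
      (fun x hx => ⟨h1 x hx.1, fun b hb => by rw [map_smul, hx.2 b hb, smul_comm]⟩)
      (fun x hx => ⟨h2 a x hx.1, fun b hb => by
        rw [← Module.End.mul_apply, ← map_mul, hc, map_mul, Module.End.mul_apply, hx.2 b hb, map_smul]⟩)
      fun i x hx e => ?_)
    refine le_iSup (fun ν => T ⊓ Wt F w (insert a D) ν) (Function.update ν a i) ⟨hx.1, fun b hb => ?_⟩
    rcases Finset.mem_insert.1 hb with rfl | hb'
    · rwa [Function.update_self]
    · rw [Function.update_of_ne (by rintro rfl; exact ha hb')]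
      exact hx.2 b hb'

theorem exists_fix [Fintype A] [NeZero p] (F : A →* Module.End R L) (w : R) (ν : A → ZMod p) :
    ∃ B : Subgroup A, B.index ≤ p ∧ ∀ z ∈ Wt F w Finset.univ ν, ∀ b ∈ B, F b z = z := by
  classical
  let B : Subgroup A :=
    { carrier := {b | ∀ z ∈ Wt F w Finset.univ ν, F b z = z}
      one_mem' := fun z _ => by simp
      mul_mem' := fun {a b} ha hb z hz => by rw [map_mul, Module.End.mul_apply, hb z hz, ha z hz]
      inv_mem' := fun {a} ha z hz => by
        conv_lhs => rw [← ha z hz]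
        rw [← Module.End.mul_apply, ← map_mul, inv_mul_cancel, map_one, Module.End.one_apply] }
  refine ⟨B, ?_, fun z hz b hb => hb z hz⟩
  have := Nat.card_le_card_of_surjective
    (fun c : ZMod p => if h : ∃ a, ν a = c then (h.choose : A ⧸ B) else ((1 : A) : A ⧸ B)) (by
      rintro ⟨a⟩
      have h : ∃ b, ν b = ν a := ⟨a, rfl⟩
      refine ⟨ν a, (dif_pos h).trans (QuotientGroup.eq.2 fun z hz => ?_)⟩
      have e : F a z = F h.choose z := by rw [hz a (Finset.mem_univ _), hz _ (Finset.mem_univ _), h.choose_spec]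
      rw [map_mul, Module.End.mul_apply, e,
        ← Module.End.mul_apply, ← map_mul, inv_mul_cancel, map_one, Module.End.one_apply])
  rwa [Nat.card_zmod] at this

end alg

theorem alg_bound {p : ℕ} (hp : p.Prime) (m n s j : ℕ) : ∃ N, ∀ {R L A ι : Type} [CommRing R] [LieRing L]
    [LieAlgebra R L] [Group A] [Finite A] [Finite ι] (w : R) (F : A →* Module.End R L) (X Z : ι → AddSubgroup L)
    (N₀ : ℕ), ∑ i ∈ Finset.range p, w ^ i = 0 → (∀ a b : A, a * b = b * a) → (∀ a : A, a ^ p = 1) →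
    N₀.Coprime p → N₀.Coprime (Nat.card A) → (∀ x : L, N₀ • x = 0) → Nat.card ι ≤ m → Nat.card A = j →
    (∀ a x y, F a ⁅x, y⁆ = ⁅F a x, F a y⁆) → ⨆ u, X u = ⊤ → (∀ u, ∀ x ∈ X u, w • x ∈ X u) →
    (∀ u a, ∀ x ∈ X u, F a x ∈ X u) →
    (∀ u v (B : Subgroup A), B.index ≤ p → ∃ t, Av (fun a => F a) B (bk (X u) (X v)) (X t)) →
    (∀ u, act ⊤ (X u) n = ⊥) → (∀ u, Av (fun a => F a) ⊤ (X u) (Z u)) → (∀ u v, bk (Z u) (Z v) ≤ Z u) →
    (∀ u, dr^[s] (Z u) = ⊥) → act (⊤ : AddSubgroup L) ⊤ N = ⊥ := by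
  have : NeZero p := ⟨hp.ne_zero⟩
  obtain ⟨N, hN⟩ := graded p (m * p ^ j) n s j
  refine ⟨N, fun {R L A ι} _ _ _ _ _ _ w F X Z N₀ hw hc hA h1 h2 h3 hm hj hF ht hXw hXF m1 m2 m3 m4 m5 => ?_⟩
  have := Fintype.ofFinite A
  have hwp : w ^ p = 1 := by
    have := mul_geom_sum w p
    rw [hw, mul_zero] at this
    exact (sub_eq_zero.1 this.symm)
  refine eq_bot_iff.2 ((act_mono le_rfl ?_ N).trans (hN
    (fun i : ι × (A → ZMod p) => X i.1 ⊓ Wt F w Finset.univ i.2) (fun i => Z i.1) (fun i => i.2) ?_ hj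
    (fun i k => ?_) (fun i => eq_bot_iff.2 ((act_mono le_rfl inf_le_left n).trans (m2 _).le))
    (fun i hi x hx => (m3 i.1).mem_of_fix h2 h3 hx.1 fun b _ => ?_) (fun i k => m4 _ _) fun i => m5 _).le)
  · rw [← ht]
    exact iSup_le fun u => (decomp hp hw F hc hA h1 h3 (hXw u) (hXF u) Finset.univ).trans
      (iSup_le fun ν => le_iSup_of_le (u, ν) le_rfl)
  · rw [Nat.card_prod, Nat.card_fun, Nat.card_zmod, hj]
    exact Nat.mul_le_mul_right _ hm
  · obtain ⟨B, hB, hf⟩ := exists_fix F w (i.2 + k.2)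
    obtain ⟨t, ht⟩ := m1 i.1 k.1 B hB
    refine ⟨(t, i.2 + k.2), rfl, bk_le fun x hx y hy => ?_⟩
    have e : ⁅x, y⁆ ∈ Wt F w Finset.univ (i.2 + k.2) := fun a ha => by
      rw [hF, hx.2 a ha, hy.2 a ha, smul_lie, lie_smul, smul_smul, Pi.add_apply, pow_val_add hwp]
    exact ⟨ht.mem_of_fix h2 h3 (mem_bk hx.1 hy.1) (hf _ e), e⟩
  · have := hx.2 b (Finset.mem_univ _)
    simpa [show i.2 = 0 from hi] using this

section ten

variable (R : Type) {L : Type} [CommRing R] [LieRing L]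

/-- The extension of an additive subgroup to `R ⊗ L`. -/
def ext (T : AddSubgroup L) : AddSubgroup (R ⊗[ℤ] L) :=
  AddSubgroup.closure {z | ∃ r : R, ∃ x ∈ T, r ⊗ₜ[ℤ] x = z}

variable {R}

theorem tmul_mem_ext (r : R) {T : AddSubgroup L} {x : L} (hx : x ∈ T) : r ⊗ₜ[ℤ] x ∈ ext R T :=
  AddSubgroup.subset_closure ⟨r, x, hx, rfl⟩

theorem ext_le {T : AddSubgroup L} {P : AddSubgroup (R ⊗[ℤ] L)} (h : ∀ r : R, ∀ x ∈ T, r ⊗ₜ[ℤ] x ∈ P) :
    ext R T ≤ P := (AddSubgroup.closure_le _).2 (by rintro _ ⟨r, x, hx, rfl⟩; exact h r x hx)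

theorem ext_mono {S T : AddSubgroup L} (h : S ≤ T) : ext R S ≤ ext R T :=
  ext_le fun r _ hx => tmul_mem_ext r (h hx)

theorem ext_bot : ext R (⊥ : AddSubgroup L) = ⊥ :=
  eq_bot_iff.2 (ext_le fun r x hx => by rw [AddSubgroup.mem_bot.1 hx]; simp)

theorem ext_top : ext R (⊤ : AddSubgroup L) = ⊤ := eq_top_iff.2 fun z _ => by
  induction z with
  | zero => exact zero_mem _
  | add x y hx hy => exact add_mem (hx trivial) (hy trivial)
  | tmul r x => exact tmul_mem_ext r trivial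

theorem ext_iSup {ι : Type} (X : ι → AddSubgroup L) : ext R (⨆ u, X u) ≤ ⨆ u, ext R (X u) :=
  ext_le fun r x hx => (show ⨆ u, X u ≤ (⨆ u, ext R (X u)).comap (TensorProduct.mk ℤ R L r).toAddMonoidHom from
    iSup_le fun u _ hy => le_iSup (fun u => ext R (X u)) u (tmul_mem_ext r hy)) hx

theorem bk_ext (S T : AddSubgroup L) : bk (ext R S) (ext R T) ≤ ext R (bk S T) := by
  refine bk_le fun x hx y hy => ?_
  induction hx using AddSubgroup.closure_induction with
  | zero => simp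
  | add x x' _ _ h h' => rw [add_lie]; exact add_mem h h'
  | neg x _ h => rw [neg_lie]; exact neg_mem h
  | mem x h =>
    obtain ⟨r, a, ha, rfl⟩ := h
    induction hy using AddSubgroup.closure_induction with
    | zero => simp
    | add x x' _ _ h h' => rw [lie_add]; exact add_mem h h'
    | neg x _ h => rw [lie_neg]; exact neg_mem h
    | mem x h =>
      obtain ⟨r', b, hb, rfl⟩ := h
      simpa using tmul_mem_ext (r * r') (mem_bk ha hb)

theorem act_ext (U T : AddSubgroup L) (n : ℕ) : act (ext R U) (ext R T) n ≤ ext R (act U T n) := by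
  induction n with
  | zero => exact le_rfl
  | succ n ih => rw [act_succ', act_succ']; exact (bk_mono ih le_rfl).trans (bk_ext _ _)

theorem dr_ext (T : AddSubgroup L) (n : ℕ) : dr^[n] (ext R T) ≤ ext R (dr^[n] T) := by
  induction n with
  | zero => exact le_rfl
  | succ n ih =>
    rw [Function.iterate_succ_apply', Function.iterate_succ_apply']
    exact (bk_mono ih ih).trans (bk_ext _ _)

theorem act_le_comap (n : ℕ) : act (⊤ : AddSubgroup L) ⊤ n ≤
    (act (⊤ : AddSubgroup (R ⊗[ℤ] L)) ⊤ n).comap (TensorProduct.mk ℤ R L 1).toAddMonoidHom := by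
  induction n with
  | zero => exact fun _ _ => trivial
  | succ n ih =>
    rw [act_succ', act_succ']
    refine bk_le fun x hx y _ => ?_
    have : (1 : R) ⊗ₜ[ℤ] x ∈ act (⊤ : AddSubgroup (R ⊗[ℤ] L)) ⊤ n := ih hx
    simpa using mem_bk this (AddSubgroup.mem_top ((1 : R) ⊗ₜ[ℤ] y))

theorem lcs_le_act (n : ℕ) : lcs L n ≤ act ⊤ ⊤ n := by
  induction n with
  | zero => exact le_rfl
  | succ n ih =>
    rw [act_succ', lcs, AddSubgroup.closure_le]
    rintro _ ⟨x, hx, y, rfl⟩
    exact mem_bk (ih hx) trivial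

end ten

/-- The nilpotency bound for a Lie ring with operators. -/
theorem lie_bound {p : ℕ} (hp : p.Prime) (m n s j : ℕ) : ∃ N, ∀ {L A ι : Type} [LieRing L]
    [Group A] [Finite A] [Finite ι] (F : A → L →+ L) (X Z : ι → AddSubgroup L) (N₀ : ℕ),
    (∀ a b : A, a * b = b * a) → (∀ a : A, a ^ p = 1) →
    N₀.Coprime p → N₀.Coprime (Nat.card A) → (∀ x : L, N₀ • x = 0) → Nat.card ι ≤ m → Nat.card A = j →
    (∀ x, F 1 x = x) → (∀ a b x, F (a * b) x = F a (F b x)) →
    (∀ a x y, F a ⁅x, y⁆ = ⁅F a x, F a y⁆) → ⨆ u, X u = ⊤ → (∀ u a, ∀ x ∈ X u, F a x ∈ X u) →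
    (∀ u v (B : Subgroup A), B.index ≤ p → ∃ t, Av (fun a => F a) B (bk (X u) (X v)) (X t)) →
    (∀ u, act ⊤ (X u) n = ⊥) → (∀ u, Av (fun a => F a) ⊤ (X u) (Z u)) → (∀ u v, bk (Z u) (Z v) ≤ Z u) →
    (∀ u, dr^[s] (Z u) = ⊥) → lcs L N = ⊥ := by
  obtain ⟨N, hN⟩ := alg_bound hp m n s j
  refine ⟨N, fun {L A ι} _ _ _ _ F X Z N₀ hc hA h1 h2 h3 hm hj e1 e2 hF ht hXF m1 m2 m3 m4 m5 => ?_⟩
  have : Fact p.Prime := ⟨hp⟩
  let f : Polynomial ℤ := Polynomial.cyclotomic p ℤ
  let R := AdjoinRoot f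
  have : Module.Free ℤ R := (Polynomial.cyclotomic.monic p ℤ).free_adjoinRoot
  have : Nontrivial R := AdjoinRoot.nontrivial f (Polynomial.degree_cyclotomic_pos p ℤ hp.pos).ne'
  have hw : ∑ i ∈ Finset.range p, (AdjoinRoot.root f : R) ^ i = 0 := by
    have := AdjoinRoot.eval₂_root f
    simpa [f, Polynomial.cyclotomic_prime, Polynomial.eval₂_finsetSum] using this
  let F' : A →* Module.End R (R ⊗[ℤ] L) :=
    { toFun := fun a => LinearMap.baseChange R (F a).toIntLinearMap
      map_one' := by ext x; simp [e1]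
      map_mul' := fun a b => by ext x; simp [e2] }
  have hF' : ∀ a (r : R) (x : L), F' a (r ⊗ₜ x) = r ⊗ₜ F a x := fun a r x => rfl
  have av : ∀ {B : Subgroup A} {T W : AddSubgroup L}, Av (fun a => F a) B T W →
      Av (fun a => F' a) B (ext R T) (ext R W) := fun {B T W} h _ z hz => by
    have := (show ext R T ≤ (ext R W).comap (∑ b : B, F' b).toAddMonoidHom from ext_le fun r x hx => by
      simpa [hF', ← TensorProduct.tmul_sum] using tmul_mem_ext r (h _ x hx)) hz
    simpa using this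
  have k := hN (AdjoinRoot.root f : R) F' (fun u => ext R (X u)) (fun u => ext R (Z u)) N₀ hw hc hA h1 h2
    (fun x => by
      induction x with
      | zero => simp
      | add x x' hx hx' => rw [nsmul_add, hx, hx', add_zero]
      | tmul a x =>
        rw [← natCast_zsmul, ← TensorProduct.tmul_smul, natCast_zsmul, h3, TensorProduct.tmul_zero]) hm hj
    (fun a x y => by
      induction x with
      | zero => simp
      | add x x' hx hx' => simp [hx, hx']
      | tmul a x =>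
        induction y with
        | zero => simp
        | add y y' hy hy' => simp [hy, hy']
        | tmul b y => simp [hF', hF])
    (eq_top_iff.2 (by rw [← ext_top, ← ht]; exact ext_iSup X))
    (fun u x hx => (show ext R (X u) ≤ (ext R (X u)).comap (DistribSMul.toAddMonoidHom _ (AdjoinRoot.root f : R))
      from ext_le fun r y hy => tmul_mem_ext (_ * r) hy) hx)
    (fun u a x hx => (show ext R (X u) ≤ (ext R (X u)).comap (F' a).toAddMonoidHom
      from ext_le fun r y hy => tmul_mem_ext r (hXF u a y hy)) hx)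
    (fun u v B hB => (m1 u v B hB).imp fun t ht _ z hz => av ht _ z (bk_ext _ _ hz))
    (fun u => eq_bot_iff.2 (by rw [← ext_top, ← ext_bot, ← m2 u]; exact act_ext _ _ _))
    (fun u => av (m3 u)) (fun u v => (bk_ext _ _).trans (ext_mono (m4 u v)))
    (fun u => eq_bot_iff.2 (by rw [← ext_bot, ← m5 u]; exact dr_ext _ _))
  refine eq_bot_iff.2 fun x hx => ?_
  have h2 : (1 : R) ⊗ₜ[ℤ] x ∈ (⊥ : AddSubgroup (R ⊗[ℤ] L)) := k.le (act_le_comap (R := R) N (lcs_le_act N hx))
  simpa using h2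

end CL.Shum
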