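import Mathlib
import Cfsg.Agent.FGS.ShumTen
import Cfsg.Agent.FGS.ShumNil

/-! The class bound for a normal subgroup generated by a suitable family of invariant subgroups. -/

set_option autoImplicit false

open scoped commutatorElement

namespace CL.Shum

open Subgroup Cfsg CL.GrLie

variable {X : Type} [Group X] (N : Subgroup X)

open Classical in
/-- The class of `g` in the `n`-th lower central factor of `N`. -/
noncomputable def iox (n : ℕ) (g : X) : GrL N := if h : g ∈ N then io n (⟨g, h⟩ : N) else 0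

variable {N}

theorem mem_gam {n : ℕ} (g : N) : g ∈ gam N n ↔ (g : X) ∈ N.lowerCentralSeries n := by
  rw [← top_subtype_lowerCentralSeries]
  exact (mem_map_iff_mem N.subtype_injective).symm

theorem iox_coe (n : ℕ) (g : N) : iox N n g = io n g := dif_pos g.2

theorem lcs_lift {n : ℕ} {g : X} (h : g ∈ N.lowerCentralSeries n) : ∃ x : N, x ∈ gam N n ∧ (x : X) = g :=
  ⟨⟨g, lowerCentralSeries_le_self N n h⟩, (mem_gam _).2 h, rfl⟩

theorem iox_mul {n : ℕ} {g h : X} (hg : g ∈ N.lowerCentralSeries n) (hh : h ∈ N.lowerCentralSeries n) :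
    iox N n (g * h) = iox N n g + iox N n h := by
  obtain ⟨g, hg', rfl⟩ := lcs_lift hg
  obtain ⟨h, hh', rfl⟩ := lcs_lift hh
  rw [← coe_mul, iox_coe, iox_coe, iox_coe, io_mul hg' hh']

theorem iox_inv {n : ℕ} {g : X} (hg : g ∈ N.lowerCentralSeries n) : iox N n g⁻¹ = -iox N n g := by
  obtain ⟨g, hg', rfl⟩ := lcs_lift hg
  rw [← coe_inv, iox_coe, iox_coe, io_inv hg']

theorem iox_one (n : ℕ) : iox N n 1 = 0 := by rw [← coe_one, iox_coe, io_one]

theorem lie_iox {i j : ℕ} {g h : X} (hg : g ∈ N.lowerCentralSeries i) (hh : h ∈ N.lowerCentralSeries j) :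
    ⁅g, h⁆ ∈ N.lowerCentralSeries (i + j + 1) ∧ ⁅iox N i g, iox N j h⁆ = iox N (i + j + 1) ⁅g, h⁆ := by
  obtain ⟨g, hg', rfl⟩ := lcs_lift hg
  obtain ⟨h, hh', rfl⟩ := lcs_lift hh
  have e : ⁅(g : X), (h : X)⁆ = (⁅g, h⁆ : N) := by simp [commutatorElement_def]
  rw [e, iox_coe, iox_coe, iox_coe, lie_io hg' hh']
  exact ⟨(mem_gam _).1 (comm_mem hg' hh'), rfl⟩

theorem grL_ext {B : Type*} [AddCommGroup B] {F F' : GrL N →+ B}
    (h : ∀ n, ∀ g ∈ N.lowerCentralSeries n, F (iox N n g) = F' (iox N n g)) : F = F' :=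
  hom_ext fun n g hg => by simpa [iox_coe] using h n g ((mem_gam g).1 hg)

theorem exists_conj [N.Normal] (x : X) : ∃ F : GrL N →+ GrL N,
    (∀ n, ∀ g ∈ N.lowerCentralSeries n, F (iox N n g) = iox N n (x * g * x⁻¹)) ∧ ∀ y z, F ⁅y, z⁆ = ⁅F y, F z⁆ := by
  obtain ⟨F, h1, h2⟩ := exists_map (MulAut.conjNormal x : MulAut N).toMonoidHom
  refine ⟨F, fun n g hg => ?_, h2⟩
  obtain ⟨g, hg', rfl⟩ := lcs_lift hg
  rw [iox_coe, h1 n g hg', ← iox_coe]
  rfl

variable (N) in
/-- The additive subgroup of the Lie ring attached to a subgroup. -/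
noncomputable def XK (K : Subgroup X) : AddSubgroup (GrL N) :=
  AddSubgroup.closure {z | ∃ n, ∃ g ∈ K, g ∈ N.lowerCentralSeries n ∧ iox N n g = z}

theorem mem_XK {K : Subgroup X} {n : ℕ} {g : X} (h1 : g ∈ K) (h2 : g ∈ N.lowerCentralSeries n) :
    iox N n g ∈ XK N K := AddSubgroup.subset_closure ⟨n, g, h1, h2, rfl⟩

theorem XK_le {K : Subgroup X} {P : AddSubgroup (GrL N)}
    (h : ∀ n, ∀ g ∈ K, g ∈ N.lowerCentralSeries n → iox N n g ∈ P) : XK N K ≤ P :=
  (AddSubgroup.closure_le _).2 (by rintro _ ⟨n, g, h1, h2, rfl⟩; exact h n g h1 h2)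

theorem XK_mono {K K' : Subgroup X} (h : K ≤ K') : XK N K ≤ XK N K' := XK_le fun _ _ h1 h2 => mem_XK (h h1) h2

theorem XK_bot : XK N ⊥ = ⊥ := eq_bot_iff.2 (XK_le fun n g h _ => by rw [mem_bot.1 h, iox_one]; exact zero_mem _)

theorem XK_self : XK N N = ⊤ := eq_top_iff.2 fun z _ => by
  induction z using induction_on with
  | h0 => exact zero_mem _
  | hio n g hg => rw [← iox_coe]; exact mem_XK g.2 ((mem_gam g).1 hg)
  | hadd x y hx hy => exact add_mem (hx trivial) (hy trivial)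

theorem bk_XK (K K' : Subgroup X) : bk (XK N K) (XK N K') ≤ XK N ⁅K, K'⁆ := by
  refine bk_le fun x hx y hy => ?_
  induction hx using AddSubgroup.closure_induction with
  | zero => simp
  | add x x' _ _ h h' => rw [add_lie]; exact add_mem h h'
  | neg x _ h => rw [neg_lie]; exact neg_mem h
  | mem x h =>
    obtain ⟨i, a, ha, ha', rfl⟩ := h
    induction hy using AddSubgroup.closure_induction with
    | zero => simp
    | add x x' _ _ h h' => rw [lie_add]; exact add_mem h h'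
    | neg x _ h => rw [lie_neg]; exact neg_mem h
    | mem x h =>
      obtain ⟨j, b, hb, hb', rfl⟩ := h
      rw [(lie_iox ha' hb').2]
      exact mem_XK (commutator_mem_commutator ha hb) (lie_iox ha' hb').1

theorem act_XK (W : Subgroup X) (n : ℕ) : act (XK N W) (XK N W) n ≤ XK N (W.lowerCentralSeries n) := by
  induction n with
  | zero => exact le_rfl
  | succ n ih => rw [act_succ']; exact (bk_mono ih le_rfl).trans (bk_XK _ _)

theorem dr_XK (W : Subgroup X) (n : ℕ) : dr^[n] (XK N W) ≤ XK N (W.lowerCentralSeries n) := by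
  induction n with
  | zero => exact le_rfl
  | succ n ih =>
    rw [Function.iterate_succ_apply']
    exact (bk_mono ih (ih.trans (XK_mono (lowerCentralSeries_le_self W n)))).trans (bk_XK _ _)

/-- The elements of the `n`-th term whose class lies in `P`. -/
def pre (n : ℕ) (P : AddSubgroup (GrL N)) : Subgroup X where
  carrier := {g | g ∈ N.lowerCentralSeries n ∧ iox N n g ∈ P}
  one_mem' := ⟨one_mem _, by rw [iox_one]; exact zero_mem _⟩
  mul_mem' := fun hg hh => ⟨mul_mem hg.1 hh.1, by rw [iox_mul hg.1 hh.1]; exact add_mem hg.2 hh.2⟩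
  inv_mem' := fun hg => ⟨inv_mem hg.1, by rw [iox_inv hg.1]; exact neg_mem hg.2⟩

variable {A : Type} [Group A] [N.Normal] [Finite X]

theorem XK_le_of_hyp {p : ℕ} (hp : p.Prime) (φ : A →* X) (hc : ∀ a b : A, a * b = b * a)
    (hA : ∀ a : A, a ^ p = 1) (hcop : (Nat.card A).Coprime (Nat.card N)) {J : Subgroup X}
    (hJ : φ.range ≤ normalizer (J : Set X)) {P : AddSubgroup (GrL N)}
    (h : ∀ B : Subgroup A, B.index ≤ p → XK N (J ⊓ cB φ B) ≤ P) : XK N J ≤ P :=
  XK_le fun n g h1 h2 => (le_of_hyp (K := J ⊓ N.lowerCentralSeries n) (H := pre n P) hp φ hc hA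
    ((le_inf hJ le_normalizer_of_normal).trans inf_normalizer_le_normalizer_inf)
    (hcop.coprime_dvd_right (card_dvd_of_le (inf_le_right.trans (lowerCentralSeries_le_self N n))))
    (fun B hB x hx => ⟨hx.1.2, h B hB (mem_XK ⟨hx.1.1, hx.2⟩ hx.1.2)⟩) ⟨h1, h2⟩).2

theorem av_XK (φ : A →* X) (hc : ∀ a b : A, a * b = b * a) (hcop : (Nat.card A).Coprime (Nat.card N))
    (F : A → GrL N →+ GrL N)
    (hF : ∀ a n, ∀ g ∈ N.lowerCentralSeries n, F a (iox N n g) = iox N n (φ a * g * (φ a)⁻¹))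
    (B : Subgroup A) {J : Subgroup X} (hJ : φ.range ≤ normalizer (J : Set X)) :
    Av (fun a => F a) B (XK N J) (XK N (J ⊓ cB φ B)) := by
  intro _ z hz
  have e : ∀ z, (∑ b : B, F b) z = ∑ b : B, F b z := fun z => AddMonoidHom.finsetSum_apply _ _ _
  rw [← e]
  refine (show XK N J ≤ (XK N (J ⊓ cB φ B)).comap (∑ b : B, F b) from XK_le fun n g h1 h2 => ?_) hz
  obtain ⟨s, hs, c, hc', rfl⟩ := coprime_exists_commutator_mul_centralizer (B.map φ) (J ⊓ N.lowerCentralSeries n)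
    ((map_le_range φ B).trans ((le_inf hJ le_normalizer_of_normal).trans inf_normalizer_le_normalizer_inf))
    (cop_map φ (hcop.coprime_dvd_right (card_dvd_of_le (inf_le_right.trans (lowerCentralSeries_le_self N n)))) B)
    (Or.inl (solv_map φ hc B)) g ⟨h1, h2⟩
  have hn : (N.lowerCentralSeries n).Normal := inferInstance
  have k : s ∈ pre n (∑ b : B, F b).ker := by
    refine (commutator_le.2 ?_ : _ ≤ pre n (∑ b : B, F b).ker) hs
    rintro x ⟨-, hx⟩ _ ⟨a, ha, rfl⟩
    have e2 : ⁅x, φ a⁆ = x * (φ a * x * (φ a)⁻¹)⁻¹ := by simp [commutatorElement_def, mul_assoc]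
    have h3 := hn.conj_mem x hx (φ a)
    rw [e2]
    refine ⟨mul_mem hx (inv_mem h3), ?_⟩
    rw [iox_mul hx (inv_mem h3), iox_inv h3, AddMonoidHom.mem_ker, map_add, map_neg, e, e, add_neg_eq_zero,
      ← Equiv.sum_comp (Equiv.mulRight (⟨a, ha⟩ : B))]
    refine Finset.sum_congr rfl fun b _ => ?_
    rw [hF _ _ _ hx, hF _ _ _ h3]
    simp [mul_assoc]
  rw [AddSubgroup.mem_comap, iox_mul k.1 hc'.1.2, map_add, k.2, zero_add, e]
  refine sum_mem fun b _ => ?_
  rw [hF _ _ _ hc'.1.2, hc'.2 _ (mem_map_of_mem φ b.2), mul_inv_cancel_right]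
  exact mem_XK ⟨hc'.1.1, hc'.2⟩ hc'.1.2

/-- The class bound. -/
theorem family_bound {p : ℕ} (hp : p.Prime) (m c j : ℕ) : ∃ M, ∀ {X A ι : Type} [Group X] [Finite X] [Group A]
    [Finite A] [Finite ι] (φ : A →* X) (N : Subgroup X) [N.Normal] (H : ι → Subgroup X),
    (∀ a b : A, a * b = b * a) → (∀ a : A, a ^ p = 1) → Nat.card A = j → Nat.card ι ≤ m →
    (Nat.card N).Coprime p → (Nat.card A).Coprime (Nat.card N) → Group.IsSolvable N → ⨆ u, H u = N →
    (∀ u, φ.range ≤ normalizer (H u : Set X)) →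
    (∀ u v (B : Subgroup A), B.index ≤ p → ∃ t, ⁅H u, H v⁆ ⊓ cB φ B ≤ H t) →
    (∀ u (B : Subgroup A), B.index ≤ p → ∃ W ≤ N, W.lowerCentralSeries c = ⊥ ∧ H u ≤ W ∧
      N ⊓ cB φ B ≤ normalizer (W : Set X)) → N.lowerCentralSeries M = ⊥ := by
  obtain ⟨M, hM⟩ := lie_bound hp m (c + 1) c j
  refine ⟨M, fun {X A ι} _ _ _ _ _ φ N _ H hc hA hj hm h1 h2 hs hH hi s1 s2 => ?_⟩
  have := nilp_of_family hp hc hA _ φ N H rfl h2 hs hH fun u B hB =>
    (s2 u B hB).imp fun W h => ⟨isNilpotent_of_lowerCentralSeries_eq_bot h.2.1, h.2.2⟩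
  choose F hF hF' using fun a : A => exists_conj (N := N) (φ a)
  have hn : ∀ n, (N.lowerCentralSeries n).Normal := fun _ => inferInstance
  choose W w1 w2 w3 w4 using fun u => s2 u ⊤ (by rw [index_top]; exact hp.one_le)
  have hb : bk (⨆ u, XK N (H u)) (⨆ u, XK N (H u)) ≤ ⨆ u, XK N (H u) := bk_iSup_le fun u v =>
    (bk_XK _ _).trans (XK_le_of_hyp hp φ hc hA h2 (le_normalizer_commutator (hi u) (hi v)) fun B hB =>
      (s1 u v B hB).elim fun t ht => le_iSup_of_le t (XK_mono ht))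
  have h0 : N ≤ pre 0 (⨆ u, XK N (H u)) := by
    refine hH.ge.trans (iSup_le fun u g hg => ?_)
    have hg' : g ∈ N := hH ▸ le_iSup H u hg
    exact ⟨hg', le_iSup (fun u => XK N (H u)) u (mem_XK hg hg')⟩
  have ht : ∀ n, N.lowerCentralSeries n ≤ pre n (⨆ u, XK N (H u)) := fun n => by
    induction n with
    | zero => exact h0
    | succ n ih =>
      refine commutator_le.2 fun g hg x hx => ⟨(lie_iox (j := 0) hg hx).1, ?_⟩
      rw [← (lie_iox (j := 0) hg hx).2]
      exact hb (mem_bk (ih hg).2 (h0 hx).2)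
  have k := hM F (fun u => XK N (H u)) (fun u => XK N (W u ⊓ cB φ ⊤)) _ hc hA h1 h2.symm card_nsmul hm hj
    (fun x => DFunLike.congr_fun (grL_ext (F' := AddMonoidHom.id _) fun n g hg => by simp [hF _ _ _ hg]) x)
    (fun a b x => DFunLike.congr_fun (grL_ext (F' := (F a).comp (F b)) fun n g hg => by
      rw [AddMonoidHom.comp_apply, hF _ _ _ hg, hF _ _ _ hg, hF _ _ _ ((hn n).conj_mem _ hg _)]
      simp [mul_assoc]) x) hF'
    (eq_top_iff.2 (XK_self.ge.trans (XK_le fun n g _ hg => (ht n hg).2)))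
    (fun u a x hx => (show XK N (H u) ≤ (XK N (H u)).comap (F a) from XK_le fun n g hg hg' => by
      rw [AddSubgroup.mem_comap, hF _ _ _ hg']
      exact mem_XK ((mem_normalizer_iff.1 (hi u ⟨a, rfl⟩) g).1 hg) ((hn n).conj_mem _ hg' _)) hx)
    (fun u v B hB => (s1 u v B hB).imp fun t h _ z hz => XK_mono h
      (av_XK φ hc h2 F hF B (le_normalizer_commutator (hi u) (hi v)) _ z (bk_XK _ _ hz)))
    (fun u => ?_) (fun u _ z hz => XK_mono (inf_le_inf_right _ (w3 u)) (av_XK φ hc h2 F hF ⊤ (hi u) _ z hz))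
    (fun u v => (bk_XK _ _).trans (XK_mono (le_normalizer_iff_commutator_le_left.1
      ((le_inf ((inf_le_inf_right _ (w1 v)).trans (w4 u)) (inf_le_right.trans le_normalizer)).trans
        inf_normalizer_le_normalizer_inf))))
    (fun u => eq_bot_iff.2 ((dr_mono (XK_mono inf_le_left) c).trans ((dr_XK _ _).trans (by rw [w2, XK_bot]))))
  · rw [← top_subtype_lowerCentralSeries, show (⊤ : Subgroup N).lowerCentralSeries M = ⊥ from gam_eq_bot_of_lcs k,
      Subgroup.map_bot]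
  · have e : (⊤ : AddSubgroup (GrL N)) ≤ ⨆ B : {B : Subgroup A // B.index ≤ p}, XK N (N ⊓ cB φ B) :=
      XK_self.ge.trans (XK_le_of_hyp hp φ hc hA h2 le_normalizer_of_normal fun B hB =>
        le_iSup (fun B : {B : Subgroup A // B.index ≤ p} => XK N (N ⊓ cB φ B)) ⟨B, hB⟩)
    refine eq_bot_iff.2 ((act_mono e le_rfl _).trans ((act_iSup_le _ _ _).trans (iSup_le fun B => ?_)))
    obtain ⟨V, -, v2, v3, v4⟩ := s2 u B B.2
    rw [act_succ]
    refine (act_mono ((bk_XK _ _).trans (XK_mono ((commutator_mono v4 v3).trans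
      (le_normalizer_iff_commutator_le_right.1 le_rfl)))) (XK_mono v3) c).trans ((act_XK _ _).trans ?_)
    rw [v2, XK_bot]

end CL.Shum
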