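import Mathlib
import Cfsg.Agent.FGS.ShumFam
import Cfsg.Agent.SOLV.Hol
import Cfsg.Agent.SIG.SFMain

/-! Special subgroups and the theorems of Acciarri and Shumyatsky. -/

set_option autoImplicit false

namespace CL.Shum

open Subgroup Cfsg

/-- The degree of the second entry of the commutator. -/
def sg (δ : Bool) (t : ℕ) : ℕ := if δ then t else 0

theorem sg_le (δ : Bool) (t : ℕ) : sg δ t ≤ t := by cases δ <;> simp [sg]

/-- The derived series (`δ = true`) or the lower central series (`δ = false`) of a subgroup. -/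
def wd {X : Type*} [Group X] (δ : Bool) (K : Subgroup X) : ℕ → Subgroup X
  | 0 => K
  | t + 1 => ⁅wd δ K t, if δ then wd δ K t else K⁆

/-- The weight. -/
def wt (δ : Bool) (t : ℕ) : ℕ := if δ then 2 ^ t else t + 1

theorem wt_succ (δ : Bool) (t : ℕ) : wt δ (t + 1) = wt δ t + wt δ (sg δ t) := by
  cases δ <;> simp [wt, sg, pow_succ, mul_two]

section wd

variable {X Y : Type*} [Group X] [Group Y] (δ : Bool)

theorem wd_succ (K : Subgroup X) (t : ℕ) : wd δ K (t + 1) = ⁅wd δ K t, wd δ K (sg δ t)⁆ := by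
  cases δ <;> rfl

theorem wd_map (f : X →* Y) (K : Subgroup X) (t : ℕ) : (wd δ K t).map f = wd δ (K.map f) t := by
  induction t with
  | zero => rfl
  | succ t ih => cases δ <;> simp [wd, map_commutator, ih]

theorem wd_mono {K K' : Subgroup X} (h : K ≤ K') (t : ℕ) : wd δ K t ≤ wd δ K' t := by
  induction t with
  | zero => exact h
  | succ t ih => cases δ; exacts [commutator_mono ih h, commutator_mono ih ih]

theorem le_normalizer_wd {J K : Subgroup X} (h : J ≤ normalizer (K : Set X)) (t : ℕ) :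
    J ≤ normalizer (wd δ K t : Set X) := by
  induction t with
  | zero => exact h
  | succ t ih => cases δ; exacts [le_normalizer_commutator ih h, le_normalizer_commutator ih ih]

theorem wd_le (K : Subgroup X) (t : ℕ) : wd δ K t ≤ K := by
  induction t with
  | zero => exact le_rfl
  | succ t ih =>
    refine le_trans ?_ (le_normalizer_iff_commutator_le_left.1 (le_normalizer (H := K)))
    cases δ; exacts [commutator_mono ih le_rfl, commutator_mono ih ih]

theorem solv_of_wd {K : Subgroup X} (t : ℕ) (h : Group.IsSolvable (wd δ K t)) : Group.IsSolvable K := by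
  induction t with
  | zero => exact h
  | succ t ih =>
    refine ih ?_
    have h1 : ⁅wd δ K t, wd δ K t⁆ ≤ wd δ K (t + 1) := by
      cases δ; exacts [commutator_mono le_rfl (wd_le _ K t), le_rfl]
    have h2 : Group.IsSolvable (_root_.commutator (wd δ K t)) := isSolvable_map_subtype_iff.1
      (by rw [map_subtype_commutator]; exact isSolvable_of_le h1 h)
    exact Group.isSolvable_of_ker_le_range (_root_.commutator (wd δ K t)).subtype Abelianization.of
      (by rw [range_subtype, Abelianization.ker_of])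

theorem wd_true (t : ℕ) : wd true (⊤ : Subgroup X) t = derivedSeries X t := by
  induction t with
  | zero => rfl
  | succ t ih => simp [wd, ih]

theorem wd_false (K : Subgroup X) (t : ℕ) : wd false K t = K.lowerCentralSeries t := by
  induction t with
  | zero => rfl
  | succ t ih => simp [wd, ih]

end wd

section sp

variable {X A : Type} [Group X] [Group A]

/-- The special subgroups. -/
inductive Sp (δ : Bool) (p : ℕ) (φ : A →* X) (G : Subgroup X) : ℕ → Subgroup X → Prop
  | zero (B : Subgroup A) : B.index ≤ p → Sp δ p φ G 0 (G ⊓ cB φ B)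
  | succ (t : ℕ) (J J' : Subgroup X) (B : Subgroup A) : Sp δ p φ G t J → Sp δ p φ G (sg δ t) J' → B.index ≤ p →
      Sp δ p φ G (t + 1) (⁅J, J'⁆ ⊓ cB φ B)

variable {δ : Bool} {p : ℕ} {φ : A →* X} {G : Subgroup X}

theorem Sp.inv (hc : ∀ a b : A, a * b = b * a) (hG : φ.range ≤ normalizer (G : Set X)) {t : ℕ} {J : Subgroup X}
    (h : Sp δ p φ G t J) : φ.range ≤ normalizer (J : Set X) := by
  induction h with
  | zero B _ => exact range_le_norm_inf φ hc hG B
  | succ t J J' B _ _ _ h1 h2 => exact range_le_norm_inf φ hc (le_normalizer_commutator h1 h2) B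

theorem Sp.le_wd {t : ℕ} {J : Subgroup X} (h : Sp δ p φ G t J) :
    ∃ B : Subgroup A, B.index ≤ p ^ wt δ t ∧ J ≤ wd δ (G ⊓ cB φ B) t := by
  induction h with
  | zero B hB => exact ⟨B, by cases δ <;> simpa [wt] using hB, le_rfl⟩
  | succ t J J' B _ _ _ h1 h2 =>
    obtain ⟨C, h3, h4⟩ := h1
    obtain ⟨C', h5, h6⟩ := h2
    refine ⟨C ⊓ C', index_inf_le.trans (by rw [wt_succ, pow_add]; exact Nat.mul_le_mul h3 h5), ?_⟩
    rw [wd_succ]
    exact inf_le_left.trans (commutator_mono (h4.trans (wd_mono δ (inf_le_inf_left _ (cB_anti φ inf_le_left)) _))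
      (h6.trans (wd_mono δ (inf_le_inf_left _ (cB_anti φ inf_le_right)) _)))

theorem Sp.le_wd' {t : ℕ} {J : Subgroup X} (h : Sp δ p φ G t J) : J ≤ wd δ G t :=
  h.le_wd.elim fun _ h => h.2.trans (wd_mono δ inf_le_left t)

theorem Sp.under {t : ℕ} : ∀ {J : Subgroup X}, Sp δ p φ G (t + 1) J → ∃ K, Sp δ p φ G t K ∧ J ≤ K := by
  induction t with
  | zero =>
    intro J h
    have h1 := h.le_wd'.trans (wd_le δ G _)
    cases h with
    | succ _ J J' B _ _ hB => exact ⟨_, .zero B hB, le_inf h1 inf_le_right⟩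
  | succ t ih =>
    intro J h
    cases h with
    | succ _ J J' B h1 h2 hB =>
      obtain ⟨K, h3, h4⟩ := ih h1
      cases δ
      · exact ⟨_, .succ t K J' B h3 h2 hB, inf_le_inf_right _ (commutator_mono h4 le_rfl)⟩
      · obtain ⟨K', h5, h6⟩ := ih h2
        exact ⟨_, .succ t K K' B h3 h5 hB, inf_le_inf_right _ (commutator_mono h4 h6)⟩

theorem Sp.under_sg {t : ℕ} : ∀ {J : Subgroup X}, Sp δ p φ G t J → ∃ K, Sp δ p φ G (sg δ t) K ∧ J ≤ K := by
  cases δ
  · induction t with
    | zero => exact fun h => ⟨_, h, le_rfl⟩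
    | succ t ih => exact fun h => h.under.elim fun K h1 => (ih h1.1).imp fun _ h2 => ⟨h2.1, h1.2.trans h2.2⟩
  · exact fun h => ⟨_, h, le_rfl⟩

theorem Sp.comm {t : ℕ} {J J' : Subgroup X} (h : Sp δ p φ G t J) (h' : Sp δ p φ G t J') {B : Subgroup A}
    (hB : B.index ≤ p) : ∃ K, Sp δ p φ G t K ∧ ⁅J, J'⁆ ⊓ cB φ B ≤ K := by
  obtain ⟨K, h1, h2⟩ := h'.under_sg
  exact (Sp.succ t J K B h h1 hB).under.imp fun _ h3 =>
    ⟨h3.1, (inf_le_inf_right _ (commutator_mono le_rfl h2)).trans h3.2⟩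

theorem wd_le_iSup [Finite X] (hp : p.Prime) (hc : ∀ a b : A, a * b = b * a) (hA : ∀ a : A, a ^ p = 1)
    (hG : φ.range ≤ normalizer (G : Set X)) (hcop : (Nat.card A).Coprime (Nat.card G)) (t : ℕ) :
    wd δ G t ≤ ⨆ J : {J // Sp δ p φ G t J}, J.1 := by
  induction t using Nat.strong_induction_on with
  | _ t ih =>
  rcases t with _ | t
  · exact le_of_hyp hp φ hc hA hG hcop fun B hB => le_iSup_of_le ⟨_, .zero B hB⟩ le_rfl
  rw [wd_succ]
  refine (commutator_mono (ih t t.lt_succ_self) (ih _ (Nat.lt_succ_of_le (sg_le δ t)))).trans ?_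
  set D := ⨆ J : {J // Sp δ p φ G (t + 1) J}, J.1 with hD
  have h1 : ∀ {J J'}, Sp δ p φ G t J → Sp δ p φ G (sg δ t) J' → ⁅J, J'⁆ ≤ D := fun {J J'} h h' =>
    le_of_hyp hp φ hc hA (le_normalizer_commutator (h.inv hc hG) (h'.inv hc hG))
      (hcop.coprime_dvd_right (card_dvd_of_le ((commutator_mono h.le_wd' h'.le_wd').trans
        ((wd_succ δ G t).ge.trans (wd_le δ G _))))) fun B hB => le_iSup_of_le ⟨_, .succ t J J' B h h' hB⟩ le_rfl
  have h2 : ∀ {J'}, Sp δ p φ G (sg δ t) J' → J' ≤ normalizer (D : Set X) := fun {J'} h' =>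
    le_normalizer_iff_commutator_le_right.2 (Comp.commutator_iSup_le
      (fun J => (le_iSup (fun J : {J // Sp δ p φ G (t + 1) J} => J.1) J).trans le_normalizer) fun J => by
        obtain ⟨K, h3, h4⟩ := J.2.under
        rw [commutator_comm]
        exact (commutator_mono h4 le_rfl).trans (h1 h3 h'))
  rw [commutator_comm]
  refine Comp.commutator_iSup_le (fun J => J.2.under_sg.elim fun K h => h.2.trans (h2 h.1)) fun J => ?_
  rw [commutator_comm]
  exact Comp.commutator_iSup_le (fun J' => h2 J'.2) fun J' => h1 J.2 J'.2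

end sp

theorem card_sp (j t : ℕ) : ∃ m, ∀ {X A : Type} [Group X] [Finite X] [Group A] [Finite A] (δ : Bool) (p : ℕ)
    (φ : A →* X) (G : Subgroup X), Nat.card A = j → ∀ s ≤ t, Nat.card {J // Sp δ p φ G s J} ≤ m := by
  have h0 : ∀ {A : Type} [Group A] [Finite A], Nat.card A = j → Nat.card (Subgroup A) ≤ 2 ^ j := fun {A} _ _ h => by
    refine (Nat.card_le_card_of_injective (fun B : Subgroup A => fun a => a ∈ B)
      fun B C e => Subgroup.ext fun a => (congrFun e a).to_iff).trans ?_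
    rw [Nat.card_fun, h]
    simp
  induction t with
  | zero =>
    refine ⟨2 ^ j, fun {X A} _ _ _ _ δ p φ G hj s hs => ?_⟩
    obtain rfl := Nat.le_zero.1 hs
    refine le_trans ?_ ((Finite.card_range_le fun B : Subgroup A => G ⊓ cB φ B).trans (h0 hj))
    refine Nat.card_mono (Set.toFinite _) (s := {J | Sp δ p φ G 0 J}) fun J h => ?_
    cases h with
    | zero B _ => exact ⟨B, rfl⟩
  | succ t ih =>
    obtain ⟨m, hm⟩ := ih
    refine ⟨m + m * (m * 2 ^ j), fun {X A} _ _ _ _ δ p φ G hj s hs => ?_⟩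
    rcases hs.lt_or_eq with hs | rfl
    · exact (hm δ p φ G hj s (Nat.le_of_lt_succ hs)).trans (Nat.le_add_right _ _)
    refine le_trans ?_ ((Finite.card_range_le fun x : {J // Sp δ p φ G t J} × {J // Sp δ p φ G (sg δ t) J} ×
      Subgroup A => ⁅x.1.1, x.2.1.1⁆ ⊓ cB φ x.2.2).trans ?_)
    · refine Nat.card_mono (Set.toFinite _) (s := {J | Sp δ p φ G (t + 1) J}) fun J h => ?_
      cases h with
      | succ _ J J' B h1 h2 _ => exact ⟨(⟨J, h1⟩, ⟨J', h2⟩, B), rfl⟩
    · rw [Nat.card_prod, Nat.card_prod]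
      exact (Nat.mul_le_mul (hm δ p φ G hj t le_rfl) (Nat.mul_le_mul (hm δ p φ G hj _ (sg_le δ t)) (h0 hj))).trans
        (Nat.le_add_left _ _)

theorem ambient_bound {p : ℕ} (hp : p.Prime) (δ : Bool) {k t : ℕ} (c : ℕ) (hk : wt δ t + 2 ≤ k) : ∃ M,
    ∀ {X A : Type} [Group X] [Finite X] [Group A] [Finite A] (φ : A →* X) (G : Subgroup X) [G.Normal],
    (∀ a b : A, a * b = b * a) → (∀ a : A, a ^ p = 1) → Nat.card A = p ^ k → (Nat.card G).Coprime p →
    Group.IsSolvable G → (∀ a : A, a ≠ 1 → (wd δ (G ⊓ centralizer {φ a}) t).lowerCentralSeries c = ⊥) →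
    (wd δ G t).lowerCentralSeries M = ⊥ := by
  obtain ⟨m, hm⟩ := card_sp (p ^ k) t
  obtain ⟨M, hM⟩ := family_bound hp m c (p ^ k)
  refine ⟨M, fun {X A} _ _ _ _ φ G _ hc hA hj h1 hs h => ?_⟩
  have : (wd δ G t).Normal := normalizer_eq_top_iff.1
    (eq_top_iff.2 (le_normalizer_wd δ le_normalizer_of_normal t))
  have hcop : (Nat.card A).Coprime (Nat.card G) := by rw [hj]; exact h1.symm.pow_left _
  have hd := card_dvd_of_le (wd_le δ G t)
  refine hM φ _ (fun J : {J // Sp δ p φ G t J} => J.1) hc hA hj (hm δ p φ G hj t le_rfl) (h1.coprime_dvd_left hd)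
    (hcop.coprime_dvd_right hd) (isSolvable_of_le (wd_le δ G t) hs)
    (le_antisymm (iSup_le fun J => J.2.le_wd') (wd_le_iSup hp hc hA le_normalizer_of_normal hcop t))
    (fun J => J.2.inv hc le_normalizer_of_normal)
    (fun J J' B hB => (J.2.comm J'.2 hB).elim fun K h => ⟨⟨K, h.1⟩, h.2⟩) fun J B hB => ?_
  obtain ⟨C, h2, h3⟩ := J.2.le_wd
  have h4 : C ⊓ B ≠ ⊥ := fun e => by
    have h5 := (index_inf_le (H := C) (K := B)).trans (Nat.mul_le_mul h2 hB)
    rw [e, index_bot, hj, ← pow_succ, pow_le_pow_iff_right₀ hp.one_lt] at h5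
    omega
  obtain ⟨⟨a, ha⟩, h5⟩ := (ne_bot_iff_exists_ne_one).1 h4
  have h6 : ∀ {B : Subgroup A}, a ∈ B → cB φ B ≤ centralizer {φ a} := fun hB =>
    centralizer_le (Set.singleton_subset_iff.2 (mem_map_of_mem φ hB))
  exact ⟨_, wd_mono δ inf_le_left t, h a fun e => h5 (Subtype.ext e),
    h3.trans (wd_mono δ (inf_le_inf_left _ (h6 ha.1)) t),
    le_normalizer_wd δ ((inf_le_inf (wd_le δ G t) (h6 ha.2)).trans le_normalizer) t⟩

theorem main_bound {p : ℕ} (hp : p.Prime) (δ : Bool) {k t : ℕ} (c : ℕ) (h3 : 3 ≤ k) (hk : wt δ t + 2 ≤ k) :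
    ∃ B : ℕ, ∀ (G : Type) [Group G] [Finite G], (Nat.card G).Coprime p →
      ∀ A : Subgroup (MulAut G), IsElementaryAbelian p A → Nat.card ↥A = p ^ k →
        (∀ a ∈ A, a ≠ 1 → (wd δ (⊤ : Subgroup ((a : MulAut G).toMonoidHom.eqLocus (MonoidHom.id G)))
          t).lowerCentralSeries c = ⊥) → (wd δ (⊤ : Subgroup G) t).lowerCentralSeries B = ⊥ := by
  obtain ⟨M, hM⟩ := ambient_bound hp δ c hk
  refine ⟨M, fun G _ _ h1 A hA hj h => ?_⟩
  have := Fact.mk hp
  have hc : ∀ a b : A, a * b = b * a := hA.1.is_comm.comm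
  have hp' : ∀ a : A, a ^ p = 1 := fun a => Subtype.ext (hA.2 a a.2)
  have h2 : ∀ a : A, a ≠ 1 → (wd δ ((⊤ : Subgroup G).map (Hol.inl : G →* Hol A G) ⊓
      centralizer {Hol.inr a}) t).lowerCentralSeries c = ⊥ := fun a ha => by
    have e : (⊤ : Subgroup G) ⊓ actFix G (zpowers a) = (⊤ : Subgroup _).map
        ((a : MulAut G).toMonoidHom.eqLocus (MonoidHom.id G)).subtype := by
      rw [← MonoidHom.range_eq_map, range_subtype, top_inf_eq]
      ext g
      exact mem_actFix_zpowers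
    rw [Hol.map_inl_inf_centralizer_singleton, e, ← wd_map, ← wd_map, ← map_lowerCentralSeries,
      ← map_lowerCentralSeries, h a a.2 fun e => ha (Subtype.ext e), Subgroup.map_bot, Subgroup.map_bot]
  have h4 : (Nat.card ((⊤ : Subgroup G).map (Hol.inl : G →* Hol A G))).Coprime p := by
    rwa [Hol.card_map_inl, card_top]
  have k := hM (Hol.inr : A →* Hol A G) ((⊤ : Subgroup G).map Hol.inl) hc hp' hj h4
    (SF.solvable_of_rank_three (p := p) (A := (Hol.inr : A →* Hol A G).range)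
      ⟨range_comm _ hc, by rintro _ ⟨a, rfl⟩; rw [← map_pow, hp', map_one]⟩
      (by rw [MonoidHom.range_eq_map, Hol.card_map_inr, card_top, hj]; exact Nat.pow_le_pow_right hp.pos h3)
      le_normalizer_of_normal (hp.coprime_iff_not_dvd.1 h4.symm) (by
        rintro _ ⟨a, rfl⟩ ha
        have := isNilpotent_of_lowerCentralSeries_eq_bot (h2 a fun e => ha (by rw [e, map_one]))
        exact solv_of_wd δ t inferInstance)) h2
  rwa [← wd_map, ← map_lowerCentralSeries, Hol.map_inl_eq_bot] at k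

end CL.Shum
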