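import Mathlib
import Cfsg.Agent.FGS.StabDL2

/-!
# Vectors whose stabilisers have small derived length: reductions and counting lemmas
-/

open Subgroup
open scoped Pointwise commutatorElement

namespace CL.SolvLin

universe u

section good
variable {A V : Type*} [Group A] [AddCommGroup V] [DistribMulAction A V]

/-- The stabiliser of `v` in `H` has derived length at most `k` on `U`. -/
def GoodOn (H : Subgroup A) (U : AddSubgroup V) (k : ℕ) (v : V) : Prop :=
  v ∈ U ∧ ∀ K ≤ H, (∀ g ∈ K, g • v = v) → ∀ g ∈ dser K k, ∀ u ∈ U, g • u = u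

variable (A) in
/-- The stabiliser of `v` has derived length at most `k`. -/
def Good (k : ℕ) (v : V) : Prop :=
  ∀ K : Subgroup A, (∀ g ∈ K, g • v = v) → ∀ g ∈ dser K k, ∀ u : V, g • u = u

variable (A V) in
/-- There are `c` inequivalent good vectors. -/
def Goods (c k : ℕ) : Prop :=
  ∃ x : Fin c → V, (∀ i, Good A k (x i)) ∧ ∀ i j (a : A), a • x i = x j → i = j

theorem Good.mono {k k' : ℕ} {v : V} (h : Good A k v) (hk : k ≤ k') : Good A k' v :=
  fun K hK g hg => h K hK g (dser_anti _ hk hg)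

theorem Goods.mono {c k k' : ℕ} (h : Goods A V c k) (hk : k ≤ k') : Goods A V c k' := by
  obtain ⟨x, h1, h2⟩ := h
  exact ⟨x, fun i => (h1 i).mono hk, h2⟩

theorem Good.of_img {k : ℕ} {v : V} (h : Good (Img A V) k v) : Good A k v := fun K hK g hg =>
  h (K.map (toImg V)) (by rintro _ ⟨a, ha, rfl⟩; exact hK a ha) _ (mem_dser_map hg _)

theorem Goods.of_img {c k : ℕ} (h : Goods (Img A V) V c k) : Goods A V c k := by
  obtain ⟨x, h1, h2⟩ := h
  exact ⟨x, fun i => (h1 i).of_img, fun i j a => h2 i j (toImg V a)⟩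

theorem DL.good {k : ℕ} (h : DL A V k) (v : V) : Good A k v :=
  fun _ _ g hg => h g (dser_mono le_top k hg)

theorem goodOn_of_res {H : Subgroup A} {U : AddSubgroup V} (h : Inv H U) {k : ℕ} {u : U}
    (hu : letI := resAct H U h; Good H k u) : GoodOn H U k (u : V) := by
  refine ⟨u.2, fun K hK h1 g hg w hw => ?_⟩
  obtain ⟨a, ha, rfl⟩ := exists_of_mem_dser hg H.subtype (by rwa [range_subtype])
  exact congrArg Subtype.val (hu _ (fun c hc => Subtype.ext (h1 c hc)) a ha ⟨w, hw⟩)

theorem good_of_compl {U W : AddSubgroup V} (hU : Inv (⊤ : Subgroup A) U)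
    (hW : Inv (⊤ : Subgroup A) W) (h1 : U ⊓ W = ⊥) (h2 : U ⊔ W = ⊤) {k : ℕ} {x y : V}
    (hx : GoodOn (⊤ : Subgroup A) U k x) (hy : GoodOn (⊤ : Subgroup A) W k y) :
    Good A k (x + y) := by
  intro K hK g hg v
  have h3 : ∀ a ∈ K, a • x = x ∧ a • y = y := by
    intro a ha
    have e := hK a ha
    rw [smul_add] at e
    have h4 : a • x - x ∈ U ⊓ W := by
      refine AddSubgroup.mem_inf.2 ⟨sub_mem (hU a trivial _ hx.1) hx.1, ?_⟩
      have : a • x - x = y - a • y := by rw [sub_eq_sub_iff_add_eq_add, e, add_comm]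
      rw [this]
      exact sub_mem hy.1 (hW a trivial _ hy.1)
    rw [h1, AddSubgroup.mem_bot, sub_eq_zero] at h4
    exact ⟨h4, by rw [h4] at e; exact add_left_cancel e⟩
  obtain ⟨u, hu, w, hw, rfl⟩ := AddSubgroup.mem_sup.1 (show v ∈ U ⊔ W from h2 ▸ trivial)
  rw [smul_add, hx.2 K le_top (fun a ha => (h3 a ha).1) g hg u hu,
    hy.2 K le_top (fun a ha => (h3 a ha).2) g hg w hw]

theorem goods_of_indep [Finite A] {U : AddSubgroup V} (hirr : Irr A V) (hU : U ≠ ⊥)
    (h : Indep A U) {κ : Type*} {t d k : ℕ} (hT : Types A (MulAction.orbit A U) κ t d)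
    (x : κ → V) (hx : ∀ j, GoodOn (MulAction.stabilizer A U) U k (x j))
    (hne : ∀ j j', ∀ a ∈ MulAction.stabilizer A U, a • x j = x j' → j = j') :
    Goods A V t (d + k) := by
  classical
  have : Finite (MulAction.orbit A U) := Finite.finite_mulAction_orbit U
  have := Fintype.ofFinite (MulAction.orbit A U)
  obtain ⟨col, hc1, hc2⟩ := hT
  obtain ⟨g, hg⟩ := exists_reps (A := A) U
  have hm : ∀ l j, g l • x j ∈ l.1 := fun l j =>
    hg l ▸ AddSubgroup.smul_mem_pointwise_smul _ _ U (hx _).1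
  have h1 : ∀ i i' (a : A), a • ∑ l, g l • x (col i' l) = ∑ l, g l • x (col i l) →
      ∀ l, ((g (a • l))⁻¹ * a * g l) • x (col i' l) = x (col i (a • l)) := by
    intro i i' a e l
    have := h Finset.univ (fun m => a • g (a⁻¹ • m) • x (col i' (a⁻¹ • m)) - g m • x (col i m))
      (fun m => sub_mem (by
        have := AddSubgroup.smul_mem_pointwise_smul _ a _ (hm (a⁻¹ • m) (col i' (a⁻¹ • m)))
        rwa [show a • (a⁻¹ • m).1 = m.1 from congrArg Subtype.val (smul_inv_smul a m)] at this)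
        (hm m _)) (by
        rw [Finset.sum_sub_distrib, ← e, Finset.smul_sum, sub_eq_zero]
        exact Fintype.sum_equiv (MulAction.toPerm a⁻¹) _ _ fun m => rfl) (a • l) (Finset.mem_univ _)
    simp only [inv_smul_smul, sub_eq_zero] at this
    rw [mul_smul, mul_smul, this, inv_smul_smul]
  have h2 : ∀ (a : A) l, (g (a • l))⁻¹ * a * g l ∈ MulAction.stabilizer A U := fun a l => by
    rw [MulAction.mem_stabilizer_iff, mul_smul, mul_smul, hg, inv_smul_eq_iff, hg]; rfl
  have h3 := fun i i' a e l => (hne _ _ _ (h2 a l) (h1 i i' a e l)).symm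
  refine ⟨fun i => ∑ l, g l • x (col i l), fun i K hK a ha => ?_,
    fun i i' a e => (hc2 _ _ a (h3 _ _ a e)).symm⟩
  rw [dser_add] at ha
  have h4 := hc1 i K fun c hc => h3 i i c (hK c hc)
  refine dser_triv_of_blocks hirr hU g hg _ _ (fun l => (hx (col i l)).2 _ ?_ ?_) a ha
  · rintro _ ⟨c, hc, rfl⟩
    have := h2 c l
    rw [h4 c hc] at this
    simpa using this
  · rintro _ ⟨c, hc, rfl⟩
    have := h1 i i c (hK c (dser_le _ _ hc)) l
    rw [h4 c hc] at this
    simpa using this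

theorem exists_inequiv [Finite A] [Finite V] (S : Set V) {c : ℕ} (h : c * Nat.card A < S.ncard) :
    ∃ x : Fin (c + 1) → V, (∀ i, x i ∈ S) ∧ ∀ i j (a : A), a • x i = x j → i = j := by
  classical
  have := Fintype.ofFinite V
  let f : V → MulAction.orbitRel.Quotient A V := Quotient.mk _
  have h1 := Finset.card_le_mul_card_image (f := f) S.toFinset (Nat.card A) fun q _ => by
    obtain ⟨v, rfl⟩ := Quotient.exists_rep q
    have := Fintype.ofFinite A
    rw [Nat.card_eq_fintype_card, ← Finset.card_univ]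
    refine le_trans (Finset.card_le_card (t := Finset.univ.image (· • v)) fun w hw => ?_)
      Finset.card_image_le
    obtain ⟨a, ha⟩ := Quotient.exact (Finset.mem_filter.1 hw).2
    exact Finset.mem_image.2 ⟨a, Finset.mem_univ _, ha⟩
  rw [← Set.ncard_eq_toFinset_card'] at h1
  have h2 : c + 1 ≤ (S.toFinset.image f).card := by
    by_contra h2
    have := Nat.mul_le_mul_left (Nat.card A) (by omega : (S.toFinset.image f).card ≤ c)
    rw [mul_comm] at h
    omega
  obtain ⟨e⟩ := Function.Embedding.nonempty_of_card_le (α := Fin (c + 1))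
    (β := S.toFinset.image f) (by rw [Fintype.card_fin, Fintype.card_coe]; exact h2)
  choose x hx1 hx2 using fun i => Finset.mem_image.1 (e i).2
  refine ⟨x, fun i => Set.mem_toFinset.1 (hx1 i), fun i j a ha => e.injective (Subtype.ext ?_)⟩
  rw [← hx2, ← hx2, ← ha]
  exact (Quotient.sound (MulAction.mem_orbit _ a)).symm

theorem ncard_le_sum_fix [Finite V] (S : Finset A) (X : Set V) (m : ℕ)
    [∀ v : V, DecidablePred fun g : A => g • v = v]
    (h : ∀ v ∈ X, m ≤ (S.filter (· • v = v)).card) :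
    X.ncard * m ≤ ∑ g ∈ S, Nat.card (fix V g) := by
  classical
  have := Fintype.ofFinite V
  rw [Set.ncard_eq_toFinset_card', ← smul_eq_mul, ← Finset.sum_const]
  calc _ ≤ ∑ v ∈ X.toFinset, (S.filter (· • v = v)).card :=
        Finset.sum_le_sum fun v hv => h v (Set.mem_toFinset.1 hv)
    _ ≤ ∑ v, (S.filter (· • v = v)).card := Finset.sum_le_sum_of_subset (Finset.subset_univ _)
    _ = _ := by
      simp only [Finset.card_filter]
      rw [Finset.sum_comm]
      refine Finset.sum_congr rfl fun g _ => ?_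
      rw [← Finset.card_filter, Nat.card_eq_fintype_card, Fintype.card_subtype]
      congr

theorem fix_sq_le [Finite V] (g y : A) :
    Nat.card (fix V g) ^ 2 ≤ Nat.card (fix V ⁅g, y⁆) * Nat.card V := by
  have h3 := card_mul_le_inf (fix V g) (y • fix V g)
  have h4 : Nat.card (y • fix V g : AddSubgroup V) = Nat.card (fix V g) :=
    (Nat.card_congr (AddSubgroup.equivMapOfInjective (fix V g) (DistribSMul.toAddMonoidHom V y)
      (MulAction.injective y)).toEquiv).symm
  have h5 : Nat.card (fix V g ⊓ y • fix V g : AddSubgroup V) ≤ Nat.card (fix V ⁅g, y⁆) := by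
    refine AddSubgroup.card_le_of_le fun w hw => ?_
    have h6 := AddSubgroup.mem_pointwise_smul_iff_inv_smul_mem.1 hw.2
    rw [mem_fix, commutatorElement_def, mul_smul, mul_smul, mul_smul,
      inv_smul_eq_iff.2 (mem_fix.1 h6).symm, smul_inv_smul]
    exact hw.1
  rw [h4] at h3
  rw [sq]
  exact h3.trans (Nat.mul_le_mul_right _ h5)

/-- Counting cosets through a base, with a commuting group of operators. -/
theorem relIndex_mul_le {X P : Type*} [Finite X] [Group P] [MulAction A X] [MulAction P X]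
    (hc : ∀ (a : A) (p : P) (x : X), a • p • x = p • a • x) {E C : Subgroup A} (x : X)
    (h : ∀ c ∈ C, ∀ p : P, c • x = p • x → c ∈ E ∧ p = 1) :
    E.relIndex C * Nat.card P ≤ Nat.card X := by
  rw [relIndex, index, ← Nat.card_prod]
  refine Nat.card_le_card_of_injective (fun q => q.2 • (q.1.out : A) • x) ?_
  rintro ⟨q, p⟩ ⟨q', p'⟩ e
  obtain ⟨h1, h2⟩ := h ((q.out : A)⁻¹ * q'.out) (mul_mem (inv_mem q.out.2) q'.out.2) (p'⁻¹ * p) (by
    rw [mul_smul, inv_smul_eq_iff, hc, mul_smul, eq_inv_smul_iff]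
    exact e.symm)
  rw [Prod.mk.injEq, ← q.out_eq', ← q'.out_eq', QuotientGroup.eq]
  exact ⟨h1, (inv_mul_eq_one.1 h2).symm⟩

end good

/-- The conjugation action on cosets. -/
theorem dl_cosets {A : Type u} [Group A] [Finite A] [Group.IsSolvable A] {K P Q : Subgroup A}
    (hP : ∀ g ∈ K, ∀ y ∈ P, g * y * g⁻¹ ∈ P) (hQ : ∀ g ∈ K, ∀ y ∈ Q, g * y * g⁻¹ ∈ Q) {n : ℕ}
    (hn : P.relIndex Q ≤ n + 1) (h15 : n ≤ 15) :
    ∀ g ∈ dser K (sig n), ∀ y ∈ Q, y⁻¹ * (g * y * g⁻¹) ∈ P := by
  let K' := ConjAct K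
  let j : K' →* K := ConjAct.ofConjAct.toMonoidHom
  let : MulAction K' A := MulAction.compHom A (MulAut.conj.comp (K.subtype.comp j))
  have hs : ∀ (g : K') (y : A), g • y = j g * y * (j g : A)⁻¹ := fun _ _ => rfl
  have : MulAction.QuotientAction K' P := ⟨fun g a b hab => by
    have := hP _ (j g).2 _ hab
    rw [hs, hs]
    convert this using 1
    group⟩
  let S : SubMulAction K' (A ⧸ P) :=
    { carrier := {q | ∃ y ∈ Q, y ∉ P ∧ (y : A ⧸ P) = q}
      smul_mem' := by
        rintro g _ ⟨y, h1, h2, rfl⟩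
        refine ⟨g • y, hQ _ (j g).2 y h1, fun h3 => h2 ?_, rfl⟩
        have := hP _ (inv_mem (j g).2) _ h3
        rw [hs] at this
        convert this using 1
        group }
  have h1 : Nat.card S < P.relIndex Q := by
    choose y hy1 hy2 hy3 using fun q : S => q.2
    refine lt_of_le_of_lt (Nat.card_le_card_of_injective (β := {q : Q ⧸ P.subgroupOf Q // q ≠ (1 : Q)})
      (fun q => ⟨(⟨y q, hy1 q⟩ : Q), fun e => hy2 q (by
        simpa [mem_subgroupOf] using QuotientGroup.eq.1 e)⟩) fun q q' e => Subtype.ext ?_)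
      (Finite.card_subtype_lt (x := ((1 : Q) : Q ⧸ P.subgroupOf Q)) (by simp))
    rw [← hy3, ← hy3, QuotientGroup.eq]
    exact (QuotientGroup.eq (s := P.subgroupOf Q)).1 (congrArg Subtype.val e)
  intro g hg y hy
  obtain ⟨a, ha, rfl⟩ := exists_of_mem_dser_le hg le_rfl
  by_cases h2 : y ∈ P
  · exact mul_mem (inv_mem h2) (hP a a.2 y h2)
  · have : Finite K' := (inferInstance : Finite K)
    have : Group.IsSolvable K' :=
      Group.isSolvable_of_surjective (f := (ConjAct.toConjAct (G := K)).toMonoidHom) ConjAct.toConjAct.surjective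
    exact QuotientGroup.eq.1 (congrArg Subtype.val (dl_perm K' S (by omega) h15 _
      (mem_dser_top ha ConjAct.toConjAct.toMonoidHom) ⟨_, y, hy, h2, rfl⟩)).symm

namespace Str
variable {A : Type u} {V : Type*} [Group A] [AddCommGroup V] [DistribMulAction A V]
  {Z E : Subgroup A} (h : Str V Z E)
include h

theorem good_succ {k : ℕ} (hk : dser (⊤ : Subgroup A) k ≤ E) {v : V} (hv : v ≠ 0) :
    Good A (k + 1) v := fun K hK g hg u => by
  rw [mem_bot.1 (dser_succ_le_of (fun a ha b hb => ?_) hg), one_smul]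
  refine mem_bot.2 (h.eq_one hv (h.comm a (hk (dser_mono le_top k ha)) b
    (hk (dser_mono le_top k hb))) (hK _ (SolvLin.dser_le K (k + 1) (commutator_mem_commutator ha hb))))

omit h in
theorem good_generic {k : ℕ} (hk : dser (⊤ : Subgroup A) k ≤ E) {v : V}
    (hv : ∀ y ∈ E, y • v = v → y = 1) : Good A k v := fun K hK g hg u => by
  rw [hv g (hk (dser_mono le_top k hg)) (hK g (SolvLin.dser_le K k hg)), one_smul]

variable [Finite V]

theorem fix_sq_of_mem {g : A} (hg : g ∈ E) (h1 : g ≠ 1) : Nat.card (fix V g) ^ 2 ≤ Nat.card V := by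
  have key : ∀ z ∈ Z, z ≠ 1 → Nat.card (fix V z) = 1 := fun z hz hz1 => by
    rw [(AddSubgroup.eq_bot_iff_forall (fix V z)).2 fun v hv => (h.fpf z hz v hv).resolve_left hz1,
      AddSubgroup.card_bot]
  by_cases hgZ : g ∈ Z
  · rw [key g hgZ h1, one_pow]; exact Nat.card_pos
  obtain ⟨y, hy, hne⟩ : ∃ y ∈ E, y * g ≠ g * y := by
    by_contra hc
    push Not at hc
    exact hgZ (h.selfc _ hc)
  have := fix_sq_le (V := V) g y
  rwa [key _ (h.comm g hg y hy) fun e => hne (commutatorElement_eq_one_iff_mul_comm.1 e).symm,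
    one_mul] at this

variable [Finite A] [Nontrivial V]

theorem fix_pow_four {g : A} (hg : g ∈ centralizer (Z : Set A)) (h1 : g ≠ 1) :
    Nat.card (fix V g) ^ 4 ≤ Nat.card V ^ 3 := by
  by_cases hgE : g ∈ E
  · calc _ = (Nat.card (fix V g) ^ 2) ^ 2 := by ring
      _ ≤ Nat.card V ^ 2 := Nat.pow_le_pow_left (h.fix_sq_of_mem hgE h1) 2
      _ ≤ _ := Nat.pow_le_pow_right Nat.card_pos (by norm_num)
  obtain ⟨y, hy, hne⟩ : ∃ y ∈ E, ⁅g, y⁆ ∉ Z := by
    by_contra hc
    push Not at hc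
    exact hgE (h.mem_of_comm hg hc)
  have h2 := h.fix_sq_of_mem (g := ⁅g, y⁆)
    (by rw [commutatorElement_def]; exact mul_mem (h.En.conj_mem y hy g) (inv_mem hy))
    fun e => hne (e ▸ one_mem Z)
  calc _ = (Nat.card (fix V g) ^ 2) ^ 2 := by ring
    _ ≤ (Nat.card (fix V ⁅g, y⁆) * Nat.card V) ^ 2 := Nat.pow_le_pow_left (fix_sq_le g y) 2
    _ = Nat.card (fix V ⁅g, y⁆) ^ 2 * Nat.card V ^ 2 := by ring
    _ ≤ Nat.card V * Nat.card V ^ 2 := by gcongr
    _ = _ := by ring

theorem good_one {v : V} (hv : ∀ y ∈ centralizer (Z : Set A), y • v = v → y = 1) :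
    Good A 1 v := fun K hK g hg u => by
  rw [hv g (dser_succ_le_of (n := 0) (fun a _ b _ => h.comm_mem a b) hg) 
    (hK g (SolvLin.dser_le K 1 hg)),
    one_smul]

omit [Finite V] [Finite A] [Nontrivial V] in
theorem card_centralizer : Nat.card (centralizer (Z : Set A)) =
    Nat.card Z * (Z.relIndex E * E.relIndex (centralizer (Z : Set A))) := by
  have hEC : E ≤ centralizer (Z : Set A) := fun x hx y hy => h.cen y hy x hx
  rw [relIndex_mul_relIndex Z E _ h.le hEC, ← relIndex_bot_left, ← relIndex_bot_left,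
    relIndex_mul_relIndex _ _ _ bot_le (h.le.trans hEC)]

theorem card_le [Group.IsSolvable A] {e : ℕ} (he : Z.relIndex E = e ^ 2) :
    Nat.card A ≤ Nat.card Z ^ 2 * e ^ 8 := by
  obtain ⟨W, _, _, _, hW, hcr, hk⟩ := h.section'
  obtain ⟨x, hx⟩ := SolvLin.hasBase_three hcr
  let : MulAction Unit (Fin 3 → W) := MulAction.compHom _ (1 : Unit →* A)
  have h1 := relIndex_mul_le (A := A) (P := Unit) (E := E) (C := centralizer (Z : Set A))
    (fun a p x => by change a • (1 : A) • x = (1 : A) • a • x; rw [one_smul, one_smul]) x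
    fun c hc p e => ⟨hk c hc (hx c fun i => (congrFun e i).trans (one_smul A _)), rfl⟩
  rw [Nat.card_unique, mul_one, Nat.card_fun, hW, he, Nat.card_eq_fintype_card (α := Fin 3),
    Fintype.card_fin] at h1
  calc _ = Nat.card (centralizer (Z : Set A)) * (centralizer (Z : Set A)).index :=
        (card_mul_index _).symm
    _ ≤ Nat.card Z * (e ^ 2 * (e ^ 2) ^ 3) * Nat.card Z := by
        rw [h.card_centralizer, he]; gcongr; exact h.index_le
    _ = _ := by ring

theorem exists_generic (T : Set A) (hT : T.ncard ^ 2 < Nat.card V)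
    (h1 : ∀ y ∈ E, ∀ v : V, v ≠ 0 → y • v = v → y ∈ T) :
    ∃ v : V, v ≠ 0 ∧ ∀ y ∈ E, y • v = v → y = 1 := by
  classical
  by_contra hc
  push Not at hc
  let S := (Set.toFinite T).toFinset.filter fun y => y ∈ E ∧ y ≠ 1
  have h2 : ∀ v : V, v ≠ 0 → ∃ y ∈ S, y • v = v := fun v hv => by
    obtain ⟨y, a, b, c⟩ := hc v hv
    exact ⟨y, by simp [S, a, c, h1 y a v hv b], b⟩
  have h3 := ncard_le_sum_fix S (Set.univ : Set V) 1 fun v _ => by
    refine Finset.card_pos.2 ?_
    by_cases hv : v = 0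
    · obtain ⟨w, hw⟩ := exists_ne (0 : V)
      obtain ⟨y, a, -⟩ := h2 w hw
      exact ⟨y, Finset.mem_filter.2 ⟨a, by rw [hv, smul_zero]⟩⟩
    · obtain ⟨y, a, b⟩ := h2 v hv
      exact ⟨y, Finset.mem_filter.2 ⟨a, b⟩⟩
  have h4 := h3.trans (Finset.sum_le_card_nsmul S _ (Nat.card V).sqrt fun y hy =>
    Nat.le_sqrt'.2 (h.fix_sq_of_mem (Finset.mem_filter.1 hy).2.1 (Finset.mem_filter.1 hy).2.2))
  have h5 : S.card ≤ T.ncard := Set.ncard_eq_toFinset_card T ▸ Finset.card_filter_le _ _
  rw [Set.ncard_univ, mul_one, smul_eq_mul] at h4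
  have h6 := Nat.sqrt_le' (Nat.card V)
  have h7 : Nat.card V ^ 2 ≤ T.ncard ^ 2 * Nat.card V := by
    calc _ ≤ (T.ncard * (Nat.card V).sqrt) ^ 2 := by gcongr; exact h4.trans (by gcongr)
      _ ≤ _ := by rw [mul_pow]; gcongr
  have : 0 < Nat.card V := Nat.card_pos
  nlinarith

end Str

end CL.SolvLin
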