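import Mathlib
import Cfsg.Agent.FGS.StabDL3

/-!
# A vector whose stabiliser has derived length at most nine
-/

open Subgroup
open scoped Pointwise commutatorElement

namespace CL.SolvLin

universe u

section grp
variable {A : Type*} [Group A]

theorem relIndex_le_of_map {X : Type*} [Finite X] {M D : Subgroup A} (f : A → X)
    (h : ∀ a ∈ D, ∀ b ∈ D, f a = f b → a⁻¹ * b ∈ M) : M.relIndex D ≤ Nat.card X := by
  refine Nat.card_le_card_of_injective (fun q : D ⧸ M.subgroupOf D => f (q.out : D)) fun q q' e => ?_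
  rw [← q.out_eq', ← q'.out_eq', QuotientGroup.eq]
  exact h _ q.out.2 _ q'.out.2 e

theorem le_relIndex_of_map [Finite A] {X : Type*} {M D : Subgroup A} (f : X → A) (h1 : ∀ i, f i ∈ D)
    (h : ∀ i j, (f i)⁻¹ * f j ∈ M → i = j) : Nat.card X ≤ M.relIndex D :=
  Nat.card_le_card_of_injective (fun i => ((⟨f i, h1 i⟩ : D) : D ⧸ M.subgroupOf D)) fun i j e =>
    h i j ((QuotientGroup.eq (s := M.subgroupOf D)).1 e)

/-- The elements acting trivially on the cosets of `M` in `E`. -/
def trivOn (E M : Subgroup A) (hE : E.Normal) : Subgroup A where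
  carrier := {g | ∀ y ∈ E, y⁻¹ * (g * y * g⁻¹) ∈ M}
  one_mem' := fun y _ => by simp
  mul_mem' := fun {a b} ha hb y hy => by
    convert mul_mem (hb y hy) (ha _ (hE.conj_mem y hy b)) using 1
    group
  inv_mem' := fun {a} ha y hy => by
    convert inv_mem (ha _ (hE.conj_mem y hy a⁻¹)) using 1
    group

theorem comm_mem_trivOn {E D M : Subgroup A} (hE : E.Normal) (hDE : D ≤ E)
    (hc : ∀ x ∈ E, ∀ y ∈ E, ⁅x, y⁆ ∈ M) {a b : A} (ha : a ∈ trivOn E D hE) (hb : b ∈ trivOn E D hE)
    (ha' : ∀ y ∈ D, y⁻¹ * (a * y * a⁻¹) ∈ M) (hb' : ∀ y ∈ D, y⁻¹ * (b * y * b⁻¹) ∈ M) :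
    ⁅a, b⁆ ∈ trivOn E M hE := fun y hy => by
  have h0 := hE.conj_mem y hy (b * a)⁻¹
  convert mul_mem (mul_mem (inv_mem (hb' _ (ha _ h0)))
    (hc _ (inv_mem (hDE (ha _ h0))) _ (inv_mem (hDE (hb _ h0))))) (ha' _ (hb _ h0)) using 1
  simp only [commutatorElement_def]
  group

end grp

namespace Str
variable {A : Type u} {V : Type*} [Group A] [AddCommGroup V] [DistribMulAction A V]
  {Z E : Subgroup A} (h : Str V Z E)

/-- The elements of `E` acting on `x` like an element of `Z`. -/
def scal (x : V) : Subgroup A where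
  carrier := {b | b ∈ E ∧ ∃ z ∈ Z, b • x = z • x}
  one_mem' := ⟨one_mem _, 1, one_mem _, rfl⟩
  mul_mem' := by
    rintro a b ⟨ha, z, hz, e⟩ ⟨hb, w, hw, e'⟩
    refine ⟨mul_mem ha hb, w * z, mul_mem hw hz, ?_⟩
    rw [mul_smul, e', ← mul_smul, ← h.cen w hw a ha, mul_smul, e, mul_smul]
  inv_mem' := by
    rintro a ⟨ha, z, hz, e⟩
    refine ⟨inv_mem ha, z⁻¹, inv_mem hz, ?_⟩
    rw [inv_smul_eq_iff, ← mul_smul, ← h.cen _ (inv_mem hz) a ha, mul_smul, e, inv_smul_smul]

theorem le_scal (x : V) : Z ≤ h.scal x := fun z hz => ⟨h.le hz, z, hz, rfl⟩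

theorem scal_comm {x : V} {b d : A} (hb : b ∈ h.scal x) (hd : d ∈ cstab E x) : b * d = d * b := by
  obtain ⟨h1, z, hz, e⟩ := hb
  have h2 := (mem_cstab.1 hd).2 _ (mul_mem (inv_mem (h.le hz)) h1) (by rw [mul_smul, e, inv_smul_smul])
  rw [← mul_assoc, ← h.cen _ (inv_mem hz) d hd.1, mul_assoc, mul_assoc] at h2
  exact mul_left_cancel h2

theorem scal_le {x : V} (hx : x ≠ 0) : h.scal x ≤ cstab E x := fun _ hb =>
  mem_cstab.2 ⟨hb.1, fun _ h1 h2 => (h.scal_comm hb (h.mem_cstab_of_fix hx h1 h2)).symm⟩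

theorem conj_mem_scal {x : V} {g b : A} (hg : g • x = x) (hb : b ∈ h.scal x) :
    g * b * g⁻¹ ∈ h.scal x := by
  obtain ⟨h1, z, hz, e⟩ := hb
  refine ⟨h.En.conj_mem b h1 g, _, h.Zn.conj_mem z hz g, ?_⟩
  simp only [mul_smul, inv_smul_eq_iff.2 hg.symm, e]

variable [Finite A] [Finite V]

omit [Finite V] in
theorem comm_of_scal {x : V} (hx : x ≠ 0) {K : Subgroup A} (h1 : K ≤ centralizer (Z : Set A))
    (h2 : ∀ g ∈ K, g • x = x) (h3 : K ≤ trivOn E (h.scal x) h.En) : dser K 1 ≤ ⊥ := by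
  have key : ∀ g ∈ K, ∀ y ∈ E, ∃ z ∈ Z, g • y • x = z • y • x := fun g hg y hy => by
    obtain ⟨-, z, hz, e⟩ := h3 hg y hy
    refine ⟨z, hz, ?_⟩
    rw [mul_smul, mul_smul, mul_smul, inv_smul_eq_iff.2 (h2 g hg).symm, inv_smul_eq_iff] at e
    rw [e, ← mul_smul, ← h.cen z hz y hy, mul_smul]
  obtain ⟨S, _, _, π, p, -⟩ := h.exists_pos x
  refine dser_succ_le_of (n := 0) fun a ha b hb => mem_bot.2
    (commutatorElement_eq_one_iff_mul_comm.2 (inv_mul_eq_one.1
      (h.eq_one_of_fix hx p ∅ (by simp) (by simp [Fintype.card_pos]) fun y hy _ => ?_)))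
  obtain ⟨z, hz, e⟩ := key a ha y hy
  obtain ⟨w, hw, e'⟩ := key b hb y hy
  rw [mul_smul, inv_smul_eq_iff, mul_smul, mul_smul, e, e', ← mul_smul b, ← h1 hb z hz,
    ← mul_smul a, ← h1 ha w hw, mul_smul, mul_smul, e, e', ← mul_smul, h.ab hz hw, mul_smul]

theorem scal_cases {x : V} (hx : IsMax E x) : cstab E x ≤ h.scal x ∨
    3 ≤ (h.scal x).relIndex (cstab E x) ∧ (h.scal x).relIndex (cstab E x) ≤ 4 := by
  rcases h.cstab_cases hx with h1 | ⟨i, hi, j, hj, h1, h2, h3, -, h5⟩
  · exact .inl fun b hb => ⟨hb.1, h1 b hb⟩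
  have h6 : i * j ≠ j * i := fun e => h3 (commutatorElement_eq_one_iff_mul_comm.2 e)
  refine .inr ⟨?_, ?_⟩
  · have := le_relIndex_of_map (M := h.scal x) (D := cstab E x) ![1, i, j]
      (fun k => by fin_cases k <;> simp [hi, hj]) fun k l e => by
        have a1 : i ∉ h.scal x := fun e => h6 (h.scal_comm e hj)
        have a2 : j ∉ h.scal x := fun e => h6 (h.scal_comm e hi).symm
        have a3 : i⁻¹ * j ∉ h.scal x := fun e => h6 (by
          have := h.scal_comm e hi
          rw [mul_inv_cancel_left, mul_assoc, inv_mul_eq_iff_eq_mul] at this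
          exact this.symm)
        have a4 : j⁻¹ * i ∉ h.scal x := fun e => a3 (by simpa using inv_mem e)
        fin_cases k <;> fin_cases l <;> simp_all
    simpa using this
  have key : ∀ k ∈ cstab E x, k • k • x = -x → ∀ d ∈ cstab E x, ⁅d, k⁆ ≠ 1 → ⁅d, k⁆ = ⁅i, j⁆ := by
    intro k hk e d hd hne
    have a1 := h.comm d hd.1 k hk.1
    have a2 := h.comm i hi.1 j hj.1
    have a3 := h.scal_comm (b := k * k) ⟨mul_mem hk.1 hk.1, _, a2, by rw [mul_smul, e, h2]⟩ hd
    have a4 : ⁅d, k⁆ * ⁅d, k⁆ = 1 := by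
      have a5 := h.cen _ a1 k hk.1
      calc _ = ⁅d, k⁆ * k * ⁅d, k⁆ * k⁻¹ := by rw [mul_assoc _ k, ← a5]; group
        _ = d * (k * k) * d⁻¹ * (k * k)⁻¹ := by simp only [commutatorElement_def]; group
        _ = 1 := by rw [← a3]; group
    by_contra h7
    refine hx.1 (h.smul_inj a1 a2 h7 ?_)
    rw [h2, eq_neg_iff_add_eq_zero]
    refine (h.fpf _ a1 _ ?_).resolve_left hne
    rw [smul_add, ← mul_smul, a4, one_smul, add_comm]
  have := relIndex_le_of_map (M := h.scal x) (D := cstab E x)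
    (fun d => (⁅d, i⁆ = 1, ⁅d, j⁆ = 1)) fun a ha b hb e => by
      have a0 := mul_mem (inv_mem ha) hb
      have a1 : ∀ k ∈ cstab E x, k • k • x = -x → (⁅a, k⁆ = 1) = (⁅b, k⁆ = 1) →
          k ∈ centralizer {a⁻¹ * b} := fun k hk e1 e2 => by
        refine mem_centralizer_singleton_iff.2 (commute_of_commutator_eq ?_)
        by_cases a2 : ⁅a, k⁆ = 1
        · rw [a2, (e2 ▸ a2 :)]
        · rw [key k hk e1 a ha a2, key k hk e1 b hb fun e3 => a2 (e2.mpr e3)]
      refine ⟨a0.1, h.exists_of_central hx.1 a0.1 fun c hc => mem_centralizer_singleton_iff.1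
        (h5 _ (fun d hd => mem_centralizer_singleton_iff.2 ((mem_cstab.1 a0).2 d hd.1 hd.2))
          (fun z hz => mem_centralizer_singleton_iff.2 (h.cen z hz _ a0.1))
          (a1 i hi (h1 x Fx.self).1 (congrArg Prod.fst e))
          (a1 j hj (h1 x Fx.self).2 (congrArg Prod.snd e)) hc)⟩
  simpa using this

variable [Nontrivial V]
include h

theorem sq_mul_le {x : V} (hx : x ≠ 0) :
    (cstab E x).relIndex E ^ 2 * (h.scal x).relIndex (cstab E x) ≤ Z.relIndex E := by
  have h1 := h.pair (K := E) (U := h.scal x) (U₀ := Z) (fun _ hb => hb.1) le_rfl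
    (fun k hk u hu => h.comm k hk u hu.1)
    fun k hk u hu => commutatorElement_eq_one_iff_mul_comm.2 (h.cen u hu k hk).symm
  rw [← inf_relIndex_right] at h1
  have h2 := (relIndex_le_of_le_left (H := centralizer (h.scal x : Set A) ⊓ E) (K := cstab E x) (fun b hb => mem_cstab.2 ⟨hb.2, fun d hd e =>
    hb.1 d ⟨hd, 1, one_mem _, by rw [e, one_smul]⟩⟩) FiniteIndex.index_ne_zero).trans h1
  rw [← relIndex_mul_relIndex Z (cstab E x) E (h.le_cstab x) inf_le_left,
    ← relIndex_mul_relIndex Z (h.scal x) _ (h.le_scal x) (h.scal_le hx)]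
  calc _ = (cstab E x).relIndex E * (h.scal x).relIndex (cstab E x) * (cstab E x).relIndex E := by ring
    _ ≤ _ := by gcongr

theorem good_isMax [Group.IsSolvable A] {x : V} (hx : IsMax E x) (he : Z.relIndex E ≤ 256) :
    Good A 6 x := by
  intro K hK g hg v
  have := h.En
  have h1 := (h.sq_mul_le hx.1).trans he
  have h2 : ∀ {n}, (cstab E x).relIndex E ≤ n + 1 → n ≤ 15 →
      dser K (sig n) ≤ trivOn E (cstab E x) h.En := fun a b =>
    dl_cosets (fun g hg y hy => conj_mem_cstab (hK g hg) hy) (fun g _ y hy => h.En.conj_mem y hy g) a b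
  rw [mem_bot.1 (h.comm_of_scal hx.1 (K := dser K 5) ((dser_anti K (by norm_num)).trans
    (dser_succ_le_of (n := 0) fun a _ b _ => h.comm_mem a b))
    (fun g hg => hK g (SolvLin.dser_le _ _ hg)) ?_ hg), one_smul]
  rcases h.scal_cases hx with h3 | ⟨h3, h4⟩
  · have h4 : 1 ≤ (h.scal x).relIndex (cstab E x) := Nat.pos_of_ne_zero FiniteIndex.index_ne_zero
    exact fun g hg y hy => h3 (h2 (n := 15) (by nlinarith) le_rfl hg y hy)
  · have h5 := dl_cosets (K := K) (fun g hg y hy => h.conj_mem_scal (hK g hg) hy)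
      (fun g hg y hy => conj_mem_cstab (hK g hg) hy) (n := 3) h4 (by norm_num)
    have h6 := h2 (n := 8) (by nlinarith) (by norm_num)
    exact dser_succ_le_of (n := 4) fun a ha b hb => comm_mem_trivOn h.En inf_le_left
      (fun x hx y hy => h.le_scal _ (h.comm x hx y hy)) (h6 ha) (h6 hb)
      (h5 a (dser_anti K (by decide) ha)) (h5 b (dser_anti K (by decide) hb))

omit [Nontrivial V] in
theorem le_four_of_isMax {x : V} (hx : IsMax E x) (h1 : ∀ y ∈ E, y • x = x → y = 1) :
    Z.relIndex E ≤ 4 := by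
  have h2 : cstab E x = E := le_antisymm inf_le_left fun b hb =>
    mem_cstab.2 ⟨hb, fun d hd e => by rw [h1 d hd e, one_mul, mul_one]⟩
  have h3 : h.scal x = Z := le_antisymm (by
    rintro b ⟨hb, z, hz, e⟩
    have := h1 _ (mul_mem (inv_mem (h.le hz)) hb) (by rw [mul_smul, e, inv_smul_smul])
    rwa [← inv_mul_eq_one.1 this]) (h.le_scal x)
  have := h.scal_cases hx
  rw [h2, h3] at this
  exact this.elim (fun e => by rw [relIndex_eq_one.2 e]; norm_num) And.right

omit [Finite V] [Nontrivial V] in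
/-- A Gauss sum bounds the number of involutions. -/
theorem gauss (h2 : Nat.card Z = 2) (he : Z.relIndex E = 64) :
    {y | y ∈ E ∧ y * y = 1}.ncard ≤ 72 := by
  classical
  have := Fintype.ofFinite A
  obtain ⟨ζ, hζ, hu⟩ := (Nat.card_eq_two_iff' (1 : Z)).1 h2
  have hsq : ∀ a : Z, a * a = 1 := fun a => by rw [← sq, ← h2, pow_card_eq_one']
  let j : Z →* ℤ :=
    { toFun := fun a => if a = 1 then 1 else -1
      map_one' := if_pos rfl
      map_mul' := fun a b => by
        by_cases ha : a = 1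
        · simp [ha]
        by_cases hb : b = 1
        · simp [hb]
        rw [hu a ha, hu b hb, hsq, if_pos rfl, if_neg hζ]
        rfl }
  have h3 : ∀ y : E, (y : A) * y ∈ Z := fun y => h.selfc _ fun w hw => by
    have a1 := h.comm w hw y y.2
    have a2 : ⁅w, (y : A)⁆ * ⁅w, (y : A)⁆ = 1 := congrArg Subtype.val (hsq ⟨_, a1⟩)
    calc _ = ⁅w, (y : A)⁆ * (y * ⁅w, (y : A)⁆) * y * w := by simp only [commutatorElement_def]; group
      _ = _ := by rw [← h.cen _ a1 y y.2, ← mul_assoc, a2, one_mul]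
  let s : E → ℤ := fun y => j ⟨_, h3 y⟩
  let β : E → E →* ℤ := fun y => commHom j h.cen (k := (y : A)⁻¹) (h.comm _ (inv_mem y.2))
  have h4 : ∀ y w, s (y * w) = s y * β y w * s w := fun y w => by
    simp only [s, β, commHom, MonoidHom.coe_mk, OneHom.coe_mk, ← map_mul]
    congr 1
    exact Subtype.ext (by simp only [coe_mul, commutatorElement_def]; group)
  have h5 : ∀ y, s y * s y = 1 := fun y => by rw [← map_mul, hsq, map_one]
  have hE : Fintype.card E = 128 := by
    rw [← Nat.card_eq_fintype_card, ← relIndex_bot_left, ← relIndex_mul_relIndex _ _ _ bot_le h.le,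
      relIndex_bot_left, h2, he]
  have h6 : ∀ y : E, s y * ∑ w, β y w ≤ if y ∈ Z.subgroupOf E then 128 else 0 := fun y => by
    split_ifs with hy
    · have a1 : ∀ w, β y w = 1 := fun w => by
        rw [← j.map_one]
        exact congrArg j (Subtype.ext (commutatorElement_eq_one_iff_mul_comm.2
          (h.cen _ (inv_mem hy) w w.2)))
      have a2 : s y ≤ 1 := by nlinarith [h5 y]
      simp only [a1, Finset.sum_const, Finset.card_univ, hE]
      norm_num
      omega
    · rw [sum_hom_units_eq_zero (β y) fun e => hy ?_, mul_zero]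
      refine inv_mem_iff.1 (h.selfc _ fun w hw => (commutatorElement_eq_one_iff_mul_comm.1 ?_).symm)
      by_contra hc
      have a1 : β y ⟨w, hw⟩ = -1 := if_neg fun e' => hc (congrArg Subtype.val e')
      rw [e] at a1
      exact absurd a1 (by simp)
  have h7 : (∑ y, s y) * (∑ y, s y) ≤ 256 := by
    calc _ = ∑ w, (∑ y, s (y * w)) * s w := by
          rw [Finset.mul_sum]
          exact Finset.sum_congr rfl fun w _ => 
            congrArg (· * s w) (Equiv.sum_comp (Equiv.mulRight w) s).symm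
      _ = ∑ y, s y * ∑ w, β y w := by
          simp only [Finset.sum_mul, Finset.mul_sum, h4, mul_assoc, h5, mul_one]
          exact Finset.sum_comm
      _ ≤ _ := Finset.sum_le_sum fun y _ => h6 y
      _ = _ := by
          rw [← Finset.sum_filter, Finset.sum_const, ← Fintype.card_subtype,
            ← Nat.card_eq_fintype_card, Nat.card_congr (subgroupOfEquivOfLe h.le).toEquiv, h2]
          rfl
  have h8 : {y | y ∈ E ∧ y * y = 1}.ncard = (Finset.univ.filter fun y : E => (y : A) * y = 1).card := by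
    rw [← Set.ncard_coe_finset, ← Set.ncard_image_of_injective _ Subtype.val_injective]
    congr 1
    ext y
    simp [and_comm]
  have h9 : ∑ y, s y = ∑ y : E, (2 * (if (y : A) * y = 1 then 1 else 0) - 1) :=
    Finset.sum_congr rfl fun y _ => by
      simp only [s, j, MonoidHom.coe_mk, OneHom.coe_mk, Subtype.ext_iff, coe_one]
      split_ifs <;> rfl
  rw [Finset.sum_sub_distrib, ← Finset.mul_sum, Finset.sum_boole, ← h8, Finset.sum_const,
    Finset.card_univ, hE] at h9
  rw [h9] at h7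
  by_contra hc
  have : (73 : ℤ) ≤ ({y | y ∈ E ∧ y * y = 1}.ncard : ℤ) := by omega
  norm_num at h7
  nlinarith

/-- Few vectors are fixed by nontrivial elements centralising `Z` if the module is large. -/
theorem two_mul_ncard_le (hN : (2 * Nat.card A) ^ 4 ≤ Nat.card V) :
    2 * {v : V | ∃ g ∈ centralizer (Z : Set A), g ≠ 1 ∧ g • v = v}.ncard ≤ Nat.card V := by
  classical
  have := Fintype.ofFinite A
  let S := Finset.univ.filter fun g : A => g ∈ centralizer (Z : Set A) ∧ g ≠ 1
  have h1 := ncard_le_sum_fix S {v : V | ∃ g ∈ centralizer (Z : Set A), g ≠ 1 ∧ g • v = v} 1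
    fun v ⟨g, a, b, c⟩ => Finset.card_pos.2 ⟨g, by simp [S, a, b, c]⟩
  have h2 : ∑ g ∈ S, 2 * Nat.card A * Nat.card (fix V g) ≤ S.card • Nat.card V :=
    Finset.sum_le_card_nsmul _ _ _ fun g hg => by
      obtain ⟨-, a, b⟩ := Finset.mem_filter.1 hg
      refine (Nat.pow_le_pow_iff_left four_ne_zero).1 ?_
      calc _ = (2 * Nat.card A) ^ 4 * Nat.card (fix V g) ^ 4 := mul_pow _ _ _
        _ ≤ Nat.card V * Nat.card V ^ 3 := Nat.mul_le_mul hN (h.fix_pow_four a b)
        _ = _ := by ring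
  have h3 : S.card ≤ Nat.card A := Nat.card_eq_fintype_card (α := A) ▸ Finset.card_le_univ S
  rw [← Finset.mul_sum, smul_eq_mul] at h2
  refine Nat.le_of_mul_le_mul_left ?_ (Nat.card_pos (α := A))
  calc _ = 2 * Nat.card A * (_ * 1) := by ring
    _ ≤ _ := Nat.mul_le_mul_left _ h1
    _ ≤ _ := h2
    _ ≤ _ := by gcongr

end Str

theorem num_mono {q₀ q z K e k : ℕ} (hq : q₀ ≤ q) (hz : z < q) (hK : K ≤ q₀ ^ (e - k)) (hk : k ≤ e)
    (h0 : k ≠ 0) : z ^ k * K < q ^ e := by
  calc _ ≤ z ^ k * q ^ (e - k) := by gcongr; exact hK.trans (by gcongr)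
    _ < q ^ k * q ^ (e - k) :=
      Nat.mul_lt_mul_of_pos_right (Nat.pow_lt_pow_left hz h0) (pow_pos (by omega) _)
    _ = _ := by rw [← pow_add, Nat.add_sub_cancel' hk]

theorem num_huge (n : ℕ) : 16 * (n + 256) ^ 32 ≤ 3 ^ (n + 248) := by
  induction n with
  | zero => norm_num
  | succ n ih =>
    have h1 : (n + 1 + 256) ^ 32 ≤ 3 * (n + 256) ^ 32 := by
      refine Nat.le_of_mul_le_mul_left ?_ (pow_pos (by norm_num : 0 < 256) 32)
      calc _ = (256 * (n + 1 + 256)) ^ 32 := (mul_pow _ _ _).symm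
        _ ≤ (257 * (n + 256)) ^ 32 := Nat.pow_le_pow_left (by omega) _
        _ ≤ _ := by rw [mul_pow, ← mul_assoc]; gcongr; norm_num
    rw [add_right_comm n 1 248, pow_succ 3]
    omega

section
variable {A V : Type*} [Group A] [AddCommGroup V] [DistribMulAction A V]

theorem goods_two {k : ℕ} {x y : V} (hx : Good A k x) (hy : Good A k y) (h : ∀ a : A, a • x ≠ y) :
    Goods A V 2 k :=
  ⟨![x, y], fun i => by fin_cases i <;> assumption, fun i j a e => by
    fin_cases i <;> fin_cases j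
    · rfl
    · exact absurd e (h a)
    · exact absurd (inv_smul_eq_iff.2 e.symm) (h a⁻¹)
    · rfl⟩

variable (A V) in
/-- The inductive invariant. -/
def Nine : Prop := Goods A V 5 9 ∨ Goods A V 4 8 ∨ Goods A V 3 7 ∨ Goods A V 2 6

theorem Nine.good (h : Nine A V) : ∃ v : V, Good A 9 v := by
  rcases h with ⟨x, h, -⟩ | ⟨x, h, -⟩ | ⟨x, h, -⟩ | ⟨x, h, -⟩ <;>
    exact ⟨x 0, (h 0).mono (by norm_num)⟩

end

theorem nine_prim {A : Type u} {V : Type*} [Group A] [Finite A] [Group.IsSolvable A]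
    [AddCommGroup V] [Finite V] [Nontrivial V] [DistribMulAction A V] (hp : Prim A V) :
    Nine A V := by
  obtain ⟨Z, E, h⟩ := exists_str hp
  obtain ⟨q, e, -, -, he, he1, hN, hr, hz, -⟩ := h.params
  have hz0 : 0 < Nat.card Z := Nat.card_pos
  have hd : ∀ {k m}, e ≤ m → m < 256 → rho (m ^ 2) ≤ k → 1 ≤ k → dser (⊤ : Subgroup A) k ≤ E :=
    fun a b c d => h.dser_le (pRho _) (Nat.lt_succ_self _) (by rw [he]; nlinarith)
      (he ▸ (rho_mono (Nat.pow_le_pow_left a 2)).trans c) d
  by_cases h7 : e ≤ 7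
  · obtain ⟨v, hv⟩ := exists_ne (0 : V)
    have h1 := h.dl_of_le (hd (k := 4) h7 (by norm_num) (by decide) (by norm_num))
    exact .inr (.inr (.inr (goods_two (h1.good 0) (h1.good v) fun a e' => hv (by rw [← e', smul_zero]))))
  have h3 := three_le_of_params hr (by omega)
  by_cases h16 : e ≤ 16
  · obtain ⟨x, hx⟩ := exists_isMax (V := V) E
    obtain ⟨v, -, hv⟩ : ∃ v : V, v ≠ 0 ∧ ∀ y ∈ E, y • v = v → y = 1 := by
      by_cases h8 : e = 8 ∧ q = 3
      · obtain ⟨rfl, rfl⟩ := h8
        have h2 : Nat.card Z = 2 := by have := (hr 2 Nat.prime_two (by norm_num)).1; omega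
        refine h.exists_generic {y | y ∈ E ∧ y * y = 1} ((Nat.pow_le_pow_left (h.gauss h2 he) 2).trans_lt
          (lt_of_lt_of_le (by norm_num) hN)) fun y hy v hv e => ⟨hy, h.eq_one hv
            (h.selfc _ fun w hw => ?_) (by rw [mul_smul, e, e])⟩
        have a1 := h.comm w hw y hy
        have a2 : ⁅w, y⁆ * ⁅w, y⁆ = 1 := by
          have : (⟨_, a1⟩ : Z) ^ 2 = 1 := h2 ▸ pow_card_eq_one'
          exact (sq _).symm.trans (congrArg Subtype.val this)
        calc _ = ⁅w, y⁆ * (y * ⁅w, y⁆) * y * w := by simp only [commutatorElement_def]; group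
          _ = _ := by rw [← h.cen _ a1 y hy, ← mul_assoc, a2, one_mul]
      refine h.exists_generic E (lt_of_lt_of_le ?_ hN) fun y hy _ _ _ => hy
      rw [← Nat.card_coe_set_eq, SetLike.coe_sort_coe, ← relIndex_bot_left,
        ← relIndex_mul_relIndex _ _ _ bot_le h.le, relIndex_bot_left, he, mul_pow]
      by_cases h4 : 4 ≤ q
      · exact num_mono h4 hz (by interval_cases e <;> omega) (by omega) two_ne_zero
      · obtain rfl : q = 3 := by omega
        have h9 : e ≠ 9 := by rintro rfl; exact absurd (hr 3 Nat.prime_three (by norm_num)).2 (by omega)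
        refine lt_of_le_of_lt (Nat.mul_le_mul_right _ (Nat.pow_le_pow_left (by omega : _ ≤ 2) 2)) ?_
        interval_cases e <;> omega
    refine .inr (.inr (.inr (goods_two (Str.good_generic (hd h16 (by norm_num) (by decide)
      (by norm_num)) hv) (h.good_isMax hx (by rw [he]; nlinarith)) fun a e' => ?_)))
    have := h.le_four_of_isMax hx fun y hy e'' => by
      have := hv _ (h.En.conj_mem y hy a⁻¹) (by
        rw [inv_inv, mul_smul, mul_smul, e', e'', ← e', inv_smul_smul])
      exact conj_eq_one_iff.1 this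
    rw [he] at this
    nlinarith
  have hA := h.card_le he
  by_cases h256 : e < 256
  · have h1 : Nat.card Z ^ 2 * (5 * e ^ 8) < q ^ e := by
      have a1 : ∀ e < 256, 32 ≤ e → 5 * e ^ 8 ≤ 3 ^ (e - 2) := by decide +kernel
      have a2 : ∀ e < 32, 17 ≤ e → e ≠ 18 →
        ∃ r < 32, r.Prime ∧ r ∣ e ∧ 5 * e ^ 8 ≤ (r + 1) ^ (e - 2) := by decide +kernel
      by_cases a3 : 32 ≤ e
      · exact num_mono h3 hz (a1 e h256 a3) (by omega) two_ne_zero
      by_cases a4 : e = 18
      · subst a4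
        have := (hr 2 Nat.prime_two (by norm_num)).1
        have := (hr 3 Nat.prime_three (by norm_num)).1
        exact num_mono (q₀ := 7) (by omega) hz (by norm_num) (by omega) two_ne_zero
      obtain ⟨r, -, b1, b2, b3⟩ := a2 e (by omega) (by omega) a4
      exact num_mono (hr r b1 b2).2 hz b3 (by omega) two_ne_zero
    obtain ⟨x, h4, h5⟩ := exists_inequiv (A := A) (c := 4) ({0}ᶜ : Set V) (by
      rw [Set.ncard_compl, Set.ncard_singleton]
      have : 0 < Nat.card Z ^ 2 * e ^ 8 := by positivity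
      have := h1.trans_le hN
      rw [mul_left_comm] at this
      omega)
    exact .inl ⟨x, fun i => h.good_succ (hd (m := 255) (by omega) (by norm_num) (by decide)
      (by norm_num)) (h4 i), h5⟩
  have h1 : (2 * Nat.card A) ^ 4 ≤ Nat.card V := by
    obtain ⟨n, rfl⟩ : ∃ n, e = n + 256 := ⟨e - 256, by omega⟩
    have := num_mono (e := n + 256) (k := 8) h3 hz (num_huge n) (by omega) (by norm_num)
    calc _ ≤ (2 * (Nat.card Z ^ 2 * (n + 256) ^ 8)) ^ 4 := by gcongr
      _ = Nat.card Z ^ 8 * (16 * (n + 256) ^ 32) := by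
        generalize n + 256 = m
        ring
      _ ≤ _ := (this.trans_le hN).le
  have h2 := h.two_mul_ncard_le h1
  obtain ⟨x, h4, h5⟩ := exists_inequiv (A := A) (c := 1)
    {v : V | ∃ g ∈ centralizer (Z : Set A), g ≠ 1 ∧ g • v = v}ᶜ (by
      rw [Set.ncard_compl]
      have a1 : 0 < Nat.card A := Nat.card_pos
      have := (lt_self_pow₀ (by omega : 1 < 2 * Nat.card A) (by norm_num : 1 < 4)).trans_le h1
      omega)
  exact .inr (.inr (.inr ⟨x, fun i => (h.good_one fun y hy e => by_contra fun hc =>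
    h4 i ⟨y, hy, hc, e⟩).mono (by norm_num), h5⟩))

theorem goods_lift {A V : Type*} [Group A] [Finite A] [AddCommGroup V] [DistribMulAction A V]
    {U : AddSubgroup V} (hirr : Irr A V) (hU : U ≠ ⊥) (h : Indep A U) {c t d k : ℕ}
    (hT : Types A (MulAction.orbit A U) (Fin c) t d)
    (hG : letI := resAct _ U (inv_stabilizer (A := A) U); Goods (MulAction.stabilizer A U) U c k) :
    Goods A V t (d + k) := by
  obtain ⟨x, h1, h2⟩ := hG
  exact goods_of_indep hirr hU h hT (fun j => x j) (fun j => goodOn_of_res _ (h1 j))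
    fun j j' a ha e => h2 j j' ⟨a, ha⟩ (Subtype.ext e)

theorem Irr.img {A V : Type*} [Group A] [AddCommGroup V] [DistribMulAction A V] (h : Irr A V) :
    Irr (Img A V) V := fun U hU => h U fun a => hU (toImg V a)

theorem card_lt_of_ne_top {V : Type*} [AddCommGroup V] [Finite V] {U : AddSubgroup V} (h : U ≠ ⊤) :
    Nat.card U < Nat.card V :=
  lt_of_le_of_ne U.card_le_card_addGroup fun e => h (AddSubgroup.eq_top_of_card_eq _ e)

theorem nine_aux {A V : Type u} [Group A] [Finite A] [Group.IsSolvable A] [AddCommGroup V]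
    [Finite V] [Nontrivial V] [DistribMulAction A V]
    (ih : ∀ (B W : Type u) [Group B] [Finite B] [Group.IsSolvable B] [AddCommGroup W] [Finite W]
      [Nontrivial W] [DistribMulAction B W], Nat.card W < Nat.card V → Irr B W → Nine B W)
    (hirr : Irr A V) (hf : ∀ g : A, (∀ v : V, g • v = v) → g = 1) : Nine A V := by
  by_cases hp : Prim A V
  · exact nine_prim hp
  obtain ⟨U, h1, h2, h4⟩ := exists_indep hf hp
  have : Finite (MulAction.orbit A U) := Finite.finite_mulAction_orbit U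
  have : Nonempty (MulAction.orbit A U) := ⟨⟨U, MulAction.mem_orbit_self U⟩⟩
  have h6 := two_le_orbit hirr h1 h2
  let := resAct _ U (inv_stabilizer (A := A) U)
  have : Nontrivial U := (AddSubgroup.nontrivial_iff_ne_bot U).2 h1
  rcases ih (MulAction.stabilizer A U) U (card_lt_of_ne_top h2) (irr_res _ (h4.irr hirr)) with
    h | h | h | h
  · exact .inl (goods_lift hirr h1 h4 (types_five A _) h)
  · exact .inl (goods_lift hirr h1 h4 (types_four A _ h6) h)
  · exact .inl (goods_lift hirr h1 h4 (types_three A _ h6) h)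
  rcases (by omega : Nat.card (MulAction.orbit A U) = 2 ∨ Nat.card (MulAction.orbit A U) = 3 ∨
    4 ≤ Nat.card (MulAction.orbit A U)) with h7 | h7 | h7
  · exact .inr (.inr (.inl (goods_lift hirr h1 h4 ((types_two_small A _).1 h7) h)))
  · exact .inr (.inl (goods_lift hirr h1 h4 ((types_two_small A _).2 h7) h))
  · exact .inl (goods_lift hirr h1 h4 (types_two A _ h7) h)

theorem nine_irr (n : ℕ) : ∀ (A V : Type u) [Group A] [Finite A] [Group.IsSolvable A]
    [AddCommGroup V] [Finite V] [Nontrivial V] [DistribMulAction A V], Nat.card V < n →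
    Irr A V → Nine A V := by
  induction n with
  | zero => exact fun _ _ _ _ _ _ _ _ _ h => absurd h (Nat.not_lt_zero _)
  | succ n ih =>
  intro A V _ _ _ _ _ _ _ hn hirr
  have := Group.isSolvable_of_surjective (toImg_surj (A := A) (V := V))
  have : Finite (Img A V) := Finite.of_surjective _ toImg_surj
  exact (nine_aux (fun B W _ _ _ _ _ _ _ h => ih B W (by omega)) hirr.img img_faithful).imp
    Goods.of_img (Or.imp Goods.of_img (Or.imp Goods.of_img Goods.of_img))

/-- Reduction to the irreducible case. -/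
theorem good_of_cr (k : ℕ) (P : ℕ → ℕ → Prop)
    (hP : ∀ a b a' b', a' ∣ a → b' ∣ b → P a b → P a' b')
    (hirr : ∀ (A V : Type u) [Group A] [Finite A] [Group.IsSolvable A] [AddCommGroup V] [Finite V]
      [Nontrivial V] [DistribMulAction A V], P (Nat.card A) (Nat.card V) → Irr A V →
      ∃ v : V, Good A k v) (n : ℕ) :
    ∀ (A V : Type u) [Group A] [Finite A] [Group.IsSolvable A] [AddCommGroup V] [Finite V]
      [DistribMulAction A V], Nat.card V < n → P (Nat.card A) (Nat.card V) → CR A V →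
      ∃ v : V, Good A k v := by
  induction n with
  | zero => exact fun _ _ _ _ _ _ _ _ h => absurd h (Nat.not_lt_zero _)
  | succ n ih =>
  intro A V _ _ _ _ _ _ hn h0 hcr
  rcases subsingleton_or_nontrivial V with hV | hV
  · exact ⟨0, fun _ _ _ _ _ => Subsingleton.elim _ _⟩
  by_cases h : Irr A V
  · exact hirr A V h0 h
  simp only [Irr, not_forall, not_or] at h
  obtain ⟨U, hU, h1, h2⟩ := h
  obtain ⟨W, hW, h3, h4⟩ := hcr U hU
  have key : ∀ U : AddSubgroup V, Inv (⊤ : Subgroup A) U → U ≠ ⊤ →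
      ∃ x, GoodOn (⊤ : Subgroup A) U k x := fun U hU h2 => by
    let := resAct ⊤ U hU
    obtain ⟨x, hx⟩ := ih (⊤ : Subgroup A) U ((card_lt_of_ne_top h2).trans_le (by omega))
      (hP _ _ _ _ (card_subgroup_dvd_card _) U.card_addSubgroup_dvd_card h0) (cr_res_of_cr hcr hU)
    exact ⟨x, goodOn_of_res hU hx⟩
  obtain ⟨x, hx⟩ := key U (fun a _ => hU a) h2
  obtain ⟨y, hy⟩ := key W (fun a _ => hW a) fun e => h1 (by rwa [e, inf_top_eq] at h3)
  exact ⟨_, good_of_compl (fun a _ => hU a) (fun a _ => hW a) h3 h4 hx hy⟩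

theorem exists_good_nine {A V : Type*} [Group A] [Finite A] [Group.IsSolvable A] [AddCommGroup V]
    [Finite V] [DistribMulAction A V] (hcr : CR A V) : ∃ v : V, Good A 9 v := by
  have := Group.isSolvable_of_surjective (toImg_surj (A := A) (V := V))
  have : Finite (Img A V) := Finite.of_surjective _ toImg_surj
  exact (good_of_cr 9 (fun _ _ => True) (fun _ _ _ _ _ _ _ => trivial)
    (fun A V _ _ _ _ _ _ _ _ h => (nine_irr _ A V (Nat.lt_succ_self _) h).good) _ (Img A V) V
    (Nat.lt_succ_self _) trivial hcr.img).imp fun _ => Good.of_img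

end CL.SolvLin
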