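import Mathlib
import Cfsg.Agent.FGS.StabDL4

/-!
# A vector with abelian stabiliser in the odd case
-/

open Subgroup
open scoped Pointwise commutatorElement

namespace CL.SolvLin

universe u

theorem relIndex_mul_le' {A X ι : Type*} [Group A] [Finite X] [MulAction A X] {E C : Subgroup A}
    (x : ι → X) (h : ∀ c ∈ C, ∀ i j, c • x i = x j → c ∈ E ∧ i = j) :
    E.relIndex C * Nat.card ι ≤ Nat.card X := by
  rw [relIndex, index, ← Nat.card_prod]
  refine Nat.card_le_card_of_injective (fun q => (q.1.out : A) • x q.2) ?_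
  rintro ⟨q, i⟩ ⟨q', j⟩ e
  obtain ⟨h1, h2⟩ := h ((q.out : A)⁻¹ * q'.out) (mul_mem (inv_mem q.out.2) q'.out.2) j i (by
    rw [mul_smul, inv_smul_eq_iff]
    exact e.symm)
  rw [Prod.mk.injEq, ← q.out_eq', ← q'.out_eq', QuotientGroup.eq]
  exact ⟨h1, h2.symm⟩

theorem eq_zero_of_neg {W : Type*} [AddCommGroup W] (hW : Odd (Nat.card W)) {u : W} (h : u = -u) :
    u = 0 := by
  obtain ⟨k, hk⟩ := hW
  have := card_nsmul_eq_zero' (x := u)
  rwa [hk, add_smul, one_smul, mul_comm, mul_smul, two_smul, eq_neg_iff_add_eq_zero.1 h, smul_zero,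
    zero_add] at this

theorem eq_zero_of_smul_neg {A W : Type*} [Group A] [AddCommGroup W] [DistribMulAction A W]
    (hA : Odd (Nat.card A)) (hW : Odd (Nat.card W)) {a : A} {u : W} (h : a • u = -u) : u = 0 :=
  eq_zero_of_neg hW ((smul_eq_of_sq (odd_orderOf hA a) (by rw [h, smul_neg, h, neg_neg])).symm.trans h)

namespace Str
variable {A : Type u} {V : Type*} [Group A] [AddCommGroup V] [DistribMulAction A V]
  {Z E : Subgroup A} (h : Str V Z E) [Finite A] [Finite V] [Nontrivial V] [Group.IsSolvable A]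
  (hA : Odd (Nat.card A))
include h hA

theorem five_mul_le {e : ℕ} (he : Z.relIndex E = e ^ 2) (h3 : 3 ≤ e) :
    E.relIndex (centralizer (Z : Set A)) * 5 ≤ e ^ 4 := by
  obtain ⟨W, _, _, _, hW, hcr, hk⟩ := h.section'
  have hWo : Odd (Nat.card W) := hW ▸
    (hA.of_dvd_nat (card_subgroup_dvd_card E)).of_dvd_nat (index_dvd_card (Z.subgroupOf E))
  obtain ⟨b, hb⟩ := hasBase_of_odd hA hcr
  rw [he] at hW
  obtain ⟨x, y, hb⟩ : ∃ x y : W, ∀ c ∈ centralizer (Z : Set A), c • x = x → c • y = y → c ∈ E :=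
    ⟨b true, b false, fun c hc h1 h2 => hk c hc (hb c fun i => by cases i <;> assumption)⟩
  by_cases h1 : ∃ w : W, ∀ c ∈ centralizer (Z : Set A), c • w = w → c ∈ E
  · obtain ⟨w, hw⟩ := h1
    have := relIndex_mul_le' (fun _ : Unit => w) fun c hc _ _ e => ⟨hw c hc e, rfl⟩
    rw [Nat.card_unique, mul_one, hW] at this
    calc _ ≤ e ^ 2 * e ^ 2 := Nat.mul_le_mul this (by nlinarith)
      _ = _ := by ring
  push Not at h1
  have a1 : ∀ c : A, c • x ≠ -x := fun c e => by
    obtain ⟨d, h2, h3, h4⟩ := h1 y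
    exact h4 (hb d h2 (by rw [eq_zero_of_smul_neg hA hWo e, smul_zero]) h3)
  have a2 : ∀ c : A, c • y ≠ -y := fun c e => by
    obtain ⟨d, h2, h3, h4⟩ := h1 x
    exact h4 (hb d h2 h3 (by rw [eq_zero_of_smul_neg hA hWo e, smul_zero]))
  have a3 : ∀ c : A, c • x = y ∨ c • x = -y → c • y = x ∨ c • y = -x → False := fun c e e' => by
    have b1 : c • c • x = x ∨ c • c • x = -x := by
      rcases e with e | e <;> rcases e' with e' | e' <;> simp [e, e']
    have b2 := smul_eq_of_sq (odd_orderOf hA c) (b1.resolve_right (mul_smul c c x ▸ a1 _))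
    obtain ⟨d, h2, h3, h4⟩ := h1 x
    refine h4 (hb d h2 h3 ?_)
    rcases e with e | e
    · rw [← e, b2, h3]
    · rw [← neg_inj, ← smul_neg, ← e, b2, h3]
  have := relIndex_mul_le' (E := E) (C := centralizer (Z : Set A))
    ![(x, y), (-x, y), (x, -y), (-x, -y), (y, x)] fun c hc i j e => by
      have a4 := a1 c
      have a5 := a2 c
      have a6 := a3 c
      have a7 := hb c hc
      fin_cases i <;> fin_cases j <;>
        simp only [Prod.smul_mk, Prod.mk.injEq, smul_neg, neg_eq_iff_eq_neg, neg_neg,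
          Fin.zero_eta, Fin.mk_one, Fin.reduceFinMk, Matrix.cons_val] at e <;>
        first | exact ⟨by tauto, rfl⟩ | tauto
  rwa [Nat.card_prod, hW, ← pow_add, Nat.card_eq_fintype_card, Fintype.card_fin] at this

omit [Group.IsSolvable A] in
theorem le_eleven (he : Z.relIndex E = 11 ^ 2) : E.relIndex (centralizer (Z : Set A)) ≤ 120 := by
  obtain ⟨W, _, _, Y, _, _, f, B, hf, hW, hfa, hcr, hH, b1, b2, b3, b4, b5⟩ := h.section
  have := h.Zn
  have : Finite Y := Finite.of_surjective f hf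
  have hY := hA.of_dvd_nat (card_dvd_of_surjective f hf)
  rw [he] at hW
  rw [← hH]
  set H := (centralizer (Z : Set A)).map f with hHd
  have : H.Normal := (inferInstance : (centralizer (Z : Set A)).Normal).map f hf
  have hHo := hY.of_dvd_nat (card_subgroup_dvd_card H)
  have hr : Nat.Prime 11 := by norm_num
  refine Nat.le_of_dvd (by norm_num) ((hcr.card_dvd_of_small hfa hr hW H ?_ fun t a b c => ?_).trans
    (by rw [hW]; norm_num))
  · rintro _ ⟨c, hc, rfl⟩ hp hne w hw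
    obtain ⟨j, hj, hj'⟩ := (Nat.dvd_prime_pow hr).1 (hW ▸ (fix W (f c)).card_addSubgroup_dvd_card)
    interval_cases j
    · exact (AddSubgroup.eq_bot_iff_forall _).1 (AddSubgroup.eq_bot_of_card_eq _ hj') w hw
    · exact absurd (by rwa [hj', pow_one]) (fix_not_prime B b1 b2 b3 b4 (b5 c hc)
        (pow_orderOf_eq_one _) (hW ▸ ((Nat.coprime_primes hp hr).2 hne).pow_right 2))
    · rw [← hW] at hj'
      exact absurd (orderOf_eq_one_iff.2 (hfa _ fun v => (show v ∈ fix W (f c) from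
        (AddSubgroup.eq_top_of_card_eq _ hj').symm ▸ trivial))) hp.ne_one
  · have h1 : ∀ t ∈ Nat.divisors 120, Odd t → t % 11 = 1 % 11 → t = 1 := by decide
    rw [hW] at a
    exact h1 t (Nat.mem_divisors.2 ⟨a, by norm_num⟩) (hHo.of_dvd_nat b) c

omit [Group.IsSolvable A] in
/-- The basic counting inequality. -/
theorem count {e : ℕ} (he : Z.relIndex E = e ^ 2) {s : ℝ} (hs0 : 0 < s) (hs : s ^ 6 = Nat.card V)
    (hc : ∀ v : V, ∃ g ∈ centralizer (Z : Set A), g ≠ 1 ∧ g • v = v) :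
    2 * s ^ 6 ≤ (e ^ 2 * (E.relIndex (centralizer (Z : Set A)) - 1) : ℕ) * s ^ 4 +
      (Nat.card Z * (e ^ 2 * E.relIndex (centralizer (Z : Set A))) : ℕ) * s ^ 3 := by
  classical
  have := Fintype.ofFinite A
  have hC := h.card_centralizer
  rw [he] at hC
  set C := centralizer (Z : Set A) with hCd
  have hEC : E ≤ C := fun x hx y hy => h.cen y hy x hx
  let S := Finset.univ.filter fun g : A => g ∈ C ∧ g ≠ 1
  have h1 := ncard_le_sum_fix S (Set.univ : Set V) 2 fun v _ => by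
    obtain ⟨g, a, b, c⟩ := hc v
    refine Finset.one_lt_card.2 ⟨g, by simp [S, a, b, c], g⁻¹,
      by simp [S, a, b, inv_smul_eq_iff, c], fun e => b ?_⟩
    simpa using smul_eq_of_sq (odd_orderOf hA g) (x := (1 : A)) (by
      simpa using eq_inv_iff_mul_eq_one.1 e)
  let B := Finset.univ.filter fun g : A => g ∈ C ∧ g ∉ E ∧ Nat.card V < Nat.card (fix V g) ^ 2
  have h2 : ∀ g ∈ S, (Nat.card (fix V g) : ℝ) ≤ (if g ∈ B then s ^ 4 else 0) + s ^ 3 := by
    intro g hg
    obtain ⟨-, a, b⟩ := Finset.mem_filter.1 hg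
    split_ifs with hB
    · refine le_trans (le_of_pow_le_pow_left₀ (n := 6) (by norm_num) (by positivity) ?_)
        (le_add_of_nonneg_right (by positivity))
      rw [← pow_mul, mul_comm, pow_mul, hs]
      exact_mod_cast h.fix_pow_six hA a (Finset.mem_filter.1 hB).2.2.1
    · refine le_of_pow_le_pow_left₀ two_ne_zero (by positivity) ?_
      rw [zero_add, ← pow_mul, hs]
      by_cases c : g ∈ E
      · exact_mod_cast h.fix_sq_of_mem c b
      · exact_mod_cast not_lt.1 fun d => hB (by simp [B, a, c, d])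
  have h3 : B.card * Nat.card Z + Nat.card E ≤ Nat.card C := by
    rw [← Fintype.card_coe, ← Nat.card_eq_fintype_card, ← Nat.card_prod, ← Nat.card_sum]
    have a1 : ∀ g : B, (g : A) ∈ C ∧ (g : A) ∉ E ∧ Nat.card V < Nat.card (fix V (g : A)) ^ 2 :=
      fun g => (Finset.mem_filter.1 g.2).2
    refine Nat.card_le_card_of_injective (Sum.elim (fun p => ⟨p.1 * p.2, mul_mem (a1 _).1
      (hEC (h.le p.2.2))⟩) fun y => ⟨y, hEC y.2⟩) (Function.Injective.sumElim ?_
        (fun y y' e => Subtype.ext (congrArg Subtype.val e :)) fun p y e => (a1 p.1).2.1 ?_)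
    · rintro ⟨g, z⟩ ⟨g', z'⟩ e
      have e' : (g : A) * z = g' * z' := congrArg Subtype.val e
      suffices e'' : z = z' by
        rw [e''] at e' ⊢
        rw [Subtype.ext (mul_right_cancel e')]
      by_contra hne
      have a2 : fix V (g : A) ⊓ fix V (g' : A) = ⊥ := (AddSubgroup.eq_bot_iff_forall _).2 fun v hv =>
        h.smul_inj z.2 z'.2 (fun e => hne (Subtype.ext e)) (by
          rw [← mem_fix.1 hv.1, ← mul_smul, (a1 g).1 _ z.2, ← (a1 g).1 _ z.2, (a1 g).1 _ z.2, e',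
            ← (a1 g').1 _ z'.2, mul_smul, mem_fix.1 hv.1, mem_fix.1 hv.2])
      have a3 := card_mul_le_inf (fix V (g : A)) (fix V (g' : A))
      rw [a2, AddSubgroup.card_bot, one_mul] at a3
      have a4 := Nat.mul_lt_mul'' (a1 g).2.2 (a1 g').2.2
      rw [← mul_pow, ← sq] at a4
      exact absurd (Nat.pow_le_pow_left a3 2) (not_le.2 a4)
    · have e' : (p.1 : A) * p.2 = y := congrArg Subtype.val e
      rw [eq_mul_inv_of_mul_eq e']
      exact mul_mem y.2 (inv_mem (h.le p.2.2))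
  have h4 : B.card ≤ e ^ 2 * (E.relIndex C - 1) := by
    rw [hC, ← relIndex_bot_left E, ← relIndex_mul_relIndex _ _ _ bot_le h.le, relIndex_bot_left, he,
      mul_comm, ← mul_add] at h3
    have := Nat.le_of_mul_le_mul_left h3 Nat.card_pos
    rw [Nat.mul_sub_one]
    omega
  have h5 : S.card ≤ Nat.card C := by
    rw [Nat.card_eq_fintype_card, Fintype.card_subtype]
    exact Finset.card_le_card fun g hg => by simp [(Finset.mem_filter.1 hg).2.1]
  rw [Set.ncard_univ] at h1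
  calc _ = ((Nat.card V * 2 : ℕ) : ℝ) := by rw [hs]; push_cast; ring
    _ ≤ ∑ g ∈ S, (Nat.card (fix V g) : ℝ) := by exact_mod_cast h1
    _ ≤ _ := Finset.sum_le_sum h2
    _ = (S.filter (· ∈ B)).card * s ^ 4 + S.card * s ^ 3 := by
      rw [Finset.sum_add_distrib, ← Finset.sum_filter, Finset.sum_const, Finset.sum_const,
        nsmul_eq_mul, nsmul_eq_mul]
    _ ≤ _ := by
      rw [← hC]
      gcongr
      exact (Finset.card_le_card fun g hg => (Finset.mem_filter.1 hg).2).trans h4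

end Str

theorem num_crit {q z e h N : ℕ} {s : ℝ} (hs0 : 0 < s) (hs : s ^ 6 = N) (hN : q ^ e ≤ N)
    (hz : 2 * z < q) (he : 2 ≤ e) (q₀ h₀ k l : ℕ) (hq : q₀ ≤ q) (hh : h ≤ h₀) (hl : 0 < l)
    (h1 : ((k + l) * (e ^ 2 * (h₀ - 1))) ^ 3 ≤ (2 * k) ^ 3 * q₀ ^ e)
    (h2 : ((k + l) * (e ^ 2 * h₀)) ^ 2 ≤ 16 * l ^ 2 * q₀ ^ (e - 2)) :
    (e ^ 2 * (h - 1) : ℕ) * s ^ 4 + (z * (e ^ 2 * h) : ℕ) * s ^ 3 < 2 * s ^ 6 := by
  have a1 : ((k + l) * (e ^ 2 * (h - 1) : ℕ) : ℝ) ≤ 2 * k * s ^ 2 := by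
    refine le_of_pow_le_pow_left₀ three_ne_zero (by positivity) ?_
    rw [mul_pow _ (s ^ 2), ← pow_mul, hs]
    have : ((k + l) * (e ^ 2 * (h - 1))) ^ 3 ≤ (2 * k) ^ 3 * N :=
      le_trans (by gcongr) (h1.trans (by gcongr; exact le_trans (by gcongr) hN))
    exact_mod_cast this
  have a2 : ((k + l) * (z * (e ^ 2 * h) : ℕ) : ℝ) < 2 * l * s ^ 3 := by
    refine lt_of_pow_lt_pow_left₀ 2 (by positivity) ?_
    rw [mul_pow _ (s ^ 3), ← pow_mul, hs]
    have b1 := num_mono hq hz le_rfl he two_ne_zero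
    have : ((k + l) * (z * (e ^ 2 * h))) ^ 2 < (2 * l) ^ 2 * N :=
      calc _ = z ^ 2 * ((k + l) * (e ^ 2 * h)) ^ 2 := by ring
        _ ≤ z ^ 2 * (16 * l ^ 2 * q₀ ^ (e - 2)) := by gcongr; exact le_trans (by gcongr) h2
        _ = (2 * l) ^ 2 * ((2 * z) ^ 2 * q₀ ^ (e - 2)) := by ring
        _ < _ := Nat.mul_lt_mul_of_pos_left (b1.trans_le hN) (by positivity)
    exact_mod_cast this
  refine lt_of_mul_lt_mul_left ?_ (by positivity : (0 : ℝ) ≤ k + l)
  calc _ = ((k + l) * (e ^ 2 * (h - 1) : ℕ) : ℝ) * s ^ 4 +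
        ((k + l) * (z * (e ^ 2 * h) : ℕ) : ℝ) * s ^ 3 := by ring
    _ < 2 * k * s ^ 2 * s ^ 4 + 2 * l * s ^ 3 * s ^ 3 :=
      add_lt_add_of_le_of_lt (mul_le_mul_of_nonneg_right a1 (by positivity))
        (mul_lt_mul_of_pos_right a2 (by positivity))
    _ = _ := by ring

theorem num_big (n : ℕ) : 512 * (n + 27) ^ 18 ≤ 78 ^ 3 * 7 ^ (n + 27) ∧
    4 * (n + 27) ^ 12 ≤ 7 ^ (n + 25) := by
  induction n with
  | zero => norm_num
  | succ n ih =>
    have h1 : (n + 1 + 27) ^ 6 ≤ 2 * (n + 27) ^ 6 := by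
      refine Nat.le_of_mul_le_mul_left ?_ (pow_pos (by norm_num : 0 < 27) 6)
      calc _ = (27 * (n + 1 + 27)) ^ 6 := (mul_pow _ _ _).symm
        _ ≤ (28 * (n + 27)) ^ 6 := Nat.pow_le_pow_left (by omega) _
        _ ≤ _ := by rw [mul_pow, ← mul_assoc]; exact Nat.mul_le_mul_right _ (by norm_num)
    have h2 := Nat.pow_le_pow_left h1 2
    have h3 : (n + 1 + 27) ^ 18 ≤ 7 * (n + 27) ^ 18 := by
      refine Nat.le_of_mul_le_mul_left ?_ (pow_pos (by norm_num : 0 < 27) 18)
      calc _ = (27 * (n + 1 + 27)) ^ 18 := (mul_pow _ _ _).symm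
        _ ≤ (28 * (n + 27)) ^ 18 := Nat.pow_le_pow_left (by omega) _
        _ ≤ _ := by rw [mul_pow, ← mul_assoc]; exact Nat.mul_le_mul_right _ (by norm_num)
    rw [mul_pow, ← pow_mul, ← pow_mul, show 6 * 2 = 12 from rfl] at h2
    rw [add_right_comm n 1 25, pow_succ 7 (n + 25), show 7 ^ (n + 1 + 27) = 7 ^ (n + 27) * 7 by ring]
    omega

theorem good_prim_odd {A : Type u} {V : Type*} [Group A] [Finite A] [Group.IsSolvable A]
    [AddCommGroup V] [Finite V] [Nontrivial V] [DistribMulAction A V] (hA : Odd (Nat.card A))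
    (hV : Odd (Nat.card V)) (hp : Prim A V) : ∃ v : V, Good A 1 v := by
  obtain ⟨Z, E, h⟩ := exists_str hp
  obtain ⟨q, e, -, hzq, he, he1, hN, hr, -, hq⟩ := h.params
  by_cases h1 : e = 1
  · subst h1
    have hEZ : E ≤ Z := relIndex_eq_one.1 he
    have h2 := (h.dser_le (k := 1) (pRho _) (Nat.lt_succ_self _) (by rw [he]; norm_num)
      (by rw [he]; decide) le_rfl).trans hEZ
    obtain ⟨v, hv⟩ := exists_ne (0 : V)
    exact ⟨v, fun K hK g hg u => by
      rw [h.eq_one hv (h2 (dser_mono le_top 1 hg)) (hK g (dser_le K 1 hg)), one_smul]⟩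
  by_contra hc
  have heo : Odd e := (Nat.odd_pow_iff two_ne_zero).1 (he ▸
    (hA.of_dvd_nat (card_subgroup_dvd_card E)).of_dvd_nat (index_dvd_card (Z.subgroupOf E)))
  have hz0 : 0 < Nat.card Z := Nat.card_pos
  have h3 := three_le_of_params hr (by omega)
  have hz : 2 * Nat.card Z < q := by
    obtain ⟨k, rfl⟩ := hq hV
    have := Nat.le_of_dvd (by omega) ((Nat.coprime_two_right.2
      (hA.of_dvd_nat (card_subgroup_dvd_card Z))).dvd_of_dvd_mul_left (show _ ∣ 2 * k from hzq))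
    omega
  have hr' : ∀ r, r.Prime → r ∣ e → 2 * r + 1 ≤ q := fun r a b => by
    have := Nat.le_of_dvd hz0 (hr r a b).1
    omega
  obtain ⟨s, hs0, hs⟩ : ∃ s : ℝ, 0 < s ∧ s ^ 6 = Nat.card V :=
    ⟨(Nat.card V : ℝ) ^ ((6 : ℕ) : ℝ)⁻¹, Real.rpow_pos_of_pos (by exact_mod_cast Nat.card_pos) _,
      Real.rpow_inv_natCast_pow (Nat.cast_nonneg _) (by norm_num)⟩
  refine absurd (h.count hA he hs0 hs fun v => by_contra fun h2 => hc ⟨v, h.good_one fun y a b =>
    by_contra fun c => h2 ⟨y, a, c, b⟩⟩) (not_le.2 ?_)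
  have he3 : 3 ≤ e := by obtain ⟨k, rfl⟩ := heo; omega
  have crit := num_crit (h := E.relIndex (centralizer (Z : Set A))) hs0 hs hN hz (by omega)
  have h5 := (Nat.le_div_iff_mul_le (by norm_num)).2 (h.five_mul_le hA he he3)
  obtain ⟨-, s3, s5, s7, s9⟩ := h.small (pOdd _) hA he (Nat.lt_succ_self _)
  by_cases h27 : 27 ≤ e
  · obtain ⟨n, rfl⟩ : ∃ n, e = n + 27 := ⟨e - 27, by omega⟩
    have a1 := Nat.minFac_prime h1
    have a2 := hr' _ a1 (Nat.minFac_dvd _)
    have a3 := (a1.odd_iff).1 (heo.of_dvd_nat (Nat.minFac_dvd _))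
    obtain ⟨b1, b2⟩ := num_big n
    have a4 : (39 + 1) * ((n + 27) ^ 2 * ((n + 27) ^ 4 / 5)) ≤ 8 * (n + 27) ^ 6 := by
      have := Nat.div_mul_le_self ((n + 27) ^ 4) 5
      generalize (n + 27) ^ 4 / 5 = c at this
      generalize n + 27 = m at this
      calc _ = 8 * (m ^ 2 * (c * 5)) := by ring
        _ ≤ 8 * (m ^ 2 * m ^ 4) := by gcongr
        _ = _ := by ring
    refine crit 7 _ 39 1 (by omega) h5 one_pos ?_ ?_
    · refine (Nat.pow_le_pow_left (le_trans (by gcongr; omega) a4) 3).trans ?_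
      rw [mul_pow, ← pow_mul]
      exact b1
    · refine (Nat.pow_le_pow_left a4 2).trans ?_
      rw [mul_pow, ← pow_mul, show n + 27 - 2 = n + 25 from rfl, show 6 * 2 = 12 from rfl]
      omega
  obtain ⟨k, rfl⟩ := heo
  have hk : k ≤ 12 := by omega
  interval_cases k
  · omega
  · exact crit 7 1 0 1 (hr' 3 (by norm_num) (by norm_num)) (s3 rfl) one_pos (by norm_num) (by norm_num)
  · exact crit 11 3 93 107 (hr' 5 (by norm_num) (by norm_num)) (s5 rfl) (by norm_num) (by norm_num)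
      (by norm_num)
  · exact crit 15 3 1 1 (hr' 7 (by norm_num) (by norm_num)) (s7 rfl) one_pos (by norm_num) (by norm_num)
  · exact crit 7 5 1 1 (hr' 3 (by norm_num) (by norm_num)) (s9 rfl) one_pos (by norm_num) (by norm_num)
  · exact crit 23 120 1 1 (hr' 11 (by norm_num) (by norm_num)) (h.le_eleven hA he) one_pos
      (by norm_num) (by norm_num)
  · exact crit 27 _ 1 1 (hr' 13 (by norm_num) (by norm_num)) h5 one_pos (by norm_num) (by norm_num)
  · have := (hr 3 (by norm_num) (by norm_num)).1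
    have := (hr 5 (by norm_num) (by norm_num)).1
    exact crit 31 _ 1 1 (by omega) h5 one_pos (by norm_num) (by norm_num)
  · exact crit 35 _ 1 1 (hr' 17 (by norm_num) (by norm_num)) h5 one_pos (by norm_num) (by norm_num)
  · exact crit 39 _ 1 1 (hr' 19 (by norm_num) (by norm_num)) h5 one_pos (by norm_num) (by norm_num)
  · exact crit 15 _ 1 1 (hr' 7 (by norm_num) (by norm_num)) h5 one_pos (by norm_num) (by norm_num)
  · exact crit 47 _ 1 1 (hr' 23 (by norm_num) (by norm_num)) h5 one_pos (by norm_num) (by norm_num)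
  · exact crit 11 _ 1 1 (hr' 5 (by norm_num) (by norm_num)) h5 one_pos (by norm_num) (by norm_num)

theorem good_odd_aux {A V : Type u} [Group A] [Finite A] [Group.IsSolvable A] [AddCommGroup V]
    [Finite V] [Nontrivial V] [DistribMulAction A V] (hA : Odd (Nat.card A)) (hV : Odd (Nat.card V))
    (ih : ∀ (B W : Type u) [Group B] [Finite B] [Group.IsSolvable B] [AddCommGroup W] [Finite W]
      [Nontrivial W] [DistribMulAction B W], Nat.card W < Nat.card V → Odd (Nat.card B) →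
      Odd (Nat.card W) → Irr B W → ∃ w : W, Good B 1 w)
    (hirr : Irr A V) (hf : ∀ g : A, (∀ v : V, g • v = v) → g = 1) : ∃ v : V, Good A 1 v := by
  by_cases hp : Prim A V
  · exact good_prim_odd hA hV hp
  obtain ⟨U, h1, h2, h4⟩ := exists_indep hf hp
  have : Finite (MulAction.orbit A U) := Finite.finite_mulAction_orbit U
  let := resAct _ U (inv_stabilizer (A := A) U)
  have : Nontrivial U := (AddSubgroup.nontrivial_iff_ne_bot U).2 h1
  have hH := hA.of_dvd_nat (card_subgroup_dvd_card (MulAction.stabilizer A U))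
  have hU := hV.of_dvd_nat U.card_addSubgroup_dvd_card
  obtain ⟨u, h5, h6⟩ : ∃ u : U, u ≠ 0 ∧ Good (MulAction.stabilizer A U) 1 u := by
    obtain ⟨u, hu⟩ := ih (MulAction.stabilizer A U) U (card_lt_of_ne_top h2) hH hU
      (irr_res _ (h4.irr hirr))
    by_cases h0 : u = 0
    · obtain ⟨w, hw⟩ := exists_ne (0 : U)
      exact ⟨w, hw, fun K _ => hu K fun g _ => by rw [h0, smul_zero]⟩
    · exact ⟨u, h0, hu⟩
  obtain ⟨D, hD⟩ := gluck (pOdd _) _ A (MulAction.orbit A U) rfl (Nat.lt_succ_self _) hA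
  classical
  obtain ⟨x, hx, -⟩ := goods_lift (t := 1) (d := 0) hirr h1 h4 ⟨fun _ l => if l ∈ D then 0 else 1,
    fun _ K hK g hg => hD g fun l => by
      have := hK g hg l
      by_cases a : l ∈ D <;> by_cases b : g • l ∈ D <;> simp_all,
    fun _ _ _ _ => Subsingleton.elim _ _⟩
    (goods_two h6 (y := -u) (fun K hK => h6 K fun g hg => neg_inj.1 (smul_neg g u ▸ hK g hg))
      fun a e => h5 (eq_zero_of_smul_neg hH hU e))
  exact ⟨x 0, hx 0⟩

theorem good_odd_irr (n : ℕ) : ∀ (A V : Type u) [Group A] [Finite A] [Group.IsSolvable A]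
    [AddCommGroup V] [Finite V] [Nontrivial V] [DistribMulAction A V], Nat.card V < n →
    Odd (Nat.card A) → Odd (Nat.card V) → Irr A V → ∃ v : V, Good A 1 v := by
  induction n with
  | zero => exact fun _ _ _ _ _ _ _ _ _ h => absurd h (Nat.not_lt_zero _)
  | succ n ih =>
  intro A V _ _ _ _ _ _ _ hn hA hV hirr
  have := Group.isSolvable_of_surjective (toImg_surj (A := A) (V := V))
  have : Finite (Img A V) := Finite.of_surjective _ toImg_surj
  exact (good_odd_aux (hA.of_dvd_nat card_img_dvd) hV (fun B W _ _ _ _ _ _ _ h => ih B W (by omega))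
    hirr.img img_faithful).imp fun _ => Good.of_img

theorem exists_good_one {A V : Type*} [Group A] [Finite A] [Group.IsSolvable A] [AddCommGroup V]
    [Finite V] [DistribMulAction A V] (hA : Odd (Nat.card A)) (hV : Odd (Nat.card V))
    (hcr : CR A V) : ∃ v : V, Good A 1 v := by
  have := Group.isSolvable_of_surjective (toImg_surj (A := A) (V := V))
  have : Finite (Img A V) := Finite.of_surjective _ toImg_surj
  exact (good_of_cr 1 (fun a b => Odd a ∧ Odd b)
    (fun _ _ _ _ a b c => ⟨c.1.of_dvd_nat a, c.2.of_dvd_nat b⟩)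
    (fun A V _ _ _ _ _ _ _ h => good_odd_irr _ A V (Nat.lt_succ_self _) h.1 h.2) _ (Img A V) V
    (Nat.lt_succ_self _) ⟨hA.of_dvd_nat card_img_dvd, hV⟩ hcr.img).imp fun _ => Good.of_img

theorem Good.derivedSeries_eq_bot {A V : Type*} [Group A] [AddCommGroup V] [DistribMulAction A V]
    [FaithfulSMul A V] {k : ℕ} {v : V} (h : Good A k v) :
    derivedSeries (MulAction.stabilizer A v) k = ⊥ :=
  eq_bot_iff.2 fun g hg => mem_bot.2 (Subtype.ext (eq_of_smul_eq_smul (α := V) fun u => by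
    rw [← dser_top] at hg
    rw [coe_one, one_smul]
    refine h _ ?_ _ (mem_dser_map hg (MulAction.stabilizer A v).subtype) u
    rintro _ ⟨a, -, rfl⟩
    exact a.2))

end CL.SolvLin
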