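import Mathlib
import Cfsg.Agent.FGS.PseudoSylow2

/-!
Simple groups with 22 Sylow 3-subgroups, part A: the prime 11 and Sylow 3-subgroups of order 3.
-/

set_option autoImplicit false

namespace CL.PSyl.S22

open Subgroup MulAction CL.SR

instance fact11 : Fact (Nat.Prime 11) := ⟨by norm_num⟩
instance fact7 : Fact (Nat.Prime 7) := ⟨by norm_num⟩
instance fact5 : Fact (Nat.Prime 5) := ⟨by norm_num⟩

variable {G : Type*} [Group G] [Finite G] [IsSimpleGroup G] (hc : ¬ IsMulCommutative G)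
  (hd : 3 ∣ Nat.card G) (hn : Nat.card (Sylow 3 G) = 22)
include hc hd hn

theorem not_dvd_N (A : Sylow 3 G) {r : ℕ} (hr : r.Prime) (h : 11 ≤ r) :
    ¬ r ∣ Nat.card (normalizer ((A : Subgroup G) : Set G)) := by
  have := faithful_sylow hc hd
  refine not_dvd_card_normalizer A hr (by omega) (by omega) fun k hk => ?_
  have h1 : k ≤ 2 := by
    by_contra hcon
    have : 3 ^ 3 ≤ 3 ^ k := Nat.pow_le_pow_right (by norm_num) (by omega)
    omega
  interval_cases k <;> omega

theorem not_sq_dvd : ¬ 11 ^ 2 ∣ Nat.card G := by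
  have h1 := CL.Small.card_sylow_mul_card_normalizer (default : Sylow 3 G)
  have h2 := not_dvd_N hc hd hn default (r := 11) (by norm_num) le_rfl
  rw [hn] at h1
  omega

theorem card_Q (Q : Sylow 11 G) : Nat.card Q = 11 := by
  have h1 := CL.Small.card_sylow_mul_card_normalizer (default : Sylow 3 G)
  rw [hn] at h1
  exact card_sylow_eq_prime Q (by omega) (not_sq_dvd hc hd hn)

theorem free_Q (Q : Sylow 11 G) : ∀ y ∈ (Q : Subgroup G), ∀ β : Sylow 3 G, y • β = β → y = 1 := by
  intro y hy β h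
  by_contra h1
  refine not_dvd_N hc hd hn β (r := 11) (by norm_num) le_rfl ?_
  rw [← CL.Small.orderOf_eq_of_card_prime (card_Q hc hd hn Q) hy h1]
  exact CL.Small.orderOf_dvd_card_of_mem (sylow_smul_eq_iff.1 h)

theorem eleven_data (Q : Sylow 11 G) : ∃ e, (e = 2 ∨ e = 5 ∨ e = 10) ∧
    Nat.card (centralizer ((Q : Subgroup G) : Set G)) = 11 ∧
    Nat.card (normalizer ((Q : Subgroup G) : Set G)) = 11 * e ∧
    Nat.card G = Nat.card (Sylow 11 G) * (11 * e) := by
  obtain ⟨e, k, h1, h2, h3, h4, -, h5⟩ := CL.Small.prime_sylow_data hc Q (card_Q hc hd hn Q)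
  have := faithful_sylow hc hd
  have hk : k = 1 := by
    by_contra hk
    obtain ⟨s, hs, hsk⟩ := Nat.exists_prime_and_dvd hk
    have := Fact.mk hs
    obtain ⟨c, hcC, hcs⟩ := CL.Small.exists_mem_orderOf_eq_prime _ s (h3 ▸ hsk.mul_left 11)
    have h6 := card_dvd_ncard_of_free (Q : Subgroup G) {β : Sylow 3 G | c • β = β}
      (fun g hg x hx => smul_mem_fixed_of_commute (hcC g hg) hx)
      (fun g hg x _ => free_Q hc hd hn Q g hg x)
    rw [card_Q hc hd hn Q] at h6
    have h7 := ncard_fixed_add_ncard_moved (X := Sylow 3 G) c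
    have h8 := ncard_moved_ne_zero (X := Sylow 3 G) (g := c) (by
      rintro rfl
      rw [orderOf_one] at hcs
      exact hs.one_lt.ne hcs)
    have h9 := dvd_ncard_moved_of_orderOf (X := Sylow 3 G) hs hcs
    have h10 : s ≠ 11 := by
      rintro rfl
      apply not_sq_dvd hc hd hn
      rw [h5]
      exact Dvd.dvd.mul_left (Dvd.dvd.mul_right (Nat.mul_dvd_mul_left 11 hsk) _) _
    have h11 : s ∣ 2 * 11 := by
      have h12 : {x : Sylow 3 G | c • x ≠ x}.ncard = 11 ∨
          {x : Sylow 3 G | c • x ≠ x}.ncard = 22 := by omega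
      rcases h12 with h12 | h12 <;> rw [h12] at h9
      · exact h9.mul_left 2
      · exact h9
    rcases (Nat.Prime.dvd_mul hs).1 h11 with h12 | h12
    · have h13 := four_dvd_ncard_moved (X := Sylow 3 G) hc
        (hcs.trans ((Nat.prime_dvd_prime_iff_eq hs Nat.prime_two).1 h12))
      omega
    · exact h10 ((Nat.prime_dvd_prime_iff_eq hs (by norm_num)).1 h12)
  subst hk
  refine ⟨e, ?_, h3, h4, h5⟩
  have h6 : e ≤ 10 := Nat.le_of_dvd (by norm_num) h2
  interval_cases e <;> simp_all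

theorem not_mem_centralizer (Q : Sylow 11 G) {t : G} (ht : orderOf t = 2) :
    t ∉ centralizer ((Q : Subgroup G) : Set G) := by
  intro h
  obtain ⟨e, -, h1, -⟩ := eleven_data hc hd hn Q
  have := CL.Small.orderOf_dvd_card_of_mem h
  rw [h1, ht] at this
  omega

theorem ncard_fixed_eq_two (Q : Sylow 11 G) {t : G} (ht : orderOf t = 2)
    (htN : t ∈ normalizer ((Q : Subgroup G) : Set G)) :
    {β : Sylow 3 G | t • β = β}.ncard = 2 := by
  have h1 := mul_ncard_fixed_le (card_Q hc hd hn Q) (not_mem_centralizer hc hd hn Q ht) htN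
    (S := (Set.univ : Set (Sylow 3 G))) (fun _ _ _ _ => trivial)
    (fun g hg x _ => free_Q hc hd hn Q g hg x)
  simp only [Set.mem_univ, true_and, Set.ncard_univ, hn] at h1
  have h2 := ncard_fixed_add_ncard_moved (X := Sylow 3 G) t
  have h3 := four_dvd_ncard_moved (X := Sylow 3 G) hc ht
  omega

theorem ncard_fix_le (P : Sylow 3 G) {U : Subgroup G} {r : ℕ} [hr : Fact r.Prime]
    (hU : IsPGroup r U) (hUC : U ≤ centralizer ((P : Subgroup G) : Set G)) (hU1 : U ≠ ⊥) {f₀ : ℕ}
    (h : ∀ f m, f + m = 22 → f % 3 = 1 → m ≠ 0 → r ∣ m → (r = 2 → 4 ∣ m) → f = f₀) :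
    {β : Sylow 3 G | ∀ g ∈ U, g • β = β}.ncard ≤ f₀ ∧
      ({β : Sylow 3 G | ∀ g ∈ U, g • β = β}.ncard = f₀ → Nat.card U ∣ 22 - f₀) := by
  have h1 : ∀ t ∈ U, orderOf t = r → {β : Sylow 3 G | t • β = β}.ncard = f₀ := by
    intro t ht htr
    obtain ⟨f, m, h1, h2, h3, h4, h5, h6⟩ := fixed_moved_data hc hd P hr.out htr (hUC ht)
    rw [← h1]
    exact h f m (h2.trans hn) h3 h4 h5 h6
  constructor
  · obtain ⟨k, hk⟩ := IsPGroup.iff_card.1 hU
    obtain ⟨t, ht, htr⟩ := CL.Small.exists_mem_orderOf_eq_prime U r (by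
      rw [hk]
      refine dvd_pow_self r fun h0 => hU1 ?_
      rwa [h0, pow_zero, card_eq_one] at hk)
    rw [← h1 t ht htr]
    exact Set.ncard_le_ncard fun x hx => hx t ht
  · intro h2
    have h3 := card_dvd_ncard_moved (X := Sylow 3 G) hU fun t ht htr => by rw [h1 t ht htr, h2]
    have h4 := ncard_fix_add_ncard_moved (X := Sylow 3 G) U
    rwa [show {x : Sylow 3 G | ¬ ∀ g ∈ U, g • x = x}.ncard = 22 - f₀ by omega] at h3

theorem card_dvd_five (P : Sylow 3 G) {U : Subgroup G} (hU : IsPGroup 5 U)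
    (hUC : U ≤ centralizer ((P : Subgroup G) : Set G)) : Nat.card U ∣ 15 := by
  by_cases hU1 : U = ⊥
  · simp [hU1]
  obtain ⟨h1, h2⟩ := ncard_fix_le hc hd hn P hU hUC hU1 (f₀ := 7) (by omega)
  have h3 := ncard_fix_mod P hUC
  have h4 := ncard_fix_modEq (X := Sylow 3 G) hU
  rw [hn, Nat.ModEq] at h4
  exact h2 (by omega)

theorem card_dvd_seven (P : Sylow 3 G) {U : Subgroup G} (hU : IsPGroup 7 U)
    (hUC : U ≤ centralizer ((P : Subgroup G) : Set G)) : Nat.card U ∣ 21 := by
  by_cases hU1 : U = ⊥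
  · simp [hU1]
  obtain ⟨h1, h2⟩ := ncard_fix_le hc hd hn P hU hUC hU1 (f₀ := 1) (by omega)
  have h3 := ncard_fix_mod P hUC
  exact h2 (by omega)

theorem card_dvd_twelve (P : Sylow 3 G) {U : Subgroup G} (hU : IsPGroup 2 U)
    (hUC : U ≤ centralizer ((P : Subgroup G) : Set G))
    (h : 4 < {β : Sylow 3 G | ∀ g ∈ U, g • β = β}.ncard) : Nat.card U ∣ 12 := by
  by_cases hU1 : U = ⊥
  · simp [hU1]
  obtain ⟨h1, h2⟩ := ncard_fix_le hc hd hn P hU hUC hU1 (f₀ := 10) (by omega)
  have h3 := ncard_fix_mod P hUC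
  have h4 := ncard_fix_modEq (X := Sylow 3 G) hU
  rw [hn, Nat.ModEq] at h4
  exact h2 (by omega)

theorem card_dvd_two (P : Sylow 3 G) {U : Subgroup G} (hU : IsPGroup 2 U)
    (hUC : U ≤ centralizer ((P : Subgroup G) : Set G)) : Nat.card U ∣ 24 := by
  by_cases h : 4 < {β : Sylow 3 G | ∀ g ∈ U, g • β = β}.ncard
  · exact (card_dvd_twelve hc hd hn P hU hUC h).trans (by norm_num)
  have h3 := ncard_fix_mod P hUC
  have h4 := ncard_fix_modEq (X := Sylow 3 G) hU
  have h5 := ncard_fix_add_ncard_moved (X := Sylow 3 G) U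
  rw [hn, Nat.ModEq] at h4
  obtain ⟨γ, hγ, hγ4⟩ : ∃ γ ∈ {x : Sylow 3 G | ¬ ∀ g ∈ U, g • x = x},
      ¬ 4 ∣ (stabilizer G γ).relIndex U := by
    by_contra hcon
    push Not at hcon
    have := dvd_ncard_of_orbits U 4 _ smul_mem_moved (fun x hx => hcon x (by simpa using hx))
    omega
  obtain ⟨b, hb⟩ := IsPGroup.iff_card.1 hU
  obtain ⟨c, -, hc'⟩ := (Nat.dvd_prime_pow Nat.prime_two).1
    (hb ▸ relIndex_dvd_card (stabilizer G γ) U)
  have hc2 : c ≤ 1 := by
    by_contra hcon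
    exact hγ4 (hc' ▸ pow_dvd_pow 2 (show 2 ≤ c by omega))
  have h6 := card_dvd_twelve hc hd hn P (U := U ⊓ stabilizer G γ) (hU.to_le inf_le_left)
    (inf_le_left.trans hUC) (by
      have h7 : {β : Sylow 3 G | ∀ g ∈ U, g • β = β} ⊂
          {β : Sylow 3 G | ∀ g ∈ U ⊓ stabilizer G γ, g • β = β} :=
        ⟨fun x hx g hg => hx g hg.1, fun h8 => hγ (h8 fun g hg => hg.2)⟩
      have := Set.ncard_lt_ncard h7
      omega)
  rw [← CL.Small.card_inf_mul_relIndex (stabilizer G γ) U, hc']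
  exact Nat.mul_dvd_mul h6 (pow_dvd_pow 2 hc2)

theorem k_dvd (P : Sylow 3 G) {k : ℕ}
    (hk : Nat.card (centralizer ((P : Subgroup G) : Set G)) = 3 * k) (h3 : ¬ 3 ∣ k) :
    k ∣ 280 := by
  rw [Nat.dvd_iff_prime_pow_dvd_dvd]
  intro r j hr hj
  have := Fact.mk hr
  rcases Nat.eq_zero_or_pos j with rfl | hj0
  · simp
  obtain ⟨U₀, hU₀⟩ := Sylow.exists_subgroup_card_pow_prime r (n := j)
    (G := centralizer ((P : Subgroup G) : Set G)) (hk ▸ hj.mul_left 3)
  have hU : Nat.card (U₀.map (centralizer ((P : Subgroup G) : Set G)).subtype) = r ^ j := by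
    rw [card_map_of_injective (subtype_injective _), hU₀]
  have hUp := IsPGroup.of_card hU
  have hUC := map_subtype_le U₀
  have hrk : r ∣ k := (dvd_pow_self r hj0.ne').trans hj
  have h11 : r < 11 := by
    by_contra hcon
    exact not_dvd_N hc hd hn P hr (by omega)
      ((hrk.mul_left 3).trans (hk ▸ card_dvd_of_le (centralizer_le_normalizer _)))
  have hcop : (r ^ j).Coprime 3 := Nat.Coprime.pow_left _
    ((Nat.coprime_primes hr Nat.prime_three).2 (by rintro rfl; exact h3 hrk))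
  have hr' : r = 2 ∨ r = 3 ∨ r = 5 ∨ r = 7 := by
    clear * - hr h11
    interval_cases r <;> simp_all (config := {decide := true})
  rcases hr' with rfl | rfl | rfl | rfl
  · have := card_dvd_two hc hd hn P hUp hUC
    rw [hU] at this
    exact (hcop.dvd_of_dvd_mul_left (n := 8) this).trans (by norm_num)
  · exact absurd hrk h3
  · have := card_dvd_five hc hd hn P hUp hUC
    rw [hU] at this
    exact (hcop.dvd_of_dvd_mul_left (n := 5) this).trans (by norm_num)
  · have := card_dvd_seven hc hd hn P hUp hUC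
    rw [hU] at this
    exact (hcop.dvd_of_dvd_mul_left (n := 7) this).trans (by norm_num)

theorem not_seven (P : Sylow 3 G) (hP : Nat.card P = 3) {k : ℕ}
    (hk : Nat.card (centralizer ((P : Subgroup G) : Set G)) = 3 * k) (hG : Nat.card G = 132 * k) :
    k ≠ 35 ∧ k ≠ 280 := by
  by_contra hcon
  have hk' : k = 35 ∨ k = 280 := by omega
  obtain ⟨c, hcC, hc7⟩ := CL.Small.exists_mem_orderOf_eq_prime _ 7
    (show 7 ∣ Nat.card (centralizer ((P : Subgroup G) : Set G)) by omega)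
  obtain ⟨R, hR⟩ := CL.Small.exists_sylow_mem (p := 7) (k := 1) (hc7.trans (pow_one 7).symm)
  have hR7 : Nat.card R = 7 := card_sylow_eq_prime R (by omega) (by omega)
  have hc1 : c ≠ 1 := by
    rintro rfl
    simp at hc7
  have hRc := CL.Small.eq_zpowers_of_card_prime hR7 hR hc1
  obtain ⟨e, k₇, h1, h2, h3, -, -, h4⟩ := CL.Small.prime_sylow_data hc R hR7
  obtain ⟨f, m, h5, h6, h7, h8, h9, -⟩ := fixed_moved_data hc hd P (by norm_num) hc7 hcC
  have hf : f = 1 := by omega
  obtain ⟨P', hP'⟩ := Set.ncard_eq_one.1 (h5.symm.trans hf)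
  have hcP : c • P = P := sylow_smul_eq_iff.2 (centralizer_le_normalizer _ hcC)
  have huniq : ∀ β : Sylow 3 G, c • β = β → β = P := fun β hβ =>
    (show β ∈ ({P'} : Set _) from hP' ▸ hβ).trans (show P ∈ ({P'} : Set _) from hP' ▸ hcP).symm
  have := faithful_sylow hc hd
  have hs : ∀ s : ℕ, s.Prime → s ∣ k₇ → ∃ m, m ≠ 0 ∧ m ≤ 22 ∧ 7 ∣ m ∧ s ∣ m ∧ (s = 2 → 4 ∣ m) := by
    intro s hs hsk
    have := Fact.mk hs
    obtain ⟨t, htC, hts⟩ := CL.Small.exists_mem_orderOf_eq_prime _ s (h3 ▸ hsk.mul_left 7)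
    refine ⟨{β : Sylow 3 G | t • β ≠ β}.ncard, ncard_moved_ne_zero ?_, ?_, ?_,
      dvd_ncard_moved_of_orderOf hs hts, fun h => four_dvd_ncard_moved hc (hts.trans h)⟩
    · rintro rfl
      rw [orderOf_one] at hts
      exact hs.one_lt.ne hts
    · have := ncard_fixed_add_ncard_moved (X := Sylow 3 G) t
      omega
    · refine prime_dvd_ncard_of_isPGroup R.isPGroup' _ (fun g hg x hx h => hx ?_) fun x hx => ?_
      · rw [← mul_smul, ← htC g hg, mul_smul] at h
        exact smul_left_cancel g h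
      · refine ⟨c, hR, fun h => hx ?_⟩
        rw [huniq x h]
        exact huniq _ (smul_mem_fixed_of_commute (htC c hR).symm hcP)
  have h2' : ¬ 2 ∣ k₇ := fun h => by
    obtain ⟨m, h⟩ := hs 2 (by norm_num) h
    omega
  have h5' : ¬ 5 ∣ k₇ := fun h => by
    obtain ⟨m, h⟩ := hs 5 (by norm_num) h
    omega
  have h11' : ¬ 11 ∣ k₇ := fun h => by
    obtain ⟨m, h⟩ := hs 11 (by norm_num) h
    omega
  have h3' : 3 ∣ k₇ := by
    have h10 : (P : Subgroup G) ≤ centralizer ((R : Subgroup G) : Set G) := by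
      rw [le_centralizer_iff, hRc, zpowers_le]
      exact hcC
    have := card_dvd_of_le h10
    rw [h3, hP] at this
    omega
  have hcop : k₇.Coprime (2 ^ 5 * 5 * 11) :=
    (((Nat.prime_two.coprime_iff_not_dvd.2 h2').symm.pow_right 5).mul_right
      (Nat.prime_five.coprime_iff_not_dvd.2 h5').symm).mul_right
      ((Nat.Prime.coprime_iff_not_dvd (by norm_num)).2 h11').symm
  have h10 : k₇ ∣ 2 ^ 5 * 5 * 11 * 3 := by
    have h11 : k₇ * (Nat.card (Sylow 7 G) * e) = 660 ∨ k₇ * (Nat.card (Sylow 7 G) * e) = 5280 := by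
      have : Nat.card G = 7 * (k₇ * (Nat.card (Sylow 7 G) * e)) := by rw [h4]; ring
      omega
    rcases h11 with h11 | h11
    · exact (Dvd.intro _ h11).trans (by norm_num)
    · exact (Dvd.intro _ h11).trans (by norm_num)
  have h11 : k₇ = 3 := Nat.dvd_antisymm (hcop.dvd_of_dvd_mul_left h10) h3'
  subst h11
  have h12 := CL.Small.card_sylow_mod (G := G) (p := 7)
  have h13 : e ≤ 6 := Nat.le_of_dvd (by norm_num) h2
  interval_cases e <;> omega

theorem not_card_three (P : Sylow 3 G) : Nat.card P ≠ 3 := by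
  intro hP
  obtain ⟨e₃, k, h1, h2, h3, -, -, h4⟩ := CL.Small.prime_sylow_data hc P hP
  have h5 : e₃ = 2 := le_antisymm (Nat.le_of_dvd (by norm_num) h2) h1
  subst h5
  have hG : Nat.card G = 132 * k := by rw [h4, hn]; ring
  have h6 : ¬ 3 ∣ k := by
    have h7 := P.not_dvd_index
    have h8 := (P : Subgroup G).card_mul_index
    rw [hP] at h8
    omega
  have h7 := k_dvd hc hd hn P h3 h6
  have h8 := not_seven hc hd hn P hP h3 hG
  let Q : Sylow 11 G := default
  obtain ⟨e, he, h9, h10, h11⟩ := eleven_data hc hd hn Q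
  have h12 := CL.Small.card_sylow_mod (G := G) (p := 11)
  have h13 : k ∈ Nat.divisors 280 := Nat.mem_divisors.2 ⟨h7, by norm_num⟩
  rw [show Nat.divisors 280 = {1, 2, 4, 5, 7, 8, 10, 14, 20, 28, 35, 40, 56, 70, 140, 280} by
    decide +kernel] at h13
  simp only [Finset.mem_insert, Finset.mem_singleton] at h13
  have h14 : Nat.card (Sylow 11 G) = 12 ∧ (2 ∣ e ∨ (e = 5 ∧ k = 5)) := by
    rcases he with rfl | rfl | rfl <;> omega
  have hd11 : 11 ∣ Nat.card G := by omega
  have := faithful_sylow hc hd11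
  rcases h14.2 with h15 | ⟨rfl, rfl⟩
  · obtain ⟨t, htN, ht2⟩ := CL.Small.exists_mem_orderOf_eq_prime _ 2 (h10 ▸ h15.mul_left 11)
    have h16 := mul_ncard_fixed_le (card_Q hc hd hn Q) (not_mem_centralizer hc hd hn Q ht2) htN
      (smul_mem_ne (P := Q) le_normalizer) (fun g hg x hx h => by
        have h17 := CL.Small.sylow_inf_eq_bot_of_card_prime (card_Q hc hd hn Q) hx
        obtain ⟨j, hj⟩ := CL.Small.orderOf_mem_sylow Q hg
        exact mem_bot.1 (h17 ▸ mem_inf.2
          ⟨hg, CL.Small.mem_sylow_of_mem_normalizer x hj (sylow_smul_eq_iff.1 h)⟩))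
    have h17 := ncard_ne_sylow Q
    have h18 : {x : Sylow 11 G | t • x = x} =
        insert Q {x | x ∈ {Q' : Sylow 11 G | Q' ≠ Q} ∧ t • x = x} := by
      ext x
      by_cases hx : x = Q
      · subst hx
        simpa using sylow_smul_eq_iff.2 htN
      · simp [hx]
    have h19 := ncard_fixed_add_ncard_moved (X := Sylow 11 G) t
    rw [h18, Set.ncard_insert_of_notMem (by simp)] at h19
    have h20 := four_dvd_ncard_moved (X := Sylow 11 G) hc ht2
    omega
  · obtain ⟨c, hcC, hc5⟩ := CL.Small.exists_mem_orderOf_eq_prime _ 5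
      (show 5 ∣ Nat.card (centralizer ((P : Subgroup G) : Set G)) by omega)
    have h16 := card_dvd_ncard_of_free (P : Subgroup G) {x : Sylow 11 G | c • x = x}
      (fun g hg x hx => smul_mem_fixed_of_commute (hcC g hg) hx) (fun g hg x _ h => by
        by_contra hg1
        have h17 := CL.Small.orderOf_dvd_card_of_mem (sylow_smul_eq_iff.1 h)
        have h18 := CL.Small.card_sylow_mul_card_normalizer x
        rw [CL.Small.orderOf_eq_of_card_prime hP hg hg1] at h17
        rw [h14.1] at h18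
        omega)
    have h17 := ncard_fixed_add_ncard_moved (X := Sylow 11 G) c
    have h18 := dvd_ncard_moved_of_orderOf (X := Sylow 11 G) (by norm_num) hc5
    have h19 := ncard_moved_ne_zero (X := Sylow 11 G) (g := c) (by
      rintro rfl
      simp at hc5)
    rw [hP] at h16
    omega

end CL.PSyl.S22
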