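import Mathlib
import Cfsg.Agent.FGS.Syl22A
import Cfsg.Agent.S1009

/-!
Simple groups with 22 Sylow 3-subgroups, part B: Sylow 3-subgroups of order at least 9.
-/

set_option autoImplicit false

namespace CL.PSyl.S22

open Subgroup MulAction CL.SR CL.MSS

section General

variable {G : Type*} [Group G] [Finite G] {p : ℕ} [hp : Fact p.Prime]

omit [Finite G] in
theorem comm_mem_of_relIndex_prime {D A : Subgroup G} (hn : A ≤ normalizer (D : Set G))
    (h : D.relIndex A = p) {a b : G} (ha : a ∈ A) (hb : b ∈ A) : a * b * a⁻¹ * b⁻¹ ∈ D := by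
  have := normal_subgroupOf_of_le_normalizer hn
  have hcyc : IsCyclic (A ⧸ D.subgroupOf A) := isCyclic_of_prime_card (p := p) h
  have h1 : ((⟨a, ha⟩ * ⟨b, hb⟩ * ⟨a, ha⟩⁻¹ * ⟨b, hb⟩⁻¹ : A) : A ⧸ D.subgroupOf A) = 1 := by
    simp only [QuotientGroup.mk_mul, QuotientGroup.mk_inv]
    rw [hcyc.isMulCommutative.is_comm.comm ((⟨a, ha⟩ : A) : A ⧸ D.subgroupOf A)]
    group
  exact mem_subgroupOf.1 ((QuotientGroup.eq_one_iff _).1 h1)

omit [Finite G] hp in
theorem relIndex_smul {A B : Sylow p G} {g : G} (hg : g ∈ normalizer ((A : Subgroup G) : Set G)) :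
    ((g • B : Sylow p G) : Subgroup G).relIndex A = (B : Subgroup G).relIndex A := by
  rw [← relIndex_cj g (B : Subgroup G), cj_eq_of_mem_normalizer hg, sylow_coe_smul]

theorem le_normalizer_of_le {A B C : Sylow p G} (h : (B : Subgroup G).relIndex A = p)
    (hC : (A : Subgroup G) ⊓ B ≤ C) :
    (C : Subgroup G) ≤ normalizer (((A : Subgroup G) ⊓ B : Subgroup G) : Set G) := by
  refine CL.Small.le_normalizer_of_relIndex_prime C.isPGroup' hC ?_
  have h1 := CL.Small.card_inf_mul_relIndex (B : Subgroup G) A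
  have h2 := CL.card_mul_relIndex_of_le hC
  rw [h, CL.Small.card_sylow_eq_card_sylow A C, ← h2] at h1
  exact (Nat.eq_of_mul_eq_mul_left Nat.card_pos h1).symm

theorem inf_eq_of_le {A B C : Sylow p G} (h : (B : Subgroup G).relIndex A = p)
    (hC : (A : Subgroup G) ⊓ B ≤ C) (hCA : C ≠ A) :
    (A : Subgroup G) ⊓ C = (A : Subgroup G) ⊓ B := by
  obtain ⟨k, hk, h1, -⟩ := exists_relIndex_eq_pow hCA
  have h2 := CL.Small.card_inf_mul_relIndex (B : Subgroup G) A
  have h3 := CL.Small.card_inf_mul_relIndex (C : Subgroup G) A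
  refine (eq_of_le_of_card_ge (le_inf inf_le_left hC) ?_).symm
  rw [h1, ← h2, h] at h3
  have h4 : p ≤ p ^ k := Nat.le_self_pow hk.ne' p
  exact Nat.le_of_mul_le_mul_right ((Nat.mul_le_mul_left _ h4).trans h3.le) hp.out.pos

theorem relIndex_eq_of_le {A B C : Sylow p G} (h : (B : Subgroup G).relIndex A = p)
    (hC : (A : Subgroup G) ⊓ B ≤ C) (hCA : C ≠ A) : (C : Subgroup G).relIndex A = p := by
  rw [← inf_relIndex_left, inf_eq_of_le h hC hCA, inf_relIndex_left, h]

omit [Finite G] hp in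
theorem smul_mem_line {D : Subgroup G} : ∀ g ∈ normalizer (D : Set G),
    ∀ C ∈ {C : Sylow p G | D ≤ C}, g • C ∈ {C : Sylow p G | D ≤ C} := by
  intro g hg C hC
  change D ≤ ((g • C : Sylow p G) : Subgroup G)
  rw [sylow_coe_smul, ← cj_eq_of_mem_normalizer hg]
  exact cj_mono g hC

theorem ncard_line {A B : Sylow p G} (h : (B : Subgroup G).relIndex A = p) :
    {C : Sylow p G | (A : Subgroup G) ⊓ B ≤ C}.ncard =
      (normalizer ((A : Subgroup G) : Set G)).relIndex
        (normalizer (((A : Subgroup G) ⊓ B : Subgroup G) : Set G)) := by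
  rw [← CL.SN.ncard_orbit_sylow]
  congr 1
  ext C
  constructor
  · intro hC
    obtain ⟨x, hx, hxA⟩ := (sylIn_sylow A (le_normalizer_of_le h inf_le_left)).exists_conj
      (sylIn_sylow C (le_normalizer_of_le h hC))
    exact ⟨⟨x, hx⟩, Sylow.ext ((sylow_coe_smul x A).trans hxA)⟩
  · rintro ⟨g, rfl⟩
    exact smul_mem_line _ g.2 A (inf_le_left : (A : Subgroup G) ⊓ B ≤ A)

theorem line_data {A B : Sylow p G} (h : (B : Subgroup G).relIndex A = p) :
    ∃ f r, f = {C : Sylow p G | (A : Subgroup G) ⊓ B ≤ C}.ncard ∧ f % p = 1 ∧ 1 < f ∧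
      f ∣ r * Nat.card (Sylow p G) ∧ r * (f - 1) + 1 ≤ Nat.card (Sylow p G) ∧
      r ∣ (stabilizer G B).relIndex (normalizer ((A : Subgroup G) : Set G)) ∧ r ≠ 0 := by
  set D := (A : Subgroup G) ⊓ B with hD
  have hA : A ∈ {C : Sylow p G | D ≤ C} := (inf_le_left : (A : Subgroup G) ⊓ B ≤ A)
  have hB : B ∈ {C : Sylow p G | D ≤ C} := (inf_le_right : (A : Subgroup G) ⊓ B ≤ B)
  have hBA : A ≠ B := by
    rintro rfl
    rw [relIndex_self] at h
    exact hp.out.one_lt.ne h
  refine ⟨_, (normalizer (D : Set G)).relIndex (normalizer ((A : Subgroup G) : Set G)), rfl, ?_,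
    (Set.one_lt_ncard_iff).2 ⟨A, B, hA, hB, hBA⟩, ?_, ?_, ?_, index_ne_zero_of_finite⟩
  · have := ncard_modEq_one A _ hA
      (fun g hg => smul_mem_line g (le_normalizer_of_le h inf_le_left hg))
    rwa [Nat.ModEq, Nat.mod_eq_of_lt hp.out.one_lt] at this
  · rw [ncard_line h, CL.SN.card_sylow_eq_index A, ← inf_relIndex_right (normalizer (D : Set G)),
      relIndex_mul_index inf_le_right, ← relIndex_mul_index inf_le_left, inf_relIndex_left]
    exact Dvd.intro _ rfl
  · have h1 := relIndex_mul_ncard_le (H := normalizer ((A : Subgroup G) : Set G))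
      (K := normalizer (D : Set G)) (S := {C : Sylow p G | D ≤ C} \ {A})
      (Y := {C : Sylow p G | C ≠ A})
      (fun g hg C hC => smul_mem_ne le_rfl g hg C hC.2) (fun g hg C hC hgC => by
        rw [mem_normalizer_iff_cj]
        have h2 := inf_eq_of_le h hC.1 hC.2
        have h3 := inf_eq_of_le h hgC.1 hgC.2
        rw [← hD] at h2 h3
        rw [← h2, cj_inf, cj_eq_of_mem_normalizer hg, ← sylow_coe_smul, h3, h2])
    rw [Set.ncard_sdiff_singleton_of_mem hA] at h1
    have := ncard_ne_sylow A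
    omega
  · rw [← inf_relIndex_right (stabilizer G B), ← inf_relIndex_right (normalizer (D : Set G))]
    refine relIndex_dvd_of_le_left _ (le_inf ?_ inf_le_right)
    rw [stabilizer_sylow]
    exact MSS.le_normalizer_inf inf_le_right inf_le_left

end General

variable {G : Type*} [Group G] [Finite G] [IsSimpleGroup G] (hc : ¬ IsMulCommutative G)
  (hd : 3 ∣ Nat.card G) (hn : Nat.card (Sylow 3 G) = 22)

omit [IsSimpleGroup G] in
include hn in
theorem idx {A B : Sylow 3 G} (h : B ≠ A) :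
    (B : Subgroup G).relIndex A = 3 ∨ (B : Subgroup G).relIndex A = 9 := by
  obtain ⟨k, hk, h1, h2⟩ := exists_relIndex_eq_pow h
  have h3 : k ≤ 2 := by
    by_contra hcon
    have : 3 ^ 3 ≤ 3 ^ k := Nat.pow_le_pow_right (by norm_num) (by omega)
    omega
  interval_cases k <;> omega

include hc hd hn

theorem line_four {A B : Sylow 3 G} (h : (B : Subgroup G).relIndex A = 3) :
    {C : Sylow 3 G | (A : Subgroup G) ⊓ B ≤ C}.ncard = 4 ∧
      2 ∣ (stabilizer G B).relIndex (normalizer ((A : Subgroup G) : Set G)) := by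
  obtain ⟨f, r, h1, h2, h3, h4, h5, h6, h7⟩ := line_data h
  have h8 : f ≠ 22 := by
    intro h8
    have h9 : {C : Sylow 3 G | (A : Subgroup G) ⊓ B ≤ C} = Set.univ :=
      Set.eq_of_subset_of_ncard_le (Set.subset_univ _) (by rw [Set.ncard_univ]; omega)
    have := faithful_sylow hc hd
    have h10 : (A : Subgroup G) ⊓ B = ⊥ := by
      rw [eq_bot_iff]
      intro x hx
      refine mem_bot.2 (eq_of_smul_eq_smul (α := Sylow 3 G) fun C => ?_)
      have hC : C ∈ {C : Sylow 3 G | (A : Subgroup G) ⊓ B ≤ C} := h9 ▸ Set.mem_univ C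
      rw [one_smul]
      exact sylow_smul_eq_iff.2 (le_normalizer (hC hx))
    have h11 := CL.Small.card_inf_mul_relIndex (B : Subgroup G) A
    rw [h10, card_bot, h, one_mul] at h11
    exact not_card_three hc hd hn A h11.symm
  rw [hn] at h4 h5
  have h9 : f ≤ 22 := by
    have := Nat.le_mul_of_pos_left (f - 1) (Nat.pos_of_ne_zero h7)
    omega
  have h10 : f = 4 ∧ 2 ∣ r := by
    clear h1 h6
    interval_cases f <;> omega
  exact ⟨h1 ▸ h10.1, h10.2.trans h6⟩

theorem ncard_nbr (A : Sylow 3 G) :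
    {B : Sylow 3 G | (B : Subgroup G).relIndex A = 3}.ncard = 12 ∧
      {B : Sylow 3 G | (B : Subgroup G).relIndex A = 9}.ncard = 9 := by
  have h1 := dvd_ncard_of_orbits (normalizer ((A : Subgroup G) : Set G)) 2
    {B : Sylow 3 G | (B : Subgroup G).relIndex A = 3}
    (fun g hg B hB => (relIndex_smul hg).trans hB) (fun B hB => (line_four hc hd hn hB).2)
  have h2 := dvd_ncard_of_orbits (A : Subgroup G) 9
    {B : Sylow 3 G | (B : Subgroup G).relIndex A = 9}
    (fun g hg B hB => (relIndex_smul (le_normalizer hg)).trans hB)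
    (fun B hB => by rw [relIndex_stabilizer_sylow A.isPGroup', hB])
  have h3 : {B : Sylow 3 G | B ≠ A} = {B : Sylow 3 G | (B : Subgroup G).relIndex A = 3} ∪
      {B : Sylow 3 G | (B : Subgroup G).relIndex A = 9} := by
    ext B
    refine ⟨idx hn, ?_⟩
    rintro h rfl
    simp at h
  have h4 := ncard_ne_sylow A
  rw [h3, Set.ncard_union_eq (Set.disjoint_left.2 fun B h1 h2 => by
    simp only [Set.mem_ofPred_eq] at h1 h2; omega)] at h4
  omega

theorem orbit_eq {A γ : Sylow 3 G} (h : (γ : Subgroup G).relIndex A = 9) :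
    orbit (A : Subgroup G) γ = {B : Sylow 3 G | (B : Subgroup G).relIndex A = 9} := by
  refine Set.eq_of_subset_of_ncard_le ?_ ?_
  · rintro _ ⟨g, rfl⟩
    exact (relIndex_smul (le_normalizer g.2)).trans h
  · rw [(ncard_nbr hc hd hn A).2, ncard_orbit_eq_relIndex, relIndex_stabilizer_sylow A.isPGroup', h]

theorem comm_sylow (A : Sylow 3 G) : IsMulCommutative (A : Subgroup G) := by
  refine ⟨⟨fun a b => Subtype.ext ?_⟩⟩
  by_contra hab
  set e : G := a * b * (a : G)⁻¹ * (b : G)⁻¹ with he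
  have he1 : e ≠ 1 := fun h => hab (by
    rw [he, mul_inv_eq_one, mul_inv_eq_iff_eq_mul] at h
    exact h)
  have heA : e ∈ (A : Subgroup G) :=
    A.1.mul_mem (A.1.mul_mem (A.1.mul_mem a.2 b.2) (A.1.inv_mem a.2)) (A.1.inv_mem b.2)
  have heB : ∀ B : Sylow 3 G, (B : Subgroup G).relIndex A = 3 → e ∈ (B : Subgroup G) := by
    intro B hB
    exact (comm_mem_of_relIndex_prime (le_normalizer_of_le hB inf_le_left)
      ((inf_relIndex_left _ _).trans hB) a.2 b.2).2
  have := faithful_sylow hc hd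
  obtain ⟨γ, hγ⟩ := Set.nonempty_of_ncard_ne_zero (ncard_moved_ne_zero (X := Sylow 3 G) he1)
  have hγA : γ ≠ A := by
    rintro rfl
    exact hγ (sylow_smul_eq_iff.2 (le_normalizer heA))
  have hγ9 : (γ : Subgroup G).relIndex A = 9 := (idx hn hγA).resolve_left fun h =>
    hγ (sylow_smul_eq_iff.2 (le_normalizer (heB γ h)))
  have h1 : 1 < ({B : Sylow 3 G | (B : Subgroup G).relIndex γ = 3} \
      {B : Sylow 3 G | (B : Subgroup G).relIndex A = 9}).ncard := by
    have h2 := Set.ncard_le_ncard_sdiff_add_ncard {B : Sylow 3 G | (B : Subgroup G).relIndex γ = 3}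
      {B : Sylow 3 G | (B : Subgroup G).relIndex A = 9}
    rw [(ncard_nbr hc hd hn γ).1, (ncard_nbr hc hd hn A).2] at h2
    omega
  have h2 : ∀ β ∈ {B : Sylow 3 G | (B : Subgroup G).relIndex γ = 3} \
      {B : Sylow 3 G | (B : Subgroup G).relIndex A = 9},
      e ∈ (β : Subgroup G) ∧ e ∈ normalizer (((γ : Subgroup G) ⊓ β : Subgroup G) : Set G) ∧
        (γ : Subgroup G) ⊓ (e • γ : Sylow 3 G) = (γ : Subgroup G) ⊓ β := by
    intro β hβ
    have hβA : β ≠ A := by
      rintro rfl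
      have h3 : (β : Subgroup G).relIndex γ = 3 := hβ.1
      rw [CL.Small.relIndex_inf_comm] at h3
      omega
    have h3 := heB β ((idx hn hβA).resolve_right hβ.2)
    have h4 := le_normalizer_of_le hβ.1 inf_le_right h3
    exact ⟨h3, h4, inf_eq_of_le hβ.1
      (smul_mem_line e h4 γ (inf_le_left : (γ : Subgroup G) ⊓ β ≤ γ)) hγ⟩
  obtain ⟨β, β', hβ, hβ', hne⟩ := (Set.one_lt_ncard_iff).1 h1
  obtain ⟨h3, h4, h5⟩ := h2 β hβ
  obtain ⟨h6, -, h7⟩ := h2 β' hβ'
  have h8 := ncard_modEq_of_isPGroup (A.isPGroup'.to_le (zpowers_le.2 heA))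
    {C : Sylow 3 G | (γ : Subgroup G) ⊓ β ≤ C} (fun g hg => smul_mem_line g (zpowers_le.2 h4 hg))
  have h9 := (line_four hc hd hn hβ.1).1
  have h10 : 1 < {x | x ∈ {C : Sylow 3 G | (γ : Subgroup G) ⊓ β ≤ C} ∧
      ∀ g ∈ zpowers e, g • x = x}.ncard := by
    refine (Set.one_lt_ncard_iff).2 ⟨β, β', ⟨(inf_le_right : (γ : Subgroup G) ⊓ β ≤ β),
      fun g hg => ?_⟩, ⟨?_, fun g hg => ?_⟩, hne⟩
    · exact sylow_smul_eq_iff.2 (le_normalizer (zpowers_le.2 h3 hg))
    · change (γ : Subgroup G) ⊓ β ≤ β'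
      rw [← h5, h7]
      exact inf_le_right
    · exact sylow_smul_eq_iff.2 (le_normalizer (zpowers_le.2 h6 hg))
  have h11 : {x | x ∈ {C : Sylow 3 G | (γ : Subgroup G) ⊓ β ≤ C} ∧
      ∀ g ∈ zpowers e, g • x = x} ⊂ {C : Sylow 3 G | (γ : Subgroup G) ⊓ β ≤ C} :=
    ⟨fun x hx => hx.1, fun h => hγ ((h (inf_le_left : (γ : Subgroup G) ⊓ β ≤ γ)).2 e
      (mem_zpowers e))⟩
  have h12 := Set.ncard_lt_ncard h11
  rw [h9, Nat.ModEq] at h8
  omega

theorem card_nine (A : Sylow 3 G) : Nat.card A = 9 := by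
  obtain ⟨B, C, h⟩ := Cfsg.Agent.S1009.result 3 (comm_sylow hc hd hn)
  have := faithful_sylow hc hd
  have h1 : (B : Subgroup G) ⊓ C = ⊥ := by
    rw [h, eq_bot_iff]
    intro x hx
    refine mem_bot.2 (eq_of_smul_eq_smul (α := Sylow 3 G) fun R => ?_)
    rw [one_smul]
    exact sylow_smul_eq_iff.2 (le_normalizer (mem_iInf.1 hx R))
  have h2 := CL.Small.card_inf_mul_relIndex (C : Subgroup G) B
  rw [h1, card_bot, one_mul] at h2
  have h3 := not_card_three hc hd hn B
  have h4 : C ≠ B := by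
    rintro rfl
    rw [inf_idem] at h1
    have h5 := C.not_dvd_index
    rw [h1, index_bot] at h5
    exact h5 hd
  rw [CL.Small.card_sylow_eq_card_sylow A B]
  have := idx hn h4
  omega

theorem not_five (A : Sylow 3 G) : ¬ 5 ∣ Nat.card (normalizer ((A : Subgroup G) : Set G)) := by
  intro h
  obtain ⟨x, hx, hx5⟩ := CL.Small.exists_mem_orderOf_eq_prime _ 5 h
  have h1 := CL.SN.relIndex_centralizer_modEq_one (p := 5) (P := zpowers x) (K := A)
    (CL.Small.isPGroup_zpowers_of_orderOf (hx5.trans (pow_one 5).symm)) (zpowers_le.2 hx)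
    (by rw [card_nine hc hd hn A]; norm_num)
  have h2 := relIndex_dvd_card (centralizer ((zpowers x : Subgroup G) : Set G)) (A : Subgroup G)
  rw [card_nine hc hd hn A] at h2
  have h3 : (centralizer ((zpowers x : Subgroup G) : Set G)).relIndex (A : Subgroup G) = 1 := by
    have h4 := Nat.le_of_dvd (by norm_num) h2
    rw [Nat.ModEq] at h1
    interval_cases (centralizer ((zpowers x : Subgroup G) : Set G)).relIndex (A : Subgroup G) <;>
      omega
  have hxC : x ∈ centralizer ((A : Subgroup G) : Set G) :=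
    le_centralizer_iff.1 (relIndex_eq_one.1 h3) (mem_zpowers x)
  obtain ⟨γ, hγ, hγx⟩ := exists_fixed_of_pow_eq_one (p := 5) (k := 1) (g := x)
    (by rw [pow_one, ← hx5, pow_orderOf_eq_one]) {B : Sylow 3 G | (B : Subgroup G).relIndex A = 9}
    (fun B hB => (relIndex_smul hx).trans hB) (by rw [(ncard_nbr hc hd hn A).2]; norm_num)
  obtain ⟨f, m, h4, h5, h6, h7, h8, -⟩ := fixed_moved_data hc hd A (by norm_num) hx5 hxC
  have h9 : {B : Sylow 3 G | (B : Subgroup G).relIndex A = 9} ⊆ {Q : Sylow 3 G | x • Q = Q} := by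
    rw [← orbit_eq hc hd hn hγ]
    rintro _ ⟨g, rfl⟩
    exact smul_mem_fixed_of_commute (hxC g g.2) hγx
  have h10 := Set.ncard_le_ncard h9
  rw [(ncard_nbr hc hd hn A).2] at h10
  omega

theorem contradiction : False := by
  let Q : Sylow 11 G := default
  obtain ⟨e, he, -, h1, h2⟩ := eleven_data hc hd hn Q
  have h3 := not_five hc hd hn default
  have h4 := CL.Small.card_sylow_mul_card_normalizer (default : Sylow 3 G)
  rw [hn] at h4
  have h5 : e = 2 := by rcases he with rfl | rfl | rfl <;> omega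
  obtain ⟨t, htN, ht2⟩ := CL.Small.exists_mem_orderOf_eq_prime _ 2
    (show 2 ∣ Nat.card (normalizer ((Q : Subgroup G) : Set G)) by omega)
  have h6 := ncard_fixed_eq_two hc hd hn Q ht2 htN
  obtain ⟨A, hA⟩ := Set.nonempty_of_ncard_ne_zero (h6 ▸ two_ne_zero)
  have htA := sylow_smul_eq_iff.1 hA
  have ht : t ^ 2 ^ 1 = 1 := by rw [pow_one, ← ht2, pow_orderOf_eq_one]
  obtain ⟨γ, hγ, hγt⟩ := exists_fixed_of_pow_eq_one ht
    {B : Sylow 3 G | (B : Subgroup G).relIndex A = 9}
    (fun B hB => (relIndex_smul htA).trans hB) (by rw [(ncard_nbr hc hd hn A).2]; norm_num)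
  have hγ9 : (γ : Subgroup G).relIndex A = 9 := hγ
  have hγA : γ ≠ A := by
    rintro rfl
    simp at hγ9
  obtain ⟨δ, h7, h8, h9⟩ : ∃ δ : Sylow 3 G, t • δ = δ ∧ δ ≠ A ∧ δ ≠ γ := by
    by_cases hy : ∃ y ∈ (A : Subgroup G), y ≠ 1 ∧ y * t = t * y
    · obtain ⟨y, hyA, hy1, hyt⟩ := hy
      refine ⟨y • γ, smul_mem_fixed_of_commute hyt hγt,
        smul_mem_ne (P := A) le_normalizer y hyA γ hγA, fun h => hy1 ?_⟩
      have h7 := CL.Small.card_inf_mul_relIndex (γ : Subgroup G) A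
      rw [hγ9, card_nine hc hd hn A] at h7
      have h8 : (A : Subgroup G) ⊓ γ = ⊥ := card_eq_one.1 (by omega)
      obtain ⟨j, hj⟩ := CL.Small.orderOf_mem_sylow A hyA
      exact mem_bot.1 (h8 ▸ mem_inf.2
        ⟨hyA, CL.Small.mem_sylow_of_mem_normalizer γ hj (sylow_smul_eq_iff.1 h)⟩)
    · push Not at hy
      have htt : t * t = 1 := by rw [← pow_two]; exact ht
      have hinv : ∀ y ∈ (A : Subgroup G), t * y * t⁻¹ = y⁻¹ := by
        intro y hy'
        have h7 : t * y * t⁻¹ ∈ (A : Subgroup G) := (mem_normalizer_iff.1 htA y).1 hy'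
        have h8 : y * (t * y * t⁻¹) = (t * y * t⁻¹) * y := congrArg Subtype.val
          ((comm_sylow hc hd hn A).is_comm.comm (⟨y, hy'⟩ : (A : Subgroup G)) ⟨_, h7⟩)
        have h9 : t⁻¹ = t := inv_eq_of_mul_eq_one_right htt
        by_contra h10
        refine hy _ (A.1.mul_mem hy' h7) (fun h => h10 (eq_inv_of_mul_eq_one_right h)) ?_
        conv_rhs => rw [h8]
        rw [h9]
        calc y * (t * y * t) * t = y * t * y * (t * t) := by group
          _ = (t * t) * y * t * y := by rw [htt]; group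
          _ = t * (t * y * t * y) := by group
      obtain ⟨β, hβ⟩ := Set.nonempty_of_ncard_ne_zero
        ((ncard_nbr hc hd hn A).1 ▸ (by norm_num : 12 ≠ 0))
      have htD : t ∈ normalizer (((A : Subgroup G) ⊓ β : Subgroup G) : Set G) :=
        mem_normalizer_of_cj_le (cj_le_iff_forall.2 fun x hx => by
          rw [hinv x hx.1]; exact inv_mem hx)
      obtain ⟨δ, hδ, hδt⟩ := exists_fixed_of_pow_eq_one ht
        ({C : Sylow 3 G | (A : Subgroup G) ⊓ β ≤ C} \ {A})
        (fun C hC => ⟨smul_mem_line t htD C hC.1, smul_mem_ne le_rfl t htA C hC.2⟩) (by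
          rw [Set.ncard_sdiff_singleton_of_mem (show A ∈ {C : Sylow 3 G | (A : Subgroup G) ⊓ β ≤ C}
            from (inf_le_left : (A : Subgroup G) ⊓ β ≤ A)), (line_four hc hd hn hβ).1]
          norm_num)
      refine ⟨δ, hδt, hδ.2, ?_⟩
      rintro rfl
      have := relIndex_eq_of_le hβ hδ.1 hδ.2
      omega
  have h10 : 2 < {β : Sylow 3 G | t • β = β}.ncard :=
    (Set.two_lt_ncard_iff).2 ⟨A, γ, δ, hA, hγt, h7, hγA.symm, h8.symm, h9.symm⟩
  omega

end CL.PSyl.S22
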