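import Cfsg.Agent.SOLV.Hall

/-!
Groups with two conjugacy classes of maximal subgroups.
-/

set_option autoImplicit false
open Pointwise

namespace CL.TwoMax

universe u

section
variable {G : Type*} [Group G] [Finite G]

/-- A `q`-subgroup of a subgroup `M` of index prime to `q` lies in a Sylow subgroup of `G` inside `M`. -/
theorem exists_sylow_between {q : ℕ} [Fact q.Prime] {M Z : Subgroup G} (hq : ¬ q ∣ M.index)
    (hZ : IsPGroup q Z) (hZM : Z ≤ M) : ∃ S : Sylow q G, Z ≤ S ∧ (S : Subgroup G) ≤ M := by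
  obtain ⟨T, hT⟩ := (hZ.comap_subtype (K := M)).exists_le_sylow
  have hp : IsPGroup q ((T : Subgroup M).map M.subtype) := T.isPGroup'.map _
  have hi : ¬ q ∣ ((T : Subgroup M).map M.subtype).index := by
    rw [Subgroup.index_map_subtype]
    intro h
    rcases (Nat.Prime.dvd_mul Fact.out).mp h with h | h
    · exact T.not_dvd_index h
    · exact hq h
  refine ⟨hp.toSylow hi, ?_, Subgroup.map_subtype_le _⟩
  intro x hx
  exact ⟨⟨x, hZM hx⟩, hT hx, rfl⟩

/-- Two Sylow subgroups of `G` inside `H` are conjugate in `H`. -/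
theorem sylow_conj_in {q : ℕ} [Fact q.Prime] {H : Subgroup G} (P Q : Sylow q G)
    (hP : (P : Subgroup G) ≤ H) (hQ : (Q : Subgroup G) ≤ H) :
    ∃ h ∈ H, MulAut.conj h • (P : Subgroup G) = Q := by
  obtain ⟨h, hh⟩ := MulAction.exists_smul_eq H (P.subtype hP) (Q.subtype hQ)
  simp_rw [Sylow.smul_subtype, Subgroup.smul_def] at hh
  have := Sylow.subtype_injective hh
  exact ⟨h, h.2, by rw [← this]; rfl⟩

/-- Maximal `q`-intersections of conjugates of `M`. -/
theorem maxint {q : ℕ} [Fact q.Prime] (M : Subgroup G) (hq : ¬ q ∣ M.index) (n : ℕ)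
    (hcov : ∀ Z : Subgroup G, IsPGroup q Z → Z ≠ ⊥ →
      (∃ g : G, Subgroup.normalizer (Z : Set G) ≤ MulAut.conj g • M) ∨ Nat.card Z ∣ n)
    (Z : Subgroup G) : IsPGroup q Z → ∀ a b : G, Z ≤ MulAut.conj a • M → Z ≤ MulAut.conj b • M →
      MulAut.conj a • M ≠ MulAut.conj b • M → Nat.card Z ∣ n := by
  induction Z using WellFoundedGT.induction with
  | _ Z ih =>
  intro hZ a b ha hb hab
  by_cases h0 : Z = ⊥
  · subst h0; simp
  rcases hcov Z hZ h0 with ⟨g, hg⟩ | h
  swap
  · exact h
  by_contra hn
  have key : ∀ c : G, Z ≤ MulAut.conj c • M → MulAut.conj c • M = MulAut.conj g • M := by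
    intro c hc
    obtain ⟨S, hZS, hSM⟩ := exists_sylow_between (by rwa [index_conj_smul]) hZ hc
    rcases hZS.lt_or_eq with hlt | heq
    · by_contra hne
      have hnil : Group.IsNilpotent S := S.isPGroup'.isNilpotent
      have hlt' : Z.subgroupOf S < ⊤ := by
        rw [lt_top_iff_ne_top, Ne, Subgroup.subgroupOf_eq_top]
        exact hlt.not_ge
      have h1 := Group.normalizerCondition_of_isNilpotent (G := S) _ hlt'
      rw [← Subgroup.subgroupOf_normalizer_eq hZS] at h1
      have h2 : Z < Subgroup.normalizer (Z : Set G) ⊓ S := by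
        refine lt_of_le_of_ne (le_inf Subgroup.le_normalizer hZS) fun e => h1.ne ?_
        ext x
        simp only [Subgroup.mem_subgroupOf]
        exact ⟨fun hx => Subgroup.le_normalizer hx, fun hx => e ▸ ⟨hx, x.2⟩⟩
      have h3 := ih _ h2 (S.isPGroup'.to_inf_right) c g (inf_le_right.trans hSM)
        (inf_le_left.trans hg) hne
      exact hn ((Subgroup.card_dvd_of_le h2.le).trans h3)
    · subst heq
      have e1 : MulAut.conj c • M = MulAut.conj (c * g⁻¹) • MulAut.conj g • M := by
        rw [conj_smul_conj_smul, inv_mul_cancel_right]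
      have e2 : (((c * g⁻¹)⁻¹ • S : Sylow q G) : Subgroup G) ≤ MulAut.conj g • M := by
        have := conj_smul_mono (c * g⁻¹)⁻¹ hc
        rw [e1, conj_smul_conj_smul, inv_mul_cancel, conj_one_smul] at this
        exact this
      obtain ⟨h, hh, e3⟩ := sylow_conj_in _ S e2 (Subgroup.le_normalizer.trans hg)
      have e4 : h * (c * g⁻¹)⁻¹ ∈ Subgroup.normalizer ((S : Subgroup G) : Set G) := by
        rw [← conj_smul_eq_iff_mem_normalizer, ← conj_smul_conj_smul]
        exact e3
      have e5 : c * g⁻¹ ∈ MulAut.conj g • M := by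
        have := mul_mem (inv_mem hh) (hg e4)
        rw [inv_mul_cancel_left] at this
        exact (inv_mem_iff).mp this
      rw [e1, conj_smul_of_mem e5]
  exact hab ((key a ha).trans (key b hb).symm)

end

/-- Counting off the orbits other than a fixed point. -/
theorem dvd_card_sub_one {A X : Type*} [Group A] [MulAction A X] [Finite X] (x₀ : X)
    (h0 : ∀ a : A, a • x₀ = x₀) (d : ℕ)
    (h : ∀ x, x ≠ x₀ → d ∣ (MulAction.stabilizer A x).index) : d ∣ Nat.card X - 1 := by
  classical
  have := Fintype.ofFinite X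
  have e : Nat.card X - 1 = (Finset.univ.erase x₀).card := by
    rw [Finset.card_erase_of_mem (Finset.mem_univ _), Finset.card_univ, Nat.card_eq_fintype_card]
  rw [e, Finset.card_eq_sum_card_image (fun x => MulAction.orbit A x)]
  refine Finset.dvd_sum fun b hb => ?_
  obtain ⟨x, hx, rfl⟩ := Finset.mem_image.mp hb
  have hx0 : x ≠ x₀ := Finset.ne_of_mem_erase hx
  have : ((Finset.univ.erase x₀).filter fun y => MulAction.orbit A y = MulAction.orbit A x).card =
      (MulAction.stabilizer A x).index := by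
    rw [MulAction.index_stabilizer, ← Set.ncard_coe_finset]
    congr 1
    ext y
    simp only [Finset.coe_filter, Finset.mem_erase, Finset.mem_univ, and_true, Set.mem_ofPred_eq,
      MulAction.orbit_eq_iff]
    refine ⟨fun h => h.2, fun h => ⟨?_, h⟩⟩
    intro e
    obtain ⟨a, ha⟩ := h
    exact hx0 (by rw [← inv_smul_smul a x]; simp only at ha; rw [ha, e, h0])
  rw [this]
  exact h x hx0

section
variable {G : Type*} [Group G] [Finite G]

/-- Every nontrivial subdegree on `G ⧸ M` is divisible by the index of `L`. -/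
theorem index_dvd (M L : Subgroup G) (hM : Subgroup.normalizer (M : Set G) ≤ M)
    (hq : ∀ q : ℕ, q.Prime → q ∣ L.index → ¬ q ∣ M.index)
    (hcov : ∀ q : ℕ, q.Prime → ∀ Z : Subgroup G, IsPGroup q Z → Z ≠ ⊥ →
      ∃ g : G, Subgroup.normalizer (Z : Set G) ≤ MulAut.conj g • M ∨
        Subgroup.normalizer (Z : Set G) ≤ MulAut.conj g • L) :
    L.index ∣ M.index - 1 := by
  refine dvd_card_sub_one (A := M) ((1 : G) : G ⧸ M) (fun a => ?_) _ (fun x hx => ?_)
  · change (a : G) • ((1 : G) : G ⧸ M) = _
    rw [MulAction.Quotient.smul_coe, smul_eq_mul, mul_one, QuotientGroup.eq]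
    simp
  · induction x using QuotientGroup.induction_on with
    | H x =>
    have hxM : x ∉ M := fun h => hx (by rw [QuotientGroup.eq]; simpa using h)
    have hne : MulAut.conj (1 : G) • M ≠ MulAut.conj x • M := by
      rw [conj_one_smul]
      exact fun e => hxM (hM (conj_smul_eq_iff_mem_normalizer.mp e.symm))
    set D := MulAction.stabilizer M (x : G ⧸ M) with hD
    have hDle : D.map M.subtype ≤ MulAut.conj x • M := by
      rintro _ ⟨y, hy, rfl⟩
      have hy' : (y : G) • (x : G ⧸ M) = x := hy
      rw [MulAction.Quotient.smul_coe, smul_eq_mul, eq_comm, QuotientGroup.eq] at hy'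
      rw [mem_conj_smul_iff]
      simpa [mul_assoc] using hy'
    have hG : L.index * Nat.card L = M.index * (D.index * Nat.card D) := by
      rw [Subgroup.index_mul_card, Subgroup.index_mul_card, Subgroup.index_mul_card]
    have n1 : L.index ≠ 0 := Subgroup.index_ne_zero_of_finite
    have n2 : M.index ≠ 0 := Subgroup.index_ne_zero_of_finite
    have n3 : D.index ≠ 0 := Subgroup.index_ne_zero_of_finite
    have n4 : Nat.card L ≠ 0 := Nat.card_pos.ne'
    have n5 : Nat.card D ≠ 0 := Nat.card_pos.ne'
    rw [← Nat.factorization_prime_le_iff_dvd n1 n3]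
    intro q hqp
    by_cases hql : q ∣ L.index
    swap
    · rw [Nat.factorization_eq_zero_of_not_dvd hql]; exact Nat.zero_le _
    have := Fact.mk hqp
    obtain ⟨Z⟩ : Nonempty (Sylow q D) := inferInstance
    have hZ := maxint M (hq q hqp hql) (Nat.card L) (fun Y hY h0 => by
        obtain ⟨g, h | h⟩ := hcov q hqp Y hY h0
        · exact Or.inl ⟨g, h⟩
        · exact Or.inr (card_conj_smul g L ▸
            Subgroup.card_dvd_of_le (Subgroup.le_normalizer.trans h)))
      (((Z : Subgroup D).map D.subtype).map M.subtype) ((Z.isPGroup'.map _).map _) 1 x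
      (by rw [conj_one_smul]; exact Subgroup.map_subtype_le _)
      ((Subgroup.map_mono (Subgroup.map_subtype_le _)).trans hDle) hne
    rw [Subgroup.card_map_of_injective M.subtype_injective,
      Subgroup.card_map_of_injective D.subtype_injective, Sylow.card_eq_multiplicity,
      hqp.pow_dvd_iff_le_factorization n4] at hZ
    have e := congrArg (fun n => n.factorization q) hG
    simp only [Nat.factorization_mul n1 n4, Nat.factorization_mul n2 (mul_ne_zero n3 n5),
      Nat.factorization_mul n3 n5, Finsupp.add_apply,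
      Nat.factorization_eq_zero_of_not_dvd (hq q hqp hql)] at e
    omega

/-- A maximal subgroup is not normal when there is no nontrivial normal `p`-subgroup. -/
theorem normalizer_le (M L : Subgroup G) (hM : IsCoatom M) (hL : L ≠ ⊤)
    (hcov : ∀ q : ℕ, q.Prime → ∀ Z : Subgroup G, IsPGroup q Z → Z ≠ ⊥ →
      ∃ g : G, Subgroup.normalizer (Z : Set G) ≤ MulAut.conj g • M ∨
        Subgroup.normalizer (Z : Set G) ≤ MulAut.conj g • L) :
    Subgroup.normalizer (M : Set G) ≤ M := by
  by_contra hn
  have hN : M.Normal := Subgroup.normalizer_eq_top_iff.mp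
    (hM.2 _ (lt_of_le_of_ne Subgroup.le_normalizer fun e => hn e.ge))
  have hc : ∀ g : G, MulAut.conj g • M = M := fun g => conj_smul_eq_iff_mem_normalizer.mpr
    (by rw [Subgroup.normalizer_eq_top_iff.mpr hN]; trivial)
  -- Frattini
  have fr : ∀ q : ℕ, q.Prime → q ∣ Nat.card M → ∃ (g : G) (S : Subgroup G), S ≤ M ∧
      Nat.card S = q ^ (Nat.card M).factorization q ∧ S ≤ MulAut.conj g • L ∧
      MulAut.conj g • L ⊔ M = ⊤ := by
    intro q hq hd
    have := Fact.mk hq
    obtain ⟨S⟩ : Nonempty (Sylow q M) := inferInstance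
    have h0 : (S : Subgroup M).map M.subtype ≠ ⊥ := by
      rw [Ne, Subgroup.map_eq_bot_iff_of_injective _ M.subtype_injective]
      exact S.ne_bot_of_dvd_card hd
    have hf := S.normalizer_sup_eq_top
    obtain ⟨g, h | h⟩ := hcov q hq _ (S.isPGroup'.map M.subtype) h0
    · rw [hc] at h
      exact absurd (top_le_iff.mp (hf ▸ sup_le h le_rfl)) hM.1
    · refine ⟨g, _, Subgroup.map_subtype_le _, ?_, Subgroup.le_normalizer.trans h,
        top_le_iff.mp (hf ▸ sup_le_sup_right h _)⟩
      rw [Subgroup.card_map_of_injective M.subtype_injective, Sylow.card_eq_multiplicity]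
  have hML : M ≤ L := by
    have hd : Nat.card M ∣ Nat.card ↥(L ⊓ M) := by
      rw [← Nat.factorization_prime_le_iff_dvd Nat.card_pos.ne' Nat.card_pos.ne']
      intro q hq
      by_cases hd : q ∣ Nat.card M
      swap
      · rw [Nat.factorization_eq_zero_of_not_dvd hd]; exact Nat.zero_le _
      obtain ⟨g, S, h1, h2, h3, -⟩ := fr q hq hd
      rw [← hq.pow_dvd_iff_le_factorization Nat.card_pos.ne', ← h2, ← card_conj_smul g (L ⊓ M),
        Subgroup.smul_inf, hc]
      exact Subgroup.card_dvd_of_le (le_inf h3 h1)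
    have := Subgroup.eq_of_le_of_card_ge (inf_le_right : L ⊓ M ≤ M) (Nat.le_of_dvd Nat.card_pos hd)
    exact this.ge.trans inf_le_left
  have hLM : L = M := (hM.le_iff_eq hL).mp hML
  subst hLM
  by_cases h1 : Nat.card L = 1
  · have hb : L = ⊥ := Subgroup.eq_bot_of_card_eq _ h1
    have hG : Nat.card G ≠ 1 := fun e => by
      have := (Nat.card_eq_one_iff_unique.mp e).1
      exact hL (Subsingleton.elim _ _)
    obtain ⟨q, hq, hd⟩ := Nat.exists_prime_and_dvd hG
    have := Fact.mk hq
    obtain ⟨S⟩ : Nonempty (Sylow q G) := inferInstance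
    have h0 := S.ne_bot_of_dvd_card hd
    obtain ⟨g, h⟩ := hcov q hq _ S.isPGroup' h0
    rw [or_self, hc, hb] at h
    exact h0 (le_bot_iff.mp (Subgroup.le_normalizer.trans h))
  · obtain ⟨q, hq, hd⟩ := Nat.exists_prime_and_dvd h1
    obtain ⟨g, S, -, -, -, h⟩ := fr q hq hd
    rw [hc, sup_idem] at h
    exact hL h

/-- Two classes of maximal subgroups force a nontrivial normal `p`-subgroup. -/
theorem false_of_cov (M L : Subgroup G) (hM : IsCoatom M) (hL : IsCoatom L)
    (hcov : ∀ q : ℕ, q.Prime → ∀ Z : Subgroup G, IsPGroup q Z → Z ≠ ⊥ →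
      ∃ g : G, Subgroup.normalizer (Z : Set G) ≤ MulAut.conj g • M ∨
        Subgroup.normalizer (Z : Set G) ≤ MulAut.conj g • L) : False := by
  have hcov' : ∀ q : ℕ, q.Prime → ∀ Z : Subgroup G, IsPGroup q Z → Z ≠ ⊥ →
      ∃ g : G, Subgroup.normalizer (Z : Set G) ≤ MulAut.conj g • L ∨
        Subgroup.normalizer (Z : Set G) ≤ MulAut.conj g • M := fun q hq Z hZ h0 =>
    (hcov q hq Z hZ h0).imp fun _ h => h.symm
  have hq : ∀ q : ℕ, q.Prime → q ∣ L.index → ¬ q ∣ M.index := by
    intro q hq h1 h2
    have := Fact.mk hq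
    obtain ⟨S⟩ : Nonempty (Sylow q G) := inferInstance
    obtain ⟨g, h | h⟩ := hcov q hq _ S.isPGroup'
      (S.ne_bot_of_dvd_card (h1.trans L.index_dvd_card))
    · exact S.not_dvd_index (h2.trans (index_conj_smul g M ▸
        Subgroup.index_dvd_of_le (Subgroup.le_normalizer.trans h)))
    · exact S.not_dvd_index (h1.trans (index_conj_smul g L ▸
        Subgroup.index_dvd_of_le (Subgroup.le_normalizer.trans h)))
  have h1 := index_dvd M L (normalizer_le M L hM hL.1 hcov) hq hcov
  have h2 := index_dvd L M (normalizer_le L M hL hM.1 hcov') (fun q hp a b => hq q hp b a) hcov'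
  have m1 : 1 < M.index := Subgroup.one_lt_index_of_ne_top hM.1
  have l1 : 1 < L.index := Subgroup.one_lt_index_of_ne_top hL.1
  have := Nat.le_of_dvd (by omega) h1
  have := Nat.le_of_dvd (by omega) h2
  omega

end


/-- At most two classes of maximal subgroups: the group is solvable. -/
theorem solvable (G : Type u) [Group G] [Finite G] : ∀ M L : Subgroup G,
    (∀ H : Subgroup G, IsCoatom H → ∃ g : G, H = MulAut.conj g • M ∨ H = MulAut.conj g • L) →
      Group.IsSolvable G := by
  refine CL.card_induction (P := fun G _ _ => ∀ M L : Subgroup G,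
    (∀ H : Subgroup G, IsCoatom H → ∃ g : G, H = MulAut.conj g • M ∨ H = MulAut.conj g • L) →
      Group.IsSolvable G) ?_ G
  intro G _ _ ih M L hall
  by_cases hO : ∃ (q : ℕ) (Z : Subgroup G), q.Prime ∧ IsPGroup q Z ∧ Z ≠ ⊥ ∧ Z.Normal
  · obtain ⟨q, Z, hq, hZ, h0, hN⟩ := hO
    have := Fact.mk hq
    have : Group.IsSolvable (G ⧸ Z) := by
      refine ih _ (card_quotient_lt h0) (M.map (QuotientGroup.mk' Z)) (L.map (QuotientGroup.mk' Z))
        fun H hH => ?_
      obtain ⟨g, h⟩ := hall _ (Subgroup.isCoatom_comap_of_surjective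
        (QuotientGroup.mk'_surjective Z) hH)
      refine ⟨QuotientGroup.mk' Z g, ?_⟩
      rw [← map_conj_smul, ← map_conj_smul]
      exact h.imp (fun e => by rw [← e, map_comap_mk']) (fun e => by rw [← e, map_comap_mk'])
    have : Group.IsNilpotent Z := hZ.isNilpotent
    exact Group.isSolvable_of_ker_le_range Z.subtype (QuotientGroup.mk' Z) (by simp)
  · by_contra hns
    have cj : ∀ (g : G) (H : Subgroup G), IsCoatom (MulAut.conj g • H) → IsCoatom H := by
      intro g H h
      exact (OrderIso.isCoatom_iff ((MulAut.conj g).mapSubgroup) H).mp h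
    have cov : ∀ M L : Subgroup G,
        (∀ H : Subgroup G, IsCoatom H → ∃ g : G, H = MulAut.conj g • M ∨ H = MulAut.conj g • L) →
        ∀ q : ℕ, q.Prime → ∀ Z : Subgroup G, IsPGroup q Z → Z ≠ ⊥ →
        ∃ g : G, Subgroup.normalizer (Z : Set G) ≤ MulAut.conj g • M ∨
          Subgroup.normalizer (Z : Set G) ≤ MulAut.conj g • L := by
      intro M L hall q hq Z hZ h0
      have : Subgroup.normalizer (Z : Set G) ≠ ⊤ := fun e =>
        hO ⟨q, Z, hq, hZ, h0, Subgroup.normalizer_eq_top_iff.mp e⟩
      obtain ⟨H, hH, hle⟩ := (eq_top_or_exists_le_coatom _).resolve_left this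
      obtain ⟨g, h⟩ := hall H hH
      exact ⟨g, h.imp (fun e => hle.trans e.le) (fun e => hle.trans e.le)⟩
    by_cases hM : IsCoatom M
    · by_cases hL : IsCoatom L
      · exact false_of_cov M L hM hL (cov M L hall)
      · refine false_of_cov M M hM hM (cov M M fun H hH => ?_)
        obtain ⟨g, h | h⟩ := hall H hH
        · exact ⟨g, Or.inl h⟩
        · exact absurd (cj g L (h ▸ hH)) hL
    · have hall' : ∀ H : Subgroup G, IsCoatom H → ∃ g : G, H = MulAut.conj g • L ∨
          H = MulAut.conj g • L := fun H hH => by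
        obtain ⟨g, h | h⟩ := hall H hH
        · exact absurd (cj g M (h ▸ hH)) hM
        · exact ⟨g, Or.inl h⟩
      have hb : (⊥ : Subgroup G) ≠ ⊤ := fun e => by
        have : Subsingleton G := Subgroup.subsingleton_iff.mp (subsingleton_of_bot_eq_top e)
        exact hns inferInstance
      obtain ⟨H, hH, -⟩ := (eq_top_or_exists_le_coatom _).resolve_left hb
      obtain ⟨g, h⟩ := hall' H hH
      rw [or_self] at h
      have hL := cj g L (h ▸ hH)
      exact false_of_cov L L hL hL (cov L L hall')

/-- Exactly two classes of maximal subgroups in a solvable group: exactly two primes. -/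
theorem two_primes {G : Type*} [Group G] [Finite G] [Group.IsSolvable G]
    (M L : Subgroup G) (hM : IsCoatom M) (hL : IsCoatom L) (hne : L ≠ M)
    (hall : ∀ H : Subgroup G, IsCoatom H → ∃ g : G, H = MulAut.conj g • M ∨ H = MulAut.conj g • L) :
    (Nat.card G).primeFactors.card = 2 := by
  have hG : Nat.card G ≠ 0 := Nat.card_pos.ne'
  apply le_antisymm
  · have hsub : (Nat.card G).primeFactors ⊆ {M.index.minFac, L.index.minFac} := by
      intro p hp
      have hpp := Nat.prime_of_mem_primeFactors hp
      have hpd := Nat.dvd_of_mem_primeFactors hp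
      obtain ⟨k, m, hm, e⟩ := Nat.exists_eq_pow_mul_and_not_dvd hG p hpp.ne_one
      obtain ⟨H, hH⟩ := hall_exists (G := G) (m := m) (n := p ^ k) (by rw [e, mul_comm])
        ((Nat.coprime_comm.mp ((Nat.Prime.coprime_iff_not_dvd hpp).mpr hm)).pow_right k)
      have hi : H.index = p ^ k := by
        have := H.index_mul_card
        rw [hH, e] at this
        exact Nat.eq_of_mul_eq_mul_right (Nat.pos_of_ne_zero (by rintro rfl; simp at hm)) this
      have hH' : H ≠ ⊤ := by
        rintro rfl
        rw [Subgroup.card_top] at hH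
        exact hm (hH ▸ hpd)
      obtain ⟨K, hK, hle⟩ := (eq_top_or_exists_le_coatom _).resolve_left hH'
      have hmin : K.index.minFac = p := by
        have h1 : K.index ≠ 1 := fun e => hK.1 (Subgroup.index_eq_one.mp e)
        have h2 := (Nat.minFac_dvd K.index).trans (hi ▸ Subgroup.index_dvd_of_le hle)
        exact (Nat.prime_dvd_prime_iff_eq (Nat.minFac_prime h1) hpp).mp
          ((Nat.minFac_prime h1).dvd_of_dvd_pow h2)
      obtain ⟨g, h | h⟩ := hall K hK
      · rw [h, index_conj_smul] at hmin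
        simp [hmin]
      · rw [h, index_conj_smul] at hmin
        simp [hmin]
    exact (Finset.card_le_card hsub).trans Finset.card_le_two
  · by_contra hlt
    have hG1 : Nat.card G ≠ 1 := fun e => by
      have := (Nat.card_eq_one_iff_unique.mp e).1
      exact hM.1 (Subsingleton.elim _ _)
    obtain ⟨p, hp, hd⟩ := Nat.exists_prime_and_dvd hG1
    have := Fact.mk hp
    have huniq : ∀ r : ℕ, r.Prime → r ∣ Nat.card G → r = p := fun r hr hrd =>
      Finset.card_le_one.mp (by omega : (Nat.card G).primeFactors.card ≤ 1) r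
        (Nat.mem_primeFactors.mpr ⟨hr, hrd, hG⟩) p (Nat.mem_primeFactors.mpr ⟨hp, hd, hG⟩)
    have hP : IsPGroup p G := IsPGroup.of_card
      (Nat.eq_prime_pow_of_unique_prime_dvd hG fun {r} hr hrd => huniq r hr hrd)
    have : Group.IsNilpotent G := hP.isNilpotent
    have nM : M.Normal := Subgroup.NormalizerCondition.normal_of_coatom M
      Group.normalizerCondition_of_isNilpotent hM
    have nL : L.Normal := Subgroup.NormalizerCondition.normal_of_coatom L
      Group.normalizerCondition_of_isNilpotent hL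
    have cM : ∀ g : G, MulAut.conj g • M = M := fun g => conj_smul_eq_iff_mem_normalizer.mpr
      (by rw [Subgroup.normalizer_eq_top_iff.mpr nM]; trivial)
    have cL : ∀ g : G, MulAut.conj g • L = L := fun g => conj_smul_eq_iff_mem_normalizer.mpr
      (by rw [Subgroup.normalizer_eq_top_iff.mpr nL]; trivial)
    obtain ⟨x, hxL, hxM⟩ : ∃ x ∈ L, x ∉ M := by
      by_contra h
      push Not at h
      exact hne ((hL.le_iff_eq hM.1).mp h).symm
    obtain ⟨y, hyM, hyL⟩ : ∃ y ∈ M, y ∉ L := by
      by_contra h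
      push Not at h
      exact hne ((hM.le_iff_eq hL.1).mp h)
    have htop : Subgroup.zpowers (x * y) = ⊤ := by
      by_contra h
      obtain ⟨K, hK, hle⟩ := (eq_top_or_exists_le_coatom _).resolve_left h
      have hxy := hle (Subgroup.mem_zpowers _)
      obtain ⟨g, e | e⟩ := hall K hK
      · rw [e, cM] at hxy
        exact hxM ((Subgroup.mul_mem_cancel_right M hyM).mp hxy)
      · rw [e, cL] at hxy
        exact hyL ((Subgroup.mul_mem_cancel_left L hxL).mp hxy)
    generalize hz : x * y = z at htop
    obtain ⟨n, hn⟩ := hP.exists_orderOf_eq_pow z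
    have dv : ∀ (K : Subgroup G) (w : G), K ≠ ⊤ → w ∈ K → ∃ a : ℕ, w = z ^ (p * a) := by
      intro K w hK hw
      have : w ∈ Subgroup.zpowers z := htop ▸ Subgroup.mem_top w
      obtain ⟨a, rfl⟩ := (mem_powers_iff_mem_zpowers.mpr this : w ∈ Submonoid.powers z)
      by_cases hpa : p ∣ a
      · obtain ⟨b, rfl⟩ := hpa
        exact ⟨b, rfl⟩
      · exfalso
        have : z ∈ Subgroup.zpowers (z ^ a) := by
          rw [mem_zpowers_pow_iff, hn]
          exact (Nat.coprime_comm.mp ((Nat.Prime.coprime_iff_not_dvd hp).mpr hpa)).pow_right n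
        exact hK (top_le_iff.mp (htop ▸ Subgroup.zpowers_le.mpr
          ((Subgroup.zpowers_le.mpr hw) this)))
    obtain ⟨a, ha⟩ := dv L x hL.1 hxL
    obtain ⟨b, hb⟩ := dv M y hM.1 hyM
    have e : z ^ (p * (a + b)) = z ^ 1 := by rw [mul_add, pow_add, ← ha, ← hb, hz, pow_one]
    rw [pow_eq_pow_iff_modEq, hn] at e
    rcases n with _ | n
    · rw [pow_zero, orderOf_eq_one_iff] at hn
      rw [hn, Subgroup.zpowers_one_eq_bot] at htop
      exact hM.1 (top_le_iff.mp (htop ▸ bot_le))
    · have := (Nat.ModEq.of_dvd (dvd_pow_self p n.succ_ne_zero) e).symm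
      rw [Nat.modEq_iff_dvd' (by
        rcases Nat.eq_zero_or_pos (p * (a + b)) with h | h
        · rw [h] at this
          exact absurd ((Nat.modEq_zero_iff_dvd).mp this) (by simpa using hp.ne_one)
        · exact h)] at this
      have h2 : p ∣ p * (a + b) := dvd_mul_right _ _
      have h3 : 1 ≤ p * (a + b) := by
        rcases Nat.eq_zero_or_pos (p * (a + b)) with h | h
        · have e' := Nat.ModEq.of_dvd (dvd_pow_self p n.succ_ne_zero) e
          rw [h] at e'
          exact absurd ((Nat.modEq_zero_iff_dvd).mp e'.symm) (by simpa using hp.ne_one)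
        · exact h
      have := (Nat.dvd_sub_iff_right h3 h2).mp this
      exact hp.ne_one (Nat.dvd_one.mp this)

end CL.TwoMax
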