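import Mathlib
import Cfsg.Agent.SOLV.HallConverse
import Cfsg.Agent.SOLV.CoprimeSylow
import Cfsg.Agent.S0205

/-! A finite `2`-soluble group is soluble. -/

set_option autoImplicit false
open Subgroup

namespace CL
open Cfsg

theorem isSolvable_of_isPSolvable_two {G : Type*} [Group G] [Finite G] (h : IsPSolvable 2 G) :
    Group.IsSolvable G := by
  obtain ⟨n, H, h0, h1, -, h2, h3⟩ := h
  have key : ∀ i, Group.IsSolvable (H i) := by
    intro i
    induction i using Fin.induction with
    | zero => rw [h0]; infer_instance
    | succ i ih =>
      have := h2 i.castSucc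
      refine isSolvable_of_normal_of_quotient ((H i.castSucc).subgroupOf (H i.succ))
        (Group.isSolvable_of_isSolvable_injective (f := ((H i.succ).subtype.subgroupComap _))
          fun a b e => Subtype.ext (Subtype.ext (congrArg Subtype.val e :))) ?_
      rcases h3 i with ⟨m, hm⟩ | hm
      · exact isSolvable_of_isPGroup (IsPGroup.of_card hm)
      · exact Agent.S0205.result ((Nat.coprime_two_right).1 hm)
  have : Group.IsSolvable (⊤ : Subgroup G) := h1 ▸ key (Fin.last n)
  exact Group.isSolvable_of_surjective (f := (⊤ : Subgroup G).subtype) fun x => ⟨⟨x, trivial⟩, rfl⟩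

end CL
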