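import Mathlib
import Cfsg.Agent.SPOR.OrdTools2
import Cfsg.Agent.INV.Def1Ex
import Cfsg.Agent.CHAR.Clifford
import Cfsg.Agent.CHAR.Faithful

/-! Character degrees of a simple group of order `6048` with the Borel subgroup of `PSU₃(3)`. -/

set_option autoImplicit false
open Cfsg Subgroup CL.Char
open scoped ComplexConjugate

namespace CL.U33D

section Parity

variable {G : Type*} [Group G] [Fintype G] (N : Subgroup G) [N.Normal] [Fintype N]

theorem irr_modEq {p k : ℕ} (hp : p.Prime) {t : G} (ht : t ^ p ^ k = 1)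
    (hc : ∀ x ∈ N, IsConj t (x * t)) {φ : G → ℂ} (hφ : IsIrrCharacter G φ) :
    ∃ m : ℕ, classInner (fun n : N => φ n) (fun _ => 1) = m ∧ m ≡ charDegree φ [MOD p] := by
  classical
  have hN : (Nat.card N : ℂ) ≠ 0 := card_subgroup_ne_zero N
  by_cases h : classInner (fun n : N => φ n) (fun _ => 1) ≠ 0
  · have h1 := (inner_res_one_ne_zero_iff hφ).mp h
    refine ⟨charDegree φ, ?_, Nat.ModEq.refl _⟩
    rw [classInner, Finset.sum_congr rfl (fun (n : N) _ => show φ n * conj (1 : ℂ) = φ 1 by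
      rw [h1 n n.2, map_one, mul_one]), Finset.sum_const, Finset.card_univ, ← Nat.card_eq_fintype_card,
      nsmul_eq_mul, ← mul_assoc, inv_mul_cancel₀ hN, one_mul, hφ.apply_one_eq_charDegree]
  · push Not at h
    refine ⟨0, by simpa using h, ?_⟩
    have hs : ∑ n : N, φ n = 0 := by
      rw [classInner] at h
      simpa [hN] using h
    have hf : IsClassFunction G (extendByZero N (fun _ => (1 : ℂ))) := by
      intro x g
      by_cases hx : x ∈ N
      · rw [extendByZero_of_mem N _ hx, extendByZero_of_mem N _ (‹N.Normal›.conj_mem x hx g)]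
      · rw [extendByZero_of_not_mem N _ hx, extendByZero_of_not_mem N _
          (fun h' => hx (by simpa [mul_assoc] using ‹N.Normal›.conj_mem _ h' g⁻¹))]
    have key := hφ.sum_mul_apply_mul hf t
    rw [sum_extendByZero_mul N _ (fun g => φ (g * t)), sum_extendByZero_mul N _ φ] at key
    simp only [one_mul, hs, zero_mul] at key
    have h2 : ∑ n : N, φ (n * t) = Nat.card N * φ t := by
      rw [Finset.sum_congr rfl (fun (n : N) _ => show φ (n * t) = φ t by
        obtain ⟨c, hc'⟩ := isConj_iff.mp (hc n n.2)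
        rw [← hc']; exact hφ.isClassFunction t c), Finset.sum_const, Finset.card_univ,
        ← Nat.card_eq_fintype_card, nsmul_eq_mul]
    rw [h2] at key
    have h3 : φ t = 0 := by
      rcases mul_eq_zero.mp key with h4 | h4
      · exact absurd h4 hφ.one_ne_zero
      · exact (mul_eq_zero.mp h4).resolve_left hN
    exact ((Nat.modEq_zero_iff_dvd).mpr (hφ.isCharacter.dvd_degree_of_eq_zero hp ht h3)).symm

/-- If a `p`-element `t` acts fixed-point-freely on the normal subgroup `N`, the dimension of the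
`N`-fixed space is congruent to the degree modulo `p`. -/
theorem char_modEq {p k : ℕ} (hp : p.Prime) {t : G} (ht : t ^ p ^ k = 1)
    (hc : ∀ x ∈ N, IsConj t (x * t)) {χ : G → ℂ} (hχ : IsCharacter G χ) {m d : ℕ}
    (hm : classInner (fun n : N => χ n) (fun _ => 1) = m) (hd : χ 1 = d) : m ≡ d [MOD p] := by
  obtain ⟨c, rfl⟩ := isCharacter_iff_exists_nat.mp hχ
  choose μ hμ hμ' using fun φ : IrrCharacter G => irr_modEq N hp ht hc φ.2
  have h1 : m = ∑ φ, c φ * μ φ := by
    have : (m : ℂ) = ∑ φ, (c φ : ℂ) * μ φ := by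
      rw [← hm]
      simp only [← hμ, classInner, Finset.sum_apply, Pi.smul_apply, smul_eq_mul, map_one, mul_one,
        Finset.mul_sum]
      rw [Finset.sum_comm]
      refine Finset.sum_congr rfl fun φ _ => Finset.sum_congr rfl fun n _ => by ring
    exact_mod_cast this
  have h2 : d = ∑ φ, c φ * charDegree φ.1 := by
    have : (d : ℂ) = ∑ φ, (c φ : ℂ) * charDegree φ.1 := by
      rw [← hd]
      simp only [Finset.sum_apply, Pi.smul_apply, smul_eq_mul]
      exact Finset.sum_congr rfl fun φ _ => by rw [φ.2.apply_one_eq_charDegree]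
    exact_mod_cast this
  rw [h1, h2]
  exact Nat.ModEq.sum fun φ _ => (hμ' φ).mul_left _

end Parity

variable {G : Type*} [Group G] [Finite G]

theorem isConj_mul_of_fpf {P : Subgroup G} {t : G} (ht : t ∈ normalizer (P : Set G))
    (hf : ∀ y ∈ P, t * y * t⁻¹ = y → y = 1) {x : G} (hx : x ∈ P) : ∃ y ∈ P, y * t * y⁻¹ = x * t := by
  have hm : ∀ y ∈ P, t * y * t⁻¹ ∈ P := fun y hy => (mem_normalizer_iff.mp ht y).mp hy
  let f : P → P := fun y => ⟨y * (t * (y : G)⁻¹ * t⁻¹), P.mul_mem y.2 (hm _ (P.inv_mem y.2))⟩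
  have hi : Function.Injective f := fun y z h => by
    have h1 : (y : G) * (t * (y : G)⁻¹ * t⁻¹) = z * (t * (z : G)⁻¹ * t⁻¹) := congrArg Subtype.val h
    have h2 := hf ((z : G)⁻¹ * y) (P.mul_mem (P.inv_mem z.2) y.2) (by
      calc t * ((z : G)⁻¹ * y) * t⁻¹ = (z : G)⁻¹ * (z * (t * (z : G)⁻¹ * t⁻¹)) * (t * y * t⁻¹) := by group
        _ = (z : G)⁻¹ * y := by rw [← h1]; group)
    exact Subtype.ext (inv_mul_eq_one.mp h2).symm
  obtain ⟨y, hy⟩ := Finite.surjective_of_injective hi ⟨x, hx⟩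
  refine ⟨y, y.2, ?_⟩
  have h1 : (y : G) * (t * (y : G)⁻¹ * t⁻¹) = x := congrArg Subtype.val hy
  rw [← h1]; group

/-- Multiplicities in the permutation character on the cosets of `P`. -/
theorem exists_mult {P : Subgroup G} (hG : Nat.card G = 6048) (hP : Nat.card P = 27)
    (hB : Nat.card (normalizer (P : Set G)) = 216)
    (ti : ∀ g : G, ∀ x ∈ P, x ≠ 1 → g * x * g⁻¹ ∈ P → g ∈ normalizer (P : Set G))
    {t : G} (ht : t ∈ normalizer (P : Set G)) (ht8 : t ^ 2 ^ 3 = 1)
    (hf : ∀ y ∈ P, t * y * t⁻¹ = y → y = 1) :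
    ∃ m : IrrCharacter G → ℕ, ∑ χ, m χ * charDegree χ.1 = 224 ∧ ∑ χ, m χ ^ 2 = 16 ∧
      m (irrOne G) = 1 ∧ ∀ χ, m χ ≡ charDegree χ.1 [MOD 2] := by
  classical
  have := Fintype.ofFinite G
  have hπ : IsCharacter G (indFun P (fun _ => 1)) := isCharacter_one.ind
  obtain ⟨m, hm⟩ := isCharacter_iff_exists_nat.mp hπ
  have hi : ∀ χ : IrrCharacter G, classInner (indFun P (fun _ => 1)) χ = m χ := fun χ => by
    rw [hm]; exact classInner_sum_irr (fun χ => (m χ : ℂ)) χ
  have hidx : P.index = 224 := by have := P.card_mul_index; rw [hP, hG] at this; omega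
  have hi' : ∀ χ : IrrCharacter G, classInner (fun n : P => χ.1 n) (fun _ => 1) = m χ := fun χ => by
    rw [← hi, classInner_indFun_left P _ χ.2.isClassFunction]
    exact (χ.2.isCharacter.res P).isGen.inner_comm isGen_one
  refine ⟨m, ?_, ?_, ?_, fun χ => ?_⟩
  · have h1 := congrFun hm 1
    rw [indFun_one, hidx] at h1
    simp only [Finset.sum_apply, Pi.smul_apply, smul_eq_mul] at h1
    rw [Finset.sum_congr rfl fun (φ : IrrCharacter G) _ => by rw [φ.2.apply_one_eq_charDegree]] at h1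
    have h2 : ((∑ χ, m χ * charDegree χ.1 : ℕ) : ℂ) = ((224 : ℕ) : ℂ) := by
      push_cast; rw [← h1]; norm_num
    exact_mod_cast h2
  · have h1 := inner_eq_sum_of_right (indFun P (fun _ => 1)) hπ.isClassFunction
    simp only [hi, Complex.conj_natCast] at h1
    have hv : ∀ x : P, x ≠ 1 → indFun P (fun _ => (1 : ℂ)) x = 8 := fun x hx => by
      rw [indFun_apply', hP]
      have : ∀ g : G, extendByZero P (fun _ => (1 : ℂ)) (g * x * g⁻¹) =
          extendByZero (normalizer (P : Set G)) (fun _ => (1 : ℂ)) g := fun g => by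
        by_cases hg : g ∈ normalizer (P : Set G)
        · rw [extendByZero_of_mem _ _ hg, extendByZero_of_mem _ _ ((mem_normalizer_iff.mp hg _).mp x.2)]
        · rw [extendByZero_of_not_mem _ _ hg, extendByZero_of_not_mem _ _
            (fun h => hg (ti g x x.2 (fun h' => hx (Subtype.ext h')) h))]
      rw [Finset.sum_congr rfl fun g _ => this g, sum_extendByZero, Finset.sum_const, Finset.card_univ,
        ← Nat.card_eq_fintype_card, hB]
      norm_num
    rw [classInner_indFun_left P _ hπ.isClassFunction, classInner, ← Finset.add_sum_erase _ _ (Finset.mem_univ 1),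
      Finset.sum_congr rfl fun x hx => by rw [hv x (Finset.ne_of_mem_erase hx)], Finset.sum_const,
      Finset.card_erase_of_mem (Finset.mem_univ _), Finset.card_univ, ← Nat.card_eq_fintype_card, hP,
      OneMemClass.coe_one, indFun_one, hidx] at h1
    have h2 : ((∑ χ, m χ ^ 2 : ℕ) : ℂ) = ((16 : ℕ) : ℂ) := by
      push_cast
      simp only [sq]
      rw [← h1]
      simp only [mul_one, one_mul, map_natCast, map_ofNat]
      norm_num
    exact_mod_cast h2
  · have h1 := hi' (irrOne G)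
    simp only [irrOne_apply, classInner, map_one, mul_one, Finset.sum_const, Finset.card_univ,
      ← Nat.card_eq_fintype_card, hP] at h1
    have h2 : ((m (irrOne G) : ℕ) : ℂ) = ((1 : ℕ) : ℂ) := by rw [← h1]; norm_num
    exact_mod_cast h2
  · let B := normalizer (P : Set G)
    have hPB : P ≤ B := le_normalizer
    refine char_modEq (G := B) (P.subgroupOf B) Nat.prime_two (k := 3) (t := ⟨t, ht⟩)
      (Subtype.ext ht8) (fun x hx => ?_) (χ.2.isCharacter.res B) ?_ χ.2.apply_one_eq_charDegree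
    · obtain ⟨y, hy, hy'⟩ := isConj_mul_of_fpf ht hf (mem_subgroupOf.mp hx)
      exact isConj_iff.mpr ⟨⟨y, hPB hy⟩, Subtype.ext hy'⟩
    · rw [← hi' χ]
      exact classInner_subOf hPB (fun n : P => χ.1 n) (fun _ => 1)

theorem exists_degs [IsSimpleGroup G] (hG : Nat.card G = 6048) :
    ∃ a b y z : IrrCharacter G, charDegree a.1 = 6 ∧ charDegree b.1 = 27 ∧ charDegree y.1 = 32 ∧
      charDegree z.1 = 32 ∧ y ≠ z ∧
      ∀ χ : IrrCharacter G, χ ∉ [irrOne G, a, b, y, z] → 7 ∣ charDegree χ.1 := by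
  classical
  have hc : ¬ IsMulCommutative G := CL.Small.not_comm_of_not_prime (by rw [hG]; norm_num)
  have hD := CL.D1.hasData_of_simple hc
  have : Fact (Nat.Prime 7) := ⟨by norm_num⟩
  obtain ⟨P, e, c, D, hP, hC, hN, θ, hθ, h⟩ := CL.Ord.exists_of_surv hc hD (p := 7) (by rw [hG]; norm_num)
    (fun _ e c s t => e == 3 && c == 1 && (decide (s = ([-6, -27] : List ℤ)) && t == -32))
    (by rw [hG]; decide +kernel)
  simp only [Bool.and_eq_true, beq_iff_eq, decide_eq_true_eq] at h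
  obtain ⟨⟨rfl, rfl⟩, h, ht⟩ := h
  obtain ⟨x, -, hx⟩ := CL.Small.exists_mem_orderOf_eq_prime (P : Subgroup G) 7 (by rw [hP])
  have hC7 : Nat.card (centralizer ({x} : Set G)) = 7 := (CL.D1.card_centralizer_eq P hP hx).trans hC
  obtain ⟨L, hL, hL1, hL2, -⟩ := CL.Ord.exists_list_of_map h
  simp only [List.map_eq_cons_iff, List.map_eq_nil_iff] at hL2
  obtain ⟨a, _, rfl, ea, b, _, rfl, eb, rfl⟩ := hL2
  obtain ⟨da, -⟩ := CL.Ord.deg_of_sdeg (D.δ_sign _ (by simp [hL1])) ea
  obtain ⟨db, -⟩ := CL.Ord.deg_of_sdeg (D.δ_sign _ (by simp [hL1])) eb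
  obtain ⟨dθ, -⟩ := CL.Ord.deg_of_sdeg D.ε_sign ht
  obtain ⟨y, z, hyz, hY⟩ := Finset.card_eq_two.1 (show D.Y.card = 2 by have := D.card_Y; omega)
  refine ⟨a, b, y, z, da, db, (D.deg_Y_eq (by simp [hY]) hθ).trans dθ,
    (D.deg_Y_eq (by simp [hY]) hθ).trans dθ, hyz, fun χ hχ => ?_⟩
  simp only [List.mem_cons, List.not_mem_nil, or_false, not_or] at hχ
  exact D.dvd_of_notMem hx hC7 hχ.1 (by simp [hL1, hχ.2.1, hχ.2.2.1]) (by simp [hY, hχ.2.2.2.1, hχ.2.2.2.2])

theorem countA {α : Type*} (d m : α → ℕ) (R : Finset α)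
    (h : ∀ x ∈ R, (d x = 7 ∨ d x = 21) ∧ (m x = 1 ∨ m x = 3)) :
    ∃ n1 n2 n3 n4 : ℕ, ∑ x ∈ R, d x ^ 2 = 49 * (n1 + n2) + 441 * (n3 + n4) ∧
      ∑ x ∈ R, m x * d x = 7 * n1 + 21 * n2 + 21 * n3 + 63 * n4 ∧
      ∑ x ∈ R, m x ^ 2 = n1 + 9 * n2 + n3 + 9 * n4 := by
  classical
  induction R using Finset.induction_on with
  | empty => exact ⟨0, 0, 0, 0, by simp⟩
  | insert x R hx ih =>
    obtain ⟨n1, n2, n3, n4, h1, h2, h3⟩ := ih fun y hy => h y (Finset.mem_insert_of_mem hy)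
    simp only [Finset.sum_insert hx, h1, h2, h3]
    obtain ⟨hd | hd, hm | hm⟩ := h x (Finset.mem_insert_self _ _) <;> rw [hd, hm]
    · exact ⟨n1 + 1, n2, n3, n4, by omega⟩
    · exact ⟨n1, n2 + 1, n3, n4, by omega⟩
    · exact ⟨n1, n2, n3 + 1, n4, by omega⟩
    · exact ⟨n1, n2, n3, n4 + 1, by omega⟩

theorem countB {α : Type*} (d m : α → ℕ) (R : Finset α)
    (h : ∀ x ∈ R, m x = 0 ∨ (d x = 7 ∧ (m x = 1 ∨ m x = 3)) ∨
      ((d x = 14 ∨ d x = 28 ∨ d x = 56) ∧ m x = 2)) :
    ∃ n1 n2 n3 n4 n5 : ℕ, ∑ x ∈ R, m x * d x = 7 * n1 + 21 * n2 + 28 * n3 + 56 * n4 + 112 * n5 ∧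
      ∑ x ∈ R, m x ^ 2 = n1 + 9 * n2 + 4 * (n3 + n4 + n5) := by
  classical
  induction R using Finset.induction_on with
  | empty => exact ⟨0, 0, 0, 0, 0, by simp⟩
  | insert x R hx ih =>
    obtain ⟨n1, n2, n3, n4, n5, h1, h2⟩ := ih fun y hy => h y (Finset.mem_insert_of_mem hy)
    simp only [Finset.sum_insert hx, h1, h2]
    obtain hm | ⟨hd, hm | hm⟩ | ⟨hd | hd | hd, hm⟩ := h x (Finset.mem_insert_self _ _)
    · rw [hm]; exact ⟨n1, n2, n3, n4, n5, by omega⟩
    · rw [hd, hm]; exact ⟨n1 + 1, n2, n3, n4, n5, by omega⟩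
    · rw [hd, hm]; exact ⟨n1, n2 + 1, n3, n4, n5, by omega⟩
    · rw [hd, hm]; exact ⟨n1, n2, n3 + 1, n4, n5, by omega⟩
    · rw [hd, hm]; exact ⟨n1, n2, n3, n4 + 1, n5, by omega⟩
    · rw [hd, hm]; exact ⟨n1, n2, n3, n4, n5 + 1, by omega⟩

/-- Degrees divisible by `6`, `14` and `21`. -/
theorem exists_dvd [IsSimpleGroup G] {P : Subgroup G} (hG : Nat.card G = 6048) (hP : Nat.card P = 27)
    (hB : Nat.card (normalizer (P : Set G)) = 216)
    (ti : ∀ g : G, ∀ x ∈ P, x ≠ 1 → g * x * g⁻¹ ∈ P → g ∈ normalizer (P : Set G))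
    {t : G} (ht : t ∈ normalizer (P : Set G)) (ht8 : t ^ 2 ^ 3 = 1)
    (hf : ∀ y ∈ P, t * y * t⁻¹ = y → y = 1) :
    (∃ χ : IrrCharacter G, 6 ∣ charDegree χ.1) ∧ (∃ χ : IrrCharacter G, 14 ∣ charDegree χ.1) ∧
      ∃ χ : IrrCharacter G, 21 ∣ charDegree χ.1 := by
  classical
  obtain ⟨m, hm1, hm2, hm3, hm4⟩ := exists_mult hG hP hB ti ht ht8 hf
  obtain ⟨a, b, y, z, da, db, dy, dz, hyz, hR⟩ := exists_degs hG
  have d1 : charDegree (irrOne G).1 = 1 := by rw [charDegree, irrOne_apply]; simp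
  have hnd : [irrOne G, a, b, y, z].Nodup := by
    have ne : ∀ {u v : IrrCharacter G} {i j : ℕ}, charDegree u.1 = i → charDegree v.1 = j → i ≠ j → u ≠ v := by
      rintro u v i j rfl rfl h rfl; exact h rfl
    simp only [List.nodup_cons, List.mem_cons, List.not_mem_nil, or_false, not_or, List.nodup_nil,
      and_true, not_false_eq_true]
    exact ⟨⟨ne d1 da (by norm_num), ne d1 db (by norm_num), ne d1 dy (by norm_num), ne d1 dz (by norm_num)⟩,
      ⟨ne da db (by norm_num), ne da dy (by norm_num), ne da dz (by norm_num)⟩,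
      ⟨ne db dy (by norm_num), ne db dz (by norm_num)⟩, hyz⟩
  set R := ([irrOne G, a, b, y, z].toFinset)ᶜ with hRdef
  have split : ∀ f : IrrCharacter G → ℕ, ∑ χ, f χ = f (irrOne G) + f a + f b + f y + f z + ∑ χ ∈ R, f χ := by
    intro f
    rw [← Finset.sum_add_sum_compl [irrOne G, a, b, y, z].toFinset, List.sum_toFinset _ hnd]
    simp only [List.map_cons, List.map_nil, List.sum_cons, List.sum_nil]
    ring
  have hsq := CL.Ord.sum_deg_sq (G := G)
  rw [split, d1, da, db, dy, dz] at hm1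
  rw [split, hm3] at hm2
  rw [split, d1, da, db, dy, dz, hG] at hsq
  have pa := hm4 a; have pb := hm4 b; have py := hm4 y; have pz := hm4 z
  rw [da] at pa; rw [db] at pb; rw [dy] at py; rw [dz] at pz
  unfold Nat.ModEq at pa pb py pz
  have lt4 : ∀ {u : ℕ}, u ^ 2 ≤ 15 → u < 4 := fun h => by nlinarith
  have ba : m a < 4 := lt4 (by omega)
  have bb : m b < 4 := lt4 (by omega)
  have by' : m y < 4 := lt4 (by omega)
  have bz : m z < 4 := lt4 (by omega)
  have facts : ∀ χ ∈ R, ∃ k, charDegree χ.1 = 7 * k ∧ k ∣ 864 ∧ k < 9 ∧ m χ < 4 ∧ m χ % 2 = k % 2 := by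
    intro χ hχ
    obtain ⟨k, hk⟩ := hR χ (by simpa [hRdef] using hχ)
    have h1 := χ.2.charDegree_dvd_card
    have h2 := Finset.single_le_sum (f := fun χ : IrrCharacter G => charDegree χ.1 ^ 2)
      (fun _ _ => Nat.zero_le _) hχ
    have h3 := Finset.single_le_sum (f := fun χ : IrrCharacter G => m χ ^ 2)
      (fun _ _ => Nat.zero_le _) hχ
    have h4 := hm4 χ
    unfold Nat.ModEq at h4
    rw [hG, hk] at h1
    rw [hk] at h2 h4
    refine ⟨k, hk, (Nat.mul_dvd_mul_iff_left (by norm_num : 0 < 7)).mp h1, ?_, lt4 (by omega), by omega⟩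
    by_contra h5
    have : (7 * 9) ^ 2 ≤ (7 * k) ^ 2 := Nat.pow_le_pow_left (by omega) 2
    omega
  refine ⟨⟨a, by rw [da]⟩, ?_, ?_⟩
  · by_contra hn
    push Not at hn
    obtain ⟨n1, n2, n3, n4, h1, h2, h3⟩ := countA (fun χ : IrrCharacter G => charDegree χ.1) m R fun χ hχ => by
      obtain ⟨k, hk, h1, h2, h3, h4⟩ := facts χ hχ
      have h5 := hn χ
      rw [hk] at h5 ⊢
      interval_cases k <;> omega
    rw [h1] at hsq; rw [h2] at hm1; rw [h3] at hm2
    interval_cases m a <;> interval_cases m b <;> interval_cases m y <;> interval_cases m z <;> omega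
  · by_contra hn
    push Not at hn
    obtain ⟨n1, n2, n3, n4, n5, h2, h3⟩ := countB (fun χ : IrrCharacter G => charDegree χ.1) m R fun χ hχ => by
      obtain ⟨k, hk, h1, h2, h3, h4⟩ := facts χ hχ
      have h5 := hn χ
      rw [hk] at h5 ⊢
      interval_cases k <;> omega
    rw [h2] at hm1; rw [h3] at hm2
    interval_cases m a <;> interval_cases m b <;> interval_cases m y <;> interval_cases m z <;> omega

end CL.U33D
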