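import Mathlib

/-!
A group of unitriangular `n × n` matrices over `ZMod p` has abelianisation of order at most
`p ^ (n ^ 2 / 4)`: filter by generic heights, and apply Mantel's theorem to the leading positions.
-/

set_option autoImplicit false

namespace CL.UniGen

open Subgroup
open scoped commutatorElement

variable {n : ℕ} {F : Type*} [Field F]

/-- All entries of height below `s` vanish. -/
def Lev (s : ℕ) (N : Matrix (Fin n) (Fin n) F) : Prop :=
  ∀ i j : Fin n, 2 ^ (j : ℕ) < 2 ^ (i : ℕ) + s → N i j = 0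

theorem Lev.mono {s r : ℕ} {N : Matrix (Fin n) (Fin n) F} (h : Lev s N) (hr : r ≤ s) : Lev r N :=
  fun i j e => h i j (by omega)

theorem Lev.mul {s r : ℕ} {N M : Matrix (Fin n) (Fin n) F} (h : Lev s N) (h' : Lev r M) :
    Lev (s + r) (N * M) := fun i k e => by
  rw [Matrix.mul_apply]
  refine Finset.sum_eq_zero fun j _ => ?_
  by_cases h1 : 2 ^ (j : ℕ) < 2 ^ (i : ℕ) + s
  · rw [h i j h1, zero_mul]
  · rw [h' j k (by omega), mul_zero]

theorem Lev.add {s : ℕ} {N M : Matrix (Fin n) (Fin n) F} (h : Lev s N) (h' : Lev s M) :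
    Lev s (N + M) := fun i j e => by rw [Matrix.add_apply, h i j e, h' i j e, add_zero]

theorem Lev.neg {s : ℕ} {N : Matrix (Fin n) (Fin n) F} (h : Lev s N) : Lev s (-N) :=
  fun i j e => by rw [Matrix.neg_apply, h i j e, neg_zero]

theorem lev_one : Lev 0 (1 : Matrix (Fin n) (Fin n) F) := fun i j e =>
  Matrix.one_apply_ne fun h => by subst h; omega

theorem uniq {i j k l s : ℕ} (hs : 0 < s) (h : 2 ^ j = 2 ^ i + s) (h' : 2 ^ l = 2 ^ k + s) :
    i = k ∧ j = l := by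
  have key : ∀ {i j k l : ℕ}, 2 ^ j = 2 ^ i + s → 2 ^ l = 2 ^ k + s → ¬ j < l := fun {i j k l} h h' e => by
    have h1 : k < l := (Nat.pow_lt_pow_iff_right one_lt_two).1 (by omega)
    obtain ⟨l, rfl⟩ : ∃ m, l = m + 1 := ⟨l - 1, by omega⟩
    have h2 := Nat.pow_le_pow_right two_pos (show j ≤ l by omega)
    have h3 := Nat.pow_le_pow_right two_pos (show k ≤ l by omega)
    have := Nat.two_pow_pos i
    omega
  obtain rfl : j = l := le_antisymm (not_lt.1 (key h' h)) (not_lt.1 (key h h'))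
  exact ⟨Nat.pow_right_injective le_rfl (show 2 ^ i = 2 ^ k by omega), rfl⟩

variable {G : Type*} [Group G] (f : G →* Matrix (Fin n) (Fin n) F) (hf : ∀ g, Lev 1 (f g - 1))

include hf in
theorem lev_zero (g : G) : Lev 0 (f g) := by
  simpa using ((hf g).mono zero_le_one).add lev_one

/-- The filtration. -/
def lev (s : ℕ) : Subgroup G where
  carrier := {g | Lev s (f g - 1)}
  one_mem' := fun i j _ => by simp
  mul_mem' := fun {a b} ha hb => by
    have := (ha.mul (lev_zero f hf b)).add hb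
    rwa [sub_mul, one_mul, sub_add_sub_cancel, ← map_mul] at this
  inv_mem' := fun {a} ha => by
    have := ((lev_zero f hf a⁻¹).mul ha).neg
    rwa [mul_sub, ← map_mul, inv_mul_cancel, map_one, mul_one, neg_sub, zero_add] at this

theorem mem_lev {s : ℕ} {g : G} : g ∈ lev f hf s ↔ Lev s (f g - 1) := Iff.rfl

theorem lev_anti (s : ℕ) : lev f hf (s + 1) ≤ lev f hf s := fun _ h => Lev.mono h s.le_succ

/-- The leading coefficient. -/
def lead {s : ℕ} (hs : 0 < s) {i j : Fin n} (h : 2 ^ (j : ℕ) = 2 ^ (i : ℕ) + s) :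
    lev f hf s →* Multiplicative F :=
  MonoidHom.mk' (fun g => Multiplicative.ofAdd ((f g - 1) i j)) fun a b => by
    have h1 := (a.2.mul b.2) i j (by omega)
    have h2 : f (a * b : G) - 1 = (f a - 1) * (f b - 1) + ((f a - 1) + (f b - 1)) := by
      rw [map_mul]; noncomm_ring
    rw [← ofAdd_add, Subgroup.coe_mul, h2, Matrix.add_apply, h1, zero_add, Matrix.add_apply]

theorem ker_lead {s : ℕ} (hs : 0 < s) {i j : Fin n} (h : 2 ^ (j : ℕ) = 2 ^ (i : ℕ) + s) :
    (lead f hf hs h).ker = (lev f hf (s + 1)).subgroupOf (lev f hf s) := by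
  ext g
  refine ⟨fun h1 k l e => ?_, fun h1 => h1 i j (by omega)⟩
  by_cases h2 : 2 ^ (l : ℕ) = 2 ^ (k : ℕ) + s
  · obtain ⟨h3, h4⟩ := uniq hs h h2
    rw [← Fin.ext h3, ← Fin.ext h4]
    exact h1
  · exact g.2 k l (by omega)

theorem exists_lead {s : ℕ} (h : ¬ lev f hf s ≤ lev f hf (s + 1)) :
    ∃ i j : Fin n, 2 ^ (j : ℕ) = 2 ^ (i : ℕ) + s ∧ ∃ g ∈ lev f hf s, (f g - 1) i j ≠ 0 := by
  by_contra! h1
  refine h fun g hg i j e => ?_
  by_cases h2 : 2 ^ (j : ℕ) = 2 ^ (i : ℕ) + s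
  · exact h1 i j h2 g hg
  · exact hg i j (by omega)

theorem comm_lead {s r : ℕ} (hs : 0 < s) (hr : 0 < r) {i j k : Fin n}
    (h : 2 ^ (j : ℕ) = 2 ^ (i : ℕ) + s) (h' : 2 ^ (k : ℕ) = 2 ^ (j : ℕ) + r) {a b : G}
    (ha : a ∈ lev f hf s) (hb : b ∈ lev f hf r) : ⁅a, b⁆ ∈ lev f hf (s + r) ∧
      (f ⁅a, b⁆ - 1) i k = (f a - 1) i j * (f b - 1) j k := by
  have h1 := (Lev.mul ha hb).add (add_comm r s ▸ (Lev.mul hb ha).neg)
  have h2 : f ⁅a, b⁆ - 1 = ((f a - 1) * (f b - 1) + -((f b - 1) * (f a - 1))) * (f (a⁻¹ * b⁻¹) - 1)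
      + ((f a - 1) * (f b - 1) + -((f b - 1) * (f a - 1))) := by
    have h3 : f ⁅a, b⁆ = f a * f b * f (a⁻¹ * b⁻¹) := by
      rw [← map_mul, ← map_mul, commutatorElement_def, mul_assoc (a * b)]
    have h4 : (1 : Matrix (Fin n) (Fin n) F) = f b * f a * f (a⁻¹ * b⁻¹) := by
      rw [← map_mul, ← map_mul, ← map_one f]; congr 1; group
    rw [h3]
    nth_rw 1 [h4]
    noncomm_ring
  have h3 := h1.mul (hf (a⁻¹ * b⁻¹))
  refine ⟨(mem_lev f hf).2 (h2 ▸ (h3.mono (by omega)).add h1), ?_⟩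
  rw [h2, Matrix.add_apply, h3 i k (by omega), zero_add, Matrix.add_apply, Matrix.neg_apply,
    Matrix.mul_apply, Matrix.mul_apply, Finset.sum_eq_single j, Finset.sum_eq_zero, neg_zero,
    add_zero]
  · intro l _
    by_cases e : 2 ^ (l : ℕ) < 2 ^ (i : ℕ) + r
    · rw [hb i l e, zero_mul]
    by_cases e' : 2 ^ (k : ℕ) < 2 ^ (l : ℕ) + s
    · rw [ha l k e', mul_zero]
    have := (uniq hr h' (show 2 ^ (l : ℕ) = 2 ^ (i : ℕ) + r by omega)).1
    rw [this] at h
    omega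
  · intro l _ e
    by_cases e' : 2 ^ (l : ℕ) < 2 ^ (i : ℕ) + s
    · rw [ha i l e', zero_mul]
    refine mul_eq_zero_of_right _ (hb l k ?_)
    have : 2 ^ (l : ℕ) ≠ 2 ^ (j : ℕ) := fun e' => e (Fin.ext (Nat.pow_right_injective le_rfl e'))
    omega
  · exact fun e => absurd (Finset.mem_univ j) e

end CL.UniGen

namespace CL.UniGen

open Subgroup
open scoped commutatorElement

variable {n p : ℕ} [hp : Fact p.Prime] {G : Type*} [Group G] [Finite G]
  (f : G →* Matrix (Fin n) (Fin n) (ZMod p)) (hf : ∀ g, Lev 1 (f g - 1))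

include hf in
theorem index_le {D : Subgroup G} (hD : commutator G ≤ D) (hK : ∀ g, f g = 1 → g ∈ D) :
    D.index ≤ p ^ (n ^ 2 / 4) := by
  classical
  let B : ℕ → Prop := fun s => ¬ lev f hf s ≤ D ⊔ lev f hf (s + 1)
  let E : Finset (Fin n × Fin n) := {x | x.1 < x.2 ∧ B (2 ^ (x.2 : ℕ) - 2 ^ (x.1 : ℕ))}
  have h1 : ∀ s, (D ⊔ lev f hf (s + 1)).index ≤
      p ^ (E.filter fun x => 2 ^ (x.2 : ℕ) ≤ 2 ^ (x.1 : ℕ) + s).card := fun s => by
    induction s with
    | zero =>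
      rw [show D ⊔ lev f hf (0 + 1) = ⊤ from eq_top_iff.2 fun g _ => mem_sup_right (hf g), index_top]
      exact Nat.one_le_pow _ _ hp.out.pos
    | succ s ih =>
      have h2 : E.filter (fun x => 2 ^ (x.2 : ℕ) ≤ 2 ^ (x.1 : ℕ) + s) ⊆
          E.filter fun x => 2 ^ (x.2 : ℕ) ≤ 2 ^ (x.1 : ℕ) + (s + 1) :=
        Finset.monotone_filter_right _ fun x _ h => by omega
      have h3 := sup_le_sup_left (lev_anti f hf (s + 1)) D
      by_cases h4 : B (s + 1)
      · obtain ⟨i, j, h5, -⟩ := exists_lead f hf fun e => h4 (le_sup_of_le_right e)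
        have h6 := Finset.card_lt_card ((Finset.ssubset_iff_of_subset h2).2 ⟨(i, j), by
          simp only [E, Finset.mem_filter, Finset.mem_univ, true_and]
          exact ⟨⟨(Nat.pow_lt_pow_iff_right one_lt_two).1 (show 2 ^ (i : ℕ) < 2 ^ (j : ℕ) by omega),
            by rwa [show 2 ^ (j : ℕ) - 2 ^ (i : ℕ) = s + 1 by omega]⟩, h5.le⟩, fun e => by
              have := (Finset.mem_filter.1 e).2
              dsimp only at this
              omega⟩)
        have : (D ⊔ lev f hf (s + 1 + 1)).Normal := Normal.of_commutator_le _ (le_sup_of_le_left hD)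
        have h7 : (D ⊔ lev f hf (s + 1 + 1)).relIndex (D ⊔ lev f hf (s + 1)) ≤ p := by
          rw [show D ⊔ lev f hf (s + 1) = lev f hf (s + 1) ⊔ (D ⊔ lev f hf (s + 1 + 1)) by
            rw [← sup_assoc, sup_comm _ D, sup_assoc, sup_eq_left.2 (lev_anti f hf _)],
            relIndex_sup_right]
          refine (relIndex_le_of_le_left le_sup_right index_ne_zero_of_finite).trans ?_
          rw [relIndex, ← ker_lead f hf s.succ_pos h5, index_ker]
          exact (card_le_card_group _).trans (by simp)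
        rw [← relIndex_mul_index h3]
        exact (Nat.mul_le_mul h7 ih).trans ((pow_succ' p _).ge.trans
          (Nat.pow_le_pow_right hp.out.pos h6))
      · rw [le_antisymm h3 (sup_le le_sup_left (not_not.1 h4))]
        exact ih.trans (Nat.pow_le_pow_right hp.out.pos (Finset.card_le_card h2))
  have h2 : D ⊔ lev f hf (2 ^ n + 1) = D := sup_eq_left.2 fun g hg => hK g (sub_eq_zero.1
    (Matrix.ext fun i j => hg i j (by
      exact (Nat.pow_lt_pow_right one_lt_two j.2).trans_le (le_add_left (Nat.le_succ _)))))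
  refine (h2 ▸ h1 _).trans (Nat.pow_le_pow_right hp.out.pos ((Finset.card_filter_le _ _).trans ?_))
  let Γ : SimpleGraph (Fin n) := SimpleGraph.fromRel fun i j => (i, j) ∈ E
  have h3 : ∀ i j k, (i, j) ∈ E → (j, k) ∈ E → (i, k) ∉ E := fun i j k a b c => by
    simp only [E, Finset.mem_filter, Finset.mem_univ, true_and] at a b c
    have a1 := Nat.pow_lt_pow_right one_lt_two (show (i : ℕ) < j from a.1)
    have b1 := Nat.pow_lt_pow_right one_lt_two (show (j : ℕ) < k from b.1)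
    obtain ⟨i', j', a2, x, a3, a4⟩ := exists_lead f hf fun e => a.2 (le_sup_of_le_right e)
    obtain ⟨j'', k', b2, y, b3, b4⟩ := exists_lead f hf fun e => b.2 (le_sup_of_le_right e)
    obtain ⟨a5, a6⟩ := uniq (by omega) a2 (k := i) (l := j) (by omega)
    obtain ⟨b5, b6⟩ := uniq (by omega) b2 (k := j) (l := k) (by omega)
    rw [Fin.ext a5, Fin.ext a6] at a2 a4
    rw [Fin.ext b5, Fin.ext b6] at b2 b4
    obtain ⟨c1, c2⟩ := comm_lead f hf (by omega) (by omega) a2 b2 a3 b3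
    rw [show 2 ^ (j : ℕ) - 2 ^ (i : ℕ) + (2 ^ (k : ℕ) - 2 ^ (j : ℕ)) = 2 ^ (k : ℕ) - 2 ^ (i : ℕ) by
      omega] at c1
    have c3 : 2 ^ (k : ℕ) = 2 ^ (i : ℕ) + (2 ^ (k : ℕ) - 2 ^ (i : ℕ)) := by omega
    refine c.2 fun g hg => ?_
    obtain ⟨m, hm⟩ := mem_zpowers_of_prime_card (G := Multiplicative (ZMod p)) (p := p) (by simp)
      (g := lead f hf (by omega) c3 ⟨_, c1⟩) (g' := lead f hf (by omega) c3 ⟨g, hg⟩)
      (fun e => mul_ne_zero a4 b4 (c2.symm.trans e))
    have c4 : (⟨_, c1⟩ ^ m)⁻¹ * ⟨g, hg⟩ ∈ (lead f hf (by omega) c3).ker := by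
      rw [MonoidHom.mem_ker, map_mul, map_inv, map_zpow, inv_mul_eq_one]
      exact hm
    rw [ker_lead] at c4
    rw [← mul_inv_cancel_left (⁅x, y⁆ ^ m) g]
    exact mul_mem (mem_sup_left (zpow_mem (hD (commutator_mem_commutator (mem_top _)
      (mem_top _))) m)) (mem_sup_right c4)
  have h4 : ∀ i j, (i, j) ∈ E → i < j := fun i j h => (Finset.mem_filter.1 h).2.1
  have h5 : Γ.CliqueFree (2 + 1) := fun t ht => by
    obtain ⟨a, b, c, h5, h6, h7, -⟩ := SimpleGraph.is3Clique_iff.1 ht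
    rcases h5.2 with h5 | h5 <;> rcases h6.2 with h6 | h6 <;> rcases h7.2 with h7 | h7
    exacts [h3 _ _ _ h5 h7 h6, h3 _ _ _ h6 h7 h5, lt_asymm ((h4 _ _ h5).trans (h4 _ _ h7))
      (h4 _ _ h6), h3 _ _ _ h6 h5 h7, h3 _ _ _ h5 h6 h7, lt_asymm ((h4 _ _ h5).trans (h4 _ _ h6))
        (h4 _ _ h7), h3 _ _ _ h7 h6 h5, h3 _ _ _ h7 h5 h6]
  have h6 := h5.card_edgeFinset_le
  have h7 : E.card ≤ Γ.edgeFinset.card := Finset.card_le_card_of_injOn (fun x => s(x.1, x.2))
    (fun x hx => SimpleGraph.mem_edgeFinset.2 (show Γ.Adj x.1 x.2 from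
      ⟨(h4 _ _ hx).ne, Or.inl hx⟩)) fun x hx y hy e => by
      rcases Sym2.eq_iff.1 e with e | e
      · exact Prod.ext e.1 e.2
      · exact absurd (h4 _ _ hx) (by rw [e.1, e.2]; exact (h4 _ _ hy).not_gt)
  simp only [Fintype.card_fin] at h6
  have h8 : (n % 2).choose 2 = 0 := Nat.choose_eq_zero_of_lt (Nat.mod_lt _ two_pos)
  omega

end CL.UniGen
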